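import Cfsg.Agent.Lib.H79.WrKer
import Cfsg.Agent.Lib.H6.SLCard
import Cfsg.Agent.Lib.H7.LowRank

/-! Sylow 2-subgroups of `SL_n(q)`, `q ≡ 3 (mod 4)`. -/

set_option autoImplicit false
set_option linter.unusedSectionVars false
set_option linter.style.haveILetI false

namespace H79.GLWr

open Subgroup H79.SylElem H79.WrGd H79.WrSyl H79.WrKer Matrix Equiv
open scoped MatrixGroups

section emb

variable {m : ℕ} {F : Type*} [Field F] {R : Type} [Fintype R] [DecidableEq R] {β : Type} [Fintype β]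
  [DecidableEq β]

/-- permutation matrices, covariant -/
def pmat {κ : Type} [Fintype κ] [DecidableEq κ] (F : Type*) [Field F] (σ : Perm κ) : Matrix κ κ F :=
  Matrix.of fun i j => if i = σ j then 1 else 0

theorem pmat_apply {κ : Type} [Fintype κ] [DecidableEq κ] (σ : Perm κ) (i j : κ) :
    pmat F σ i j = if i = σ j then 1 else 0 := rfl

theorem pmat_mul_apply {κ : Type} [Fintype κ] [DecidableEq κ] (σ : Perm κ) (M : Matrix κ κ F) (i j : κ) :
    (pmat F σ * M) i j = M (σ⁻¹ i) j := by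
  rw [Matrix.mul_apply, Finset.sum_eq_single (σ⁻¹ i)]
  · rw [pmat_apply, if_pos (by simp), one_mul]
  · intro b _ hb
    rw [pmat_apply, if_neg, zero_mul]
    rintro rfl
    exact hb (by simp)
  · simp

theorem mul_pmat_apply {κ : Type} [Fintype κ] [DecidableEq κ] (σ : Perm κ) (M : Matrix κ κ F) (i j : κ) :
    (M * pmat F σ) i j = M i (σ j) := by
  rw [Matrix.mul_apply, Finset.sum_eq_single (σ j)]
  · rw [pmat_apply, if_pos rfl, mul_one]
  · intro b _ hb
    rw [pmat_apply, if_neg hb, mul_zero]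
  · simp

theorem pmat_mul {κ : Type} [Fintype κ] [DecidableEq κ] (σ τ : Perm κ) :
    pmat F (σ * τ) = pmat F σ * pmat F τ := by
  ext i j
  rw [mul_pmat_apply, pmat_apply, pmat_apply]
  rfl

theorem pmat_one {κ : Type} [Fintype κ] [DecidableEq κ] : pmat F (1 : Perm κ) = 1 := by
  ext i j
  rw [pmat_apply, Matrix.one_apply]
  rfl

theorem pmat_inj {κ : Type} [Fintype κ] [DecidableEq κ] {σ τ : Perm κ} (h : pmat F σ = pmat F τ) : σ = τ := by
  apply Equiv.ext
  intro i
  have h1 := congrFun (congrFun h (σ i)) i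
  rw [pmat_apply, pmat_apply, if_pos rfl] at h1
  by_contra hne
  rw [if_neg hne] at h1
  exact one_ne_zero h1

theorem det_pmat {κ : Type} [Fintype κ] [DecidableEq κ] (σ : Perm κ) : (pmat F σ).det = ((Perm.sign σ : ℤˣ) : ℤ) := by
  have h1 : pmat F σ = Equiv.Perm.permMatrix F σ⁻¹ := by
    ext i j
    rw [pmat_apply, Equiv.Perm.permMatrix, PEquiv.toMatrix_apply, Equiv.toPEquiv_apply]
    simp only [Option.mem_some_iff]
    congr 1
    rw [eq_iff_iff]
    constructor
    · rintro rfl; simp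
    · rintro rfl; simp
  rw [h1, Matrix.det_permutation, Perm.sign_inv]

/-- the index set -/
abbrev J (β : Type) (m : ℕ) (R : Type) : Type := (β × Fin m) ⊕ R

/-- block embedding -/
def eMat : (Fin m → GL β F) × GL R F →* Matrix (J β m R) (J β m R) F where
  toFun f := fromBlocks (blockDiagonal fun i => (f.1 i : Matrix β β F)) 0 0 (f.2 : Matrix R R F)
  map_one' := by
    have h1 : (fun i : Fin m => (((1 : (Fin m → GL β F) × GL R F).1 i : GL β F) : Matrix β β F)) = 1 := rfl
    rw [h1, blockDiagonal_one]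
    exact fromBlocks_one
  map_mul' f g := by
    rw [fromBlocks_multiply]
    simp only [Matrix.mul_zero, Matrix.zero_mul, add_zero, zero_add]
    rw [← blockDiagonal_mul]
    rfl

theorem eMat_apply (f : (Fin m → GL β F) × GL R F) :
    eMat f = fromBlocks (blockDiagonal fun i => (f.1 i : Matrix β β F)) 0 0 (f.2 : Matrix R R F) := rfl

/-- block embedding -/
def eHom : (Fin m → GL β F) × GL R F →* GL (J β m R) F := (eMat (F := F) (R := R)).toHomUnits

theorem eHom_val (f : (Fin m → GL β F) × GL R F) :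
    (eHom f : Matrix (J β m R) (J β m R) F) = fromBlocks (blockDiagonal fun i => (f.1 i : Matrix β β F)) 0 0 (f.2 : Matrix R R F) := rfl

theorem eHom_injective : Function.Injective (eHom (m := m) (F := F) (R := R) (β := β)) := by
  intro f g h
  have h1 := congrArg (fun x : GL (J β m R) F => (x : Matrix (J β m R) (J β m R) F)) h
  simp only [eHom_val, fromBlocks_inj] at h1
  refine Prod.ext (funext fun i => Units.ext ?_) (Units.ext h1.2.2.2)
  exact congrFun (blockDiagonal_injective h1.1) i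

theorem det_eHom (f : (Fin m → GL β F) × GL R F) :
    GeneralLinearGroup.det (eHom f) = chi (GeneralLinearGroup.det : GL β F →* Fˣ)
      (GeneralLinearGroup.det : GL R F →* Fˣ) f := by
  apply Units.ext
  rw [chi_apply, GeneralLinearGroup.val_det_apply, eHom_val, det_fromBlocks_zero₂₁, det_blockDiagonal]
  simp [Units.coe_prod]

/-- permutation of the blocks, as a permutation of the index set -/
def bp (σ : Perm (Fin m)) : Perm (J β m R) := Equiv.sumCongr (Equiv.prodCongr (Equiv.refl _) σ) (Equiv.refl _)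

theorem bp_mul (σ τ : Perm (Fin m)) : (bp (σ * τ) : Perm (J β m R)) = bp σ * bp τ := by
  apply Equiv.ext
  rintro (⟨a, i⟩ | r) <;> rfl

theorem bp_one : (bp 1 : Perm (J β m R)) = 1 := by
  apply Equiv.ext
  rintro (⟨a, i⟩ | r) <;> rfl

theorem bp_inv (σ : Perm (Fin m)) : (bp σ : Perm (J β m R))⁻¹ = bp σ⁻¹ := by
  rw [inv_eq_iff_mul_eq_one, ← bp_mul, mul_inv_cancel, bp_one]

theorem bp_injective [Nonempty β] : Function.Injective (bp (m := m) (R := R) (β := β)) := by
  obtain ⟨b₀⟩ := (inferInstance : Nonempty β)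
  intro σ τ h
  apply Equiv.ext
  intro i
  have h1 := congrArg (fun x : Perm (J β m R) => x (Sum.inl (b₀, i))) h
  exact (Prod.mk.inj (Sum.inl.inj h1)).2

theorem sign_bp (hβ : Even (Fintype.card β)) (σ : Perm (Fin m)) : Perm.sign (bp σ : Perm (J β m R)) = 1 := by
  have h1 : (bp σ : Perm (J β m R)) = Equiv.sumCongr (Equiv.prodCongrRight fun _ : β => σ) (1 : Perm R) := by
    apply Equiv.ext
    rintro (⟨i, z⟩ | j) <;> rfl
  rw [h1, Perm.sign_sumCongr, Perm.sign_prodCongrRight, Perm.sign_one, mul_one, Finset.prod_const,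
    Finset.card_univ]
  obtain ⟨c, hc⟩ := hβ
  rw [hc, ← two_mul, pow_mul, Int.units_sq, one_pow]

/-- permutation of the blocks -/
def pHom : Perm (Fin m) →* GL (J β m R) F :=
  MonoidHom.toHomUnits
    { toFun := fun σ => pmat F (bp σ : Perm (J β m R))
      map_one' := by rw [bp_one, pmat_one]
      map_mul' := fun σ τ => by rw [bp_mul, pmat_mul] }

theorem pHom_val (σ : Perm (Fin m)) :
    ((pHom σ : GL (J β m R) F) : Matrix (J β m R) (J β m R) F) = pmat F (bp σ) := rfl

theorem pHom_injective [Nonempty β] : Function.Injective (pHom (m := m) (F := F) (R := R) (β := β)) := by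
  intro σ τ h
  have h1 := congrArg (fun x : GL (J β m R) F => (x : Matrix (J β m R) (J β m R) F)) h
  exact bp_injective (pmat_inj h1)

theorem det_pHom (hβ : Even (Fintype.card β)) (σ : Perm (Fin m)) : GeneralLinearGroup.det (pHom σ : GL (J β m R) F) = 1 := by
  apply Units.ext
  rw [GeneralLinearGroup.val_det_apply, pHom_val, det_pmat, sign_bp hβ]
  simp

theorem conj_rel (σ : Perm (Fin m)) (f : Fin m → GL β F) (x : GL R F) :
    pHom σ * eHom (f, x) * (pHom σ)⁻¹ = eHom (fun i => f (σ⁻¹ i), x) := by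
  rw [mul_inv_eq_iff_eq_mul]
  apply Units.ext
  rw [Units.val_mul, Units.val_mul, pHom_val, eHom_val, eHom_val]
  ext i j
  rw [pmat_mul_apply, mul_pmat_apply, bp_inv]
  rcases i with ⟨a, i⟩ | i <;> rcases j with ⟨b, j⟩ | j
  · show blockDiagonal (fun i => (f i : Matrix β β F)) (a, σ⁻¹ i) (b, j) =
      blockDiagonal (fun i => (f (σ⁻¹ i) : Matrix β β F)) (a, i) (b, σ j)
    rw [blockDiagonal_apply, blockDiagonal_apply]
    have h1 : (σ⁻¹ i = j) ↔ (i = σ j) := by
      constructor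
      · rintro rfl; simp
      · rintro rfl; simp
    by_cases h : i = σ j
    · rw [if_pos (h1.2 h), if_pos h]
    · rw [if_neg (fun h' => h (h1.1 h')), if_neg h]
  · rfl
  · rfl
  · rfl

theorem meet [Nonempty β] (f : (Fin m → GL β F) × GL R F) (σ : Perm (Fin m)) (h : eHom f = pHom σ) : σ = 1 := by
  have h1 := congrArg (fun x : GL (J β m R) F => (x : Matrix (J β m R) (J β m R) F)) h
  simp only [eHom_val, pHom_val] at h1
  obtain ⟨b₀⟩ := (inferInstance : Nonempty β)
  apply Equiv.ext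
  intro i
  have h2 := congrFun (congrFun h1 (Sum.inl (b₀, σ i))) (Sum.inl (b₀, i))
  rw [pmat_apply, if_pos (show Sum.inl (b₀, σ i) = (bp σ : Perm (J β m R)) (Sum.inl (b₀, i)) from rfl)] at h2
  by_contra hne
  have h3 : blockDiagonal (fun i => (f.1 i : Matrix β β F)) (b₀, σ i) (b₀, i) = 0 := by
    rw [blockDiagonal_apply]
    exact if_neg hne
  exact zero_ne_one (h3.symm.trans h2)

end emb

theorem card_inf_ker {A K : Type*} [Group A] [Finite A] [Group K] (θ : A →* K) (D : Subgroup A) :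
    Nat.card (D.map θ) * Nat.card (D ⊓ θ.ker : Subgroup A) = Nat.card D := by
  have h1 := (θ.comp D.subtype).ker.card_mul_index
  rw [Subgroup.index_ker] at h1
  have h2 : (θ.comp D.subtype).range = D.map θ := by
    rw [MonoidHom.range_comp, Subgroup.range_subtype]
  have h3 : (θ.comp D.subtype).ker.map D.subtype = D ⊓ θ.ker := by
    ext x
    rw [mem_inf]
    constructor
    · rintro ⟨y, hy, rfl⟩
      exact ⟨y.2, hy⟩
    · rintro ⟨h4, h5⟩
      exact ⟨⟨x, h4⟩, h5, rfl⟩
  have h4 : Nat.card (D ⊓ θ.ker : Subgroup A) = Nat.card (θ.comp D.subtype).ker := by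
    rw [← h3]
    exact (Nat.card_congr (Subgroup.equivMapOfInjective _ D.subtype (subtype_injective _)).toEquiv).symm
  rw [h4, ← h2, mul_comm, h1]

section val

open Finset in
theorem val_gl {q : ℕ} (hq : Odd q) (hq1 : 1 < q) (n : ℕ) :
    padicValNat 2 (∏ i : Fin n, (q ^ n - q ^ (i : ℕ))) =
      ∑ j ∈ range n, padicValNat 2 (q ^ (j + 1) - 1) := by
  haveI : Fact (Nat.Prime 2) := ⟨Nat.prime_two⟩
  have h1 : ∀ i : Fin n, q ^ n - q ^ (i : ℕ) = q ^ (i : ℕ) * (q ^ (n - i) - 1) := by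
    intro i
    rw [Nat.mul_sub, mul_one, ← pow_add, Nat.add_sub_cancel' i.2.le]
  have h2 : ∏ i : Fin n, (q ^ n - q ^ (i : ℕ)) = ∏ i ∈ range n, (q ^ i * (q ^ (n - i) - 1)) := by
    rw [← Fin.prod_univ_eq_prod_range (fun i => q ^ i * (q ^ (n - i) - 1)) n]
    exact Finset.prod_congr rfl fun i _ => h1 i
  have h3 : ∀ i ∈ range n, q ^ i * (q ^ (n - i) - 1) ≠ 0 := by
    intro i hi
    have := Finset.mem_range.1 hi
    exact mul_ne_zero (by positivity) (ValQ.pow_sub_ne hq1 (by omega))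
  have h4 : ∀ s : Finset ℕ, s ⊆ range n → padicValNat 2 (∏ i ∈ s, (q ^ i * (q ^ (n - i) - 1))) =
      ∑ i ∈ s, padicValNat 2 (q ^ (n - i) - 1) := by
    intro s
    induction s using Finset.induction_on with
    | empty => intro _; simp
    | insert a s ha ih =>
      intro hs
      have hs' : s ⊆ range n := fun x hx => hs (Finset.mem_insert_of_mem hx)
      have ha' := Finset.mem_range.1 (hs (Finset.mem_insert_self _ _))
      rw [Finset.prod_insert ha, Finset.sum_insert ha, padicValNat.mul (h3 a (hs (Finset.mem_insert_self _ _)))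
        (Finset.prod_ne_zero_iff.2 fun i hi => h3 i (hs' hi)), ih hs',
        padicValNat.mul (by positivity) (ValQ.pow_sub_ne hq1 (by omega)), ValQ.val_pow_odd hq, zero_add]
  rw [h2, h4 _ (Finset.Subset.refl _), ← Finset.sum_range_reflect]
  refine Finset.sum_congr rfl fun i hi => ?_
  have := Finset.mem_range.1 hi
  congr 3
  omega

theorem card_full_map_le {m : ℕ} {A B K : Type*} [Group A] [Group B] [CommGroup K] (θ : A →* K)
    (θ' : B →* K) (D : Subgroup A) (C : Subgroup B) (i₀ : Fin m) (M : Subgroup K) (hM : D.map θ = M)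
    (hC : C.map θ' ≤ M) : (full (ι := Fin m) D C).map (chi θ θ') = M := by
  apply le_antisymm
  · rintro _ ⟨f, hf, rfl⟩
    obtain ⟨h3, h4⟩ := (mem_full _ _ f).1 hf
    rw [chi_apply]
    refine mul_mem (Subgroup.prod_mem _ fun i _ => ?_) (hC ⟨_, h4, rfl⟩)
    rw [← hM]
    exact ⟨_, h3 i, rfl⟩
  · rw [← hM]
    rintro _ ⟨d, hd, rfl⟩
    exact ⟨_, single_mem_full _ _ i₀ hd (one_mem _), by rw [chi_single, map_one, mul_one]⟩

theorem sum_even {q : ℕ} (hq : Odd q) (hq1 : 1 < q) (m : ℕ) :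
    ∑ j ∈ Finset.range (2 * m), padicValNat 2 (q ^ (j + 1) - 1) =
      m * (padicValNat 2 (q ^ 2 - 1) + padicValNat 2 (q - 1)) + padicValNat 2 m.factorial := by
  haveI : Fact (Nat.Prime 2) := ⟨Nat.prime_two⟩
  induction m with
  | zero => simp
  | succ m ih =>
    rw [show 2 * (m + 1) = 2 * m + 1 + 1 from by ring, Finset.sum_range_succ, Finset.sum_range_succ, ih,
      ValQ.val_odd_sub hq hq1 ⟨m, rfl⟩, show 2 * m + 1 + 1 = 2 * (m + 1) from by ring,
      ValQ.val_even hq hq1 (Nat.succ_ne_zero m), Nat.factorial_succ,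
      padicValNat.mul (by omega) (Nat.factorial_ne_zero m)]
    ring

end val

section main

variable {m : ℕ} {F : Type*} [Field F] [Fintype F] {R : Type} [Fintype R] [DecidableEq R]

theorem card_gl (κ : Type) [Fintype κ] [DecidableEq κ] : Nat.card (GL κ F) =
    ∏ i : Fin (Fintype.card κ), (Fintype.card F ^ Fintype.card κ - Fintype.card F ^ i.val) := by
  rw [← Matrix.card_GL_field]
  apply Nat.card_congr
  exact (Units.mapEquiv (Matrix.reindexAlgEquiv F F (Fintype.equivFin κ)).toMulEquiv).toEquiv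

theorem val_sl (hF : Odd (Fintype.card F)) (κ : Type) [Fintype κ] [DecidableEq κ] [Nonempty κ] :
    padicValNat 2 (Fintype.card F - 1) + padicValNat 2 (Nat.card (SpecialLinearGroup κ F)) =
      ∑ j ∈ Finset.range (Fintype.card κ), padicValNat 2 (Fintype.card F ^ (j + 1) - 1) := by
  haveI : Fact (Nat.Prime 2) := ⟨Nat.prime_two⟩
  have hq1 : 1 < Fintype.card F := Fintype.one_lt_card
  rw [← val_gl hF hq1, ← card_gl, ← H6.SLCard.card_units_mul_card_sl, H6.SLCard.card_units',
    padicValNat.mul (by omega) Nat.card_pos.ne']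

/-- main step: `q ≡ 3 (mod 4)` -/
theorem main (hq : Fintype.card F % 4 = 3) (hm : 1 ≤ m) (C : Subgroup (GL R F)) (Y : Set (GL R F))
    (hY : Y ⊆ C) (hgenY : C ≤ closure Y)
    (hY2 : ∀ y ∈ Y, y ^ 2 = 1 ∧ GeneralLinearGroup.det y = -1) (c : ℕ) (hC : Nat.card C = 2 ^ c)
    (hR : ∑ j ∈ Finset.range (2 * m + Fintype.card R), padicValNat 2 (Fintype.card F ^ (j + 1) - 1) =
      ∑ j ∈ Finset.range (2 * m), padicValNat 2 (Fintype.card F ^ (j + 1) - 1) + c)
    (P : Sylow 2 (GeneralLinearGroup.det : GL (J (Fin 2) m R) F →* Fˣ).ker) :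
    ∀ x : (P : Subgroup (GeneralLinearGroup.det : GL (J (Fin 2) m R) F →* Fˣ).ker),
      x ^ 2 ∈ commutator (P : Subgroup (GeneralLinearGroup.det : GL (J (Fin 2) m R) F →* Fˣ).ker) := by
  haveI : Fact (Nat.Prime 2) := ⟨Nat.prime_two⟩
  have hq1 : 1 < Fintype.card F := Fintype.one_lt_card
  have hF : Odd (Fintype.card F) := Nat.odd_iff.2 (by omega)
  have h2 : (2 : F) ≠ 0 := H6.SL2Tor.two_ne_zero_of_odd hF
  have hneg : (-1 : Fˣ) ≠ 1 := by
    intro h
    have h3 := congrArg Units.val h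
    simp only [Units.val_neg, Units.val_one] at h3
    apply h2
    linear_combination -h3
  -- the Sylow subgroup of GL_2
  let g₀ : GL (Fin 2) F := ⟨!![1, 0; 0, -1], !![1, 0; 0, -1], by simp [Matrix.one_fin_two], by simp [Matrix.one_fin_two]⟩
  have hg₀2 : g₀ ^ 2 = 1 := by
    rw [pow_two]
    exact Units.ext (by simp [g₀, Matrix.one_fin_two])
  have hg₀d : GeneralLinearGroup.det g₀ = -1 := by
    apply Units.ext
    simp [g₀, Matrix.det_fin_two]
  have hpg : IsPGroup 2 (zpowers g₀) := by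
    intro x
    refine ⟨1, ?_⟩
    obtain ⟨k, hk⟩ := mem_zpowers_iff.1 x.2
    apply Subtype.ext
    rw [SubmonoidClass.coe_pow, ← hk, pow_one, ← zpow_natCast, ← _root_.zpow_mul, mul_comm, _root_.zpow_mul]
    simp [hg₀2]
  obtain ⟨D, hD⟩ := hpg.exists_le_sylow
  have hg₀D : g₀ ∈ (D : Subgroup (GL (Fin 2) F)) := hD (mem_zpowers g₀)
  -- determinants of elements of `D`
  have hdetD : ∀ d ∈ (D : Subgroup (GL (Fin 2) F)), GeneralLinearGroup.det d = 1 ∨ GeneralLinearGroup.det d = -1 := by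
    intro d hd
    obtain ⟨k, hk⟩ := D.2 ⟨d, hd⟩
    have hk' : d ^ 2 ^ k = 1 := congrArg Subtype.val hk
    have h3 : orderOf (GeneralLinearGroup.det d) ∣ 2 ^ k :=
      orderOf_dvd_of_pow_eq_one (by rw [← map_pow, hk', map_one])
    have h4 : orderOf (GeneralLinearGroup.det d) ∣ Fintype.card F - 1 := by
      rw [← H6.SLCard.card_units']
      exact orderOf_dvd_natCard _
    obtain ⟨j, _, hj⟩ := (Nat.dvd_prime_pow Nat.prime_two).1 h3
    have h5 : j ≤ 1 := by
      by_contra hlt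
      have h6 : 4 ∣ Fintype.card F - 1 := by
        refine Dvd.dvd.trans ?_ h4
        rw [hj]
        exact pow_dvd_pow 2 (show 2 ≤ j by omega)
      omega
    have h6 : (GeneralLinearGroup.det d) ^ 2 = 1 := by
      rw [← orderOf_dvd_iff_pow_eq_one, hj]
      exact pow_dvd_pow 2 h5
    have h7 : ((GeneralLinearGroup.det d : Fˣ) : F) ^ 2 = 1 := by
      have := congrArg Units.val h6
      simpa using this
    rw [pow_two] at h7
    rcases mul_self_eq_one_iff.1 h7 with h8 | h8
    · left; exact Units.ext h8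
    · right; exact Units.ext (by simpa using h8)
  have hcz : Nat.card (zpowers (-1 : Fˣ)) = 2 := by
    rw [Nat.card_zpowers]
    exact orderOf_eq_prime (by simp) hneg
  have hmapD : (D : Subgroup (GL (Fin 2) F)).map GeneralLinearGroup.det = zpowers (-1 : Fˣ) := by
    apply le_antisymm
    · rintro _ ⟨d, hd, rfl⟩
      rcases hdetD d hd with h | h
      · rw [h]; exact one_mem _
      · rw [h]; exact mem_zpowers _
    · rw [zpowers_le]
      exact ⟨g₀, hg₀D, hg₀d⟩
  set s := padicValNat 2 (Fintype.card F ^ 2 - 1) with hs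
  have hvq : padicValNat 2 (Fintype.card F - 1) = 1 := ValQ.val_sub_one hq
  have hcD : Nat.card D = 2 ^ (s + 1) := by
    rw [D.card_eq_multiplicity, ValQ.pow_fact (k := s + 1)]
    rw [card_gl, Fintype.card_fin, val_gl hF hq1, Finset.sum_range_succ, Finset.sum_range_one, pow_one, hvq,
      add_comm]
  have hcN : Nat.card ((D : Subgroup (GL (Fin 2) F)) ⊓
      (GeneralLinearGroup.det : GL (Fin 2) F →* Fˣ).ker : Subgroup (GL (Fin 2) F)) = 2 ^ s := by
    have h3 := card_inf_ker (GeneralLinearGroup.det : GL (Fin 2) F →* Fˣ) (D : Subgroup (GL (Fin 2) F))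
    rw [hmapD, hcz, show Nat.card (D : Subgroup (GL (Fin 2) F)) = 2 ^ (s + 1) from hcD, pow_succ, mul_comm] at h3
    exact Nat.eq_of_mul_eq_mul_right (by norm_num) h3
  set N := ((D : Subgroup (GL (Fin 2) F)) ⊓ (GeneralLinearGroup.det : GL (Fin 2) F →* Fˣ).ker) with hN
  have hNk : N ≤ (GeneralLinearGroup.det : GL (Fin 2) F →* Fˣ).ker := inf_le_right
  have hGN : Gd 2 N := by
    have h3 : Nat.card (N.subgroupOf (GeneralLinearGroup.det : GL (Fin 2) F →* Fˣ).ker) =
        2 ^ (Nat.card (GeneralLinearGroup.det : GL (Fin 2) F →* Fˣ).ker).factorization 2 := by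
      rw [Nat.card_congr (subgroupOfEquivOfLe hNk).toEquiv, hcN,
        ← Nat.card_congr (H6.SLCard.slEquivKerDet (ι := Fin 2) (R := F)).toEquiv, ValQ.pow_fact (val_sl2 hF)]
    obtain ⟨P₀⟩ : Nonempty (Sylow 2 (SpecialLinearGroup (Fin 2) F)) := inferInstance
    have h4 := gd_sylow_of_equiv H6.SLCard.slEquivKerDet P₀ (gd_sl2 hF P₀) (Sylow.ofCard _ h3)
    have h5 := gd_map (GeneralLinearGroup.det : GL (Fin 2) F →* Fˣ).ker.subtype h4
    have h6 : ((Sylow.ofCard _ h3 : Sylow 2 (GeneralLinearGroup.det : GL (Fin 2) F →* Fˣ).ker) :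
      Subgroup (GeneralLinearGroup.det : GL (Fin 2) F →* Fˣ).ker).map
        (GeneralLinearGroup.det : GL (Fin 2) F →* Fˣ).ker.subtype = N := by
      show (N.subgroupOf _).map _ = N
      rw [Subgroup.subgroupOf_map_subtype, inf_eq_left.2 hNk]
    rwa [h6] at h5
  have hDN : (D : Subgroup (GL (Fin 2) F)) ≤ closure ((N : Set (GL (Fin 2) F)) ∪ {g₀}) := by
    intro d hd
    rcases hdetD d hd with h | h
    · exact subset_closure (Or.inl ⟨hd, h⟩)
    · have h3 : d * g₀ ∈ N := ⟨mul_mem hd hg₀D, by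
        show _ ∈ (GeneralLinearGroup.det : GL (Fin 2) F →* Fˣ).ker
        rw [MonoidHom.mem_ker, map_mul, h, hg₀d]; simp⟩
      have h4 : d = d * g₀ * g₀⁻¹ := by group
      rw [h4]
      exact mul_mem (subset_closure (Or.inl h3)) (inv_mem (subset_closure (Or.inr rfl)))
  let i₀ : Fin m := ⟨0, hm⟩
  set θ : GL (Fin 2) F →* Fˣ := GeneralLinearGroup.det with hθ
  set θ' : GL R F →* Fˣ := GeneralLinearGroup.det with hθ'
  have hG : Gd 2 (E0 (ι := Fin m) θ θ' (D : Subgroup (GL (Fin 2) F)) C) := by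
    apply gd_E0_of_ker _ _ _ _ i₀ hGN {g₀} (Set.singleton_subset_iff.2 hg₀D) (by simpa using hg₀2) hDN Y hY hgenY
    intro y hy
    refine ⟨(hY2 y hy).1, g₀, hg₀D, hg₀2, ?_⟩
    rw [hg₀d, (hY2 y hy).2]
    simp
  have hdetC : ∀ x ∈ C, θ' x ∈ zpowers (-1 : Fˣ) := by
    intro x hx
    have h3 : C ≤ (zpowers (-1 : Fˣ)).comap θ' := hgenY.trans ((closure_le _).2 fun y hy => by
      show θ' y ∈ zpowers (-1 : Fˣ)
      rw [(hY2 y hy).2]
      exact mem_zpowers _)
    exact h3 hx
  have hmapF : (full (ι := Fin m) (D : Subgroup (GL (Fin 2) F)) C).map (chi θ θ') = zpowers (-1 : Fˣ) := by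
    apply le_antisymm
    · rintro _ ⟨f, hf, rfl⟩
      obtain ⟨h3, h4⟩ := (mem_full _ _ f).1 hf
      rw [chi_apply]
      refine mul_mem (Subgroup.prod_mem _ fun i _ => ?_) (hdetC _ h4)
      rw [← hmapD]
      exact ⟨_, h3 i, rfl⟩
    · rw [zpowers_le]
      exact ⟨_, single_mem_full _ _ i₀ hg₀D (one_mem _), by rw [chi_single, map_one, mul_one]; exact hg₀d⟩
  have hE := card_E0 (ι := Fin m) θ θ' (D : Subgroup (GL (Fin 2) F)) C 2 (by rw [hmapF, hcz])
  rw [show Nat.card (D : Subgroup (GL (Fin 2) F)) = 2 ^ (s + 1) from hcD, hC, Fintype.card_fin, ← pow_mul,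
    ← pow_add] at hE
  have hpos : 1 ≤ (s + 1) * m + c := by
    have : 1 ≤ (s + 1) * m := Nat.mul_pos (by omega) (by omega)
    omega
  have hE' : Nat.card (E0 (ι := Fin m) θ θ' (D : Subgroup (GL (Fin 2) F)) C) = 2 ^ ((s + 1) * m + c - 1) := by
    obtain ⟨t, ht⟩ : ∃ t, (s + 1) * m + c = t + 1 := ⟨_, (Nat.sub_add_cancel hpos).symm⟩
    rw [ht, pow_succ, mul_comm] at hE
    rw [ht, Nat.add_sub_cancel]
    exact Nat.eq_of_mul_eq_mul_right (by norm_num) hE
  haveI : Nonempty (J (Fin 2) m R) := ⟨Sum.inl (0, i₀)⟩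
  have hcard : Fintype.card (J (Fin 2) m R) = 2 * m + Fintype.card R := by
    rw [Fintype.card_sum, Fintype.card_prod, Fintype.card_fin, Fintype.card_fin]
  have hvΩ : padicValNat 2 (Nat.card (GeneralLinearGroup.det : GL (J (Fin 2) m R) F →* Fˣ).ker) =
      ((s + 1) * m + c - 1) + padicValNat 2 m.factorial := by
    have h3 := val_sl (F := F) hF (J (Fin 2) m R)
    rw [hvq, hcard, hR, sum_even hF hq1, hvq, Nat.card_congr (H6.SLCard.slEquivKerDet (ι := J (Fin 2) m R) (R := F)).toEquiv] at h3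
    have h4 : m * (s + 1) = (s + 1) * m := mul_comm _ _
    rw [← hs, h4] at h3
    omega
  refine wreath θ θ' (D : Subgroup (GL (Fin 2) F)) C (r := 2) eHom (pHom (m := m) (F := F) (R := R) (β := Fin 2))
    eHom_injective pHom_injective conj_rel meet _ ?_ ?_ ?_ hG P
  · rintro _ ⟨f, hf, rfl⟩
    rw [MonoidHom.mem_ker, det_eHom]
    exact ((mem_E0 _ _ _ _ f).1 hf).2
  · intro σ
    rw [MonoidHom.mem_ker, det_pHom (by simp)]
  · rw [hE', ValQ.pow_fact hvΩ, ValQ.pow_fact rfl, ← pow_add]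

/-- transfer to `SL` -/
theorem transfer {κ κ' : Type} [Fintype κ] [DecidableEq κ] [Fintype κ'] [DecidableEq κ'] (e : κ ≃ κ')
    (h : ∀ P : Sylow 2 (GeneralLinearGroup.det : GL κ F →* Fˣ).ker,
      ∀ x : (P : Subgroup (GeneralLinearGroup.det : GL κ F →* Fˣ).ker),
      x ^ 2 ∈ commutator (P : Subgroup (GeneralLinearGroup.det : GL κ F →* Fˣ).ker))
    (P : Sylow 2 (SpecialLinearGroup κ' F)) :
    ∀ x : (P : Subgroup (SpecialLinearGroup κ' F)), x ^ 2 ∈ commutator (P : Subgroup (SpecialLinearGroup κ' F)) := by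
  haveI : Fact (Nat.Prime 2) := ⟨Nat.prime_two⟩
  obtain ⟨P₁⟩ : Nonempty (Sylow 2 (GeneralLinearGroup.det : GL κ F →* Fˣ).ker) := inferInstance
  exact gd_iff.1 (gd_sylow_of_equiv ((H6.SLCard.slEquivKerDet (ι := κ) (R := F)).symm.trans
    (H7.LowRank.slReindex e)) P₁ (gd_iff.2 (h P₁)) P)

end main

end H79.GLWr
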