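import Mathlib

/-!
# `PSL(2,q)`, `q = 3, 5 mod 8`: dihedral subgroups and `π`-subgroups (a piece of S3258)
-/

set_option autoImplicit false
set_option linter.unusedVariables false

namespace H79.PslPi

section abs

variable {G : Type*} [Group G]

theorem conj_zpow' {a w : G} (h : w * a * w⁻¹ = a⁻¹) (i : ℤ) : w * a ^ i * w⁻¹ = a ^ (-i) := by
  rw [← conj_zpow, h, inv_zpow, zpow_neg]

/-- the dihedral subgroup -/
def dih (a w : G) (hw : w * w = 1) (h : w * a * w⁻¹ = a⁻¹) : Subgroup G where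
  carrier := {x | ∃ i : ℤ, x = a ^ i ∨ x = a ^ i * w}
  one_mem' := ⟨0, Or.inl (by simp)⟩
  mul_mem' := by
    have hwi : w⁻¹ = w := inv_eq_of_mul_eq_one_left hw
    have key : ∀ j : ℤ, w * a ^ j = a ^ (-j) * w := fun j => by
      rw [← conj_zpow' h j, hwi]; simp only [mul_assoc, hw, mul_one]
    rintro x y ⟨i, hi⟩ ⟨j, hj⟩
    rcases hi with rfl | rfl <;> rcases hj with rfl | rfl
    · exact ⟨i + j, Or.inl (by rw [zpow_add])⟩
    · exact ⟨i + j, Or.inr (by rw [zpow_add, mul_assoc])⟩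
    · exact ⟨i + -j, Or.inr (by rw [zpow_add, mul_assoc, key, mul_assoc])⟩
    · refine ⟨i + -j, Or.inl ?_⟩
      rw [zpow_add]
      calc a ^ i * w * (a ^ j * w) = a ^ i * (w * a ^ j) * w := by group
        _ = a ^ i * a ^ (-j) := by rw [key, mul_assoc, mul_assoc, hw, mul_one]
  inv_mem' := by
    have hwi : w⁻¹ = w := inv_eq_of_mul_eq_one_left hw
    have key : ∀ j : ℤ, w * a ^ j = a ^ (-j) * w := fun j => by
      rw [← conj_zpow' h j, hwi]; simp only [mul_assoc, hw, mul_one]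
    rintro x ⟨i, hi⟩
    rcases hi with rfl | rfl
    · exact ⟨-i, Or.inl (by rw [zpow_neg])⟩
    · refine ⟨i, Or.inr ?_⟩
      rw [mul_inv_rev, hwi, ← zpow_neg, key, neg_neg]

theorem pi_dih [Finite G] {a w : G} (hw : w * w = 1) (h : w * a * w⁻¹ = a⁻¹) {p : ℕ} (hp : p.Prime)
    (ha : a ^ p = 1) {r : ℕ} (hr : r.Prime) (hd : r ∣ Nat.card (dih a w hw h)) : r = 2 ∨ r = p := by
  haveI : Fact r.Prime := ⟨hr⟩
  have hwi : w⁻¹ = w := inv_eq_of_mul_eq_one_left hw
  obtain ⟨⟨x, hx⟩, hxo⟩ := exists_prime_orderOf_dvd_card' r hd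
  rw [Subgroup.orderOf_mk] at hxo
  obtain ⟨i, rfl | rfl⟩ := hx
  · right
    have h1 : (a ^ i) ^ p = 1 := by
      rw [← zpow_natCast, ← zpow_mul, mul_comm, zpow_mul, zpow_natCast, ha, one_zpow]
    have h2 := orderOf_dvd_of_pow_eq_one h1
    rw [hxo] at h2
    exact (Nat.prime_dvd_prime_iff_eq hr hp).1 h2
  · left
    have key : w * a ^ i = a ^ (-i) * w := by
      rw [← conj_zpow' h i, hwi]; simp only [mul_assoc, hw, mul_one]
    have h1 : (a ^ i * w) ^ 2 = 1 := by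
      rw [pow_two]
      calc a ^ i * w * (a ^ i * w) = a ^ i * (w * a ^ i) * w := by group
        _ = 1 := by rw [key, mul_assoc, mul_assoc, hw, mul_one, zpow_neg, mul_inv_cancel]
    have h2 := orderOf_dvd_of_pow_eq_one h1
    rw [hxo] at h2
    exact (Nat.prime_dvd_prime_iff_eq hr Nat.prime_two).1 h2

/-- an element of odd prime order `p ∈ π` inverted by an involution -/
theorem false_of_inverted [Finite G] {π : Set ℕ} (h2 : 2 ∈ π)
    (hcl : ∀ H : Subgroup G, (∀ p : ℕ, p.Prime → p ∣ Nat.card ↥H → p ∈ π) → ∀ P : Sylow 2 ↥H, (P : Subgroup ↥H).Normal)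
    {a w : G} (hw : w * w = 1) (h : w * a * w⁻¹ = a⁻¹) {p : ℕ} (hp : p.Prime) (hpo : p ≠ 2) (hpi : p ∈ π)
    (ha : a ^ p = 1) (ha1 : a ≠ 1) : False := by
  haveI : Fact (Nat.Prime 2) := ⟨Nat.prime_two⟩
  haveI : Fact (Nat.Prime p) := ⟨hp⟩
  have hao : orderOf a = p := orderOf_eq_prime ha ha1
  set H := dih a w hw h with hH
  have hpi' : ∀ r : ℕ, r.Prime → r ∣ Nat.card ↥H → r ∈ π := by
    intro r hr hd
    rcases pi_dih hw h hp ha hr hd with rfl | rfl
    · exact h2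
    · exact hpi
  have haH : a ∈ H := ⟨1, Or.inl (by simp)⟩
  have hwH : w ∈ H := ⟨0, Or.inr (by simp)⟩
  let P : Sylow 2 ↥H := default
  have hPn := hcl H hpi' P
  have hwi : w⁻¹ = w := inv_eq_of_mul_eq_one_left hw
  -- `w ∈ P`
  have hwP : (⟨w, hwH⟩ : ↥H) ∈ (P : Subgroup ↥H) := by
    have hz : IsPGroup 2 (Subgroup.zpowers (⟨w, hwH⟩ : ↥H)) := by
      rintro ⟨y, hy⟩
      obtain ⟨k, rfl⟩ := Subgroup.mem_zpowers_iff.1 hy
      refine ⟨1, Subtype.ext ?_⟩
      have h5 : (⟨w, hwH⟩ : ↥H) ^ 2 = 1 := Subtype.ext (by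
        change w ^ 2 = 1
        rw [pow_two]; exact hw)
      change ((⟨w, hwH⟩ : ↥H) ^ k) ^ (2 ^ 1) = 1
      rw [pow_one, ← zpow_natCast, ← zpow_mul, mul_comm, zpow_mul, zpow_natCast, h5, one_zpow]
    obtain ⟨Q, hQ⟩ := hz.exists_le_sylow
    obtain ⟨g, hg⟩ := MulAction.exists_smul_eq ↥H P Q
    have hgP : g • P = P := Sylow.smul_eq_of_normal
    rw [← hg, hgP] at hQ
    exact hQ (Subgroup.mem_zpowers _)
  have h3 := P.1.mul_mem (hPn.conj_mem _ hwP ⟨a, haH⟩) (P.1.inv_mem hwP)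
  have h4 : (⟨a, haH⟩ : ↥H) * ⟨w, hwH⟩ * (⟨a, haH⟩ : ↥H)⁻¹ * (⟨w, hwH⟩ : ↥H)⁻¹ = ⟨a, haH⟩ * ⟨a, haH⟩ := by
    apply Subtype.ext
    change a * w * a⁻¹ * w⁻¹ = a * a
    have : w * a⁻¹ * w⁻¹ = a := by
      have := congrArg (·⁻¹) h
      simpa [mul_inv_rev, mul_assoc] using this
    calc a * w * a⁻¹ * w⁻¹ = a * (w * a⁻¹ * w⁻¹) := by group
      _ = a * a := by rw [this]
  have h3' : (⟨a, haH⟩ : ↥H) * ⟨a, haH⟩ ∈ (P : Subgroup ↥H) := h4 ▸ h3
  obtain ⟨k, hk⟩ := P.2 ⟨_, h3'⟩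
  have h5 : (a * a) ^ 2 ^ k = 1 := by
    have := congrArg (fun y : ↥(P : Subgroup ↥H) => ((y : ↥H) : G)) hk
    simpa using this
  have h6 : a ^ 2 ^ (k + 1) = 1 := by
    rw [← pow_two, ← pow_mul] at h5
    rw [pow_succ, mul_comm]; exact h5
  have h7 := orderOf_dvd_of_pow_eq_one h6
  rw [hao] at h7
  exact hpo ((Nat.prime_dvd_prime_iff_eq hp Nat.prime_two).1 (hp.dvd_of_dvd_pow h7))

/-- an element of prime order acting non trivially on a `π`-subgroup -/
theorem mem_of_acts [Finite G] {π : Set ℕ}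
    (hom : ∀ H : Subgroup G, H ≠ ⊥ → (∀ p : ℕ, p.Prime → p ∣ Nat.card ↥H → p ∈ π) →
        ∀ p : ℕ, p.Prime → p ∣ (Subgroup.centralizer (H : Set G)).relIndex (Subgroup.normalizer (H : Set G)) → p ∈ π)
    {U : Subgroup G} (hU : ∀ p : ℕ, p.Prime → p ∣ Nat.card ↥U → p ∈ π) {g : G}
    (hg : g ∈ Subgroup.normalizer (U : Set G)) {p : ℕ} (hp : p.Prime) (hgp : g ^ p = 1)
    {x : G} (hx : x ∈ U) (hgx : g * x * g⁻¹ ≠ x) : p ∈ π := by
  haveI : Fact (Nat.Prime p) := ⟨hp⟩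
  have hU1 : U ≠ ⊥ := by
    rintro rfl
    rw [Subgroup.mem_bot] at hx
    subst hx
    exact hgx (by group)
  apply hom U hU1 hU p hp
  have hgC : g ∉ Subgroup.centralizer (U : Set G) := by
    intro hcon
    apply hgx
    rw [Subgroup.mem_centralizer_iff] at hcon
    rw [← hcon x hx]; group
  haveI hn : ((Subgroup.centralizer (U : Set G)).subgroupOf (Subgroup.normalizer (U : Set G))).Normal := by
    refine ⟨fun c hc n => ?_⟩
    rw [Subgroup.mem_subgroupOf] at hc ⊢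
    rw [Subgroup.mem_centralizer_iff] at hc ⊢
    intro y hy
    have h1 : (n : G)⁻¹ * y * n ∈ U := by
      have := (Subgroup.mem_normalizer_iff.1 (Subgroup.inv_mem _ n.2) y).1 hy
      simpa using this
    have h2 := hc _ h1
    change y * ((n : G) * c * (n : G)⁻¹) = (n : G) * c * (n : G)⁻¹ * y
    calc y * ((n : G) * c * (n : G)⁻¹) = n * ((n : G)⁻¹ * y * n * c) * (n : G)⁻¹ := by group
      _ = (n : G) * c * (n : G)⁻¹ * y := by rw [h2]; group
  rw [Subgroup.relIndex, Subgroup.index_eq_card]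
  set q : _ ⧸ ((Subgroup.centralizer (U : Set G)).subgroupOf (Subgroup.normalizer (U : Set G))) :=
    QuotientGroup.mk ⟨g, hg⟩ with hq
  have h1 : q ≠ 1 := by
    rw [hq, Ne, QuotientGroup.eq_one_iff, Subgroup.mem_subgroupOf]
    exact hgC
  have h2 : q ^ p = 1 := by
    rw [hq, ← QuotientGroup.mk_pow, QuotientGroup.eq_one_iff, Subgroup.mem_subgroupOf]
    change g ^ p ∈ _
    rw [hgp]; exact Subgroup.one_mem _
  rw [← orderOf_eq_prime h2 h1]
  exact orderOf_dvd_natCard q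

end abs

section SL

open Matrix

variable {F : Type*} [Field F]

/-- `[[a, b], [c, d]]` -/
def mk2 (a b c d : F) (h : a * d - b * c = 1) : SpecialLinearGroup (Fin 2) F :=
  ⟨!![a, b; c, d], by rw [Matrix.det_fin_two_of, h]⟩

theorem mk2_mul {a b c d : F} (h : a * d - b * c = 1) {a' b' c' d' : F} (h' : a' * d' - b' * c' = 1) {h'' } :
    mk2 a b c d h * mk2 a' b' c' d' h' =
      mk2 (a * a' + b * c') (a * b' + b * d') (c * a' + d * c') (c * b' + d * d') h'' := by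
  apply Subtype.ext
  change !![a, b; c, d] * !![a', b'; c', d'] = _
  rw [Matrix.mul_fin_two]
  rfl

theorem det_mul' {a b c d : F} (h : a * d - b * c = 1) {a' b' c' d' : F} (h' : a' * d' - b' * c' = 1) :
    (a * a' + b * c') * (c * b' + d * d') - (a * b' + b * d') * (c * a' + d * c') = 1 := by
  linear_combination (a' * d' - b' * c') * h + h'

theorem mk2_mul' {a b c d : F} (h : a * d - b * c = 1) {a' b' c' d' : F} (h' : a' * d' - b' * c' = 1) :
    mk2 a b c d h * mk2 a' b' c' d' h' =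
      mk2 (a * a' + b * c') (a * b' + b * d') (c * a' + d * c') (c * b' + d * d') (det_mul' h h') := mk2_mul h h'

theorem mk2_eq {a b c d : F} {h : a * d - b * c = 1} {a' b' c' d' : F} {h' : a' * d' - b' * c' = 1}
    (h1 : a = a') (h2 : b = b') (h3 : c = c') (h4 : d = d') : mk2 a b c d h = mk2 a' b' c' d' h' := by
  subst h1; subst h2; subst h3; subst h4; rfl

theorem mk2_inj {a b c d : F} {h : a * d - b * c = 1} {a' b' c' d' : F} {h' : a' * d' - b' * c' = 1}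
    (e : mk2 a b c d h = mk2 a' b' c' d' h') : a = a' ∧ b = b' ∧ c = c' ∧ d = d' := by
  have h1 := congrArg Subtype.val e
  change !![a, b; c, d] = !![a', b'; c', d'] at h1
  have h00 := congrFun (congrFun h1 0) 0
  have h01 := congrFun (congrFun h1 0) 1
  have h10 := congrFun (congrFun h1 1) 0
  have h11 := congrFun (congrFun h1 1) 1
  simp at h00 h01 h10 h11
  exact ⟨h00, h01, h10, h11⟩

theorem one_eq : (1 : SpecialLinearGroup (Fin 2) F) = mk2 1 0 0 1 (by ring) := by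
  apply Subtype.ext
  change (1 : Matrix (Fin 2) (Fin 2) F) = _
  rw [Matrix.one_fin_two]; rfl

theorem neg_one_eq : (-1 : SpecialLinearGroup (Fin 2) F) = mk2 (-1) 0 0 (-1) (by ring) := by
  apply Subtype.ext
  change -(1 : Matrix (Fin 2) (Fin 2) F) = _
  rw [Matrix.one_fin_two]
  ext i j
  fin_cases i <;> fin_cases j <;> simp [mk2]

theorem mk2_inv {a b c d : F} (h : a * d - b * c = 1) : (mk2 a b c d h)⁻¹ = mk2 d (-b) (-c) a (by linear_combination h) := by
  rw [inv_eq_iff_mul_eq_one, mk2_mul', one_eq]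
  apply mk2_eq
  · linear_combination h
  · ring
  · ring
  · linear_combination h

variable {G : Type*} [Group G]

theorem ne_one_of_sq (φ : SpecialLinearGroup (Fin 2) F →* G) (hφ : ∀ x, φ x = 1 ↔ x = 1 ∨ x = -1)
    {w : SpecialLinearGroup (Fin 2) F} (hw : w * w = -1) (h2F : (2 : F) ≠ 0) : φ w ≠ 1 := by
  intro h
  have h1 : (1 : SpecialLinearGroup (Fin 2) F) = -1 := by
    rcases (hφ _).1 h with h | h
    · rw [h] at hw; rw [← hw, one_mul]
    · rw [h] at hw; rw [← hw, neg_mul_neg, one_mul]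
  rw [neg_one_eq, one_eq] at h1
  obtain ⟨h2, -⟩ := mk2_inj h1
  exact h2F (by linear_combination h2)

/-- a solution of `x² + x y + y² = -1` -/
theorem exists_sol [Finite F] (h2 : (2 : F) ≠ 0) (h3 : (3 : F) ≠ 0) : ∃ x y : F, x * x + x * y + y * y = -1 := by
  classical
  haveI := Fintype.ofFinite F
  have hodd : Fintype.card F % 2 = 1 := by
    apply FiniteField.odd_card_of_char_ne_two
    intro hc
    apply h2
    haveI : CharP F 2 := hc ▸ ringChar.charP F
    exact CharTwo.two_eq_zero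
  set h : F := (2 : F)⁻¹ with hh
  have h1 : 2 * h = 1 := mul_inv_cancel₀ h2
  have hh0 : h ≠ 0 := inv_ne_zero h2
  have h4 : (3 * h * h : F) ≠ 0 := mul_ne_zero (mul_ne_zero h3 hh0) hh0
  obtain ⟨a, b, hab⟩ := FiniteField.exists_root_sum_quadratic (R := F)
    (f := Polynomial.X ^ 2) (g := Polynomial.C (3 * h * h : F) * Polynomial.X ^ 2 + Polynomial.C 1)
    (by rw [Polynomial.degree_X_pow]; rfl)
    (by
      rw [Polynomial.degree_add_C]
      · rw [Polynomial.degree_C_mul_X_pow 2 h4]; rfl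
      · rw [Polynomial.degree_C_mul_X_pow 2 h4]; exact Nat.cast_pos.2 (by norm_num)) hodd
  simp only [Polynomial.eval_pow, Polynomial.eval_X, Polynomial.eval_add, Polynomial.eval_mul, Polynomial.eval_C] at hab
  refine ⟨a - h * b, b, ?_⟩
  linear_combination hab - (a * b + b ^ 2 * (1 + h)) * h1

/-- the `S₃` in characteristic different from 2, 3 -/
theorem case_ne (φ : SpecialLinearGroup (Fin 2) F →* G) (hφ : ∀ x, φ x = 1 ↔ x = 1 ∨ x = -1) [Finite F]
    (h2F : (2 : F) ≠ 0) (h3F : (3 : F) ≠ 0) :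
    ∃ g t : G, orderOf g = 3 ∧ t * t = 1 ∧ t ≠ 1 ∧ t * g * t⁻¹ = g⁻¹ := by
  haveI : Fact (Nat.Prime 3) := ⟨Nat.prime_three⟩
  obtain ⟨x, y, hxy⟩ := exists_sol h2F h3F
  let g : SpecialLinearGroup (Fin 2) F := mk2 0 (-1) 1 (-1) (by ring)
  let w : SpecialLinearGroup (Fin 2) F := mk2 x y (x + y) (-x) (by linear_combination -hxy)
  have hww : w * w = -1 := by
    rw [mk2_mul', neg_one_eq]
    apply mk2_eq
    · linear_combination hxy
    · ring
    · ring
    · linear_combination hxy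
  have hg3 : g * g * g = 1 := by
    rw [mk2_mul', mk2_mul', one_eq]
    apply mk2_eq <;> ring
  have hwgw : w * g * w⁻¹ = g⁻¹ := by
    rw [mk2_inv, mk2_inv, mk2_mul', mk2_mul']
    apply mk2_eq
    · linear_combination hxy
    · linear_combination -hxy
    · linear_combination hxy
    · ring
  have hg1 : g ≠ 1 := by
    intro h
    rw [one_eq] at h
    obtain ⟨h1, -⟩ := mk2_inj h
    exact zero_ne_one h1
  have hg2 : g ≠ -1 := by
    intro h
    rw [neg_one_eq] at h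
    obtain ⟨h1, -⟩ := mk2_inj h
    exact one_ne_zero (neg_eq_zero.1 h1.symm)
  have hw1 : φ w ≠ 1 := ne_one_of_sq φ hφ hww h2F
  refine ⟨φ g, φ w, orderOf_eq_prime ?_ ?_, ?_, hw1, ?_⟩
  · rw [pow_succ, pow_two, ← map_mul, ← map_mul, hg3, map_one]
  · intro h
    rcases (hφ _).1 h with h | h
    · exact hg1 h
    · exact hg2 h
  · rw [← map_mul, hww]; exact (hφ _).2 (Or.inr rfl)
  · rw [← map_inv, ← map_mul, ← map_mul, hwgw, map_inv]

/-- the unipotent subgroup -/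
def uni (φ : SpecialLinearGroup (Fin 2) F →* G) : Subgroup G where
  carrier := {x | ∃ u : F, x = φ (mk2 1 u 0 1 (by ring))}
  one_mem' := ⟨0, by rw [← map_one φ, one_eq]⟩
  mul_mem' := by
    rintro _ _ ⟨u, rfl⟩ ⟨v, rfl⟩
    refine ⟨u + v, ?_⟩
    rw [← map_mul, mk2_mul']
    congr 1
    apply mk2_eq <;> ring
  inv_mem' := by
    rintro _ ⟨u, rfl⟩
    refine ⟨-u, ?_⟩
    rw [← map_inv, mk2_inv]
    congr 1
    apply mk2_eq <;> ring

/-- characteristic three -/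
theorem case_three [Finite F] (φ : SpecialLinearGroup (Fin 2) F →* G) (hφ : ∀ x, φ x = 1 ↔ x = 1 ∨ x = -1)
    (h3F : (3 : F) = 0) (hF : Nat.card F % 8 = 3) (hF3 : 3 < Nat.card F) :
    ∃ (p : ℕ) (g t : G) (U : Subgroup G), p.Prime ∧ p ≠ 2 ∧ orderOf g = p ∧ t * t = 1 ∧ t ≠ 1 ∧
      t * g * t⁻¹ = g⁻¹ ∧ IsPGroup 3 U ∧ U ≠ ⊥ ∧ g ∈ Subgroup.normalizer (U : Set G) ∧
      g ∉ Subgroup.centralizer (U : Set G) := by
  classical
  haveI := Fintype.ofFinite F
  -- a prime divisor of `(q-1)/2`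
  set m := (Nat.card F - 1) / 2 with hm
  have hm1 : m ≠ 1 := by omega
  have hm2 : m % 2 = 1 := by omega
  obtain ⟨p, hp, hpm⟩ := Nat.exists_prime_and_dvd hm1
  haveI : Fact p.Prime := ⟨hp⟩
  have hp2 : p ≠ 2 := by
    rintro rfl
    omega
  have hpq : p ∣ Nat.card Fˣ := by
    have h1 : Nat.card Fˣ = Nat.card F - 1 := by
      rw [Nat.card_units]
    rw [h1]
    have : Nat.card F - 1 = 2 * m := by omega
    rw [this]; exact hpm.mul_left 2
  obtain ⟨a, ha⟩ := exists_prime_orderOf_dvd_card' p hpq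
  have hap : (a : F) ^ p = 1 := by
    have := pow_orderOf_eq_one a
    rw [ha] at this
    have := congrArg Units.val this
    simpa using this
  have ha0 : (a : F) ≠ 0 := a.ne_zero
  have ha2 : (a : F) * a ≠ 1 := by
    intro h
    have h1 : a ^ 2 = 1 := Units.ext (by rw [pow_two]; exact h)
    have h2 := orderOf_dvd_of_pow_eq_one h1
    rw [ha] at h2
    exact hp2 ((Nat.prime_dvd_prime_iff_eq hp Nat.prime_two).1 h2)
  let h : SpecialLinearGroup (Fin 2) F := mk2 a 0 0 (a : F)⁻¹ (by rw [mul_inv_cancel₀ ha0]; ring)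
  let w : SpecialLinearGroup (Fin 2) F := mk2 0 1 (-1) 0 (by ring)
  have hpow : ∀ n : ℕ, h ^ n = mk2 ((a : F) ^ n) 0 0 (((a : F)⁻¹) ^ n)
      (by rw [← mul_pow, mul_inv_cancel₀ ha0]; ring) := by
    intro n
    induction n with
    | zero => rw [pow_zero, one_eq]; apply mk2_eq <;> simp
    | succ n ih =>
      rw [pow_succ, ih, mk2_mul']
      apply mk2_eq
      · ring
      · ring
      · ring
      · ring
  have hhp : h ^ p = 1 := by
    rw [hpow, one_eq]
    apply mk2_eq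
    · exact hap
    · rfl
    · rfl
    · rw [inv_pow, hap, inv_one]
  have hww : w * w = -1 := by
    rw [mk2_mul', neg_one_eq]
    apply mk2_eq <;> ring
  have hwh : w * h * w⁻¹ = h⁻¹ := by
    rw [mk2_inv, mk2_inv, mk2_mul', mk2_mul']
    apply mk2_eq <;> ring
  have hconj : ∀ u : F, h * mk2 1 u 0 1 (by ring) * h⁻¹ = mk2 1 ((a : F) * a * u) 0 1 (by ring) := by
    intro u
    rw [mk2_inv, mk2_mul', mk2_mul']
    apply mk2_eq
    · linear_combination mul_inv_cancel₀ ha0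
    · ring
    · ring
    · linear_combination mul_inv_cancel₀ ha0
  have hconj' : ∀ u : F, h⁻¹ * mk2 1 u 0 1 (by ring) * h = mk2 1 ((a : F)⁻¹ * (a : F)⁻¹ * u) 0 1 (by ring) := by
    intro u
    have h1 := hconj ((a : F)⁻¹ * (a : F)⁻¹ * u)
    have h2 : (a : F) * a * ((a : F)⁻¹ * (a : F)⁻¹ * u) = u := by field_simp
    rw [← mk2_eq (h := by ring) (h' := by ring) (rfl : (1 : F) = 1) h2 rfl rfl, ← h1]
    group
  have hh1 : φ h ≠ 1 := by
    intro h5
    rcases (hφ _).1 h5 with h5 | h5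
    · rw [one_eq] at h5
      obtain ⟨h6, -⟩ := mk2_inj h5
      exact ha2 (by rw [h6]; ring)
    · rw [neg_one_eq] at h5
      obtain ⟨h6, -⟩ := mk2_inj h5
      exact ha2 (by rw [h6]; ring)
  have h2F : (2 : F) ≠ 0 := by
    intro h7
    have h8 : (1 : F) = 0 := by linear_combination h3F - h7
    exact one_ne_zero h8
  have hne : φ h * φ (mk2 1 1 0 1 (by ring)) * (φ h)⁻¹ ≠ φ (mk2 1 1 0 1 (by ring)) := by
    intro h5
    rw [← map_inv, ← map_mul, ← map_mul, hconj, ← mul_inv_eq_one, ← map_inv, ← map_mul, hφ, mk2_inv, mk2_mul'] at h5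
    rcases h5 with h5 | h5
    · rw [one_eq] at h5
      obtain ⟨-, h6, -⟩ := mk2_inj h5
      apply ha2
      linear_combination h6
    · rw [neg_one_eq] at h5
      obtain ⟨h6, -⟩ := mk2_inj h5
      exact h2F (by linear_combination h6)
  refine ⟨p, φ h, φ w, uni φ, hp, hp2, orderOf_eq_prime ?_ hh1, ?_, ne_one_of_sq φ hφ hww h2F, ?_, ?_, ?_, ?_, ?_⟩
  · rw [← map_pow, hhp, map_one]
  · rw [← map_mul, hww]; exact (hφ _).2 (Or.inr rfl)
  · rw [← map_inv, ← map_mul, ← map_mul, hwh, map_inv]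
  · rintro ⟨x, hx⟩
    refine ⟨1, Subtype.ext ?_⟩
    obtain ⟨u, hu⟩ := hx
    change x ^ (3 ^ 1) = 1
    rw [pow_one, hu, ← map_pow, (hφ _)]
    left
    rw [pow_succ, pow_two, mk2_mul', mk2_mul', one_eq]
    apply mk2_eq
    · ring
    · linear_combination u * h3F
    · ring
    · ring
  · intro h5
    have h6 : φ (mk2 1 1 0 1 (by ring)) ∈ uni φ := ⟨1, rfl⟩
    rw [h5, Subgroup.mem_bot] at h6
    apply hne
    rw [h6]; group
  · rw [Subgroup.mem_normalizer_iff]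
    intro x
    constructor
    · rintro ⟨u, rfl⟩
      exact ⟨_, by rw [← map_inv, ← map_mul, ← map_mul, hconj]⟩
    · rintro ⟨u, hu⟩
      refine ⟨(a : F)⁻¹ * (a : F)⁻¹ * u, ?_⟩
      have : x = φ h⁻¹ * (φ h * x * (φ h)⁻¹) * φ h := by rw [map_inv]; group
      rw [this, hu, ← map_mul, ← map_mul, hconj']
  · intro hcon
    apply hne
    rw [Subgroup.mem_centralizer_iff] at hcon
    have := hcon (φ (mk2 1 1 0 1 (by ring))) ⟨1, rfl⟩
    rw [← this]; group

theorem charP_of {p : ℕ} (hp : p.Prime) (h : (p : F) = 0) : CharP F p := by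
  obtain ⟨r, hr⟩ := CharP.exists F
  have h1 : r ∣ p := (CharP.cast_eq_zero_iff F r p).1 h
  rcases (Nat.dvd_prime hp).1 h1 with h2 | h2
  · subst h2
    exact absurd rfl (@CharP.char_ne_one F _ _ 1 hr)
  · exact h2 ▸ hr

/-- `PSL(2,q)`, `q = 3, 5 mod 8`, `q > 3`: existence of dihedral subgroups, general form -/
theorem exists_hom [Finite F] (φ : SpecialLinearGroup (Fin 2) F →* G) (hφ : ∀ x, φ x = 1 ↔ x = 1 ∨ x = -1)
    (hF : Nat.card F % 8 = 3 ∨ Nat.card F % 8 = 5) (hF3 : 3 < Nat.card F) :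
    (∃ g t : G, orderOf g = 3 ∧ t * t = 1 ∧ t ≠ 1 ∧ t * g * t⁻¹ = g⁻¹) ∨
    (∃ (p : ℕ) (g t : G) (U : Subgroup G), p.Prime ∧ p ≠ 2 ∧ orderOf g = p ∧ t * t = 1 ∧ t ≠ 1 ∧
      t * g * t⁻¹ = g⁻¹ ∧ IsPGroup 3 U ∧ U ≠ ⊥ ∧ g ∈ Subgroup.normalizer (U : Set G) ∧
      g ∉ Subgroup.centralizer (U : Set G)) := by
  classical
  haveI := Fintype.ofFinite F
  by_cases h3F : (3 : F) = 0
  · right
    haveI hc3 : CharP F 3 := charP_of Nat.prime_three (by exact_mod_cast h3F)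
    obtain ⟨n, hn, hcard⟩ := FiniteField.card F 3
    have h8 : ∀ k : ℕ, 3 ^ k % 8 = 1 ∨ 3 ^ k % 8 = 3 := by
      intro k
      induction k with
      | zero => left; rfl
      | succ k ih => rw [pow_succ]; omega
    have h9 : Nat.card F % 8 = 3 := by
      rw [Nat.card_eq_fintype_card, hcard] at hF ⊢
      have := h8 n
      omega
    exact case_three φ hφ h3F h9 hF3
  · left
    refine case_ne φ hφ ?_ h3F
    intro h2F
    haveI hc2 : CharP F 2 := charP_of Nat.prime_two (by exact_mod_cast h2F)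
    obtain ⟨n, hn, hcard⟩ := FiniteField.card F 2
    have : 2 ∣ Nat.card F := by
      rw [Nat.card_eq_fintype_card, hcard]
      exact dvd_pow_self 2 n.2.ne'
    omega

theorem ker_psl (e : G ≃* ProjectiveSpecialLinearGroup (Fin 2) F) (x : SpecialLinearGroup (Fin 2) F) :
    (e.symm.toMonoidHom.comp (QuotientGroup.mk' (Subgroup.center (SpecialLinearGroup (Fin 2) F)))) x = 1 ↔
      x = 1 ∨ x = -1 := by
  change e.symm (QuotientGroup.mk x) = 1 ↔ _
  rw [MulEquiv.map_eq_one_iff, QuotientGroup.eq_one_iff, Matrix.SpecialLinearGroup.mem_center_iff]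
  constructor
  · rintro ⟨r, hr, hx⟩
    rw [Fintype.card_fin] at hr
    have h1 : r = 1 ∨ r = -1 := mul_self_eq_one_iff.1 (by rw [← pow_two]; exact hr)
    rcases h1 with rfl | rfl
    · left
      apply Subtype.ext
      rw [← hx]; simp
    · right
      apply Subtype.ext
      change (x : Matrix (Fin 2) (Fin 2) F) = -(1 : Matrix (Fin 2) (Fin 2) F)
      rw [← hx, map_neg, map_one]
  · rintro (rfl | rfl)
    · exact ⟨1, by simp, by simp⟩
    · refine ⟨-1, by simp, ?_⟩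
      change _ = -(1 : Matrix (Fin 2) (Fin 2) F)
      rw [map_neg, map_one]

/-- `PSL(2,q)`, `q = 3, 5 mod 8`, `q > 3`: existence of dihedral subgroups -/
theorem exists_iso [Finite F] (e : G ≃* ProjectiveSpecialLinearGroup (Fin 2) F)
    (hF : Nat.card F % 8 = 3 ∨ Nat.card F % 8 = 5) (hF3 : 3 < Nat.card F) :
    (∃ g t : G, orderOf g = 3 ∧ t * t = 1 ∧ t ≠ 1 ∧ t * g * t⁻¹ = g⁻¹) ∨
    (∃ (p : ℕ) (g t : G) (U : Subgroup G), p.Prime ∧ p ≠ 2 ∧ orderOf g = p ∧ t * t = 1 ∧ t ≠ 1 ∧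
      t * g * t⁻¹ = g⁻¹ ∧ IsPGroup 3 U ∧ U ≠ ⊥ ∧ g ∈ Subgroup.normalizer (U : Set G) ∧
      g ∉ Subgroup.centralizer (U : Set G)) :=
  exists_hom _ (ker_psl e) hF hF3

theorem exists_psl [Finite F] (hF : Nat.card F % 8 = 3 ∨ Nat.card F % 8 = 5) (hF3 : 3 < Nat.card F) :
    (∃ g t : ProjectiveSpecialLinearGroup (Fin 2) F, orderOf g = 3 ∧ t * t = 1 ∧ t ≠ 1 ∧ t * g * t⁻¹ = g⁻¹) ∨
    (∃ (p : ℕ) (g t : ProjectiveSpecialLinearGroup (Fin 2) F) (U : Subgroup (ProjectiveSpecialLinearGroup (Fin 2) F)),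
      p.Prime ∧ p ≠ 2 ∧ orderOf g = p ∧ t * t = 1 ∧ t ≠ 1 ∧
      t * g * t⁻¹ = g⁻¹ ∧ IsPGroup 3 U ∧ U ≠ ⊥ ∧
      g ∈ Subgroup.normalizer (U : Set (ProjectiveSpecialLinearGroup (Fin 2) F)) ∧
      g ∉ Subgroup.centralizer (U : Set (ProjectiveSpecialLinearGroup (Fin 2) F))) :=
  exists_iso (MulEquiv.refl _) hF hF3

/-- the form for groups isomorphic to `PSL(2,F)` -/
theorem main [Finite F] [Finite G] (e : G ≃* ProjectiveSpecialLinearGroup (Fin 2) F)
    (hF : Nat.card F % 8 = 3 ∨ Nat.card F % 8 = 5) (hF3 : 3 < Nat.card F) {π : Set ℕ} (h2 : 2 ∈ π) (h3 : 3 ∈ π)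
    (hcl : ∀ H : Subgroup G, (∀ p : ℕ, p.Prime → p ∣ Nat.card ↥H → p ∈ π) → ∀ P : Sylow 2 ↥H, (P : Subgroup ↥H).Normal)
    (hom : ∀ H : Subgroup G, H ≠ ⊥ → (∀ p : ℕ, p.Prime → p ∣ Nat.card ↥H → p ∈ π) →
        ∀ p : ℕ, p.Prime → p ∣ (Subgroup.centralizer (H : Set G)).relIndex (Subgroup.normalizer (H : Set G)) → p ∈ π) :
    False := by
  rcases exists_iso e hF hF3 with ⟨g, t, hg, ht, -, htg⟩ | ⟨p, g, t, U, hp, hp2, hg, ht, -, htg, hU, -, hgN, hgC⟩
  · refine false_of_inverted h2 hcl ht htg Nat.prime_three (by norm_num) h3 ?_ ?_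
    · rw [← hg]; exact pow_orderOf_eq_one g
    · rintro rfl
      rw [orderOf_one] at hg
      exact absurd hg (by norm_num)
  · haveI : Fact (Nat.Prime 3) := ⟨Nat.prime_three⟩
    have hgp : g ^ p = 1 := by rw [← hg]; exact pow_orderOf_eq_one g
    refine false_of_inverted h2 hcl ht htg hp hp2 ?_ hgp ?_
    · obtain ⟨x, hx, hgx⟩ : ∃ x ∈ U, g * x * g⁻¹ ≠ x := by
        by_contra hcon
        push Not at hcon
        apply hgC
        rw [Subgroup.mem_centralizer_iff]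
        intro x hx
        have := hcon x hx
        rw [mul_inv_eq_iff_eq_mul] at this
        exact this.symm
      refine mem_of_acts hom ?_ hgN hp hgp hx hgx
      intro r hr hd
      obtain ⟨n, hn⟩ := IsPGroup.iff_card.1 hU
      rw [hn] at hd
      rw [(Nat.prime_dvd_prime_iff_eq hr Nat.prime_three).1 (hr.dvd_of_dvd_pow hd)]
      exact h3
    · rintro rfl
      rw [orderOf_one] at hg
      exact hp.one_lt.ne hg

end SL

end H79.PslPi
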