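import Mathlib
import Cfsg.Agent.Lib.H78.ContrTwo

/-! S4575: major subsections with `k(B) ≤ l(b) + 3` for the prime two. -/

set_option autoImplicit false
set_option linter.unusedSectionVars false
set_option linter.unusedVariables false
set_option linter.style.haveILetI false
open Cfsg H20.Loc H20.GA H20.Blk H20.Orth H20.Defect H20.Height H78.BlkCount H78.Sect
open Polynomial H78.Cyc2 H78.Contr H78.ContrTwo
open scoped ComplexConjugate

namespace H79.ContrThree

universe u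

variable {G : Type u} [Group G] [Fintype G] {M : Ideal AlgInt}
variable {H : Subgroup G} [Fintype H] {u : G} {i : ℕ} {ζ : ℂ} {e : IrrCharacter H → ℕ}
  {b : Set (IrrCharacter H)} {B : Set (IrrCharacter G)} [Fintype (IrrCharacter H)]
  [Fintype (IrrCharacter G)]
variable (S : Sit M 2 H u (2 ^ (i + 1)) ζ e b B)

theorem major_main (hq : blockDefect 2 b = blockDefect 2 B) {ψ : IrrCharacter G} (hψ : ψ ∈ B)
    (h0 : blockHeight 2 B (ψ : G → ℂ) = 0) :
    (Nat.card B : ℤ) - 1 + c S ψ ^ 2 ≤ 2 ^ blockDefect 2 b * c S ψ := by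
  classical
  set T := Finset.univ.filter (fun χ : IrrCharacter G => χ ∈ B) with hT
  have hTc : Nat.card B = T.card := by
    rw [← Fintype.card_subtype, ← Nat.card_eq_fintype_card]
  have hψT : ψ ∈ T := Finset.mem_filter.2 ⟨Finset.mem_univ _, hψ⟩
  have h1 := sum_norm_all S ψ
  have h2 : ∑ χ ∈ T, ∑ μ ∈ primitiveRoots (2 ^ (i + 1)) ℂ, ‖S.A μ ψ χ‖ ^ 2 ≤
      (2 : ℝ) ^ i * ((2 : ℝ) ^ blockDefect 2 b * c S ψ) := by
    rw [← h1]
    exact Finset.sum_le_sum_of_subset_of_nonneg (Finset.subset_univ _)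
      fun _ _ _ => Finset.sum_nonneg fun _ _ => by positivity
  rw [← Finset.add_sum_erase T _ hψT] at h2
  have h3 : ∑ χ ∈ T.erase ψ, (2 : ℝ) ^ i ≤
      ∑ χ ∈ T.erase ψ, ∑ μ ∈ primitiveRoots (2 ^ (i + 1)) ℂ, ‖S.A μ ψ χ‖ ^ 2 := by
    refine Finset.sum_le_sum fun χ hχ => ?_
    obtain ⟨-, hχB⟩ := Finset.mem_filter.1 (Finset.mem_of_mem_erase hχ)
    have hζm : ζ ∈ primitiveRoots (2 ^ (i + 1)) ℂ := by
      have := root_mem S 0
      simpa using this
    have h4 : S.A ζ ψ χ ≠ 0 := by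
      rw [← S.conj_A hζm χ ψ]
      intro hc
      exact S.major_ne_zero hq hχB hψ h0 hζm ((map_eq_zero _).1 hc)
    have h5 := norm_ineq_one S.n_ne S.hζ h4
    rw [card_prim] at h5
    exact_mod_cast h5
  rw [Finset.sum_const, Finset.card_erase_of_mem hψT, nsmul_eq_mul] at h3
  have h4 := sq_le S ψ
  have h5 : (0 : ℝ) < (2 : ℝ) ^ i := by positivity
  have h6 : (2 : ℝ) ^ i * ((((T.card - 1 : ℕ) : ℝ)) + (c S ψ : ℝ) ^ 2) ≤
      (2 : ℝ) ^ i * ((2 : ℝ) ^ blockDefect 2 b * c S ψ) := by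
    linarith
  have h7 := le_of_mul_le_mul_left h6 h5
  have h8 : ((T.card - 1 : ℕ) : ℤ) + c S ψ ^ 2 ≤ 2 ^ blockDefect 2 b * c S ψ := by exact_mod_cast h7
  have h9 : 0 < T.card := Finset.card_pos.2 ⟨ψ, hψT⟩
  rw [hTc]
  rw [Nat.cast_sub h9] at h8
  push_cast at h8
  linarith

theorem c_lt {χ ψ : IrrCharacter G} (hne : ψ ≠ χ)
    (hA : ∀ μ ∈ primitiveRoots (2 ^ (i + 1)) ℂ, S.A μ χ ψ ≠ 0) :
    c S χ < 2 ^ blockDefect 2 b := by
  classical
  have h1 := sum_norm_all S χ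
  have h2 : ∑ μ ∈ primitiveRoots (2 ^ (i + 1)) ℂ, ‖S.A μ χ χ‖ ^ 2 +
      ∑ μ ∈ primitiveRoots (2 ^ (i + 1)) ℂ, ‖S.A μ χ ψ‖ ^ 2 ≤
      (2 : ℝ) ^ i * ((2 : ℝ) ^ blockDefect 2 b * c S χ) := by
    rw [← h1, ← Finset.sum_pair hne.symm
      (f := fun ψ => ∑ μ ∈ primitiveRoots (2 ^ (i + 1)) ℂ, ‖S.A μ χ ψ‖ ^ 2)]
    exact Finset.sum_le_sum_of_subset_of_nonneg (Finset.subset_univ _)
      fun _ _ _ => Finset.sum_nonneg fun _ _ => by positivity
  have h3 : 0 < ∑ μ ∈ primitiveRoots (2 ^ (i + 1)) ℂ, ‖S.A μ χ ψ‖ ^ 2 := by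
    refine Finset.sum_pos (fun μ hμ => ?_) ⟨_, root_mem S 0⟩
    have := norm_pos_iff.2 (hA μ hμ)
    positivity
  have h4 := sq_le S χ
  have h5 : (0 : ℝ) < (2 : ℝ) ^ i := by positivity
  have h6 : (2 : ℝ) ^ i * (c S χ : ℝ) ^ 2 < (2 : ℝ) ^ i * ((2 : ℝ) ^ blockDefect 2 b * c S χ) := by
    linarith
  have h7 := lt_of_mul_lt_mul_left h6 h5.le
  have h8 : c S χ ^ 2 < 2 ^ blockDefect 2 b * c S χ := by exact_mod_cast h7
  have h9 := c_nonneg S χ
  have h10 : (0 : ℤ) < 2 ^ blockDefect 2 b := by positivity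
  nlinarith

theorem c_eq_zero {χ : IrrCharacter G} (hχ : χ ∉ B) : c S χ = 0 := by
  have h1 := sum_A S χ
  rw [Finset.sum_eq_zero (fun μ hμ => S.A_eq_zero hμ hχ)] at h1
  have h2 : ((2 : ℂ) ^ i) ≠ 0 := pow_ne_zero _ (by norm_num)
  have h3 : (c S χ : ℂ) = 0 := by
    rcases mul_eq_zero.1 h1.symm with h | h
    · exact absurd h h2
    · exact h
  exact_mod_cast h3

include S in
/-- S4575 -/
theorem bound (hq : blockDefect 2 b = blockDefect 2 B) (hk : Nat.card B ≤ blockRank 2 b + 3) :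
    Nat.card B ≤ 2 ^ blockDefect 2 b := by
  classical
  by_contra hcon
  push Not at hcon
  set T := Finset.univ.filter (fun χ : IrrCharacter G => χ ∈ B) with hT
  have hTc : Nat.card B = T.card := by
    rw [← Fintype.card_subtype, ← Nat.card_eq_fintype_card]
  obtain ⟨ψ0, hψ0, h00⟩ := exists_height_zero S.hM S.hb.2.1
  set N : ℤ := 2 ^ blockDefect 2 b with hN
  have hNpos : 0 < N := by positivity
  have hkN : N < Nat.card B := by rw [hN]; exact_mod_cast hcon
  have hN2 : N = 1 ∨ (2 : ℤ) ∣ N := by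
    rcases Nat.eq_zero_or_pos (blockDefect 2 b) with h | h
    · left; rw [hN, h, pow_zero]
    · right; exact dvd_pow_self 2 h.ne'
  have hN4 : N = 1 ∨ N = 2 ∨ (4 : ℤ) ∣ N := by
    rcases Nat.lt_or_ge (blockDefect 2 b) 2 with h | h
    · have h' : blockDefect 2 b = 0 ∨ blockDefect 2 b = 1 := by omega
      rcases h' with h' | h'
      · left; rw [hN, h', pow_zero]
      · right; left; rw [hN, h', pow_one]
    · right; right
      exact pow_dvd_pow 2 h
  have key : ∀ χ ∈ T, (3 : ℤ) ≤ N - c S χ := by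
    intro χ hχ
    have hχB := (Finset.mem_filter.1 hχ).2
    have hc0 := c_nonneg S χ
    by_cases h0 : blockHeight 2 B (χ : G → ℂ) = 0
    · have h1 := major_main S hq hχB h0
      have h2 := c_odd S hχB h0
      set a := c S χ with ha
      have h3 : N + a ^ 2 ≤ N * a := by linarith
      have h4 : 0 < a := by
        rcases hc0.lt_or_eq with h | h
        · exact h
        · exact absurd (h ▸ dvd_zero 2) h2
      have h5 : a < N := by nlinarith
      have h6 : a ≠ N - 1 := by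
        intro h
        rw [h] at h3
        nlinarith
      have h7 : a ≠ N - 2 := by
        intro h
        rcases hN2 with h8 | h8
        · omega
        · exact h2 (by rw [h]; omega)
      omega
    · have h1 := dvd_c S hq hχB h0
      have h2 : (4 : ℤ) ∣ c S χ := by
        refine dvd_trans ?_ h1
        rw [show (4 : ℤ) = 2 ^ 2 by norm_num]
        exact pow_dvd_pow 2 (by omega)
      have h3 : ∀ μ ∈ primitiveRoots (2 ^ (i + 1)) ℂ, S.A μ χ ψ0 ≠ 0 :=
        fun μ hμ => S.major_ne_zero hq hχB hψ0 h00 hμ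
      have h4 : 0 < c S χ := c_pos S h3
      have h5 : c S χ < N := c_lt S (fun h => h0 (h ▸ h00)) h3
      omega
  have h1 : ∑ χ ∈ T, (3 : ℤ) ≤ ∑ χ ∈ T, (N - c S χ) := Finset.sum_le_sum key
  have h2 : ∑ χ ∈ T, c S χ = N * blockRank 2 b := by
    rw [← sum_c S]
    apply Finset.sum_subset (Finset.subset_univ _)
    intro χ _ hχ
    exact c_eq_zero S (fun h => hχ (Finset.mem_filter.2 ⟨Finset.mem_univ _, h⟩))
  rw [Finset.sum_sub_distrib, h2, Finset.sum_const, Finset.sum_const, nsmul_eq_mul, nsmul_eq_mul,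
    ← hTc] at h1
  have h3 : (Nat.card B : ℤ) ≤ blockRank 2 b + 3 := by exact_mod_cast hk
  nlinarith

end H79.ContrThree
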