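import Mathlib
import Cfsg.Agent.Lib.H20.Orth
import Cfsg.Agent.Lib.H20.NPC
import Cfsg.Agent.Lib.H78.Contr1
import Cfsg.Agent.Lib.H70.Real
import Cfsg.Agent.S4441

/-! The lattice of the principal block with a Sylow subgroup of order `p` (S4588). -/

set_option autoImplicit false
set_option linter.unusedSectionVars false
set_option linter.unusedVariables false
set_option linter.style.haveILetI false
open Cfsg

namespace H79.DefOne

open H20.Loc H20.GA H20.Blk H20.NormQ H20.Orth H20.NPC H18.CharBasic H18.CharOrtho H78.BlkCount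
open H78.Contr
open scoped ComplexConjugate

universe u

variable {K : Type u} [Group K] [Fintype K] {p : ℕ} {M : Ideal AlgInt}

theorem isGen_sum {ι : Type*} (s : Finset ι) (f : ι → K → ℂ)
    (h : ∀ i ∈ s, IsGeneralizedCharacter K (f i)) : IsGeneralizedCharacter K (∑ i ∈ s, f i) := by
  classical
  induction s using Finset.induction_on with
  | empty =>
    rw [Finset.sum_empty]
    exact isGen_zero
  | insert a s ha ih =>
    rw [Finset.sum_insert ha]
    exact isGen_add (h a (Finset.mem_insert_self _ _))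
      (ih fun i hi => h i (Finset.mem_insert_of_mem hi))

theorem isGen_sign {f : K → ℂ} (h : IsGeneralizedCharacter K f) {c : ℂ} (hc : c = 1 ∨ c = -1) :
    IsGeneralizedCharacter K (c • f) := by
  rcases hc with rfl | rfl
  · rwa [one_smul]
  · rw [neg_smul, one_smul]
    exact isGen_neg h

/-- the abstract data -/
structure Dat (p : ℕ) (B : Set (IrrCharacter K)) (X Y : Finset (IrrCharacter K))
    (ε : IrrCharacter K → ℂ) (δ : ℂ) : Prop where
  mem : ∀ χ, χ ∈ B ↔ χ ∈ X ∨ χ ∈ Y
  disj : Disjoint X Y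
  hε : ∀ χ ∈ X, ε χ = 1 ∨ ε χ = -1
  hδ : δ = 1 ∨ δ = -1
  agree : ∀ θ ∈ Y, ∀ θ' ∈ Y, ∀ g : K, ¬ p ∣ orderOf g → (θ : K → ℂ) g = (θ' : K → ℂ) g
  rel : ∀ θ ∈ Y, ∀ g : K, ¬ p ∣ orderOf g →
    δ * (θ : K → ℂ) g = ∑ χ ∈ X, ε χ * (χ : K → ℂ) g
  sing : ∀ χ ∈ X, ∀ g : K, p ∣ orderOf g → (χ : K → ℂ) g = ε χ
  ne : Y.Nonempty

variable {B : Set (IrrCharacter K)} {X Y : Finset (IrrCharacter K)} {ε : IrrCharacter K → ℂ}
  {δ : ℂ}

theorem sq_one {c : ℂ} (hc : c = 1 ∨ c = -1) : c * c = 1 := by
  rcases hc with rfl | rfl <;> norm_num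

theorem conj_sign {c : ℂ} (hc : c = 1 ∨ c = -1) : conj c = c := by
  rcases hc with rfl | rfl <;> simp

/-- the value of the exceptional sum at singular elements -/
theorem sum_sing (hM : IsPModular p M) (hB : IsPBlock M B) (h : Dat p B X Y ε δ) {g : K}
    (hg : p ∣ orderOf g) : ∑ θ ∈ Y, (θ : K → ℂ) g = -δ := by
  classical
  letI := Fintype.ofFinite (IrrCharacter K)
  haveI := pm_isPrime hM
  have h1r : ¬ p ∣ orderOf (1 : K) := by
    rw [orderOf_one]; exact (pm_prime hM).one_lt.ne' ∘ Nat.dvd_one.1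
  have h1 := weak_orth hM (isUnion_of_isPBlock hB) h1r hg
  rw [← Finset.sum_filter] at h1
  have h2 : Finset.univ.filter (fun χ : IrrCharacter K => χ ∈ B) = X ∪ Y := by
    ext χ
    simp [h.mem]
  rw [h2, Finset.sum_union h.disj] at h1
  obtain ⟨θ0, hθ0⟩ := h.ne
  have h3 : ∑ χ ∈ X, (χ : K → ℂ) 1 * conj ((χ : K → ℂ) g) = δ * (θ0 : K → ℂ) 1 := by
    rw [h.rel θ0 hθ0 1 h1r]
    refine Finset.sum_congr rfl fun χ hχ => ?_
    rw [h.sing χ hχ g hg, conj_sign (h.hε χ hχ), mul_comm]
  have h4 : ∑ θ ∈ Y, (θ : K → ℂ) 1 * conj ((θ : K → ℂ) g) =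
      (θ0 : K → ℂ) 1 * conj (∑ θ ∈ Y, (θ : K → ℂ) g) := by
    rw [map_sum, Finset.mul_sum]
    refine Finset.sum_congr rfl fun θ hθ => ?_
    rw [h.agree θ hθ θ0 hθ0 1 h1r]
  rw [h3, h4] at h1
  have h5 := irr_one_ne_zero θ0.2
  have h6 : conj (∑ θ ∈ Y, (θ : K → ℂ) g) = -δ := by
    have : (θ0 : K → ℂ) 1 * (conj (∑ θ ∈ Y, (θ : K → ℂ) g) + δ) = 0 := by linear_combination h1
    rcases mul_eq_zero.1 this with h | h
    · exact absurd h h5
    · linear_combination h
  have h7 := congrArg conj h6
  rwa [Complex.conj_conj, map_neg, conj_sign h.hδ] at h7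

theorem exists_family (hM : IsPModular p M) (hB : IsPBlock M B) (h : Dat p B X Y ε δ)
    (hX : X.Nonempty) : ∃ η : Fin (X.card + 1) → K → ℂ, (∀ i, η i ∈ rspn p B) ∧
      (∀ i, IsGeneralizedCharacter K (η i)) ∧ (∀ i, reg p (η i) = η i) ∧ ∑ i, η i = 0 ∧
      (∀ f ∈ rspn p B, (∀ i, classInner (η i) f = 0) → f = 0) ∧
      ∑ i, (classInner (η i) (η i)).re = 2 * (X.card + Y.card) := by
  classical
  letI := Fintype.ofFinite (IrrCharacter K)
  haveI := pm_isPrime hM
  set e := X.card with he
  have he1 : 1 ≤ e := Finset.card_pos.2 hX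
  let a : Fin e ≃ X := X.equivFin.symm
  let v : Fin (e + 1) → K → ℂ := Fin.cons ((-δ) • ∑ θ ∈ Y, (θ : K → ℂ))
    (fun i => ε (a i) • ((a i : IrrCharacter K) : K → ℂ))
  have hv0 : v 0 = (-δ) • ∑ θ ∈ Y, (θ : K → ℂ) := rfl
  have hvs : ∀ i : Fin e, v i.succ = ε (a i) • ((a i : IrrCharacter K) : K → ℂ) := fun i => rfl
  have hδ' : -δ = 1 ∨ -δ = -1 := by
    rcases h.hδ with rfl | rfl
    · right; rfl
    · left; rw [neg_neg]
  -- properties of `v`
  have hgen : ∀ i, IsGeneralizedCharacter K (v i) := by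
    intro i
    refine Fin.cases ?_ (fun i => ?_) i
    · rw [hv0]
      exact isGen_sign (isGen_sum _ _ fun θ _ => isGen_of_isCharacter (isCharacter_of_isIrr θ.2)) hδ'
    · rw [hvs]
      exact isGen_sign (isGen_of_isCharacter (isCharacter_of_isIrr (a i : IrrCharacter K).2))
        (h.hε _ (a i).2)
  have hspn : ∀ i, v i ∈ spn B := by
    intro i
    refine Fin.cases ?_ (fun i => ?_) i
    · rw [hv0]
      refine Submodule.smul_mem _ _ (Submodule.sum_mem _ fun θ hθ => ?_)
      exact Submodule.subset_span ⟨θ, (h.mem θ).2 (Or.inr hθ), rfl⟩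
    · rw [hvs]
      exact Submodule.smul_mem _ _ (Submodule.subset_span ⟨_, (h.mem _).2 (Or.inl (a i).2), rfl⟩)
  have hsing : ∀ i, ∀ g : K, p ∣ orderOf g → v i g = 1 := by
    intro i g hg
    refine Fin.cases ?_ (fun i => ?_) i
    · rw [hv0, Pi.smul_apply, Finset.sum_apply, sum_sing hM hB h hg, smul_eq_mul]
      have := sq_one h.hδ
      linear_combination this
    · rw [hvs, Pi.smul_apply, h.sing _ (a i).2 g hg, smul_eq_mul]
      exact sq_one (h.hε _ (a i).2)
  have hnorm0 : classInner (v 0) (v 0) = (Y.card : ℂ) := by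
    rw [hv0, H18.CharOrtho.inner_smul_left, H18.CharOrtho.inner_smul_right, inner_sum_left,
      conj_sign hδ', ← mul_assoc, sq_one hδ', one_mul]
    rw [Finset.sum_congr rfl (g := fun _ => (1 : ℂ))]
    · rw [Finset.sum_const, nsmul_eq_mul, mul_one]
    · intro θ hθ
      rw [inner_sum_right, Finset.sum_eq_single θ]
      · exact inner_irr_self θ.2
      · intro θ' _ hne
        exact inner_irr_ne θ.2 θ'.2 (fun hc => hne (Subtype.ext hc).symm)
      · intro hc; exact absurd hθ hc
  have hnorms : ∀ i : Fin e, classInner (v i.succ) (v i.succ) = 1 := by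
    intro i
    rw [hvs, H18.CharOrtho.inner_smul_left, H18.CharOrtho.inner_smul_right, inner_irr_self (a i : IrrCharacter K).2,
      mul_one, conj_sign (h.hε _ (a i).2), sq_one (h.hε _ (a i).2)]
  have horth0 : ∀ i : Fin e, classInner (v i.succ) (v 0) = 0 := by
    intro i
    rw [hvs, hv0, H18.CharOrtho.inner_smul_left, H18.CharOrtho.inner_smul_right, inner_sum_right,
      Finset.sum_eq_zero, mul_zero, mul_zero]
    intro θ hθ
    refine inner_irr_ne (a i : IrrCharacter K).2 θ.2 (fun hc => ?_)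
    have h1 : (a i : IrrCharacter K) = θ := Subtype.ext hc
    exact Finset.disjoint_left.1 h.disj (a i).2 (h1 ▸ hθ)
  have horths : ∀ i j : Fin e, i ≠ j → classInner (v i.succ) (v j.succ) = 0 := by
    intro i j hij
    rw [hvs, hvs, H18.CharOrtho.inner_smul_left, H18.CharOrtho.inner_smul_right, inner_irr_ne
      (a i : IrrCharacter K).2 (a j : IrrCharacter K).2, mul_zero, mul_zero]
    intro hc
    exact hij (a.injective (Subtype.ext (Subtype.ext hc)))
  have horth : ∀ i j : Fin (e + 1), i ≠ j → classInner (v i) (v j) = 0 := by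
    intro i j
    refine Fin.cases ?_ (fun i => ?_) i
    · refine Fin.cases (fun hc => absurd rfl hc) (fun j _ => ?_) j
      rw [← H18.CharOrtho.inner_conj_symm, horth0, map_zero]
    · refine Fin.cases (fun _ => horth0 i) (fun j hc => ?_) j
      exact horths i j (fun hc' => hc (by rw [hc']))
  -- the differences
  have hne1 : ∀ i : Fin (e + 1), i + 1 ≠ i := by
    intro i hc
    have h1 : (1 : Fin (e + 1)) = 0 := by
      have := congrArg (fun x => x - i) hc
      simpa using this
    have h2 := congrArg Fin.val h1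
    rw [Fin.val_one', Fin.val_zero, Nat.mod_eq_of_lt (by omega)] at h2
    exact one_ne_zero h2
  have hreg : ∀ i, reg p (v (i + 1) - v i) = v (i + 1) - v i := by
    intro i
    funext g
    by_cases hg : p ∣ orderOf g
    · rw [reg_not hg, Pi.sub_apply, hsing _ g hg, hsing _ g hg, sub_self]
    · rw [reg_of hg]
  refine ⟨fun i => v (i + 1) - v i, ?_, ?_, hreg, ?_, ?_, ?_⟩
  · intro i
    show v (i + 1) - v i ∈ rspn p B
    rw [rspn_eq_map]
    exact ⟨_, Submodule.sub_mem _ (hspn (i + 1)) (hspn i), hreg i⟩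
  · intro i
    exact isGen_sub (hgen _) (hgen _)
  · rw [Finset.sum_sub_distrib]
    have h1 := Equiv.sum_comp (Equiv.addRight (1 : Fin (e + 1))) v
    simp only [Equiv.coe_addRight] at h1
    rw [h1, sub_self]
  · intro f hf hall
    have h1 : ∀ i, classInner (v (i + 1)) f = classInner (v i) f := by
      intro i
      have := hall i
      rw [H18.CharOrtho.inner_sub_left] at this
      exact sub_eq_zero.1 this
    have h2 : ∀ i, classInner (v i) f = classInner (v 0) f := by
      intro i
      induction i using Fin.induction with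
      | zero => rfl
      | succ i ih =>
        rw [← ih, ← h1 i.castSucc, Fin.coeSucc_eq_succ]
    have hfr := reg_of_mem_rspn hf
    obtain ⟨θ0, hθ0⟩ := h.ne
    have hY : ∀ θ ∈ Y, classInner (θ : K → ℂ) f = classInner (θ0 : K → ℂ) f := by
      intro θ hθ
      have h3 : reg p (θ : K → ℂ) = reg p (θ0 : K → ℂ) := by
        funext g
        by_cases hg : p ∣ orderOf g
        · rw [reg_not hg, reg_not hg]
        · rw [reg_of hg, reg_of hg, h.agree θ hθ θ0 hθ0 g hg]
      rw [← hfr, ← inner_reg_left, h3, inner_reg_left]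
    have hv0f : classInner (v 0) f = -δ * (Y.card * classInner (θ0 : K → ℂ) f) := by
      rw [hv0, H18.CharOrtho.inner_smul_left, inner_sum_left, Finset.sum_congr rfl hY, Finset.sum_const,
        nsmul_eq_mul]
    -- the relation
    have hrel : δ * classInner (θ0 : K → ℂ) f = e * classInner (v 0) f := by
      have h3 : reg p (δ • (θ0 : K → ℂ)) = reg p (∑ χ ∈ X, ε χ • (χ : K → ℂ)) := by
        funext g
        by_cases hg : p ∣ orderOf g
        · rw [reg_not hg, reg_not hg]
        · rw [reg_of hg, reg_of hg, Pi.smul_apply, smul_eq_mul, h.rel θ0 hθ0 g hg, Finset.sum_apply]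
          rfl
      have h4 : classInner (δ • (θ0 : K → ℂ)) f = classInner (∑ χ ∈ X, ε χ • (χ : K → ℂ)) f := by
        rw [← hfr, ← inner_reg_left, h3, inner_reg_left]
      rw [H18.CharOrtho.inner_smul_left, inner_sum_left] at h4
      rw [h4, ← Finset.sum_coe_sort X (fun χ => classInner (ε χ • (χ : K → ℂ)) f),
        ← Equiv.sum_comp a]
      rw [Finset.sum_congr rfl (fun i _ => (h2 i.succ : _)) (g := fun _ => classInner (v 0) f)]
      rw [Finset.sum_const, Finset.card_univ, Fintype.card_fin, nsmul_eq_mul]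
    have hYpos : (0 : ℝ) < Y.card := by exact_mod_cast Finset.card_pos.2 h.ne
    have hc0 : classInner (θ0 : K → ℂ) f = 0 := by
      have h3 : δ * classInner (θ0 : K → ℂ) f * (1 + e * Y.card) = 0 := by
        rw [hv0f] at hrel
        linear_combination hrel
      have h4 : (1 + (e : ℂ) * Y.card) ≠ 0 := by
        intro h5
        have h6 := congrArg Complex.re h5
        simp at h6
        have h7 : (0 : ℝ) ≤ e := Nat.cast_nonneg e
        nlinarith
      rcases mul_eq_zero.1 h3 with h5 | h5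
      · rcases mul_eq_zero.1 h5 with h6 | h6
        · exfalso
          have := sq_one h.hδ
          rw [h6, mul_zero] at this
          exact zero_ne_one this
        · exact h6
      · exact absurd h5 h4
    have hv0' : classInner (v 0) f = 0 := by rw [hv0f, hc0, mul_zero, mul_zero]
    have hX0 : ∀ χ ∈ X, classInner (χ : K → ℂ) f = 0 := by
      intro χ hχ
      obtain ⟨i, hi⟩ := a.surjective ⟨χ, hχ⟩
      have h3 := h2 i.succ
      rw [hv0', hvs, hi, H18.CharOrtho.inner_smul_left] at h3
      rcases mul_eq_zero.1 h3 with h4 | h4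
      · exfalso
        have := sq_one (h.hε χ hχ)
        rw [h4, mul_zero] at this
        exact zero_ne_one this
      · exact h4
    have hY0 : ∀ θ ∈ Y, classInner (θ : K → ℂ) f = 0 := fun θ hθ => by rw [hY θ hθ, hc0]
    rw [← proj_of_mem_rspn hM hB hf, proj_eq_sum_smul]
    apply Finset.sum_eq_zero
    intro χ _
    split_ifs with hχ
    · rw [← H18.CharOrtho.inner_conj_symm]
      rcases (h.mem χ).1 hχ with h3 | h3
      · rw [hX0 χ h3, map_zero, zero_smul]
      · rw [hY0 χ h3, map_zero, zero_smul]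
    · rw [zero_smul]
  · have h1 : ∀ i, classInner (v (i + 1) - v i) (v (i + 1) - v i) =
        classInner (v (i + 1)) (v (i + 1)) + classInner (v i) (v i) := by
      intro i
      rw [H18.CharOrtho.inner_sub_left, H18.CharOrtho.inner_sub_right, H18.CharOrtho.inner_sub_right,
        horth _ _ (hne1 i), horth _ _ (hne1 i).symm]
      ring
    have h2 : ∑ i, classInner (v (i + 1) - v i) (v (i + 1) - v i) = 2 * (e + Y.card) := by
      have h3 := Equiv.sum_comp (Equiv.addRight (1 : Fin (e + 1))) (fun i => classInner (v i) (v i))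
      simp only [Equiv.coe_addRight] at h3
      rw [Finset.sum_congr rfl (fun i _ => h1 i), Finset.sum_add_distrib, h3,
        Fin.sum_univ_succ, hnorm0, Finset.sum_congr rfl (fun i _ => hnorms i), Finset.sum_const,
        Finset.card_univ, Fintype.card_fin, nsmul_eq_mul]
      ring
    rw [← Complex.re_sum, h2]
    simp

end H79.DefOne
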