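import Mathlib
import Cfsg.Agent.Lib.H20.Col
import Cfsg.Agent.Lib.H1.Cores

/-! The index of the centralizer in the normalizer of a Sylow subgroup, in subgroups and quotients. -/

set_option autoImplicit false
set_option linter.unusedSectionVars false
set_option linter.unusedVariables false
set_option linter.style.haveILetI false
open Cfsg H20.Col
open scoped Pointwise

namespace H79.EIdx

universe u

variable {G : Type u} [Group G] [Finite G] {p : ℕ}

/-- `C_G(P)` -/
abbrev CC (P : Sylow p G) : Subgroup G := Subgroup.centralizer ((P : Subgroup G) : Set G)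

/-- `N_G(P)` -/
abbrev NN (P : Sylow p G) : Subgroup G := Subgroup.normalizer ((P : Subgroup G) : Set G)

theorem CC_le_NN (P : Sylow p G) : CC P ≤ NN P := Subgroup.centralizer_le_normalizer _

theorem relIndex_mul (P : Sylow p G) : (CC P).relIndex (NN P) * Nat.card (CC P) = Nat.card (NN P) := by
  have h1 := Subgroup.card_mul_index ((CC P).subgroupOf (NN P))
  rw [Nat.card_congr (Subgroup.subgroupOfEquivOfLe (CC_le_NN P)).toEquiv, mul_comm] at h1
  exact h1

variable [hp : Fact p.Prime]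

theorem P_le_CC (P : Sylow p G) (hab : ∀ x ∈ (P : Subgroup G), ∀ y ∈ (P : Subgroup G), x * y = y * x) :
    (P : Subgroup G) ≤ CC P := fun x hx => by
  rw [Subgroup.mem_centralizer_iff]
  exact fun y hy => hab y hy x hx

theorem not_dvd (P : Sylow p G) (hab : ∀ x ∈ (P : Subgroup G), ∀ y ∈ (P : Subgroup G), x * y = y * x) :
    ¬ p ∣ (CC P).relIndex (NN P) := by
  intro h
  apply P.not_dvd_index
  have h1 : (CC P).relIndex (NN P) ∣ (P : Subgroup G).relIndex (NN P) :=
    Subgroup.relIndex_dvd_of_le_left (NN P) (P_le_CC P hab)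
  have h2 : (P : Subgroup G).relIndex (NN P) ∣ (P : Subgroup G).index :=
    ⟨_, (Subgroup.relIndex_mul_index Subgroup.le_normalizer).symm⟩
  exact (h.trans h1).trans h2

section sub
variable {P : Sylow p G} {D : Subgroup G} (hPD : (P : Subgroup G) ≤ D)

theorem mem_sub {x : D} : x ∈ (P.subtype hPD : Subgroup D) ↔ (x : G) ∈ (P : Subgroup G) := Iff.rfl

theorem mem_NN_sub {g : D} : g ∈ NN (P.subtype hPD) ↔ (g : G) ∈ NN P := by
  rw [Subgroup.mem_normalizer_iff, Subgroup.mem_normalizer_iff]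
  constructor
  · intro hg x
    constructor
    · intro hx
      exact (hg ⟨x, hPD hx⟩).1 hx
    · intro hx
      have hx' : g * (⟨g⁻¹ * (g * x * (g : G)⁻¹) * g, D.mul_mem (D.mul_mem (D.inv_mem g.2) (hPD hx)) g.2⟩ : D) * g⁻¹ ∈
          (P.subtype hPD : Subgroup D) := by
        rw [mem_sub]
        have : ((g * (⟨g⁻¹ * (g * x * (g : G)⁻¹) * g, D.mul_mem (D.mul_mem (D.inv_mem g.2) (hPD hx)) g.2⟩ : D) * g⁻¹ : D) : G) =
          g * x * (g : G)⁻¹ := by
          show (g : G) * ((g : G)⁻¹ * (g * x * (g : G)⁻¹) * g) * (g : G)⁻¹ = _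
          group
        rw [this]; exact hx
      have h1 := (hg _).2 hx'
      rw [mem_sub] at h1
      have h2 : (g : G)⁻¹ * (g * x * (g : G)⁻¹) * g = x := by group
      have h3 : ((⟨g⁻¹ * (g * x * (g : G)⁻¹) * g, D.mul_mem (D.mul_mem (D.inv_mem g.2) (hPD hx)) g.2⟩ : D) : G) = x := h2
      rwa [h3] at h1
  · intro hg x
    rw [mem_sub, mem_sub]
    exact hg x

theorem mem_CC_sub {g : D} : g ∈ CC (P.subtype hPD) ↔ (g : G) ∈ CC P := by
  rw [Subgroup.mem_centralizer_iff, Subgroup.mem_centralizer_iff]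
  constructor
  · intro hg x hx
    exact congrArg Subtype.val (hg ⟨x, hPD hx⟩ hx)
  · intro hg x hx
    exact Subtype.ext (hg x hx)

theorem sub_eq (hND : NN P ≤ D) : (CC (P.subtype hPD)).relIndex (NN (P.subtype hPD)) = (CC P).relIndex (NN P) := by
  have h1 := relIndex_mul (P.subtype hPD)
  have h2 := relIndex_mul P
  have e1 : Nat.card (CC (P.subtype hPD)) = Nat.card (CC P) :=
    Nat.card_congr ⟨fun g => ⟨(g : D), (mem_CC_sub hPD).1 g.2⟩,
      fun g => ⟨⟨g, hND (CC_le_NN P g.2)⟩, (mem_CC_sub hPD).2 g.2⟩, fun _ => rfl, fun _ => rfl⟩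
  have e2 : Nat.card (NN (P.subtype hPD)) = Nat.card (NN P) :=
    Nat.card_congr ⟨fun g => ⟨(g : D), (mem_NN_sub hPD).1 g.2⟩,
      fun g => ⟨⟨g, hND g.2⟩, (mem_NN_sub hPD).2 g.2⟩, fun _ => rfl, fun _ => rfl⟩
  rw [e1, e2, ← h2] at h1
  exact Nat.eq_of_mul_eq_mul_right Nat.card_pos h1

theorem sub_one (hND : NN P ⊓ D ≤ CC P) : (CC (P.subtype hPD)).relIndex (NN (P.subtype hPD)) = 1 := by
  rw [Subgroup.relIndex_eq_one]
  intro g hg
  rw [mem_CC_sub hPD]
  exact hND ⟨(mem_NN_sub hPD).1 hg, g.2⟩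

theorem sub_le_cen (hND : NN P ⊓ D ≤ CC P) : NN (P.subtype hPD) ≤ CC (P.subtype hPD) := by
  intro g hg
  rw [mem_CC_sub hPD]
  exact hND ⟨(mem_NN_sub hPD).1 hg, g.2⟩

end sub

section quot
variable {P : Sylow p G} (Q : Subgroup G) [Q.Normal]

/-- the image of the Sylow subgroup -/
noncomputable abbrev PQ (P : Sylow p G) (Q : Subgroup G) [Q.Normal] : Sylow p (G ⧸ Q) :=
  P.mapSurjective (QuotientGroup.mk'_surjective Q)

theorem mem_PQ {y : G ⧸ Q} : y ∈ (PQ P Q : Subgroup (G ⧸ Q)) ↔ ∃ x ∈ (P : Subgroup G), QuotientGroup.mk x = y :=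
  Iff.rfl

/-- quotient by a central subgroup of order `2` -/
theorem quot_central (hp2 : p = 2) (hab : ∀ x ∈ (P : Subgroup G), ∀ y ∈ (P : Subgroup G), x * y = y * x)
    (hQP : Q ≤ (P : Subgroup G)) (hQc : ∀ q ∈ Q, ∀ g : G, q * g = g * q) (hQ2 : ∀ q ∈ Q, q * q = 1) :
    (CC (PQ P Q)).relIndex (NN (PQ P Q)) = (CC P).relIndex (NN P) := by
  have hN : (NN (PQ P Q)).comap (QuotientGroup.mk' Q) = NN P := by
    ext g
    rw [Subgroup.mem_comap, Subgroup.mem_normalizer_iff, Subgroup.mem_normalizer_iff]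
    have key : ∀ x : G, (QuotientGroup.mk x : G ⧸ Q) ∈ (PQ P Q : Subgroup (G ⧸ Q)) ↔ x ∈ (P : Subgroup G) := by
      intro x
      rw [mem_PQ]
      constructor
      · rintro ⟨y, hy, hyx⟩
        rw [QuotientGroup.eq] at hyx
        have := (P : Subgroup G).mul_mem hy (hQP hyx)
        rwa [mul_inv_cancel_left] at this
      · intro hx; exact ⟨x, hx, rfl⟩
    constructor
    · intro h x
      rw [← key x, ← key (g * x * g⁻¹)]
      exact h (QuotientGroup.mk x)
    · intro h y
      obtain ⟨x, rfl⟩ := QuotientGroup.mk_surjective y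
      rw [key x]
      exact (h x).trans (key (g * x * g⁻¹)).symm
  have hC : (CC (PQ P Q)).comap (QuotientGroup.mk' Q) = CC P := by
    ext g
    rw [Subgroup.mem_comap]
    constructor
    · intro hg
      have hgN : g ∈ NN P := by
        rw [← hN, Subgroup.mem_comap]
        exact CC_le_NN _ hg
      have h1 : ∀ x ∈ (P : Subgroup G), ∃ q ∈ Q, g * x * g⁻¹ = q * x := by
        intro x hx
        rw [Subgroup.mem_centralizer_iff] at hg
        have h2 := hg (QuotientGroup.mk x) ((mem_PQ Q).2 ⟨x, hx, rfl⟩)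
        have h3 : (QuotientGroup.mk (x * g) : G ⧸ Q) = QuotientGroup.mk (g * x) := h2
        rw [QuotientGroup.eq] at h3
        refine ⟨(x * g)⁻¹ * (g * x), h3, ?_⟩
        have h4 := hQc _ h3
        have h5 := h4 (x * g * g⁻¹)
        calc g * x * g⁻¹ = (x * g * g⁻¹) * (g * ((x * g)⁻¹ * (g * x)) * g⁻¹) := by group
          _ = (x * g * g⁻¹) * (((x * g)⁻¹ * (g * x)) * g * g⁻¹) := by rw [h4 g]
          _ = (x * g * g⁻¹) * ((x * g)⁻¹ * (g * x)) := by rw [mul_assoc ((x * g)⁻¹ * (g * x)), mul_inv_cancel, mul_one]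
          _ = ((x * g)⁻¹ * (g * x)) * (x * g * g⁻¹) := h5.symm
          _ = ((x * g)⁻¹ * (g * x)) * x := by rw [mul_assoc x g, mul_inv_cancel, mul_one]
      have h2 : g * g ∈ CC P := by
        rw [Subgroup.mem_centralizer_iff]
        intro x hx
        obtain ⟨q, hq, h3⟩ := h1 x hx
        have h4 : g * g * x * (g * g)⁻¹ = x := by
          calc g * g * x * (g * g)⁻¹ = g * (g * x * g⁻¹) * g⁻¹ := by group
            _ = g * (q * x) * g⁻¹ := by rw [h3]
            _ = (g * q) * x * g⁻¹ := by group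
            _ = (q * g) * x * g⁻¹ := by rw [hQc q hq g]
            _ = q * (g * x * g⁻¹) := by group
            _ = q * q * x := by rw [h3, mul_assoc]
            _ = x := by rw [hQ2 q hq, one_mul]
        exact (mul_inv_eq_iff_eq_mul.1 h4).symm
      -- odd index
      have hnd : ¬ 2 ∣ (CC P).relIndex (NN P) := by subst hp2; exact not_dvd P hab
      haveI : ((CC P).subgroupOf (NN P)).Normal := inferInstance
      have h3 : g ^ (CC P).relIndex (NN P) ∈ CC P := by
        have := Subgroup.pow_index_mem ((CC P).subgroupOf (NN P)) (⟨g, hgN⟩ : NN P)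
        rw [Subgroup.mem_subgroupOf] at this
        exact this
      obtain ⟨k, hk⟩ : Odd ((CC P).relIndex (NN P)) := by
        rw [← Nat.not_even_iff_odd, even_iff_two_dvd]; exact hnd
      rw [hk, pow_succ, pow_mul, sq] at h3
      have h4 := (CC P).mul_mem ((CC P).inv_mem ((CC P).pow_mem h2 k)) h3
      rwa [inv_mul_cancel_left] at h4
    · intro hg
      rw [Subgroup.mem_centralizer_iff]
      rintro y hy
      obtain ⟨x, hx, rfl⟩ := (mem_PQ Q).1 hy
      rw [Subgroup.mem_centralizer_iff] at hg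
      exact congrArg (QuotientGroup.mk : G → G ⧸ Q) (hg x hx)
  rw [← hC, Subgroup.relIndex_comap, ← hN, Subgroup.map_comap_eq_self_of_surjective (QuotientGroup.mk'_surjective Q)]

/-- Frattini -/
theorem map_NN : (NN P).map (QuotientGroup.mk' Q) = NN (PQ P Q) := by
    apply le_antisymm
    · rintro _ ⟨g, hg, rfl⟩
      rw [Subgroup.mem_normalizer_iff]
      intro y
      obtain ⟨x, rfl⟩ := QuotientGroup.mk_surjective y
      constructor
      · intro hx
        obtain ⟨x', hx', h1⟩ := (mem_PQ Q).1 hx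
        refine (mem_PQ Q).2 ⟨g * x' * g⁻¹, (Subgroup.mem_normalizer_iff.1 hg x').1 hx', ?_⟩
        rw [← h1]; rfl
      · intro hx
        obtain ⟨x', hx', h1⟩ := (mem_PQ Q).1 hx
        refine (mem_PQ Q).2 ⟨g⁻¹ * x' * g, ?_, ?_⟩
        · have := (Subgroup.mem_normalizer_iff.1 hg (g⁻¹ * x' * g)).2 (by
            have : g * (g⁻¹ * x' * g) * g⁻¹ = x' := by group
            rw [this]; exact hx')
          exact this
        · have h2 : (QuotientGroup.mk (g⁻¹ * x' * g) : G ⧸ Q) = (QuotientGroup.mk g)⁻¹ * QuotientGroup.mk x' * QuotientGroup.mk g := rfl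
          rw [h2, h1]
          show (QuotientGroup.mk g : G ⧸ Q)⁻¹ * (QuotientGroup.mk g * QuotientGroup.mk x * (QuotientGroup.mk g)⁻¹) * QuotientGroup.mk g = _
          group
    · intro y hy
      obtain ⟨g, rfl⟩ := QuotientGroup.mk_surjective y
      -- Frattini
      have hD1 : (P : Subgroup G) ≤ (P : Subgroup G) ⊔ Q := le_sup_left
      have hD2 : ((g • P : Sylow p G) : Subgroup G) ≤ (P : Subgroup G) ⊔ Q := by
        intro z hz
        rw [Sylow.coe_subgroup_smul, Subgroup.mem_smul_pointwise_iff_exists] at hz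
        obtain ⟨x, hx, rfl⟩ := hz
        have h1 := (Subgroup.mem_normalizer_iff.1 hy (QuotientGroup.mk x)).1 ((mem_PQ Q).2 ⟨x, hx, rfl⟩)
        obtain ⟨x', hx', h2⟩ := (mem_PQ Q).1 h1
        have h3 : (QuotientGroup.mk x' : G ⧸ Q) = QuotientGroup.mk (g * x * g⁻¹) := h2
        rw [QuotientGroup.eq] at h3
        have h4 : g * x * g⁻¹ = x' * (x'⁻¹ * (g * x * g⁻¹)) := by group
        show g * x * g⁻¹ ∈ _
        rw [h4]
        exact Subgroup.mul_mem _ (Subgroup.mem_sup_left hx') (Subgroup.mem_sup_right h3)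
      obtain ⟨d, hd⟩ := MulAction.exists_smul_eq (((P : Subgroup G) ⊔ Q : Subgroup G)) (P.subtype hD1) ((g • P).subtype hD2)
      have h1 : (d : G) • P = g • P := by
        apply Sylow.subtype_injective (hP := ?_) (hQ := hD2)
        · rw [← hd]
          apply Sylow.ext
          ext z
          rw [Sylow.coe_subtype, Subgroup.mem_subgroupOf, Sylow.coe_subgroup_smul, Sylow.coe_subgroup_smul,
            Subgroup.mem_smul_pointwise_iff_exists, Subgroup.mem_smul_pointwise_iff_exists]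
          constructor
          · rintro ⟨s, hs, h⟩
            refine ⟨⟨s, hD1 hs⟩, hs, Subtype.ext h⟩
          · rintro ⟨s, hs, h⟩
            exact ⟨s, hs, congrArg Subtype.val h⟩
        · intro z hz
          rw [Sylow.coe_subgroup_smul, Subgroup.mem_smul_pointwise_iff_exists] at hz
          obtain ⟨x, hx, rfl⟩ := hz
          exact Subgroup.mul_mem _ (Subgroup.mul_mem _ d.2 (hD1 hx)) (Subgroup.inv_mem _ d.2)
      have h2 : (d : G)⁻¹ * g ∈ NN P := by
        have h0 : ((d : G)⁻¹ * g) • P = P := by rw [mul_smul, ← h1, inv_smul_smul]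
        exact Sylow.smul_eq_iff_mem_normalizer.1 h0
      have hd2 : (d : G) ∈ Q ⊔ (P : Subgroup G) := (sup_comm (P : Subgroup G) Q).le d.2
      have hd3 : (d : G) ∈ (Q : Set G) * ((P : Subgroup G) : Set G) := by
        rw [← Subgroup.normal_mul Q (P : Subgroup G)]; exact hd2
      obtain ⟨q, hq, x, hx, h3⟩ := Set.mem_mul.1 hd3
      refine ⟨x * ((d : G)⁻¹ * g), Subgroup.mul_mem _ (Subgroup.le_normalizer hx) h2, ?_⟩
      show (QuotientGroup.mk (x * ((d : G)⁻¹ * g)) : G ⧸ Q) = QuotientGroup.mk g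
      rw [QuotientGroup.eq, ← h3]
      have h4 : (x * ((q * x)⁻¹ * g))⁻¹ * g = g⁻¹ * q * g⁻¹⁻¹ := by group
      rw [h4]
      exact Subgroup.Normal.conj_mem inferInstance q hq g⁻¹

theorem mem_CC_PQ (hQ1 : ∀ q ∈ Q, q ∈ (P : Subgroup G) → q = 1) {g : G} (hg : g ∈ NN P) :
    QuotientGroup.mk' Q g ∈ CC (PQ P Q) ↔ g ∈ CC P := by
  constructor
  · intro h
    rw [Subgroup.mem_centralizer_iff]
    intro x hx
    rw [Subgroup.mem_centralizer_iff] at h
    have h2 : (QuotientGroup.mk (x * g) : G ⧸ Q) = QuotientGroup.mk (g * x) := h _ ((mem_PQ Q).2 ⟨x, hx, rfl⟩)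
    rw [QuotientGroup.eq] at h2
    have h3 : (x * g)⁻¹ * (g * x) = g⁻¹ * x⁻¹ * g * x := by group
    rw [h3] at h2
    have h4 : g⁻¹ * x⁻¹ * g ∈ (P : Subgroup G) :=
      (Subgroup.mem_normalizer_iff.1 hg (g⁻¹ * x⁻¹ * g)).2 (by
        have : g * (g⁻¹ * x⁻¹ * g) * g⁻¹ = x⁻¹ := by group
        rw [this]; exact (P : Subgroup G).inv_mem hx)
    have h5 := hQ1 _ h2 ((P : Subgroup G).mul_mem h4 hx)
    have h6 : g * x = x * g := by
      calc g * x = x * g * (g⁻¹ * x⁻¹ * g * x) := by group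
        _ = x * g := by rw [h5, mul_one]
    exact h6.symm
  · intro hg
    rw [Subgroup.mem_centralizer_iff]
    rintro y hy
    obtain ⟨x, hx, rfl⟩ := (mem_PQ Q).1 hy
    rw [Subgroup.mem_centralizer_iff] at hg
    exact congrArg (QuotientGroup.mk : G → G ⧸ Q) (hg x hx)

/-- quotient by a normal subgroup of order prime to `p` -/
theorem quot_odd (hQ1 : ∀ q ∈ Q, q ∈ (P : Subgroup G) → q = 1) :
    (CC (PQ P Q)).relIndex (NN (PQ P Q)) = (CC P).relIndex (NN P) := by
  rw [← map_NN Q, ← Subgroup.relIndex_comap, ← Subgroup.inf_relIndex_right, ← Subgroup.inf_relIndex_right (CC P)]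
  congr 1
  ext g
  rw [Subgroup.mem_inf, Subgroup.mem_inf, Subgroup.mem_comap]
  exact and_congr_left fun hg => mem_CC_PQ Q hQ1 hg

end quot

end H79.EIdx
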