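import Mathlib
import Cfsg.Agent.Lib.H78.Contr5

/-! Bounds for the number of height zero characters by a quadratic form of type `A` (S4588). -/

set_option autoImplicit false
set_option linter.unusedSectionVars false
set_option linter.unusedVariables false
set_option linter.style.haveILetI false
open Cfsg H20.Loc H20.GA H20.Blk H20.Orth H20.Defect H20.Height H78.BlkCount H78.Sect
open Polynomial H78.Cyc2 H78.Contr
open scoped ComplexConjugate

namespace H79.FormBd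

universe u v

variable {G : Type u} [Group G] [Fintype G] {M : Ideal AlgInt} {p : ℕ}
variable {H : Subgroup G} [Fintype H] {u : G} {n : ℕ} {ζ : ℂ} {e : IrrCharacter H → ℕ}
  {b : Set (IrrCharacter H)} {B : Set (IrrCharacter G)} [Fintype (IrrCharacter H)]
  [Fintype (IrrCharacter G)]

/-- the polynomial of inner products -/
noncomputable def P (n : ℕ) (e : IrrCharacter H → ℕ) (z : IrrCharacter H → ℤ)
    (χ : IrrCharacter G) : ℤ[X] :=
  ∑ ξ : IrrCharacter H, C (z ξ * mult H χ ξ) * X ^ ((n - 1) * e ξ)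

theorem ev_P (S : Sit M p H u n ζ e b B) {W : H → ℂ} {z : IrrCharacter H → ℤ}
    (hz : ∀ ξ : IrrCharacter H, classInner W (ξ : H → ℂ) = z ξ) (χ : IrrCharacter G) (k : ℕ) :
    ev (P n e z χ) (ζ ^ k) = classInner W (tr H (u ^ k) (χ : G → ℂ)) := by
  rw [tr_expand H u S.he, H18.CharOrtho.inner_sum_right, P, ev, Polynomial.map_sum, eval_finsetSum]
  refine Finset.sum_congr rfl fun ξ _ => ?_
  have h5 : conj ((mult H χ ξ : ℂ) * (ζ ^ k) ^ e ξ) =
      (mult H χ ξ : ℂ) * (ζ ^ k) ^ ((n - 1) * e ξ) := by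
    rw [map_mul, Complex.conj_natCast, map_pow, conj_root S.n_ne (by rw [← pow_mul, mul_comm,
      pow_mul, S.hζ.pow_eq_one, one_pow]), ← pow_mul]
  rw [H18.CharOrtho.inner_smul_right, hz, h5]
  simp only [Polynomial.map_mul, Polynomial.map_pow, map_X, eval_mul, eval_pow, eval_X,
    Polynomial.map_C, eval_C]
  rw [map_mul, eq_intCast, eq_intCast, Int.cast_natCast]
  ring

theorem two_mul_card_le (S : Sit M p H u n ζ e b B) {ι : Type v} [Fintype ι] (W : ι → H → ℂ)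
    (hW : ∀ i, W i ∈ rspn p b) (z : ι → IrrCharacter H → ℤ)
    (hz : ∀ i (ξ : IrrCharacter H), classInner (W i) (ξ : H → ℂ) = z i ξ)
    (hsum : ∑ i, W i = 0)
    (hsep : ∀ f ∈ rspn p b, (∀ i, classInner (W i) f = 0) → f = 0) (c : ℝ)
    (hc : ∑ i, (classInner (W i) (W i)).re ≤ c) :
    2 * (Nat.card {χ : IrrCharacter G // χ ∈ B ∧ blockHeight p B (χ : G → ℂ) = 0} : ℝ) ≤ c := by
  classical
  haveI := pm_isPrime S.hM
  have hp := pm_prime S.hM
  set T := Finset.univ.filter (fun ψ : IrrCharacter G => ψ ∈ B ∧ blockHeight p B (ψ : G → ℂ) = 0)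
    with hT
  have hTc : Nat.card {ψ : IrrCharacter G // ψ ∈ B ∧ blockHeight p B (ψ : G → ℂ) = 0} = T.card := by
    rw [Nat.card_eq_fintype_card, Fintype.card_subtype]
  set R := primitiveRoots n ℂ with hR
  have hζR : ζ ∈ R := (mem_primitiveRoots (Nat.pos_of_ne_zero S.n_ne)).2 S.hζ
  have hRpos : (0 : ℝ) < R.card := by exact_mod_cast Finset.card_pos.2 ⟨ζ, hζR⟩
  -- parseval for each root
  have h1 : ∀ i, ∀ μ ∈ R, ∑ χ : IrrCharacter G, ‖ev (P n e (z i) χ) μ‖ ^ 2 =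
      (classInner (W i) (W i)).re := by
    intro i μ hμ
    obtain ⟨k, rfl, hk1, hk2⟩ := S.exists_pow hμ
    have h2 := parseval_w H (u ^ k) hp hk1 hk2 (hW i) (hW i)
    rw [← h2, Complex.re_sum]
    refine Finset.sum_congr rfl fun χ _ => ?_
    rw [Complex.mul_conj, Complex.ofReal_re, Complex.normSq_eq_norm_sq, ev_P S (hz i)]
  have h2 : ∑ i, ∑ μ ∈ R, ∑ χ : IrrCharacter G, ‖ev (P n e (z i) χ) μ‖ ^ 2 ≤ R.card * c := by
    calc ∑ i, ∑ μ ∈ R, ∑ χ : IrrCharacter G, ‖ev (P n e (z i) χ) μ‖ ^ 2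
        = ∑ i, (R.card : ℝ) * (classInner (W i) (W i)).re := by
          refine Finset.sum_congr rfl fun i _ => ?_
          rw [Finset.sum_congr rfl (h1 i), Finset.sum_const, nsmul_eq_mul]
      _ = R.card * ∑ i, (classInner (W i) (W i)).re := by rw [Finset.mul_sum]
      _ ≤ R.card * c := mul_le_mul_of_nonneg_left hc hRpos.le
  -- each height zero character contributes at least two
  have h3 : ∀ χ ∈ T, (2 : ℝ) * R.card ≤ ∑ i, ∑ μ ∈ R, ‖ev (P n e (z i) χ) μ‖ ^ 2 := by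
    intro χ hχ
    obtain ⟨-, hχB, hχ0⟩ := Finset.mem_filter.1 hχ
    have hA := S.ne_zero hχB hχB hχ0 hχ0 hζR
    have hdd : dd H u p b (χ : G → ℂ) ≠ 0 := by
      intro h0
      apply hA
      have h4 := S.A_pow 1 χ χ
      rw [pow_one, pow_one] at h4
      rw [h4, mm, h0, H18.CharOrtho.inner_zero_left, mul_zero]
    have hin : ∀ i, classInner (W i) (dd H u p b (χ : G → ℂ)) = ev (P n e (z i) χ) ζ := by
      intro i
      have h4 := ev_P S (hz i) χ 1
      rw [pow_one, pow_one] at h4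
      rw [h4, inner_dd H u S.hM S.hb.1 (hW i)]
    have hex : ∃ i, ev (P n e (z i) χ) ζ ≠ 0 := by
      by_contra hcon
      push Not at hcon
      exact hdd (hsep _ (dd_mem H u b _) (fun i => by rw [hin, hcon i]))
    obtain ⟨i, hi⟩ := hex
    have hsum0 : ∑ i, ev (P n e (z i) χ) ζ = 0 := by
      have h5 : ∑ i, classInner (W i) (dd H u p b (χ : G → ℂ)) = 0 := by
        rw [← H18.CharOrtho.inner_sum_left, hsum, H18.CharOrtho.inner_zero_left]
      rw [← h5]
      exact Finset.sum_congr rfl fun i _ => (hin i).symm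
    have hex2 : ∃ j, j ≠ i ∧ ev (P n e (z j) χ) ζ ≠ 0 := by
      by_contra hcon
      push Not at hcon
      apply hi
      rw [← hsum0]
      rw [Finset.sum_eq_single i (fun j _ hj => hcon j hj) (fun h => absurd (Finset.mem_univ _) h)]
    obtain ⟨j, hj, hj0⟩ := hex2
    have h6 := norm_ineq_one S.n_ne S.hζ hi
    have h7 := norm_ineq_one S.n_ne S.hζ hj0
    have h8 : ∑ μ ∈ R, ‖ev (P n e (z i) χ) μ‖ ^ 2 + ∑ μ ∈ R, ‖ev (P n e (z j) χ) μ‖ ^ 2 ≤
        ∑ i, ∑ μ ∈ R, ‖ev (P n e (z i) χ) μ‖ ^ 2 := by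
      rw [← Finset.sum_pair hj.symm (f := fun i => ∑ μ ∈ R, ‖ev (P n e (z i) χ) μ‖ ^ 2)]
      exact Finset.sum_le_sum_of_subset_of_nonneg (Finset.subset_univ _)
        fun _ _ _ => Finset.sum_nonneg fun _ _ => by positivity
    rw [← hR] at h6 h7
    linarith
  have h4 : (T.card : ℝ) * (2 * R.card) ≤ R.card * c := by
    calc (T.card : ℝ) * (2 * R.card) = ∑ χ ∈ T, (2 : ℝ) * R.card := by
          rw [Finset.sum_const, nsmul_eq_mul]
      _ ≤ ∑ χ ∈ T, ∑ i, ∑ μ ∈ R, ‖ev (P n e (z i) χ) μ‖ ^ 2 := Finset.sum_le_sum h3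
      _ ≤ ∑ χ : IrrCharacter G, ∑ i, ∑ μ ∈ R, ‖ev (P n e (z i) χ) μ‖ ^ 2 :=
          Finset.sum_le_sum_of_subset_of_nonneg (Finset.subset_univ _)
            fun _ _ _ => Finset.sum_nonneg fun _ _ => Finset.sum_nonneg fun _ _ => by positivity
      _ = ∑ i, ∑ μ ∈ R, ∑ χ : IrrCharacter G, ‖ev (P n e (z i) χ) μ‖ ^ 2 := by
          rw [Finset.sum_comm]
          refine Finset.sum_congr rfl fun i _ => ?_
          rw [Finset.sum_comm]
      _ ≤ _ := h2
  rw [hTc]
  have h5 : (R.card : ℝ) * (2 * T.card) ≤ R.card * c := by linarith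
  exact le_of_mul_le_mul_left h5 hRpos

/-- the simple bound `k₀(B) ≤ p ^ d(b) l(b)`. -/
theorem card_le (S : Sit M p H u n ζ e b B) :
    Nat.card {χ : IrrCharacter G // χ ∈ B ∧ blockHeight p B (χ : G → ℂ) = 0} ≤
      p ^ blockDefect p b * blockRank p b := by
  classical
  set T := Finset.univ.filter (fun ψ : IrrCharacter G => ψ ∈ B ∧ blockHeight p B (ψ : G → ℂ) = 0)
    with hT
  have hTc : Nat.card {ψ : IrrCharacter G // ψ ∈ B ∧ blockHeight p B (ψ : G → ℂ) = 0} = T.card := by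
    rw [Nat.card_eq_fintype_card, Fintype.card_subtype]
  set R := primitiveRoots n ℂ with hR
  have hζR : ζ ∈ R := (mem_primitiveRoots (Nat.pos_of_ne_zero S.n_ne)).2 S.hζ
  have hRpos : (0 : ℝ) < R.card := by exact_mod_cast Finset.card_pos.2 ⟨ζ, hζR⟩
  have h1 : ∀ χ ∈ T, (R.card : ℝ) ≤ ∑ μ ∈ R, (S.A μ χ χ).re := by
    intro χ hχ
    obtain ⟨-, hχB, hχ0⟩ := Finset.mem_filter.1 hχ
    have h2 := norm_ineq_val S.n_ne S.hζ (S.ne_zero hχB hχB hχ0 hχ0 hζR)
    refine h2.trans (le_of_eq ?_)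
    refine Finset.sum_congr rfl fun μ hμ => ?_
    show ‖S.A μ χ χ‖ = _
    rw [← S.diag_im hμ χ, Complex.norm_real, Complex.ofReal_re, Real.norm_eq_abs,
      abs_of_nonneg (S.diag_nonneg hμ χ)]
  have h2 : (T.card : ℝ) * R.card ≤ R.card * (p ^ blockDefect p b * blockRank p b) := by
    calc (T.card : ℝ) * R.card = ∑ χ ∈ T, (R.card : ℝ) := by rw [Finset.sum_const, nsmul_eq_mul]
      _ ≤ ∑ χ ∈ T, ∑ μ ∈ R, (S.A μ χ χ).re := Finset.sum_le_sum h1
      _ ≤ ∑ χ : IrrCharacter G, ∑ μ ∈ R, (S.A μ χ χ).re :=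
          Finset.sum_le_sum_of_subset_of_nonneg (Finset.subset_univ _)
            fun χ _ _ => Finset.sum_nonneg fun μ hμ => S.diag_nonneg hμ χ
      _ = ∑ μ ∈ R, ∑ χ : IrrCharacter G, (S.A μ χ χ).re := Finset.sum_comm
      _ = ∑ μ ∈ R, ((p : ℝ) ^ blockDefect p b * blockRank p b) :=
          Finset.sum_congr rfl fun μ hμ => S.sum_diag_re hμ
      _ = _ := by rw [Finset.sum_const, nsmul_eq_mul]
  rw [hTc]
  have h3 : (R.card : ℝ) * T.card ≤ R.card * (p ^ blockDefect p b * blockRank p b) := by linarith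
  have h4 := le_of_mul_le_mul_left h3 hRpos
  exact_mod_cast h4

end H79.FormBd
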