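import Mathlib
import Cfsg.Agent.Lib.H79.FourK

/-!
# Elements acting on an elementary abelian 2-group with commutator of order four, part 2: `p ≥ 5`
-/

set_option autoImplicit false
set_option linter.unusedVariables false

namespace H79.FourK

open Subgroup

variable {S : Type*} [Group S] [Finite S]

/-- orders of products inside an abelian subgroup -/
theorem card_sup {M A B : Subgroup S} (hc : ∀ a ∈ M, ∀ b ∈ M, a * b = b * a) (hA : A ≤ M) (hB : B ≤ M) :
    Nat.card (A ⊔ B : Subgroup S) * Nat.card (A ⊓ B : Subgroup S) = Nat.card A * Nat.card B := by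
  haveI : (B.subgroupOf M).Normal := ⟨fun n hn g => by
    have : g * n * g⁻¹ = n := by
      apply Subtype.ext
      change (g : S) * n * (g : S)⁻¹ = n
      rw [hc g g.2 n n.2]; group
    rw [this]; exact hn⟩
  have h := H1.Hall.card_sup_mul_card_inf (A.subgroupOf M) (B.subgroupOf M)
  rw [← Subgroup.subgroupOf_sup hA hB] at h
  have e1 : ∀ C : Subgroup S, C ≤ M → Nat.card (C.subgroupOf M) = Nat.card C := fun C hC =>
    Nat.card_congr (subgroupOfEquivOfLe hC).toEquiv
  have e2 : A.subgroupOf M ⊓ B.subgroupOf M = (A ⊓ B).subgroupOf M := rfl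
  rw [e2, e1 _ (sup_le hA hB), e1 _ (inf_le_left.trans hA), e1 _ hA, e1 _ hB] at h
  exact h

theorem eq_of_card_two {W : Subgroup S} (h : Nat.card W = 2) {v w : S} (hv : v ∈ W) (hw : w ∈ W) (hv1 : v ≠ 1)
    (hw1 : w ≠ 1) : v = w := by
  obtain ⟨y, -, hy⟩ := (Nat.card_eq_two_iff' (1 : W)).1 h
  have h1 := hy ⟨v, hv⟩ (fun h => hv1 (congrArg Subtype.val h))
  have h2 := hy ⟨w, hw⟩ (fun h => hw1 (congrArg Subtype.val h))
  exact congrArg Subtype.val (h1.trans h2.symm)

/-- fixed points modulo `p` -/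
theorem card_modEq {p : ℕ} [Fact p.Prime] {D N : Subgroup S} (hD : IsPGroup p D) (hDN : D ≤ normalizer (N : Set S)) :
    Nat.card N ≡ Nat.card (N ⊓ centralizer (D : Set S) : Subgroup S) [MOD p] := by
  letI inst : MulAction D N :=
    { smul := fun d n => ⟨d * n * (d : S)⁻¹, (mem_normalizer_iff.1 (hDN d.2) _).1 n.2⟩
      one_smul := fun n => Subtype.ext (by change (1 : S) * n * (1 : S)⁻¹ = n; group)
      mul_smul := fun a b n => Subtype.ext (by
        change ((a : S) * b) * n * ((a : S) * b)⁻¹ = a * (b * n * (b : S)⁻¹) * (a : S)⁻¹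
        group) }
  have h := hD.card_modEq_card_fixedPoints N
  have e : Nat.card (MulAction.fixedPoints D N) = Nat.card (N ⊓ centralizer (D : Set S) : Subgroup S) := by
    refine Nat.card_congr ⟨fun n => ⟨n.1, n.1.2, ?_⟩, fun n => ⟨⟨n.1, n.2.1⟩, ?_⟩, fun n => rfl, fun n => rfl⟩
    · refine mem_centralizer_iff.2 ?_
      intro d hd
      have h2 : d * (n.1 : S) * d⁻¹ = n.1 := congrArg Subtype.val (n.2 ⟨d, hd⟩)
      calc d * (n.1 : S) = (d * (n.1 : S) * d⁻¹) * d := by group
        _ = (n.1 : S) * d := by rw [h2]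
    · intro d
      apply Subtype.ext
      change (d : S) * n.1 * (d : S)⁻¹ = n.1
      have := mem_centralizer_iff.1 n.2.2 d d.2
      rw [this]; group
  rw [e] at h
  exact h

/-- a computation in an abstract group -/
theorem five {G : Type*} [Group G] {X Z : G} (hX : X ^ 3 = 1) (hXZ : (X * Z) ^ 3 = 1) (hZ : Z ^ 5 = 1) {j : ℤ}
    (h : X * Z * X⁻¹ = Z ^ j) : Z = 1 := by
  by_contra hZ1
  haveI : Fact (Nat.Prime 5) := ⟨by norm_num⟩
  have ho : orderOf Z = 5 := orderOf_eq_prime hZ hZ1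
  have h1 : ∀ i : ℤ, X * Z ^ i * X⁻¹ = Z ^ (j * i) := fun i => by
    rw [← conj_zpow, h, zpow_mul]
  have h3 : Z = Z ^ (j * (j * j)) := by
    calc Z = X ^ 3 * Z * (X ^ 3)⁻¹ := by rw [hX]; group
      _ = X * (X * (X * Z * X⁻¹) * X⁻¹) * X⁻¹ := by
        rw [pow_succ, pow_two]; group
      _ = Z ^ (j * (j * j)) := by rw [h, h1, h1]
  have h4 : Z ^ (j * (j * j) - 1) = 1 := by
    rw [zpow_sub, zpow_one, ← h3, mul_inv_cancel]
  have h5 : (5 : ℤ) ∣ j * (j * j) - 1 := by
    have := orderOf_dvd_iff_zpow_eq_one.2 h4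
    rwa [ho] at this
  have h6 : (5 : ℤ) ∣ j - 1 := by
    have h7 : j % 5 = 0 ∨ j % 5 = 1 ∨ j % 5 = 2 ∨ j % 5 = 3 ∨ j % 5 = 4 := by omega
    have h8 := Int.emod_emod_of_dvd (j * (j * j) - 1) (dvd_refl (5 : ℤ))
    have h9 : (j * (j * j) - 1) % 5 = 0 := Int.emod_eq_zero_of_dvd h5
    rw [Int.sub_emod, Int.mul_emod, Int.mul_emod j j] at h9
    rcases h7 with h7 | h7 | h7 | h7 | h7 <;> rw [h7] at h9 <;> norm_num at h9 <;> omega
  have h7 : Z ^ (j - 1) = 1 := by
    rw [← orderOf_dvd_iff_zpow_eq_one, ho]; exact h6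
  have h8 : Z ^ j = Z := by
    have : Z ^ j = Z ^ (j - 1) * Z := by rw [← zpow_add_one]; congr 1; ring
    rw [this, h7, one_mul]
  rw [h8] at h
  have hcomm : Commute X Z := by
    change X * Z = Z * X
    calc X * Z = X * Z * X⁻¹ * X := by group
      _ = Z * X := by rw [h]
  rw [hcomm.mul_pow, hX, one_mul] at hXZ
  have h9 := orderOf_dvd_of_pow_eq_one hXZ
  rw [ho] at h9
  omega

variable {M : Subgroup S} [hMn : M.Normal] {hc : ∀ a ∈ M, ∀ b ∈ M, a * b = b * a}

/-- changing `x` by an element centralising `N` -/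
theorem K_le_of (h2 : ∀ a ∈ M, a ^ 2 = 1) {N : Subgroup S} {x x' z : S} (hx' : x' ^ 3 ∈ centralizer (M : Set S))
    (hK' : K M hc x' ≤ N) (hz : z ∈ centralizer (N : Set S)) {g : S} (hg : g ∈ zpowers x) (he : x' = g * z) :
    K M hc x' ≤ K M hc x := by
  intro k hk
  obtain ⟨l, hl, rfl⟩ := surj h2 hx' hk
  have h1 : z * l = l * z := ((mem_centralizer_iff.1 hz) l (hK' hl)).symm
  have h2' : x' * l * x'⁻¹ * l⁻¹ = g * l * g⁻¹ * l⁻¹ := by
    rw [he, mul_inv_rev]
    calc g * z * l * (z⁻¹ * g⁻¹) * l⁻¹ = g * (z * l) * z⁻¹ * g⁻¹ * l⁻¹ := by group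
      _ = g * l * g⁻¹ * l⁻¹ := by rw [h1]; group
  rw [h2']
  exact zpow_comm_mem hg (K_le x' hl)

theorem cube_conj {x y : S} (hx : x ^ 3 ∈ centralizer (M : Set S)) :
    (y * x * y⁻¹) ^ 3 ∈ centralizer (M : Set S) := by
  rw [conj_pow, mem_centralizer_iff]
  intro m hm
  have h1 : y⁻¹ * m * y ∈ M := by
    have := hMn.conj_mem m hm y⁻¹
    rwa [inv_inv] at this
  have h2 := (mem_centralizer_iff.1 hx) _ h1
  calc m * (y * x ^ 3 * y⁻¹) = y * (y⁻¹ * m * y * x ^ 3) * y⁻¹ := by group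
    _ = y * x ^ 3 * y⁻¹ * m := by rw [h2]; group

/-- **the case `p ≥ 5`**: the conjugates of `[x, M]` meet non-trivially -/
theorem inter_ne_bot {p : ℕ} [Fact p.Prime] (hp5 : 5 ≤ p) (h2 : ∀ a ∈ M, a ^ 2 = 1) {x : S}
    (hx3 : x ^ 3 ∈ centralizer (M : Set S)) (hK : Nat.card (K M hc x) = 4) {P : Subgroup S} (hP : IsPGroup p P)
    (hxP : x ∈ normalizer (P : Set S)) {y : S} (hy : y ∈ P) :
    K M hc x ⊓ K M hc (y * x * y⁻¹) ≠ ⊥ := by
  have hp : p.Prime := Fact.out
  intro hbot
  set x' := y * x * y⁻¹ with hx'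
  have hx3' : x' ^ 3 ∈ centralizer (M : Set S) := cube_conj hx3
  have hK' : Nat.card (K M hc x') = 4 := by rw [hx', card_K_conj, hK]
  set N : Subgroup S := K M hc x ⊔ K M hc x' with hN
  have hNM : N ≤ M := sup_le (K_le x) (K_le x')
  have hK1N : K M hc x ≤ N := le_sup_left
  have hK2N : K M hc x' ≤ N := le_sup_right
  have hcN : ∀ a ∈ N, ∀ b ∈ N, a * b = b * a := fun a ha b hb => hc a (hNM ha) b (hNM hb)
  have hcardN : Nat.card N = 16 := by
    have h := card_sup hc (K_le (hc := hc) x) (K_le (hc := hc) x')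
    rw [hbot, Subgroup.card_bot, hK, hK', mul_one] at h
    exact h
  have hxN : x ∈ normalizer (N : Set S) := mem_normalizer hNM hK1N
  have hxN' : x' ∈ normalizer (N : Set S) := mem_normalizer hNM hK2N
  set z := x⁻¹ * x' with hz
  have hx'z : x' = x * z := by rw [hz]; group
  have hzP : z ∈ P := by
    have h1 : x⁻¹ * y * x ∈ P := by
      have := (mem_normalizer_iff.1 (inv_mem hxP) y).1 hy
      rwa [inv_inv] at this
    have h3 := P.mul_mem h1 (P.inv_mem hy)
    have e : x⁻¹ * y * x * y⁻¹ = z := by rw [hz, hx']; group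
    rwa [e] at h3
  have hzN : z ∈ normalizer (N : Set S) := mul_mem (inv_mem hxN) hxN'
  set D : Subgroup S := P ⊓ normalizer (N : Set S) with hD
  have hDp : IsPGroup p D := hP.to_le inf_le_left
  have hzD : z ∈ D := ⟨hzP, hzN⟩
  have hDN : D ≤ normalizer (N : Set S) := inf_le_right
  have hxD : x ∈ normalizer (D : Set S) := by
    rw [mem_normalizer_iff]
    intro d
    have h1 := mem_normalizer_iff.1 hxP d
    have h3 : d ∈ normalizer (N : Set S) ↔ x * d * x⁻¹ ∈ normalizer (N : Set S) := by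
      constructor
      · intro h; exact mul_mem (mul_mem hxN h) (inv_mem hxN)
      · intro h
        have := mul_mem (mul_mem (inv_mem hxN) h) hxN
        have e : x⁻¹ * (x * d * x⁻¹) * x = d := by group
        rwa [e] at this
    constructor
    · rintro ⟨h, h'⟩; exact ⟨h1.1 h, h3.1 h'⟩
    · rintro ⟨h, h'⟩; exact ⟨h1.2 h, h3.2 h'⟩
  have hzC : z ∉ centralizer (N : Set S) := by
    intro hzC
    have h1 : K M hc x' ≤ K M hc x := K_le_of h2 hx3' hK2N hzC (mem_zpowers x) hx'z
    rw [inf_eq_right.2 h1] at hbot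
    rw [hbot, Subgroup.card_bot] at hK'
    exact absurd hK' (by norm_num)
  -- the index
  obtain ⟨k, hk⟩ := relIndex_pow hDp (centralizer (N : Set S))
  have hdvd := relIndex_dvd N hcN (fun a ha => h2 a (hNM ha)) (e := 4) (by rw [hcardN]; norm_num) D hDN
  rw [prod_four, hk] at hdvd
  have hk0 : k ≠ 0 := by
    rintro rfl
    rw [pow_zero, relIndex_eq_one] at hk
    exact hzC (hk hzD)
  have hp57 : p = 5 ∨ p = 7 := by
    have h1 : p ∣ 20160 := (dvd_pow_self p hk0).trans hdvd
    have h3 : 20160 = 2 ^ 6 * (3 ^ 2 * (5 * 7)) := by norm_num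
    rw [h3, hp.dvd_mul, hp.dvd_mul, hp.dvd_mul] at h1
    rcases h1 with h1 | h1 | h1 | h1
    · have := (Nat.prime_dvd_prime_iff_eq hp Nat.prime_two).1 (hp.dvd_of_dvd_pow h1); omega
    · have := (Nat.prime_dvd_prime_iff_eq hp Nat.prime_three).1 (hp.dvd_of_dvd_pow h1); omega
    · left; exact (Nat.prime_dvd_prime_iff_eq hp (by norm_num)).1 h1
    · right; exact (Nat.prime_dvd_prime_iff_eq hp (by norm_num)).1 h1
  rcases hp57 with rfl | rfl
  · -- `p = 5`
    have hk1 : k = 1 := by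
      rcases Nat.lt_or_ge k 2 with h | h
      · omega
      · exfalso
        have : 5 ^ 2 ∣ 20160 := (pow_dvd_pow 5 h).trans hdvd
        norm_num at this
    rw [hk1, pow_one] at hk
    set C := (centralizer (N : Set S)).subgroupOf D with hC
    haveI hCn : C.Normal := by
      refine ⟨fun c hc' g => ?_⟩
      rw [mem_subgroupOf] at hc' ⊢
      rw [mem_centralizer_iff] at hc' ⊢
      intro n hn
      have h1 : (g : S)⁻¹ * n * g ∈ N := by
        have := (mem_normalizer_iff.1 (inv_mem (hDN g.2)) n).1 hn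
        rwa [inv_inv] at this
      have h3 := hc' _ h1
      change n * ((g : S) * c * (g : S)⁻¹) = (g : S) * c * (g : S)⁻¹ * n
      calc n * ((g : S) * c * (g : S)⁻¹) = g * ((g : S)⁻¹ * n * g * c) * (g : S)⁻¹ := by group
        _ = _ := by rw [h3]; group
    have hq : Nat.card (D ⧸ C) = 5 := by rw [← Subgroup.index_eq_card]; exact hk
    have hd : x * z * x⁻¹ ∈ D := (mem_normalizer_iff.1 hxD z).1 hzD
    have hz1 : (QuotientGroup.mk ⟨z, hzD⟩ : D ⧸ C) ≠ 1 := by
      rw [Ne, QuotientGroup.eq_one_iff, mem_subgroupOf]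
      exact hzC
    obtain ⟨j, hj⟩ := mem_zpowers_iff.1 (mem_zpowers_of_prime_card hq hz1 (g' := QuotientGroup.mk ⟨_, hd⟩))
    have hj' : ((z ^ j)⁻¹ * (x * z * x⁻¹)) ∈ centralizer (N : Set S) := by
      have h1 : (QuotientGroup.mk ((⟨z, hzD⟩ : D) ^ j) : D ⧸ C) = QuotientGroup.mk ⟨_, hd⟩ := by
        rw [← hj]; rfl
      rw [QuotientGroup.eq, mem_subgroupOf] at h1
      simpa using h1
    have hz5 : z ^ 5 ∈ centralizer (N : Set S) := by
      have h1 := pow_card_eq_one' (x := (QuotientGroup.mk ⟨z, hzD⟩ : D ⧸ C))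
      rw [hq, ← QuotientGroup.mk_pow, QuotientGroup.eq_one_iff, mem_subgroupOf] at h1
      simpa using h1
    have hCM : centralizer (M : Set S) ≤ centralizer (N : Set S) := centralizer_le hNM
    -- pass to automorphisms of `N`
    let H := normalizer (N : Set S)
    let C' := (centralizer (N : Set S)).subgroupOf H
    haveI hCn' : C'.Normal := by
      refine ⟨fun c hc' g => ?_⟩
      rw [mem_subgroupOf] at hc' ⊢
      rw [mem_centralizer_iff] at hc' ⊢
      intro n hn
      have h1 : (g : S)⁻¹ * n * g ∈ N := by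
        have := (mem_normalizer_iff.1 (inv_mem g.2) n).1 hn
        rwa [inv_inv] at this
      have h3 := hc' _ h1
      change n * ((g : S) * c * (g : S)⁻¹) = (g : S) * c * (g : S)⁻¹ * n
      calc n * ((g : S) * c * (g : S)⁻¹) = g * ((g : S)⁻¹ * n * g * c) * (g : S)⁻¹ := by group
        _ = _ := by rw [h3]; group
    let X : H ⧸ C' := QuotientGroup.mk ⟨x, hxN⟩
    let Z : H ⧸ C' := QuotientGroup.mk ⟨z, hzN⟩
    have e1 : X ^ 3 = 1 := by
      change (QuotientGroup.mk (⟨x, hxN⟩ ^ 3) : H ⧸ C') = 1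
      rw [QuotientGroup.eq_one_iff, mem_subgroupOf]
      exact hCM hx3
    have e2 : (X * Z) ^ 3 = 1 := by
      change (QuotientGroup.mk ((⟨x, hxN⟩ * ⟨z, hzN⟩) ^ 3) : H ⧸ C') = 1
      rw [QuotientGroup.eq_one_iff, mem_subgroupOf]
      change (x * z) ^ 3 ∈ _
      rw [← hx'z]
      exact hCM hx3'
    have e3 : Z ^ 5 = 1 := by
      change (QuotientGroup.mk (⟨z, hzN⟩ ^ 5) : H ⧸ C') = 1
      rw [QuotientGroup.eq_one_iff, mem_subgroupOf]
      exact hz5
    have e4 : X * Z * X⁻¹ = Z ^ j := by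
      change (QuotientGroup.mk (⟨x, hxN⟩ * ⟨z, hzN⟩ * ⟨x, hxN⟩⁻¹) : H ⧸ C') = QuotientGroup.mk (⟨z, hzN⟩ ^ j)
      rw [eq_comm, QuotientGroup.eq, mem_subgroupOf]
      simpa using hj'
    have e5 := five e1 e2 e3 e4
    change (QuotientGroup.mk ⟨z, hzN⟩ : H ⧸ C') = 1 at e5
    rw [QuotientGroup.eq_one_iff, mem_subgroupOf] at e5
    exact hzC e5
  · -- `p = 7`
    set W : Subgroup S := N ⊓ centralizer (D : Set S) with hW
    have hmod := card_modEq hDp hDN
    rw [hcardN] at hmod
    have hWdvd : Nat.card W ∣ 16 := by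
      rw [← hcardN]; exact Subgroup.card_dvd_of_le inf_le_left
    have hW2 : Nat.card W = 2 := by
      have h1 : Nat.card W ≤ 16 := Nat.le_of_dvd (by norm_num) hWdvd
      have h3 : Nat.card W ≠ 16 := by
        intro h
        have h4 : W = N := Subgroup.eq_of_le_of_card_ge inf_le_left (by rw [h, hcardN])
        apply hzC
        rw [mem_centralizer_iff]
        intro n hn
        have h5 : n ∈ W := h4 ▸ hn
        exact ((mem_centralizer_iff.1 h5.2) z hzD).symm
      change 16 % 7 = Nat.card W % 7 at hmod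
      interval_cases h : Nat.card W <;> omega
    obtain ⟨w, hw1, hww⟩ : ∃ w ∈ W, w ≠ 1 := by
      by_contra hcon
      push Not at hcon
      have : W = ⊥ := by rw [Subgroup.eq_bot_iff_forall]; exact hcon
      rw [this, Subgroup.card_bot] at hW2
      exact absurd hW2 (by norm_num)
    have huniq : ∀ v ∈ W, v ≠ 1 → v = w := fun v hv hv1 => eq_of_card_two hW2 hv hw1 hv1 hww
    -- `x` normalises everything
    have hfix : ∀ g : S, g ∈ normalizer (N : Set S) → g ∈ normalizer (D : Set S) → g * w * g⁻¹ = w := by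
      intro g hgN hgD
      apply huniq
      · refine ⟨(mem_normalizer_iff.1 hgN w).1 hw1.1, mem_centralizer_iff.2 ?_⟩
        intro d hd
        have h1 : g⁻¹ * d * g ∈ D := by
          have := (mem_normalizer_iff.1 (inv_mem hgD) d).1 hd
          rwa [inv_inv] at this
        have h3 := (mem_centralizer_iff.1 hw1.2) _ h1
        calc d * (g * w * g⁻¹) = g * (g⁻¹ * d * g * w) * g⁻¹ := by group
          _ = g * w * g⁻¹ * d := by rw [h3]; group
      · intro h
        apply hww
        have : w = g⁻¹ * (g * w * g⁻¹) * g := by group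
        rw [this, h]; group
    have hcop : (Nat.card D).Coprime (Nat.card N) := by
      obtain ⟨n, hn⟩ := IsPGroup.iff_card.1 hDp
      rw [hn, hcardN]
      exact Nat.Coprime.pow_left _ (by norm_num)
    have hsol : Group.IsSolvable D ∨ Group.IsSolvable N := by
      right
      letI : CommGroup N := { (inferInstance : Group N) with mul_comm := fun a b => Subtype.ext (hcN a a.2 b b.2) }
      infer_instance
    have hdec := H1.Coprime2.commutator_sup_centralizer D N hDN hcop hsol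
    have hint := H65.HallHigman.commutator_inf_centralizer_le D N hDN hcop
    set R : Subgroup S := ⁅N, D⁆ with hR
    have hNN : ⁅N, N⁆ = ⊥ := by
      rw [Subgroup.commutator_eq_bot_iff_le_centralizer]
      intro a ha
      rw [mem_centralizer_iff]
      intro b hb
      exact hcN b hb a ha
    rw [hNN] at hint
    have hRN : R ≤ N := H1.Coprime2.commutator_le_left hDN
    have hcomR : ∀ g : S, g ∈ normalizer (N : Set S) → g ∈ normalizer (D : Set S) → ∀ n ∈ N,
        g * n * g⁻¹ * n⁻¹ ∈ R := by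
      intro g hgN hgD n hn
      have hgR : g ∈ normalizer (R : Set S) := by
        have h1 : zpowers g ≤ normalizer ((⁅N, D⁆ : Subgroup S) : Set S) :=
          H1.Coprime2.le_normalizer_commutator (B := zpowers g) (by rw [zpowers_le]; exact hgN)
            (by rw [zpowers_le]; exact hgD)
        exact h1 (mem_zpowers g)
      obtain ⟨r, hr, c, hcc, rfl⟩ := H1.Coprime2.exists_mul_of_mem D N hDN hcop hsol hn
      have hgc : g * c * g⁻¹ = c := by
        by_cases h1 : c = 1
        · rw [h1]; group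
        · rw [huniq c hcc h1]; exact hfix g hgN hgD
      have h1 : g * (r * c) * g⁻¹ * (r * c)⁻¹ = (g * r * g⁻¹) * r⁻¹ := by
        calc g * (r * c) * g⁻¹ * (r * c)⁻¹ = (g * r * g⁻¹) * (g * c * g⁻¹) * (c⁻¹ * r⁻¹) := by group
          _ = (g * r * g⁻¹) * r⁻¹ := by rw [hgc]; group
      rw [h1]
      exact R.mul_mem ((mem_normalizer_iff.1 hgR r).1 hr) (R.inv_mem hr)
    have hxD' : x' ∈ normalizer (D : Set S) := by
      rw [hx'z]; exact mul_mem hxD (Subgroup.le_normalizer hzD)
    have hK1R : K M hc x ≤ R := by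
      intro k hk'
      obtain ⟨l, hl, rfl⟩ := surj h2 hx3 hk'
      exact hcomR x hxN hxD l (hK1N hl)
    have hK2R : K M hc x' ≤ R := by
      intro k hk'
      obtain ⟨l, hl, rfl⟩ := surj h2 hx3' hk'
      exact hcomR x' hxN' hxD' l (hK2N hl)
    have hNR : N ≤ R := sup_le hK1R hK2R
    have hwR : w ∈ R ⊓ centralizer (D : Set S) := ⟨hNR hw1.1, hw1.2⟩
    exact hww (Subgroup.mem_bot.1 (hint hwR))

end H79.FourK
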