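import Mathlib
import Cfsg.Agent.Lib.H79.FourK2

/-!
# Elements acting on an elementary abelian 2-group with commutator of order four, part 3
-/

set_option autoImplicit false
set_option linter.unusedVariables false

namespace H79.FourK

open Subgroup

variable {S : Type*} [Group S] [Finite S]
variable {M : Subgroup S} [hMn : M.Normal] {hc : ∀ a ∈ M, ∀ b ∈ M, a * b = b * a}

theorem exists_ne_one {A : Subgroup S} (h : A ≠ ⊥) : ∃ a ∈ A, a ≠ 1 := by
  by_contra hcon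
  push Not at hcon
  exact h ((Subgroup.eq_bot_iff_forall A).2 hcon)

theorem card_inf {A B : Subgroup S} (hA : Nat.card A = 4) (hAB : A ⊓ B ≠ ⊥) (hle : ¬ A ≤ B) :
    Nat.card (A ⊓ B : Subgroup S) = 2 := by
  have h1 : Nat.card (A ⊓ B : Subgroup S) ∣ 4 := by
    rw [← hA]; exact Subgroup.card_dvd_of_le inf_le_left
  have h2 : Nat.card (A ⊓ B : Subgroup S) ≤ 4 := Nat.le_of_dvd (by norm_num) h1
  have h3 : Nat.card (A ⊓ B : Subgroup S) ≠ 1 := fun h => hAB (Subgroup.card_eq_one.1 h)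
  have h4 : Nat.card (A ⊓ B : Subgroup S) ≠ 4 := fun h => hle (by
    have := Subgroup.eq_of_le_of_card_ge (inf_le_left : A ⊓ B ≤ A) (by rw [h, hA])
    rw [← this]; exact inf_le_right)
  interval_cases h : Nat.card (A ⊓ B : Subgroup S) <;> omega

theorem conj_normalizer {P : Subgroup S} {x a : S} (hx : x ∈ normalizer (P : Set S)) (ha : a ∈ P) :
    a * x * a⁻¹ ∈ normalizer (P : Set S) :=
  mul_mem (mul_mem (le_normalizer ha) hx) (inv_mem (le_normalizer ha))

/-- any two conjugates meet -/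
theorem inter_ne_bot' {p : ℕ} [Fact p.Prime] (hp5 : 5 ≤ p) (h2 : ∀ a ∈ M, a ^ 2 = 1) {x : S}
    (hx3 : x ^ 3 ∈ centralizer (M : Set S)) (hK : Nat.card (K M hc x) = 4) {P : Subgroup S} (hP : IsPGroup p P)
    (hxP : x ∈ normalizer (P : Set S)) {a b : S} (ha : a ∈ P) (hb : b ∈ P) :
    K M hc (a * x * a⁻¹) ⊓ K M hc (b * x * b⁻¹) ≠ ⊥ := by
  have h := inter_ne_bot (hc := hc) hp5 h2 (x := a * x * a⁻¹) (cube_conj hx3) (by rw [card_K_conj, hK]) hP
    (conj_normalizer hxP ha) (y := b * a⁻¹) (mul_mem hb (inv_mem ha))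
  have e : b * a⁻¹ * (a * x * a⁻¹) * (b * a⁻¹)⁻¹ = b * x * b⁻¹ := by group
  rwa [e] at h

/-- **`p ≥ 5`**: the centraliser of `[x, M]` has index at most `p` in `P` -/
theorem relIndex_dvd_p {p : ℕ} [Fact p.Prime] (hp5 : 5 ≤ p) (h2 : ∀ a ∈ M, a ^ 2 = 1) {x : S}
    (hx3 : x ^ 3 ∈ centralizer (M : Set S)) (hK : Nat.card (K M hc x) = 4) {P : Subgroup S} (hP : IsPGroup p P)
    (hxP : x ∈ normalizer (P : Set S)) :
    (centralizer ((K M hc x : Subgroup S) : Set S)).relIndex P ∣ p := by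
  have hp : p.Prime := Fact.out
  have hx1 : (1 : S) * x * 1⁻¹ = x := by group
  by_cases hA : ∀ y ∈ P, K M hc (y * x * y⁻¹) = K M hc x
  · have hN : P ≤ normalizer ((K M hc x : Subgroup S) : Set S) :=
      H1.Coprime.le_normalizer_of_conj_mem fun y hy k hk => by
        rw [← hA y hy]
        exact conj_mem_K.2 hk
    obtain ⟨k, hk⟩ := relIndex_pow hP (centralizer ((K M hc x : Subgroup S) : Set S))
    have hdvd := relIndex_dvd (K M hc x) (fun a ha b hb => hc a (K_le x ha) b (K_le x hb))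
      (fun a ha => h2 a (K_le x ha)) (e := 2) (by rw [hK]; norm_num) P hN
    rw [prod_two, hk] at hdvd
    rcases Nat.eq_zero_or_pos k with h0 | h0
    · rw [hk, h0, pow_zero]; exact one_dvd _
    · exfalso
      have h1 : p ∣ 6 := (dvd_pow_self p h0.ne').trans hdvd
      have h3 := Nat.le_of_dvd (by norm_num) h1
      interval_cases p
      · omega
      · norm_num at hp
  · push Not at hA
    obtain ⟨y₁, hy₁, hne⟩ := hA
    set K₁ := K M hc (y₁ * x * y₁⁻¹) with hK₁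
    have hcK₁ : Nat.card K₁ = 4 := by rw [hK₁, card_K_conj, hK]
    have hmeet : ∀ a ∈ P, ∀ b ∈ P, K M hc (a * x * a⁻¹) ⊓ K M hc (b * x * b⁻¹) ≠ ⊥ := fun a ha b hb =>
      inter_ne_bot' hp5 h2 hx3 hK hP hxP ha hb
    have hmeet1 : ∀ b ∈ P, K M hc x ⊓ K M hc (b * x * b⁻¹) ≠ ⊥ := fun b hb => by
      have := hmeet 1 P.one_mem b hb
      rwa [hx1] at this
    have hnle : ¬ K M hc x ≤ K₁ := fun h => hne (Subgroup.eq_of_le_of_card_ge h (by rw [hcK₁, hK])).symm
    have hI2 : Nat.card (K M hc x ⊓ K₁ : Subgroup S) = 2 := card_inf hK (hmeet1 y₁ hy₁) hnle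
    obtain ⟨v, hv, hv1⟩ := exists_ne_one (hmeet1 y₁ hy₁)
    set U : Subgroup S := K M hc x ⊔ K₁ with hU
    have hKU : K M hc x ≤ U := le_sup_left
    have hK₁U : K₁ ≤ U := le_sup_right
    have hUM : U ≤ M := sup_le (K_le x) (K_le _)
    have hcardU : Nat.card U = 8 := by
      have h := card_sup hc (K_le (hc := hc) x) (K_le (hc := hc) (y₁ * x * y₁⁻¹))
      rw [← hK₁, hI2, hK, hcK₁] at h
      have : Nat.card U * 2 = 16 := h
      omega
    have hall : ∀ y ∈ P, K M hc (y * x * y⁻¹) ≤ U := by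
      by_contra hcon
      push Not at hcon
      obtain ⟨y₃, hy₃, hK₃U⟩ := hcon
      set K₃ := K M hc (y₃ * x * y₃⁻¹) with hK₃
      have hcK₃ : Nat.card K₃ = 4 := by rw [hK₃, card_K_conj, hK]
      obtain ⟨a₃, ha₃, ha₃1⟩ := exists_ne_one (hmeet1 y₃ hy₃)
      obtain ⟨b₃, hb₃, hb₃1⟩ := exists_ne_one (hmeet y₁ hy₁ y₃ hy₃)
      have hI3 : Nat.card (K₃ ⊓ U : Subgroup S) = 2 := by
        refine card_inf hcK₃ (fun h => ha₃1 ?_) hK₃U
        have : a₃ ∈ K₃ ⊓ U := ⟨ha₃.2, hKU ha₃.1⟩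
        rw [h] at this
        exact Subgroup.mem_bot.1 this
      have hab : a₃ = b₃ := eq_of_card_two hI3 ⟨ha₃.2, hKU ha₃.1⟩ ⟨hb₃.2, hK₁U hb₃.1⟩ ha₃1 hb₃1
      have hav : a₃ = v := eq_of_card_two hI2 ⟨ha₃.1, hab ▸ hb₃.1⟩ hv ha₃1 hv1
      have hvK₃ : v ∈ K₃ := hav ▸ ha₃.2
      have hvall : ∀ y ∈ P, v ∈ K M hc (y * x * y⁻¹) := by
        intro y hy
        by_contra hvy
        set K₄ := K M hc (y * x * y⁻¹) with hK₄
        have hcK₄ : Nat.card K₄ = 4 := by rw [hK₄, card_K_conj, hK]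
        obtain ⟨a, ha, ha1⟩ := exists_ne_one (hmeet1 y hy)
        obtain ⟨b, hb, hb1⟩ := exists_ne_one (hmeet y₁ hy₁ y hy)
        obtain ⟨c, hcc, hc1⟩ := exists_ne_one (hmeet y₃ hy₃ y hy)
        have hane : a ≠ b := by
          intro h
          have : a = v := eq_of_card_two hI2 ⟨ha.1, h ▸ hb.1⟩ hv ha1 hv1
          exact hvy (this ▸ ha.2)
        have hK₄U : K₄ ≤ U := by
          by_contra hle
          have h4 : Nat.card (K₄ ⊓ U : Subgroup S) = 2 := by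
            refine card_inf hcK₄ (fun h => ha1 ?_) hle
            have : a ∈ K₄ ⊓ U := ⟨ha.2, hKU ha.1⟩
            rw [h] at this
            exact Subgroup.mem_bot.1 this
          exact hane (eq_of_card_two h4 ⟨ha.2, hKU ha.1⟩ ⟨hb.2, hK₁U hb.1⟩ ha1 hb1)
        have hcv : c = v := eq_of_card_two hI3 ⟨hcc.1, hK₄U hcc.2⟩ ⟨hvK₃, hKU hv.1⟩ hc1 hv1
        exact hvy (hcv ▸ hcc.2)
      -- `x` fixes `v`
      have hxK : x ∈ normalizer ((K M hc x : Subgroup S) : Set S) := mem_normalizer (K_le x) le_rfl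
      have h1 : x * v * x⁻¹ ∈ K M hc x := (mem_normalizer_iff.1 hxK v).1 hv.1
      have h3 : x * v * x⁻¹ ∈ K₁ := by
        have hyP : x⁻¹ * y₁ * x ∈ P := by
          have := (mem_normalizer_iff.1 (inv_mem hxP) y₁).1 hy₁
          rwa [inv_inv] at this
        have h4 := hvall _ hyP
        have h5 := conj_mem_K (hc := hc) (x := x⁻¹ * y₁ * x * x * (x⁻¹ * y₁ * x)⁻¹) (y := x) |>.2 h4
        have e : x * (x⁻¹ * y₁ * x * x * (x⁻¹ * y₁ * x)⁻¹) * x⁻¹ = y₁ * x * y₁⁻¹ := by group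
        rwa [e] at h5
      have h4 : x * v * x⁻¹ = v := by
        refine eq_of_card_two hI2 ⟨h1, h3⟩ hv (fun h => hv1 ?_) hv1
        have : v = x⁻¹ * (x * v * x⁻¹) * x := by group
        rw [this, h]; group
      exact hv1 (fpf h2 hx3 hv.1 h4)
    have hPU : P ≤ normalizer (U : Set S) := by
      apply H1.Coprime.le_normalizer_of_conj_mem
      intro g hg u hu
      have h1 : (U.map (MulAut.conj g).toMonoidHom) ≤ U := by
        rw [hU, Subgroup.map_sup, K_conj, hK₁, K_conj]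
        refine sup_le (hall g hg) ?_
        have e : g * (y₁ * x * y₁⁻¹) * g⁻¹ = (g * y₁) * x * (g * y₁)⁻¹ := by group
        rw [e]
        exact hall _ (mul_mem hg hy₁)
      exact h1 ⟨u, hu, rfl⟩
    obtain ⟨k, hk⟩ := relIndex_pow hP (centralizer (U : Set S))
    have hdvd := relIndex_dvd U (fun a ha b hb => hc a (hUM ha) b (hUM hb))
      (fun a ha => h2 a (hUM ha)) (e := 3) (by rw [hcardU]; norm_num) P hPU
    rw [prod_three, hk] at hdvd
    have hk2 : k ≤ 1 := by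
      by_contra hk2
      push Not at hk2
      have h1 : p ^ 2 ∣ 168 := (pow_dvd_pow p hk2).trans hdvd
      have h3 : p ^ 2 ≤ 168 := Nat.le_of_dvd (by norm_num) h1
      have h4 : p ≤ 12 := by nlinarith
      interval_cases p <;> omega
    have h1 : (centralizer ((K M hc x : Subgroup S) : Set S)).relIndex P ∣ (centralizer (U : Set S)).relIndex P :=
      Subgroup.relIndex_dvd_of_le_left P (centralizer_le hKU)
    refine h1.trans ?_
    rw [hk]
    calc p ^ k ∣ p ^ 1 := pow_dvd_pow p hk2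
      _ = p := pow_one p

/-- **`p = 3`**: an elementary abelian 3-group normalised by `x` normalises `[x, M]` -/
theorem K_eq_of_three (h2 : ∀ a ∈ M, a ^ 2 = 1) {x : S} (hx3 : x ^ 3 ∈ centralizer (M : Set S))
    (hxp : IsPGroup 3 (zpowers x)) (hK : Nat.card (K M hc x) = 4) {F : Subgroup S}
    (hF : ∀ a ∈ F, ∀ b ∈ F, a * b = b * a) (hFp : IsPGroup 3 F) (hxF : x ∈ normalizer (F : Set S)) {f : S} (hf : f ∈ F) :
    K M hc (f * x * f⁻¹) = K M hc x := by
  haveI : Fact (Nat.Prime 3) := ⟨Nat.prime_three⟩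
  by_contra hne
  set x' := f * x * f⁻¹ with hx'
  have hx3' : x' ^ 3 ∈ centralizer (M : Set S) := cube_conj hx3
  have hK' : Nat.card (K M hc x') = 4 := by rw [hx', card_K_conj, hK]
  set N : Subgroup S := K M hc x ⊔ K M hc x' with hN
  have hNM : N ≤ M := sup_le (K_le x) (K_le x')
  have hK1N : K M hc x ≤ N := le_sup_left
  have hK2N : K M hc x' ≤ N := le_sup_right
  have hcN : ∀ a ∈ N, ∀ b ∈ N, a * b = b * a := fun a ha b hb => hc a (hNM ha) b (hNM hb)
  have hxN : x ∈ normalizer (N : Set S) := mem_normalizer hNM hK1N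
  have hxN' : x' ∈ normalizer (N : Set S) := mem_normalizer hNM hK2N
  have hnle : ¬ K M hc x ≤ K M hc x' := fun h => hne (Subgroup.eq_of_le_of_card_ge h (by rw [hK, hK'])).symm
  set A : Subgroup S := (F ⊔ zpowers x) ⊓ normalizer (N : Set S) with hA
  have hAp : IsPGroup 3 A := by
    have h1 : IsPGroup 3 (F ⊔ zpowers x : Subgroup S) :=
      IsPGroup.to_sup_of_normal_left' hFp hxp (by rw [zpowers_le]; exact hxF)
    exact h1.to_le inf_le_left
  have hxA : x ∈ A := ⟨(le_sup_right : zpowers x ≤ F ⊔ zpowers x) (mem_zpowers x), hxN⟩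
  have hfFx : f ∈ F ⊔ zpowers x := (le_sup_left : F ≤ F ⊔ zpowers x) hf
  have hxA' : x' ∈ A := ⟨mul_mem (mul_mem hfFx hxA.1) (Subgroup.inv_mem _ hfFx), hxN'⟩
  have hAN : A ≤ normalizer (N : Set S) := inf_le_right
  obtain ⟨k, hk⟩ := relIndex_pow hAp (centralizer (N : Set S))
  have hk2 : k ≤ 2 := by
    have hcardN : Nat.card N = 8 ∨ Nat.card N = 16 := by
      have h := card_sup hc (K_le (hc := hc) x) (K_le (hc := hc) x')
      rw [hK, hK'] at h
      by_cases hb : K M hc x ⊓ K M hc x' = ⊥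
      · right
        rw [hb, Subgroup.card_bot, mul_one] at h
        exact h
      · left
        rw [card_inf hK hb hnle] at h
        have : Nat.card N * 2 = 16 := h
        omega
    rcases hcardN with hcardN | hcardN
    · have hdvd := relIndex_dvd N hcN (fun a ha => h2 a (hNM ha)) (e := 3) (by rw [hcardN]; norm_num) A hAN
      rw [prod_three, hk] at hdvd
      by_contra hk2
      push Not at hk2
      have h1 : 3 ^ 3 ∣ 168 := (pow_dvd_pow 3 hk2).trans hdvd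
      norm_num at h1
    · have hdvd := relIndex_dvd N hcN (fun a ha => h2 a (hNM ha)) (e := 4) (by rw [hcardN]; norm_num) A hAN
      rw [prod_four, hk] at hdvd
      by_contra hk2
      push Not at hk2
      have h1 : 3 ^ 3 ∣ 20160 := (pow_dvd_pow 3 hk2).trans hdvd
      norm_num at h1
  -- `x` and `x'` commute on `N`
  have hcomm : x * x' * x⁻¹ * x'⁻¹ ∈ centralizer (N : Set S) := by
    set C := (centralizer (N : Set S)).subgroupOf A with hC
    haveI hCn : C.Normal := by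
      refine ⟨fun c hc' g => ?_⟩
      rw [mem_subgroupOf] at hc' ⊢
      rw [mem_centralizer_iff] at hc' ⊢
      intro n hn
      have h1 : (g : S)⁻¹ * n * g ∈ N := by
        have := (mem_normalizer_iff.1 (inv_mem (hAN g.2)) n).1 hn
        rwa [inv_inv] at this
      have h3 := hc' _ h1
      change n * ((g : S) * c * (g : S)⁻¹) = (g : S) * c * (g : S)⁻¹ * n
      calc n * ((g : S) * c * (g : S)⁻¹) = g * ((g : S)⁻¹ * n * g * c) * (g : S)⁻¹ := by group
        _ = _ := by rw [h3]; group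
    have hq : Nat.card (A ⧸ C) = 3 ^ k := by rw [← Subgroup.index_eq_card]; exact hk
    have hab : ∀ a b : A ⧸ C, a * b = b * a := by
      interval_cases k
      · rw [pow_zero] at hq
        haveI := (Nat.card_eq_one_iff_unique.1 hq).1
        intro a b; exact Subsingleton.elim _ _
      · rw [pow_one] at hq
        haveI := isCyclic_of_prime_card hq
        intro a b
        letI := IsCyclic.commGroup (α := A ⧸ C)
        exact mul_comm a b
      · intro a b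
        letI := IsPGroup.commGroupOfCardEqPrimeSq hq
        exact mul_comm a b
    have h1 := hab (QuotientGroup.mk ⟨x, hxA⟩) (QuotientGroup.mk ⟨x', hxA'⟩)
    have h3 : (QuotientGroup.mk (⟨x, hxA⟩ * ⟨x', hxA'⟩ * (⟨x, hxA⟩ : A)⁻¹ * (⟨x', hxA'⟩ : A)⁻¹) : A ⧸ C) = 1 := by
      change (QuotientGroup.mk ⟨x, hxA⟩ : A ⧸ C) * QuotientGroup.mk ⟨x', hxA'⟩ * (QuotientGroup.mk ⟨x, hxA⟩)⁻¹ *
        (QuotientGroup.mk ⟨x', hxA'⟩)⁻¹ = 1
      rw [h1]; group
    rw [QuotientGroup.eq_one_iff, mem_subgroupOf] at h3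
    exact h3
  have hcomm' : x' * x * x'⁻¹ * x⁻¹ ∈ centralizer (N : Set S) := by
    have := inv_mem hcomm
    have e : (x * x' * x⁻¹ * x'⁻¹)⁻¹ = x' * x * x'⁻¹ * x⁻¹ := by group
    rwa [e] at this
  -- general step
  have step : ∀ u w : S, u ^ 3 ∈ centralizer (M : Set S) → w ^ 3 ∈ centralizer (M : Set S) →
      u ∈ normalizer (N : Set S) → w ∈ normalizer (N : Set S) → K M hc w ≤ N →
      u * w * u⁻¹ * w⁻¹ ∈ centralizer (N : Set S) → ∀ k ∈ K M hc w, u * k * u⁻¹ ∈ K M hc w := by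
    intro u w hu hw huN hwN hKN hcuw k hk
    obtain ⟨l, hl, rfl⟩ := surj h2 hw hk
    have hl' : u * l * u⁻¹ ∈ N := (mem_normalizer_iff.1 huN l).1 (hKN hl)
    have hl'' : w * (u * l * u⁻¹) * w⁻¹ ∈ N := (mem_normalizer_iff.1 hwN _).1 hl'
    have h1 := (mem_centralizer_iff.1 hcuw) _ hl''
    have h3 : u * (w * l * w⁻¹ * l⁻¹) * u⁻¹ = w * (u * l * u⁻¹) * w⁻¹ * (u * l * u⁻¹)⁻¹ := by
      calc u * (w * l * w⁻¹ * l⁻¹) * u⁻¹
          = (u * w * u⁻¹ * w⁻¹) * (w * (u * l * u⁻¹) * w⁻¹) * (u * w * u⁻¹ * w⁻¹)⁻¹ * (u * l * u⁻¹)⁻¹ := by group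
        _ = w * (u * l * u⁻¹) * w⁻¹ * (u * l * u⁻¹)⁻¹ := by rw [← h1]; group
    rw [h3]
    exact comm_mem (hNM hl')
  have hs1 := step x x' hx3 hx3' hxN hxN' hK2N hcomm
  have hs2 := step x' x hx3' hx3 hxN' hxN hK1N hcomm'
  have hxK : ∀ k ∈ K M hc x, x * k * x⁻¹ ∈ K M hc x := fun k hk =>
    (mem_normalizer_iff.1 (mem_normalizer (K_le x) le_rfl) k).1 hk
  have hxK' : ∀ k ∈ K M hc x', x' * k * x'⁻¹ ∈ K M hc x' := fun k hk =>
    (mem_normalizer_iff.1 (mem_normalizer (K_le x') le_rfl) k).1 hk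
  have hbot : K M hc x ⊓ K M hc x' = ⊥ := by
    by_contra hb
    have hI := card_inf hK hb hnle
    obtain ⟨v, hv, hv1⟩ := exists_ne_one hb
    have h4 : x * v * x⁻¹ = v := by
      refine eq_of_card_two hI ⟨hxK v hv.1, hs1 v hv.2⟩ hv (fun h => hv1 ?_) hv1
      have : v = x⁻¹ * (x * v * x⁻¹) * x := by group
      rw [this, h]; group
    exact hv1 (fpf h2 hx3 hv.1 h4)
  have hxc : ∀ k ∈ K M hc x', x * k * x⁻¹ = k := by
    intro k hk
    have h1 : x * k * x⁻¹ * k⁻¹ ∈ K M hc x ⊓ K M hc x' :=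
      ⟨comm_mem (K_le x' hk), mul_mem (hs1 k hk) (Subgroup.inv_mem _ hk)⟩
    rw [hbot, Subgroup.mem_bot, mul_inv_eq_one] at h1
    exact h1
  have hxc' : ∀ k ∈ K M hc x, x' * k * x'⁻¹ = k := by
    intro k hk
    have h1 : x' * k * x'⁻¹ * k⁻¹ ∈ K M hc x ⊓ K M hc x' :=
      ⟨mul_mem (hs2 k hk) (Subgroup.inv_mem _ hk), comm_mem (K_le x hk)⟩
    rw [hbot, Subgroup.mem_bot, mul_inv_eq_one] at h1
    exact h1
  -- the final computation
  set c := x⁻¹ * x' with hcdef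
  have hcF : c ∈ F := by
    have h1 : x⁻¹ * f * x ∈ F := by
      have := (mem_normalizer_iff.1 (inv_mem hxF) f).1 hf
      rwa [inv_inv] at this
    have h3 := F.mul_mem h1 (F.inv_mem hf)
    have e : x⁻¹ * f * x * f⁻¹ = c := by rw [hcdef, hx']; group
    rwa [e] at h3
  have hcf : c * f = f * c := hF c hcF f hf
  have hKb : ∀ k ∈ K M hc x, k = 1 := by
    intro k hk
    have hk' : f * k * f⁻¹ ∈ K M hc x' := conj_mem_K.2 hk
    have e1 : c * (f * k * f⁻¹) * c⁻¹ = x'⁻¹ * (f * k * f⁻¹) * x' := by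
      calc c * (f * k * f⁻¹) * c⁻¹ = (c * f) * k * (c * f)⁻¹ := by group
        _ = (f * c) * k * (f * c)⁻¹ := by rw [hcf]
        _ = f * x⁻¹ * (x' * k * x'⁻¹) * x * f⁻¹ := by rw [hcdef]; group
        _ = f * x⁻¹ * k * x * f⁻¹ := by rw [hxc' k hk]
        _ = x'⁻¹ * (f * k * f⁻¹) * x' := by rw [hx']; group
    have e2 : c * (f * k * f⁻¹) * c⁻¹ = x' * (f * k * f⁻¹) * x'⁻¹ := by
      have h5 := hxc _ (hxK' _ hk')
      calc c * (f * k * f⁻¹) * c⁻¹ = x⁻¹ * (x' * (f * k * f⁻¹) * x'⁻¹) * x := by rw [hcdef]; group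
        _ = x⁻¹ * (x * (x' * (f * k * f⁻¹) * x'⁻¹) * x⁻¹) * x := by rw [h5]
        _ = x' * (f * k * f⁻¹) * x'⁻¹ := by group
    have e3 : x' * (f * k * f⁻¹) * x'⁻¹ = x'⁻¹ * (f * k * f⁻¹) * x' := by rw [← e2, e1]
    have e4 : x' ^ 3 * (f * k * f⁻¹) * (x' ^ 3)⁻¹ = f * k * f⁻¹ := by
      rw [← (mem_centralizer_iff.1 hx3') _ (K_le x' hk')]; group
    have e5 : x' * (f * k * f⁻¹) * x'⁻¹ = f * k * f⁻¹ := by
      calc x' * (f * k * f⁻¹) * x'⁻¹ = x' * (x' * (x'⁻¹ * (f * k * f⁻¹) * x') * x'⁻¹) * x'⁻¹ := by group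
        _ = x' * (x' * (x' * (f * k * f⁻¹) * x'⁻¹) * x'⁻¹) * x'⁻¹ := by rw [← e3]
        _ = x' ^ 3 * (f * k * f⁻¹) * (x' ^ 3)⁻¹ := by rw [pow_succ, pow_two]; group
        _ = _ := e4
    have e6 := fpf h2 hx3' hk' e5
    have : k = f⁻¹ * (f * k * f⁻¹) * f := by group
    rw [this, e6]; group
  have : K M hc x = ⊥ := (Subgroup.eq_bot_iff_forall _).2 hKb
  rw [this, Subgroup.card_bot] at hK
  exact absurd hK (by norm_num)

end H79.FourK
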