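import Mathlib
import Cfsg.Agent.Lib.H79.FourK3
import Cfsg.Agent.Lib.H14.AutRank2
import Cfsg.Agent.Lib.H3.RankTwo
import Cfsg.Agent.Lib.H1.Solv

/-!
# Elements acting on an elementary abelian 2-group with commutator of order four, part 4: S4404
-/

set_option autoImplicit false
set_option linter.unusedVariables false

namespace H79.FourK

open Subgroup Cfsg

variable {S : Type*} [Group S] [Finite S]

theorem elem_map {G G' : Type*} [Group G] [Group G'] {p : ℕ} {A : Subgroup G} (hA : IsElementaryAbelian p A)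
    (f : G →* G') : IsElementaryAbelian p (A.map f) := by
  haveI := hA.1
  refine ⟨⟨⟨?_⟩⟩, ?_⟩
  · rintro ⟨_, a, ha, rfl⟩ ⟨_, b, hb, rfl⟩
    apply Subtype.ext
    change f a * f b = f b * f a
    rw [← map_mul, ← map_mul, setLike_mul_comm ha hb]
  · rintro _ ⟨a, ha, rfl⟩
    rw [← map_pow, hA.2 a ha, map_one]

theorem elem_isPGroup {G : Type*} [Group G] {p : ℕ} {A : Subgroup G} (hA : IsElementaryAbelian p A) : IsPGroup p A := by
  intro a
  exact ⟨1, Subtype.ext (by rw [pow_one]; exact hA.2 a a.2)⟩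

theorem elem_comm {G : Type*} [Group G] {p : ℕ} {A : Subgroup G} (hA : IsElementaryAbelian p A) :
    ∀ a ∈ A, ∀ b ∈ A, a * b = b * a := fun a ha b hb => by
  haveI := hA.1
  exact setLike_mul_comm ha hb

theorem not_cyclic {G : Type*} [Group G] [Finite G] {r : ℕ} (hr : r.Prime) {B : Subgroup G} (hB : ∀ b ∈ B, b ^ r = 1)
    (h : r ^ 2 ≤ Nat.card B) : ¬ IsCyclic B := by
  intro hcyc
  obtain ⟨g, hg⟩ := IsCyclic.exists_generator (α := B)
  have h1 : orderOf g = Nat.card B := by
    rw [← Nat.card_zpowers]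
    have : zpowers g = ⊤ := eq_top_iff.2 fun x _ => hg x
    rw [this, Subgroup.card_top]
  have h2 : orderOf g ∣ r := orderOf_dvd_of_pow_eq_one (Subtype.ext (hB g g.2))
  have h3 := Nat.le_of_dvd hr.pos h2
  have h4 := hr.two_le
  rw [h1] at h3
  nlinarith

/-- lifting elementary abelian `p`-subgroups modulo a normal `p'`-subgroup -/
theorem exists_lift {G : Type*} [Group G] [Finite G] {p : ℕ} [Fact p.Prime] (N : Subgroup G) [N.Normal]
    (hN : (Nat.card N).Coprime p) {A : Subgroup (G ⧸ N)} (hA : IsElementaryAbelian p A) :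
    ∃ B : Subgroup G, IsElementaryAbelian p B ∧ Nat.card B = Nat.card A := by
  have hp : p.Prime := Fact.out
  set A' := A.comap (QuotientGroup.mk' N) with hA'
  obtain ⟨T⟩ : Nonempty (Sylow p A') := inferInstance
  set B : Subgroup G := (T : Subgroup A').map A'.subtype with hB
  have hBp : IsPGroup p B := T.2.map _
  have hBN : B ⊓ N = ⊥ := by
    apply H1.Coprime.inf_eq_bot_of_coprime_card
    obtain ⟨n, hn⟩ := IsPGroup.iff_card.1 hBp
    rw [hn]
    exact (Nat.Coprime.pow_right n hN).symm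
  have hBA : B ≤ A' := map_subtype_le _
  obtain ⟨k, hk⟩ := IsPGroup.iff_card.1 (elem_isPGroup hA)
  have hcard : Nat.card A' = Nat.card A * Nat.card N := by
    have h1 : A'.index = A.index := Subgroup.index_comap_of_surjective A (QuotientGroup.mk'_surjective N)
    have h2 := Subgroup.card_mul_index A'
    have h3 := Subgroup.card_mul_index A
    have h4 := Subgroup.card_mul_index N
    rw [← Subgroup.index_eq_card] at h3
    have h5 : 0 < A.index := Nat.pos_of_ne_zero Subgroup.index_ne_zero_of_finite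
    rw [h1, ← h4, ← h3] at h2
    apply Nat.eq_of_mul_eq_mul_right h5
    rw [h2]; ring
  have hcB : Nat.card B = Nat.card A := by
    rw [hB, Subgroup.card_map_of_injective A'.subtype_injective, T.card_eq_multiplicity, hcard, hk]
    have hNN : (Nat.card N).factorization p = 0 := by
      apply Nat.factorization_eq_zero_of_not_dvd
      intro h
      have := Nat.Coprime.eq_one_of_dvd hN.symm h
      exact hp.one_lt.ne' this
    rw [Nat.factorization_mul (pow_ne_zero _ hp.ne_zero) Nat.card_pos.ne', Finsupp.add_apply, hNN,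
      hp.factorization_pow, Finsupp.single_eq_same, add_zero]
  refine ⟨B, ⟨⟨⟨?_⟩⟩, ?_⟩, hcB⟩
  · rintro ⟨a, ha⟩ ⟨b, hb⟩
    apply Subtype.ext
    change a * b = b * a
    have h1 : a * b * a⁻¹ * b⁻¹ ∈ B ⊓ N := by
      refine ⟨B.mul_mem (B.mul_mem (B.mul_mem ha hb) (B.inv_mem ha)) (B.inv_mem hb), ?_⟩
      have h2 := elem_comm hA (QuotientGroup.mk a) (hBA ha) (QuotientGroup.mk b) (hBA hb)
      have h3 : (QuotientGroup.mk (a * b * a⁻¹ * b⁻¹) : G ⧸ N) = 1 := by
        change (QuotientGroup.mk a : G ⧸ N) * QuotientGroup.mk b * (QuotientGroup.mk a)⁻¹ * (QuotientGroup.mk b)⁻¹ = 1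
        rw [h2]; group
      exact (QuotientGroup.eq_one_iff _).1 h3
    rw [hBN, Subgroup.mem_bot] at h1
    rw [mul_inv_eq_one, mul_inv_eq_iff_eq_mul] at h1
    exact h1
  · intro a ha
    have h1 : a ^ p ∈ B ⊓ N := by
      refine ⟨pow_mem ha p, ?_⟩
      have h2 := hA.2 (QuotientGroup.mk a) (hBA ha)
      rw [← QuotientGroup.mk_pow] at h2
      exact (QuotientGroup.eq_one_iff _).1 h2
    rw [hBN, Subgroup.mem_bot] at h1
    exact h1

/-- a solvable `{3, p}`-group, `p ≥ 5`, of 3-rank at most two has a normal Sylow `p`-subgroup -/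
theorem not_dvd_quotient {X : Type*} [Group X] [Finite X] (hs : Group.IsSolvable X) {p : ℕ} (hp : p.Prime) (hp5 : 5 ≤ p)
    (hrk : ∀ A : Subgroup X, IsElementaryAbelian 3 A → Nat.card A ≤ 3 ^ 2) :
    ¬ p ∣ Nat.card (X ⧸ pPrimeCore 3 X) := by
  haveI : Fact (Nat.Prime 3) := ⟨Nat.prime_three⟩
  haveI : Fact p.Prime := ⟨hp⟩
  intro hdvd
  set N := pPrimeCore 3 X with hN
  have hcop := H1.Cores.coprime_card_pPrimeCore (G := X) 3
  have h1 : centralizer (pCore 3 (X ⧸ N) : Set (X ⧸ N)) ≤ pCore 3 (X ⧸ N) :=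
    H1.Solv.centralizer_pCore_le inferInstance 3 (H1.Cores.pPrimeCore_quotient_pPrimeCore 3)
  obtain ⟨g, hg⟩ := exists_prime_orderOf_dvd_card' p hdvd
  have hD : IsPGroup 3 (pCore 3 (X ⧸ N)) := H1.Cores.isPGroup_pCore 3
  have h2 : p ∣ 3 ^ 2 - 1 := by
    refine H14.AutRank2.main (G := X ⧸ N) (p := 3) (q := p) (by norm_num) (by omega) hD ?_ (g := g) ?_ hg ?_
    · intro A hA hAc hAe
      obtain ⟨B, hB, hBc⟩ := exists_lift N hcop (A := A) ⟨hAc, hAe⟩
      rw [← hBc]
      exact hrk B hB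
    · have : normalizer ((pCore 3 (X ⧸ N) : Subgroup (X ⧸ N)) : Set (X ⧸ N)) = ⊤ := Subgroup.normalizer_eq_top _
      rw [this]; exact mem_top _
    · intro hc
      obtain ⟨k, hk⟩ := hD ⟨g, h1 hc⟩
      have h3 : g ^ 3 ^ k = 1 := congrArg Subtype.val hk
      have h4 := orderOf_dvd_of_pow_eq_one h3
      rw [hg] at h4
      have := (Nat.prime_dvd_prime_iff_eq hp Nat.prime_three).1 (hp.dvd_of_dvd_pow h4)
      omega
  have h3 := Nat.le_of_dvd (by norm_num) h2
  norm_num at h2 h3
  interval_cases p <;> first | omega | (norm_num at hp)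

/-- the centraliser in `F` -/
theorem card_inf_centralizer {F C : Subgroup S} : Nat.card (F ⊓ C : Subgroup S) * C.relIndex F = Nat.card F := by
  have h1 := Subgroup.card_mul_index (C.subgroupOf F)
  have h2 : Nat.card (C.subgroupOf F) = Nat.card (F ⊓ C : Subgroup S) := by
    rw [← Subgroup.inf_subgroupOf_left]
    exact Nat.card_congr (subgroupOfEquivOfLe inf_le_left).toEquiv
  rw [h2] at h1
  exact h1

/-- **S4404** -/
theorem main (hs : Group.IsSolvable S) (M : Subgroup S) [hMn : M.Normal] (hM : IsElementaryAbelian 2 M)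
    (p : ℕ) (hp : p.Prime) (hp2 : p ≠ 2) (E : Subgroup S) (hE : IsElementaryAbelian p E) (hE3 : Nat.card ↥E = p ^ 3)
    (Q : Subgroup S) (hQc : IsCyclic ↥Q) (hQ3 : IsPGroup 3 ↥Q)
    (hQ1 : ∀ x ∈ Q, x ^ 3 ∈ Subgroup.centralizer (M : Set S)) (hQM : Nat.card ↥⁅Q, M⁆ = 4) :
    ∃ (r : ℕ) (F : Subgroup S), r.Prime ∧ r ≠ 2 ∧ IsElementaryAbelian r F ∧ Nat.card ↥F = r ^ 3 ∧
      ¬ IsCyclic ↥(F ⊓ Subgroup.centralizer ((⁅Q, M⁆ : Subgroup S) : Set S)) := by
  haveI : Fact (Nat.Prime 3) := ⟨Nat.prime_three⟩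
  have hc := elem_comm hM
  have h2 := hM.2
  obtain ⟨⟨x, hxQ⟩, hx⟩ := IsCyclic.exists_generator (α := Q)
  have hQx : Q = zpowers x := by
    apply le_antisymm
    · intro y hy
      obtain ⟨k, hk⟩ := mem_zpowers_iff.1 (hx ⟨y, hy⟩)
      exact mem_zpowers_iff.2 ⟨k, congrArg Subtype.val hk⟩
    · rw [zpowers_le]; exact hxQ
  subst hQx
  have hx3 := hQ1 x (mem_zpowers x)
  rw [commutator_eq (hc := hc) x] at hQM ⊢
  by_cases h27 : ∃ E' : Subgroup S, IsElementaryAbelian 3 E' ∧ Nat.card E' = 3 ^ 3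
  · -- 3-rank at least three
    obtain ⟨E', hE', hE'3⟩ := h27
    obtain ⟨T, hT⟩ := hQ3.exists_le_sylow
    obtain ⟨T', hT'⟩ := (elem_isPGroup hE').exists_le_sylow
    obtain ⟨g, hg⟩ := MulAction.exists_smul_eq S T' T
    have hE'T : E'.map (MulAut.conj g).toMonoidHom ≤ T := by
      rw [← hg]
      exact Subgroup.map_mono hT'
    have hex : ∃ A : Subgroup ↥(T : Subgroup S), A.Normal ∧ IsElementaryAbelian 3 A ∧ Nat.card A = 3 ^ 3 := by
      by_contra hcon
      push Not at hcon
      have h1 := H3.RankTwo.card_le_of_no_normal (p := 3) (by norm_num) T.2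
        (fun A hA hAe => hcon A hA hAe) ((E'.map (MulAut.conj g).toMonoidHom).subgroupOf T) (by
          have h3 := elem_map hE' (MulAut.conj g).toMonoidHom
          refine ⟨⟨⟨?_⟩⟩, ?_⟩
          · rintro ⟨a, ha⟩ ⟨b, hb⟩
            apply Subtype.ext
            apply Subtype.ext
            exact elem_comm h3 _ (mem_subgroupOf.1 ha) _ (mem_subgroupOf.1 hb)
          · intro a ha
            exact Subtype.ext (h3.2 _ (mem_subgroupOf.1 ha)))
      rw [Nat.card_congr (subgroupOfEquivOfLe hE'T).toEquiv,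
        Subgroup.card_map_of_injective (MulAut.conj g).injective, hE'3] at h1
      norm_num at h1
    obtain ⟨A, hAn, hA, hA3⟩ := hex
    set F := A.map (T : Subgroup S).subtype with hF
    have hFe : IsElementaryAbelian 3 F := elem_map hA _
    have hFc : Nat.card F = 3 ^ 3 := by
      rw [hF, Subgroup.card_map_of_injective (T : Subgroup S).subtype_injective, hA3]
    have hxT : x ∈ (T : Subgroup S) := hT (mem_zpowers x)
    have hxF : x ∈ normalizer (F : Set S) := by
      have hTF : (T : Subgroup S) ≤ normalizer (F : Set S) := by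
        apply H1.Coprime.le_normalizer_of_conj_mem
        rintro a ha _ ⟨k, hk, rfl⟩
        exact ⟨⟨a, ha⟩ * k * ⟨a, ha⟩⁻¹, hAn.conj_mem k hk ⟨a, ha⟩, rfl⟩
      exact hTF hxT
    have hKF : ∀ f ∈ F, K M hc (f * x * f⁻¹) = K M hc x := fun f hf =>
      K_eq_of_three h2 hx3 hQ3 hQM (elem_comm hFe) (elem_isPGroup hFe) hxF hf
    have hFN : F ≤ normalizer ((K M hc x : Subgroup S) : Set S) :=
      H1.Coprime.le_normalizer_of_conj_mem fun f hf k hk => by
        rw [← hKF f hf]
        exact conj_mem_K.2 hk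
    obtain ⟨k, hk⟩ := relIndex_pow (elem_isPGroup hFe) (centralizer ((K M hc x : Subgroup S) : Set S))
    have hdvd := relIndex_dvd (K M hc x) (fun a ha b hb => hc a (K_le x ha) b (K_le x hb))
      (fun a ha => h2 a (K_le x ha)) (e := 2) (by rw [hQM]; norm_num) F hFN
    rw [prod_two, hk] at hdvd
    have hk1 : k ≤ 1 := by
      by_contra hk2
      push Not at hk2
      have h1 : 3 ^ 2 ∣ 6 := (pow_dvd_pow 3 hk2).trans hdvd
      norm_num at h1
    refine ⟨3, F, Nat.prime_three, by norm_num, hFe, hFc, not_cyclic Nat.prime_three (fun b hb => hFe.2 b hb.1) ?_⟩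
    have h1 := card_inf_centralizer (F := F) (C := centralizer ((K M hc x : Subgroup S) : Set S))
    rw [hk, hFc] at h1
    have h3 : 3 ^ k ≤ 3 ^ 1 := Nat.pow_le_pow_right (by norm_num) hk1
    norm_num at h1 h3 ⊢
    nlinarith
  · -- 3-rank at most two
    have hrk : ∀ A : Subgroup S, IsElementaryAbelian 3 A → Nat.card A ≤ 3 ^ 2 := by
      intro A hA
      by_contra hcon
      push Not at hcon
      obtain ⟨k, hk⟩ := IsPGroup.iff_card.1 (elem_isPGroup hA)
      have hk3 : 3 ≤ k := by
        by_contra hk3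
        push Not at hk3
        rw [hk] at hcon
        have : 3 ^ k ≤ 3 ^ 2 := Nat.pow_le_pow_right (by norm_num) (by omega)
        omega
      obtain ⟨B, hB⟩ := Sylow.exists_subgroup_card_pow_prime (G := A) 3 (n := 3) (by rw [hk]; exact pow_dvd_pow 3 hk3)
      refine h27 ⟨B.map A.subtype, ⟨⟨⟨?_⟩⟩, ?_⟩, ?_⟩
      · rintro ⟨_, a, ha, rfl⟩ ⟨_, b, hb, rfl⟩
        exact Subtype.ext (elem_comm hA _ a.2 _ b.2)
      · rintro _ ⟨a, ha, rfl⟩
        exact hA.2 _ a.2
      · rw [Subgroup.card_map_of_injective A.subtype_injective, hB]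
    have hp3 : p ≠ 3 := by
      rintro rfl
      exact h27 ⟨E, hE, hE3⟩
    have hp5 : 5 ≤ p := by
      have := hp.two_le
      by_contra hcon
      push Not at hcon
      interval_cases p
      · exact hp2 rfl
      · exact hp3 rfl
      · norm_num at hp
    haveI : Fact p.Prime := ⟨hp⟩
    -- the Hall subgroup
    set a := (Nat.card S).factorization 3 with ha
    set b := (Nat.card S).factorization p with hb
    have hcop3p : (3 ^ a).Coprime (p ^ b) :=
      Nat.Coprime.pow _ _ ((Nat.coprime_primes Nat.prime_three hp).2 hp3.symm)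
    have hd3 : 3 ^ a ∣ Nat.card S := Nat.ordProj_dvd _ _
    have hdp : p ^ b ∣ Nat.card S := Nat.ordProj_dvd _ _
    obtain ⟨n, hn⟩ := hcop3p.mul_dvd_of_dvd_of_dvd hd3 hdp
    have hn0 : n ≠ 0 := by
      rintro rfl
      rw [mul_zero] at hn
      exact Nat.card_pos.ne' hn
    have h3n : ¬ 3 ∣ n := by
      intro h
      have h1 : 3 ^ (a + 1) ∣ Nat.card S := by
        rw [hn, pow_succ]
        exact mul_dvd_mul (dvd_mul_right _ _) h
      exact Nat.pow_succ_factorization_not_dvd Nat.card_pos.ne' Nat.prime_three h1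
    have hpn : ¬ p ∣ n := by
      intro h
      have h1 : p ^ (b + 1) ∣ Nat.card S := by
        rw [hn, pow_succ]
        exact mul_dvd_mul (dvd_mul_left _ _) h
      exact Nat.pow_succ_factorization_not_dvd Nat.card_pos.ne' hp h1
    have hcn3 : (3 : ℕ).Coprime n := (Nat.Prime.coprime_iff_not_dvd Nat.prime_three).2 h3n
    have hcnp : p.Coprime n := (Nat.Prime.coprime_iff_not_dvd hp).2 hpn
    have hcop : (3 ^ a * p ^ b).Coprime n := Nat.Coprime.mul_left (hcn3.pow_left a) (hcnp.pow_left b)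
    obtain ⟨c, hcQ⟩ := IsPGroup.iff_card.1 hQ3
    obtain ⟨L, hL, hQL⟩ := H1.Hall.exists_card_eq_ge hs _ n hn hcop (zpowers x) (by rw [hcQ]; exact hcn3.pow_left c)
    have hxL : x ∈ L := hQL (mem_zpowers x)
    -- the normal Sylow subgroup
    set N := pPrimeCore 3 L with hN
    have hNcop := H1.Cores.coprime_card_pPrimeCore (G := L) 3
    have hLs : Group.IsSolvable L := H1.Coprime.isSolvable_of_le le_top
      (Group.isSolvable_of_isSolvable_injective (f := (⊤ : Subgroup S).subtype) (Subgroup.subtype_injective _))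
    have hnd := not_dvd_quotient (X := L) hLs hp hp5 (fun A hA => by
      have := hrk _ (elem_map hA L.subtype)
      rwa [Subgroup.card_map_of_injective L.subtype_injective] at this)
    have hNcard : Nat.card N = p ^ b := by
      have h1 : Nat.card N ∣ 3 ^ a * p ^ b := by rw [← hL]; exact Subgroup.card_subgroup_dvd_card N
      have h3 : Nat.card N ∣ p ^ b := (Nat.Coprime.pow_right a hNcop).dvd_of_dvd_mul_left h1
      have h4 : p ^ b ∣ Nat.card N * Nat.card (L ⧸ N) := by
        rw [mul_comm, ← Subgroup.card_eq_card_quotient_mul_card_subgroup, hL]; exact dvd_mul_left _ _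
      have h5 : (p ^ b).Coprime (Nat.card (L ⧸ N)) :=
        Nat.Coprime.pow_left b ((Nat.Prime.coprime_iff_not_dvd hp).2 hnd)
      exact Nat.dvd_antisymm h3 (h5.dvd_of_dvd_mul_right h4)
    set P := N.map L.subtype with hP
    have hPcard : Nat.card P = p ^ b := by
      rw [hP, Subgroup.card_map_of_injective L.subtype_injective, hNcard]
    have hPp : IsPGroup p P := IsPGroup.of_card hPcard
    have hxP : x ∈ normalizer (P : Set S) := by
      have hLP : L ≤ normalizer (P : Set S) := by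
        apply H1.Coprime.le_normalizer_of_conj_mem
        rintro u hu _ ⟨k, hk, rfl⟩
        exact ⟨⟨u, hu⟩ * k * ⟨u, hu⟩⁻¹, (inferInstance : N.Normal).conj_mem k hk ⟨u, hu⟩, rfl⟩
      exact hLP hxL
    let PS : Sylow p S := Sylow.ofCard P hPcard
    obtain ⟨T', hT'⟩ := (elem_isPGroup hE).exists_le_sylow
    obtain ⟨g, hg⟩ := MulAction.exists_smul_eq S T' PS
    set F := E.map (MulAut.conj g).toMonoidHom with hF
    have hFP : F ≤ P := by
      have h1 : F ≤ ((g • T' : Sylow p S) : Subgroup S) := Subgroup.map_mono hT'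
      rw [hg] at h1
      exact h1
    have hFe : IsElementaryAbelian p F := elem_map hE _
    have hFc : Nat.card F = p ^ 3 := by
      rw [hF, Subgroup.card_map_of_injective (MulAut.conj g).injective, hE3]
    have hrel := relIndex_dvd_p (hc := hc) hp5 h2 hx3 hQM hPp hxP
    refine ⟨p, F, hp, hp2, hFe, hFc, not_cyclic hp (fun b hb => hFe.2 b hb.1) ?_⟩
    have h1 := card_inf_centralizer (F := F) (C := centralizer ((K M hc x : Subgroup S) : Set S))
    have h3 : (centralizer ((K M hc x : Subgroup S) : Set S)).relIndex F ≤ p := by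
      refine (relIndex_le_of_le_right hFP ?_).trans (Nat.le_of_dvd hp.pos hrel)
      intro h0
      rw [h0, zero_dvd_iff] at hrel
      exact hp.ne_zero hrel
    rw [hFc] at h1
    have h4 : 0 < p := hp.pos
    by_contra hcon
    push Not at hcon
    have h5 : Nat.card (F ⊓ centralizer ((K M hc x : Subgroup S) : Set S) : Subgroup S) *
        (centralizer ((K M hc x : Subgroup S) : Set S)).relIndex F < p ^ 2 * p :=
      Nat.mul_lt_mul_of_lt_of_le hcon h3 h4
    rw [h1, ← pow_succ] at h5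
    exact lt_irrefl _ h5

end H79.FourK
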