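import Cfsg.Agent.Lib.H79.WrSyl

/-! A variant of `WrSyl.wreath` where commutators with the permutations are used. -/

set_option autoImplicit false
set_option linter.unusedSectionVars false
set_option linter.style.haveILetI false

namespace H79.WrSyl2

open Subgroup H79.SylElem H79.WrGd H79.WrSyl Equiv
open scoped commutatorElement

/-- elements whose `p`-th power is in the derived subgroup -/
def powSub {G : Type*} [Group G] (p : ℕ) (H : Subgroup G) : Subgroup G :=
  ((powMonoidHom p).comp (Abelianization.of (G := H))).ker.map H.subtype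

theorem mem_powSub {G : Type*} [Group G] {p : ℕ} {H : Subgroup G} {x : G} :
    x ∈ powSub p H ↔ x ∈ H ∧ x ^ p ∈ ⁅H, H⁆ := by
  have hφ : ∀ x : H, x ∈ ((powMonoidHom p).comp (Abelianization.of (G := H))).ker ↔
      ((x : G) ^ p) ∈ ⁅H, H⁆ := by
    intro x
    rw [MonoidHom.mem_ker]
    have h1 : ((powMonoidHom p).comp (Abelianization.of (G := H))) x = Abelianization.of (x ^ p) := by
      show (Abelianization.of x) ^ p = _
      rw [map_pow]
    rw [h1]
    have h2 : (Abelianization.of (x ^ p) = 1) ↔ x ^ p ∈ commutator H :=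
      QuotientGroup.eq_one_iff (N := commutator H) (x ^ p)
    rw [h2, ← commutator_iff]
    rfl
  constructor
  · rintro ⟨y, hy, rfl⟩
    exact ⟨y.2, (hφ y).1 hy⟩
  · rintro ⟨h1, h2⟩
    exact ⟨⟨x, h1⟩, (hφ _).2 h2, rfl⟩

theorem gd_iff_le {G : Type*} [Group G] {p : ℕ} {H : Subgroup G} : Gd p H ↔ H ≤ powSub p H :=
  ⟨fun h _ hx => mem_powSub.2 ⟨hx, h _ hx⟩, fun h _ hx => (mem_powSub.1 (h hx)).2⟩

section wreath

variable {k : ℕ} {A B K G : Type*} [Group A] [Group B] [CommGroup K] [Group G] [Finite A]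
  [Finite B] [Finite G] (θ : A →* K) (θ' : B →* K) (D : Subgroup A) (C : Subgroup B)
  {r : ℕ} [hr : Fact r.Prime] (e : (Fin k → A) × B →* G) (p : Perm (Fin k) →* G)

theorem wreath' (he : Function.Injective e) (hp : Function.Injective p)
    (hpe : ∀ σ f x, p σ * e (f, x) * (p σ)⁻¹ = e (fun i => f (σ⁻¹ i), x))
    (hd : ∀ f σ, e f = p σ → σ = 1)
    (Ω : Subgroup G) (hΩe : (E0 (ι := Fin k) θ θ' D C).map e ≤ Ω) (hΩp : ∀ σ, p σ ∈ Ω)
    (hcard : Nat.card (E0 (ι := Fin k) θ θ' D C) * r ^ (k.factorial).factorization r =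
      r ^ (Nat.card Ω).factorization r)
    (hG : ∀ T : Sylow r (Perm (Fin k)), ∀ H : Subgroup G, (E0 (ι := Fin k) θ θ' D C).map e ≤ H →
      (T : Subgroup (Perm (Fin k))).map p ≤ H → E0 (ι := Fin k) θ θ' D C ≤ (powSub r H).comap e)
    (P : Sylow r Ω) :
    ∀ x : (P : Subgroup Ω), x ^ r ∈ commutator (P : Subgroup Ω) := by
  obtain ⟨T⟩ : Nonempty (Sylow r (Perm (Fin k))) := inferInstance
  set E := (E0 (ι := Fin k) θ θ' D C).map e with hE
  set T' := (T : Subgroup (Perm (Fin k))).map p with hT'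
  have hinv : ∀ (f : (Fin k → A) × B) (σ : Perm (Fin k)), f ∈ E0 (ι := Fin k) θ θ' D C →
      ((fun i => f.1 (σ i), f.2) : (Fin k → A) × B) ∈ E0 (ι := Fin k) θ θ' D C := by
    intro f σ hf
    rw [mem_E0] at hf ⊢
    refine ⟨⟨fun i => hf.1.1 _, hf.1.2⟩, ?_⟩
    rw [← hf.2, chi_apply, chi_apply]
    congr 1
    exact Equiv.prod_comp σ (fun i => θ (f.1 i))
  have hconj : ∀ σ, ∀ x ∈ E, p σ * x * (p σ)⁻¹ ∈ E := by
    rintro σ _ ⟨⟨f, x⟩, hf, rfl⟩
    rw [hpe]
    exact ⟨_, hinv _ σ⁻¹ hf, rfl⟩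
  have hnorm : T' ≤ normalizer (E : Set G) := by
    rintro _ ⟨σ, _, rfl⟩
    rw [mem_normalizer_iff]
    intro x
    refine ⟨hconj σ x, fun h => ?_⟩
    have h1 := hconj σ⁻¹ _ h
    rw [map_inv, inv_inv] at h1
    have h2 : (p σ)⁻¹ * (p σ * x * (p σ)⁻¹) * p σ = x := by group
    rwa [h2] at h1
  have hdis : E ⊓ T' = ⊥ := by
    rw [eq_bot_iff]
    rintro x ⟨⟨f, _, hf⟩, ⟨σ, _, hσ⟩⟩
    have h1 := hd f σ (hf.trans hσ.symm)
    rw [mem_bot, ← hσ, h1, map_one]
  have hcE : Nat.card E = Nat.card (E0 (ι := Fin k) θ θ' D C) :=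
    (Nat.card_congr (equivMapOfInjective _ e he).toEquiv).symm
  have hcT : Nat.card T' = r ^ (k.factorial).factorization r := by
    rw [← (Nat.card_congr (equivMapOfInjective (T : Subgroup (Perm (Fin k))) p hp).toEquiv),
      T.card_eq_multiplicity, Nat.card_perm, Nat.card_fin]
  have hcH : Nat.card (E ⊔ T' : Subgroup G) = r ^ (Nat.card Ω).factorization r := by
    have h1 := H3.CardSup.card_sup_mul_card_inf T' E hnorm
    rw [inf_comm, hdis, card_bot, mul_one, sup_comm] at h1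
    rw [h1, hcT, hcE, mul_comm]
    exact hcard
  have hGd : Gd r (E ⊔ T') := by
    rw [gd_iff_le]
    refine sup_le ?_ ?_
    · rw [hE, map_le_iff_le_comap]
      exact hG T (E ⊔ T') le_sup_left le_sup_right
    · intro x hx
      refine mem_powSub.2 ⟨(le_sup_right : T' ≤ E ⊔ T') hx, ?_⟩
      exact commutator_mono (le_sup_right : T' ≤ E ⊔ T') le_sup_right (gd_map p (SylSym.gd_sym r k T) x hx)
  refine result_in Ω (E ⊔ T') (sup_le hΩe ?_) hcH hGd P
  rintro _ ⟨σ, _, rfl⟩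
  exact hΩp σ

end wreath

end H79.WrSyl2
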