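import Cfsg.Agent.Lib.H79.GLWr
import Cfsg.Agent.Lib.H79.WrSyl2

/-! Sylow 2-subgroups of `SL_n(q)`, `n` a power of two, `q ≡ 1 (mod 4)`. -/

set_option autoImplicit false
set_option linter.unusedSectionVars false
set_option linter.style.haveILetI false

namespace H79.GLPow

open Subgroup H79.SylElem H79.WrGd H79.WrSyl H79.WrKer H79.WrSyl2 H79.GLWr Matrix Equiv
open scoped MatrixGroups commutatorElement

theorem val_fact (j : ℕ) : padicValNat 2 (2 ^ j).factorial + 1 = 2 ^ j := by
  haveI : Fact (Nat.Prime 2) := ⟨Nat.prime_two⟩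
  induction j with
  | zero => simp
  | succ j ih =>
    rw [pow_succ, mul_comm, padicValNat_factorial_mul]
    omega

variable {F : Type*} [Field F] [Fintype F]

theorem step (hq : Fintype.card F % 4 = 1) (β : Type) [Fintype β] [DecidableEq β] (j : ℕ)
    (hβ : Fintype.card β = 2 ^ (j + 1))
    (ih : ∀ P : Sylow 2 (SpecialLinearGroup β F), Gd 2 (P : Subgroup (SpecialLinearGroup β F)))
    (P : Sylow 2 (GeneralLinearGroup.det : GL (J β 2 Empty) F →* Fˣ).ker) :
    ∀ x : (P : Subgroup (GeneralLinearGroup.det : GL (J β 2 Empty) F →* Fˣ).ker),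
      x ^ 2 ∈ commutator (P : Subgroup (GeneralLinearGroup.det : GL (J β 2 Empty) F →* Fˣ).ker) := by
  haveI : Fact (Nat.Prime 2) := ⟨Nat.prime_two⟩
  have hq1 : 1 < Fintype.card F := Fintype.one_lt_card
  have hF : Odd (Fintype.card F) := Nat.odd_iff.2 (by omega)
  haveI : Nonempty β := Fintype.card_pos_iff.1 (by rw [hβ]; positivity)
  have hev : Even (Fintype.card β) := by rw [hβ]; exact ⟨2 ^ j, by ring⟩
  obtain ⟨D⟩ : Nonempty (Sylow 2 (GL β F)) := inferInstance
  set θ : GL β F →* Fˣ := GeneralLinearGroup.det with hθ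
  set θ' : GL Empty F →* Fˣ := GeneralLinearGroup.det with hθ'
  set s := padicValNat 2 (Fintype.card F ^ 2 - 1) with hs
  set a := padicValNat 2 (Fintype.card F - 1) with ha
  -- the image of `D`
  have hsurj : Function.Surjective θ := GeneralLinearGroup.det_surjective
  have hcM : Nat.card ((D : Subgroup (GL β F)).map θ) = 2 ^ a := by
    have h1 : Nat.card (D.mapSurjective hsurj : Subgroup Fˣ) = 2 ^ (Nat.card Fˣ).factorization 2 :=
      (D.mapSurjective hsurj).card_eq_multiplicity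
    rw [H6.SLCard.card_units', ValQ.pow_fact (k := a) rfl] at h1
    exact h1
  have hcD : Nat.card (D : Subgroup (GL β F)) = 2 ^ (2 ^ j * (s + a) + padicValNat 2 (2 ^ j).factorial) := by
    have h1 : Nat.card (D : Subgroup (GL β F)) = 2 ^ (Nat.card (GL β F)).factorization 2 :=
      D.card_eq_multiplicity
    rw [h1, ValQ.pow_fact]
    rw [card_gl, hβ, val_gl hF hq1, pow_succ, mul_comm (2 ^ j) 2, sum_even hF hq1]
  -- the kernel in `D`
  set N := (D : Subgroup (GL β F)) ⊓ θ.ker with hN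
  have hNk : N ≤ θ.ker := inf_le_right
  have hcN : 2 ^ a * Nat.card N = Nat.card (D : Subgroup (GL β F)) := by
    rw [← hcM]
    exact card_inf_ker θ (D : Subgroup (GL β F))
  have hvSL : a + padicValNat 2 (Nat.card (SpecialLinearGroup β F)) =
      2 ^ j * (s + a) + padicValNat 2 (2 ^ j).factorial := by
    rw [val_sl hF, hβ, pow_succ, mul_comm (2 ^ j) 2, sum_even hF hq1]
  have hcN' : Nat.card N = 2 ^ padicValNat 2 (Nat.card (SpecialLinearGroup β F)) := by
    rw [hcD, ← hvSL, pow_add] at hcN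
    exact Nat.eq_of_mul_eq_mul_left (by positivity) hcN
  have hGN : Gd 2 N := by
    have h3 : Nat.card (N.subgroupOf θ.ker) = 2 ^ (Nat.card θ.ker).factorization 2 := by
      rw [Nat.card_congr (subgroupOfEquivOfLe hNk).toEquiv, hcN',
        ← Nat.card_congr (H6.SLCard.slEquivKerDet (ι := β) (R := F)).toEquiv, ValQ.pow_fact rfl]
    obtain ⟨P₀⟩ : Nonempty (Sylow 2 (SpecialLinearGroup β F)) := inferInstance
    have h4 := gd_sylow_of_equiv H6.SLCard.slEquivKerDet P₀ (ih P₀) (Sylow.ofCard _ h3)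
    have h5 := gd_map θ.ker.subtype h4
    have h6 : ((Sylow.ofCard _ h3 : Sylow 2 θ.ker) : Subgroup θ.ker).map θ.ker.subtype = N := by
      show (N.subgroupOf _).map _ = N
      rw [Subgroup.subgroupOf_map_subtype, inf_eq_left.2 hNk]
    rwa [h6] at h5
  have hmapF : (full (ι := Fin 2) (D : Subgroup (GL β F)) (⊤ : Subgroup (GL Empty F))).map (chi θ θ') =
      (D : Subgroup (GL β F)).map θ := by
    refine card_full_map_le θ θ' _ _ (0 : Fin 2) _ rfl ?_
    rintro _ ⟨x, _, rfl⟩
    have : x = 1 := Subsingleton.elim _ _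
    rw [this, map_one]
    exact one_mem _
  have hE := card_E0 (ι := Fin 2) θ θ' (D : Subgroup (GL β F)) (⊤ : Subgroup (GL Empty F)) (2 ^ a)
    (by rw [hmapF, hcM])
  have hcT : Nat.card (⊤ : Subgroup (GL Empty F)) = 1 := by
    rw [Subgroup.card_top]; exact Nat.card_unique
  rw [hcT, mul_one, Fintype.card_fin, ← hcN, mul_pow, pow_two (2 ^ a), mul_assoc] at hE
  have hE' := Nat.eq_of_mul_eq_mul_left (show 0 < 2 ^ a by positivity) hE
  rw [hcN', ← pow_mul, ← pow_add] at hE'
  -- order of the group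
  haveI : Nonempty (J β 2 Empty) := ⟨Sum.inl (Classical.arbitrary β, 0)⟩
  have hcard : Fintype.card (J β 2 Empty) = 2 * 2 ^ (j + 1) := by
    rw [Fintype.card_sum, Fintype.card_prod, Fintype.card_fin, hβ, Fintype.card_empty]; ring
  have hvΩ : padicValNat 2 (Nat.card (GeneralLinearGroup.det : GL (J β 2 Empty) F →* Fˣ).ker) =
      (a + padicValNat 2 (Nat.card (SpecialLinearGroup β F)) * 2) + 1 := by
    have h3 := val_sl (F := F) hF (J β 2 Empty)
    rw [hcard, sum_even hF hq1, Nat.card_congr (H6.SLCard.slEquivKerDet (ι := J β 2 Empty) (R := F)).toEquiv] at h3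
    have h4 := val_fact j
    have h5 := val_fact (j + 1)
    rw [pow_succ] at h5
    have h6 : 2 ^ (j + 1) * (s + a) = 2 * (2 ^ j * (s + a)) := by rw [pow_succ]; ring
    rw [← hs, ← ha, h6] at h3
    rw [← pow_succ] at h5
    have h7 : (2 : ℕ) ^ (j + 1) = 2 * 2 ^ j := by rw [pow_succ]; ring
    omega
  have h2fac : (2 : ℕ) ^ (Nat.factorial 2).factorization 2 = 2 := by
    rw [ValQ.pow_fact (k := 1)]
    · rfl
    · rw [show Nat.factorial 2 = 2 from rfl, padicValNat_self]
  refine wreath' θ θ' (D : Subgroup (GL β F)) (⊤ : Subgroup (GL Empty F)) (r := 2) eHom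
    (pHom (m := 2) (F := F) (R := Empty) (β := β)) eHom_injective pHom_injective conj_rel meet _ ?_ ?_ ?_ ?_ P
  · rintro _ ⟨f, hf, rfl⟩
    rw [MonoidHom.mem_ker, det_eHom]
    exact ((mem_E0 _ _ _ _ f).1 hf).2
  · intro σ
    rw [MonoidHom.mem_ker, det_pHom hev]
  · rw [hE', h2fac, ValQ.pow_fact hvΩ, pow_succ]
  · intro T H hEH hTH
    have hmem : ∀ x ∈ E0 (ι := Fin 2) θ θ' (D : Subgroup (GL β F)) (⊤ : Subgroup (GL Empty F)),
        (eHom x : GL (J β 2 Empty) F) ∈ H := fun x hx => hEH ⟨x, hx, rfl⟩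
    have hcom : ∀ x ∈ ⁅E0 (ι := Fin 2) θ θ' (D : Subgroup (GL β F)) (⊤ : Subgroup (GL Empty F)),
        E0 (ι := Fin 2) θ θ' (D : Subgroup (GL β F)) (⊤ : Subgroup (GL Empty F))⁆,
        (eHom x : GL (J β 2 Empty) F) ∈ ⁅H, H⁆ := by
      intro x hx
      have h1 : (⁅E0 (ι := Fin 2) θ θ' (D : Subgroup (GL β F)) (⊤ : Subgroup (GL Empty F)),
        E0 (ι := Fin 2) θ θ' (D : Subgroup (GL β F)) (⊤ : Subgroup (GL Empty F))⁆).map
          (eHom : _ →* GL (J β 2 Empty) F) ≤ ⁅H, H⁆ := by
        rw [Subgroup.map_commutator]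
        exact commutator_mono hEH hEH
      exact h1 ⟨x, hx, rfl⟩
    apply E0_le θ θ' (D : Subgroup (GL β F)) (⊤ : Subgroup (GL Empty F)) (0 : Fin 2)
      (D : Set (GL β F)) (Set.Subset.refl _) subset_closure ∅
    · intro x _
      rw [Subsingleton.elim x 1]
      exact one_mem _
    · intro n hn hn1
      rw [mem_comap, mem_powSub]
      refine ⟨hmem _ (sgl_mem θ θ' _ _ hn hn1), ?_⟩
      rw [← map_pow]
      apply hcom
      have h1 : ((Pi.mulSingle 0 n : Fin 2 → GL β F), (1 : GL Empty F)) ^ 2 =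
          ((Pi.mulSingle 0 (n ^ 2) : Fin 2 → GL β F), (1 : GL Empty F)) := by
        refine Prod.ext ?_ (by simp)
        simp only [Prod.pow_fst]
        rw [Pi.mulSingle_pow]
      rw [h1]
      exact sgl_comm θ θ' _ _ (le_refl N) (hGN n ⟨hn, hn1⟩)
    · intro g hg i hi
      have hi1 : i = 1 := by omega
      subst hi1
      set x : (Fin 2 → GL β F) × GL Empty F := ((Pi.mulSingle 1 g * Pi.mulSingle 0 g⁻¹ : Fin 2 → GL β F), 1) with hx
      have hxE : x ∈ E0 (ι := Fin 2) θ θ' (D : Subgroup (GL β F)) (⊤ : Subgroup (GL Empty F)) := by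
        have e3 : x = ((Pi.mulSingle 1 g : Fin 2 → GL β F), (1 : GL Empty F)) *
            ((Pi.mulSingle 0 g⁻¹ : Fin 2 → GL β F), (1 : GL Empty F)) := Prod.ext rfl (by simp [hx])
        rw [e3]
        refine ⟨mul_mem (single_mem_full _ _ 1 hg (one_mem _))
          (single_mem_full _ _ 0 (inv_mem hg) (one_mem _)), ?_⟩
        show _ ∈ (chi θ θ').ker
        rw [MonoidHom.mem_ker, map_mul, chi_single, chi_single]
        simp
      rw [mem_comap, mem_powSub]
      refine ⟨hmem _ hxE, ?_⟩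
      have hτT : Equiv.swap (0 : Fin 2) 1 ∈ (T : Subgroup (Perm (Fin 2))) := by
        have h1 : Nat.card (T : Subgroup (Perm (Fin 2))) = Nat.card (Perm (Fin 2)) := by
          have h2 : Nat.card (T : Subgroup (Perm (Fin 2))) = 2 ^ (Nat.card (Perm (Fin 2))).factorization 2 :=
            T.card_eq_multiplicity
          rw [h2, Nat.card_perm, Nat.card_fin, h2fac]; rfl
        rw [Subgroup.eq_top_of_card_eq _ h1]
        exact mem_top _
      set τ := Equiv.swap (0 : Fin 2) 1 with hτ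
      have hpτ : (pHom τ : GL (J β 2 Empty) F) ∈ H := hTH ⟨τ, hτT, rfl⟩
      have hconj : (pHom τ : GL (J β 2 Empty) F) * eHom x⁻¹ * (pHom τ)⁻¹ = eHom x := by
        have h1 := conj_rel (F := F) (R := Empty) (β := β) τ x⁻¹.1 x⁻¹.2
        rw [Prod.mk.eta] at h1
        rw [h1]
        congr 1
        refine Prod.ext (funext fun i => ?_) (by rw [hx]; simp)
        fin_cases i
        · rw [hx, hτ]; simp
        · rw [hx, hτ]; simp
      have h4 : (eHom x : GL (J β 2 Empty) F) ^ 2 = ⁅(pHom τ : GL (J β 2 Empty) F), eHom x⁻¹⁆ := by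
        rw [commutatorElement_def, hconj, map_inv, inv_inv, pow_two]
      rw [h4]
      exact commutator_mem_commutator hpτ (by rw [map_inv]; exact inv_mem (hmem _ hxE))
    · intro y hy
      exact absurd hy (Set.notMem_empty y)

theorem main (hq : Fintype.card F % 4 = 1) (j : ℕ) : ∀ (β : Type) [Fintype β] [DecidableEq β]
    (_ : Fintype.card β = 2 ^ (j + 1)) (P : Sylow 2 (SpecialLinearGroup β F)),
    Gd 2 (P : Subgroup (SpecialLinearGroup β F)) := by
  haveI : Fact (Nat.Prime 2) := ⟨Nat.prime_two⟩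
  have hF : Odd (Fintype.card F) := Nat.odd_iff.2 (by omega)
  induction j with
  | zero =>
    intro β _ _ hβ P
    obtain ⟨P₀⟩ : Nonempty (Sylow 2 (SpecialLinearGroup (Fin 2) F)) := inferInstance
    exact gd_sylow_of_equiv (H7.LowRank.slReindex (Fintype.equivFinOfCardEq (by rw [hβ]; rfl)).symm) P₀
      (gd_sl2 hF P₀) P
  | succ j ih =>
    intro β _ _ hβ P
    have e : J (Fin (2 ^ (j + 1))) 2 Empty ≃ β := by
      apply Fintype.equivOfCardEq
      rw [hβ, Fintype.card_sum, Fintype.card_prod, Fintype.card_fin, Fintype.card_fin, Fintype.card_empty]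
      ring
    rw [gd_iff]
    exact transfer e (fun P' => step hq (Fin (2 ^ (j + 1))) j (by simp) (ih _ (by simp)) P') P

end H79.GLPow
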