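import Mathlib

/-! Combinatorics of multiplicity vectors with prescribed inner products. -/

set_option autoImplicit false
set_option linter.unusedSectionVars false
set_option linter.unusedVariables false

namespace H79.GramComb

variable {I : Type*} [Fintype I] [DecidableEq I]

theorem pair {deg v : I → ℤ} (hdeg : ∀ i, 0 < deg i) (h2 : ∑ i, v i * v i = 2) (h0 : ∑ i, v i * deg i = 0) :
    ∃ a b, a ≠ b ∧ (∀ i, v i = (if i = a then 1 else 0) - (if i = b then 1 else 0)) ∧ deg a = deg b := by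
  have hpos : ∃ a, 0 < v a := by
    by_contra hcon
    push Not at hcon
    have h3 : ∀ i ∈ (Finset.univ : Finset I), v i * deg i ≤ 0 := fun i _ =>
      mul_nonpos_of_nonpos_of_nonneg (hcon i) (hdeg i).le
    have h4 := (Finset.sum_eq_zero_iff_of_nonpos h3).1 h0
    have h5 : ∀ i, v i = 0 := fun i => by
      rcases mul_eq_zero.1 (h4 i (Finset.mem_univ i)) with h | h
      · exact h
      · exact absurd h (hdeg i).ne'
    simp [h5] at h2
  have hneg : ∃ b, v b < 0 := by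
    by_contra hcon
    push Not at hcon
    have h3 : ∀ i ∈ (Finset.univ : Finset I), 0 ≤ v i * deg i := fun i _ =>
      mul_nonneg (hcon i) (hdeg i).le
    have h4 := (Finset.sum_eq_zero_iff_of_nonneg h3).1 h0
    have h5 : ∀ i, v i = 0 := fun i => by
      rcases mul_eq_zero.1 (h4 i (Finset.mem_univ i)) with h | h
      · exact h
      · exact absurd h (hdeg i).ne'
    simp [h5] at h2
  obtain ⟨a, ha⟩ := hpos
  obtain ⟨b, hb⟩ := hneg
  have hab : a ≠ b := by rintro rfl; omega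
  have hsplit : ∀ f : I → ℤ, ∑ i, f i = f a + f b + ∑ i ∈ (Finset.univ.erase a).erase b, f i := by
    intro f
    rw [← Finset.add_sum_erase _ _ (Finset.mem_univ a),
      ← Finset.add_sum_erase _ _ (Finset.mem_erase.2 ⟨hab.symm, Finset.mem_univ b⟩), add_assoc]
  have h3 := hsplit (fun i => v i * v i)
  rw [h2] at h3
  have h4 : 0 ≤ ∑ i ∈ (Finset.univ.erase a).erase b, v i * v i :=
    Finset.sum_nonneg fun i _ => mul_self_nonneg _
  have ha1 : v a = 1 := by nlinarith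
  have hb1 : v b = -1 := by nlinarith
  rw [ha1, hb1] at h3
  have h5 : ∑ i ∈ (Finset.univ.erase a).erase b, v i * v i = 0 := by linarith
  have h6 := (Finset.sum_eq_zero_iff_of_nonneg (fun i _ => mul_self_nonneg (v i))).1 h5
  have hz : ∀ i, i ≠ a → i ≠ b → v i = 0 := fun i hia hib =>
    mul_self_eq_zero.1 (h6 i (Finset.mem_erase.2 ⟨hib, Finset.mem_erase.2 ⟨hia, Finset.mem_univ i⟩⟩))
  have hv : ∀ i, v i = (if i = a then 1 else 0) - (if i = b then 1 else 0) := by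
    intro i
    by_cases hia : i = a
    · rw [hia, if_pos rfl, if_neg hab, ha1]; norm_num
    · by_cases hib : i = b
      · rw [hib, if_pos rfl, if_neg hab.symm, hb1]; norm_num
      · rw [if_neg hia, if_neg hib, hz i hia hib]; norm_num
  refine ⟨a, b, hab, hv, ?_⟩
  have h7 := hsplit (fun i => v i * deg i)
  rw [h0, ha1, hb1] at h7
  have h8 : ∑ i ∈ (Finset.univ.erase a).erase b, v i * deg i = 0 := by
    apply Finset.sum_eq_zero
    intro i hi
    rw [Finset.mem_erase, Finset.mem_erase] at hi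
    rw [hz i hi.2.1 hi.1, zero_mul]
  rw [h8] at h7
  linarith

theorem sum_ite_sub {f : I → ℤ} {a b : I} :
    ∑ i, f i * ((if i = a then 1 else 0) - (if i = b then 1 else 0)) = f a - f b := by
  simp only [mul_sub, Finset.sum_sub_distrib, mul_ite, mul_one, mul_zero, Finset.sum_ite_eq', Finset.mem_univ,
    if_true]

variable {deg m₁ m₂ m₃ : I → ℤ} {N : ℤ}

theorem comb (hdeg : ∀ i, 0 < deg i) (hn1 : ∀ i, 0 ≤ m₁ i) (hn2 : ∀ i, 0 ≤ m₂ i) (hn3 : ∀ i, 0 ≤ m₃ i)
    (h11 : ∑ i, m₁ i * m₁ i = N + 1) (h22 : ∑ i, m₂ i * m₂ i = N + 1) (h33 : ∑ i, m₃ i * m₃ i = N + 1)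
    (h12 : ∑ i, m₂ i * m₁ i = N) (h23 : ∑ i, m₂ i * m₃ i = N) (h13 : ∑ i, m₁ i * m₃ i = N)
    (d12 : ∑ i, m₂ i * deg i = ∑ i, m₁ i * deg i) (d23 : ∑ i, m₂ i * deg i = ∑ i, m₃ i * deg i)
    (hreal : ∀ i, m₂ i ≠ 0 → m₂ i = 1 ∧ m₁ i = m₃ i) :
    ∃ a b d : I, a ≠ b ∧ a ≠ d ∧ b ≠ d ∧
      (∀ i, m₂ i - m₁ i = (if i = a then 1 else 0) - (if i = b then 1 else 0)) ∧
      (∀ i, m₂ i - m₃ i = (if i = a then 1 else 0) - (if i = d then 1 else 0)) ∧
      m₂ a = 1 ∧ m₂ b = 0 ∧ m₂ d = 0 ∧ deg a = deg b := by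
  have e1 : ∑ i, (m₂ i - m₁ i) * (m₂ i - m₁ i) = 2 := by
    have : ∀ i, (m₂ i - m₁ i) * (m₂ i - m₁ i) = m₂ i * m₂ i - 2 * (m₂ i * m₁ i) + m₁ i * m₁ i := fun i => by ring
    simp only [this, Finset.sum_add_distrib, Finset.sum_sub_distrib, ← Finset.mul_sum, h11, h22, h12]
    ring
  have e2 : ∑ i, (m₂ i - m₃ i) * (m₂ i - m₃ i) = 2 := by
    have : ∀ i, (m₂ i - m₃ i) * (m₂ i - m₃ i) = m₂ i * m₂ i - 2 * (m₂ i * m₃ i) + m₃ i * m₃ i := fun i => by ring
    simp only [this, Finset.sum_add_distrib, Finset.sum_sub_distrib, ← Finset.mul_sum, h33, h22, h23]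
    ring
  have e3 : ∑ i, (m₂ i - m₁ i) * (m₂ i - m₃ i) = 1 := by
    have : ∀ i, (m₂ i - m₁ i) * (m₂ i - m₃ i) = m₂ i * m₂ i - m₂ i * m₃ i - m₂ i * m₁ i + m₁ i * m₃ i :=
      fun i => by ring
    simp only [this, Finset.sum_add_distrib, Finset.sum_sub_distrib, h13, h22, h23, h12]
    ring
  have f1 : ∑ i, (m₂ i - m₁ i) * deg i = 0 := by
    simp only [sub_mul, Finset.sum_sub_distrib, d12, sub_self]
  have f2 : ∑ i, (m₂ i - m₃ i) * deg i = 0 := by
    simp only [sub_mul, Finset.sum_sub_distrib, d23, sub_self]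
  obtain ⟨a, b, hab, hv, hd⟩ := pair hdeg e1 f1
  obtain ⟨c, d, hcd, hv', hd'⟩ := pair hdeg e2 f2
  have ha := hv a
  rw [if_pos rfl, if_neg hab] at ha
  have ha0 : m₂ a ≠ 0 := by have := hn1 a; omega
  obtain ⟨ha1, ha2⟩ := hreal a ha0
  have hac : a = c := by
    have h1 := hv' a
    by_contra hne
    rw [if_neg hne] at h1
    split_ifs at h1 <;> omega
  subst hac
  have hbd : b ≠ d := by
    rintro rfl
    have : ∀ i, m₂ i - m₁ i = m₂ i - m₃ i := fun i => (hv i).trans (hv' i).symm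
    rw [Finset.sum_congr rfl (fun i _ => by rw [← this i])] at e3
    rw [e1] at e3
    norm_num at e3
  refine ⟨a, b, d, hab, hcd, hbd, hv, hv', ha1, ?_, ?_, hd⟩
  · by_contra h0
    obtain ⟨h1, h2⟩ := hreal b h0
    have h3 := hv b
    have h4 := hv' b
    rw [if_neg hab.symm, if_pos rfl] at h3
    rw [if_neg hab.symm, if_neg hbd] at h4
    omega
  · by_contra h0
    obtain ⟨h1, h2⟩ := hreal d h0
    have h3 := hv d
    have h4 := hv' d
    rw [if_neg hcd.symm, if_neg hbd.symm] at h3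
    rw [if_neg hcd.symm, if_pos rfl] at h4
    omega

theorem comb2 (hdeg : ∀ i, 0 < deg i) {a b d : I} (hab : a ≠ b) (had : a ≠ d) (hbd : b ≠ d)
    (hv : ∀ i, m₂ i - m₁ i = (if i = a then 1 else 0) - (if i = b then 1 else 0))
    (hv' : ∀ i, m₂ i - m₃ i = (if i = a then 1 else 0) - (if i = d then 1 else 0))
    (h2a : m₂ a = 1) (h2b : m₂ b = 0) (h2d : m₂ d = 0) (h22 : ∑ i, m₂ i * m₂ i = N + 1)
    {m : I → ℤ} (hn : ∀ i, 0 ≤ m i) (hm : ∑ i, m i * m i = N + 1) (hm1 : ∑ i, m i * m₁ i = N)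
    (hm2 : ∑ i, m i * m₂ i = N) (hm3 : ∑ i, m i * m₃ i = N) (hd : ∑ i, m i * deg i = ∑ i, m₂ i * deg i) :
    m b = 0 := by
  have h1 : m a = m b := by
    have h : ∑ i, m i * (m₂ i - m₁ i) = 0 := by
      simp only [mul_sub, Finset.sum_sub_distrib, hm1, hm2, sub_self]
    rw [Finset.sum_congr rfl (fun i _ => by rw [hv i]), sum_ite_sub] at h
    linarith
  have h3 : m a = m d := by
    have h : ∑ i, m i * (m₂ i - m₃ i) = 0 := by
      simp only [mul_sub, Finset.sum_sub_distrib, hm3, hm2, sub_self]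
    rw [Finset.sum_congr rfl (fun i _ => by rw [hv' i]), sum_ite_sub] at h
    linarith
  have e1 : ∑ i, (m i - m₂ i) * (m i - m₂ i) = 2 := by
    have : ∀ i, (m i - m₂ i) * (m i - m₂ i) = m i * m i - 2 * (m i * m₂ i) + m₂ i * m₂ i := fun i => by ring
    simp only [this, Finset.sum_add_distrib, Finset.sum_sub_distrib, ← Finset.mul_sum, hm, h22, hm2]
    ring
  have hsplit : ∀ f : I → ℤ, ∑ i, f i = f a + f b + f d + ∑ i ∈ ((Finset.univ.erase a).erase b).erase d, f i := by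
    intro f
    rw [← Finset.add_sum_erase _ _ (Finset.mem_univ a),
      ← Finset.add_sum_erase _ _ (Finset.mem_erase.2 ⟨hab.symm, Finset.mem_univ b⟩),
      ← Finset.add_sum_erase _ _ (Finset.mem_erase.2 ⟨hbd.symm, Finset.mem_erase.2 ⟨had.symm, Finset.mem_univ d⟩⟩)]
    ring
  have h4 := hsplit (fun i => (m i - m₂ i) * (m i - m₂ i))
  rw [e1, h2a, h2b, h2d, ← h3, ← h1] at h4
  have h5 : 0 ≤ ∑ i ∈ ((Finset.univ.erase a).erase b).erase d, (m i - m₂ i) * (m i - m₂ i) :=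
    Finset.sum_nonneg fun i _ => mul_self_nonneg _
  have h6 := hn a
  have h7 : m a < 2 := by nlinarith
  have h8 : m a = 0 ∨ m a = 1 := by omega
  rcases h8 with h8 | h8
  · rw [← h1, h8]
  · exfalso
    rw [h8] at h4
    have h9 : ∑ i ∈ ((Finset.univ.erase a).erase b).erase d, (m i - m₂ i) * (m i - m₂ i) = 0 := by linarith
    have h10 := (Finset.sum_eq_zero_iff_of_nonneg (fun i _ => mul_self_nonneg (m i - m₂ i))).1 h9
    have h11 : ∑ i, (m i - m₂ i) * deg i = 0 := by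
      simp only [sub_mul, Finset.sum_sub_distrib, hd, sub_self]
    have h12 := hsplit (fun i => (m i - m₂ i) * deg i)
    rw [h11, h2a, h2b, h2d, ← h3, ← h1, h8] at h12
    have h13 : ∑ i ∈ ((Finset.univ.erase a).erase b).erase d, (m i - m₂ i) * deg i = 0 := by
      apply Finset.sum_eq_zero
      intro i hi
      rw [mul_self_eq_zero.1 (h10 i hi), zero_mul]
    rw [h13] at h12
    have := hdeg b
    have := hdeg d
    linarith

end H79.GramComb
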