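import Mathlib
import Cfsg.Prelude.Def_Characters
import Cfsg.Agent.Lib.H4.FrobSchur
import Cfsg.Agent.Lib.H18.CharInd

/-! Multiplicities of the characters induced from linear characters (Hecke algebra / Frobenius--Schur). -/

set_option autoImplicit false
set_option linter.unusedSectionVars false
set_option linter.unusedVariables false
set_option linter.style.haveILetI false
open Cfsg H18.CharOrtho H18.CharInd H18.CharBasic
open scoped ComplexConjugate

namespace H79.Hecke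

universe u

variable {G : Type u} [Group G] [Fintype G] (L : Subgroup G) [Fintype L]

/-- the linear character as a function -/
def fn {L : Subgroup G} (μ : L →* ℂˣ) : L → ℂ := fun x => (μ x : ℂ)

theorem fn_apply {L : Subgroup G} (μ : L →* ℂˣ) (x : L) : fn μ x = (μ x : ℂ) := rfl

theorem fn_class {L : Subgroup G} (μ : L →* ℂˣ) : IsClassFunction L (fn μ) := by
  intro x y
  rw [fn_apply, fn_apply, map_mul, map_mul, map_inv, mul_comm (μ y) (μ x), mul_inv_cancel_right]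

theorem norm_fn {L : Subgroup G} (μ : L →* ℂˣ) (x : L) : ‖fn μ x‖ = 1 := by
  rw [fn_apply]
  apply Complex.norm_eq_one_of_pow_eq_one (n := Nat.card L)
  · rw [← Units.val_pow_eq_pow_val, ← map_pow, pow_card_eq_one', map_one, Units.val_one]
  · exact Nat.card_pos.ne'

theorem fn_conj {L : Subgroup G} (μ : L →* ℂˣ) (x : L) : fn μ x * conj (fn μ x) = 1 := by
  rw [Complex.mul_conj, Complex.normSq_eq_norm_sq, norm_fn]; norm_num

theorem conj_fn {L : Subgroup G} (μ : L →* ℂˣ) (x : L) : conj (fn μ x) = fn μ x⁻¹ := by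
  have h1 := fn_conj μ x
  have h2 : fn μ x * fn μ x⁻¹ = 1 := by
    rw [fn_apply, fn_apply, ← Units.val_mul, ← map_mul, mul_inv_cancel, map_one, Units.val_one]
  have h3 : fn μ x ≠ 0 := by rw [fn_apply]; exact Units.ne_zero _
  exact mul_left_cancel₀ h3 (h1.trans h2.symm)

theorem fn_mul {L : Subgroup G} (μ : L →* ℂˣ) (x y : L) : fn μ (x * y) = fn μ x * fn μ y := by
  rw [fn_apply, fn_apply, fn_apply, map_mul, Units.val_mul]

theorem fn_one {L : Subgroup G} (μ : L →* ℂˣ) : fn μ 1 = 1 := by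
  rw [fn_apply, map_one, Units.val_one]

theorem fn_char {L : Subgroup G} (μ : L →* ℂˣ) : IsCharacter L (fn μ) := by
  exact isCharacter_of_isIrr (isIrrCharacter_of_hom μ)

theorem fn_irr {L : Subgroup G} (μ : L →* ℂˣ) : IsIrrCharacter L (fn μ) := isIrrCharacter_of_hom μ

theorem exists_mult (μ : L →* ℂˣ) (χ : IrrCharacter G) :
    ∃ n : ℕ, classInner (fun h : L => (χ : G → ℂ) h) (fn μ) = n :=
  inner_char_natCast (isCharacter_restrict L (isCharacter_of_isIrr χ.2)) (fn_char μ)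

/-- the multiplicity of `μ` in the restriction -/
noncomputable def mu (μ : L →* ℂˣ) (χ : IrrCharacter G) : ℕ := (exists_mult L μ χ).choose

theorem mu_spec (μ : L →* ℂˣ) (χ : IrrCharacter G) :
    classInner (fun h : L => (χ : G → ℂ) h) (fn μ) = mu L μ χ := (exists_mult L μ χ).choose_spec

theorem mu_ind (μ : L →* ℂˣ) (χ : IrrCharacter G) :
    classInner (χ : G → ℂ) (indFun L (fn μ)) = mu L μ χ := by
  rw [frobenius' L (fn μ) (isClassFunction_of_isCharacter (isCharacter_of_isIrr χ.2)), mu_spec]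

theorem mu_ind' (μ : L →* ℂˣ) (χ : IrrCharacter G) :
    classInner (indFun L (fn μ)) (χ : G → ℂ) = mu L μ χ := by
  rw [← H18.CharOrtho.inner_conj_symm, mu_ind, Complex.conj_natCast]

/-- the local intertwining number -/
noncomputable def FF (μ μ' : L →* ℂˣ) (x : G) : ℂ :=
  ∑ h : L, fn μ h * conj (extendByZero L (fn μ') (x⁻¹ * h * x))

theorem inner_ind (μ μ' : L →* ℂˣ) : classInner (indFun L (fn μ)) (indFun L (fn μ')) =
    (Nat.card L : ℂ)⁻¹ * ((Nat.card L : ℂ)⁻¹ * ∑ x : G, FF L μ μ' x) := by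
  rw [frobenius L (fn μ) (isClassFunction_indFun L _), classInner]
  congr 1
  have h1 : ∀ h : L, fn μ h * conj (indFun L (fn μ') h) =
      (Nat.card L : ℂ)⁻¹ * ∑ x : G, fn μ h * conj (extendByZero L (fn μ') (x⁻¹ * h * x)) := by
    intro h
    rw [indFun_apply, map_mul, map_inv₀, Complex.conj_natCast, map_sum, ← Finset.mul_sum]
    ring
  rw [Finset.sum_congr rfl (fun h _ => h1 h), ← Finset.mul_sum, Finset.sum_comm]
  rfl

theorem sum_mu [Fintype (IrrCharacter G)] (μ μ' : L →* ℂˣ) :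
    ∑ χ : IrrCharacter G, (mu L μ χ : ℂ) * (mu L μ' χ : ℂ) =
      (Nat.card L : ℂ)⁻¹ * ((Nat.card L : ℂ)⁻¹ * ∑ x : G, FF L μ μ' x) := by
  rw [← inner_ind, parseval (isClassFunction_indFun L _)]
  refine Finset.sum_congr rfl fun χ _ => ?_
  rw [mu_ind', mu_ind', Complex.conj_natCast]

theorem FF_mul_right (μ μ' : L →* ℂˣ) (x : G) (l : L) : FF L μ μ' (x * l) = FF L μ μ' x := by
  unfold FF
  refine Finset.sum_congr rfl fun h _ => ?_
  congr 2
  have h1 : (x * (l : G))⁻¹ * (h : G) * (x * l) = (l : G)⁻¹ * (x⁻¹ * h * x) * l := by group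
  rw [h1, ext_conj_mem' L (fn_class μ') l.2]

/-- the local Frobenius--Schur number -/
noncomputable def RR (μ : L →* ℂˣ) (x : G) : ℂ :=
  ∑ l : L, conj (extendByZero L (fn μ) (x * l * (x * l)))

theorem RR_mul_right (μ : L →* ℂˣ) (x : G) (l : L) : RR L μ (x * l) = RR L μ x := by
  unfold RR
  refine Fintype.sum_equiv (Equiv.mulLeft l) _ _ fun k => ?_
  rw [Equiv.coe_mulLeft]
  simp only [Subgroup.coe_mul, mul_assoc]

/-- the Frobenius--Schur indicator -/
noncomputable def nu (χ : IrrCharacter G) : ℂ := (Nat.card G : ℂ)⁻¹ * ∑ s : G, (χ : G → ℂ) (s * s)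

theorem sum_nu [Fintype (IrrCharacter G)] (μ : L →* ℂˣ) :
    ∑ χ : IrrCharacter G, nu χ * (mu L μ χ : ℂ) =
      (Nat.card L : ℂ)⁻¹ * ((Nat.card L : ℂ)⁻¹ * ∑ x : G, RR L μ x) := by
  classical
  have hc : (Nat.card L : ℂ) ≠ 0 := by exact_mod_cast (Nat.card_pos (α := L)).ne'
  have h1 : ∑ χ : IrrCharacter G, nu χ * (mu L μ χ : ℂ) =
      (Nat.card L : ℂ)⁻¹ * ∑ l : L, (Nat.card {s : G // s * s = (l : G)} : ℂ) * conj (fn μ l) := by
    have h2 : ∀ χ : IrrCharacter G, nu χ * (mu L μ χ : ℂ) =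
        (Nat.card L : ℂ)⁻¹ * ∑ l : L, nu χ * (χ : G → ℂ) l * conj (fn μ l) := by
      intro χ
      rw [← mu_spec, classInner, Finset.mul_sum, Finset.mul_sum, Finset.mul_sum]
      refine Finset.sum_congr rfl fun l _ => ?_
      ring
    rw [Finset.sum_congr rfl (fun χ _ => h2 χ), ← Finset.mul_sum, Finset.sum_comm]
    congr 1
    refine Finset.sum_congr rfl fun l _ => ?_
    rw [H4.FrobSchur.card_sqrt_eq (l : G), Finset.sum_mul]
    rfl
  rw [h1]
  congr 1
  have h3 : ∑ l : L, (Nat.card {s : G // s * s = (l : G)} : ℂ) * conj (fn μ l) =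
      ∑ s : G, conj (extendByZero L (fn μ) (s * s)) := by
    have h4 : ∀ l : L, (Nat.card {s : G // s * s = (l : G)} : ℂ) * conj (fn μ l) =
        ∑ s : G, if s * s = (l : G) then conj (fn μ l) else 0 := by
      intro l
      rw [← Finset.sum_filter, Finset.sum_const, nsmul_eq_mul, Nat.card_eq_fintype_card,
        Fintype.card_subtype]
    rw [Finset.sum_congr rfl (fun l _ => h4 l), Finset.sum_comm]
    refine Finset.sum_congr rfl fun s _ => ?_
    by_cases hs : s * s ∈ L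
    · rw [ext_mem L _ hs, Finset.sum_eq_single ⟨s * s, hs⟩]
      · rw [if_pos rfl]
      · intro l _ hl
        rw [if_neg]
        intro h
        exact hl (Subtype.ext h.symm)
      · intro h; exact absurd (Finset.mem_univ _) h
    · rw [ext_notMem L _ hs, map_zero]
      apply Finset.sum_eq_zero
      intro l _
      rw [if_neg]
      intro h
      exact hs (h ▸ l.2)
  rw [h3]
  have h5 : ∑ x : G, RR L μ x = (Nat.card L : ℂ) * ∑ s : G, conj (extendByZero L (fn μ) (s * s)) := by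
    unfold RR
    rw [Finset.sum_comm]
    have h6 : ∀ l : L, ∑ x : G, conj (extendByZero L (fn μ) (x * l * (x * l))) =
        ∑ s : G, conj (extendByZero L (fn μ) (s * s)) := fun l =>
      Fintype.sum_equiv (Equiv.mulRight (l : G)) _ _ fun x => rfl
    rw [Finset.sum_congr rfl (fun l _ => h6 l), Finset.sum_const, nsmul_eq_mul,
      Nat.card_eq_fintype_card, Finset.card_univ]
  rw [h5, ← mul_assoc, inv_mul_cancel₀ hc, one_mul]

theorem FF_eq_RR {μ : L →* ℂˣ} (hreal : ∀ x, μ x * μ x = 1) {s : G} (hs : s * s = 1) :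
    FF L μ μ s = RR L μ s := by
  have hsi : s⁻¹ = s := inv_eq_of_mul_eq_one_left hs
  unfold FF RR
  refine Finset.sum_congr rfl fun h _ => ?_
  have hself : conj (fn μ h) = fn μ h := by
    rw [conj_fn]
    rw [fn_apply, fn_apply, map_inv, inv_eq_of_mul_eq_one_left (hreal h)]
  have e1 : s⁻¹ * (h : G) * s = s * h * s := by rw [hsi]
  have e2 : s * (h : G) * (s * h) = (s * h * s) * h := by simp only [mul_assoc]
  rw [e1, e2]
  by_cases hm : s * (h : G) * s ∈ L
  · rw [ext_mem L _ hm, ext_mem L _ (L.mul_mem hm h.2)]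
    have : (⟨s * (h : G) * s * h, L.mul_mem hm h.2⟩ : L) = ⟨s * (h : G) * s, hm⟩ * h := rfl
    rw [this, fn_mul, map_mul, hself, mul_comm]
  · rw [ext_notMem L _ hm, ext_notMem L _ (fun h' => hm ?_), map_zero, mul_zero]
    have := L.mul_mem h' (L.inv_mem h.2)
    rwa [mul_inv_cancel_right] at this

/-- multiplicity one -/
theorem mult_one {μ : L →* ℂˣ} (hreal : ∀ x, μ x * μ x = 1)
    (h : ∀ g : G, (∃ l : L, (g * l) * (g * l) = 1) ∨ (FF L μ μ g = 0 ∧ RR L μ g = 0))
    (χ : IrrCharacter G) : mu L μ χ = 0 ∨ (mu L μ χ = 1 ∧ nu χ = 1) := by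
  classical
  letI := Fintype.ofFinite (IrrCharacter G)
  have h1 : ∀ g : G, FF L μ μ g = RR L μ g := by
    intro g
    rcases h g with ⟨l, hl⟩ | ⟨h2, h3⟩
    · rw [← FF_mul_right L μ μ g l, ← RR_mul_right L μ g l, FF_eq_RR L hreal hl]
    · rw [h2, h3]
  have h2 := sum_mu L μ μ
  rw [Finset.sum_congr rfl (fun g _ => h1 g), ← sum_nu] at h2
  have hn : ∀ ψ : IrrCharacter G, ∃ n : ℤ, nu ψ = n ∧ (n = 0 ∨ n = 1 ∨ n = -1) := by
    intro ψ
    rcases (H4.FrobSchur.indicator ψ.2).1 with h | h | h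
    · exact ⟨0, by rw [nu, h]; simp, Or.inl rfl⟩
    · exact ⟨1, by rw [nu, h]; simp, Or.inr (Or.inl rfl)⟩
    · exact ⟨-1, by rw [nu, h]; simp, Or.inr (Or.inr rfl)⟩
  choose n hn1 hn2 using hn
  have h3 : ∑ ψ : IrrCharacter G, ((mu L μ ψ : ℤ) * (mu L μ ψ : ℤ) - n ψ * (mu L μ ψ : ℤ)) = 0 := by
    rw [Finset.sum_sub_distrib, sub_eq_zero]
    have h4 : ((∑ ψ : IrrCharacter G, (mu L μ ψ : ℤ) * (mu L μ ψ : ℤ) : ℤ) : ℂ) =
        ((∑ ψ : IrrCharacter G, n ψ * (mu L μ ψ : ℤ) : ℤ) : ℂ) := by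
      push_cast
      rw [h2]
      refine Finset.sum_congr rfl fun ψ _ => ?_
      rw [hn1]
    exact_mod_cast h4
  have h5 : ∀ ψ ∈ (Finset.univ : Finset (IrrCharacter G)),
      0 ≤ (mu L μ ψ : ℤ) * (mu L μ ψ : ℤ) - n ψ * (mu L μ ψ : ℤ) := by
    intro ψ _
    rcases Nat.eq_zero_or_pos (mu L μ ψ) with h6 | h6
    · rw [h6]; simp
    · have h7 : (1 : ℤ) ≤ mu L μ ψ := by exact_mod_cast h6
      rcases hn2 ψ with h8 | h8 | h8 <;> rw [h8] <;> nlinarith
  have h6 := (Finset.sum_eq_zero_iff_of_nonneg h5).1 h3 χ (Finset.mem_univ _)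
  rcases Nat.eq_zero_or_pos (mu L μ χ) with h7 | h7
  · left; exact h7
  · right
    have h8 : (1 : ℤ) ≤ mu L μ χ := by exact_mod_cast h7
    have h9 : ((mu L μ χ : ℤ) - n χ) * (mu L μ χ : ℤ) = 0 := by linarith
    have h10 : (mu L μ χ : ℤ) = n χ := by
      rcases mul_eq_zero.1 h9 with h | h
      · linarith
      · omega
    have h11 : n χ = 1 := by
      rcases hn2 χ with h | h | h <;> omega
    refine ⟨?_, ?_⟩
    · rw [h11] at h10; exact_mod_cast h10
    · rw [hn1, h11, Int.cast_one]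

theorem FF_one (μ : L →* ℂˣ) : FF L μ μ 1 = (Nat.card L : ℂ) := by
  unfold FF
  have h1 : ∀ h : L, fn μ h * conj (extendByZero L (fn μ) ((1 : G)⁻¹ * h * 1)) = 1 := by
    intro h
    have e : (1 : G)⁻¹ * (h : G) * 1 = h := by group
    rw [e, ext_coe, fn_conj]
  rw [Finset.sum_congr rfl (fun h _ => h1 h), Finset.sum_const, nsmul_eq_mul, mul_one,
    Nat.card_eq_fintype_card, Finset.card_univ]

theorem FF_eq_zero {μ μ' : L →* ℂˣ} {x : G} (d : L) (hd : x⁻¹ * (d : G) * x ∈ L)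
    (hne : μ d ≠ μ' ⟨x⁻¹ * (d : G) * x, hd⟩) : FF L μ μ' x = 0 := by
  set c : ℂ := fn μ d * conj (fn μ' ⟨x⁻¹ * (d : G) * x, hd⟩) with hc
  have h1 : FF L μ μ' x = c * FF L μ μ' x := by
    conv_lhs => unfold FF
    rw [← Equiv.sum_comp (Equiv.mulLeft d)]
    unfold FF
    rw [Finset.mul_sum]
    refine Finset.sum_congr rfl fun h _ => ?_
    rw [Equiv.coe_mulLeft, fn_mul]
    have e : x⁻¹ * ((d * h : L) : G) * x = (x⁻¹ * (d : G) * x) * (x⁻¹ * (h : G) * x) := by
      rw [Subgroup.coe_mul]; group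
    rw [e]
    by_cases hm : x⁻¹ * (h : G) * x ∈ L
    · rw [ext_mem L _ (L.mul_mem hd hm), ext_mem L _ hm]
      have e2 : (⟨(x⁻¹ * (d : G) * x) * (x⁻¹ * (h : G) * x), L.mul_mem hd hm⟩ : L) =
        ⟨x⁻¹ * (d : G) * x, hd⟩ * ⟨x⁻¹ * (h : G) * x, hm⟩ := rfl
      rw [e2, fn_mul, map_mul, hc]
      ring
    · rw [ext_notMem L _ hm, ext_notMem L _ (fun h' => hm ?_), map_zero, mul_zero, mul_zero, mul_zero]
      have := L.mul_mem (L.inv_mem hd) h'
      rwa [inv_mul_cancel_left] at this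
  have hc1 : c ≠ 1 := by
    intro h2
    apply hne
    rw [hc] at h2
    have h3 := fn_conj μ' ⟨x⁻¹ * (d : G) * x, hd⟩
    have h4 : conj (fn μ' ⟨x⁻¹ * (d : G) * x, hd⟩) ≠ 0 := by
      intro h0
      rw [h0, mul_zero] at h3
      exact zero_ne_one h3
    have h5 := mul_right_cancel₀ h4 (h2.trans h3.symm)
    rw [fn_apply, fn_apply] at h5
    exact Units.ext h5
  have h2 : (1 - c) * FF L μ μ' x = 0 := by rw [sub_mul, one_mul, sub_eq_zero]; exact h1
  rcases mul_eq_zero.1 h2 with h3 | h3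
  · exact absurd (sub_eq_zero.1 h3).symm hc1
  · exact h3

theorem FF_eq_card {μ μ' : L →* ℂˣ} {x : G}
    (h : ∀ (d : L) (hd : x⁻¹ * (d : G) * x ∈ L), μ d = μ' ⟨x⁻¹ * (d : G) * x, hd⟩) :
    FF L μ μ' x = (Nat.card {l : L // x⁻¹ * (l : G) * x ∈ L} : ℂ) := by
  classical
  unfold FF
  have h1 : ∀ l : L, fn μ l * conj (extendByZero L (fn μ') (x⁻¹ * l * x)) =
      if x⁻¹ * (l : G) * x ∈ L then 1 else 0 := by
    intro l
    split_ifs with hm
    · rw [ext_mem L _ hm, fn_apply, h l hm, ← fn_apply, fn_conj]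
    · rw [ext_notMem L _ hm, map_zero, mul_zero]
  rw [Finset.sum_congr rfl (fun l _ => h1 l), Finset.sum_boole, Nat.card_eq_fintype_card,
    Fintype.card_subtype]

/-- a character with indicator one is real -/
theorem real_of_nu {χ : IrrCharacter G} (h : nu χ = 1) (g : G) : conj ((χ : G → ℂ) g) = (χ : G → ℂ) g := by
  have h1 := (H4.FrobSchur.indicator χ.2).2
  have h2 : ¬ ∃ s : G, ((χ : G → ℂ) s).im ≠ 0 := by
    rw [← h1]
    intro h3
    have : nu χ = 0 := h3
    rw [h] at this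
    exact one_ne_zero this
  push Not at h2
  exact Complex.conj_eq_iff_im.2 (h2 g)

end H79.Hecke
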