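import Mathlib

/-! A group of order 9 acting faithfully on an elementary abelian group of order 16. -/

set_option autoImplicit false

namespace H79.HexAct

variable {P : Type*} [CommGroup P] [Finite P]

theorem comm_nine {A : Type*} [Group A] (hA : Nat.card A = 9) (x y : A) : x * y = y * x := by
  have h : IsMulCommutative A := IsPGroup.isMulCommutative_of_card_eq_prime_sq (p := 3) (by rw [hA]; norm_num)
  exact mul_comm' x y

/-- an automorphism of odd order of a four-group fixing an involution is trivial -/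
theorem fix_four (hexp : ∀ x : P, x * x = 1) (U : Subgroup P) (hU : Nat.card U = 4) (φ : MulAut P)
    (hinv : ∀ x ∈ U, φ x ∈ U) {n : ℕ} (hn : φ ^ n = 1) (hodd : Odd n) {u : P} (hu : u ∈ U) (hu1 : u ≠ 1)
    (hfix : φ u = u) : ∀ x ∈ U, φ x = x := by
  classical
  intro x hx
  by_cases hx1 : x = 1
  · rw [hx1, map_one]
  by_cases hxu : x = u
  · rw [hxu, hfix]
  have hcard : ({1, u, x, u * x} : Finset P).card = 4 := by
    rw [Finset.card_insert_of_notMem, Finset.card_insert_of_notMem, Finset.card_insert_of_notMem,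
      Finset.card_singleton]
    · rw [Finset.mem_singleton]
      intro h
      exact hu1 (mul_eq_right.1 h.symm)
    · rw [Finset.mem_insert, Finset.mem_singleton, not_or]
      refine ⟨fun h => hxu h.symm, fun h => hx1 (mul_eq_left.1 h.symm)⟩
    · rw [Finset.mem_insert, Finset.mem_insert, Finset.mem_singleton, not_or, not_or]
      refine ⟨fun h => hu1 h.symm, fun h => hx1 h.symm, fun h => ?_⟩
      apply hxu
      have h1 : u * (u * x) = u * 1 := by rw [← h]
      rw [← mul_assoc, hexp u, one_mul, mul_one] at h1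
      exact h1
  have hmem : ∀ y ∈ U, y = 1 ∨ y = u ∨ y = x ∨ y = u * x := by
    have hsub : ((({1, u, x, u * x} : Finset P) : Set P)) ⊆ (U : Set P) := by
      intro y hy
      simp only [Finset.coe_insert, Finset.coe_singleton, Set.mem_insert_iff, Set.mem_singleton_iff] at hy
      rcases hy with rfl | rfl | rfl | rfl
      · exact U.one_mem
      · exact hu
      · exact hx
      · exact U.mul_mem hu hx
    have heq : ((({1, u, x, u * x} : Finset P) : Set P)) = (U : Set P) := by
      apply Set.eq_of_subset_of_ncard_le hsub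
      rw [Set.ncard_coe_finset, hcard]
      exact hU.le
    intro y hy
    have : y ∈ ((({1, u, x, u * x} : Finset P) : Set P)) := by rw [heq]; exact hy
    simpa using this
  have key : φ x = x ∨ φ x = u * x := by
    rcases hmem _ (hinv x hx) with h | h | h | h
    · exfalso; apply hx1; exact φ.injective (by rw [h, map_one])
    · exfalso; apply hxu; exact φ.injective (by rw [h, hfix])
    · exact Or.inl h
    · exact Or.inr h
  rcases key with h | h
  · exact h
  · exfalso
    have h2 : ∀ k : ℕ, (φ ^ (2 * k)) x = x := by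
      intro k
      induction k with
      | zero => simp
      | succ k ih =>
        rw [mul_add, pow_add, MulAut.mul_apply, mul_one, sq, MulAut.mul_apply, h, map_mul, hfix, h, ← mul_assoc,
          hexp u, one_mul, ih]
    obtain ⟨k, hk⟩ := hodd
    have h3 : (φ ^ n) x = u * x := by
      rw [hk, pow_add, pow_one, MulAut.mul_apply, h, map_mul, h2 k]
      have h4 : ∀ k : ℕ, (φ ^ k) u = u := by
        intro k
        induction k with
        | zero => simp
        | succ k ih => rw [pow_succ, MulAut.mul_apply, hfix, ih]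
      rw [h4]
    rw [hn, MulAut.one_apply] at h3
    exact hu1 (mul_eq_right.1 h3.symm)

theorem exists_decomp (hP : Nat.card P = 16) (hexp : ∀ x : P, x * x = 1) (A : Subgroup (MulAut P))
    (hA : Nat.card A = 9) :
    ∃ U V : Subgroup P, Nat.card U = 4 ∧ Nat.card V = 4 ∧ U ⊓ V = ⊥ ∧
      (∀ φ ∈ A, ∀ u ∈ U, φ u ∈ U) ∧ (∀ φ ∈ A, ∀ v ∈ V, φ v ∈ V) := by
  classical
  letI := Fintype.ofFinite P
  have hPc : Fintype.card P = 16 := by rw [← Nat.card_eq_fintype_card, hP]
  haveI : Finite A := Nat.finite_of_card_ne_zero (by rw [hA]; norm_num)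
  letI := Fintype.ofFinite A
  have hcomm : ∀ φ ∈ A, ∀ ψ ∈ A, φ * ψ = ψ * φ := by
    intro φ hφ ψ hψ
    have := comm_nine hA ⟨φ, hφ⟩ ⟨ψ, hψ⟩
    exact congrArg Subtype.val this
  have h9 : ∀ φ ∈ A, φ ^ 9 = 1 := by
    intro φ hφ
    have : (⟨φ, hφ⟩ : A) ^ 9 = 1 := by rw [← hA]; exact pow_card_eq_one'
    exact congrArg Subtype.val this
  -- an element with fixed points
  have hex : ∃ α ∈ A, α ≠ 1 ∧ ∃ x : P, x ≠ 1 ∧ α x = x := by
    by_contra hcon
    push Not at hcon
    have hinj : ∀ x : P, x ≠ 1 → Function.Injective (fun φ : A => (φ : MulAut P) x) := by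
      intro x hx φ ψ h
      by_contra hne
      refine hcon (ψ⁻¹ * φ : A) (ψ⁻¹ * φ : A).2 ?_ x hx ?_
      · intro h1
        apply hne
        have : ψ⁻¹ * φ = 1 := Subtype.ext h1
        exact (inv_mul_eq_one.1 this).symm
      · show ((ψ : MulAut P)⁻¹ * (φ : MulAut P)) x = x
        have h' : (φ : MulAut P) x = (ψ : MulAut P) x := h
        rw [MulAut.mul_apply, h', MulAut.inv_apply_self]
    have hAc : Fintype.card A = 9 := by rw [← Nat.card_eq_fintype_card, hA]
    have hne1 : ∀ x : P, x ≠ 1 → ∀ φ : MulAut P, φ x ≠ 1 := by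
      intro x hx φ h
      exact hx (φ.injective (by rw [h, map_one]))
    haveI : Nontrivial P := by
      apply Fintype.one_lt_card_iff_nontrivial.1
      rw [hPc]; norm_num
    obtain ⟨x, hx⟩ := exists_ne (1 : P)
    set O := Finset.univ.image (fun φ : A => (φ : MulAut P) x) with hO
    have hOc : O.card = 9 := by rw [hO, Finset.card_image_of_injective _ (hinj x hx), Finset.card_univ, hAc]
    have h1O : (1 : P) ∉ O := by
      intro h
      obtain ⟨φ, -, h⟩ := Finset.mem_image.1 h
      exact hne1 x hx _ h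
    have : ∃ y : P, y ∉ insert 1 O := by
      by_contra hall
      push Not at hall
      have h1 : (insert 1 O) = Finset.univ := Finset.eq_univ_of_forall hall
      have h2 := congrArg Finset.card h1
      rw [Finset.card_insert_of_notMem h1O, hOc, Finset.card_univ, hPc] at h2
      norm_num at h2
    obtain ⟨y, hy⟩ := this
    rw [Finset.mem_insert, not_or] at hy
    set O' := Finset.univ.image (fun φ : A => (φ : MulAut P) y) with hO'
    have hOc' : O'.card = 9 := by rw [hO', Finset.card_image_of_injective _ (hinj y hy.1), Finset.card_univ, hAc]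
    have hdisj : Disjoint O O' := by
      rw [Finset.disjoint_left]
      intro z hz hz'
      obtain ⟨φ, -, h1⟩ := Finset.mem_image.1 hz
      obtain ⟨ψ, -, h2⟩ := Finset.mem_image.1 hz'
      apply hy.2
      rw [hO, Finset.mem_image]
      refine ⟨ψ⁻¹ * φ, Finset.mem_univ _, ?_⟩
      show ((ψ : MulAut P)⁻¹ * (φ : MulAut P)) x = y
      have h1' : (φ : MulAut P) x = z := h1
      have h2' : (ψ : MulAut P) y = z := h2
      rw [MulAut.mul_apply, h1', ← h2', MulAut.inv_apply_self]
    have h3 := Finset.card_union_of_disjoint hdisj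
    have h4 : (O ∪ O').card ≤ Fintype.card P := Finset.card_le_univ _
    rw [h3, hOc, hOc', hPc] at h4
    norm_num at h4
  obtain ⟨α, hαA, hα1, x, hx1, hαx⟩ := hex
  have hα9 := h9 α hαA
  -- the homomorphism `x ↦ x⁻¹ α x`
  let β : P →* P :=
    { toFun := fun x => x⁻¹ * α x
      map_one' := by simp
      map_mul' := fun x y => by rw [map_mul, mul_inv]; exact mul_mul_mul_comm _ _ _ _ }
  have hβ : ∀ x, β x = x⁻¹ * α x := fun _ => rfl
  have hker : ∀ y, y ∈ β.ker ↔ α y = y := by
    intro y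
    rw [MonoidHom.mem_ker, hβ, inv_mul_eq_one]
    exact eq_comm
  have hU4 : Nat.card β.ker = 4 := by
    have hpg : IsPGroup 3 (Subgroup.zpowers α) := by
      have h1 : orderOf α ∣ 3 ^ 2 := by
        rw [show 3 ^ 2 = 9 by norm_num]; exact orderOf_dvd_of_pow_eq_one hα9
      obtain ⟨j, -, hj⟩ := (Nat.dvd_prime_pow Nat.prime_three).1 h1
      exact IsPGroup.of_card (n := j) (by rw [Nat.card_zpowers, hj])
    haveI : Fact (Nat.Prime 3) := ⟨Nat.prime_three⟩
    have h1 := hpg.card_modEq_card_fixedPoints P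
    have h2 : Nat.card (MulAction.fixedPoints (Subgroup.zpowers α) P) = Nat.card β.ker := by
      apply Nat.card_congr
      refine Equiv.subtypeEquivRight ?_
      intro y
      rw [hker y]
      constructor
      · intro h
        exact h ⟨α, Subgroup.mem_zpowers α⟩
      · rintro h ⟨φ, hφ⟩
        obtain ⟨k, rfl⟩ := Subgroup.mem_zpowers_iff.1 hφ
        show (α ^ k) y = y
        have h3 : ∀ n : ℕ, (α ^ n) y = y := by
          intro n
          induction n with
          | zero => simp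
          | succ n ih => rw [pow_succ, MulAut.mul_apply, h, ih]
        obtain ⟨n, rfl | rfl⟩ := k.eq_nat_or_neg
        · rw [zpow_natCast]; exact h3 n
        · rw [zpow_neg, zpow_natCast]
          have := h3 n
          conv_lhs => rw [← this]
          rw [MulAut.inv_apply_self]
    rw [h2, hP] at h1
    have h3 : Nat.card β.ker ∣ 2 ^ 4 := by
      rw [show 2 ^ 4 = 16 by norm_num, ← hP]; exact Subgroup.card_subgroup_dvd_card _
    obtain ⟨j, hj4, hj⟩ := (Nat.dvd_prime_pow Nat.prime_two).1 h3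
    rw [hj] at h1
    have hne0 : j ≠ 0 := by
      rintro rfl
      rw [pow_zero, Subgroup.card_eq_one] at hj
      have : x ∈ β.ker := (hker x).2 hαx
      rw [hj, Subgroup.mem_bot] at this
      exact hx1 this
    have hne4 : j ≠ 4 := by
      rintro rfl
      have h5 : β.ker = ⊤ := by
        rw [← Subgroup.card_eq_iff_eq_top, hj, hP]; norm_num
      apply hα1
      ext y
      have : y ∈ β.ker := by rw [h5]; trivial
      rw [(hker y).1 this]; rfl
    have : j = 1 ∨ j = 2 ∨ j = 3 := by omega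
    rcases this with rfl | rfl | rfl
    · exfalso; revert h1; decide
    · rw [hj]; norm_num
    · exfalso; revert h1; decide
  refine ⟨β.ker, β.range, hU4, ?_, ?_, ?_, ?_⟩
  · have h1 := Subgroup.card_mul_index β.ker
    rw [Subgroup.index_ker, hU4, hP] at h1
    omega
  · rw [eq_bot_iff]
    rintro y ⟨hy1, hy2⟩
    obtain ⟨z, rfl⟩ := hy2
    set y := β z with hy
    have h1 : α y = y := (hker y).1 hy1
    have h2 : α z = z * y := by rw [hy, hβ, mul_inv_cancel_left]
    have h3 : ∀ n : ℕ, (α ^ n) z = z * y ^ n := by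
      intro n
      induction n with
      | zero => simp
      | succ n ih =>
        rw [pow_succ', MulAut.mul_apply, ih, map_mul, h2, map_pow, h1, pow_succ']
        exact mul_assoc _ _ _
    have h4 := h3 9
    rw [hα9, MulAut.one_apply] at h4
    have h5 : y ^ 9 = 1 := mul_eq_left.1 h4.symm
    rw [Subgroup.mem_bot]
    calc y = y ^ 9 * (y * y)⁻¹ ^ 4 := by group
      _ = 1 := by rw [h5, hexp y]; group
  · intro φ hφ u hu
    rw [hker] at hu ⊢
    have := congrArg (fun ψ : MulAut P => ψ u) (hcomm α hαA φ hφ)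
    simp only [MulAut.mul_apply] at this
    rw [this, hu]
  · rintro φ hφ _ ⟨z, rfl⟩
    refine ⟨φ z, ?_⟩
    rw [hβ, hβ, map_mul, map_inv]
    have := congrArg (fun ψ : MulAut P => ψ z) (hcomm α hαA φ hφ)
    simp only [MulAut.mul_apply] at this
    rw [this]

theorem main (hP : Nat.card P = 16) (hexp : ∀ x : P, x * x = 1) (A : Subgroup (MulAut P))
    (hA : Nat.card A = 9) :
    ∃ U V : Subgroup P, Nat.card U = 4 ∧ Nat.card V = 4 ∧ U ⊓ V = ⊥ ∧
      (∀ φ ∈ A, ∀ u ∈ U, φ u ∈ U) ∧ (∀ φ ∈ A, ∀ v ∈ V, φ v ∈ V) ∧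
      (∀ φ ∈ A, ∀ u ∈ U, u ≠ 1 → φ u = u → ∀ x ∈ U, φ x = x) ∧
      (∀ φ ∈ A, ∀ v ∈ V, v ≠ 1 → φ v = v → ∀ x ∈ V, φ x = x) ∧
      (∀ φ ∈ A, ∀ u ∈ U, ∀ v ∈ V, u ≠ 1 → v ≠ 1 → φ u = u → φ v = v → φ = 1) ∧
      (∀ u ∈ U, ∀ v ∈ V, ∀ u' ∈ U, ∀ v' ∈ V, u ≠ 1 → v ≠ 1 → u' ≠ 1 → v' ≠ 1 →
        ∃ φ ∈ A, φ u = u' ∧ φ v = v') := by
  classical
  letI := Fintype.ofFinite P
  obtain ⟨U, V, hU, hV, hUV, hAU, hAV⟩ := exists_decomp hP hexp A hA
  haveI : Finite A := Nat.finite_of_card_ne_zero (by rw [hA]; norm_num)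
  letI := Fintype.ofFinite A
  have h9 : ∀ φ ∈ A, φ ^ 9 = 1 := by
    intro φ hφ
    have : (⟨φ, hφ⟩ : A) ^ 9 = 1 := by rw [← hA]; exact pow_card_eq_one'
    exact congrArg Subtype.val this
  have hodd : Odd 9 := by decide
  have fU : ∀ φ ∈ A, ∀ u ∈ U, u ≠ 1 → φ u = u → ∀ x ∈ U, φ x = x := fun φ hφ u hu hu1 hf =>
    fix_four hexp U hU φ (hAU φ hφ) (h9 φ hφ) hodd hu hu1 hf
  have fV : ∀ φ ∈ A, ∀ v ∈ V, v ≠ 1 → φ v = v → ∀ x ∈ V, φ x = x := fun φ hφ v hv hv1 hf =>
    fix_four hexp V hV φ (hAV φ hφ) (h9 φ hφ) hodd hv hv1 hf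
  have hsup : U ⊔ V = ⊤ := by
    rw [← Subgroup.card_eq_iff_eq_top]
    have h1 := Subgroup.card_mul_index (U ⊔ V)
    have h2 : U.relIndex (U ⊔ V) = 4 := by
      rw [sup_comm, Subgroup.relIndex_sup_right, ← Subgroup.inf_relIndex_right, hUV, Subgroup.relIndex_bot_left, hV]
    have h3 := Subgroup.relIndex_mul_relIndex ⊥ U (U ⊔ V) bot_le le_sup_left
    rw [Subgroup.relIndex_bot_left, Subgroup.relIndex_bot_left, h2, hU] at h3
    rw [hP, ← h3]
  have free : ∀ φ ∈ A, ∀ u ∈ U, ∀ v ∈ V, u ≠ 1 → v ≠ 1 → φ u = u → φ v = v → φ = 1 := by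
    intro φ hφ u hu v hv hu1 hv1 h1 h2
    ext x
    have hx : x ∈ U ⊔ V := by rw [hsup]; trivial
    obtain ⟨y, hy, z, hz, rfl⟩ := Subgroup.mem_sup.1 hx
    rw [map_mul, fU φ hφ u hu hu1 h1 y hy, fV φ hφ v hv hv1 h2 z hz]
    rfl
  refine ⟨U, V, hU, hV, hUV, hAU, hAV, fU, fV, free, ?_⟩
  intro u hu v hv u' hu' v' hv' hu1 hv1 hu1' hv1'
  -- count
  have hne1 : ∀ x : P, x ≠ 1 → ∀ φ : MulAut P, φ x ≠ 1 := by
    intro x hx φ h
    exact hx (φ.injective (by rw [h, map_one]))
  set T : Finset (P × P) := (Finset.univ.filter (fun x => x ∈ U ∧ x ≠ 1)) ×ˢ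
    (Finset.univ.filter (fun x => x ∈ V ∧ x ≠ 1)) with hT
  have hcU : ∀ W : Subgroup P, Nat.card W = 4 → (Finset.univ.filter (fun x => x ∈ W ∧ x ≠ 1)).card = 3 := by
    intro W hW
    have h1 : (Finset.univ.filter (fun x => x ∈ W ∧ x ≠ 1)) = (Finset.univ.filter (fun x => x ∈ W)).erase 1 := by
      ext y
      simp [and_comm]
    rw [h1, Finset.card_erase_of_mem (by simp [W.one_mem])]
    have h2 : (Finset.univ.filter (fun x => x ∈ W)).card = 4 := by
      rw [← hW, Nat.card_eq_fintype_card, Fintype.card_subtype]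
    rw [h2]
  have hTc : T.card = 9 := by
    rw [hT, Finset.card_product, hcU U hU, hcU V hV]
  have hAc : Fintype.card A = 9 := by rw [← Nat.card_eq_fintype_card, hA]
  have himg : Finset.univ.image (fun φ : A => ((φ : MulAut P) u, (φ : MulAut P) v)) = T := by
    apply Finset.eq_of_subset_of_card_le
    · intro w hw
      obtain ⟨φ, -, rfl⟩ := Finset.mem_image.1 hw
      rw [hT, Finset.mem_product, Finset.mem_filter, Finset.mem_filter]
      exact ⟨⟨Finset.mem_univ _, hAU φ φ.2 u hu, hne1 u hu1 _⟩,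
        ⟨Finset.mem_univ _, hAV φ φ.2 v hv, hne1 v hv1 _⟩⟩
    · rw [Finset.card_image_of_injective, Finset.card_univ, hAc, hTc]
      intro φ ψ h
      have h1 : (φ : MulAut P) u = (ψ : MulAut P) u := congrArg Prod.fst h
      have h2 : (φ : MulAut P) v = (ψ : MulAut P) v := congrArg Prod.snd h
      have h3 := free (ψ⁻¹ * φ : A) (ψ⁻¹ * φ : A).2 u hu v hv hu1 hv1 (by
        show ((ψ : MulAut P)⁻¹ * (φ : MulAut P)) u = u
        rw [MulAut.mul_apply, h1, MulAut.inv_apply_self]) (by
        show ((ψ : MulAut P)⁻¹ * (φ : MulAut P)) v = v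
        rw [MulAut.mul_apply, h2, MulAut.inv_apply_self])
      have : ψ⁻¹ * φ = 1 := Subtype.ext h3
      exact (inv_mul_eq_one.1 this).symm
  have hmem : (u', v') ∈ T := by
    rw [hT, Finset.mem_product, Finset.mem_filter, Finset.mem_filter]
    exact ⟨⟨Finset.mem_univ _, hu', hu1'⟩, ⟨Finset.mem_univ _, hv', hv1'⟩⟩
  rw [← himg] at hmem
  obtain ⟨φ, -, h⟩ := Finset.mem_image.1 hmem
  exact ⟨φ, φ.2, congrArg Prod.fst h, congrArg Prod.snd h⟩

end H79.HexAct
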