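import Mathlib
import Cfsg.Agent.Lib.H79.DefOne
import Cfsg.Agent.Lib.H79.CentQ
import Cfsg.Agent.Lib.H79.FormBd
import Cfsg.Agent.Lib.H79.KLTwo

/-! The number of `p'`-degree characters of the principal block (S4588). -/

set_option autoImplicit false
set_option linter.unusedSectionVars false
set_option linter.unusedVariables false
set_option linter.style.haveILetI false
open Cfsg

namespace H79.K0Bd

open H20.Loc H20.GA H20.Blk H20.NormQ H20.Orth H20.NPC H18.CharBasic H18.CharOrtho H78.BlkCount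
open H78.Contr H20.Height H20.Defect
open scoped ComplexConjugate Pointwise

universe u

variable {p : ℕ} {M : Ideal AlgInt}

theorem orderOf_cj {K : Type u} [Group K] (g x : K) : orderOf (g * x * g⁻¹) = orderOf x :=
  MulEquiv.orderOf_eq (MulAut.conj g) x

theorem defect_principal {K : Type u} [Group K] [Finite K] (hM : IsPModular p M) :
    blockDefect p (principalBlock M K) = (Nat.card K).factorization p := by
  haveI : Fact p.Prime := ⟨pm_prime hM⟩
  haveI := pm_isPrime hM
  letI := Fintype.ofFinite K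
  have hB : IsPBlock M (principalBlock M K) := H78.PrincReal.isPBlock_principal
  have h1 := H78.BF.height_eq hM hB (χ := H20.NPC.one K) (mem_blockOf_self (H20.NPC.one K))
  have h2 : charDegree (H20.NPC.one K : K → ℂ) = 1 := by
    show charDegree (fun _ : K => (1 : ℂ)) = 1
    exact charDegree_one
  rw [blockHeight, h2, Nat.factorization_one] at h1
  simpa using h1

/-- principal blocks of `p'`-groups -/
theorem principal_of_not_dvd {K : Type u} [Group K] [Finite K] (hM : IsPModular p M)
    (h : ¬ p ∣ Nat.card K) : principalBlock M K = {H20.NPC.one K} := by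
  rw [H20.NPC.principalBlock_eq]
  exact H20.NPC.blockOf_eq_singleton_of_card hM h (H20.NPC.one K)

theorem rank_of_not_dvd {K : Type u} [Group K] [Finite K] (hM : IsPModular p M)
    (h : ¬ p ∣ Nat.card K) : blockRank p (principalBlock M K) = 1 := by
  haveI := pm_isPrime hM
  letI := Fintype.ofFinite K
  rw [principal_of_not_dvd hM h, blockRank, Set.image_singleton]
  apply finrank_span_singleton
  intro h0
  rw [← reg_eq_pRegularPart] at h0
  have h3 := congrFun h0 1
  rw [reg_of (by rw [orderOf_one]; exact (pm_prime hM).one_lt.ne' ∘ Nat.dvd_one.1)] at h3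
  exact irr_one_ne_zero (H20.NPC.one K).2 h3

theorem rank_of_npc {K : Type u} [Group K] [Finite K] (hM : IsPModular p M)
    (h : HasNormalPComplement p K) : blockRank p (principalBlock M K) = 1 := by
  haveI : Fact p.Prime := ⟨pm_prime hM⟩
  letI := Fintype.ofFinite K
  exact (Cfsg.Agent.S4646.result p M hM).1 ((Cfsg.Agent.S4691.result p M hM).1 h)

theorem dat_of_sylow {K : Type u} [Group K] [Fintype K] (hM : IsPModular p M) (hodd : p ≠ 2)
    (P : Sylow p K) (hP : Nat.card P = p) :
    ∃ (X Y : Finset (IrrCharacter K)) (ε : IrrCharacter K → ℂ) (δ : ℂ),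
      H79.DefOne.Dat p (principalBlock M K) X Y ε δ ∧ X.Nonempty ∧ X.card + Y.card ≤ p := by
  classical
  haveI : Fact p.Prime := ⟨pm_prime hM⟩
  have hp := pm_prime hM
  letI := Fintype.ofFinite (IrrCharacter K)
  set e := (Subgroup.centralizer ((P : Subgroup K) : Set K)).relIndex
    (Subgroup.normalizer ((P : Subgroup K) : Set K)) with he
  obtain ⟨X0, Y0, hB, hdis, hX, hY, ε, δ, h1, hδ, -, h3, h4⟩ :=
    Cfsg.Agent.S4441.result p M hM hodd P hP e he.symm
  have he0 : e ≠ 0 := by
    rw [he, Subgroup.relIndex]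
    exact Subgroup.index_ne_zero_of_finite
  have hcyc : IsCyclic (P : Subgroup K) := isCyclic_of_prime_card hP
  have hed : e ∣ p - 1 := by
    have h5 := H70.Real.relIndex_dvd_mulAut (P : Subgroup K)
    rwa [hcyc.card_mulAut, hP, Nat.totient_prime hp] at h5
  obtain ⟨m, hm⟩ := hed
  have hp1 : 0 < p - 1 := Nat.sub_pos_of_lt hp.one_lt
  have hm0 : 0 < m := by
    rcases Nat.eq_zero_or_pos m with h | h
    · rw [h, mul_zero] at hm; omega
    · exact h
  have hdiv : (p - 1) / e = m := by rw [hm]; exact Nat.mul_div_cancel_left m (by omega)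
  rw [hdiv] at hY
  have hXc : X0.toFinset.card = e := by
    rw [← hX, Set.toFinset_card, Nat.card_eq_fintype_card]
  have hYc : Y0.toFinset.card = m := by
    rw [← hY, Set.toFinset_card, Nat.card_eq_fintype_card]
  refine ⟨X0.toFinset, Y0.toFinset, fun χ => ((ε χ : ℤ) : ℂ), ((δ : ℤ) : ℂ), ⟨?_, ?_, ?_, ?_, ?_, ?_, ?_, ?_⟩,
    ?_, ?_⟩
  · intro χ
    rw [hB, Set.mem_union, Set.mem_toFinset, Set.mem_toFinset]
  · rw [Finset.disjoint_left]
    intro χ hχ hχ'
    exact Set.disjoint_left.1 hdis (Set.mem_toFinset.1 hχ) (Set.mem_toFinset.1 hχ')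
  · intro χ hχ
    rcases (h1 χ (Set.mem_toFinset.1 hχ)).1 with h | h
    · left; rw [h]; norm_num
    · right; rw [h]; norm_num
  · rcases hδ with h | h
    · left; rw [h]; norm_num
    · right; rw [h]; norm_num
  · intro θ hθ θ' hθ' g hg
    exact h3 θ (Set.mem_toFinset.1 hθ) θ' (Set.mem_toFinset.1 hθ') g hg
  · intro θ hθ g hg
    rw [h4 θ (Set.mem_toFinset.1 hθ) g hg, finsum_mem_eq_finite_toFinset_sum _ (Set.toFinite X0)]
    apply Finset.sum_congr _ (fun _ _ => rfl)
    ext χ
    simp
  · intro χ hχ g hg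
    obtain ⟨x, y, hxy, hc, hx, hy⟩ := H19.Second.exists_isPPart hp g
    have hx1 : x ≠ 1 := by
      rintro rfl
      rw [one_mul] at hxy
      rw [← hxy] at hg
      exact hy hg
    have hpg : IsPGroup p (Subgroup.zpowers x) := by
      obtain ⟨k, hk⟩ := hx
      apply IsPGroup.of_card (n := k)
      rw [Nat.card_zpowers, hk]
    obtain ⟨Q, hQ⟩ := hpg.exists_le_sylow
    obtain ⟨c, hcQ⟩ := MulAction.exists_smul_eq K Q P
    have hxP : c * x * c⁻¹ ∈ (P : Subgroup K) := by
      rw [← hcQ]
      have : (MulAut.conj c) • x ∈ (MulAut.conj c) • (Q : Subgroup K) :=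
        Subgroup.smul_mem_pointwise_smul x _ _ (hQ (Subgroup.mem_zpowers x))
      exact this
    have hx1' : c * x * c⁻¹ ≠ 1 := by
      intro h
      apply hx1
      have : x = c⁻¹ * (c * x * c⁻¹) * c := by group
      rw [this, h]; group
    have hyC : c * y * c⁻¹ ∈ Subgroup.centralizer ((P : Subgroup K) : Set K) := by
      rw [Subgroup.mem_centralizer_iff]
      intro w hw
      -- `P` is generated by `c x c⁻¹`
      have hord : orderOf (⟨c * x * c⁻¹, hxP⟩ : (P : Subgroup K)) = p := by
        have h5 : orderOf (⟨c * x * c⁻¹, hxP⟩ : (P : Subgroup K)) ∣ p := by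
          have h50 := orderOf_dvd_natCard (⟨c * x * c⁻¹, hxP⟩ : (P : Subgroup K))
          rwa [hP] at h50
        rcases (Nat.dvd_prime hp).1 h5 with h6 | h6
        · exact absurd (congrArg Subtype.val (orderOf_eq_one_iff.1 h6)) hx1'
        · exact h6
      have hgen : (⟨w, hw⟩ : (P : Subgroup K)) ∈
          Subgroup.zpowers (⟨c * x * c⁻¹, hxP⟩ : (P : Subgroup K)) := by
        have h6 : Nat.card (Subgroup.zpowers (⟨c * x * c⁻¹, hxP⟩ : (P : Subgroup K))) =
            Nat.card (P : Subgroup K) := by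
          rw [Nat.card_zpowers, hord, hP]
        rw [Subgroup.eq_top_of_card_eq _ h6]
        trivial
      obtain ⟨k, hk⟩ := Subgroup.mem_zpowers_iff.1 hgen
      have hk' : (c * x * c⁻¹) ^ k = w := congrArg Subtype.val hk
      have h7 : Commute (c * x * c⁻¹) (c * y * c⁻¹) := by
        show c * x * c⁻¹ * (c * y * c⁻¹) = c * y * c⁻¹ * (c * x * c⁻¹)
        calc c * x * c⁻¹ * (c * y * c⁻¹) = c * (x * y) * c⁻¹ := by group
          _ = c * (y * x) * c⁻¹ := by rw [hc.eq]
          _ = _ := by group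
      rw [← hk']
      exact (h7.zpow_left k).eq
    have h8 := (h1 χ (Set.mem_toFinset.1 hχ)).2.2 _ hxP hx1' _ hyC (by rwa [orderOf_cj])
    have h9 : g = c⁻¹ * (c * x * c⁻¹ * (c * y * c⁻¹)) * c⁻¹⁻¹ := by rw [← hxy]; group
    rw [h9, isClassFunction_of_isIrr χ.2, h8]
  · rw [← Finset.card_pos, hYc]; exact hm0
  · rw [← Finset.card_pos, hXc]; omega
  · rw [hXc, hYc]
    have h5 : p = e * m + 1 := by omega
    rw [h5]
    have h6 : 1 ≤ e := by omega
    nlinarith

variable {G : Type u} [Group G] [Fintype G]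

/-- the main case: an element of order `p` whose centralizer has Sylow subgroups of order `p²`. -/
theorem main_case (hM : IsPModular p M) (hodd : p ≠ 2) {x : G} (hx : orderOf x = p)
    (hC : (Nat.card (Subgroup.centralizer ({x} : Set G))).factorization p = 2) :
    Nat.card {χ : IrrCharacter G // χ ∈ principalBlock M G ∧
      blockHeight p (principalBlock M G) (χ : G → ℂ) = 0} ≤ p ^ 2 := by
  classical
  haveI : Fact p.Prime := ⟨pm_prime hM⟩
  haveI := pm_isPrime hM
  have hp := pm_prime hM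
  letI := Fintype.ofFinite (IrrCharacter G)
  set H := Subgroup.centralizer ({x} : Set G) with hH
  letI := Fintype.ofFinite H
  letI := Fintype.ofFinite (IrrCharacter H)
  have hxH : x ∈ H := Subgroup.mem_centralizer_singleton_iff.2 rfl
  have hup : ∃ k : ℕ, orderOf x = p ^ k := ⟨1, by rw [hx, pow_one]⟩
  have hind := H79.KLTwo.principal_induced hM hup
  obtain ⟨i, ζ, e, S⟩ := exists_sit hM hH.symm hup hind
  -- the central subgroup
  set Q : Subgroup H := Subgroup.zpowers ⟨x, hxH⟩ with hQ
  have hQc : Q ≤ Subgroup.center H := by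
    rw [hQ, Subgroup.zpowers_le, Subgroup.mem_center_iff]
    intro c
    apply Subtype.ext
    exact Subgroup.mem_centralizer_singleton_iff.1 c.2
  haveI hQn : Q.Normal := ⟨fun n hn g => by
    rw [Subgroup.mem_center_iff.1 (hQc hn) g, mul_inv_cancel_right]; exact hn⟩
  have hQcard : Nat.card Q = p := by rw [hQ, Nat.card_zpowers, Subgroup.orderOf_mk, hx]
  have hQp : IsPGroup p Q := IsPGroup.of_card (n := 1) (by rw [hQcard, pow_one])
  have hCen : ∀ x : H, ¬ p ∣ orderOf x → x ∈ Subgroup.centralizer (Q : Set H) := by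
    intro x _
    rw [Subgroup.mem_centralizer_iff]
    intro z hz
    exact (Subgroup.mem_center_iff.1 (hQc hz) x).symm
  letI := Fintype.ofFinite (H ⧸ Q)
  have hcardQ : (Nat.card (H ⧸ Q)).factorization p = 1 := by
    have h1 := Subgroup.card_eq_card_quotient_mul_card_subgroup Q
    have h2 : (Nat.card H).factorization p = (Nat.card (H ⧸ Q) * Nat.card Q).factorization p := by
      rw [← h1]
    rw [hC, Nat.factorization_mul Nat.card_pos.ne' Nat.card_pos.ne', Finsupp.add_apply, hQcard,
      hp.factorization_self] at h2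
    omega
  obtain ⟨P⟩ : Nonempty (Sylow p (H ⧸ Q)) := inferInstance
  have hPc : Nat.card P = p := by rw [P.card_eq_multiplicity, hcardQ, pow_one]
  obtain ⟨X, Y, ε, δ, hD, hXne, hXY⟩ := dat_of_sylow hM hodd P hPc
  have hBq : IsPBlock M (principalBlock M (H ⧸ Q)) := H78.PrincReal.isPBlock_principal
  obtain ⟨η, hη1, hη2, hη3, hη4, hη5, hη6⟩ := H79.DefOne.exists_family hM hBq hD hXne
  have hint : ∀ (j : Fin (X.card + 1)) (ξ : IrrCharacter H), ∃ n : ℤ,
      classInner ((p : ℂ) • H79.CentQ.L Q p (η j)) (ξ : H → ℂ) = n := by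
    intro j ξ
    obtain ⟨n, hn⟩ := H79.CentQ.inner_int Q hQp hQc (hη2 j) (hη3 j) (isCharacter_of_isIrr ξ.2)
    rw [hQcard] at hn
    exact ⟨n, by rw [H18.CharOrtho.inner_smul_left, hn]⟩
  choose z hz using hint
  have hLL : ∀ f h : H ⧸ Q → ℂ, classInner (H79.CentQ.L Q p f) (H79.CentQ.L Q p h) =
      classInner (H79.CentQ.L Q p f) (fun g : H => h (g : H ⧸ Q)) := by
    intro f h
    have h1 : reg p (H79.CentQ.L Q p f) = H79.CentQ.L Q p f := reg_reg _
    rw [H79.CentQ.L_apply Q h, ← inner_reg_left, h1]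
  have hpc : (p : ℂ) ≠ 0 := by exact_mod_cast hp.ne_zero
  have key := H79.FormBd.two_mul_card_le S (fun j => (p : ℂ) • H79.CentQ.L Q p (η j)) ?_ z hz ?_ ?_
    (2 * p ^ 2 : ℝ) ?_
  · have h1 : (Nat.card {χ : IrrCharacter G // χ ∈ principalBlock M G ∧
      blockHeight p (principalBlock M G) (χ : G → ℂ) = 0} : ℝ) ≤ (p : ℝ) ^ 2 := by linarith
    exact_mod_cast h1
  · intro j
    rw [H79.CentQ.rspn_principal hM Q hQp hCen]
    exact Submodule.smul_mem _ _ ⟨_, hη1 j, rfl⟩
  · rw [← Finset.smul_sum, ← map_sum, hη4, map_zero, smul_zero]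
  · intro f hf hall
    rw [H79.CentQ.rspn_principal hM Q hQp hCen] at hf
    obtain ⟨f', hf', rfl⟩ := hf
    rw [hη5 f' hf' ?_, map_zero]
    intro j
    have h1 := hall j
    rw [H18.CharOrtho.inner_smul_left, hLL] at h1
    have h2 := H79.CentQ.inner_L Q hQp hCen (η j) f'
    rw [hQcard, h1, hη3 j] at h2
    exact h2.symm
  · have h1 : ∀ j, (classInner ((p : ℂ) • H79.CentQ.L Q p (η j)) ((p : ℂ) • H79.CentQ.L Q p (η j))).re =
        p * (classInner (η j) (η j)).re := by
      intro j
      have h2 := H79.CentQ.inner_L Q hQp hCen (η j) (η j)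
      rw [hQcard, hη3 j] at h2
      rw [H18.CharOrtho.inner_smul_left, H18.CharOrtho.inner_smul_right, hLL, Complex.conj_natCast,
        h2]
      rw [show (p : ℂ) * classInner (η j) (η j) = ((p : ℝ) : ℂ) * classInner (η j) (η j) by
        push_cast; rfl, Complex.re_ofReal_mul]
    rw [Finset.sum_congr rfl (fun j _ => h1 j), ← Finset.mul_sum, hη6]
    have h3 : ((X.card : ℝ) + Y.card) ≤ p := by exact_mod_cast hXY
    have h4 : (0 : ℝ) ≤ p := Nat.cast_nonneg p
    nlinarith

end H79.K0Bd
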