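import Mathlib

/-! Cubic element of order three with one Jordan block (S4415), part 1. -/

set_option autoImplicit false

namespace H79.KB

section gen

variable {Γ V : Type*} [Group Γ] [AddCommGroup V] [Module (ZMod 3) V] (ρ : Representation (ZMod 3) Γ V)

theorem three_zero (v : V) : v + v + v = 0 := by
  have h : (3 : ZMod 3) • v = 0 := by
    have : (3 : ZMod 3) = 0 := by decide
    rw [this, zero_smul]
  have h2 : (3 : ZMod 3) • v = v + v + v := by
    have : (3 : ZMod 3) = 1 + 1 + 1 := by decide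
    rw [this, add_smul, add_smul, one_smul]
  rw [← h2, h]

theorem eq_zero_of_two {v : V} (h : v + v = 0) : v = 0 := by
  have := three_zero v
  rwa [h, zero_add] at this

/-- `ρ b - 1` -/
def Nl (b : Γ) : V →ₗ[ZMod 3] V := ρ b - LinearMap.id

/-- `1 + ρ b + ρ b²` -/
def Tl (b : Γ) : V →ₗ[ZMod 3] V := ρ b ∘ₗ ρ b + ρ b + LinearMap.id

theorem Nl_apply (b : Γ) (v : V) : Nl ρ b v = ρ b v - v := rfl
theorem Tl_apply (b : Γ) (v : V) : Tl ρ b v = ρ b (ρ b v) + ρ b v + v := rfl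

theorem Nl_sq (b : Γ) (v : V) : Nl ρ b (Nl ρ b v) = Tl ρ b v := by
  rw [Nl_apply, Nl_apply, Tl_apply, map_sub]
  have h := three_zero (ρ b v)
  have h2 : ρ b (ρ b v) - ρ b v - (ρ b v - v) = ρ b (ρ b v) + ρ b v + v - (ρ b v + ρ b v + ρ b v) := by abel
  rw [h2, h, sub_zero]

theorem Nl_Tl {b : Γ} (hb : b ^ 3 = 1) (v : V) : Nl ρ b (Tl ρ b v) = 0 := by
  have h3 : ρ b (ρ b (ρ b v)) = v := by
    rw [← Module.End.mul_apply, ← Module.End.mul_apply, ← map_mul, ← map_mul]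
    have : b * b * b = 1 := by rw [← hb]; simp [pow_succ]
    rw [this, map_one, Module.End.one_apply]
  rw [Nl_apply, Tl_apply, map_add, map_add, h3]
  abel

theorem rho_mul (g h : Γ) (v : V) : ρ (g * h) v = ρ g (ρ h v) := by
  rw [map_mul, Module.End.mul_apply]

theorem rho_inv_self (g : Γ) (v : V) : ρ g⁻¹ (ρ g v) = v := by
  rw [← rho_mul, inv_mul_cancel, map_one, Module.End.one_apply]

theorem rho_self_inv (g : Γ) (v : V) : ρ g (ρ g⁻¹ v) = v := by
  rw [← rho_mul, mul_inv_cancel, map_one, Module.End.one_apply]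

theorem rho_inj (g : Γ) : Function.Injective (ρ g) := by
  intro v w h
  rw [← rho_inv_self ρ g v, h, rho_inv_self]

/-- a vector on which `q` acts as `1`, `q'` and `q''` as `-1` is not killed by `1 + b + b²` -/
theorem wt_zero {b q q' q'' : Γ} (h1 : b * q * b⁻¹ = q') (h3 : b * q'' * b⁻¹ = q)
    {u : V} (hu : ρ q u = u) (hu'' : ρ q'' u = - u) (hu' : ρ q' u = -u) (h2 : b * q' * b⁻¹ = q'')
    (hT : Tl ρ b u = 0) : u = 0 := by
  have e1 : ρ q (ρ b u) = - ρ b u := by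
    have : q * b = b * q'' := by rw [← h3]; group
    rw [← rho_mul, this, rho_mul, hu'', map_neg]
  have e2 : ρ q'' (ρ b u) = - ρ b u := by
    have : q'' * b = b * q' := by rw [← h2]; group
    rw [← rho_mul, this, rho_mul, hu', map_neg]
  have e3 : ρ q (ρ b (ρ b u)) = - ρ b (ρ b u) := by
    have : q * b = b * q'' := by rw [← h3]; group
    rw [← rho_mul, this, rho_mul, e2, map_neg]
  rw [Tl_apply] at hT
  have h4 : ρ q (ρ b (ρ b u) + ρ b u + u) = 0 := by rw [hT, map_zero]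
  rw [map_add, map_add, e3, e1, hu] at h4
  apply eq_zero_of_two
  have : u + u = (ρ b (ρ b u) + ρ b u + u) + (-ρ b (ρ b u) + -ρ b u + u) := by abel
  rw [this, hT, h4, add_zero]

/-- structure of a four-group normalised but not centralised by `b` -/
theorem v4_struct {Γ : Type*} [Group Γ] [Finite Γ] {b : Γ} (hb : b ^ 3 = 1) (Q : Subgroup Γ) (hQ4 : Nat.card Q = 4)
    (hsq : ∀ x ∈ Q, x ^ 2 = 1) (hnorm : ∀ x ∈ Q, b * x * b⁻¹ ∈ Q) (hnc : ∃ x ∈ Q, b * x * b⁻¹ ≠ x) :
    ∃ q q' q'' : Γ, q ∈ Q ∧ q' ∈ Q ∧ q'' ∈ Q ∧ b * q * b⁻¹ = q' ∧ b * q' * b⁻¹ = q'' ∧ b * q'' * b⁻¹ = q ∧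
      q * q' = q'' ∧ q ≠ 1 ∧ q' ≠ 1 ∧ q'' ≠ 1 ∧ q ≠ q' ∧ q * q = 1 ∧ q' * q' = 1 ∧ q'' * q'' = 1 ∧
      (∀ x ∈ Q, x = 1 ∨ x = q ∨ x = q' ∨ x = q'') := by
  obtain ⟨q, hq, hqb⟩ := hnc
  have hbb : b * b * b = 1 := by rw [← hb]; simp [pow_succ]
  refine ⟨q, b * q * b⁻¹, b * (b * q * b⁻¹) * b⁻¹, hq, hnorm _ hq, hnorm _ (hnorm _ hq), rfl, rfl, ?_, ?_⟩
  · calc b * (b * (b * q * b⁻¹) * b⁻¹) * b⁻¹ = (b * b * b) * q * (b * b * b)⁻¹ := by group
      _ = q := by rw [hbb]; group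
  set q' := b * q * b⁻¹ with hq'
  set q'' := b * q' * b⁻¹ with hq''
  have hq'Q : q' ∈ Q := hnorm _ hq
  have hq''Q : q'' ∈ Q := hnorm _ hq'Q
  have h3 : b * q'' * b⁻¹ = q := by
    calc b * (b * (b * q * b⁻¹) * b⁻¹) * b⁻¹ = (b * b * b) * q * (b * b * b)⁻¹ := by group
      _ = q := by rw [hbb]; group
  have hcinj : ∀ x y : Γ, b * x * b⁻¹ = b * y * b⁻¹ → x = y := by
    intro x y h
    simpa using h
  have n1 : q ≠ 1 := by
    rintro h
    apply hqb
    rw [hq', h]; group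
  have n1' : q' ≠ 1 := by
    intro h
    apply n1
    apply hcinj
    rw [← hq', h]; group
  have n1'' : q'' ≠ 1 := by
    intro h
    apply n1'
    apply hcinj
    rw [← hq'', h]; group
  have n2 : q ≠ q' := fun h => hqb h.symm
  have n3 : q' ≠ q'' := by
    intro h
    apply n2
    apply hcinj
    rw [← hq', ← hq'', ← h]
  have n4 : q'' ≠ q := by
    intro h
    apply n3
    apply hcinj
    rw [← hq'', h3, h]
  have hs : ∀ x ∈ Q, x * x = 1 := fun x hx => by rw [← pow_two, hsq x hx]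
  have hset : ({1, q, q', q''} : Set Γ) = (Q : Set Γ) := by
    apply Set.eq_of_subset_of_ncard_le
    · rintro x (rfl | rfl | rfl | rfl)
      · exact Q.one_mem
      · exact hq
      · exact hq'Q
      · exact hq''Q
    · have h4 : (Q : Set Γ).ncard = 4 := by rw [← Nat.card_coe_set_eq]; exact hQ4
      rw [h4, Set.ncard_insert_of_notMem, Set.ncard_insert_of_notMem, Set.ncard_insert_of_notMem, Set.ncard_singleton]
      · simpa using n3
      · simp only [Set.mem_insert_iff, Set.mem_singleton_iff, not_or]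
        exact ⟨n2, n4.symm⟩
      · simp only [Set.mem_insert_iff, Set.mem_singleton_iff, not_or]
        exact ⟨n1.symm, n1'.symm, n1''.symm⟩
    · exact Set.toFinite _
  have hall : ∀ x ∈ Q, x = 1 ∨ x = q ∨ x = q' ∨ x = q'' := by
    intro x hx
    have : x ∈ ({1, q, q', q''} : Set Γ) := by rw [hset]; exact hx
    simpa using this
  refine ⟨?_, n1, n1', n1'', n2, hs _ hq, hs _ hq'Q, hs _ hq''Q, hall⟩
  rcases hall (q * q') (Q.mul_mem hq hq'Q) with h | h | h | h
  · exfalso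
    apply n2
    have : q * q' = q * q := by rw [h, hs q hq]
    exact (mul_left_cancel this).symm
  · exact absurd (mul_eq_left.1 h) n1'
  · exact absurd (mul_eq_right.1 h) n1
  · exact h

end gen

end H79.KB
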