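import Mathlib
import Cfsg.Agent.Lib.H79.KBa

/-! Cubic element of order three with one Jordan block (S4415), part 2: irreducibility of `[E, R]`. -/

set_option autoImplicit false

namespace H79.KB

open Subgroup Module
open scoped commutatorElement

theorem gen_of_comm {S : Type*} [Group S] [Finite S] (R : Subgroup S) (b : S)
    (hR : R ≤ ⁅R, zpowers b⁆) (H : Subgroup S) (h1 : ∀ r ∈ R, r * b * r⁻¹ * b⁻¹ ∈ H)
    (h2 : ∀ x ∈ H, b * x * b⁻¹ ∈ H) : R ≤ H := by
  refine hR.trans ?_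
  rw [commutator_le]
  intro r hr g hg
  obtain ⟨i, rfl⟩ := (isOfFinOrder_of_finite b).mem_powers_iff_mem_zpowers.2 hg
  clear hg
  show ⁅r, b ^ i⁆ ∈ H
  have h3 : ∀ i : ℕ, ∀ x ∈ H, b ^ i * x * (b ^ i)⁻¹ ∈ H := by
    intro i
    induction i with
    | zero => intro x hx; simpa using hx
    | succ i ih =>
      intro x hx
      have := ih _ (h2 x hx)
      have e : b ^ (i + 1) * x * (b ^ (i + 1))⁻¹ = b ^ i * (b * x * b⁻¹) * (b ^ i)⁻¹ := by
        rw [pow_succ]; group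
      rwa [e]
  induction i with
  | zero => simp [commutatorElement_def, H.one_mem]
  | succ i ih =>
    have e : ⁅r, b ^ (i + 1)⁆ = ⁅r, b ^ i⁆ * (b ^ i * (r * b * r⁻¹ * b⁻¹) * (b ^ i)⁻¹) := by
      rw [commutatorElement_def, commutatorElement_def, pow_succ]; group
    rw [e]
    exact H.mul_mem ih (h3 i _ (h1 r hr))

section E

variable {S E : Type*} [Group S] [Finite S] [AddCommGroup E] [Module (ZMod 3) E]
  (ρ : Representation (ZMod 3) S E) (R : Subgroup S)

/-- fixed vectors of `R` -/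
def F1 : Submodule (ZMod 3) E where
  carrier := {v | ∀ r ∈ R, ρ r v = v}
  zero_mem' := fun r _ => map_zero _
  add_mem' := fun {a b} ha hb r hr => by rw [map_add, ha r hr, hb r hr]
  smul_mem' := fun c a ha r hr => by rw [map_smul, ha r hr]

open Classical in
/-- the sum over `R` -/
noncomputable def Sm : E →ₗ[ZMod 3] E := ∑ r ∈ (Set.toFinite (R : Set S)).toFinset, ρ r

/-- the complement `[E, R]` -/
noncomputable def F0 : Submodule (ZMod 3) E := LinearMap.ker (Sm ρ R)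

theorem Sm_apply (v : E) : Sm ρ R v = ∑ r ∈ (Set.toFinite (R : Set S)).toFinset, ρ r v := by
  rw [Sm, LinearMap.sum_apply]

theorem card_R : ((Set.toFinite (R : Set S)).toFinset).card = Nat.card R := by
  rw [← Set.ncard_eq_toFinset_card (R : Set S)]
  rfl

theorem Sm_fixed (v : E) : Sm ρ R v ∈ F1 ρ R := by
  intro r hr
  rw [Sm_apply, map_sum]
  apply Finset.sum_bij' (fun x _ => r * x) (fun x _ => r⁻¹ * x)
  · intro x hx
    simp only [Set.Finite.mem_toFinset, SetLike.mem_coe] at hx ⊢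
    exact R.mul_mem hr hx
  · intro x hx
    simp only [Set.Finite.mem_toFinset, SetLike.mem_coe] at hx ⊢
    exact R.mul_mem (R.inv_mem hr) hx
  · intro x _; group
  · intro x _; group
  · intro x _
    rw [rho_mul]

theorem Sm_of_fixed {v : E} (hv : v ∈ F1 ρ R) : Sm ρ R v = (Nat.card R : ZMod 3) • v := by
  rw [Sm_apply, Finset.sum_congr rfl (g := fun _ => v), Finset.sum_const, card_R]
  · rw [Nat.cast_smul_eq_nsmul]
  · intro x hx
    simp only [Set.Finite.mem_toFinset, SetLike.mem_coe] at hx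
    exact hv x hx

theorem card_ne (h3 : (Nat.card R).Coprime 3) : (Nat.card R : ZMod 3) ≠ 0 := by
  intro h
  rw [ZMod.natCast_eq_zero_iff] at h
  have := Nat.Coprime.eq_one_of_dvd h3.symm h
  omega

theorem inf_bot (h3 : (Nat.card R).Coprime 3) {v : E} (h0 : v ∈ F0 ρ R) (h1 : v ∈ F1 ρ R) : v = 0 := by
  have h := Sm_of_fixed ρ R h1
  have h' : Sm ρ R v = 0 := h0
  rw [h'] at h
  exact (smul_eq_zero.1 h.symm).resolve_left (card_ne R h3)

theorem sup_top (h3 : (Nat.card R).Coprime 3) : F0 ρ R ⊔ F1 ρ R = ⊤ := by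
  rw [eq_top_iff]
  intro v _
  rw [Submodule.mem_sup]
  refine ⟨v - (Nat.card R : ZMod 3)⁻¹ • Sm ρ R v, ?_, (Nat.card R : ZMod 3)⁻¹ • Sm ρ R v, ?_, by abel⟩
  · show Sm ρ R _ = 0
    rw [map_sub, map_smul, Sm_of_fixed ρ R (Sm_fixed ρ R v), smul_smul, inv_mul_cancel₀ (card_ne R h3), one_smul,
      sub_self]
  · exact (F1 ρ R).smul_mem _ (Sm_fixed ρ R v)

theorem F0_inv {g : S} (hg : g ∈ normalizer (R : Set S)) {v : E} (hv : v ∈ F0 ρ R) : ρ g v ∈ F0 ρ R := by
  have hv' : Sm ρ R v = 0 := hv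
  show Sm ρ R (ρ g v) = 0
  have : Sm ρ R (ρ g v) = ρ g (Sm ρ R v) := by
    rw [Sm_apply, Sm_apply, map_sum]
    apply Finset.sum_bij' (fun x _ => g⁻¹ * x * g) (fun x _ => g * x * g⁻¹)
    · intro x hx
      simp only [Set.Finite.mem_toFinset, SetLike.mem_coe] at hx ⊢
      have := (mem_normalizer_iff.1 ((normalizer (R : Set S)).inv_mem hg) x).1 hx
      rwa [inv_inv] at this
    · intro x hx
      simp only [Set.Finite.mem_toFinset, SetLike.mem_coe] at hx ⊢
      exact (mem_normalizer_iff.1 hg x).1 hx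
    · intro x _; group
    · intro x _; group
    · intro x _
      rw [← rho_mul, ← rho_mul]
      congr 2
      group
  rw [this, hv', map_zero]

theorem F0_R {r : S} (hr : r ∈ R) {v : E} (hv : v ∈ F0 ρ R) : ρ r v ∈ F0 ρ R :=
  F0_inv ρ R (le_normalizer hr) hv

theorem F1_inv {g : S} (hg : g ∈ normalizer (R : Set S)) {v : E} (hv : v ∈ F1 ρ R) : ρ g v ∈ F1 ρ R := by
  intro r hr
  have h1 : g⁻¹ * r * g ∈ R := by
    have := (mem_normalizer_iff.1 ((normalizer (R : Set S)).inv_mem hg) r).1 hr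
    rwa [inv_inv] at this
  have : r * g = g * (g⁻¹ * r * g) := by group
  rw [← rho_mul, this, rho_mul, hv _ h1]

/-- if `b` is trivial on an invariant subspace so is `R` -/
theorem triv_of_b {b : S} (hR : R ≤ ⁅R, zpowers b⁆) (M : Submodule (ZMod 3) E)
    (hMR : ∀ r ∈ R, ∀ v ∈ M, ρ r v ∈ M) (hb : ∀ v ∈ M, ρ b v = v) : ∀ r ∈ R, ∀ v ∈ M, ρ r v = v := by
  have hbi : ∀ v ∈ M, ρ b⁻¹ v = v := by
    intro v hv
    conv_lhs => rw [← hb v hv]
    rw [rho_inv_self]
  let H : Subgroup S :=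
    { carrier := {g | ∀ v ∈ M, ρ g v = v}
      one_mem' := fun v _ => by rw [map_one, Module.End.one_apply]
      mul_mem' := fun {x y} hx hy v hv => by rw [rho_mul, hy v hv, hx v hv]
      inv_mem' := fun {x} hx v hv => by
        conv_lhs => rw [← hx v hv]
        rw [rho_inv_self] }
  refine fun r hr => gen_of_comm R b hR H ?_ ?_ hr
  · intro r hr v hv
    have h1 : ρ r⁻¹ v ∈ M := hMR _ (R.inv_mem hr) v hv
    rw [rho_mul, rho_mul, rho_mul, hbi v hv, hb _ h1, rho_self_inv]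
  · intro x hx v hv
    rw [rho_mul, rho_mul, hbi v hv, hx v hv, hb v hv]

/-- if `b` is trivial on `F0 / M` so is `R` -/
theorem quot_of_b {b : S} (hR : R ≤ ⁅R, zpowers b⁆) (hbN : b ∈ normalizer (R : Set S)) (M : Submodule (ZMod 3) E)
    (hMR : ∀ r ∈ R, ∀ v ∈ M, ρ r v ∈ M) (hMb : ∀ v ∈ M, ρ b v ∈ M) (hMb' : ∀ v ∈ M, ρ b⁻¹ v ∈ M)
    (hb : ∀ v ∈ F0 ρ R, ρ b v - v ∈ M) : ∀ r ∈ R, ∀ v ∈ F0 ρ R, ρ r v - v ∈ M := by
  let H : Subgroup S :=
    { carrier := {g | (∀ v ∈ M, ρ g v ∈ M) ∧ (∀ v ∈ M, ρ g⁻¹ v ∈ M) ∧ g ∈ normalizer (R : Set S) ∧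
        ∀ v ∈ F0 ρ R, ρ g v - v ∈ M}
      one_mem' := ⟨fun v hv => by rwa [map_one, Module.End.one_apply],
        fun v hv => by rwa [inv_one, map_one, Module.End.one_apply], (normalizer (R : Set S)).one_mem,
        fun v _ => by rw [map_one, Module.End.one_apply, sub_self]; exact M.zero_mem⟩
      mul_mem' := fun {x y} hx hy => ⟨fun v hv => by rw [rho_mul]; exact hx.1 _ (hy.1 v hv),
        fun v hv => by rw [mul_inv_rev, rho_mul]; exact hy.2.1 _ (hx.2.1 v hv),
        (normalizer (R : Set S)).mul_mem hx.2.2.1 hy.2.2.1, fun v hv => by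
          rw [rho_mul]
          have h1 := hx.2.2.2 _ (F0_inv ρ R hy.2.2.1 hv)
          have h2 := hy.2.2.2 v hv
          have := M.add_mem h1 h2
          simpa using this⟩
      inv_mem' := fun {x} hx => ⟨hx.2.1, fun v hv => by rw [inv_inv]; exact hx.1 v hv,
        (normalizer (R : Set S)).inv_mem hx.2.2.1, fun v hv => by
          have h1 := hx.2.2.2 _ (F0_inv ρ R ((normalizer (R : Set S)).inv_mem hx.2.2.1) hv)
          rw [rho_self_inv] at h1
          have := M.neg_mem h1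
          simpa using this⟩ }
  have hbH : b ∈ H := ⟨hMb, hMb', hbN, hb⟩
  intro r hr
  refine (gen_of_comm R b hR H ?_ ?_ hr).2.2.2
  · intro r hr
    refine ⟨fun v hv => ?_, fun v hv => ?_, ?_, fun v hv => ?_⟩
    · rw [rho_mul, rho_mul, rho_mul]
      exact hMR r hr _ (hMb _ (hMR _ (R.inv_mem hr) _ (hMb' v hv)))
    · have : (r * b * r⁻¹ * b⁻¹)⁻¹ = b * r * b⁻¹ * r⁻¹ := by group
      rw [this, rho_mul, rho_mul, rho_mul]
      exact hMb _ (hMR r hr _ (hMb' _ (hMR _ (R.inv_mem hr) _ hv)))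
    · exact (normalizer (R : Set S)).mul_mem ((normalizer (R : Set S)).mul_mem
        ((normalizer (R : Set S)).mul_mem (le_normalizer hr) hbN) (le_normalizer (R.inv_mem hr)))
        ((normalizer (R : Set S)).inv_mem hbN)
    · rw [rho_mul, rho_mul, rho_mul]
      set w := ρ b⁻¹ v with hw
      have hw0 : w ∈ F0 ρ R := F0_inv ρ R ((normalizer (R : Set S)).inv_mem hbN) hv
      have h1 : w - v ∈ M := by
        have h2 := (H.inv_mem hbH).2.2.2 v hv
        exact h2
      have h3 : ρ r⁻¹ w ∈ F0 ρ R := F0_R ρ R (R.inv_mem hr) hw0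
      have h4 := hMR r hr _ (hb _ h3)
      rw [map_sub, rho_self_inv] at h4
      have := M.add_mem h4 h1
      simpa using this
  · intro x hx
    exact H.mul_mem (H.mul_mem hbH hx) (H.inv_mem hbH)

theorem mem_of_sum (h3 : (Nat.card R).Coprime 3) (M : Submodule (ZMod 3) E)
    (h : ∀ r ∈ R, ∀ v ∈ F0 ρ R, ρ r v - v ∈ M) {v : E} (hv : v ∈ F0 ρ R) : v ∈ M := by
  have hv' : Sm ρ R v = 0 := hv
  rw [Sm_apply] at hv'
  have h1 : ∑ r ∈ (Set.toFinite (R : Set S)).toFinset, (ρ r v - v) ∈ M := by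
    apply Submodule.sum_mem
    intro r hr
    simp only [Set.Finite.mem_toFinset, SetLike.mem_coe] at hr
    exact h r hr v hv
  rw [Finset.sum_sub_distrib, hv', Finset.sum_const, card_R, zero_sub] at h1
  have h2 := M.smul_mem (-(Nat.card R : ZMod 3)⁻¹) h1
  rw [← Nat.cast_smul_eq_nsmul (ZMod 3), neg_smul, smul_neg, neg_neg, smul_smul, inv_mul_cancel₀ (card_ne R h3),
    one_smul] at h2
  exact h2

end E

end H79.KB
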