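import Mathlib
import Cfsg.Agent.Lib.H79.KBb

/-! Cubic element of order three with one Jordan block (S4415), part 3: irreducibility of `[E, R]`. -/

set_option autoImplicit false

namespace H79.KB

open Subgroup Module
open scoped commutatorElement

/-- the three involutions of a four-group permuted by `b` -/
structure V4 {S : Type*} [Group S] (b q q' q'' : S) : Prop where
  h1 : b * q * b⁻¹ = q'
  h2 : b * q' * b⁻¹ = q''
  h3 : b * q'' * b⁻¹ = q
  h4 : q * q' = q''
  n : q ≠ 1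
  s : q * q = 1
  s' : q' * q' = 1
  s'' : q'' * q'' = 1

theorem V4.comm {S : Type*} [Group S] {b q q' q'' : S} (h : V4 b q q' q'') : q' * q = q * q' := by
  have h1 : (q * q') * (q * q') = 1 := by rw [h.h4]; exact h.s''
  have h2 : q' * q = q * (q * q' * (q * q')) * q' := by
    calc q' * q = (q * q) * q' * q * (q' * q') := by rw [h.s, h.s']; group
      _ = _ := by group
  rw [h2, h1, mul_one]

theorem V4.comm2 {S : Type*} [Group S] {b q q' q'' : S} (h : V4 b q q' q'') : q' * q'' = q := by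
  rw [← h.h4, ← mul_assoc, h.comm, mul_assoc, h.s', mul_one]

theorem V4.rot {S : Type*} [Group S] {b q q' q'' : S} (h : V4 b q q' q'') : V4 b q' q'' q := by
  refine ⟨h.h2, h.h3, h.h1, h.comm2, ?_, h.s', h.s'', h.s⟩
  intro h'
  apply h.n
  have := h.h1
  rw [h'] at this
  have e : q = b⁻¹ * (b * q * b⁻¹) * b := by group
  rw [e, this]; group

section E

variable {S E : Type*} [Group S] [AddCommGroup E] [Module (ZMod 3) E]
  (ρ : Representation (ZMod 3) S E)

theorem V4.wt'' {b q q' q'' : S} (h : V4 b q q' q'') {u : E} (h1 : ρ q u = u) (h2 : ρ q' u = -u) : ρ q'' u = - u := by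
  rw [← h.h4, rho_mul, h2, map_neg, h1]

/-- rotation of weight vectors -/
theorem V4.rotv {b q q' q'' : S} (h : V4 b q q' q'') {u : E} (h1 : ρ q u = u) (h2 : ρ q' u = -u) :
    ρ q' (ρ b u) = ρ b u ∧ ρ q'' (ρ b u) = - ρ b u ∧ ρ q (ρ b u) = - ρ b u := by
  have e1 : q' * b = b * q := by rw [← h.h1]; group
  have e2 : q'' * b = b * q' := by rw [← h.h2]; group
  have e3 : q * b = b * q'' := by rw [← h.h3]; group
  refine ⟨?_, ?_, ?_⟩
  · rw [← rho_mul, e1, rho_mul, h1]
  · rw [← rho_mul, e2, rho_mul, h2, map_neg]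
  · rw [← rho_mul, e3, rho_mul, h.wt'' ρ h1 h2, map_neg]

theorem V4.T_ne {b q q' q'' : S} (h : V4 b q q' q'') {u : E} (h1 : ρ q u = u) (h2 : ρ q' u = -u)
    (hu : u ≠ 0) : Tl ρ b u ≠ 0 :=
  fun hT => hu (wt_zero ρ h.h1 h.h3 h1 (h.wt'' ρ h1 h2) h2 h.h2 hT)

theorem two_half (y1 y2 y : E) (h : y + y = y1 + y2) (h1 : y1 = 0) (h2 : y2 = 0) : y = 0 := by
  apply eq_zero_of_two
  rw [h, h1, h2, add_zero]

/-- a nontrivially acting four-group has a weight vector in every invariant subspace on which `q` is nontrivial -/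
theorem V4.exists_wt {b q q' q'' : S} (h : V4 b q q' q'') (W : Submodule (ZMod 3) E)
    (hq : ∀ v ∈ W, ρ q v ∈ W) (hq' : ∀ v ∈ W, ρ q' v ∈ W) (hb : ∀ v ∈ W, ρ b v ∈ W)
    {x : E} (hx : x ∈ W) (hxq : ρ q x ≠ x) : ∃ u ∈ W, u ≠ 0 ∧ ρ q u = u ∧ ρ q' u = -u := by
  set y := ρ q x - x with hy
  have hyW : y ∈ W := W.sub_mem (hq x hx) hx
  have hy0 : y ≠ 0 := sub_ne_zero.2 hxq
  have hqy : ρ q y = -y := by
    rw [hy, map_sub, ← rho_mul, h.s, map_one, Module.End.one_apply]; abel
  have hcomm : ρ q (ρ q' y) = - ρ q' y := by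
    rw [← rho_mul, ← h.comm, rho_mul, hqy, map_neg]
  have hq'q' : ρ q' (ρ q' y) = y := by rw [← rho_mul, h.s', map_one, Module.End.one_apply]
  by_cases h1 : y + ρ q' y = 0
  · -- the other component is nonzero
    have h2 : y - ρ q' y ≠ 0 := by
      intro h2
      exact hy0 (two_half _ _ y (by abel) h1 h2)
    -- weights q = -1, q' = -1, q'' = 1
    set w := y - ρ q' y with hw
    have e1 : ρ q w = -w := by rw [hw, map_sub, hqy, hcomm]; abel
    have e2 : ρ q' w = -w := by rw [hw, map_sub, hq'q']; abel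
    have e3 : ρ q'' w = w := by rw [← h.h4, rho_mul, e2, map_neg, e1, neg_neg]
    have hr := (h.rot).rot.rotv ρ e3 e1
    refine ⟨ρ b w, hb _ (W.sub_mem hyW (hq' _ hyW)), ?_, hr.1, hr.2.1⟩
    intro h3
    apply h2
    exact rho_inj ρ b (by rw [h3, map_zero])
  · set w := y + ρ q' y with hw
    have e1 : ρ q w = -w := by rw [hw, map_add, hqy, hcomm]; abel
    have e2 : ρ q' w = w := by rw [hw, map_add, hq'q']; abel
    have e3 : ρ q'' w = -w := by rw [← h.h4, rho_mul, e2, e1]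
    have hr := (h.rot).rotv ρ e2 e3
    have hr2 := (h.rot).rot.rotv ρ hr.1 hr.2.1
    refine ⟨ρ b (ρ b w), hb _ (hb _ (W.add_mem hyW (hq' _ hyW))), ?_, hr2.1, hr2.2.1⟩
    intro h3
    apply h1
    exact rho_inj ρ b (rho_inj ρ b (by rw [h3, map_zero, map_zero]))

theorem range_N [Finite E] {b : S} (hb : b ^ 3 = 1) (hr : finrank (ZMod 3) (LinearMap.range (Nl ρ b)) ≤ 2) {u : E}
    (hT : Tl ρ b u ≠ 0) (x : E) : ∃ α β : ZMod 3, Nl ρ b x = α • Nl ρ b u + β • Tl ρ b u := by
  have hli : LinearIndependent (ZMod 3) ![Nl ρ b u, Tl ρ b u] := by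
    rw [LinearIndependent.pair_iff]
    intro s t hst
    have h1 : Nl ρ b (s • Nl ρ b u + t • Tl ρ b u) = 0 := by rw [hst, map_zero]
    rw [map_add, map_smul, map_smul, Nl_sq, Nl_Tl ρ hb, smul_zero, add_zero] at h1
    have hs : s = 0 := (smul_eq_zero.1 h1).resolve_right hT
    rw [hs, zero_smul, zero_add] at hst
    exact ⟨hs, (smul_eq_zero.1 hst).resolve_right hT⟩
  have hle : Submodule.span (ZMod 3) (Set.range ![Nl ρ b u, Tl ρ b u]) ≤ LinearMap.range (Nl ρ b) := by
    rw [Submodule.span_le]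
    rintro _ ⟨i, rfl⟩
    fin_cases i
    · exact ⟨u, rfl⟩
    · exact ⟨Nl ρ b u, Nl_sq ρ b u⟩
  have heq : Submodule.span (ZMod 3) (Set.range ![Nl ρ b u, Tl ρ b u]) = LinearMap.range (Nl ρ b) := by
    apply Submodule.eq_of_le_of_finrank_le hle
    rw [finrank_span_eq_card hli]
    simpa using hr
  have hx : Nl ρ b x ∈ Submodule.span (ZMod 3) (Set.range ![Nl ρ b u, Tl ρ b u]) := by
    rw [heq]; exact ⟨x, rfl⟩
  rw [Matrix.range_cons, Matrix.range_cons, Matrix.range_empty, Set.union_empty, Set.singleton_union,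
    Submodule.mem_span_pair] at hx
  obtain ⟨α, β, h⟩ := hx
  exact ⟨α, β, h.symm⟩

/-- `[E, R]` is irreducible -/
theorem irr [Finite S] [Finite E] (R : Subgroup S) (h3 : (Nat.card R).Coprime 3) {b q q' q'' : S} (hb : b ^ 3 = 1)
    (hR : R ≤ ⁅R, zpowers b⁆) (hbN : b ∈ normalizer (R : Set S))
    (hr : finrank (ZMod 3) (LinearMap.range (Nl ρ b)) ≤ 2) (h : V4 b q q' q'') (hq : q ∈ R) (hq' : q' ∈ R)
    (hq'' : q'' ∈ R)
    {u : E} (hu0 : u ≠ 0) (huF : u ∈ F0 ρ R) (hu1 : ρ q u = u) (hu2 : ρ q' u = -u)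
    (M : Submodule (ZMod 3) E) (hM : M ≤ F0 ρ R) (hMR : ∀ r ∈ R, ∀ v ∈ M, ρ r v ∈ M)
    (hMb : ∀ v ∈ M, ρ b v ∈ M) : M = ⊥ ∨ M = F0 ρ R := by
  have hT := h.T_ne ρ hu1 hu2 hu0
  have hbi : b⁻¹ = b * b := by
    have : b * b * b = 1 := by rw [← hb]; simp [pow_succ]
    exact (eq_inv_of_mul_eq_one_left this).symm
  have hMb' : ∀ v ∈ M, ρ b⁻¹ v ∈ M := by
    intro v hv
    rw [hbi, rho_mul]
    exact hMb _ (hMb _ hv)
  by_cases huM : u ∈ M
  · right
    apply le_antisymm hM
    have hbM : ∀ v ∈ F0 ρ R, ρ b v - v ∈ M := by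
      intro v _
      obtain ⟨α, β, e⟩ := range_N ρ hb hr hT v
      rw [Nl_apply] at e
      rw [e]
      refine M.add_mem (M.smul_mem _ (M.sub_mem (hMb _ huM) huM)) (M.smul_mem _ ?_)
      exact M.add_mem (M.add_mem (hMb _ (hMb _ huM)) (hMb _ huM)) huM
    have := quot_of_b ρ R hR hbN M hMR hMb hMb' hbM
    exact fun v hv => mem_of_sum ρ R h3 M this hv
  · left
    have hbu : ρ b u ∉ M := by
      intro h'
      apply huM
      have := hMb' _ h'
      rwa [rho_inv_self] at this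
    have hbbu : ρ b (ρ b u) ∉ M := by
      intro h'
      apply hbu
      have := hMb' _ h'
      rwa [rho_inv_self] at this
    have hr1 := h.rotv ρ hu1 hu2
    have hr2 := (h.rot).rotv ρ hr1.1 hr1.2.1
    have huq'' := h.wt'' ρ hu1 hu2
    have key : ∀ v ∈ M, ρ b v = v := by
      intro v hv
      obtain ⟨α, β, e⟩ := range_N ρ hb hr hT v
      have hw : Nl ρ b v ∈ M := M.sub_mem (hMb v hv) hv
      have e2 : Nl ρ b v = (β - α) • u + (α + β) • ρ b u + β • ρ b (ρ b u) := by
        rw [e, Nl_apply, Tl_apply, smul_sub, smul_add, smul_add, sub_smul, add_smul]; abel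
      have hsum : ∀ c : ZMod 3, c + c = 0 → c = 0 := by decide
      have hnot : ∀ (c : ZMod 3) (x : E), x ∉ M → (c + c) • x ∈ M → c = 0 := by
        intro c x hx hc
        by_contra hc0
        apply hx
        have hcc : c + c ≠ 0 := fun h' => hc0 (hsum c h')
        have := M.smul_mem (c + c)⁻¹ hc
        rwa [smul_smul, inv_mul_cancel₀ hcc, one_smul] at this
      have c0 : β - α = 0 := by
        apply hnot _ u huM
        have : (β - α + (β - α)) • u = Nl ρ b v + ρ q (Nl ρ b v) := by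
          rw [e2, map_add, map_add, map_smul, map_smul, map_smul, hu1, hr1.2.2, hr2.2.1, add_smul, smul_neg, smul_neg]
          abel
        rw [this]
        exact M.add_mem hw (hMR q hq _ hw)
      have c1 : α + β = 0 := by
        apply hnot _ _ hbu
        have : (α + β + (α + β)) • ρ b u = Nl ρ b v + ρ q' (Nl ρ b v) := by
          rw [e2, map_add, map_add, map_smul, map_smul, map_smul, hu2, hr1.1, hr2.2.2, add_smul, smul_neg, smul_neg]
          abel
        rw [this]
        exact M.add_mem hw (hMR q' hq' _ hw)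
      have c2 : β = 0 := by
        apply hnot _ _ hbbu
        have : (β + β) • ρ b (ρ b u) = Nl ρ b v + ρ q'' (Nl ρ b v) := by
          rw [e2, map_add, map_add, map_smul, map_smul, map_smul, huq'', hr1.2.1, hr2.1, add_smul, smul_neg, smul_neg]
          abel
        rw [this]
        exact M.add_mem hw (hMR q'' hq'' _ hw)
      have c3 : α = 0 := by rw [c2, add_zero] at c1; exact c1
      have e4 : Nl ρ b v = 0 := by rw [e, c2, c3]; simp
      rw [Nl_apply] at e4
      exact sub_eq_zero.1 e4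
    have ht := triv_of_b ρ R hR M hMR key
    rw [eq_bot_iff]
    intro v hv
    rw [Submodule.mem_bot]
    exact inf_bot ρ R h3 (hM hv) (fun r hr => ht r hr v hv)

end E

end H79.KB
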