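import Mathlib
import Cfsg.Agent.Lib.H79.KBc
import Cfsg.Agent.Lib.H97.AschDecomp

/-! Cubic element of order three with one Jordan block (S4415), part 4: the dichotomy for abelian normal subgroups. -/

set_option autoImplicit false

namespace H79.KB

open Subgroup Module Matrix
open Cfsg Cfsg.Geo H97.AschRad H97.AschIdem H97.AschDecomp

/-- matrices -/
abbrev MTy (V : Type*) [AddCommGroup V] [Module (ZMod 3) V] : Type :=
  Matrix (Fin (finrank (ZMod 3) V)) (Fin (finrank (ZMod 3) V)) (ZMod 3)

section D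

variable {Γ V : Type*} [Group Γ] [Finite Γ] [AddCommGroup V] [Module (ZMod 3) V] [Finite V]
  (ρ : Representation (ZMod 3) Γ V)

/-- the matrix representation in a basis -/
noncomputable def toGL {d : ℕ} (bs : Basis (Fin d) (ZMod 3) V) : Γ →* GL (Fin d) (ZMod 3) :=
  (Units.map ((LinearMap.toMatrixAlgEquiv bs : (V →ₗ[ZMod 3] V) ≃ₐ[ZMod 3] _) : (V →ₗ[ZMod 3] V) →* _)).comp
    ρ.toHomUnits

theorem toGL_val {d : ℕ} (bs : Basis (Fin d) (ZMod 3) V) (g : Γ) :
    ((toGL ρ bs g : GL (Fin d) (ZMod 3)) : Matrix (Fin d) (Fin d) (ZMod 3)) = LinearMap.toMatrix bs bs (ρ g) := rfl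

theorem toGL_mulVec {d : ℕ} (bs : Basis (Fin d) (ZMod 3) V) (g : Γ) (v : V) :
    ((toGL ρ bs g : GL (Fin d) (ZMod 3)) : Matrix (Fin d) (Fin d) (ZMod 3)) *ᵥ (bs.equivFun v) =
      bs.equivFun (ρ g v) := by
  rw [toGL_val]
  exact LinearMap.toMatrix_mulVec_repr bs bs (ρ g) v

theorem dich (hirr : ∀ M : Submodule (ZMod 3) V, (∀ g, ∀ v ∈ M, ρ g v ∈ M) → M = ⊥ ∨ M = ⊤) [Nontrivial V]
    (hfaith : Function.Injective ρ)
    (A : Subgroup Γ) [hAn : A.Normal] (hA : ∀ a ∈ A, ∀ b ∈ A, a * b = b * a) :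
    (∃ (t : ℕ) (D : Fin t → Submodule (ZMod 3) V), 2 ≤ t ∧ iSupIndep D ∧ iSup D = ⊤ ∧
      (∃ m, 0 < m ∧ ∀ i, finrank (ZMod 3) (D i) = m) ∧
      (∀ g, ∃ σ : Equiv.Perm (Fin t), ∀ i, (D i).map (ρ g) = D (σ i)) ∧
      (∀ a ∈ A, ∀ i, ∀ v ∈ D i, ρ a v ∈ D i) ∧
      (∀ i j, i ≠ j → ∀ v ∈ D i, ∀ w ∈ D j, v ≠ 0 → w ≠ 0 → ∃ a ∈ A, ¬ ∃ c : ZMod 3, ρ a v = c • v ∧ ρ a w = c • w)) ∨
    ((∀ a ∈ A, ∀ c : ZMod 3, (∃ v, v ≠ 0 ∧ ρ a v = c • v) → ∀ v, ρ a v = c • v) ∧ IsCyclic A) := by
  classical
  set bs := Module.finBasis (ZMod 3) V with hbs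
  have hd : 0 < finrank (ZMod 3) V := Module.finrank_pos
  haveI : Nonempty (Fin (finrank (ZMod 3) V)) := ⟨⟨0, hd⟩⟩
  set τ := toGL ρ bs with hτ
  set H := τ.range with hH
  set e := bs.equivFun with he
  have hτv : ∀ g v, ((τ g : GL _ (ZMod 3)) : MTy V) *ᵥ (e v) = e (ρ g v) := toGL_mulVec ρ bs
  have hτinj : Function.Injective τ := by
    intro x y hxy
    apply hfaith
    apply LinearMap.ext
    intro v
    apply e.injective
    rw [← hτv, ← hτv, hxy]
  -- irreducibility
  have hirr' : ActsIrreducibly (matrixSet H) := by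
    intro W hW
    have h1 := hirr (W.map e.symm.toLinearMap) (by
      rintro g _ ⟨w, hw, rfl⟩
      refine ⟨((τ g : GL _ (ZMod 3)) : MTy V) *ᵥ w, ?_, ?_⟩
      · apply hW _ ⟨τ g, ⟨g, rfl⟩, rfl⟩
        exact ⟨w, hw, Matrix.toLin'_apply _ _⟩
      · apply e.injective
        show e (e.symm _) = e (ρ g (e.symm w))
        rw [← hτv, LinearEquiv.apply_symm_apply, LinearEquiv.apply_symm_apply])
    rcases h1 with h1 | h1
    · left
      rw [eq_bot_iff]
      intro w hw
      have : e.symm w ∈ W.map e.symm.toLinearMap := ⟨w, hw, rfl⟩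
      rw [h1, Submodule.mem_bot] at this
      rw [Submodule.mem_bot]
      apply e.symm.injective
      rw [this, map_zero]
    · right
      rw [eq_top_iff]
      intro w _
      have : e.symm w ∈ W.map e.symm.toLinearMap := by rw [h1]; trivial
      obtain ⟨w', hw', h2⟩ := this
      have : w' = w := e.symm.injective h2
      rwa [← this]
  -- the algebra
  set MA : Set (MTy V) :=
    {x | ∃ a ∈ A, ((τ a : GL _ (ZMod 3)) : MTy V) = x} with hMA
  set Z := Algebra.adjoin (ZMod 3) MA with hZ
  have hcomm : ∀ x ∈ Z, ∀ y ∈ Z, x * y = y * x := by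
    have hc : ∀ x ∈ MA, ∀ y ∈ MA, x * y = y * x := by
      rintro _ ⟨a, ha, rfl⟩ _ ⟨b, hb, rfl⟩
      have := hA a ha b hb
      rw [← Units.val_mul, ← Units.val_mul, ← map_mul, ← map_mul, this]
    have := Algebra.isMulCommutative_adjoin (ZMod 3) hc
    intro x hx y hy
    exact setLike_mul_comm hx hy
  have hnorm : NormSet H (Z : Set _) := by
    rintro _ ⟨h, rfl⟩ x hx
    have hx' : x ∈ Algebra.adjoin (ZMod 3) MA := hx
    show _ ∈ Z
    induction hx' using Algebra.adjoin_induction with
    | mem a ha =>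
      apply Algebra.subset_adjoin
      obtain ⟨a, ha, rfl⟩ := ha
      refine ⟨h * a * h⁻¹, hAn.conj_mem a ha h, ?_⟩
      rw [map_mul, map_mul, map_inv, Units.val_mul, Units.val_mul]
    | algebraMap c =>
      rw [← Algebra.commutes, mul_assoc, Units.mul_inv, mul_one]
      exact Z.algebraMap_mem c
    | add a b _ _ iha ihb =>
      rw [mul_add, add_mul]
      exact Z.add_mem (iha (by assumption)) (ihb (by assumption))
    | mul a b _ _ iha ihb =>
      have : ((τ h : GL _ (ZMod 3)) : MTy V) * (a * b) * (((τ h)⁻¹ : GL _ (ZMod 3)) : MTy V) =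
          (((τ h : GL _ (ZMod 3)) : MTy V) * a * (((τ h)⁻¹ : GL _ (ZMod 3)) : MTy V)) *
          (((τ h : GL _ (ZMod 3)) : MTy V) * b * (((τ h)⁻¹ : GL _ (ZMod 3)) : MTy V)) := by
        have h1 : (((τ h)⁻¹ : GL _ (ZMod 3)) : MTy V) * ((τ h : GL _ (ZMod 3)) : MTy V) = 1 :=
          Units.inv_mul (τ h)
        simp only [mul_assoc]
        rw [← mul_assoc (((τ h)⁻¹ : GL _ (ZMod 3)) : MTy V) ((τ h : GL _ (ZMod 3)) : MTy V),
          h1, one_mul]
      rw [this]
      exact Z.mul_mem (iha (by assumption)) (ihb (by assumption))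
  have hAZ : ∀ a ∈ A, ((τ a : GL _ (ZMod 3)) : MTy V) ∈ Z := fun a ha =>
    Algebra.subset_adjoin ⟨a, ha, rfl⟩
  obtain ⟨t, I, hI, hinj, hsurj⟩ := exists_enum Z
  by_cases ht : 2 ≤ t
  · left
    obtain ⟨m, h1, h2⟩ := exists_decomposition Z hcomm H hnorm hirr' I hI hinj hsurj ht
    have hDe : ∀ i v, v ∈ (img (I i)).map e.symm.toLinearMap ↔ I i *ᵥ (e v) = e v := by
      intro i v
      constructor
      · rintro ⟨w, hw, rfl⟩
        show I i *ᵥ (e (e.symm w)) = e (e.symm w)
        rw [LinearEquiv.apply_symm_apply]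
        exact (mem_img_iff (hI i).2.1 w).1 hw
      · intro h
        exact ⟨e v, (mem_img_iff (hI i).2.1 _).2 h, e.symm_apply_apply v⟩
    refine ⟨t, fun i => (img (I i)).map e.symm.toLinearMap, ht, ?_, ?_, ⟨m, h1.pos, fun i => ?_⟩, ?_, ?_, ?_⟩
    · exact h1.indep.map_orderIso (Submodule.orderIsoMapComap e.symm)
    · rw [← Submodule.map_iSup, h1.iSup_eq_top, Submodule.map_top]
      exact LinearMap.range_eq_top.2 e.symm.surjective
    · rw [LinearEquiv.finrank_map_eq]
      exact h1.finrank_eq i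
    · intro g
      obtain ⟨σ, hσ⟩ := h2 (show τ g ∈ H from ⟨g, rfl⟩)
      refine ⟨σ, fun i => ?_⟩
      show ((img (I i)).map e.symm.toLinearMap).map (ρ g) = (img (I (σ i))).map e.symm.toLinearMap
      have hσi : (img (I i)).map (Matrix.toLin' ((τ g : GL _ (ZMod 3)) : MTy V)) = img (I (σ i)) := hσ i
      rw [← hσi, ← Submodule.map_comp, ← Submodule.map_comp]
      congr 1
      apply LinearMap.ext
      intro w
      show ρ g (e.symm w) = e.symm (Matrix.toLin' _ w)
      apply e.injective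
      rw [← hτv, LinearEquiv.apply_symm_apply, LinearEquiv.apply_symm_apply, Matrix.toLin'_apply]
    · intro a ha i v hv
      rw [hDe] at hv ⊢
      rw [← hτv, mulVec_mulVec, hcomm _ (hI i).1 _ (hAZ a ha), ← mulVec_mulVec, hv]
    · intro i j hij v hv w hw hv0 hw0
      by_contra hcon
      push Not at hcon
      rw [hDe] at hv hw
      let Y : Subalgebra (ZMod 3) (MTy V) :=
        { carrier := {x | ∃ c : ZMod 3, x *ᵥ (e v) = c • e v ∧ x *ᵥ (e w) = c • e w}
          mul_mem' := by
            rintro x y ⟨c, h3, h4⟩ ⟨c', h5, h6⟩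
            refine ⟨c' * c, ?_, ?_⟩
            · rw [← mulVec_mulVec, h5, mulVec_smul, h3, smul_smul]
            · rw [← mulVec_mulVec, h6, mulVec_smul, h4, smul_smul]
          add_mem' := by
            rintro x y ⟨c, h3, h4⟩ ⟨c', h5, h6⟩
            exact ⟨c + c', by rw [add_mulVec, h3, h5, add_smul], by rw [add_mulVec, h4, h6, add_smul]⟩
          algebraMap_mem' := by
            intro c
            refine ⟨c, ?_, ?_⟩
            · rw [Algebra.algebraMap_eq_smul_one, smul_mulVec, one_mulVec]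
            · rw [Algebra.algebraMap_eq_smul_one, smul_mulVec, one_mulVec] }
      have hZY : Z ≤ Y := by
        rw [hZ, Algebra.adjoin_le_iff]
        rintro _ ⟨a, ha, rfl⟩
        obtain ⟨c, h3, h4⟩ := hcon a ha
        exact ⟨c, by rw [hτv, h3, map_smul], by rw [hτv, h4, map_smul]⟩
      obtain ⟨c, h3, h4⟩ := hZY (hI i).1
      have hev : e v ≠ 0 := fun h => hv0 (e.injective (by rw [h, map_zero]))
      have hew : e w ≠ 0 := fun h => hw0 (e.injective (by rw [h, map_zero]))
      have hc1 : c = 1 := by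
        rw [hv] at h3
        have : (1 - c) • e v = 0 := by rw [sub_smul, one_smul, ← h3, sub_self]
        exact (sub_eq_zero.1 ((smul_eq_zero.1 this).resolve_right hev)).symm
      have hw2 : e w ∈ img (I i) := (mem_img_iff (hI i).2.1 _).2 (by rw [h4, hc1, one_smul])
      have hw3 : e w ∈ img (I j) := (mem_img_iff (hI j).2.1 _).2 hw
      have := (h1.indep.pairwiseDisjoint hij).le_bot ⟨hw2, hw3⟩
      exact hew ((Submodule.mem_bot _).1 this)
  · right
    have hfield : IsFieldSubalgebra (finrank (ZMod 3) Z) Z := by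
      apply isFieldSubalgebra_of_idem Z hcomm H hnorm hirr'
      obtain ⟨e0, he0, _⟩ := exists_primIdem_le Z hcomm (g := 1) Z.one_mem (mul_one 1) one_ne_zero
      have huniq : ∀ e ∈ primIdem Z, e = e0 := by
        intro e he
        obtain ⟨i, hi⟩ := hsurj e he
        obtain ⟨j, hj⟩ := hsurj e0 he0
        have : i = j := by
          apply Fin.ext
          have := i.2
          have := j.2
          omega
        rw [← hi, ← hj, this]
      have hsum : ∑ e ∈ ({e0} : Finset (MTy V)), e = 1 := by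
        apply sum_primIdem_eq_one Z hcomm
        intro e
        rw [Finset.mem_singleton]
        exact ⟨fun h => h ▸ he0, huniq e⟩
      rw [Finset.sum_singleton] at hsum
      intro e he
      rw [huniq e he, hsum]
    refine ⟨?_, ?_⟩
    · rintro a ha c ⟨v, hv0, hv⟩
      have hev : e v ≠ 0 := fun h => hv0 (e.injective (by rw [h, map_zero]))
      set x := ((τ a : GL _ (ZMod 3)) : MTy V) - algebraMap (ZMod 3) _ c with hx
      have hxZ : x ∈ Z := Z.sub_mem (hAZ a ha) (Z.algebraMap_mem c)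
      have hxv : x *ᵥ (e v) = 0 := by
        rw [hx, sub_mulVec, hτv, hv, map_smul, Algebra.algebraMap_eq_smul_one, smul_mulVec, one_mulVec, sub_self]
      have hx0 : x = 0 := by
        by_contra hne
        obtain ⟨y, hyZ, hy⟩ := hfield.inv x hxZ hne
        apply hev
        have hy' : y * x = 1 := by rw [hcomm y hyZ x hxZ, hy]
        rw [← one_mulVec (e v), ← hy', ← mulVec_mulVec, hxv, mulVec_zero]
      intro v'
      apply e.injective
      have h5 : x *ᵥ (e v') = 0 := by rw [hx0, zero_mulVec]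
      rw [hx, sub_mulVec, hτv, Algebra.algebraMap_eq_smul_one, smul_mulVec, one_mulVec, sub_eq_zero] at h5
      rw [h5, map_smul]
    · letI : CommRing Z := { (inferInstance : Ring Z) with
        mul_comm := fun x y => Subtype.ext (hcomm x x.2 y y.2) }
      haveI : Nontrivial Z := inferInstance
      haveI : IsDomain Z := by
        haveI : NoZeroDivisors Z := ⟨by
          intro x y hxy
          by_contra hne
          push Not at hne
          obtain ⟨x', hx'Z, hx'⟩ := hfield.inv x x.2 (fun h => hne.1 (Subtype.ext h))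
          apply hne.2
          apply Subtype.ext
          have h6 : (x : MTy V) * y = 0 := congrArg Subtype.val hxy
          have h7 : x' * (x : MTy V) = 1 := by rw [hcomm x' hx'Z x x.2, hx']
          show (y : MTy V) = 0
          rw [← one_mul (y : MTy V), ← h7, mul_assoc, h6, mul_zero]⟩
        exact NoZeroDivisors.to_isDomain _
      let f : A →* Z :=
        { toFun := fun a => ⟨((τ a : GL _ (ZMod 3)) : MTy V), hAZ a a.2⟩
          map_one' := by
            apply Subtype.ext
            show ((τ ((1 : A) : Γ) : GL _ (ZMod 3)) : MTy V) = 1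
            rw [Subgroup.coe_one, map_one, Units.val_one]
          map_mul' := by
            intro a b
            apply Subtype.ext
            show ((τ ((a * b : A) : Γ) : GL _ (ZMod 3)) : MTy V) = _ * _
            rw [Subgroup.coe_mul, map_mul, Units.val_mul] }
      apply isCyclic_of_injective_ringHom f
      intro a b hab
      apply Subtype.ext
      apply hτinj
      apply Units.ext
      exact congrArg Subtype.val hab

end D

end H79.KB
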