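import Mathlib
import Cfsg.Agent.Lib.H79.KBd

/-! Cubic element of order three with one Jordan block (S4415), part 5: permutation analysis of a block system. -/

set_option autoImplicit false

namespace H79.KB

open Subgroup Module
open scoped commutatorElement Pointwise

/-- the irreducible configuration -/
structure Cfg {Γ V : Type*} [Group Γ] [AddCommGroup V] [Module (ZMod 3) V]
    (ρ : Representation (ZMod 3) Γ V) (R : Subgroup Γ) (b q q' q'' : Γ) : Prop where
  sol : Group.IsSolvable Γ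
  inj : Function.Injective ρ
  irr : ∀ M : Submodule (ZMod 3) V, (∀ g, ∀ v ∈ M, ρ g v ∈ M) → M = ⊥ ∨ M = ⊤
  nor : R.Normal
  cop : (Nat.card R).Coprime 3
  b3 : b ^ 3 = 1
  gen : ∀ g, ∃ r ∈ R, ∃ i : ℕ, g = r * b ^ i
  comm : R ≤ ⁅R, zpowers b⁆
  r2 : finrank (ZMod 3) (LinearMap.range (Nl ρ b)) ≤ 2
  r1 : finrank (ZMod 3) (LinearMap.range (Tl ρ b)) ≤ 1
  v4 : V4 b q q' q''
  hq : q ∈ R
  hq' : q' ∈ R
  hq'' : q'' ∈ R

section

variable {Γ V : Type*} [Group Γ] [Finite Γ] [AddCommGroup V] [Module (ZMod 3) V] [Finite V]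
  {ρ : Representation (ZMod 3) Γ V} {R : Subgroup Γ} {b q q' q'' : Γ}

/-- a subgroup containing `b` and closed under conjugation by `b` and with all `[r,b]` is everything -/
theorem Cfg.top_of (c : Cfg ρ R b q q' q'') (H : Subgroup Γ) (hb : b ∈ H)
    (h : ∀ r ∈ R, r * b * r⁻¹ ∈ H) : ∀ g, g ∈ H := by
  have hR : R ≤ H := gen_of_comm R b c.comm H
    (fun r hr => H.mul_mem (h r hr) (H.inv_mem hb))
    (fun x hx => H.mul_mem (H.mul_mem hb hx) (H.inv_mem hb))
  intro g
  obtain ⟨r, hr, i, rfl⟩ := c.gen g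
  exact H.mul_mem (hR hr) (H.pow_mem hb i)

theorem Cfg.cube_mem (c : Cfg ρ R b q q' q'') (g : Γ) : g ^ 3 ∈ R := by
  haveI := c.nor
  rw [← QuotientGroup.eq_one_iff]
  obtain ⟨r, hr, i, rfl⟩ := c.gen g
  have h1 : ((r * b ^ i : Γ) : Γ ⧸ R) = ((b ^ i : Γ) : Γ ⧸ R) := by
    rw [QuotientGroup.mk_mul, (QuotientGroup.eq_one_iff r).2 hr, one_mul]
  rw [QuotientGroup.mk_pow, h1, ← QuotientGroup.mk_pow, ← pow_mul, mul_comm, pow_mul, c.b3, one_pow]
  rfl

/-- the data of a block system -/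
structure BD (ρ : Representation (ZMod 3) Γ V) (t : ℕ) (D : Fin t → Submodule (ZMod 3) V) : Prop where
  two : 2 ≤ t
  ind : iSupIndep D
  top : iSup D = ⊤
  fr : ∃ m, 0 < m ∧ ∀ i, finrank (ZMod 3) (D i) = m
  perm : ∀ g, ∃ σ : Equiv.Perm (Fin t), ∀ i, (D i).map (ρ g) = D (σ i)

variable {t : ℕ} {D : Fin t → Submodule (ZMod 3) V}

theorem BD.ne_bot (h : BD ρ t D) (i : Fin t) : D i ≠ ⊥ := by
  intro h0
  obtain ⟨m, hm, h1⟩ := h.fr
  have := h1 i
  rw [h0, finrank_bot] at this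
  omega

theorem BD.zero_of {h : BD ρ t D} {i : Fin t} {v : V} (hv : v ∈ D i) (hv' : v ∈ ⨆ j ≠ i, D j) : v = 0 :=
  (Submodule.mem_bot _).1 ((h.ind i).le_bot ⟨hv, hv'⟩)

theorem BD.inj (h : BD ρ t D) : Function.Injective D := by
  intro i j hij
  by_contra hne
  apply h.ne_bot i
  rw [eq_bot_iff]
  intro v hv
  rw [Submodule.mem_bot]
  refine BD.zero_of (h := h) hv ?_
  rw [hij] at hv
  exact Submodule.mem_iSup_of_mem j (Submodule.mem_iSup_of_mem (Ne.symm hne) hv)

/-- the permutation homomorphism -/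
noncomputable def BD.pi (h : BD ρ t D) : Γ →* Equiv.Perm (Fin t) where
  toFun g := Classical.choose (h.perm g)
  map_one' := by
    ext i
    have h1 := Classical.choose_spec (h.perm 1) i
    have h2 : (D i).map (ρ 1) = D i := by
      rw [map_one]; ext v; simp
    rw [← h.inj (h2.symm.trans h1)]
    rfl
  map_mul' g g' := by
    ext i
    have h1 := Classical.choose_spec (h.perm (g * g')) i
    have h2 := Classical.choose_spec (h.perm g') i
    have h3 := Classical.choose_spec (h.perm g) (Classical.choose (h.perm g') i)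
    have h4 : (D i).map (ρ (g * g')) = ((D i).map (ρ g')).map (ρ g) := by
      rw [map_mul]; exact Submodule.map_comp _ _ _
    have h5 := h1.symm.trans (h4.trans ((congrArg (Submodule.map (ρ g)) h2).trans h3))
    rw [h.inj h5]
    rfl

theorem BD.pi_spec (h : BD ρ t D) (g : Γ) (i : Fin t) : (D i).map (ρ g) = D (h.pi g i) :=
  Classical.choose_spec (h.perm g) i

theorem BD.pi_mem (h : BD ρ t D) (g : Γ) {i : Fin t} {v : V} (hv : v ∈ D i) : ρ g v ∈ D (h.pi g i) := by
  rw [← h.pi_spec]; exact ⟨v, hv, rfl⟩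

/-- transitivity -/
theorem BD.trans (c : Cfg ρ R b q q' q'') (h : BD ρ t D) (i j : Fin t) : ∃ g, h.pi g i = j := by
  by_contra hcon
  push Not at hcon
  have h1 := c.irr (⨆ g, D (h.pi g i)) (by
    intro g v hv
    induction hv using Submodule.iSup_induction' with
    | mem k x hx =>
      have : ρ g x ∈ D (h.pi (g * k) i) := by
        rw [map_mul]; exact h.pi_mem g hx
      exact Submodule.mem_iSup_of_mem (g * k) this
    | zero => rw [map_zero]; exact Submodule.zero_mem _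
    | add x y _ _ hx hy => rw [map_add]; exact Submodule.add_mem _ hx hy)
  rcases h1 with h1 | h1
  · apply h.ne_bot (h.pi 1 i)
    rw [eq_bot_iff, ← h1]
    exact le_iSup (fun g => D (h.pi g i)) 1
  · apply h.ne_bot j
    rw [eq_bot_iff]
    intro v hv
    rw [Submodule.mem_bot]
    refine BD.zero_of (h := h) hv ?_
    have h2 : v ∈ ⨆ g, D (h.pi g i) := by rw [h1]; trivial
    refine (iSup_le fun g => ?_ : (⨆ g, D (h.pi g i)) ≤ ⨆ k ≠ j, D k) h2
    exact le_iSup₂_of_le (h.pi g i) (hcon g) le_rfl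

theorem BD.moves (c : Cfg ρ R b q q' q'') (h : BD ρ t D) : ∃ i, h.pi b i ≠ i := by
  by_contra hcon
  push Not at hcon
  have hb1 : h.pi b = 1 := Equiv.ext hcon
  have hall := c.top_of h.pi.ker (MonoidHom.mem_ker.2 hb1) (by
    intro r _
    rw [MonoidHom.mem_ker, map_mul, map_mul, hb1, map_inv]
    group)
  have i0 : Fin t := ⟨0, by have := h.two; omega⟩
  have i1 : Fin t := ⟨1, by have := h.two; omega⟩
  obtain ⟨g, hg⟩ := h.trans c ⟨0, by have := h.two; omega⟩ ⟨1, by have := h.two; omega⟩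
  rw [MonoidHom.mem_ker.1 (hall g)] at hg
  have := congrArg Fin.val hg
  simp at this

theorem BD.pi_b3 (c : Cfg ρ R b q q' q'') (h : BD ρ t D) (i : Fin t) :
    h.pi b (h.pi b (h.pi b i)) = i := by
  rw [← Equiv.Perm.mul_apply, ← Equiv.Perm.mul_apply, ← map_mul, ← map_mul]
  have : b * b * b = 1 := by rw [← c.b3]; simp [pow_succ]
  rw [this, map_one]; rfl

theorem BD.ne2 (c : Cfg ρ R b q q' q'') (h : BD ρ t D) {i : Fin t} (hi : h.pi b i ≠ i) :
    h.pi b (h.pi b i) ≠ i ∧ h.pi b (h.pi b i) ≠ h.pi b i := by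
  constructor
  · intro h1
    apply hi
    have := h.pi_b3 c i
    rw [h1] at this
    exact this
  · intro h1
    exact hi ((h.pi b).injective h1)

theorem BD.T_inj (c : Cfg ρ R b q q' q'') (h : BD ρ t D) {i : Fin t} (hi : h.pi b i ≠ i) {v : V}
    (hv : v ∈ D i) (hT : Tl ρ b v = 0) : v = 0 := by
  refine BD.zero_of (h := h) hv ?_
  rw [Tl_apply] at hT
  have h1 : v = -(ρ b (ρ b v) + ρ b v) := by
    rw [eq_neg_iff_add_eq_zero, add_comm]; exact hT
  rw [h1]
  apply Submodule.neg_mem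
  obtain ⟨n1, n2⟩ := h.ne2 c hi
  have hb1 := h.pi_mem b hv
  have hb2 := h.pi_mem b hb1
  exact Submodule.add_mem _ (Submodule.mem_iSup_of_mem _ (Submodule.mem_iSup_of_mem n1 hb2))
    (Submodule.mem_iSup_of_mem _ (Submodule.mem_iSup_of_mem hi hb1))

theorem BD.line (c : Cfg ρ R b q q' q'') (h : BD ρ t D) (i : Fin t) : finrank (ZMod 3) (D i) = 1 := by
  obtain ⟨m, hm, hf⟩ := h.fr
  obtain ⟨j, hj⟩ := h.moves c
  rw [hf i, ← hf j]
  have h1 : finrank (ZMod 3) (D j) ≤ 1 := by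
    refine le_trans ?_ c.r1
    let f : D j →ₗ[ZMod 3] LinearMap.range (Tl ρ b) := (Tl ρ b).rangeRestrict ∘ₗ (D j).subtype
    apply LinearMap.finrank_le_finrank_of_injective (f := f)
    rw [← LinearMap.ker_eq_bot, LinearMap.ker_eq_bot']
    rintro ⟨v, hv⟩ hv0
    apply Subtype.ext
    refine h.T_inj c hj hv ?_
    exact congrArg Subtype.val hv0
  rw [hf j] at h1 ⊢
  omega

theorem BD.one_orbit (c : Cfg ρ R b q q' q'') (h : BD ρ t D) {i j : Fin t} (hi : h.pi b i ≠ i)
    (hj : h.pi b j ≠ j) : j = i ∨ j = h.pi b i ∨ j = h.pi b (h.pi b i) := by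
  by_contra hcon
  push Not at hcon
  obtain ⟨n1, n2, n3⟩ := hcon
  obtain ⟨v, hv, hv0⟩ := (Submodule.ne_bot_iff _).1 (h.ne_bot i)
  obtain ⟨w, hw, hw0⟩ := (Submodule.ne_bot_iff _).1 (h.ne_bot j)
  have hTv : Tl ρ b v ≠ 0 := fun h' => hv0 (h.T_inj c hi hv h')
  -- T w is a multiple of T v
  have h1 : ∃ s : ZMod 3, s • Tl ρ b v = Tl ρ b w := by
    have hle : finrank (ZMod 3) (LinearMap.range (Tl ρ b)) = 1 := by
      apply le_antisymm c.r1
      rw [Nat.one_le_iff_ne_zero]
      intro h0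
      have := Submodule.finrank_eq_zero.1 h0
      apply hTv
      have h2 : Tl ρ b v ∈ LinearMap.range (Tl ρ b) := ⟨v, rfl⟩
      rw [this, Submodule.mem_bot] at h2
      exact h2
    obtain ⟨s, hs⟩ := exists_smul_eq_of_finrank_eq_one hle
      (x := (⟨Tl ρ b v, ⟨v, rfl⟩⟩ : LinearMap.range (Tl ρ b))) (fun h' => hTv (congrArg Subtype.val h'))
      ⟨Tl ρ b w, ⟨w, rfl⟩⟩
    exact ⟨s, congrArg Subtype.val hs⟩
  obtain ⟨s, hs⟩ := h1
  apply hw0
  refine BD.zero_of (h := h) hw ?_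
  have h2 : w = s • Tl ρ b v - (ρ b (ρ b w) + ρ b w) := by
    rw [hs, Tl_apply]; abel
  rw [h2]
  obtain ⟨m1, m2⟩ := h.ne2 c hj
  have hb1 := h.pi_mem b hv
  have hb2 := h.pi_mem b hb1
  have hc1 := h.pi_mem b hw
  have hc2 := h.pi_mem b hc1
  have key : ∀ k, k ≠ j → ∀ x ∈ D k, x ∈ ⨆ k ≠ j, D k := fun k hk x hx =>
    Submodule.mem_iSup_of_mem _ (Submodule.mem_iSup_of_mem hk hx)
  apply Submodule.sub_mem
  · apply Submodule.smul_mem
    rw [Tl_apply]
    exact Submodule.add_mem _ (Submodule.add_mem _ (key _ (Ne.symm n3) _ hb2) (key _ (Ne.symm n2) _ hb1))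
      (key _ (Ne.symm n1) _ hv)
  · exact Submodule.add_mem _ (key _ m1 _ hc2) (key _ hj _ hc1)

/-- the element `b` acts as a three-cycle -/
theorem BD.threeCycle (c : Cfg ρ R b q q' q'') (h : BD ρ t D) : (h.pi b).IsThreeCycle := by
  classical
  obtain ⟨i, hi⟩ := h.moves c
  obtain ⟨n1, n2⟩ := h.ne2 c hi
  rw [← card_support_eq_three_iff]
  have : (h.pi b).support = {i, h.pi b i, h.pi b (h.pi b i)} := by
    ext j
    rw [Equiv.Perm.mem_support]
    simp only [Finset.mem_insert, Finset.mem_singleton]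
    constructor
    · intro hj
      exact h.one_orbit c hi hj
    · rintro (rfl | rfl | rfl)
      · exact hi
      · exact n2
      · rw [h.pi_b3 c]; exact n1.symm
  rw [this, Finset.card_insert_of_notMem, Finset.card_insert_of_notMem, Finset.card_singleton]
  · simpa using n2.symm
  · simp only [Finset.mem_insert, Finset.mem_singleton, not_or]
    exact ⟨hi.symm, n1.symm⟩

theorem BD.alt_le (c : Cfg ρ R b q q' q'') (h : BD ρ t D) : alternatingGroup (Fin t) ≤ h.pi.range := by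
  classical
  have hpre : MulAction.IsPreprimitive h.pi.range (Fin t) := by
    haveI : MulAction.IsPretransitive h.pi.range (Fin t) := ⟨by
      intro i j
      obtain ⟨g, hg⟩ := h.trans c i j
      exact ⟨⟨h.pi g, ⟨g, rfl⟩⟩, hg⟩⟩
    refine ⟨?_⟩
    intro B hB
    by_contra hnt
    unfold MulAction.IsTrivialBlock at hnt
    push Not at hnt
    obtain ⟨hns, hnu⟩ := hnt
    obtain ⟨x, hx, y, hy, hxy⟩ := hns
    apply hnu
    have key : ∀ g, g * b * g⁻¹ ∈ (MulAction.stabilizer h.pi.range B).comap h.pi.rangeRestrict := by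
      intro g
      rw [Subgroup.mem_comap, MulAction.mem_stabilizer_iff]
      rcases hB.smul_eq_or_disjoint (h.pi.rangeRestrict (g * b * g⁻¹)) with h1 | h1
      · exact h1
      · exfalso
        have hmem : ∀ z ∈ B, h.pi (g * b * g⁻¹) z ∈ h.pi.rangeRestrict (g * b * g⁻¹) • B := fun z hz =>
          ⟨z, hz, rfl⟩
        have hno : ∀ z ∈ B, h.pi (g * b * g⁻¹) z ∉ B := fun z hz hz' =>
          Set.disjoint_left.1 h1 (hmem z hz) hz'
        have hconj : ∀ z, h.pi (g * b * g⁻¹) z = h.pi g (h.pi b (h.pi g⁻¹ z)) := by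
          intro z
          rw [map_mul, map_mul]; rfl
        have hgi : ∀ z, h.pi g (h.pi g⁻¹ z) = z := by
          intro z
          rw [← Equiv.Perm.mul_apply, ← map_mul, mul_inv_cancel, map_one]; rfl
        have hmv : ∀ z ∈ B, h.pi b (h.pi g⁻¹ z) ≠ h.pi g⁻¹ z := by
          intro z hz h2
          apply hno z hz
          rw [hconj, h2, hgi]; exact hz
        rcases h.one_orbit c (hmv x hx) (hmv y hy) with h2 | h2 | h2
        · exact hxy ((h.pi g⁻¹).injective h2).symm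
        · apply hno x hx
          rw [hconj, ← h2, hgi]; exact hy
        · apply hno y hy
          rw [hconj, h2, h.pi_b3 c, hgi]; exact hx
    have hall := c.top_of _ (by simpa using key 1) (fun r _ => key r)
    rw [Set.eq_univ_iff_forall]
    intro z
    obtain ⟨g, hg⟩ := h.trans c x z
    have h2 := hall g
    rw [Subgroup.mem_comap, MulAction.mem_stabilizer_iff] at h2
    rw [← h2, ← hg]
    exact ⟨x, hx, rfl⟩
  exact Equiv.Perm.alternatingGroup_le_of_isPreprimitive_of_isThreeCycle_mem hpre (h.threeCycle c) ⟨b, rfl⟩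

end

end H79.KB
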