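import Mathlib
import Cfsg.Agent.Lib.H79.KBe

/-! Cubic element of order three with one Jordan block (S4415), part 6: the monomial case. -/

set_option autoImplicit false
set_option maxRecDepth 100000

namespace H79.KB

open Subgroup Module
open scoped commutatorElement

theorem dec3 : ∀ σ : Equiv.Perm (Fin 3), Equiv.Perm.sign σ = 1 → σ ^ 3 = 1 := by decide
theorem dec4 : ∀ σ : Equiv.Perm (Fin 4), Equiv.Perm.sign σ = 1 → σ ^ 2 = 1 ∨ σ ^ 3 = 1 := by decide
theorem dec4t : ∀ i j : Fin 4, ∃ σ : Equiv.Perm (Fin 4), Equiv.Perm.sign σ = 1 ∧ σ ^ 2 = 1 ∧ σ i = j := by decide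
theorem dec4s : ∀ σ : Equiv.Perm (Fin 4), Equiv.Perm.sign σ = 1 → σ ^ 2 = 1 → ∀ f : Fin 4 → ℤˣ, ∏ i, f i = 1 →
    (∀ i, f (σ i) * f i = 1) ∨ (∀ i, f (σ i) * f i = -1) := by decide
theorem card3 : Fintype.card {f : Fin 3 → ℤˣ // ∏ i, f i = 1} = 4 := by decide
theorem card4f : Fintype.card {f : Fin 4 → ℤˣ // ∏ i, f i = 1} = 8 := by decide
theorem card4p : Fintype.card {σ : Equiv.Perm (Fin 4) // Equiv.Perm.sign σ = 1 ∧ σ ^ 2 = 1} = 4 := by decide
theorem signU : ∀ u w : ℤˣ, (((u : ℤ) : ZMod 3)) = ((w : ℤ) : ZMod 3) → u = w := by decide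
theorem signE : ∀ c : ZMod 3, c ≠ 0 → ∃ u : ℤˣ, ((u : ℤ) : ZMod 3) = c := by decide
theorem pat4 : ∀ f : Fin 4 → ℤˣ, ∏ i, f i = 1 → ¬ (∀ i j, f i = f j) → ∀ f' : Fin 4 → ℤˣ, ∏ i, f' i = 1 →
    ¬ (∀ i j, f' i = f' j) → ∃ σ : Equiv.Perm (Fin 4), Equiv.Perm.sign σ = 1 ∧ ∀ i, f' i = f (σ i) := by decide

section

variable {Γ V : Type*} [Group Γ] [Finite Γ] [AddCommGroup V] [Module (ZMod 3) V] [Finite V]
  {ρ : Representation (ZMod 3) Γ V} {R : Subgroup Γ} {b q q' q'' : Γ}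
  {t : ℕ} {D : Fin t → Submodule (ZMod 3) V}

theorem BD.three_le (c : Cfg ρ R b q q' q'') (h : BD ρ t D) : 3 ≤ t := by
  have h1 := h.threeCycle c
  rw [← card_support_eq_three_iff] at h1
  rw [← h1]
  exact (Finset.card_le_univ _).trans (by simp)

theorem BD.le_four (c : Cfg ρ R b q q' q'') (h : BD ρ t D) : t ≤ 4 := by
  by_contra hcon
  push Not at hcon
  haveI := c.sol
  haveI h1 : Group.IsSolvable h.pi.range := Group.isSolvable_of_surjective h.pi.rangeRestrict_surjective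
  haveI h2 : Group.IsSolvable (alternatingGroup (Fin t)) :=
    Group.isSolvable_of_isSolvable_injective (Subgroup.inclusion_injective (h.alt_le c))
  have h3 : Group.IsSolvable (Equiv.Perm (Fin t)) := by
    refine Group.isSolvable_of_ker_le_range (alternatingGroup (Fin t)).subtype (Equiv.Perm.sign : Equiv.Perm (Fin t) →* ℤˣ) ?_
    rw [Subgroup.range_subtype]
    exact le_rfl
  refine Equiv.Perm.not_isSolvable (Fin t) ?_ h3
  rw [Cardinal.mk_fin]
  exact_mod_cast hcon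

/-- monomial data -/
structure MD (ρ : Representation (ZMod 3) Γ V) (R : Subgroup Γ) (t : ℕ) (π : Γ →* Equiv.Perm (Fin t))
    (s : Γ → Fin t → ℤˣ) (e : Fin t → V) : Prop where
  coc : ∀ g g' i, s (g * g') i = s g (π g' i) * s g' i
  inj : ∀ g, π g = 1 → (∀ i, s g i = 1) → g = 1
  act : ∀ g i, ρ g (e i) = ((s g i : ℤ) : ZMod 3) • e (π g i)
  sgn : ∀ r ∈ R, Equiv.Perm.sign (π r) = 1
  prd : ∀ r ∈ R, ∏ i, s r i = 1
  alt : ∀ σ, Equiv.Perm.sign σ = 1 → ∃ g, π g = σ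

theorem BD.exists_md (c : Cfg ρ R b q q' q'') (h : BD ρ t D) :
    ∃ (s : Γ → Fin t → ℤˣ) (e : Fin t → V), MD ρ R t h.pi s e ∧ ∀ i, e i ∈ D i ∧ e i ≠ 0 := by
  classical
  have hex : ∀ i, ∃ v ∈ D i, v ≠ 0 := fun i => (Submodule.ne_bot_iff _).1 (h.ne_bot i)
  choose e he he0 using hex
  have hspan : ∀ i, ∀ v ∈ D i, ∃ a : ZMod 3, a • e i = v := by
    intro i v hv
    obtain ⟨s, hs⟩ := exists_smul_eq_of_finrank_eq_one (h.line c i)
      (x := (⟨e i, he i⟩ : D i)) (fun h' => he0 i (congrArg Subtype.val h')) ⟨v, hv⟩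
    exact ⟨s, congrArg Subtype.val hs⟩
  have hs : ∀ g i, ∃ u : ℤˣ, ρ g (e i) = ((u : ℤ) : ZMod 3) • e (h.pi g i) := by
    intro g i
    obtain ⟨a, ha⟩ := hspan _ _ (h.pi_mem g (he i))
    have ha0 : a ≠ 0 := by
      rintro rfl
      rw [zero_smul] at ha
      apply he0 i
      apply rho_inj ρ g
      rw [← ha, map_zero]
    obtain ⟨u, hu⟩ := signE a ha0
    exact ⟨u, by rw [hu, ha]⟩
  choose s hs using hs
  have huniq : ∀ (i : Fin t) (u w : ℤˣ), ((u : ℤ) : ZMod 3) • e i = ((w : ℤ) : ZMod 3) • e i → u = w := by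
    intro i u w huw
    apply signU
    rw [← sub_eq_zero, ← sub_smul] at huw
    exact sub_eq_zero.1 ((smul_eq_zero.1 huw).resolve_right (he0 i))
  have hcoc : ∀ g g' i, s (g * g') i = s g (h.pi g' i) * s g' i := by
    intro g g' i
    apply huniq (h.pi (g * g') i)
    rw [← hs, rho_mul, hs g' i, map_smul, hs g, smul_smul, map_mul, Equiv.Perm.mul_apply]
    congr 1
    push_cast
    ring
  have hs1 : ∀ i, s 1 i = 1 := by
    intro i
    have := hcoc 1 1 i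
    rw [map_one, mul_one, Equiv.Perm.one_apply] at this
    exact (mul_eq_left.1 this.symm)
  have hcomm : R ≤ commutator Γ := c.comm.trans (Subgroup.commutator_mono le_top le_top)
  let χ : Γ →* ℤˣ :=
    { toFun := fun g => ∏ i, s g i
      map_one' := Finset.prod_eq_one fun i _ => hs1 i
      map_mul' := by
        intro g g'
        rw [Finset.prod_congr rfl (fun i _ => hcoc g g' i), Finset.prod_mul_distrib]
        congr 1
        exact Equiv.prod_comp (h.pi g') (fun i => s g i) }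
  refine ⟨s, e, ⟨hcoc, ?_, hs, ?_, ?_, ?_⟩, fun i => ⟨he i, he0 i⟩⟩
  · intro g hg hg'
    apply c.inj
    rw [map_one]
    apply LinearMap.ext
    intro v
    have hv : v ∈ iSup D := by rw [h.top]; trivial
    show ρ g v = v
    induction hv using Submodule.iSup_induction' with
    | mem i x hx =>
      obtain ⟨a, rfl⟩ := hspan i x hx
      rw [map_smul, hs, hg, hg']
      simp
    | zero => rw [map_zero]
    | add x y _ _ hx hy => rw [map_add, hx, hy]
  · intro r hr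
    have := (Abelianization.commutator_subset_ker (Equiv.Perm.sign.comp h.pi)) (hcomm hr)
    exact this
  · intro r hr
    exact (Abelianization.commutator_subset_ker χ) (hcomm hr)
  · intro σ hσ
    exact h.alt_le c (Equiv.Perm.mem_alternatingGroup.2 hσ)

theorem pow_cop {G : Type*} [Group G] {R : Subgroup Γ} (hcop : (Nat.card R).Coprime 3) (f : Γ →* G) {r : Γ} (hr : r ∈ R)
    (h3 : (f r) ^ 3 = 1) : f r = 1 := by
  have h1 : (f r) ^ (Nat.card R) = 1 := by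
    have : (⟨r, hr⟩ : R) ^ (Nat.card R) = 1 := pow_card_eq_one'
    have h2 : r ^ Nat.card R = 1 := congrArg Subtype.val this
    rw [← map_pow, h2, map_one]
  have h2 : orderOf (f r) ∣ 1 := by
    rw [← hcop]
    exact Nat.dvd_gcd (orderOf_dvd_of_pow_eq_one h1) (orderOf_dvd_of_pow_eq_one h3)
  exact orderOf_eq_one_iff.1 (Nat.dvd_one.1 h2)

theorem V4.four_le (hv : V4 b q q' q'') (hq : q ∈ R) (hq' : q' ∈ R) (hq'' : q'' ∈ R) : 4 ≤ Nat.card R := by
  have n1 := hv.n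
  have n1' := hv.rot.n
  have n1'' := hv.rot.rot.n
  have n2 : q ≠ q' := by
    intro h
    apply n1''
    rw [← hv.h4, ← h, hv.s]
  have n3 : q' ≠ q'' := by
    intro h
    apply n1
    rw [← hv.comm2, ← h, hv.s']
  have n4 : q ≠ q'' := by
    intro h
    apply n1'
    have h4 := hv.h4
    rw [← h] at h4
    exact mul_eq_left.1 h4
  have h1 : ({1, q, q', q''} : Set Γ).ncard = 4 := by
    rw [Set.ncard_insert_of_notMem, Set.ncard_insert_of_notMem, Set.ncard_insert_of_notMem, Set.ncard_singleton]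
    · simpa using n3
    · simp only [Set.mem_insert_iff, Set.mem_singleton_iff, not_or]
      exact ⟨n2, n4⟩
    · simp only [Set.mem_insert_iff, Set.mem_singleton_iff, not_or]
      exact ⟨n1.symm, n1'.symm, n1''.symm⟩
  rw [← h1, ← SetLike.coe_sort_coe, Nat.card_coe_set_eq]
  apply Set.ncard_le_ncard _ (Set.toFinite _)
  rintro x (rfl | rfl | rfl | rfl)
  · exact R.one_mem
  · exact hq
  · exact hq'
  · exact hq''

theorem mono3 (c : Cfg ρ R b q q' q'') {π : Γ →* Equiv.Perm (Fin 3)} {s : Γ → Fin 3 → ℤˣ} {e : Fin 3 → V}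
    (m : MD ρ R 3 π s e) : Nat.card R = 4 ∧ (∀ x ∈ R, x * x = 1) ∧ ∀ x ∈ R, ∀ y ∈ R, x * y = y * x := by
  have h1 : ∀ r ∈ R, π r = 1 := fun r hr => pow_cop c.cop π hr (dec3 _ (m.sgn r hr))
  have h2 : ∀ x, ∀ r ∈ R, ∀ i, s (x * r) i = s x i * s r i := by
    intro x r hr i
    rw [m.coc, h1 r hr]; rfl
  have h3 : ∀ x ∈ R, ∀ y ∈ R, (∀ i, s x i = s y i) → x = y := by
    intro x hx y hy hxy
    have : x * y⁻¹ = 1 := by
      apply m.inj
      · rw [map_mul, map_inv, h1 x hx, h1 y hy]; simp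
      · intro i
        have h4 := h2 (x * y⁻¹) y hy i
        rw [inv_mul_cancel_right, hxy] at h4
        exact mul_eq_right.1 h4.symm
    exact mul_inv_eq_one.1 this
  have h4 : ∀ x ∈ R, x * x = 1 := by
    intro x hx
    apply m.inj
    · rw [map_mul, h1 x hx, one_mul]
    · intro i
      rw [h2 x x hx, Int.units_mul_self]
  refine ⟨?_, h4, ?_⟩
  · apply le_antisymm _ (c.v4.four_le c.hq c.hq' c.hq'')
    rw [← card3, ← Nat.card_eq_fintype_card]
    apply Nat.card_le_card_of_injective (fun r : R => (⟨s r, m.prd r r.2⟩ : {f : Fin 3 → ℤˣ // ∏ i, f i = 1}))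
    intro x y hxy
    apply Subtype.ext
    apply h3 x x.2 y y.2
    intro i
    exact congrFun (congrArg Subtype.val hxy) i
  · intro x hx y hy
    apply h3 _ (R.mul_mem hx hy) _ (R.mul_mem hy hx)
    intro i
    rw [h2 x y hy, h2 y x hx, mul_comm]

theorem mono4 (c : Cfg ρ R b q q' q'') {π : Γ →* Equiv.Perm (Fin 4)} {s : Γ → Fin 4 → ℤˣ} {e : Fin 4 → V}
    (m : MD ρ R 4 π s e) (A : Subgroup Γ) (hAR : A ≤ R) (hA1 : ∀ a ∈ A, π a = 1)
    (hsep : ∀ i j, i ≠ j → ∃ a ∈ A, s a i ≠ s a j) :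
    Nat.card R = 32 ∧ ∃ z ∈ R, z ≠ 1 ∧ z * z = 1 ∧ (∀ x ∈ R, z * x = x * z) ∧ (∀ x ∈ R, x * x = 1 ∨ x * x = z) ∧
      (∀ x ∈ R, (∀ y ∈ R, x * y = y * x) → x = 1 ∨ x = z) ∧ (∃ x ∈ R, ∃ y ∈ R, x * y ≠ y * x) ∧
      ∃ A8 : Subgroup Γ, A8 ≤ R ∧ Nat.card A8 = 8 ∧ ∀ x ∈ A8, x * x = 1 := by
  have h1 : ∀ r ∈ R, (π r) ^ 2 = 1 := by
    intro r hr
    rcases dec4 _ (m.sgn r hr) with h | h
    · exact h
    · rw [pow_cop c.cop π hr h, one_pow]
  have h1' : ∀ r ∈ R, π (r * r) = 1 := fun r hr => by rw [map_mul, ← pow_two, h1 r hr]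
  have hsq : ∀ x ∈ R, (∀ i, s (x * x) i = 1) ∨ (∀ i, s (x * x) i = -1) := by
    intro x hx
    rcases dec4s _ (m.sgn x hx) (h1 x hx) (s x) (m.prd x hx) with h | h
    · left; intro i; rw [m.coc, h]
    · right; intro i; rw [m.coc, h]
  have hext : ∀ x y, π x = π y → (∀ i, s x i = s y i) → x = y := by
    intro x y hxy hs
    have : x * y⁻¹ = 1 := by
      apply m.inj
      · rw [map_mul, map_inv, hxy, mul_inv_cancel]
      · intro j
        obtain ⟨i, rfl⟩ := (π y).surjective j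
        have h4 := m.coc (x * y⁻¹) y i
        rw [inv_mul_cancel_right, hs] at h4
        exact mul_eq_right.1 h4.symm
    exact mul_inv_eq_one.1 this
  have hs1 : ∀ i, s 1 i = 1 := by
    intro i
    have := m.coc 1 1 i
    rw [map_one, mul_one, Equiv.Perm.one_apply] at this
    exact (mul_eq_left.1 this.symm)
  have hlift : ∀ σ : Equiv.Perm (Fin 4), Equiv.Perm.sign σ = 1 → σ ^ 2 = 1 → ∃ r ∈ R, π r = σ := by
    intro σ h2 h3
    obtain ⟨g, hg⟩ := m.alt σ h2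
    refine ⟨g ^ 3, c.cube_mem g, ?_⟩
    rw [map_pow, hg, pow_succ, h3, one_mul]
  have htr : ∀ i j, ∃ r ∈ R, π r i = j := by
    intro i j
    obtain ⟨σ, h2, h3, h4⟩ := dec4t i j
    obtain ⟨r, hr, h5⟩ := hlift σ h2 h3
    exact ⟨r, hr, by rw [h5, h4]⟩
  have hnonab : ∃ x ∈ R, ∃ y ∈ R, x * y ≠ y * x := by
    obtain ⟨a, ha, hne⟩ := hsep 0 1 (by decide)
    obtain ⟨r, hr, h2⟩ := htr 0 1
    refine ⟨a, hAR ha, r, hr, fun h3 => hne ?_⟩
    have h4 := m.coc a r 0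
    have h5 := m.coc r a 0
    rw [← h3, h4, h2, hA1 a ha, Equiv.Perm.one_apply, mul_comm] at h5
    exact (mul_left_cancel h5).symm
  have hx0 : ∃ x ∈ R, x * x ≠ 1 := by
    by_contra hcon
    push Not at hcon
    obtain ⟨x, hx, y, hy, hxy⟩ := hnonab
    apply hxy
    have h2 : ∀ w ∈ R, w⁻¹ = w := fun w hw => (eq_inv_of_mul_eq_one_left (hcon w hw)).symm
    have h3 := h2 _ (R.mul_mem hx hy)
    rw [mul_inv_rev, h2 x hx, h2 y hy] at h3
    exact h3.symm
  obtain ⟨x0, hx0, hx0'⟩ := hx0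
  obtain ⟨z, hz⟩ : ∃ z, z = x0 * x0 := ⟨_, rfl⟩
  rw [← hz] at hx0'
  have hzR : z ∈ R := by rw [hz]; exact R.mul_mem hx0 hx0
  have hπz : π z = 1 := by rw [hz]; exact h1' x0 hx0
  have hsz : ∀ i, s z i = -1 := by
    rcases hsq x0 hx0 with h | h
    · rw [← hz] at h
      exact absurd (m.inj _ hπz h) hx0'
    · rw [← hz] at h
      exact h
  have hzz : z * z = 1 := by
    apply m.inj
    · rw [map_mul, hπz, one_mul]
    · intro i
      rw [m.coc, hsz, hsz]; rfl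
  have hzc : ∀ x ∈ R, z * x = x * z := by
    intro x _
    apply hext
    · rw [map_mul, map_mul, hπz, one_mul, mul_one]
    · intro i
      rw [m.coc, m.coc, hsz, hsz, hπz, Equiv.Perm.one_apply, mul_comm]
  have hpat : ∀ f : Fin 4 → ℤˣ, ∏ i, f i = 1 → ∃ r ∈ R, π r = 1 ∧ ∀ i, s r i = f i := by
    intro f hf
    by_cases hconst : ∀ i j, f i = f j
    · rcases Int.units_eq_one_or (f 0) with h2 | h2
      · exact ⟨1, R.one_mem, map_one _, fun i => by rw [hs1, ← h2, hconst 0 i]⟩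
      · exact ⟨z, hzR, hπz, fun i => by rw [hsz, ← h2, hconst 0 i]⟩
    · obtain ⟨a, ha, hne⟩ := hsep 0 1 (by decide)
      obtain ⟨σ, h2, h3⟩ := pat4 (s a) (m.prd a (hAR ha)) (fun h => hne (h 0 1)) f hf hconst
      obtain ⟨g, hg⟩ := m.alt σ h2
      refine ⟨g⁻¹ * (a * g), ?_, ?_, ?_⟩
      · have := c.nor.conj_mem a (hAR ha) g⁻¹
        rwa [inv_inv, mul_assoc] at this
      · rw [map_mul, map_mul, hA1 a ha, one_mul, map_inv, inv_mul_cancel]
      · intro i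
        have h4 := m.coc g⁻¹ g i
        rw [inv_mul_cancel, hs1, hg] at h4
        rw [m.coc, m.coc, map_mul, hA1 a ha, one_mul, hg, h3 i]
        calc s g⁻¹ (σ i) * (s a (σ i) * s g i) = s a (σ i) * (s g⁻¹ (σ i) * s g i) := by
              rw [mul_left_comm]
          _ = s a (σ i) := by rw [← h4, mul_one]
  refine ⟨?_, z, hzR, hx0', hzz, hzc, ?_, ?_, hnonab, R ⊓ π.ker, inf_le_left, ?_, ?_⟩
  · have hcard := Nat.card_eq_of_bijective (fun r : R => ((⟨π r, m.sgn r r.2, h1 r r.2⟩, ⟨s r, m.prd r r.2⟩) :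
      {σ : Equiv.Perm (Fin 4) // Equiv.Perm.sign σ = 1 ∧ σ ^ 2 = 1} × {f : Fin 4 → ℤˣ // ∏ i, f i = 1})) ⟨?_, ?_⟩
    · rw [hcard, Nat.card_prod, Nat.card_eq_fintype_card, Nat.card_eq_fintype_card, card4p, card4f]
    · intro x y hxy
      apply Subtype.ext
      have e1 := congrArg (fun p => (p.1 : Equiv.Perm (Fin 4))) hxy
      have e2 := congrArg (fun p => (p.2 : Fin 4 → ℤˣ)) hxy
      exact hext _ _ e1 (fun i => congrFun e2 i)
    · rintro ⟨⟨σ, h2, h3⟩, ⟨f, hf⟩⟩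
      obtain ⟨r1, hr1, h4⟩ := hlift σ h2 h3
      obtain ⟨r0, hr0, h5, h6⟩ := hpat (fun i => s r1 i * f i) (by
        rw [Finset.prod_mul_distrib, m.prd r1 hr1, hf, one_mul])
      refine ⟨⟨r1 * r0, R.mul_mem hr1 hr0⟩, ?_⟩
      refine Prod.ext (Subtype.ext ?_) (Subtype.ext ?_)
      · show π (r1 * r0) = σ
        rw [map_mul, h4, h5, mul_one]
      · show s (r1 * r0) = f
        funext i
        rw [m.coc, h5, h6, Equiv.Perm.one_apply, ← mul_assoc, Int.units_mul_self, one_mul]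
  · intro x hx
    rcases hsq x hx with h | h
    · exact Or.inl (m.inj _ (h1' x hx) h)
    · right
      apply hext
      · rw [h1' x hx, hπz]
      · intro i; rw [h, hsz]
  · intro x hx hxc
    have hπx : π x = 1 := by
      by_contra hne
      obtain ⟨i, hi⟩ : ∃ i, π x i ≠ i := by
        by_contra hcon
        push Not at hcon
        exact hne (Equiv.ext hcon)
      obtain ⟨a, ha, hne'⟩ := hsep _ _ hi
      apply hne'
      have h4 := m.coc a x i
      have h5 := m.coc x a i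
      rw [hxc a (hAR ha), h4, hA1 a ha, Equiv.Perm.one_apply, mul_comm] at h5
      exact mul_left_cancel h5
    have hconst : ∀ i j, s x i = s x j := by
      intro i j
      obtain ⟨r, hr, h2⟩ := htr i j
      have h4 := m.coc r x i
      have h5 := m.coc x r i
      rw [hxc r hr, h4, hπx, h2, Equiv.Perm.one_apply, mul_comm] at h5
      exact mul_right_cancel h5
    rcases Int.units_eq_one_or (s x 0) with h2 | h2
    · left; exact m.inj _ hπx (fun i => by rw [hconst i 0, h2])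
    · right
      apply hext _ _ (by rw [hπx, hπz])
      intro i
      rw [hconst i 0, h2, hsz]
  · have hcard := Nat.card_eq_of_bijective (fun r : (R ⊓ π.ker : Subgroup Γ) => (⟨s r, m.prd r r.2.1⟩ :
      {f : Fin 4 → ℤˣ // ∏ i, f i = 1})) ⟨?_, ?_⟩
    · rw [hcard, Nat.card_eq_fintype_card, card4f]
    · intro x y hxy
      apply Subtype.ext
      have e2 : s x = s y := congrArg Subtype.val hxy
      exact hext _ _ ((MonoidHom.mem_ker.1 x.2.2).trans (MonoidHom.mem_ker.1 y.2.2).symm) (fun i => congrFun e2 i)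
    · rintro ⟨f, hf⟩
      obtain ⟨r0, hr0, h5, h6⟩ := hpat f hf
      refine ⟨⟨r0, hr0, MonoidHom.mem_ker.2 h5⟩, ?_⟩
      apply Subtype.ext
      funext i
      exact h6 i
  · rintro x ⟨_, hx⟩
    have hπx := MonoidHom.mem_ker.1 hx
    apply m.inj
    · rw [map_mul, hπx, one_mul]
    · intro i
      rw [m.coc, hπx, Equiv.Perm.one_apply, Int.units_mul_self]

/-- the conclusion -/
def Conc {Γ : Type*} [Group Γ] (R : Subgroup Γ) : Prop :=
  (Nat.card R = 4 ∧ (∀ x ∈ R, x * x = 1) ∧ ∀ x ∈ R, ∀ y ∈ R, x * y = y * x) ∨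
  (Nat.card R = 32 ∧ ∃ z ∈ R, z ≠ 1 ∧ z * z = 1 ∧ (∀ x ∈ R, z * x = x * z) ∧ (∀ x ∈ R, x * x = 1 ∨ x * x = z) ∧
      (∀ x ∈ R, (∀ y ∈ R, x * y = y * x) → x = 1 ∨ x = z) ∧ (∃ x ∈ R, ∃ y ∈ R, x * y ≠ y * x) ∧
      ∃ A8 : Subgroup Γ, A8 ≤ R ∧ Nat.card A8 = 8 ∧ ∀ x ∈ A8, x * x = 1)

theorem mono (c : Cfg ρ R b q q' q'') (h : BD ρ t D) (A : Subgroup Γ) (hAR : A ≤ R)
    (hpres : ∀ a ∈ A, ∀ i, ∀ v ∈ D i, ρ a v ∈ D i)
    (hsep : ∀ i j, i ≠ j → ∀ v ∈ D i, ∀ w ∈ D j, v ≠ 0 → w ≠ 0 → ∃ a ∈ A, ¬ ∃ c : ZMod 3, ρ a v = c • v ∧ ρ a w = c • w) :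
    Conc R := by
  obtain ⟨s, e, m, he⟩ := h.exists_md c
  have hπ : ∀ a ∈ A, h.pi a = 1 := by
    intro a ha
    apply Equiv.ext
    intro i
    by_contra hne
    apply (he i).2
    apply rho_inj ρ a
    rw [map_zero]
    refine BD.zero_of (h := h) (hpres a ha i _ (he i).1) ?_
    exact Submodule.mem_iSup_of_mem _ (Submodule.mem_iSup_of_mem hne (h.pi_mem a (he i).1))
  have hsep' : ∀ i j, i ≠ j → ∃ a ∈ A, s a i ≠ s a j := by
    intro i j hij
    obtain ⟨a, ha, hn⟩ := hsep i j hij _ (he i).1 _ (he j).1 (he i).2 (he j).2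
    refine ⟨a, ha, fun h2 => hn ⟨((s a i : ℤ) : ZMod 3), ?_, ?_⟩⟩
    · rw [m.act, hπ a ha]; rfl
    · rw [m.act, hπ a ha, h2]; rfl
  have h3 := h.three_le c
  have h4 := h.le_four c
  generalize h.pi = π at *
  have : t = 3 ∨ t = 4 := by omega
  rcases this with rfl | rfl
  · exact Or.inl (mono3 c m)
  · exact Or.inr (mono4 c m A hAR hπ hsep')

end

end H79.KB
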