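import Mathlib
import Cfsg.Agent.Lib.H79.KBf

/-! Cubic element of order three with one Jordan block (S4415), part 7: the symplectic case. -/

set_option autoImplicit false

namespace H79.KB

open Subgroup Module
open scoped commutatorElement

section grp
variable {G : Type*} [Group G]

/-- central of order dividing two -/
structure Cn (ε : G) : Prop where
  c : ∀ g, ε * g = g * ε
  s : ε * ε = 1

/-- commutation up to `ε` -/
def K (ε a x : G) : Prop := a * x = ε * (x * a)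

theorem Cn.one : Cn (1 : G) := ⟨fun g => by rw [one_mul, mul_one], mul_one 1⟩

theorem Cn.inv {ε : G} (h : Cn ε) : ε⁻¹ = ε := (eq_inv_of_mul_eq_one_left h.s).symm

theorem K.mul_right {ε δ a x y : G} (hδ : Cn δ) (h1 : K ε a x) (h2 : K δ a y) : K (ε * δ) a (x * y) := by
  unfold K at *
  calc a * (x * y) = (a * x) * y := by group
    _ = ε * (x * (a * y)) := by rw [h1]; group
    _ = ε * (x * (δ * (y * a))) := by rw [h2]
    _ = ε * ((x * δ) * (y * a)) := by group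
    _ = ε * ((δ * x) * (y * a)) := by rw [hδ.c x]
    _ = ε * δ * (x * y * a) := by group

theorem K.symm {ε a x : G} (hε : Cn ε) (h : K ε a x) : K ε x a := by
  unfold K at *
  rw [h, ← mul_assoc, hε.s, one_mul]

theorem K.mul_left {ε δ a x y : G} (hε : Cn ε) (hδ : Cn δ) (hεδ : Cn (ε * δ)) (h1 : K ε x a) (h2 : K δ y a) :
    K (ε * δ) (x * y) a :=
  ((h1.symm hε).mul_right hδ (h2.symm hδ)).symm hεδ

theorem K.conj {ε a x : G} (hε : Cn ε) (h : K ε a x) (g : G) : K ε (g * a * g⁻¹) (g * x * g⁻¹) := by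
  unfold K at *
  calc g * a * g⁻¹ * (g * x * g⁻¹) = g * (a * x) * g⁻¹ := by group
    _ = (g * ε) * (x * a) * g⁻¹ := by rw [h]; group
    _ = (ε * g) * (x * a) * g⁻¹ := by rw [hε.c g]
    _ = ε * (g * x * g⁻¹ * (g * a * g⁻¹)) := by group

theorem K.sq {ε a x : G} (hε : Cn ε) (h : K ε a x) : (a * x) * (a * x) = ε * ((a * a) * (x * x)) := by
  have h' : x * a = ε * (a * x) := h.symm hε
  calc (a * x) * (a * x) = a * (x * a) * x := by group
    _ = (a * ε) * (a * x) * x := by rw [h']; group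
    _ = (ε * a) * (a * x) * x := by rw [hε.c a]
    _ = ε * ((a * a) * (x * x)) := by group

theorem K.one {a x : G} : K 1 a x ↔ a * x = x * a := by unfold K; rw [one_mul]

end grp

section

variable {Γ V : Type*} [Group Γ] [Finite Γ] [AddCommGroup V] [Module (ZMod 3) V] [Finite V]
  {ρ : Representation (ZMod 3) Γ V} {R : Subgroup Γ} {b q q' q'' : Γ}

/-- the symplectic configuration -/
structure Sy (ρ : Representation (ZMod 3) Γ V) (R A : Subgroup Γ) (z : Γ) : Prop where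
  hz : ∀ v, ρ z v = -v
  zc : Cn z
  z1 : z ≠ 1
  An : ∀ g, ∀ a ∈ A, g * a * g⁻¹ ∈ A
  AR : A ≤ R
  AA : ∀ a ∈ A, ∀ x ∈ A, K 1 a x ∨ K z a x
  C : ∀ r ∈ R, (∀ a ∈ A, r * a = a * r) → r = 1 ∨ r = z

variable {A : Subgroup Γ} {z : Γ}

/-- the three conjugates -/
abbrev cj (b x : Γ) : Γ := b * x * b⁻¹

theorem cj3 (hb : b ^ 3 = 1) (x : Γ) : cj b (cj b (cj b x)) = x := by
  have hbb : b * b * b = 1 := by rw [← hb]; simp [pow_succ]
  calc b * (b * (b * x * b⁻¹) * b⁻¹) * b⁻¹ = (b * b * b) * x * (b * b * b)⁻¹ := by group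
    _ = x := by rw [hbb]; group

theorem Sy.K_ne (s : Sy ρ R A z) {a x : Γ} (h1 : K 1 a x) (h2 : K z a x) : False := by
  unfold K at h1 h2
  rw [h1] at h2
  exact s.z1 (mul_right_cancel h2).symm

theorem Sy.sq (s : Sy ρ R A z) {a : Γ} (ha : a ∈ A) : a * a = 1 ∨ a * a = z := by
  apply s.C _ (s.AR (A.mul_mem ha ha))
  intro x hx
  rcases s.AA a ha x hx with h | h
  · have := K.mul_left Cn.one Cn.one (by rw [one_mul]; exact Cn.one) h h
    rw [mul_one] at this
    exact K.one.1 this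
  · have := K.mul_left s.zc s.zc (by rw [s.zc.s]; exact Cn.one) h h
    rw [s.zc.s] at this
    exact K.one.1 this

theorem Sy.bfix (s : Sy ρ R A z) (hb : b ^ 3 = 1) {a : Γ} (h : cj b a = a ∨ cj b a = z * a) : cj b a = a := by
  rcases h with h | h
  · exact h
  · exfalso
    have hcz : ∀ y, cj b (z * y) = z * cj b y := by
      intro y
      show b * (z * y) * b⁻¹ = z * (b * y * b⁻¹)
      calc b * (z * y) * b⁻¹ = (b * z) * y * b⁻¹ := by group
        _ = (z * b) * y * b⁻¹ := by rw [s.zc.c b]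
        _ = z * (b * y * b⁻¹) := by group
    have h3 := cj3 hb a
    rw [h, hcz, h, hcz, hcz, h, ← mul_assoc z z, s.zc.s, one_mul] at h3
    exact s.z1 (mul_eq_right.1 h3)

/-- norm -/
abbrev nm (b x : Γ) : Γ := x * cj b x * cj b (cj b x)

theorem Sy.An' (s : Sy ρ R A z) {a : Γ} (ha : a ∈ A) (b : Γ) : cj b a ∈ A := s.An b a ha

theorem Sy.nm_mem (s : Sy ρ R A z) {a : Γ} (ha : a ∈ A) (b : Γ) : nm b a ∈ A :=
  A.mul_mem (A.mul_mem ha (s.An' ha b)) (s.An' (s.An' ha b) b)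

theorem Sy.nm_fix (s : Sy ρ R A z) (hb : b ^ 3 = 1) {a : Γ} (ha : a ∈ A) : cj b (nm b a) = nm b a := by
  apply s.bfix hb
  have h1 : cj b (nm b a) = a⁻¹ * nm b a * a := by
    have h3 := cj3 hb a
    calc cj b (nm b a) = cj b a * cj b (cj b a) * cj b (cj b (cj b a)) := by
          unfold nm cj; group
      _ = a⁻¹ * nm b a * a := by rw [h3]; unfold nm cj; group
  rcases s.AA _ (s.nm_mem ha b) a ha with h | h
  · left
    rw [h1, mul_assoc, K.one.1 h]; group
  · right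
    have h' : nm b a * a = z * (a * nm b a) := h
    rw [h1, mul_assoc, h', ← mul_assoc a⁻¹, ← s.zc.c a⁻¹]; group

theorem comm_of_cj {b x : Γ} (h : cj b x = x) : b * x = x * b := by
  have h' : b * x * b⁻¹ = x := h
  calc b * x = (b * x * b⁻¹) * b := by group
    _ = x * b := by rw [h']

theorem T_comm {g : Γ} (h : b * g = g * b) (v : V) : ρ g (Tl ρ b v) = Tl ρ b (ρ g v) := by
  rw [Tl_apply, Tl_apply, map_add, map_add]
  have h1 : ∀ w, ρ g (ρ b w) = ρ b (ρ g w) := by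
    intro w
    rw [← rho_mul, ← rho_mul, h]
  rw [h1, h1]

/-- there is a weight vector -/
theorem Cfg.wt (c : Cfg ρ R b q q' q'') : ∃ u, u ≠ 0 ∧ ρ q u = u ∧ ρ q' u = -u := by
  have h1 : ∃ x, ρ q x ≠ x := by
    by_contra hcon
    push Not at hcon
    apply c.v4.n
    apply c.inj
    rw [map_one]
    exact LinearMap.ext hcon
  obtain ⟨x, hx⟩ := h1
  obtain ⟨u, _, h2⟩ := c.v4.exists_wt ρ ⊤ (fun _ _ => trivial) (fun _ _ => trivial) (fun _ _ => trivial)
    (x := x) trivial hx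
  exact ⟨u, h2⟩

theorem Cfg.T_line (c : Cfg ρ R b q q' q'') {u : V} (hu : Tl ρ b u ≠ 0) (w : V) :
    ∃ s : ZMod 3, s • Tl ρ b u = Tl ρ b w := by
  have hle : finrank (ZMod 3) (LinearMap.range (Tl ρ b)) = 1 := by
    apply le_antisymm c.r1
    rw [Nat.one_le_iff_ne_zero]
    intro h0
    have := Submodule.finrank_eq_zero.1 h0
    apply hu
    have h2 : Tl ρ b u ∈ LinearMap.range (Tl ρ b) := ⟨u, rfl⟩
    rw [this, Submodule.mem_bot] at h2
    exact h2
  obtain ⟨s, hs⟩ := exists_smul_eq_of_finrank_eq_one hle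
    (x := (⟨Tl ρ b u, ⟨u, rfl⟩⟩ : LinearMap.range (Tl ρ b))) (fun h' => hu (congrArg Subtype.val h'))
    ⟨Tl ρ b w, ⟨w, rfl⟩⟩
  exact ⟨s, congrArg Subtype.val hs⟩

theorem Sy.line (s : Sy ρ R A z) (c : Cfg ρ R b q q' q'') {x y : Γ} (hx : x ∈ A) (hy : y ∈ A)
    (hxb : cj b x = x) (hyb : cj b y = y) : K 1 x y := by
  rcases s.AA x hx y hy with h | h
  · exact h
  · exfalso
    obtain ⟨u, hu0, hu1, hu2⟩ := c.wt
    have hT := c.v4.T_ne ρ hu1 hu2 hu0
    obtain ⟨α, hα⟩ := c.T_line hT (ρ x u)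
    obtain ⟨β, hβ⟩ := c.T_line hT (ρ y u)
    rw [← T_comm (comm_of_cj hxb)] at hα
    rw [← T_comm (comm_of_cj hyb)] at hβ
    have h1 : ρ (x * y) (Tl ρ b u) = ρ (y * x) (Tl ρ b u) := by
      rw [rho_mul, rho_mul, ← hα, ← hβ, map_smul, map_smul, ← hα, ← hβ, smul_smul, smul_smul, mul_comm]
    have h' : x * y = z * (y * x) := h
    rw [h', rho_mul, s.hz] at h1
    have h2 : ρ (y * x) (Tl ρ b u) = 0 := by
      apply eq_zero_of_two
      nth_rw 1 [← h1]
      rw [neg_add_cancel]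
    apply hT
    exact rho_inj ρ _ (by rw [h2, map_zero])

theorem Sy.cent_b (s : Sy ρ R A z) (c : Cfg ρ R b q q' q'') {x : Γ} (hx : x ∈ A) (hxb : cj b x = x) :
    x = 1 ∨ x = z := by
  apply s.C x (s.AR hx)
  intro a ha
  rcases s.AA x hx a ha with h | h
  · exact K.one.1 h
  · exfalso
    have h1 := s.line c hx (s.nm_mem ha b) hxb (s.nm_fix c.b3 ha)
    have h2 : K z x (cj b a) := by
      have := h.conj s.zc b
      rwa [show b * x * b⁻¹ = x from hxb] at this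
    have h3 : K z x (cj b (cj b a)) := by
      have := h2.conj s.zc b
      rwa [show b * x * b⁻¹ = x from hxb] at this
    have h4 := (h.mul_right s.zc h2).mul_right s.zc h3
    rw [s.zc.s, one_mul] at h4
    exact s.K_ne h1 h4

theorem Sy.nm_z (s : Sy ρ R A z) (c : Cfg ρ R b q q' q'') {a : Γ} (ha : a ∈ A) : nm b a = 1 ∨ nm b a = z :=
  s.cent_b c (s.nm_mem ha b) (s.nm_fix c.b3 ha)

theorem Sy.cj_sq (s : Sy ρ R A z) {x : Γ} (hx : x * x = z) (g : Γ) : cj g x * cj g x = z := by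
  calc cj g x * cj g x = g * (x * x) * g⁻¹ := by
        show g * x * g⁻¹ * (g * x * g⁻¹) = _
        group
    _ = z := by rw [hx, ← s.zc.c g, mul_assoc, mul_inv_cancel, mul_one]

theorem cj_sq1 {x : Γ} (hx : x * x = 1) (g : Γ) : cj g x * cj g x = 1 := by
  calc cj g x * cj g x = g * (x * x) * g⁻¹ := by
        show g * x * g⁻¹ * (g * x * g⁻¹) = _
        group
    _ = 1 := by rw [hx]; group

theorem Sy.nm_sq (s : Sy ρ R A z) (c : Cfg ρ R b q q' q'') {a : Γ} (ha : a ∈ A) :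
    (a * cj b a) * (a * cj b a) * (cj b (cj b a) * cj b (cj b a)) = 1 := by
  set x := a * cj b a with hx
  set w := cj b (cj b a) with hw
  have h1 : ∃ ζ, Cn ζ ∧ x * w = ζ := by
    rcases s.nm_z c ha with h | h
    · exact ⟨1, Cn.one, h⟩
    · exact ⟨z, s.zc, h⟩
  obtain ⟨ζ, hζ, h2⟩ := h1
  have h3 : w = x⁻¹ * ζ := by rw [← h2]; group
  have h4 : w * w = x⁻¹ * x⁻¹ := by
    rw [h3]
    calc x⁻¹ * ζ * (x⁻¹ * ζ) = x⁻¹ * (ζ * x⁻¹) * ζ := by group
      _ = x⁻¹ * x⁻¹ * (ζ * ζ) := by rw [hζ.c x⁻¹]; group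
      _ = x⁻¹ * x⁻¹ := by rw [hζ.s, mul_one]
  rw [h4]; group

theorem Sy.anti (s : Sy ρ R A z) (c : Cfg ρ R b q q' q'') {x : Γ} (hx : x ∈ A) (hxx : x * x = z) :
    K z x (cj b x) := by
  rcases s.AA x hx _ (s.An' hx b) with h | h
  · exfalso
    have h1 := s.nm_sq c hx
    rw [h.sq Cn.one, hxx, s.cj_sq hxx, s.cj_sq (s.cj_sq hxx b), s.zc.s, one_mul, one_mul] at h1
    exact s.z1 h1
  · exact h

theorem Sy.comm1 (s : Sy ρ R A z) (c : Cfg ρ R b q q' q'') {x : Γ} (hx : x ∈ A) (hxx : x * x = 1) :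
    K 1 x (cj b x) := by
  rcases s.AA x hx _ (s.An' hx b) with h | h
  · exact h
  · exfalso
    have h1 := s.nm_sq c hx
    rw [h.sq s.zc, hxx, cj_sq1 hxx, cj_sq1 (cj_sq1 hxx b), one_mul, mul_one, mul_one] at h1
    exact s.z1 h1

theorem Sy.exists_P (s : Sy ρ R A z) (c : Cfg ρ R b q q' q'') : ∃ x ∈ A, x * x = z := by
  by_contra hcon
  push Not at hcon
  have h1 : ∀ x ∈ A, x * x = 1 := fun x hx => (s.sq hx).resolve_right (hcon x hx)
  have h2 : ∀ x ∈ A, ∀ y ∈ A, x * y = y * x := by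
    intro x hx y hy
    have h2 : ∀ w ∈ A, w⁻¹ = w := fun w hw => (eq_inv_of_mul_eq_one_left (h1 w hw)).symm
    have h3 := h2 _ (A.mul_mem hx hy)
    rw [mul_inv_rev, h2 x hx, h2 y hy] at h3
    exact h3.symm
  have h3 : ∀ x ∈ A, x = 1 ∨ x = z := fun x hx => s.C x (s.AR hx) (fun a ha => h2 x hx a ha)
  have h4 : q = 1 ∨ q = z := by
    apply s.C q c.hq
    intro a ha
    rcases h3 a ha with rfl | rfl
    · rw [mul_one, one_mul]
    · rw [s.zc.c]
  rcases h4 with h4 | h4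
  · exact c.v4.n h4
  · obtain ⟨u, hu0, hu1, _⟩ := c.wt
    rw [h4, s.hz] at hu1
    apply hu0
    apply eq_zero_of_two
    nth_rw 1 [← hu1]
    rw [neg_add_cancel]

theorem Sy.gen_P (s : Sy ρ R A z) (c : Cfg ρ R b q q' q'') (H : Subgroup Γ) (hH : ∀ x ∈ A, x * x = z → x ∈ H) :
    A ≤ H := by
  intro a ha
  obtain ⟨x, hx, hxx⟩ := s.exists_P c
  rcases s.sq ha with haa | haa
  · have key : ∀ y ∈ A, y * y = z → K 1 a y → a ∈ H := by
      intro y hy hyy h
      have h1 : (a * y) * (a * y) = z := by rw [h.sq Cn.one, haa, hyy, one_mul, one_mul]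
      have h2 := hH _ (A.mul_mem ha hy) h1
      have h3 := hH _ hy hyy
      exact (H.mul_mem_cancel_right h3).1 h2
    rcases s.AA a ha x hx with h | h
    · exact key x hx hxx h
    rcases s.AA a ha _ (s.An' hx b) with h' | h'
    · exact key _ (s.An' hx b) (s.cj_sq hxx b) h'
    rcases s.AA a ha _ (s.An' (s.An' hx b) b) with h'' | h''
    · exact key _ (s.An' (s.An' hx b) b) (s.cj_sq (s.cj_sq hxx b) b) h''
    exfalso
    have h4 := (h.mul_right s.zc h').mul_right s.zc h''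
    rw [s.zc.s, one_mul] at h4
    have h5 : K 1 a (nm b x) := by
      rw [K.one]
      rcases s.nm_z c hx with h | h
      · rw [h, mul_one, one_mul]
      · rw [h, s.zc.c]
    exact s.K_ne h5 h4
  · exact hH a ha haa

/-- the dimension is at most four -/
theorem Sy.dim (s : Sy ρ R A z) (c : Cfg ρ R b q q' q'') : finrank (ZMod 3) V ≤ 4 := by
  obtain ⟨x, hx, hxx⟩ := s.exists_P c
  set Kb := LinearMap.ker (Nl ρ b) with hKb
  have h1 := LinearMap.finrank_range_add_finrank_ker (Nl ρ b)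
  rw [← hKb] at h1
  have h2 : finrank (ZMod 3) (Kb.map (ρ x)) = finrank (ZMod 3) Kb :=
    (Submodule.equivMapOfInjective (ρ x) (rho_inj ρ x) Kb).finrank_eq.symm
  have h3 : Kb ⊓ Kb.map (ρ x) = ⊥ := by
    rw [eq_bot_iff]
    rintro v ⟨hv1, w, hw, hwv⟩
    rw [Submodule.mem_bot]
    have e1 : ρ b v = v := sub_eq_zero.1 hv1
    have e2 : ρ b w = w := sub_eq_zero.1 hw
    have e3 : ρ b⁻¹ w = w := by
      conv_lhs => rw [← e2]
      rw [rho_inv_self]
    have e4 : ρ x⁻¹ v = w := by rw [← hwv, rho_inv_self]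
    have e5 : ρ (cj b x * x⁻¹) v = v := by
      show ρ (b * x * b⁻¹ * x⁻¹) v = v
      rw [rho_mul, rho_mul, rho_mul, e4, e3, hwv, e1]
    have h4 := (s.anti c hx hxx).symm s.zc
    have e6 : cj b x * x⁻¹ * (cj b x * x⁻¹) = z := by
      have h5 : K z (cj b x) x⁻¹ := by
        have h6 : cj b x * x = z * (x * cj b x) := h4
        show cj b x * x⁻¹ = z * (x⁻¹ * cj b x)
        generalize cj b x = y at *
        calc y * x⁻¹ = x⁻¹ * (x * y) * x⁻¹ := by group
          _ = x⁻¹ * (z * z * (x * y)) * x⁻¹ := by rw [s.zc.s, one_mul]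
          _ = x⁻¹ * z * (z * (x * y)) * x⁻¹ := by group
          _ = x⁻¹ * z * (y * x) * x⁻¹ := by rw [← h6]
          _ = (x⁻¹ * z) * y := by group
          _ = z * (x⁻¹ * y) := by rw [← s.zc.c, mul_assoc]
      rw [h5.sq s.zc, s.cj_sq hxx, ← mul_inv_rev, hxx, s.zc.inv, s.zc.s, mul_one]
    have e7 : ρ z v = v := by rw [← e6, rho_mul, e5, e5]
    rw [s.hz] at e7
    apply eq_zero_of_two
    nth_rw 1 [← e7]
    rw [neg_add_cancel]
  have h4 := Submodule.finrank_sup_add_finrank_inf_eq Kb (Kb.map (ρ x))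
  rw [h3, finrank_bot, add_zero, h2] at h4
  have h5 := Submodule.finrank_le (Kb ⊔ Kb.map (ρ x))
  have h6 := c.r2
  omega

end

end H79.KB
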