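import Mathlib
import Cfsg.Agent.Lib.H79.KBg

/-! Cubic element of order three with one Jordan block (S4415), part 8: the symplectic case, contradiction. -/

set_option autoImplicit false

namespace H79.KB

open Subgroup Module
open scoped commutatorElement

section

variable {Γ V : Type*} [Group Γ] [Finite Γ] [AddCommGroup V] [Module (ZMod 3) V] [Finite V]
  {ρ : Representation (ZMod 3) Γ V} {R : Subgroup Γ} {b q q' q'' : Γ} {A : Subgroup Γ} {z : Γ}

/-- joint eigenspace -/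
def Eg (ρ : Representation (ZMod 3) Γ V) (g : Γ) (ε : ZMod 3) : Submodule (ZMod 3) V where
  carrier := {v | ρ g v = ε • v}
  zero_mem' := by simp
  add_mem' := fun {a b} ha hb => by
    have ha' : ρ g a = ε • a := ha
    have hb' : ρ g b = ε • b := hb
    show ρ g (a + b) = ε • (a + b)
    rw [map_add, ha', hb', smul_add]
  smul_mem' := fun c a ha => by
    have ha' : ρ g a = ε • a := ha
    show ρ g (c • a) = ε • (c • a)
    rw [map_smul, ha', smul_comm]

theorem mem_Eg {g : Γ} {ε : ZMod 3} {v : V} : v ∈ Eg ρ g ε ↔ ρ g v = ε • v := Iff.rfl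

/-- an invariant nonzero subspace of an element with square `-1` has dimension at least two -/
theorem Sy.two_le (s : Sy ρ R A z) {x : Γ} (hxx : x * x = z) (W : Submodule (ZMod 3) V)
    (hW : ∀ v ∈ W, ρ x v ∈ W) {v : V} (hv : v ∈ W) (hv0 : v ≠ 0) : 2 ≤ finrank (ZMod 3) W := by
  have hxx' : ρ x (ρ x v) = - v := by rw [← rho_mul, hxx, s.hz]
  have hli : LinearIndependent (ZMod 3) ![v, ρ x v] := by
    rw [LinearIndependent.pair_iff]
    intro α β h
    have h2 : α • ρ x v + β • (-v) = 0 := by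
      have := congrArg (ρ x) h
      rwa [map_add, map_smul, map_smul, hxx', map_zero] at this
    have h3 : (α * α + β * β) • v = 0 := by
      have h4 : α • (α • v + β • ρ x v) - β • (α • ρ x v + β • (-v)) = (α * α + β * β) • v := by
        rw [smul_add, smul_add, smul_smul, smul_smul, smul_smul, smul_smul, smul_neg, add_smul, mul_comm β α]
        abel
      rw [← h4, h, h2, smul_zero, smul_zero, sub_zero]
    have h5 := (smul_eq_zero.1 h3).resolve_right hv0
    revert h5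
    clear h h2 h3
    revert α β
    decide
  have h1 : finrank (ZMod 3) (Submodule.span (ZMod 3) (Set.range ![v, ρ x v])) = 2 := by
    rw [finrank_span_eq_card hli]; simp
  rw [← h1]
  apply Submodule.finrank_mono
  rw [Submodule.span_le]
  rintro _ ⟨i, rfl⟩
  fin_cases i
  · exact hv
  · exact hW v hv

theorem Eg_inv {x g : Γ} (h : x * g = g * x) {ε : ZMod 3} {v : V} (hv : v ∈ Eg ρ g ε) : ρ x v ∈ Eg ρ g ε := by
  rw [mem_Eg] at hv ⊢
  rw [← rho_mul, ← h, rho_mul, hv, map_smul]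

/-- decomposition by an involution -/
theorem invol_split {g : Γ} (hg : g * g = 1) (v : V) :
    ∃ v1 v2, v1 ∈ Eg ρ g 1 ∧ v2 ∈ Eg ρ g (-1) ∧ v = v1 + v2 ∧ v1 = -(v + ρ g v) ∧ v2 = -(v - ρ g v) := by
  have hgg : ρ g (ρ g v) = v := by rw [← rho_mul, hg, map_one, Module.End.one_apply]
  refine ⟨-(v + ρ g v), -(v - ρ g v), ?_, ?_, ?_, rfl, rfl⟩
  · rw [mem_Eg, one_smul, map_neg, map_add, hgg]; abel
  · rw [mem_Eg, neg_smul, one_smul, map_neg, map_sub, hgg]; abel
  · have h3 := three_zero v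
    have : -(v + ρ g v) + -(v - ρ g v) = v - (v + v + v) := by abel
    rw [this, h3, sub_zero]

theorem Eg_zero {g : Γ} {v : V} (h1 : v ∈ Eg ρ g 1) (h2 : v ∈ Eg ρ g (-1)) : v = 0 := by
  rw [mem_Eg] at h1 h2
  rw [h1, one_smul, neg_smul, one_smul] at h2
  apply eq_zero_of_two
  nth_rw 1 [h2]
  rw [neg_add_cancel]

theorem Sy.inv_z (s : Sy ρ R A z) (c : Cfg ρ R b q q' q'') {x g : Γ} (hx : x ∈ A) (hxx : x * x = z) (hg : g ∈ A)
    (hgg : g * g = 1) (h1 : g * x = x * g) (h2 : g * cj b x = cj b x * g) : g = 1 ∨ g = z := by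
  have hd := s.dim c
  have hg' : cj b g ∈ A := s.An' hg b
  have hgg' := cj_sq1 hgg b
  have hcc : g * cj b g = cj b g * g := K.one.1 (s.comm1 c hg hgg)
  have h1' : cj b g * x = x * cj b g := by
    -- x = ζ (x' x'')⁻¹ up to order; use the norm
    have e1 : K 1 (cj b g) (cj b x) := (K.one.2 h1).conj Cn.one b
    have e2 : K 1 (cj b g) (cj b (cj b x)) := (K.one.2 h2).conj Cn.one b
    rcases s.AA _ hg' x hx with h | h
    · exact K.one.1 h
    · exfalso
      have h4 := (h.mul_right Cn.one e1).mul_right Cn.one e2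
      rw [mul_one, mul_one] at h4
      have h5 : K 1 (cj b g) (nm b x) := by
        rw [K.one]
        rcases s.nm_z c hx with h | h
        · rw [h, mul_one, one_mul]
        · rw [h, s.zc.c]
      exact s.K_ne h5 h4
  -- nonzero vectors
  by_contra hcon
  push Not at hcon
  have hsc : ∀ ε : ZMod 3, ε = 1 ∨ ε = -1 → ∀ h ∈ A, (∀ v, v ∈ Eg ρ h ε) → h = 1 ∨ h = z := by
    rintro ε hε h hh hall
    apply s.C h (s.AR hh)
    intro a _
    apply c.inj
    apply LinearMap.ext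
    intro v
    show ρ (h * a) v = ρ (a * h) v
    rw [rho_mul, rho_mul, (mem_Eg.1 (hall _) : ρ h (ρ a v) = _), (mem_Eg.1 (hall _) : ρ h v = _), map_smul]
  have hne : ∀ ε : ZMod 3, ε = 1 ∨ ε = -1 → ∃ v, v ∈ Eg ρ g ε ∧ v ≠ 0 := by
    intro ε hε
    by_contra hno
    push Not at hno
    have h3 : ∀ v, v ∈ Eg ρ g (-ε) := by
      intro v
      obtain ⟨v1, v2, e1, e2, e3, _, _⟩ := invol_split (ρ := ρ) hgg v
      rcases hε with rfl | rfl
      · rw [hno v1 e1, zero_add] at e3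
        rw [e3]; exact e2
      · rw [hno v2 e2, add_zero] at e3
        rw [e3, neg_neg]; exact e1
    rcases hsc (-ε) (by rcases hε with rfl | rfl <;> simp) g hg h3 with h | h
    · exact hcon.1 h
    · exact hcon.2 h
  -- on each eigenspace of `g` the element `cj b g` is scalar
  have hscal : ∀ ε : ZMod 3, ε = 1 ∨ ε = -1 → ∃ δ : ZMod 3, (δ = 1 ∨ δ = -1) ∧ ∀ v ∈ Eg ρ g ε, v ∈ Eg ρ (cj b g) δ := by
    intro ε hε
    by_contra hno
    push Not at hno
    obtain ⟨v, hv, hv'⟩ := hno 1 (Or.inl rfl)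
    obtain ⟨w, hw, hw'⟩ := hno (-1) (Or.inr rfl)
    obtain ⟨y, hy, hy0⟩ := hne (-ε) (by rcases hε with rfl | rfl <;> simp)
    obtain ⟨v1, v2, e1, e2, e3, e4, e5⟩ := invol_split (ρ := ρ) hgg' v
    obtain ⟨w1, w2, f1, f2, f3, f4, f5⟩ := invol_split (ρ := ρ) hgg' w
    have hcv : ρ (cj b g) v ∈ Eg ρ g ε := Eg_inv hcc.symm hv
    have hcw : ρ (cj b g) w ∈ Eg ρ g ε := Eg_inv hcc.symm hw
    have hv2 : v2 ∈ Eg ρ g ε := by rw [e5]; exact Submodule.neg_mem _ (Submodule.sub_mem _ hv hcv)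
    have hw1 : w1 ∈ Eg ρ g ε := by rw [f4]; exact Submodule.neg_mem _ (Submodule.add_mem _ hw hcw)
    have hv20 : v2 ≠ 0 := by
      rintro rfl
      apply hv'
      rw [e3, add_zero]; exact e1
    have hw10 : w1 ≠ 0 := by
      rintro rfl
      apply hw'
      rw [f3, zero_add]; exact f2
    set W1 := Eg ρ g ε ⊓ Eg ρ (cj b g) (-1) with hW1
    set W2 := Eg ρ g ε ⊓ Eg ρ (cj b g) 1 with hW2
    set W3 := Eg ρ g (-ε) with hW3
    have d1 : 2 ≤ finrank (ZMod 3) W1 := s.two_le hxx W1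
      (fun v hv => ⟨Eg_inv h1.symm hv.1, Eg_inv h1'.symm hv.2⟩) (v := v2) ⟨hv2, e2⟩ hv20
    have d2 : 2 ≤ finrank (ZMod 3) W2 := s.two_le hxx W2
      (fun v hv => ⟨Eg_inv h1.symm hv.1, Eg_inv h1'.symm hv.2⟩) (v := w1) ⟨hw1, f1⟩ hw10
    have d3 : 2 ≤ finrank (ZMod 3) W3 := s.two_le hxx W3
      (fun v hv => Eg_inv h1.symm hv) (v := y) hy hy0
    have i1 : W1 ⊓ W2 = ⊥ := by
      rw [eq_bot_iff]
      rintro v ⟨a1, a2⟩
      exact Eg_zero a2.2 a1.2
    have i2 : (W1 ⊔ W2) ⊓ W3 = ⊥ := by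
      rw [eq_bot_iff]
      rintro v ⟨a1, a2⟩
      have a3 : v ∈ Eg ρ g ε := (sup_le inf_le_left inf_le_left : W1 ⊔ W2 ≤ Eg ρ g ε) a1
      rcases hε with rfl | rfl
      · exact Eg_zero a3 a2
      · rw [hW3, neg_neg] at a2
        exact Eg_zero a2 a3
    have j1 := Submodule.finrank_sup_add_finrank_inf_eq W1 W2
    have j2 := Submodule.finrank_sup_add_finrank_inf_eq (W1 ⊔ W2) W3
    rw [i1, finrank_bot] at j1
    rw [i2, finrank_bot] at j2
    have j3 := Submodule.finrank_le ((W1 ⊔ W2) ⊔ W3)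
    omega
  obtain ⟨δ1, hδ1, hs1⟩ := hscal 1 (Or.inl rfl)
  obtain ⟨δ2, hδ2, hs2⟩ := hscal (-1) (Or.inr rfl)
  by_cases hd : δ1 = δ2
  · -- `cj b g` scalar
    have h3 : ∀ v, v ∈ Eg ρ (cj b g) δ1 := by
      intro v
      obtain ⟨v1, v2, e1, e2, e3, _, _⟩ := invol_split (ρ := ρ) hgg v
      rw [e3]
      exact Submodule.add_mem _ (hs1 _ e1) (by rw [hd]; exact hs2 _ e2)
    have h4 := hsc δ1 hδ1 _ hg' h3
    have hg3 : g = b⁻¹ * cj b g * b := by unfold cj; group
    rcases h4 with h4 | h4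
    · apply hcon.1
      rw [hg3, h4]; group
    · apply hcon.2
      rw [hg3, h4, ← s.zc.c]; group
  · -- `cj b g = ± g`
    have h3 : ∀ v, ρ (cj b g) v = δ1 • ρ g v := by
      intro v
      obtain ⟨v1, v2, e1, e2, e3, _, _⟩ := invol_split (ρ := ρ) hgg v
      have hd2 : δ2 = -δ1 := by
        rcases hδ1 with rfl | rfl <;> rcases hδ2 with rfl | rfl
        · exact absurd rfl hd
        · rfl
        · rw [neg_neg]
        · exact absurd rfl hd
      rw [e3, map_add, map_add, mem_Eg.1 (hs1 _ e1), mem_Eg.1 (hs2 _ e2), mem_Eg.1 e1, mem_Eg.1 e2, hd2, one_smul,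
        neg_smul, neg_smul, one_smul, smul_add, smul_neg]
    have h4 : cj b g = g ∨ cj b g = z * g := by
      rcases hδ1 with rfl | rfl
      · left
        apply c.inj
        apply LinearMap.ext
        intro v
        rw [h3, one_smul]
      · right
        apply c.inj
        apply LinearMap.ext
        intro v
        rw [h3, neg_smul, one_smul, rho_mul, s.hz]
    have h5 := s.cent_b c hg (s.bfix c.b3 h4)
    rcases h5 with h | h
    · exact hcon.1 h
    · exact hcon.2 h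

end

end H79.KB
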