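import Mathlib
import Cfsg.Agent.Lib.H79.KBh

/-! Cubic element of order three with one Jordan block (S4415), part 9: the symplectic case, contradiction. -/

set_option autoImplicit false

namespace H79.KB

open Subgroup Module
open scoped commutatorElement

section

variable {Γ V : Type*} [Group Γ] [Finite Γ] [AddCommGroup V] [Module (ZMod 3) V] [Finite V]
  {ρ : Representation (ZMod 3) Γ V} {R : Subgroup Γ} {b q q' q'' : Γ} {A : Subgroup Γ} {z : Γ}

/-- equality up to sign -/
def Eqz (z x y : Γ) : Prop := x = y ∨ x = z * y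

theorem Sy.mul_one_or (s : Sy ρ R A z) {x y : Γ} (hx : x * x = z) (h : x * y = 1 ∨ x * y = z) : Eqz z y x := by
  have hxi : x⁻¹ = z * x := by
    apply inv_eq_of_mul_eq_one_left
    rw [mul_assoc, hx, s.zc.s]
  rcases h with h | h
  · right
    rw [← hxi]
    exact eq_inv_of_mul_eq_one_right h
  · left
    have : y = x⁻¹ * z := by rw [← h]; group
    rw [this, hxi, ← s.zc.c, ← mul_assoc, s.zc.s, one_mul]

/-- anticommuting elements of order four in `A` are conjugate under `b` up to sign -/
theorem Sy.two_cases (s : Sy ρ R A z) (c : Cfg ρ R b q q' q'') {x y : Γ} (hx : x ∈ A) (hxx : x * x = z) (hy : y ∈ A)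
    (hyy : y * y = z) (h : K z x y) : Eqz z y (cj b x) ∨ Eqz z y (cj b (cj b x)) := by
  have hx2 := s.An' hx b
  have hx3 := s.An' hx2 b
  have hxx2 := s.cj_sq hxx b
  have hxx3 := s.cj_sq hxx2 b
  have k12 := s.anti c hx hxx
  have k23 := s.anti c hx2 hxx2
  have k31 := s.anti c hx3 hxx3
  rw [cj3 c.b3] at k31
  rcases s.AA y hy _ hx2 with h2 | h2
  · -- `cj b x` commutes with `y`
    left
    apply s.mul_one_or hxx2
    have e1 : K 1 (cj b x * y) x := by
      have := K.mul_left s.zc s.zc (by rw [s.zc.s]; exact Cn.one) (k12.symm s.zc) (h.symm s.zc)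
      rwa [s.zc.s] at this
    have e2 : K 1 (cj b x * y) (cj b x) := by
      have h0 : K 1 (cj b x) (cj b x) := K.one.2 rfl
      have := K.mul_left Cn.one Cn.one (by rw [one_mul]; exact Cn.one) h0 h2
      rwa [one_mul] at this
    have e3 : (cj b x * y) * (cj b x * y) = 1 := by
      rw [(h2.symm Cn.one).sq Cn.one, hxx2, hyy, one_mul, s.zc.s]
    exact s.inv_z c hx hxx (A.mul_mem hx2 hy) e3 (K.one.1 e1) (K.one.1 e2)
  · right
    have hxy : K z y x := h.symm s.zc
    -- `cj b (cj b x)` commutes with `y`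
    have h3 : K 1 y (cj b (cj b x)) := by
      rcases s.AA y hy _ hx3 with h3 | h3
      · exact h3
      · exfalso
        have h4 := (hxy.mul_right s.zc h2).mul_right s.zc h3
        rw [s.zc.s, one_mul] at h4
        have h5 : K 1 y (nm b x) := by
          rw [K.one]
          rcases s.nm_z c hx with h | h
          · rw [h, mul_one, one_mul]
          · rw [h, s.zc.c]
        exact s.K_ne h5 h4
    apply s.mul_one_or hxx3
    have e1 : K 1 (cj b (cj b x) * y) x := by
      have := K.mul_left s.zc s.zc (by rw [s.zc.s]; exact Cn.one) k31 hxy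
      rwa [s.zc.s] at this
    have e2 : K 1 (cj b (cj b x) * y) (cj b x) := by
      have := K.mul_left s.zc s.zc (by rw [s.zc.s]; exact Cn.one) (k23.symm s.zc) h2
      rwa [s.zc.s] at this
    have e3 : (cj b (cj b x) * y) * (cj b (cj b x) * y) = 1 := by
      rw [(h3.symm Cn.one).sq Cn.one, hxx3, hyy, one_mul, s.zc.s]
    exact s.inv_z c hx hxx (A.mul_mem hx3 hy) e3 (K.one.1 e1) (K.one.1 e2)

theorem Eqz.symm (hz : Cn z) {x y : Γ} (h : Eqz z x y) : Eqz z y x := by
  rcases h with rfl | rfl
  · exact Or.inl rfl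
  · right; rw [← mul_assoc, hz.s, one_mul]

theorem Eqz.trans (hz : Cn z) {x y w : Γ} (h : Eqz z x y) (h' : Eqz z y w) : Eqz z x w := by
  rcases h with rfl | rfl
  · exact h'
  · rcases h' with rfl | rfl
    · exact Or.inr rfl
    · left; rw [← mul_assoc, hz.s, one_mul]

theorem Eqz.cj (hz : Cn z) {x y : Γ} (h : Eqz z x y) (g : Γ) : Eqz z (cj g x) (cj g y) := by
  rcases h with rfl | rfl
  · exact Or.inl rfl
  · right
    show g * (z * y) * g⁻¹ = z * (g * y * g⁻¹)
    calc g * (z * y) * g⁻¹ = (g * z) * y * g⁻¹ := by group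
      _ = (z * g) * y * g⁻¹ := by rw [hz.c g]
      _ = z * (g * y * g⁻¹) := by group

theorem cj_mul (g h x : Γ) : cj (g * h) x = cj g (cj h x) := by unfold cj; group

theorem cj_inj {g x y : Γ} (h : cj g x = cj g y) : x = y := by
  have h' : g * x * g⁻¹ = g * y * g⁻¹ := h
  simpa using h'

theorem Eqz.cj_inv (hz : Cn z) {x y g : Γ} (h : Eqz z (KB.cj g x) (KB.cj g y)) : Eqz z x y := by
  have := h.cj hz g⁻¹
  rwa [← cj_mul, ← cj_mul, inv_mul_cancel, show KB.cj 1 x = x by unfold KB.cj; group,
    show KB.cj 1 y = y by unfold KB.cj; group] at this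

/-- `[r,b]` centralises the classes -/
theorem Sy.cls (s : Sy ρ R A z) (c : Cfg ρ R b q q' q'') {r : Γ} (hr : r ∈ R) :
    ∀ x ∈ A, x * x = z → Eqz z (cj (r * b * r⁻¹ * b⁻¹) x) x := by
  set w := r * b * r⁻¹ * b⁻¹ with hw
  have hwR : w ∈ R := by
    have h1 := c.nor.conj_mem r⁻¹ (R.inv_mem hr) b
    have : w = r * (b * r⁻¹ * b⁻¹) := by rw [hw]; group
    rw [this]
    exact R.mul_mem hr h1
  have hbi : b⁻¹ = b * b := by
    have : b * b * b = 1 := by rw [← c.b3]; simp [pow_succ]
    exact (eq_inv_of_mul_eq_one_left this).symm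
  -- image is `x` or `cj b x`
  have key : ∀ x ∈ A, x * x = z → Eqz z (cj w x) x ∨ Eqz z (cj w x) (cj b x) := by
    intro x hx hxx
    set y := cj b⁻¹ x with hy
    have hyA : y ∈ A := s.An' hx b⁻¹
    have hyy : y * y = z := s.cj_sq hxx b⁻¹
    have hby : cj b y = x := by rw [hy, ← cj_mul, mul_inv_cancel]; unfold cj; group
    have hwx : cj w x = cj (r * b * r⁻¹) y := by
      rw [hw, cj_mul (r * b * r⁻¹) b⁻¹]
    -- anticommuting
    have hk : K z y (cj (r * b * r⁻¹) y) := by
      have h1 := (s.anti c (s.An' hyA r⁻¹) (s.cj_sq hyy r⁻¹)).conj s.zc r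
      have e1 : r * cj r⁻¹ y * r⁻¹ = y := by unfold cj; group
      have e2 : r * cj b (cj r⁻¹ y) * r⁻¹ = cj (r * b * r⁻¹) y := by unfold cj; group
      rwa [e1, e2] at h1
    have h2 := s.two_cases c hyA hyy (s.An' hyA _) (s.cj_sq hyy _) hk
    rw [hby, ← hwx] at h2
    exact h2
  clear_value w
  intro x hx hxx
  rcases key x hx hxx with h | h
  · exact h
  · exfalso
    -- then `w` rotates the class of `x`
    have hx2 := s.An' hx b
    have hxx2 := s.cj_sq hxx b
    have k12 := s.anti c hx hxx
    have hne : ¬ Eqz z x (cj b x) := by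
      rintro (h1 | h1)
      · rw [← h1] at k12
        exact s.K_ne (K.one.2 rfl) k12
      · have h5 : cj b x = z * x := by
          calc cj b x = z * z * cj b x := by rw [s.zc.s, one_mul]
            _ = z * (z * cj b x) := mul_assoc _ _ _
            _ = z * x := by rw [← h1]
        rw [h5] at k12
        have : x * (z * x) = z * (z * x * x) := k12
        rw [← mul_assoc x, ← s.zc.c x] at this
        exact s.z1 (mul_eq_right.1 this.symm)
    have h1 : Eqz z (cj w (cj b x)) (cj b (cj b x)) := by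
      rcases key _ hx2 hxx2 with h1 | h1
      · exfalso
        apply hne
        exact (h.trans s.zc (h1.symm s.zc)).cj_inv s.zc
      · exact h1
    have hx3 := s.An' hx2 b
    have hxx3 := s.cj_sq hxx2 b
    have h2 : Eqz z (cj w (cj b (cj b x))) x := by
      rcases key _ hx3 hxx3 with h2 | h2
      · exfalso
        apply hne
        have h3 := (h1.trans s.zc (h2.symm s.zc)).cj_inv s.zc
        exact h3.cj_inv s.zc
      · rwa [cj3 c.b3] at h2
    have h3 : Eqz z (cj (w ^ 3) x) x := by
      have e : w ^ 3 = w * (w * w) := by rw [pow_succ, pow_two, mul_assoc]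
      rw [e, cj_mul, cj_mul]
      exact (((h.cj s.zc w).trans s.zc h1).cj s.zc w).trans s.zc h2
    -- `w` fixes the class of `x`
    have hP : ∀ n : ℕ, Eqz z (cj ((w ^ 3) ^ n) x) x := by
      intro n
      induction n with
      | zero => left; rw [pow_zero]; unfold cj; group
      | succ n ih =>
        rw [pow_succ, cj_mul]
        exact (h3.cj s.zc _).trans s.zc ih
    have hw3 : ∃ n : ℕ, (w ^ 3) ^ n = w := by
      have h4 : (orderOf w).Coprime 3 := by
        apply Nat.Coprime.coprime_dvd_left _ c.cop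
        have := orderOf_dvd_natCard (⟨w, hwR⟩ : R)
        rwa [Subgroup.orderOf_mk] at this
      have h5 := (Nat.Coprime.symm h4)
      obtain ⟨n, hn⟩ := exists_pow_eq_self_of_coprime h5
      exact ⟨n, hn⟩
    obtain ⟨n, hn⟩ := hw3
    have h6 := hP n
    rw [hn] at h6
    exact hne ((h6.symm s.zc).trans s.zc h)

/-- all of `R` centralises `A` up to sign -/
theorem Sy.act_sign (s : Sy ρ R A z) (c : Cfg ρ R b q q' q'') {r : Γ} (hr : r ∈ R) :
    ∀ x ∈ A, x * x = z → Eqz z (cj r x) x := by
  let H : Subgroup Γ :=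
    { carrier := {g | ∀ x ∈ A, x * x = z → Eqz z (cj g x) x}
      one_mem' := fun x _ _ => by left; unfold cj; group
      mul_mem' := fun {g h} hg hh x hx hxx => by
        rw [cj_mul]
        exact ((hh x hx hxx).cj s.zc g).trans s.zc (hg x hx hxx)
      inv_mem' := fun {g} hg x hx hxx => by
        have h1 := (hg x hx hxx).cj s.zc g⁻¹
        rw [← cj_mul, inv_mul_cancel, show cj 1 x = x by unfold cj; group] at h1
        exact h1.symm s.zc }
  refine gen_of_comm R b c.comm H (fun r hr => s.cls c hr) ?_ hr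
  intro g hg x hx hxx
  have h1 := (hg _ (s.An' hx b⁻¹) (s.cj_sq hxx b⁻¹)).cj s.zc b
  have e1 : cj b (cj g (cj b⁻¹ x)) = cj (b * g * b⁻¹) x := by unfold cj; group
  have e2 : cj b (cj b⁻¹ x) = x := by unfold cj; group
  rwa [e1, e2] at h1

/-- `[R,R] ≤ Z` -/
theorem Sy.comm_R (s : Sy ρ R A z) (c : Cfg ρ R b q q' q'') {r g : Γ} (hr : r ∈ R) (hg : g ∈ R) :
    Eqz z (r * g) (g * r) := by
  have hcomm : (g * r)⁻¹ * (r * g) = 1 ∨ (g * r)⁻¹ * (r * g) = z := by
    apply s.C _ (R.mul_mem (R.inv_mem (R.mul_mem hg hr)) (R.mul_mem hr hg))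
    have hle : A ≤ Subgroup.centralizer {(g * r)⁻¹ * (r * g)} := by
      apply s.gen_P c
      intro x hx hxx
      rw [Subgroup.mem_centralizer_singleton_iff]
      have hrx := s.act_sign c hr x hx hxx
      have hgx := s.act_sign c hg x hx hxx
      have hzz : ∀ y w, cj y (z * w) = z * cj y w := by
        intro y w
        show y * (z * w) * y⁻¹ = z * (y * w * y⁻¹)
        calc y * (z * w) * y⁻¹ = (y * z) * w * y⁻¹ := by group
          _ = (z * y) * w * y⁻¹ := by rw [s.zc.c y]
          _ = z * (y * w * y⁻¹) := by group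
      have h1 : cj (r * g) x = cj (g * r) x := by
        rw [cj_mul, cj_mul]
        rcases hrx with h | h <;> rcases hgx with h' | h'
        · rw [h', h, h']
        · rw [h', hzz, h, h']
        · rw [h', h, hzz, h']
        · rw [h', hzz, h, hzz, h']
      have h1' : r * g * x * (r * g)⁻¹ = g * r * x * (g * r)⁻¹ := h1
      have h2 : (g * r)⁻¹ * (r * g) * x = x * ((g * r)⁻¹ * (r * g)) := by
        calc (g * r)⁻¹ * (r * g) * x = (g * r)⁻¹ * (r * g * x * (r * g)⁻¹) * (r * g) := by group
          _ = (g * r)⁻¹ * (g * r * x * (g * r)⁻¹) * (r * g) := by rw [h1']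
          _ = x * ((g * r)⁻¹ * (r * g)) := by group
      first
        | exact h2
        | exact h2.symm
    intro a ha
    have := hle ha
    rw [Subgroup.mem_centralizer_singleton_iff] at this
    first
      | exact this
      | exact this.symm
  rcases hcomm with h | h
  · left; exact (inv_mul_eq_one.1 h).symm
  · right
    rw [s.zc.c, ← h]; group

end

end H79.KB
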