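import Mathlib
import Cfsg.Agent.Lib.H79.KBi

/-! Cubic element of order three with one Jordan block (S4415), part 10: the conclusion for the irreducible
configuration. -/

set_option autoImplicit false

namespace H79.KB

open Subgroup Module
open scoped commutatorElement Pointwise

section

variable {Γ V : Type*} [Group Γ] [Finite Γ] [AddCommGroup V] [Module (ZMod 3) V] [Finite V]
  {ρ : Representation (ZMod 3) Γ V} {R : Subgroup Γ} {b q q' q'' : Γ}

/-- the second alternative of the dichotomy for all abelian normal subgroups -/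
def Alt2 (ρ : Representation (ZMod 3) Γ V) (R : Subgroup Γ) : Prop :=
  ∀ A : Subgroup Γ, A ≤ R → A.Normal → (∀ a ∈ A, ∀ x ∈ A, a * x = x * a) →
    (∀ a ∈ A, ∀ c : ZMod 3, (∃ v, v ≠ 0 ∧ ρ a v = c • v) → ∀ v, ρ a v = c • v) ∧ IsCyclic A

theorem Cfg.scal (c : Cfg ρ R b q q' q'') (h2 : Alt2 ρ R) (A : Subgroup Γ) (hAR : A ≤ R) (hAn : A.Normal)
    (hab : ∀ a ∈ A, ∀ x ∈ A, a * x = x * a) {a : Γ} (ha : a ∈ A) : (∀ v, ρ a v = v) ∨ (∀ v, ρ a v = -v) := by
  obtain ⟨h3, hcyc⟩ := h2 A hAR hAn hab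
  obtain ⟨⟨t, ht⟩, hgen⟩ := hcyc.exists_generator
  have hpow : ∀ x ∈ A, ∃ n : ℤ, x = t ^ n := by
    intro x hx
    obtain ⟨n, hn⟩ := hgen ⟨x, hx⟩
    exact ⟨n, (congrArg Subtype.val hn).symm⟩
  have hcent : R ≤ Subgroup.centralizer (A : Set Γ) := by
    refine c.comm.trans ?_
    rw [commutator_le]
    intro g _ h _
    rw [Subgroup.mem_centralizer_iff]
    -- inverse conjugations
    obtain ⟨m, hm⟩ := hpow (g⁻¹ * t * g) (by
      have := hAn.conj_mem t ht g⁻¹
      rwa [inv_inv] at this)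
    obtain ⟨n, hn⟩ := hpow (h⁻¹ * t * h) (by
      have := hAn.conj_mem t ht h⁻¹
      rwa [inv_inv] at this)
    have e1 : (g * h)⁻¹ * t * (g * h) = t ^ (n * m) := by
      calc (g * h)⁻¹ * t * (g * h) = h⁻¹ * (g⁻¹ * t * g) * h := by group
        _ = (h⁻¹ * t * h) ^ m := by
          rw [hm]
          have := map_zpow (MulAut.conj h⁻¹) t m
          simp only [MulAut.conj_apply, inv_inv] at this
          exact this
        _ = t ^ (n * m) := by rw [hn, ← zpow_mul]
    have e2 : (h * g)⁻¹ * t * (h * g) = t ^ (n * m) := by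
      calc (h * g)⁻¹ * t * (h * g) = g⁻¹ * (h⁻¹ * t * h) * g := by group
        _ = (g⁻¹ * t * g) ^ n := by
          rw [hn]
          have := map_zpow (MulAut.conj g⁻¹) t n
          simp only [MulAut.conj_apply, inv_inv] at this
          exact this
        _ = t ^ (n * m) := by rw [hm, ← zpow_mul, mul_comm]
    have e3 : t * ⁅g, h⁆ = ⁅g, h⁆ * t := by
      rw [commutatorElement_def]
      calc t * (g * h * g⁻¹ * h⁻¹) = (g * h) * ((g * h)⁻¹ * t * (g * h)) * (h * g)⁻¹ := by group
        _ = (g * h) * ((h * g)⁻¹ * t * (h * g)) * (h * g)⁻¹ := by rw [e1, e2]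
        _ = g * h * g⁻¹ * h⁻¹ * t := by group
    intro x hx
    obtain ⟨k, rfl⟩ := hpow x hx
    exact (Commute.zpow_left (show Commute t ⁅g, h⁆ from e3) k).eq
  obtain ⟨u, hu0, hu1, hu2⟩ := c.wt
  have hTu := c.v4.T_ne ρ hu1 hu2 hu0
  obtain ⟨s, hs⟩ := c.T_line hTu (ρ a u)
  have hqa : ∀ g ∈ R, ∀ v, ρ g (ρ a v) = ρ a (ρ g v) := by
    intro g hg v
    rw [← rho_mul, ← rho_mul, (Subgroup.mem_centralizer_iff.1 (hcent hg) a ha)]
  have hw : ρ a u - s • u = 0 := by
    by_contra hne
    refine c.v4.T_ne ρ (u := ρ a u - s • u) ?_ ?_ hne ?_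
    · rw [map_sub, map_smul, hqa q c.hq, hu1]
    · rw [map_sub, map_smul, hqa q' c.hq', hu2, map_neg, smul_neg]; abel
    · rw [map_sub, map_smul, hs, sub_self]
  have hau := sub_eq_zero.1 hw
  have hall := h3 a ha s ⟨u, hu0, hau⟩
  have hs0 : s ≠ 0 := by
    rintro rfl
    apply hu0
    apply rho_inj ρ a
    rw [hau, zero_smul, map_zero]
  have hs' : ∀ s : ZMod 3, s ≠ 0 → s = 1 ∨ s = -1 := by decide
  rcases hs' s hs0 with rfl | rfl
  · left; intro v; rw [hall, one_smul]
  · right; intro v; rw [hall, neg_smul, one_smul]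

/-- the derived series of a subgroup -/
def dser {Γ : Type*} [Group Γ] (N : Subgroup Γ) : ℕ → Subgroup Γ
  | 0 => N
  | n + 1 => ⁅dser N n, dser N n⁆

theorem dser_normal {Γ : Type*} [Group Γ] (N : Subgroup Γ) (hN : N.Normal) (n : ℕ) : (dser N n).Normal := by
  induction n with
  | zero => exact hN
  | succ n ih => exact Subgroup.commutator_normal (dser N n) (dser N n)

theorem min_ab (hsol : Group.IsSolvable Γ) (N : Subgroup Γ) (hN : N.Normal) (Z0 : Subgroup Γ) (hNZ : ¬ N ≤ Z0) :
    ∃ X : Subgroup Γ, X ≤ N ∧ X.Normal ∧ ¬ X ≤ Z0 ∧ ⁅X, X⁆ ≤ Z0 := by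
  classical
  obtain ⟨f, f0, fs, hfn⟩ : ∃ f : ℕ → Subgroup Γ, f 0 = N ∧ (∀ n, f (n + 1) = ⁅f n, f n⁆) ∧ ∀ n, (f n).Normal :=
    ⟨dser N, rfl, fun n => rfl, dser_normal N hN⟩
  have hfN : ∀ n, f n ≤ N := by
    intro n
    induction n with
    | zero => exact f0.le
    | succ n ih =>
      rw [fs]
      haveI := hfn n
      exact (Subgroup.commutator_le_left _ _).trans ih
  have hfd : ∀ n, f n ≤ derivedSeries Γ n := by
    intro n
    induction n with
    | zero => rw [derivedSeries_zero]; exact le_top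
    | succ n ih => rw [fs, derivedSeries_succ]; exact Subgroup.commutator_mono ih ih
  have hex : ∃ n, f n ≤ Z0 := by
    obtain ⟨n, hn⟩ := hsol.solvable
    exact ⟨n, (hfd n).trans (by rw [hn]; exact bot_le)⟩
  have h1 := Nat.find_spec hex
  have h2 : Nat.find hex ≠ 0 := by
    intro h
    rw [h, f0] at h1
    exact hNZ h1
  obtain ⟨k, hk⟩ := Nat.exists_eq_succ_of_ne_zero h2
  refine ⟨f k, hfN k, hfn k, Nat.find_min hex (by omega), ?_⟩
  rw [← fs]
  rw [hk] at h1
  exact h1

theorem Eqz.comm {z x x' w w' : Γ} (hz : Cn z) (h : Eqz z x w) (h' : Eqz z x' w') (hw : w * w' = w' * w) :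
    x * x' = x' * x := by
  have k0 : K 1 w w' := K.one.2 hw
  have kz : ∀ y, K 1 z y := fun y => K.one.2 (hz.c y)
  have kz' : ∀ y, K 1 y z := fun y => K.one.2 (hz.c y).symm
  have h1 : K 1 x w' := by
    rcases h with rfl | rfl
    · exact k0
    · have := K.mul_left Cn.one Cn.one (by rw [one_mul]; exact Cn.one) (kz w') k0
      rwa [one_mul] at this
  rcases h' with rfl | rfl
  · exact K.one.1 h1
  · have := (kz' x).mul_right Cn.one h1
    rw [one_mul] at this
    exact K.one.1 this

theorem symp (c : Cfg ρ R b q q' q'') (h2 : Alt2 ρ R) : False := by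
  classical
  obtain ⟨u, hu0, hu1, hu2⟩ := c.wt
  haveI := c.nor
  have hneg : ∀ v : V, v = -v → v = 0 := by
    intro v hv
    apply eq_zero_of_two
    nth_rw 1 [hv]
    rw [neg_add_cancel]
  -- the central involution
  obtain ⟨z, hzR, hz⟩ : ∃ z ∈ R, ∀ v, ρ z v = -v := by
    obtain ⟨X, hXR, hXn, hX, hXX⟩ := min_ab c.sol R c.nor ⊥ (fun h => c.v4.n (Subgroup.mem_bot.1 (h c.hq)))
    obtain ⟨x, hx, hx1⟩ : ∃ x ∈ X, x ≠ 1 := by
      by_contra hcon
      push Not at hcon
      exact hX (fun x hx => Subgroup.mem_bot.2 (hcon x hx))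
    have hab : ∀ a ∈ X, ∀ y ∈ X, a * y = y * a := by
      intro a ha y hy
      have := Subgroup.mem_bot.1 (hXX (Subgroup.commutator_mem_commutator ha hy))
      exact commutatorElement_eq_one_iff_mul_comm.1 this
    rcases c.scal h2 X hXR hXn hab hx with h | h
    · exfalso
      apply hx1
      apply c.inj
      rw [map_one]
      exact LinearMap.ext h
    · exact ⟨x, hXR hx, h⟩
  have hzc : Cn z := by
    constructor
    · intro g
      apply c.inj
      apply LinearMap.ext
      intro v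
      rw [rho_mul, rho_mul, hz, hz, map_neg]
    · apply c.inj
      apply LinearMap.ext
      intro v
      rw [rho_mul, hz, hz, neg_neg, map_one, Module.End.one_apply]
  have hz1 : z ≠ 1 := by
    rintro rfl
    apply hu0
    apply hneg
    have := hz u
    rwa [map_one, Module.End.one_apply] at this
  have hofz : ∀ x, (∀ v, ρ x v = v) ∨ (∀ v, ρ x v = -v) → x = 1 ∨ x = z := by
    rintro x (h | h)
    · left; apply c.inj; rw [map_one]; exact LinearMap.ext h
    · right; apply c.inj; apply LinearMap.ext; intro v; rw [h, hz]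
  have hzp : ∀ x, x ∈ Subgroup.zpowers z ↔ x = 1 ∨ x = z := by
    intro x
    constructor
    · intro hx
      obtain ⟨n, rfl⟩ := hx
      rcases Int.even_or_odd n with ⟨m, rfl⟩ | ⟨m, rfl⟩
      · left
        show z ^ (m + m) = 1
        rw [← two_mul, zpow_mul, zpow_ofNat, pow_two, hzc.s, one_zpow]
      · right
        show z ^ (2 * m + 1) = z
        rw [zpow_add, zpow_mul, zpow_ofNat, pow_two, hzc.s, one_zpow, one_mul, zpow_one]
    · rintro (rfl | rfl)
      · exact Subgroup.one_mem _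
      · exact Subgroup.mem_zpowers _
  have hKofmem : ∀ a x, ⁅a, x⁆ ∈ Subgroup.zpowers z → K 1 a x ∨ K z a x := by
    intro a x h
    have e : a * x = ⁅a, x⁆ * (x * a) := by rw [commutatorElement_def]; group
    rcases (hzp _).1 h with h | h
    · left; show a * x = 1 * (x * a); rw [← h]; exact e
    · right; show a * x = z * (x * a); rw [← h]; exact e
  -- a maximal normal subgroup of class two
  let 𝒮 : Set (Subgroup Γ) := {A | A.Normal ∧ A ≤ R ∧ ∀ a ∈ A, ∀ x ∈ A, K 1 a x ∨ K z a x}
  have hne : 𝒮.Nonempty := ⟨⊥, inferInstance, bot_le, by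
    intro a ha x hx
    left
    rw [Subgroup.mem_bot.1 ha, Subgroup.mem_bot.1 hx]; exact K.one.2 rfl⟩
  obtain ⟨A, hA⟩ := (Set.toFinite 𝒮).exists_maximal hne
  have hA1 : A ∈ 𝒮 := hA.1
  have hAn : A.Normal := hA1.1
  have hCs : ∀ r ∈ R, (∀ a ∈ A, r * a = a * r) → r = 1 ∨ r = z := by
    by_contra hcon
    have hC : ¬ (Subgroup.centralizer (A : Set Γ) ⊓ R ≤ Subgroup.zpowers z) := by
      intro h
      apply hcon
      intro r hr hra
      apply (hzp r).1
      apply h
      exact ⟨Subgroup.mem_centralizer_iff.2 (fun a ha => (hra a ha).symm), hr⟩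
    obtain ⟨X, hXC, hXn, hX, hXX⟩ := min_ab c.sol (Subgroup.centralizer (A : Set Γ) ⊓ R) inferInstance _ hC
    have hXA : ∀ x ∈ X, ∀ a ∈ A, K 1 x a := fun x hx a ha =>
      K.one.2 ((Subgroup.mem_centralizer_iff.1 (hXC hx).1 a ha).symm)
    have hmem : A ⊔ X ∈ 𝒮 := by
      refine ⟨inferInstance, sup_le hA1.2.1 (hXC.trans inf_le_right), ?_⟩
      intro g hg h hh
      have hg' : g ∈ (A : Set Γ) * (X : Set Γ) := by rw [← Subgroup.mul_normal]; exact hg
      have hh' : h ∈ (A : Set Γ) * (X : Set Γ) := by rw [← Subgroup.mul_normal]; exact hh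
      obtain ⟨a, ha, x, hx, rfl⟩ := hg'
      obtain ⟨a', ha', x', hx', rfl⟩ := hh'
      have k1 := hA1.2.2 a ha a' ha'
      have k2 := hKofmem x x' (hXX (Subgroup.commutator_mem_commutator hx hx'))
      have k3 := hXA x hx a' ha'
      have k4 := (hXA x' hx' a ha).symm Cn.one
      have c1 : Cn (1 * 1 : Γ) := by rw [one_mul]; exact Cn.one
      have c2 : Cn (z * 1) := by rw [mul_one]; exact hzc
      have c3 : Cn (1 * z) := by rw [one_mul]; exact hzc
      have c4 : Cn (z * z) := by rw [hzc.s]; exact Cn.one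
      show K 1 (a * x) (a' * x') ∨ K z (a * x) (a' * x')
      rcases k1 with k1 | k1 <;> rcases k2 with k2 | k2
      · left
        have e1 := K.mul_left Cn.one Cn.one c1 k1 k3
        have e2 := K.mul_left Cn.one Cn.one c1 k4 k2
        rw [one_mul] at e1 e2
        have := e1.mul_right Cn.one e2
        rwa [one_mul] at this
      · right
        have e1 := K.mul_left Cn.one Cn.one c1 k1 k3
        have e2 := K.mul_left Cn.one hzc c3 k4 k2
        rw [one_mul] at e1 e2
        have := e1.mul_right hzc e2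
        rwa [one_mul] at this
      · right
        have e1 := K.mul_left hzc Cn.one c2 k1 k3
        have e2 := K.mul_left Cn.one Cn.one c1 k4 k2
        rw [mul_one] at e1 e2
        have := e1.mul_right Cn.one e2
        rwa [mul_one] at this
      · left
        have e1 := K.mul_left hzc Cn.one c2 k1 k3
        have e2 := K.mul_left Cn.one hzc c3 k4 k2
        rw [mul_one] at e1
        rw [one_mul] at e2
        have := e1.mul_right hzc e2
        rwa [hzc.s] at this
    have hXle : X ≤ A := le_sup_right.trans (hA.2 hmem le_sup_left)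
    apply hX
    intro x hx
    apply (hzp x).2
    apply hofz
    exact c.scal h2 X (hXC.trans inf_le_right) hXn (fun a ha y hy => K.one.1 (hXA a ha y (hXle hy))) hx
  have s : Sy ρ R A z := ⟨hz, hzc, hz1, fun g a ha => hAn.conj_mem a ha g, hA1.2.1, hA1.2.2, hCs⟩
  -- the normal closure of `q`
  have hb : ∀ i : ℕ, cj (b ^ i) q = q ∨ cj (b ^ i) q = q' ∨ cj (b ^ i) q = q'' := by
    intro i
    induction i with
    | zero => left; unfold cj; group
    | succ i ih =>
      rw [pow_succ', cj_mul]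
      rcases ih with h | h | h
      · right; left; rw [h]; exact c.v4.h1
      · right; right; rw [h]; exact c.v4.h2
      · left; rw [h]; exact c.v4.h3
  have hcr : ∀ r ∈ R, ∀ w ∈ R, Eqz z (cj r w) w := by
    intro r hr w hw
    rcases s.comm_R c hr hw with h | h
    · left; show r * w * r⁻¹ = w; rw [h]; group
    · right; show r * w * r⁻¹ = z * w; rw [h]; group
  have hcls : ∀ g, Eqz z (cj g q) q ∨ Eqz z (cj g q) q' ∨ Eqz z (cj g q) q'' := by
    intro g
    obtain ⟨r, hr, i, rfl⟩ := c.gen g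
    rw [cj_mul]
    rcases hb i with h | h | h
    · left; rw [h]; exact hcr r hr q c.hq
    · right; left; rw [h]; exact hcr r hr q' c.hq'
    · right; right; rw [h]; exact hcr r hr q'' c.hq''
  have k1 : q * q' = q' * q := c.v4.comm.symm
  have k2 : q' * q'' = q'' * q' := c.v4.rot.comm.symm
  have k3 : q'' * q = q * q'' := c.v4.rot.rot.comm.symm
  have hcc : ∀ g h, cj g q * cj h q = cj h q * cj g q := by
    intro g h
    rcases hcls g with h1 | h1 | h1 <;> rcases hcls h with h3 | h3 | h3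
    · exact Eqz.comm hzc h1 h3 rfl
    · exact Eqz.comm hzc h1 h3 k1
    · exact Eqz.comm hzc h1 h3 k3.symm
    · exact Eqz.comm hzc h1 h3 k1.symm
    · exact Eqz.comm hzc h1 h3 rfl
    · exact Eqz.comm hzc h1 h3 k2
    · exact Eqz.comm hzc h1 h3 k3
    · exact Eqz.comm hzc h1 h3 k2.symm
    · exact Eqz.comm hzc h1 h3 rfl
  set S1 : Set Γ := Set.range (fun g => cj g q) with hS1
  set N := Subgroup.closure S1 with hN
  have hNn : N.Normal := by
    constructor
    intro n hn g
    induction hn using Subgroup.closure_induction with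
    | mem x hx =>
      obtain ⟨h, rfl⟩ := hx
      apply Subgroup.subset_closure
      exact ⟨g * h, cj_mul g h q⟩
    | one => rw [mul_one, mul_inv_cancel]; exact N.one_mem
    | mul x y _ _ h1 h3 =>
      have : g * (x * y) * g⁻¹ = (g * x * g⁻¹) * (g * y * g⁻¹) := by group
      rw [this]; exact N.mul_mem h1 h3
    | inv x _ h1 =>
      have : g * x⁻¹ * g⁻¹ = (g * x * g⁻¹)⁻¹ := by group
      rw [this]; exact N.inv_mem h1
  have hNR : N ≤ R := by
    rw [hN, Subgroup.closure_le]
    rintro _ ⟨g, rfl⟩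
    exact c.nor.conj_mem q c.hq g
  have hN1 : N ≤ Subgroup.centralizer S1 := by
    rw [hN, Subgroup.closure_le]
    rintro _ ⟨g, rfl⟩
    show cj g q ∈ Subgroup.centralizer S1
    rw [Subgroup.mem_centralizer_iff]
    rintro _ ⟨h, rfl⟩
    exact hcc h g
  have hN2 : N ≤ Subgroup.centralizer (N : Set Γ) := by
    conv_lhs => rw [hN]
    rw [Subgroup.closure_le]
    rintro _ ⟨g, rfl⟩
    show cj g q ∈ Subgroup.centralizer (N : Set Γ)
    rw [Subgroup.mem_centralizer_iff]
    intro n hn
    exact (Subgroup.mem_centralizer_iff.1 (hN1 hn) (cj g q) ⟨g, rfl⟩).symm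
  have hqN : q ∈ N := by
    apply Subgroup.subset_closure
    exact ⟨1, by unfold cj; group⟩
  rcases c.scal h2 N hNR hNn (fun a ha x hx => (Subgroup.mem_centralizer_iff.1 (hN2 hx) a ha)) hqN with h | h
  · apply c.v4.n
    apply c.inj
    rw [map_one]
    exact LinearMap.ext h
  · apply hu0
    apply hneg
    rw [← h u, hu1]

theorem Cfg.conc (c : Cfg ρ R b q q' q'') [Nontrivial V] : Conc R := by
  by_contra hcon
  apply symp c
  intro A hAR hAn hab
  rcases dich ρ c.irr c.inj A hab with ⟨t, D, h2, hi, hs, hf, hp, hpres, hsep⟩ | h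
  · exact absurd (mono c (h := ⟨h2, hi, hs, hf, hp⟩) A hAR hpres hsep) hcon
  · exact h

end

end H79.KB
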