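import Mathlib
import Cfsg.Agent.Lib.H79.KBj
import Cfsg.Agent.Lib.H26.SolvBal
import Cfsg.Agent.Lib.H1.Coprime2
import Cfsg.Agent.Lib.H1.Cores
import Cfsg.Agent.Lib.H3.PBasic
import Cfsg.Agent.Lib.H65.Frat
import Cfsg.Prelude.Def_Transfer
import Cfsg.Prelude.Def_Solvable

/-! Cubic element of order three with one Jordan block (S4415), part 11: ranks, extraspecial groups, `Q ≤ O_{3'}`. -/

set_option autoImplicit false

namespace H79.KB

open Subgroup Module
open scoped commutatorElement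

section ranks

variable {S E : Type*} [Group S] [AddCommGroup E] [Module (ZMod 3) E] [Finite E]
  (ρ : Representation (ZMod 3) S E)

theorem nil_lt {b : S} (hb : b ^ 3 = 1) (W : Submodule (ZMod 3) E) (hW : W.map (Nl ρ b) ≤ W) :
    finrank (ZMod 3) (W.map (Nl ρ b)) < finrank (ZMod 3) W ∨ W = ⊥ := by
  by_contra hcon
  push Not at hcon
  obtain ⟨h1, h2⟩ := hcon
  have h3 := Submodule.eq_of_le_of_finrank_le hW h1
  have h4 : ∀ w ∈ W, ∃ v ∈ W, Nl ρ b v = w := by
    intro w hw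
    rw [← h3] at hw
    obtain ⟨v, hv, hvw⟩ := hw
    exact ⟨v, hv, hvw⟩
  apply h2
  rw [eq_bot_iff]
  intro w hw
  obtain ⟨v1, hv1, e1⟩ := h4 w hw
  obtain ⟨v2, hv2, e2⟩ := h4 v1 hv1
  obtain ⟨v3, hv3, e3⟩ := h4 v2 hv2
  rw [Submodule.mem_bot, ← e1, ← e2, ← e3, Nl_sq ρ b v3, Nl_Tl ρ hb]

theorem ranks {b : S} (hb : b ^ 3 = 1) (E₀ E₁ : Submodule (ZMod 3) E) (hE01' : E₀ ⊔ E₁ = ⊤)
    (hE1 : ∀ v ∈ E₁, ρ b v = v) (hE0inv : ∀ v ∈ E₀, ρ b v ∈ E₀) (hE0 : Nat.card ↥E₀ = 27) :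
    finrank (ZMod 3) (LinearMap.range (Nl ρ b)) ≤ 2 ∧ finrank (ZMod 3) (LinearMap.range (Tl ρ b)) ≤ 1 := by
  have hf : finrank (ZMod 3) E₀ = 3 := by
    have h1 : Nat.card E₀ = Nat.card (ZMod 3) ^ finrank (ZMod 3) E₀ := Module.natCard_eq_pow_finrank
    rw [hE0, Nat.card_zmod] at h1
    exact (Nat.pow_right_injective (le_refl 2 |>.trans (by norm_num : 2 ≤ 3)) (by
      show 3 ^ finrank (ZMod 3) E₀ = 3 ^ 3
      rw [← h1]))
  have hNE : ∀ v, ∃ v0 ∈ E₀, Nl ρ b v = Nl ρ b v0 := by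
    intro v
    have hv : v ∈ E₀ ⊔ E₁ := by rw [hE01']; trivial
    obtain ⟨v0, h0, v1, h1, rfl⟩ := Submodule.mem_sup.1 hv
    refine ⟨v0, h0, ?_⟩
    rw [map_add, Nl_apply ρ b v1, hE1 v1 h1, sub_self, add_zero]
  have hW0 : E₀.map (Nl ρ b) ≤ E₀ := by
    rintro _ ⟨v, hv, rfl⟩
    exact E₀.sub_mem (hE0inv v hv) hv
  set W1 := E₀.map (Nl ρ b) with hW1
  have h1 : finrank (ZMod 3) W1 ≤ 2 := by
    rcases nil_lt ρ hb E₀ hW0 with h | h
    · rw [hf, ← hW1] at h; omega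
    · rw [h, finrank_bot] at hf; omega
  have hW1' : W1.map (Nl ρ b) ≤ W1 := by
    rintro _ ⟨v, hv, rfl⟩
    exact ⟨v, hW0 hv, rfl⟩
  have h2 : finrank (ZMod 3) (W1.map (Nl ρ b)) ≤ 1 := by
    rcases nil_lt ρ hb W1 hW1' with h | h
    · omega
    · rw [h, Submodule.map_bot, finrank_bot]; omega
  constructor
  · refine (Submodule.finrank_mono ?_).trans h1
    rintro _ ⟨v, rfl⟩
    obtain ⟨v0, h0, e⟩ := hNE v
    rw [e]
    exact ⟨v0, h0, rfl⟩
  · refine (Submodule.finrank_mono ?_).trans h2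
    rintro _ ⟨v, rfl⟩
    obtain ⟨v0, h0, e⟩ := hNE v
    rw [← Nl_sq, e]
    exact ⟨_, ⟨v0, h0, rfl⟩, rfl⟩

end ranks

theorem exsp {G : Type*} [Group G] [Finite G] (hcard : Nat.card G = 32) (z : G) (hz1 : z ≠ 1) (hzz : z * z = 1)
    (hzc : ∀ x, z * x = x * z) (hsq : ∀ x : G, x * x = 1 ∨ x * x = z)
    (hcen : ∀ x : G, (∀ y, x * y = y * x) → x = 1 ∨ x = z) (hna : ∃ x y : G, x * y ≠ y * x) :
    Cfsg.IsExtraspecial 2 G := by
  haveI : Fact (Nat.Prime 2) := ⟨Nat.prime_two⟩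
  have hP : IsPGroup 2 G := IsPGroup.of_card (n := 5) (by rw [hcard]; norm_num)
  have hmem : ∀ x : G, x ∈ Subgroup.center G ↔ x = 1 ∨ x = z := by
    intro x
    rw [Subgroup.mem_center_iff]
    constructor
    · intro h
      exact hcen x (fun y => (h y).symm)
    · rintro (rfl | rfl)
      · intro g; rw [mul_one, one_mul]
      · intro g; rw [hzc]
  have hsqc : ∀ x : G, x * x ∈ Subgroup.center G := fun x => (hmem _).2 (hsq x)
  have hcc : ∀ x y : G, ⁅x, y⁆ ∈ Subgroup.center G := by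
    intro x y
    have e : ⁅x, y⁆ = (x * y) * (x * y) * (y⁻¹ * (x * x)⁻¹ * y) * (y * y)⁻¹ := by
      rw [commutatorElement_def]; group
    rw [e]
    refine (Subgroup.center G).mul_mem ((Subgroup.center G).mul_mem (hsqc _) ?_) ((Subgroup.center G).inv_mem (hsqc _))
    have := (inferInstance : (Subgroup.center G).Normal).conj_mem _ ((Subgroup.center G).inv_mem (hsqc x)) y⁻¹
    rwa [inv_inv] at this
  have hcomm : commutator G ≤ Subgroup.center G := by
    rw [commutator_def, Subgroup.commutator_le]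
    intro x _ y _
    exact hcc x y
  obtain ⟨x0, y0, hxy⟩ := hna
  have hcz : ⁅x0, y0⁆ = z := by
    rcases (hmem _).1 (hcc x0 y0) with h | h
    · exact absurd (commutatorElement_eq_one_iff_mul_comm.1 h) hxy
    · exact h
  have hcen' : ∀ H : Subgroup G, z ∈ H → Subgroup.center G ≤ H := by
    intro H hH x hx
    rcases (hmem x).1 hx with rfl | rfl
    · exact H.one_mem
    · exact hH
  have hex : ∃ x : G, x * x = z := by
    by_contra hcon
    push Not at hcon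
    have h1 : ∀ x : G, x * x = 1 := fun x => (hsq x).resolve_right (hcon x)
    apply hxy
    have h2 : ∀ w : G, w⁻¹ = w := fun w => (eq_inv_of_mul_eq_one_left (h1 w)).symm
    have h3 := h2 (x0 * y0)
    rw [mul_inv_rev, h2, h2] at h3
    exact h3.symm
  obtain ⟨w, hw⟩ := hex
  refine ⟨⟨hP, ?_, ?_⟩, ?_⟩
  · apply le_antisymm
    · apply H65.Frat.frattini_le_of (p := 2) _ _ hcomm
      intro x
      rw [pow_two]; exact hsqc x
    · apply hcen'
      rw [← hw, ← pow_two]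
      exact H3.PBasic.pow_mem_frattini hP w
  · apply le_antisymm hcomm
    apply hcen'
    rw [← hcz]
    exact Subgroup.commutator_mem_commutator (Subgroup.mem_top _) (Subgroup.mem_top _)
  · have h1 : Subgroup.center G = Subgroup.zpowers z := by
      apply le_antisymm
      · exact hcen' _ (Subgroup.mem_zpowers z)
      · rw [Subgroup.zpowers_le]; exact (hmem z).2 (Or.inr rfl)
    rw [h1, Nat.card_zpowers]
    exact orderOf_eq_prime (by rw [pow_two]; exact hzz) hz1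

/-- `Q ≤ O_{3'}(S)` -/
theorem q_mem {S : Type*} [Group S] [Finite S] (hsol : Group.IsSolvable S) (b : S) (P : Sylow 3 S)
    (hb : b ∈ (Subgroup.center ↥(P : Subgroup S)).map (P : Subgroup S).subtype)
    {q q' q'' : S} (h : V4 b q q' q'') : q'' ∈ Cfsg.pPrimeCore 3 S := by
  haveI : Fact (Nat.Prime 3) := ⟨Nat.prime_three⟩
  set K0 := Cfsg.pPrimeCore 3 S with hK0
  haveI : K0.Normal := inferInstance
  let φ : S →* S ⧸ K0 := QuotientGroup.mk' K0
  have hφ : Function.Surjective φ := QuotientGroup.mk'_surjective K0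
  set T := Cfsg.pCore 3 (S ⧸ K0) with hT
  have hC : Subgroup.centralizer (T : Set (S ⧸ K0)) ≤ T :=
    H26.SolvBal.centralizer_pCore_quotient_le_of_isSolvable hsol
  have hbT : φ b ∈ T := by
    apply hC
    rw [Subgroup.mem_centralizer_iff]
    intro t ht
    have h1 : t ∈ ((P.mapSurjective hφ : Sylow 3 (S ⧸ K0)) : Subgroup (S ⧸ K0)) :=
      H1.Cores.pCore_le_sylow _ ht
    rw [Sylow.coe_mapSurjective] at h1
    obtain ⟨x, hx, rfl⟩ := h1
    obtain ⟨b0, hb0, hb1⟩ := hb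
    have h2 := (Subgroup.mem_center_iff.1 hb0) ⟨x, hx⟩
    have h3 : x * b = b * x := by
      have := congrArg Subtype.val h2
      rw [← hb1]
      exact this
    rw [← map_mul, ← map_mul, h3]
  have hTn : T.Normal := inferInstance
  have hq : q'' = q * (b * q⁻¹ * b⁻¹) := by
    have e : q⁻¹ = q := (eq_inv_of_mul_eq_one_left h.s).symm
    rw [e, h.h1, h.h4]
  have h1 : φ q'' ∈ T := by
    have : φ q'' = (φ q * φ b * (φ q)⁻¹) * (φ b)⁻¹ := by
      rw [← map_mul, ← map_inv, ← map_inv, ← map_mul, ← map_mul, hq]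
      congr 1; group
    rw [this]
    exact T.mul_mem (hTn.conj_mem _ hbT _) (T.inv_mem hbT)
  have h2 : φ q'' = 1 := by
    obtain ⟨k, hk⟩ := (H1.Cores.isPGroup_pCore (G := S ⧸ K0) 3) ⟨φ q'', h1⟩
    have hk' : (φ q'') ^ 3 ^ k = 1 := congrArg Subtype.val hk
    have h3 : (φ q'') ^ 2 = 1 := by rw [pow_two, ← map_mul, h.s'', map_one]
    have h4 : orderOf (φ q'') ∣ 1 := by
      have : Nat.gcd (3 ^ k) 2 = 1 := Nat.Coprime.pow_left k (by norm_num)
      rw [← this]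
      exact Nat.dvd_gcd (orderOf_dvd_of_pow_eq_one hk') (orderOf_dvd_of_pow_eq_one h3)
    exact orderOf_eq_one_iff.1 (Nat.dvd_one.1 h4)
  exact (QuotientGroup.eq_one_iff q'').1 h2

end H79.KB
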