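import Mathlib
import Cfsg.Agent.Lib.H79.KBk

/-! Cubic element of order three with one Jordan block (S4415), part 12: assembly. -/

set_option autoImplicit false

namespace H79.KB

open Subgroup Module
open scoped commutatorElement Pointwise

section

variable {S E : Type*} [Group S] [AddCommGroup E] [Module (ZMod 3) E]
  (ρ : Representation (ZMod 3) S E)

/-- restriction of a representation to a subgroup and an invariant subspace -/
def res (L : Subgroup S) (F : Submodule (ZMod 3) E) (h : ∀ g ∈ L, ∀ v ∈ F, ρ g v ∈ F) :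
    Representation (ZMod 3) L F where
  toFun g := (ρ g).restrict (h g g.2)
  map_one' := by
    apply LinearMap.ext
    intro v
    apply Subtype.ext
    show ρ ((1 : L) : S) v = v
    rw [Subgroup.coe_one, map_one]; rfl
  map_mul' g g' := by
    apply LinearMap.ext
    intro v
    apply Subtype.ext
    show ρ ((g * g' : L) : S) v = ρ g (ρ g' v)
    rw [Subgroup.coe_mul, rho_mul]

theorem res_coe (L : Subgroup S) (F : Submodule (ZMod 3) E) (h : ∀ g ∈ L, ∀ v ∈ F, ρ g v ∈ F) (g : L) (v : F) :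
    ((res ρ L F h g v : F) : E) = ρ g v := rfl

end

section

variable {S E : Type*} [Group S] [Finite S] [AddCommGroup E] [Module (ZMod 3) E] [Finite E]
  {ρ : Representation (ZMod 3) S E}

theorem gen_form (R : Subgroup S) {b : S} (hbN : b ∈ normalizer (R : Set S)) :
    ∀ g ∈ R ⊔ zpowers b, ∃ r ∈ R, ∃ i : ℕ, g = r * b ^ i := by
  intro g hg
  have h1 : (↑(R ⊔ zpowers b) : Set S) = (R : Set S) * (zpowers b : Set S) :=
    coe_mul_of_right_le_normalizer_left R (zpowers b) (by rw [zpowers_le]; exact hbN)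
  have h2 : g ∈ (R : Set S) * (zpowers b : Set S) := by rw [← h1]; exact hg
  obtain ⟨r, hr, y, hy, rfl⟩ := h2
  obtain ⟨i, rfl⟩ := (isOfFinOrder_of_finite b).mem_powers_iff_mem_zpowers.2 hy
  exact ⟨r, hr, i, rfl⟩

theorem V4.ne {b q q' q'' : S} (hv : V4 b q q' q'') : q' ≠ q ∧ q'' ≠ q := by
  constructor
  · intro h
    apply hv.rot.rot.n
    rw [← hv.h4, h, hv.s]
  · intro h
    apply hv.rot.n
    have h4 := hv.h4
    rw [h] at h4
    exact mul_eq_left.1 h4

theorem conc_faith (hfaith : Function.Injective ρ) (R : Subgroup S) (h3 : (Nat.card R).Coprime 3) {b q q' q'' : S}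
    (hb : b ^ 3 = 1) (hbN : b ∈ normalizer (R : Set S)) (h : V4 b q q' q'') (hq : q ∈ R) :
    ∀ g ∈ R ⊔ zpowers b, (∀ v ∈ F0 ρ R, ρ g v = v) → g = 1 := by
  have hR1 : ∀ r ∈ R, (∀ v ∈ F0 ρ R, ρ r v = v) → r = 1 := by
    intro r hr hrv
    apply hfaith
    rw [map_one]
    apply LinearMap.ext
    intro v
    have hv : v ∈ F0 ρ R ⊔ F1 ρ R := by rw [sup_top ρ R h3]; trivial
    obtain ⟨v0, h0, v1, h1, rfl⟩ := Submodule.mem_sup.1 hv
    rw [map_add, hrv v0 h0, h1 r hr]; rfl
  intro g hg hgv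
  have hgN : g ∈ normalizer (R : Set S) := by
    have : R ⊔ zpowers b ≤ normalizer (R : Set S) := sup_le le_normalizer (by rw [zpowers_le]; exact hbN)
    exact this hg
  have hgv' : ∀ v ∈ F0 ρ R, ρ g⁻¹ v = v := by
    intro v hv
    conv_lhs => rw [← hgv v hv]
    rw [rho_inv_self]
  have hcent : ∀ x ∈ R, g * x = x * g := by
    intro x hx
    have h1 : g * x * g⁻¹ * x⁻¹ = 1 := by
      apply hR1
      · exact R.mul_mem ((mem_normalizer_iff.1 hgN x).1 hx) (R.inv_mem hx)
      · intro v hv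
        have hxv := F0_R ρ R (R.inv_mem hx) hv
        rw [rho_mul, rho_mul, rho_mul, hgv' _ hxv, rho_self_inv, hgv v hv]
    have := mul_inv_eq_one.1 h1
    calc g * x = g * x * g⁻¹ * g := by group
      _ = x * g := by rw [this]
  obtain ⟨r, hr, i, rfl⟩ := gen_form R hbN g hg
  set β := b ^ i with hβ
  have hβN : β ∈ normalizer (R : Set S) := (normalizer (R : Set S)).pow_mem hbN i
  have hβ3 : β * β * β = 1 := by
    have : β ^ 3 = 1 := by rw [hβ, ← pow_mul, mul_comm, pow_mul, hb, one_pow]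
    rw [← this]; simp [pow_succ]
  have hg3 : (r * β) * (r * β) * (r * β) = 1 := by
    apply hR1
    · have e : (r * β) * (r * β) * (r * β) = r * (β * r * β⁻¹) * (β * (β * r * β⁻¹) * β⁻¹) * (β * β * β) := by group
      rw [e, hβ3, mul_one]
      have h1 := (mem_normalizer_iff.1 hβN r).1 hr
      exact R.mul_mem (R.mul_mem hr h1) ((mem_normalizer_iff.1 hβN _).1 h1)
    · intro v hv
      rw [rho_mul, rho_mul (ρ := ρ) (r * β) (r * β), hgv v hv, hgv v hv, hgv v hv]
  have hrr : β * r = r * β := by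
    have := hcent r hr
    have h2 : r * (β * r) = r * (r * β) := by rw [← mul_assoc, this]
    exact mul_left_cancel h2
  have hr3 : r ^ 3 = 1 := by
    have e : (r * β) * (r * β) * (r * β) = r * r * r * (β * β * β) := by
      calc (r * β) * (r * β) * (r * β) = r * (β * r) * (β * r) * β := by group
        _ = r * (r * β) * (r * β) * β := by rw [hrr]
        _ = r * r * (β * r) * β * β := by group
        _ = r * r * (r * β) * β * β := by rw [hrr]
        _ = r * r * r * (β * β * β) := by group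
    rw [hg3, hβ3, mul_one] at e
    rw [pow_succ, pow_two]; exact e.symm
  have hr1 : r = 1 := pow_cop h3 (MonoidHom.id S) hr hr3
  have hβq : β * q * β⁻¹ = q := by
    have := hcent q hq
    rw [hr1, one_mul] at this
    rw [this]; group
  have hmod : β = b ^ (i % 3) := by
    rw [hβ]
    conv_lhs => rw [← Nat.div_add_mod i 3, pow_add, pow_mul, hb, one_pow, one_mul]
  have hlt : i % 3 < 3 := Nat.mod_lt _ (by norm_num)
  rw [hr1, one_mul]
  obtain ⟨n1, n2⟩ := h.ne
  generalize i % 3 = j at hmod hlt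
  interval_cases j
  · rw [hmod, pow_zero]
  · exfalso
    apply n1
    rw [hmod, pow_one, h.h1] at hβq
    exact hβq
  · exfalso
    apply n2
    rw [hmod] at hβq
    have e : b ^ 2 * q * (b ^ 2)⁻¹ = b * (b * q * b⁻¹) * b⁻¹ := by rw [pow_two]; group
    rw [e, h.h1, h.h2] at hβq
    exact hβq

theorem card_subgroupOf' {L R : Subgroup S} (hRL : R ≤ L) : Nat.card (R.subgroupOf L) = Nat.card R :=
  Nat.card_congr (Subgroup.subgroupOfEquivOfLe hRL).toEquiv

theorem Conc_of_subgroupOf {L R : Subgroup S} (hRL : R ≤ L) (h : Conc (R.subgroupOf L)) : Conc R := by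
  have hm : ∀ x (hx : x ∈ R), (⟨x, hRL hx⟩ : L) ∈ R.subgroupOf L := fun x hx => Subgroup.mem_subgroupOf.2 hx
  rcases h with ⟨h1, h2, h3⟩ | ⟨h1, z, hz, hz1, hzz, hzc, hsq, hcen, ⟨x0, hx0, y0, hy0, hxy⟩, A8, hA, hA8, hAs⟩
  · left
    rw [card_subgroupOf' hRL] at h1
    refine ⟨h1, fun x hx => congrArg Subtype.val (h2 _ (hm x hx)), fun x hx y hy =>
      congrArg Subtype.val (h3 _ (hm x hx) _ (hm y hy))⟩
  · right
    rw [card_subgroupOf' hRL] at h1
    refine ⟨h1, z, Subgroup.mem_subgroupOf.1 hz, fun h => hz1 (Subtype.ext h), congrArg Subtype.val hzz,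
      fun x hx => congrArg Subtype.val (hzc _ (hm x hx)), ?_, ?_, ⟨x0, Subgroup.mem_subgroupOf.1 hx0, y0,
      Subgroup.mem_subgroupOf.1 hy0, fun h => hxy (Subtype.ext h)⟩, A8.map L.subtype, ?_, ?_, ?_⟩
    · intro x hx
      rcases hsq _ (hm x hx) with h | h
      · exact Or.inl (congrArg Subtype.val h)
      · exact Or.inr (congrArg Subtype.val h)
    · intro x hx hxc
      rcases hcen _ (hm x hx) (fun y hy => Subtype.ext (hxc y (Subgroup.mem_subgroupOf.1 hy))) with h | h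
      · exact Or.inl (congrArg Subtype.val h)
      · exact Or.inr (congrArg Subtype.val h)
    · rintro _ ⟨a, ha, rfl⟩
      exact Subgroup.mem_subgroupOf.1 (hA ha)
    · rw [← hA8]
      exact Nat.card_congr (Subgroup.equivMapOfInjective A8 L.subtype L.subtype_injective).symm.toEquiv
    · rintro _ ⟨a, ha, rfl⟩
      exact congrArg Subtype.val (hAs a ha)

theorem assemble (hsol : Group.IsSolvable S) (hfaith : Function.Injective ρ) (R : Subgroup S)
    (h3 : (Nat.card R).Coprime 3) {b q q' q'' : S}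
    (hb : b ^ 3 = 1) (hR : R ≤ ⁅R, zpowers b⁆) (hbN : b ∈ normalizer (R : Set S))
    (hr2 : finrank (ZMod 3) (LinearMap.range (Nl ρ b)) ≤ 2) (hr1 : finrank (ZMod 3) (LinearMap.range (Tl ρ b)) ≤ 1)
    (h : V4 b q q' q'') (hq : q ∈ R) (hq' : q' ∈ R) (hq'' : q'' ∈ R) :
    Conc R ∧ (∀ g ∈ R ⊔ zpowers b, (∀ v ∈ F0 ρ R, ρ g v = v) → g = 1) ∧
      ∀ N : Submodule (ZMod 3) E, N ≤ F0 ρ R → (∀ r ∈ R ⊔ zpowers b, ∀ v ∈ N, ρ r v ∈ N) → N = ⊥ ∨ N = F0 ρ R := by
  classical
  haveI := hsol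
  have hfa := conc_faith hfaith R h3 hb hbN h hq
  have hL : R ⊔ zpowers b ≤ normalizer (R : Set S) := sup_le le_normalizer (by rw [zpowers_le]; exact hbN)
  have hRL : R ≤ R ⊔ zpowers b := le_sup_left
  have hbL : b ∈ R ⊔ zpowers b := (le_sup_right : zpowers b ≤ _) (mem_zpowers b)
  have hinv : ∀ g ∈ R ⊔ zpowers b, ∀ v ∈ F0 ρ R, ρ g v ∈ F0 ρ R := fun g hg v hv => F0_inv ρ R (hL hg) hv
  have hx : ∃ x ∈ F0 ρ R, ρ q x ≠ x := by
    by_contra hcon
    push Not at hcon
    exact h.n (hfa q (hRL hq) hcon)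
  obtain ⟨x, hx, hxq⟩ := hx
  obtain ⟨u, hu, hu0, hu1, hu2⟩ := h.exists_wt ρ (F0 ρ R) (hinv q (hRL hq)) (hinv q' (hRL hq')) (hinv b hbL) hx hxq
  have hirr : ∀ N : Submodule (ZMod 3) E, N ≤ F0 ρ R → (∀ r ∈ R ⊔ zpowers b, ∀ v ∈ N, ρ r v ∈ N) →
      N = ⊥ ∨ N = F0 ρ R := fun N hN hNi =>
    irr ρ R h3 hb hR hbN hr2 h hq hq' hq'' hu0 hu hu1 hu2 N hN (fun r hr => hNi r (hRL hr)) (hNi b hbL)
  refine ⟨?_, hfa, hirr⟩
  haveI : Nontrivial (F0 ρ R) := ⟨⟨⟨u, hu⟩, 0, fun h => hu0 (congrArg Subtype.val h)⟩⟩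
  set L := R ⊔ zpowers b with hLdef
  apply Conc_of_subgroupOf hRL
  have c : Cfg (res ρ L (F0 ρ R) hinv) (R.subgroupOf L) (⟨b, hbL⟩ : L) ⟨q, hRL hq⟩ ⟨q', hRL hq'⟩ ⟨q'', hRL hq''⟩ := by
    refine ⟨inferInstance, ?_, ?_, Subgroup.normal_subgroupOf_of_le_normalizer hL, ?_, Subtype.ext hb, ?_, ?_, ?_, ?_,
      ?_, Subgroup.mem_subgroupOf.2 hq, Subgroup.mem_subgroupOf.2 hq', Subgroup.mem_subgroupOf.2 hq''⟩
    · rw [injective_iff_map_eq_one]
      intro g hg
      apply Subtype.ext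
      apply hfa g g.2
      intro v hv
      have h5 := LinearMap.congr_fun hg (⟨v, hv⟩ : F0 ρ R)
      exact congrArg Subtype.val h5
    · intro M hM
      have h6 := hirr (M.map (F0 ρ R).subtype) (by
        rintro _ ⟨v, _, rfl⟩; exact v.2) (by
        rintro g hg _ ⟨v, hv, rfl⟩
        exact ⟨_, hM ⟨g, hg⟩ v hv, rfl⟩)
      rcases h6 with h6 | h6
      · left
        rw [eq_bot_iff]
        intro v hv
        rw [Submodule.mem_bot]
        apply Subtype.ext
        have : (v : E) ∈ M.map (F0 ρ R).subtype := ⟨v, hv, rfl⟩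
        rw [h6, Submodule.mem_bot] at this
        exact this
      · right
        rw [eq_top_iff]
        intro v _
        have : (v : E) ∈ M.map (F0 ρ R).subtype := by rw [h6]; exact v.2
        obtain ⟨w, hw, hwv⟩ := this
        have : w = v := Subtype.ext hwv
        rw [← this]; exact hw
    · rw [card_subgroupOf' hRL]; exact h3
    · rintro ⟨g, hg⟩
      obtain ⟨r, hr, i, rfl⟩ := gen_form R hbN g hg
      exact ⟨⟨r, hRL hr⟩, Subgroup.mem_subgroupOf.2 hr, i, Subtype.ext rfl⟩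
    · rw [← Subgroup.map_le_map_iff_of_injective L.subtype_injective, Subgroup.map_commutator,
        Subgroup.subgroupOf_map_subtype, inf_eq_left.2 hRL, MonoidHom.map_zpowers]
      exact hR
    · rw [← Submodule.finrank_map_subtype_eq (F0 ρ R)]
      refine (Submodule.finrank_mono ?_).trans hr2
      rintro _ ⟨_, ⟨v, rfl⟩, rfl⟩
      exact ⟨v, rfl⟩
    · rw [← Submodule.finrank_map_subtype_eq (F0 ρ R)]
      refine (Submodule.finrank_mono ?_).trans hr1
      rintro _ ⟨_, ⟨v, rfl⟩, rfl⟩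
      exact ⟨v, rfl⟩
    · exact ⟨Subtype.ext h.h1, Subtype.ext h.h2, Subtype.ext h.h3, Subtype.ext h.h4,
        fun h' => h.n (congrArg Subtype.val h'), Subtype.ext h.s, Subtype.ext h.s', Subtype.ext h.s''⟩
  exact c.conc

end

end H79.KB
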