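import Cfsg.Agent.Lib.H79.PSmall
import Cfsg.Agent.Lib.H30.Nil2
import Cfsg.Agent.Lib.H28.RelSyl
import Cfsg.Agent.Lib.H39.Trans
import Cfsg.Agent.Lib.H52.SylJoin
import Cfsg.Agent.Lib.H26.LocalFitting
import Cfsg.Agent.Lib.H1.Cores
import Cfsg.Agent.Lib.H1.Frat
import Cfsg.Agent.Lib.H2.NPC
import Cfsg.Agent.S0081

/-! `p`-groups with abelianization of order `p ^ 2`, and groups with such a Sylow `p`-subgroup. -/

set_option autoImplicit false
set_option linter.unusedSectionVars false
set_option linter.style.haveILetI false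

namespace H79.MaxAb

open Subgroup
open scoped commutatorElement

section pgroup

variable {P : Type*} [Group P] [Finite P] {p : ℕ} [hp : Fact p.Prime]

theorem map_commutator_surj {Q : Type*} [Group Q] (f : P →* Q) (hf : Function.Surjective f) :
    (commutator P).map f = commutator Q := by
  rw [commutator_def, commutator_def, Subgroup.map_commutator, ← MonoidHom.range_eq_map,
    MonoidHom.range_eq_top.2 hf]

theorem commutator_eq_bot_of_index_dvd (hP : IsPGroup p P) (h : (commutator P).index ∣ p) :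
    commutator P = ⊥ := by
  haveI : Group.IsNilpotent P := hP.isNilpotent
  rcases (Nat.dvd_prime hp.out).1 h with h1 | h1
  · by_cases hn : Nontrivial P
    · exact absurd (Subgroup.index_eq_one.1 h1)
        (Group.IsSolvable.commutator_lt_top_of_nontrivial P).ne
    · rw [not_nontrivial_iff_subsingleton] at hn
      exact Subsingleton.elim _ _
  · exact H30.Nil2.commutator_eq_bot_of_index_prime (by rw [h1]; exact hp.out)

/-- A normal subgroup not contained in the derived subgroup has index dividing `p`. -/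
theorem index_dvd_of_not_le (hP : IsPGroup p P) (h : (commutator P).index = p ^ 2)
    (K : Subgroup P) [K.Normal] (hK : ¬ K ≤ commutator P) :
    commutator P ≤ K ∧ K.index ∣ p := by
  have h0 : (commutator P).relIndex (commutator P ⊔ K) * (commutator P ⊔ K).index = p ^ 2 := by
    rw [← h]; exact Subgroup.relIndex_mul_index le_sup_left
  have h1 : (commutator P ⊔ K).index ∣ p := by
    obtain ⟨k, hk, hk'⟩ := (Nat.dvd_prime_pow hp.out).1 (Dvd.intro_left _ h0)
    rw [hk']
    have hk2 : k ≠ 2 := by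
      rintro rfl
      rw [hk'] at h0
      have h2 : (commutator P).relIndex (commutator P ⊔ K) = 1 :=
        Nat.eq_of_mul_eq_mul_right (pow_pos hp.out.pos 2) (by rw [h0, one_mul])
      exact hK (le_sup_right.trans (Subgroup.relIndex_eq_one.1 h2))
    have : k ≤ 1 := by omega
    exact (pow_dvd_pow p this).trans (by rw [pow_one])
  have h2 : (commutator (P ⧸ K)).index = (commutator P ⊔ K).index := by
    rw [← map_commutator_surj (QuotientGroup.mk' K) (QuotientGroup.mk'_surjective K),
      Subgroup.index_map, QuotientGroup.ker_mk', MonoidHom.range_eq_top.2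
        (QuotientGroup.mk'_surjective K), Subgroup.index_top, mul_one]
  have h3 : commutator (P ⧸ K) = ⊥ :=
    commutator_eq_bot_of_index_dvd (hP.to_quotient K) (by rw [h2]; exact h1)
  have h4 : commutator P ≤ K := by
    rw [← map_commutator_surj (QuotientGroup.mk' K) (QuotientGroup.mk'_surjective K),
      Subgroup.map_eq_bot_iff, QuotientGroup.ker_mk'] at h3
    exact h3
  refine ⟨h4, ?_⟩
  rwa [sup_eq_right.2 h4] at h1

/-- For an abelian normal subgroup `W` of index `p` in a `p`-group with abelianization of order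
`p ^ 2`, the centralizer of an element outside `W` has order `p ^ 2`. -/
theorem card_centralizer (h : (commutator P).index = p ^ 2) (W : Subgroup P) [hWn : W.Normal]
    (hW : W.index = p) (hab : ∀ a ∈ W, ∀ b ∈ W, a * b = b * a) {x : P} (hx : x ∉ W) :
    Nat.card (Subgroup.centralizer ({x} : Set P)) = p ^ 2 := by
  have hp' := hp.out
  have hcW : ∀ a ∈ W, x⁻¹ * a * x ∈ W := fun a ha => by
    have := hWn.conj_mem a ha x⁻¹
    rwa [inv_inv] at this
  let f : W →* P :=
    { toFun := fun a => (a : P)⁻¹ * (x⁻¹ * a * x)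
      map_one' := by simp
      map_mul' := fun a b => by
        have h1 : (a : P)⁻¹ * (x⁻¹ * a * x) ∈ W := W.mul_mem (W.inv_mem a.2) (hcW a a.2)
        have h2 := hab _ h1 _ (W.inv_mem b.2)
        show ((a : P) * b)⁻¹ * (x⁻¹ * (a * b) * x) = (a : P)⁻¹ * (x⁻¹ * a * x) * ((b : P)⁻¹ * (x⁻¹ * b * x))
        calc ((a : P) * b)⁻¹ * (x⁻¹ * (a * b) * x)
            = ((b : P)⁻¹ * ((a : P)⁻¹ * (x⁻¹ * a * x))) * (x⁻¹ * b * x) := by group
          _ = ((a : P)⁻¹ * (x⁻¹ * a * x) * (b : P)⁻¹) * (x⁻¹ * b * x) := by rw [h2]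
          _ = _ := by group }
  have hf : ∀ a : W, f a = (a : P)⁻¹ * (x⁻¹ * a * x) := fun _ => rfl
  set R := f.range with hR
  have hRW : R ≤ W := by
    rintro _ ⟨a, rfl⟩
    exact W.mul_mem (W.inv_mem a.2) (hcW a a.2)
  have hWR : W ≤ Subgroup.normalizer (R : Set P) := by
    intro w hw
    rw [Subgroup.mem_normalizer_iff]
    intro r
    constructor
    · intro hr
      have : w * r * w⁻¹ = r := by rw [hab w hw r (hRW hr), mul_inv_cancel_right]
      rwa [this]
    · intro hr
      have h1 := hab w hw _ (hRW hr)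
      have h2 : r = w * r * w⁻¹ := by
        have h3 : w * (w * r * w⁻¹) = (w * r * w⁻¹) * w := h1
        rw [inv_mul_cancel_right, mul_assoc w r] at h3
        have h4 := mul_left_cancel h3
        rw [← mul_assoc] at h4
        exact h4.symm
      rwa [← h2] at hr
  have hxR : x ∈ Subgroup.normalizer (R : Set P) := by
    rw [Subgroup.mem_normalizer_iff]
    intro r
    constructor
    · rintro ⟨a, rfl⟩
      refine ⟨⟨x * a * x⁻¹, hWn.conj_mem a a.2 x⟩, ?_⟩
      rw [hf, hf]
      group
    · rintro ⟨a, ha⟩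
      refine ⟨⟨x⁻¹ * a * x, hcW a a.2⟩, ?_⟩
      have h1 : r = x⁻¹ * (x * r * x⁻¹) * x := by group
      rw [h1, ← ha, hf, hf]
      group
  have hRn : R.Normal := by
    rw [← Subgroup.normalizer_eq_top_iff]
    have h1 : (Subgroup.normalizer (R : Set P)).index ∣ p := by
      rw [← hW]; exact Subgroup.index_dvd_of_le hWR
    rcases (Nat.dvd_prime hp').1 h1 with h2 | h2
    · exact Subgroup.index_eq_one.1 h2
    · exfalso
      have h3 : W.relIndex (Subgroup.normalizer (R : Set P)) = 1 := by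
        have h4 := Subgroup.relIndex_mul_index hWR
        rw [hW, h2] at h4
        exact Nat.eq_of_mul_eq_mul_right hp'.pos (by rw [h4, one_mul])
      exact hx (Subgroup.relIndex_eq_one.1 h3 hxR)
  -- elements commuting with W mod R
  have hcomm : ∀ m ∈ W, ∀ a : P, ⁅a, m⁆ ∈ R := by
    let C : Subgroup P := (Subgroup.centralizer ((W.map (QuotientGroup.mk' R) : Subgroup (P ⧸ R)) :
      Set (P ⧸ R))).comap (QuotientGroup.mk' R)
    have hC : ∀ a : P, a ∈ C ↔ ∀ m ∈ W, ⁅a, m⁆ ∈ R := by
      intro a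
      rw [Subgroup.mem_comap, Subgroup.mem_centralizer_iff]
      constructor
      · intro h1 m hm
        have h2 := h1 _ ⟨m, hm, rfl⟩
        rw [← QuotientGroup.eq_one_iff, commutatorElement_def]
        rw [QuotientGroup.mk_mul, QuotientGroup.mk_mul, QuotientGroup.mk_mul, QuotientGroup.mk_inv,
          QuotientGroup.mk_inv]
        have h3 : (m : P ⧸ R) * (a : P ⧸ R) = (a : P ⧸ R) * (m : P ⧸ R) := h2
        rw [← h3]
        group
      · rintro h1 _ ⟨m, hm, rfl⟩
        have h2 := h1 m hm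
        rw [← QuotientGroup.eq_one_iff, commutatorElement_def] at h2
        rw [QuotientGroup.mk_mul, QuotientGroup.mk_mul, QuotientGroup.mk_mul, QuotientGroup.mk_inv,
          QuotientGroup.mk_inv] at h2
        show (m : P ⧸ R) * (a : P ⧸ R) = (a : P ⧸ R) * (m : P ⧸ R)
        rw [mul_inv_eq_one, mul_inv_eq_iff_eq_mul] at h2
        exact h2.symm
    have h1 : W ≤ C := by
      intro w hw
      rw [hC]
      intro m hm
      rw [commutatorElement_def, hab w hw m hm]
      have : m * w * w⁻¹ * m⁻¹ = 1 := by group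
      rw [this]; exact R.one_mem
    have h2 : x ∈ C := by
      rw [hC]
      intro m hm
      refine ⟨⟨x * m⁻¹ * x⁻¹, hWn.conj_mem _ (W.inv_mem hm) x⟩, ?_⟩
      rw [hf, commutatorElement_def]
      group
    have h3 : C = ⊤ := by
      have h1' : C.index ∣ p := by
        rw [← hW]; exact Subgroup.index_dvd_of_le h1
      rcases (Nat.dvd_prime hp').1 h1' with h4 | h4
      · exact Subgroup.index_eq_one.1 h4
      · exfalso
        have h5 : W.relIndex C = 1 := by
          have h6 := Subgroup.relIndex_mul_index h1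
          rw [hW, h4] at h6
          exact Nat.eq_of_mul_eq_mul_right hp'.pos (by rw [h6, one_mul])
        exact hx (Subgroup.relIndex_eq_one.1 h5 h2)
    intro m hm a
    exact (hC a).1 (h3 ▸ Subgroup.mem_top a) m hm
  have h1 : commutator P ≤ R := H79.PSmall.commutator_le_of_index_prime hp' hW hcomm
  have h2 : R = commutator P := by
    refine le_antisymm ?_ h1
    rintro _ ⟨a, rfl⟩
    rw [hf]
    have : (a : P)⁻¹ * (x⁻¹ * a * x) = ⁅(a : P)⁻¹, x⁻¹⁆ := by
      rw [commutatorElement_def]; group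
    rw [this]
    exact Subgroup.commutator_mem_commutator (Subgroup.mem_top _) (Subgroup.mem_top _)
  -- counting
  have h3 : Nat.card f.ker * Nat.card R = Nat.card W := by
    have := Subgroup.card_mul_index f.ker
    rwa [Subgroup.index_ker] at this
  have h4 : Nat.card W * p = Nat.card P := by rw [← W.card_mul_index, hW]
  have h5 : Nat.card (commutator P) * p ^ 2 = Nat.card P := by rw [← (commutator P).card_mul_index, h]
  have h6 : Nat.card f.ker = p := by
    rw [h2] at h3
    have hpos : 0 < Nat.card (commutator P) := Nat.card_pos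
    have h7 : Nat.card f.ker * (Nat.card (commutator P) * p) = p * (Nat.card (commutator P) * p) := by
      calc Nat.card f.ker * (Nat.card (commutator P) * p)
          = (Nat.card f.ker * Nat.card (commutator P)) * p := by ring
        _ = Nat.card P := by rw [h3, h4]
        _ = Nat.card (commutator P) * p ^ 2 := h5.symm
        _ = p * (Nat.card (commutator P) * p) := by ring
    exact Nat.eq_of_mul_eq_mul_right (Nat.mul_pos hpos hp'.pos) h7
  set C := Subgroup.centralizer ({x} : Set P) with hC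
  have h7 : Nat.card (W ⊓ C : Subgroup P) = p := by
    rw [← h6]
    refine Nat.card_congr
      { toFun := fun z => ⟨⟨z.1, z.2.1⟩, ?_⟩
        invFun := fun z => ⟨z.1.1, z.1.2, ?_⟩
        left_inv := fun z => rfl
        right_inv := fun z => rfl }
    · rw [MonoidHom.mem_ker, hf]
      have h8 := Subgroup.mem_centralizer_singleton_iff.1 z.2.2
      show (z.1 : P)⁻¹ * (x⁻¹ * z.1 * x) = 1
      rw [mul_assoc x⁻¹, h8]
      group
    · have h8 := MonoidHom.mem_ker.1 z.2
      rw [hf] at h8
      refine Subgroup.mem_centralizer_singleton_iff.2 ?_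
      have h9 : x⁻¹ * (z.1 : P) * x = z.1 := (inv_mul_eq_one.1 h8).symm
      calc (z.1 : P) * x = x * (x⁻¹ * (z.1 : P) * x) := by group
        _ = x * z.1 := by rw [h9]
  have hxC : x ∈ C := Subgroup.mem_centralizer_singleton_iff.2 rfl
  have h8 : W.relIndex C = p := by
    have h9 : W.relIndex C ∣ p := by rw [← hW]; exact Subgroup.relIndex_dvd_index_of_normal W C
    rcases (Nat.dvd_prime hp').1 h9 with h10 | h10
    · exact absurd (Subgroup.relIndex_eq_one.1 h10 hxC) hx
    · exact h10
  have h9 := H28.RelSyl.relIndex_mul_card (inf_le_right : W ⊓ C ≤ C)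
  rw [Subgroup.inf_relIndex_right, h7, h8] at h9
  rw [← h9, pow_two]

end pgroup

section group

variable {G : Type*} [Group G] [Finite G] {p : ℕ} [hp : Fact p.Prime]

theorem subgroupOf_commutator (P : Subgroup G) : (⁅P, P⁆).subgroupOf P = commutator P := by
  rw [← Subgroup.map_subtype_commutator P, ← Subgroup.comap_subtype,
    Subgroup.comap_map_eq_self_of_injective P.subtype_injective]

/-- a `p`-element centralizing a Sylow `p`-subgroup lies in it -/
theorem pelt_mem (P : Sylow p G) {x : G} (hx : ∃ k : ℕ, orderOf x = p ^ k)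
    (hc : x ∈ Subgroup.centralizer ((P : Subgroup G) : Set G)) : x ∈ (P : Subgroup G) := by
  have h1 : IsPGroup p (Subgroup.zpowers x) := by
    rw [IsPGroup.iff_card]
    obtain ⟨k, hk⟩ := hx
    exact ⟨k, by rw [Nat.card_zpowers, hk]⟩
  have h2 : Subgroup.zpowers x ≤ Subgroup.normalizer ((P : Subgroup G) : Set G) := by
    rw [Subgroup.zpowers_le]
    exact Subgroup.centralizer_le_normalizer _ hc
  have h3 := IsPGroup.to_sup_of_normal_right' h1 P.2 h2
  have h4 := P.3 h3 le_sup_right
  rw [← h4]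
  exact (le_sup_left : Subgroup.zpowers x ≤ _) (Subgroup.mem_zpowers x)

theorem card_centralizer_conj (g x : G) : Nat.card (Subgroup.centralizer ({g * x * g⁻¹} : Set G)) =
    Nat.card (Subgroup.centralizer ({x} : Set G)) := by
  refine Nat.card_congr
    { toFun := fun z => ⟨g⁻¹ * z * g, ?_⟩
      invFun := fun z => ⟨g * z * g⁻¹, ?_⟩
      left_inv := fun z => Subtype.ext (by simp [mul_assoc])
      right_inv := fun z => Subtype.ext (by simp [mul_assoc]) }
  · have h := Subgroup.mem_centralizer_singleton_iff.1 z.2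
    rw [Subgroup.mem_centralizer_singleton_iff]
    calc g⁻¹ * (z : G) * g * x = g⁻¹ * ((z : G) * (g * x * g⁻¹)) * g := by group
      _ = g⁻¹ * ((g * x * g⁻¹) * (z : G)) * g := by rw [h]
      _ = _ := by group
  · have h := Subgroup.mem_centralizer_singleton_iff.1 z.2
    rw [Subgroup.mem_centralizer_singleton_iff]
    calc g * (z : G) * g⁻¹ * (g * x * g⁻¹) = g * ((z : G) * x) * g⁻¹ := by group
      _ = g * (x * (z : G)) * g⁻¹ := by rw [h]
      _ = _ := by group

theorem exists_of_abelian (P : Sylow p G) (h : (commutator P).index = p ^ 2) (N : Subgroup G)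
    [hN : N.Normal] (hidx : (N.subgroupOf (P : Subgroup G)).index = p)
    (hab : ∀ a ∈ N ⊓ (P : Subgroup G), ∀ b ∈ N ⊓ (P : Subgroup G), a * b = b * a) :
    ∃ x : G, (∃ k : ℕ, orderOf x = p ^ k) ∧
      (Nat.card (Subgroup.centralizer ({x} : Set G))).factorization p = 2 := by
  have hab' : ∀ a ∈ N.subgroupOf (P : Subgroup G), ∀ b ∈ N.subgroupOf (P : Subgroup G),
      a * b = b * a := fun a ha b hb =>
    Subtype.ext (hab a ⟨Subgroup.mem_subgroupOf.1 ha, a.2⟩ b ⟨Subgroup.mem_subgroupOf.1 hb, b.2⟩)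
  obtain ⟨x, hxP, hxN⟩ : ∃ x ∈ (P : Subgroup G), x ∉ N := by
    by_contra hcon
    push Not at hcon
    have : N.subgroupOf (P : Subgroup G) = ⊤ := Subgroup.subgroupOf_eq_top.2 fun y hy => hcon y hy
    rw [this, Subgroup.index_top] at hidx
    exact hp.out.one_lt.ne hidx
  have hxo : ∃ k : ℕ, orderOf x = p ^ k := by
    obtain ⟨k, hk⟩ := (IsPGroup.iff_orderOf.1 P.2) ⟨x, hxP⟩
    exact ⟨k, by rw [← hk, Subgroup.orderOf_mk]⟩
  refine ⟨x, hxo, ?_⟩
  set C := Subgroup.centralizer ({x} : Set G) with hC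
  have hxC : x ∈ C := Subgroup.mem_centralizer_singleton_iff.2 rfl
  obtain ⟨Q⟩ : Nonempty (Sylow p C) := inferInstance
  have hxQ : (⟨x, hxC⟩ : C) ∈ (Q : Subgroup C) := by
    apply pelt_mem
    · obtain ⟨k, hk⟩ := hxo
      exact ⟨k, by rw [Subgroup.orderOf_mk, hk]⟩
    · rw [Subgroup.mem_centralizer_iff]
      intro y _
      exact Subtype.ext (Subgroup.mem_centralizer_singleton_iff.1 y.2)
  have hQ' : IsPGroup p ((Q : Subgroup C).map C.subtype) := Q.2.map _
  obtain ⟨S, hS⟩ := hQ'.exists_le_sylow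
  obtain ⟨g, hg⟩ := MulAction.exists_smul_eq G S P
  -- conjugate everything by g
  have hSP : ∀ y ∈ (S : Subgroup G), g * y * g⁻¹ ∈ (P : Subgroup G) := by
    intro y hy
    rw [← hg]
    exact ⟨y, hy, rfl⟩
  have hx'P : g * x * g⁻¹ ∈ (P : Subgroup G) := hSP x (hS ⟨⟨x, hxC⟩, hxQ, rfl⟩)
  have hx'N : (⟨g * x * g⁻¹, hx'P⟩ : P) ∉ N.subgroupOf (P : Subgroup G) := by
    rw [Subgroup.mem_subgroupOf]
    intro hh
    apply hxN
    have := hN.conj_mem _ hh g⁻¹
    simpa [mul_assoc] using this
  have h1 := card_centralizer h (N.subgroupOf (P : Subgroup G)) hidx hab' hx'N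
  have h2 : p ^ 2 ∣ Nat.card C := by
    rw [hC, ← card_centralizer_conj g x, ← h1]
    let f : Subgroup.centralizer ({(⟨g * x * g⁻¹, hx'P⟩ : P)} : Set P) →*
        Subgroup.centralizer ({g * x * g⁻¹} : Set G) :=
      { toFun := fun z => ⟨z.1.1, by
          have := Subgroup.mem_centralizer_singleton_iff.1 z.2
          exact Subgroup.mem_centralizer_singleton_iff.2 (congrArg Subtype.val this)⟩
        map_one' := rfl
        map_mul' := fun a b => rfl }
    exact Subgroup.card_dvd_of_injective f fun a b hab => by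
      have := congrArg Subtype.val hab
      exact Subtype.ext (Subtype.ext this)
  have h3 : Nat.card Q ≤ p ^ 2 := by
    rw [← h1]
    let f : Q → Subgroup.centralizer ({(⟨g * x * g⁻¹, hx'P⟩ : P)} : Set P) := fun q =>
      ⟨⟨g * q.1.1 * g⁻¹, hSP _ (hS ⟨q.1, q.2, rfl⟩)⟩, by
        have h4 := Subgroup.mem_centralizer_singleton_iff.1 q.1.2
        rw [Subgroup.mem_centralizer_singleton_iff]
        apply Subtype.ext
        show g * (q.1.1 : G) * g⁻¹ * (g * x * g⁻¹) = (g * x * g⁻¹) * (g * (q.1.1 : G) * g⁻¹)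
        calc g * (q.1.1 : G) * g⁻¹ * (g * x * g⁻¹) = g * ((q.1.1 : G) * x) * g⁻¹ := by group
          _ = g * (x * (q.1.1 : G)) * g⁻¹ := by rw [h4]
          _ = _ := by group⟩
    apply Nat.card_le_card_of_injective f
    intro a b hab
    have h4 : g * (a.1.1 : G) * g⁻¹ = g * (b.1.1 : G) * g⁻¹ :=
      congrArg (fun z => ((z : Subgroup.centralizer ({(⟨g * x * g⁻¹, hx'P⟩ : P)} : Set P)) : P).1) hab
    have h5 : (a.1.1 : G) = b.1.1 := mul_left_cancel (mul_right_cancel h4)
    exact Subtype.ext (Subtype.ext h5)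
  have h4 : Nat.card Q = p ^ (Nat.card C).factorization p := Q.card_eq_multiplicity
  rw [h4] at h3
  have h5 : (Nat.card C).factorization p ≤ 2 := (Nat.pow_le_pow_iff_right hp.out.one_lt).1 h3
  have h6 : 2 ≤ (Nat.card C).factorization p :=
    (hp.out.pow_dvd_iff_le_factorization Nat.card_pos.ne').1 h2
  exact le_antisymm h5 h6

/-! ### groups without normal `p`- and `p'`-subgroups -/

/-- the standing property of a normal subgroup `N`: no nontrivial `p`- or `p'`-subgroup is
normalized by `N` -/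
def NP (p : ℕ) (N : Subgroup G) : Prop :=
  ∀ A : Subgroup G, A ≤ N → N ≤ Subgroup.normalizer (A : Set G) →
    (IsPGroup p A ∨ (Nat.card A).Coprime p) → A = ⊥

theorem np_of_cores (h1 : Cfsg.pCore p G = ⊥) (h2 : Cfsg.pPrimeCore p G = ⊥) (N : Subgroup G)
    [hN : N.Normal] : NP p N := by
  intro A hAN hNA hA
  have hn : (A.subgroupOf N).Normal := Subgroup.normal_subgroupOf_of_le_normalizer hNA
  have hmap : (A.subgroupOf N).map N.subtype = A := by
    rw [Subgroup.subgroupOf_map_subtype, inf_eq_left.2 hAN]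
  rcases hA with hA | hA
  · have h3 : A.subgroupOf N ≤ Cfsg.pCore p N :=
      H1.Cores.le_pCore hn (hA.of_equiv (Subgroup.subgroupOfEquivOfLe hAN).symm)
    have h4 := Subgroup.map_mono (f := N.subtype) h3
    rw [hmap, H1.Cores.map_subtype_pCore, h1, inf_bot_eq] at h4
    exact le_bot_iff.1 h4
  · have h3 : A.subgroupOf N ≤ Cfsg.pPrimeCore p N := by
      apply H1.Cores.le_pPrimeCore hn
      rwa [Nat.card_congr (Subgroup.subgroupOfEquivOfLe hAN).toEquiv]
    have h4 := Subgroup.map_mono (f := N.subtype) h3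
    rw [hmap, H1.Cores.map_subtype_pPrimeCore, h2, inf_bot_eq] at h4
    exact le_bot_iff.1 h4

theorem np_map_char {N M : Subgroup G} (hNM : N ≤ Subgroup.normalizer (M : Set G))
    (K : Subgroup M) [K.Characteristic] :
    N ≤ Subgroup.normalizer ((K.map M.subtype : Subgroup G) : Set G) :=
  hNM.trans (H26.LocalFitting.normalizer_le_normalizer_map_char M K)

/-- abelian subgroups normalized by `N` are trivial -/
theorem NP.abelian {N : Subgroup G} (hNP : NP p N) {A : Subgroup G} (hA : A ≤ N)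
    (hNA : N ≤ Subgroup.normalizer (A : Set G)) (hab : ∀ a ∈ A, ∀ b ∈ A, a * b = b * a) : A = ⊥ := by
  have h1 : (Cfsg.pCore p A).map A.subtype = ⊥ :=
    hNP _ ((Subgroup.map_subtype_le _).trans hA) (np_map_char hNA _)
      (Or.inl ((H1.Cores.isPGroup_pCore p).map _))
  have h2 : Cfsg.pCore p A = ⊥ := (Subgroup.map_eq_bot_iff_of_injective _ A.subtype_injective).1 h1
  apply hNP A hA hNA (Or.inr _)
  rw [Nat.coprime_comm, hp.out.coprime_iff_not_dvd]
  intro hd
  obtain ⟨x, hx⟩ := exists_prime_orderOf_dvd_card' (G := A) p hd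
  have h3 : (Subgroup.zpowers x).Normal := by
    refine ⟨fun n hn g => ?_⟩
    have : g * n * g⁻¹ = n := by
      have h4 : g * n = n * g := Subtype.ext (hab _ g.2 _ n.2)
      rw [h4, mul_inv_cancel_right]
    rwa [this]
  have h4 : IsPGroup p (Subgroup.zpowers x) := by
    rw [IsPGroup.iff_card]
    exact ⟨1, by rw [Nat.card_zpowers, hx, pow_one]⟩
  have h5 := H1.Cores.le_pCore h3 h4
  rw [h2, le_bot_iff, Subgroup.zpowers_eq_bot] at h5
  rw [h5, orderOf_one] at hx
  exact hp.out.one_lt.ne hx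

/-- Tate: a nontrivial subgroup normalized by `N` and `P` meets `P` outside the derived subgroup. -/
theorem NP.not_le {N : Subgroup G} (hNP : NP p N) (P : Sylow p G) {M : Subgroup G} (hM : M ≤ N)
    (hNM : N ≤ Subgroup.normalizer (M : Set G))
    (hPM : (P : Subgroup G) ≤ Subgroup.normalizer (M : Set G)) (hM0 : M ≠ ⊥) :
    ¬ M ⊓ (P : Subgroup G) ≤ ⁅(P : Subgroup G), (P : Subgroup G)⁆ := by
  intro hle
  set H : Subgroup G := N ⊔ (P : Subgroup G) with hH
  have hPH : (P : Subgroup G) ≤ H := le_sup_right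
  have hMH : M ≤ H := hM.trans le_sup_left
  haveI : (M.subgroupOf H).Normal := Subgroup.normal_subgroupOf_of_le_normalizer (sup_le hNM hPM)
  let PH : Sylow p H := P.subtype hPH
  have hPHm : ((PH : Subgroup H)).map H.subtype = (P : Subgroup G) := by
    show ((P : Subgroup G).subgroupOf H).map H.subtype = _
    rw [Subgroup.subgroupOf_map_subtype, inf_eq_left.2 hPH]
  have h1 : M.subgroupOf H ⊓ (PH : Subgroup H) ≤ (frattini PH).map (PH : Subgroup H).subtype := by
    have h2 : M.subgroupOf H ⊓ (PH : Subgroup H) ≤ ⁅(PH : Subgroup H), (PH : Subgroup H)⁆ := by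
      intro x hx
      have h3 : (x : G) ∈ ⁅(P : Subgroup G), (P : Subgroup G)⁆ := hle ⟨Subgroup.mem_subgroupOf.1 hx.1, by
        rw [← hPHm]; exact ⟨x, hx.2, rfl⟩⟩
      rw [← hPHm, ← Subgroup.map_commutator] at h3
      obtain ⟨y, hy, hyx⟩ := h3
      have : y = x := Subtype.ext hyx
      rwa [this] at hy
    refine h2.trans ?_
    rw [← Subgroup.map_subtype_commutator]
    haveI : Group.IsNilpotent PH := PH.2.isNilpotent
    exact Subgroup.map_mono H1.Frat.commutator_le_frattini
  have h2 := Cfsg.Agent.S0081.result PH (M.subgroupOf H) h1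
  have h3 : Cfsg.HasNormalPComplement p M :=
    H2.NPC.of_mulEquiv (Subgroup.subgroupOfEquivOfLe hMH) h2
  obtain ⟨S, K, hK, hKS⟩ := h3
  have h4 : (Nat.card K).Coprime p := by
    rw [Nat.coprime_comm, hp.out.coprime_iff_not_dvd]
    have : Nat.card K = (S : Subgroup M).index := hKS.index_eq_card.symm
    rw [this]
    exact S.not_dvd_index
  have h5 : K ≤ Cfsg.pPrimeCore p M := H1.Cores.le_pPrimeCore hK h4
  haveI := H1.Cores.pPrimeCore_characteristic (G := M) p
  have h6 : (Cfsg.pPrimeCore p M).map M.subtype = ⊥ := by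
    apply hNP _ ((Subgroup.map_subtype_le _).trans hM) (np_map_char hNM _) (Or.inr _)
    rw [Nat.card_congr ((Cfsg.pPrimeCore p M).equivMapOfInjective _ M.subtype_injective).symm.toEquiv]
    exact H1.Cores.coprime_card_pPrimeCore p
  have h7 : Cfsg.pPrimeCore p M = ⊥ := (Subgroup.map_eq_bot_iff_of_injective _ M.subtype_injective).1 h6
  rw [h7, le_bot_iff] at h5
  have h8 : IsPGroup p M := by
    rw [h5] at hKS
    have h9 : (S : Subgroup M) = ⊤ := by
      have := hKS.card_mul_card
      rw [Subgroup.card_bot, one_mul] at this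
      exact Subgroup.eq_top_of_card_eq _ this
    have h10 : IsPGroup p (⊤ : Subgroup M) := h9 ▸ S.2
    exact h10.of_equiv Subgroup.topEquiv
  exact hM0 (hNP M hM hNM (Or.inl h8))

/-- index bound -/
theorem NP.index_dvd {N : Subgroup G} (hNP : NP p N) (P : Sylow p G)
    (h : (commutator P).index = p ^ 2) {M : Subgroup G} (hM : M ≤ N)
    (hNM : N ≤ Subgroup.normalizer (M : Set G))
    (hPM : (P : Subgroup G) ≤ Subgroup.normalizer (M : Set G)) (hM0 : M ≠ ⊥) :
    commutator P ≤ M.subgroupOf (P : Subgroup G) ∧ (M.subgroupOf (P : Subgroup G)).index ∣ p := by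
  haveI : (M.subgroupOf (P : Subgroup G)).Normal := Subgroup.normal_subgroupOf_of_le_normalizer hPM
  apply index_dvd_of_not_le P.2 h
  intro hle
  apply hNP.not_le P hM hNM hPM hM0
  have h1 := Subgroup.map_mono (f := (P : Subgroup G).subtype) hle
  rw [Subgroup.subgroupOf_map_subtype, Subgroup.map_subtype_commutator] at h1
  exact h1

/-- two such subgroups with trivial intersection force `|P| ≤ p ^ 2` -/
theorem card_le {N N' : Subgroup G} (hNP : NP p N) (hNP' : NP p N') (P : Sylow p G)
    (h : (commutator P).index = p ^ 2) {M M' : Subgroup G} (hM : M ≤ N)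
    (hNM : N ≤ Subgroup.normalizer (M : Set G))
    (hPM : (P : Subgroup G) ≤ Subgroup.normalizer (M : Set G)) (hM0 : M ≠ ⊥)
    (hM' : M' ≤ N') (hNM' : N' ≤ Subgroup.normalizer (M' : Set G))
    (hPM' : (P : Subgroup G) ≤ Subgroup.normalizer (M' : Set G)) (hM0' : M' ≠ ⊥)
    (hdisj : M ⊓ M' = ⊥) : Nat.card P ≤ p ^ 2 := by
  have h1 := (hNP.index_dvd P h hM hNM hPM hM0).2
  have h2 := (hNP'.index_dvd P h hM' hNM' hPM' hM0').2
  have h3 : M.subgroupOf (P : Subgroup G) ⊓ M'.subgroupOf (P : Subgroup G) = ⊥ := by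
    rw [eq_bot_iff]
    rintro x ⟨hx, hx'⟩
    have : (x : G) ∈ M ⊓ M' := ⟨Subgroup.mem_subgroupOf.1 hx, Subgroup.mem_subgroupOf.1 hx'⟩
    rw [hdisj, Subgroup.mem_bot] at this
    exact Subgroup.mem_bot.2 (Subtype.ext this)
  have h4 := Subgroup.index_inf_le (H := M.subgroupOf (P : Subgroup G))
    (K := M'.subgroupOf (P : Subgroup G))
  rw [h3, Subgroup.index_bot] at h4
  refine h4.trans ?_
  rw [pow_two]
  exact Nat.mul_le_mul (Nat.le_of_dvd hp.out.pos h1) (Nat.le_of_dvd hp.out.pos h2)

/-- The transfer step: if `P ⊓ N` has index `p` in `P` and the conjugates of `S ⊲ N` by elements of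
`P` outside `N` commute with `S`, then `P ⊓ N` is abelian modulo the centralizer of `S`. -/
theorem commutator_mem_centralizer (P : Sylow p G) (h : (commutator P).index = p ^ 2)
    (N S : Subgroup G) [hN : N.Normal] (hSN : S ≤ N) (hNS : N ≤ Subgroup.normalizer (S : Set G))
    (hW : (N.subgroupOf (P : Subgroup G)).index = p)
    (hcW : commutator P ≤ N.subgroupOf (P : Subgroup G))
    (hcomm : ∀ g ∈ (P : Subgroup G), g ∉ N → ∀ s ∈ S, ∀ t ∈ S, (g * s * g⁻¹) * t = t * (g * s * g⁻¹))
    (hgen : S ⊔ (N ⊓ Subgroup.centralizer (S : Set G)) = N) :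
    ∀ a ∈ N ⊓ (P : Subgroup G), ∀ b ∈ N ⊓ (P : Subgroup G),
      ⁅a, b⁆ ∈ Subgroup.centralizer (S : Set G) := by
  classical
  set Cs := Subgroup.centralizer (S : Set G) with hCs
  have hNCs : N ≤ Subgroup.normalizer (Cs : Set G) := by
    intro n hn
    rw [Subgroup.mem_normalizer_iff]
    have key : ∀ n ∈ N, ∀ c ∈ Cs, n * c * n⁻¹ ∈ Cs := by
      intro n hn c hc
      rw [hCs, Subgroup.mem_centralizer_iff]
      intro s hs
      have h1 : n⁻¹ * s * n ∈ S := by
        have := (Subgroup.mem_normalizer_iff.1 (hNS (N.inv_mem hn)) s).1 hs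
        rwa [inv_inv] at this
      have h2 := Subgroup.mem_centralizer_iff.1 hc _ h1
      calc s * (n * c * n⁻¹) = n * ((n⁻¹ * s * n) * c) * n⁻¹ := by group
        _ = n * (c * (n⁻¹ * s * n)) * n⁻¹ := by rw [h2]
        _ = _ := by group
    intro c
    refine ⟨key n hn c, fun hc => ?_⟩
    have := key n⁻¹ (N.inv_mem hn) _ hc
    simpa [mul_assoc] using this
  set W : Subgroup P := N.subgroupOf (P : Subgroup G) with hWdef
  haveI hWn : W.Normal := inferInstance
  let C₀ : Subgroup W := (Cs.subgroupOf (P : Subgroup G)).subgroupOf W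
  have hmC₀ : ∀ w : W, w ∈ C₀ ↔ ((w : P) : G) ∈ Cs := fun w => Iff.rfl
  haveI hC₀ : C₀.Normal := by
    refine ⟨fun n hn g => ?_⟩
    rw [hmC₀] at hn ⊢
    have h1 : (((g : W) : P) : G) ∈ N := Subgroup.mem_subgroupOf.1 g.2
    exact (Subgroup.mem_normalizer_iff.1 (hNCs h1) _).1 hn
  let ψ : W →* Abelianization (W ⧸ C₀) := Abelianization.of.comp (QuotientGroup.mk' C₀)
  have hψs : Function.Surjective ψ := by
    intro y
    obtain ⟨z, rfl⟩ := QuotientGroup.mk'_surjective _ y
    obtain ⟨w, rfl⟩ := QuotientGroup.mk'_surjective C₀ z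
    exact ⟨w, rfl⟩
  have hψ1 : ∀ w : W, w ∈ C₀ → ψ w = 1 := by
    intro w hw
    have : (QuotientGroup.mk' C₀) w = 1 := (QuotientGroup.eq_one_iff w).2 hw
    show Abelianization.of ((QuotientGroup.mk' C₀) w) = 1
    rw [this, map_one]
  haveI : W.FiniteIndex := inferInstance
  let T : P →* Abelianization (W ⧸ C₀) := MonoidHom.transfer ψ
  -- value of the transfer on elements of S
  have hT : ∀ w : W, ((w : P) : G) ∈ S → T (w : P) = ψ w := by
    intro w hwS
    have hM : ∀ x : P, x⁻¹ * (w : P) * x ∈ W := fun x => by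
      have := hWn.conj_mem _ w.2 x⁻¹
      rwa [inv_inv] at this
    have hx : ∀ x : P, x ∉ W → ψ ⟨x⁻¹ * (w : P) * x, hM x⟩ = 1 := by
      intro x hx
      apply hψ1
      rw [hmC₀]
      show ((x : G)⁻¹ * ((w : P) : G) * x) ∈ Cs
      rw [hCs, Subgroup.mem_centralizer_iff]
      intro t ht
      have h1 : (x : G)⁻¹ ∉ N := fun h' => hx (Subgroup.mem_subgroupOf.2 ((N.inv_mem_iff).1 h'))
      have h2 := hcomm (x : G)⁻¹ ((P : Subgroup G).inv_mem x.2) h1 _ hwS t ht
      rw [inv_inv] at h2
      exact h2.symm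
    have hin : ∀ x : P, x ∈ W → ψ ⟨x⁻¹ * (w : P) * x, hM x⟩ = ψ w := by
      intro x hx
      have h1 : (⟨x⁻¹ * (w : P) * x, hM x⟩ : W) = (⟨x, hx⟩ : W)⁻¹ * w * ⟨x, hx⟩ := rfl
      rw [h1, map_mul, map_mul, map_inv, mul_right_comm, inv_mul_cancel, one_mul]
    let F : P ⧸ W → Abelianization (W ⧸ C₀) := fun q => if q = 1 then ψ w else 1
    have hF : ∀ x : P, F (x : P ⧸ W) = ψ ⟨x⁻¹ * (w : P) * x, hM x⟩ := by
      intro x
      by_cases hxW : x ∈ W
      · rw [hin x hxW]
        exact if_pos ((QuotientGroup.eq_one_iff x).2 hxW)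
      · rw [hx x hxW]
        exact if_neg (fun h' => hxW ((QuotientGroup.eq_one_iff x).1 h'))
    have h1 := H39.Trans.transfer_eq_prod ψ hM F hF
    show MonoidHom.transfer ψ (w : P) = ψ w
    rw [h1, finprod_eq_single F 1 (fun q hq => if_neg hq)]
    exact if_pos rfl
  -- W is generated by its intersections with S and its centralizer
  have hsub : (P : Subgroup G) ⊓ N = ((P : Subgroup G) ⊓ S) ⊔ ((P : Subgroup G) ⊓ (N ⊓ Cs)) := by
    have hSs : S.IsSubnormal := by
      have h1 : N.IsSubnormal := Subgroup.Normal.isSubnormal hN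
      have h2 : (S.subgroupOf N).Normal := Subgroup.normal_subgroupOf_of_le_normalizer hNS
      exact Subgroup.IsSubnormal.step S N hSN h1 h2
    have hCss : (N ⊓ Cs).IsSubnormal := by
      have h1 : N.IsSubnormal := Subgroup.Normal.isSubnormal hN
      have h2 : ((N ⊓ Cs).subgroupOf N).Normal := by
        apply Subgroup.normal_subgroupOf_of_le_normalizer
        exact (le_inf Subgroup.le_normalizer hNCs).trans (Subgroup.inf_normalizer_le_normalizer_inf)
      exact Subgroup.IsSubnormal.step _ N inf_le_left h1 h2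
    have := H52.SylJoin.inf_sup (H52.Syl.sylIn_top P) hSs hCss
    rwa [hgen] at this
  let A1 : Subgroup W := (S.subgroupOf (P : Subgroup G)).subgroupOf W
  have hA : A1 ⊔ C₀ = ⊤ := by
    let j : W →* G := (P : Subgroup G).subtype.comp W.subtype
    have hj : Function.Injective j := fun a b hab => Subtype.ext (Subtype.ext hab)
    rw [eq_top_iff]
    intro w _
    have h1 : j w ∈ (P : Subgroup G) ⊓ N := ⟨(w : P).2, Subgroup.mem_subgroupOf.1 w.2⟩
    have h2 : ((P : Subgroup G) ⊓ S) ⊔ ((P : Subgroup G) ⊓ (N ⊓ Cs)) ≤ (A1 ⊔ C₀).map j := by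
      rw [Subgroup.map_sup]
      apply sup_le_sup
      · rintro g ⟨hg1, hg2⟩
        exact ⟨⟨⟨g, hg1⟩, Subgroup.mem_subgroupOf.2 (hSN hg2)⟩, hg2, rfl⟩
      · rintro g ⟨hg1, hg2, hg3⟩
        exact ⟨⟨⟨g, hg1⟩, Subgroup.mem_subgroupOf.2 hg2⟩, hg3, rfl⟩
    rw [hsub] at h1
    obtain ⟨v, hv, hvw⟩ := h2 h1
    rwa [← hj hvw]
  let T' : W →* Abelianization (W ⧸ C₀) := T.comp W.subtype
  have hT's : T'.range = ⊤ := by
    rw [eq_top_iff, ← MonoidHom.range_eq_top.2 hψs, MonoidHom.range_eq_map, ← hA, Subgroup.map_sup]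
    apply sup_le
    · rintro _ ⟨w, hw, rfl⟩
      exact ⟨w, hT w hw⟩
    · rintro _ ⟨w, hw, rfl⟩
      rw [hψ1 w hw]
      exact T'.range.one_mem
  have h1 : (commutator P).relIndex W = p := by
    have h2 := Subgroup.relIndex_mul_index hcW
    rw [h, hW, pow_two] at h2
    exact Nat.eq_of_mul_eq_mul_right hp.out.pos h2
  have h2 : Nat.card (Abelianization (W ⧸ C₀)) ∣ p := by
    have h3 : T'.ker.index = Nat.card (Abelianization (W ⧸ C₀)) := by
      rw [Subgroup.index_ker, hT's, Subgroup.card_top]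
    have h4 : (commutator P).subgroupOf W ≤ T'.ker := by
      intro w hw
      rw [MonoidHom.mem_ker]
      exact MonoidHom.mem_ker.1 (Abelianization.commutator_subset_ker T hw)
    have h5 := Subgroup.index_dvd_of_le h4
    have h6 : ((commutator P).subgroupOf W).index = p := h1
    rw [← h3]
    rwa [h6] at h5
  have h3 : commutator (W ⧸ C₀) = ⊥ :=
    commutator_eq_bot_of_index_dvd (((P.2.to_subgroup W)).to_quotient C₀) h2
  have h4 : commutator W ≤ C₀ := by
    rw [← map_commutator_surj (QuotientGroup.mk' C₀) (QuotientGroup.mk'_surjective C₀),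
      Subgroup.map_eq_bot_iff, QuotientGroup.ker_mk'] at h3
    exact h3
  rintro a ⟨haN, haP⟩ b ⟨hbN, hbP⟩
  have h5 : ⁅(⟨⟨a, haP⟩, Subgroup.mem_subgroupOf.2 haN⟩ : W), (⟨⟨b, hbP⟩, Subgroup.mem_subgroupOf.2 hbN⟩ : W)⁆ ∈ C₀ :=
    h4 (Subgroup.commutator_mem_commutator (Subgroup.mem_top _) (Subgroup.mem_top _))
  exact h5

end group

end H79.MaxAb
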