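import Cfsg.Agent.Lib.H79.MaxAb
import Cfsg.Agent.Lib.H66.MinimalNormal
import Cfsg.Agent.Lib.H28.Cj

/-! Groups with Sylow `p`-subgroup `P`, `|P : P'| = p ^ 2`: existence of a `p`-element with
centralizer of order exactly divisible by `p ^ 2`. -/

set_option autoImplicit false
set_option linter.unusedSectionVars false
set_option linter.style.haveILetI false

namespace H79.MaxAb2

open Subgroup H79.MaxAb H28.Cj
open scoped commutatorElement

variable {G : Type*} [Group G] [Finite G] {p : ℕ} [hp : Fact p.Prime]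

/-- `S` is minimal among the nontrivial subgroups of `N` normalized by `N` -/
structure MinIn (N S : Subgroup G) : Prop where
  le : S ≤ N
  norm : N ≤ normalizer (S : Set G)
  ne_bot : S ≠ ⊥
  min : ∀ B : Subgroup G, B ≤ S → N ≤ normalizer (B : Set G) → B ≠ ⊥ → B = S

theorem exists_minIn (N : Subgroup G) (hN : N ≠ ⊥) : ∃ S, MinIn N S := by
  classical
  have hfin : {B : Subgroup G | B ≤ N ∧ N ≤ normalizer (B : Set G) ∧ B ≠ ⊥}.Finite := Set.toFinite _
  obtain ⟨S, hS⟩ := hfin.exists_minimal ⟨N, le_rfl, le_normalizer, hN⟩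
  refine ⟨S, hS.1.1, hS.1.2.1, hS.1.2.2, fun B hB hNB hB0 => ?_⟩
  exact le_antisymm hB (hS.2 ⟨hB.trans hS.1.1, hNB, hB0⟩ hB)

theorem norm_cj {N B : Subgroup G} [hN : N.Normal] (g : G) (h : N ≤ normalizer (B : Set G)) :
    N ≤ normalizer ((cj g B : Subgroup G) : Set G) := by
  apply le_normalizer_of_conj_mem
  intro n hn x hx
  rw [mem_cj] at hx ⊢
  have h1 : g⁻¹ * n * g ∈ N := by
    have := hN.conj_mem n hn g⁻¹
    rwa [inv_inv] at this
  have h2 := conj_mem_of_le_normalizer h h1 hx
  have h3 : g⁻¹ * (n * x * n⁻¹) * g = (g⁻¹ * n * g) * (g⁻¹ * x * g) * (g⁻¹ * n * g)⁻¹ := by group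
  rw [h3]
  exact h2

theorem cj_le_normal {N B : Subgroup G} [hN : N.Normal] (g : G) (h : B ≤ N) : cj g B ≤ N := by
  intro x hx
  rw [mem_cj] at hx
  have := hN.conj_mem _ (h hx) g
  simpa [mul_assoc] using this

theorem MinIn.cj {N S : Subgroup G} [hN : N.Normal] (h : MinIn N S) (g : G) : MinIn N (cj g S) := by
  refine ⟨cj_le_normal g h.le, norm_cj g h.norm, fun h' => h.ne_bot (cj_eq_bot.1 h'), ?_⟩
  intro B hB hNB hB0
  have h1 := h.min (H28.Cj.cj g⁻¹ B) (by rw [← cj_inv_cj g S]; exact cj_le_cj.2 hB)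
    (norm_cj g⁻¹ hNB) (fun h' => hB0 (cj_eq_bot.1 h'))
  rw [← h1, cj_cj_inv]

theorem MinIn.comm {N S T : Subgroup G} (hS : MinIn N S) (hT : MinIn N T) (hne : S ≠ T) :
    ∀ s ∈ S, ∀ t ∈ T, s * t = t * s := by
  have h1 : S ⊓ T = ⊥ := by
    by_contra h0
    have hn : N ≤ normalizer ((S ⊓ T : Subgroup G) : Set G) :=
      (le_inf hS.norm hT.norm).trans inf_normalizer_le_normalizer_inf
    have h2 := hS.min _ inf_le_left hn h0
    have h3 := hT.min _ inf_le_right hn h0
    exact hne (h2.symm.trans h3)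
  intro s hs t ht
  have h2 : s * t * s⁻¹ * t⁻¹ ∈ S ⊓ T := by
    constructor
    · have := conj_mem_of_le_normalizer hS.norm (hT.le ht) (S.inv_mem hs)
      have h3 : s * t * s⁻¹ * t⁻¹ = s * (t * s⁻¹ * t⁻¹) := by group
      rw [h3]
      exact S.mul_mem hs this
    · have := conj_mem_of_le_normalizer hT.norm (hS.le hs) ht
      exact T.mul_mem this (T.inv_mem ht)
  rw [h1, mem_bot] at h2
  rwa [mul_inv_eq_one, mul_inv_eq_iff_eq_mul] at h2

/-- join of the conjugates of `S` under a subgroup `Q` -/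
def J (Q S : Subgroup G) : Subgroup G := ⨆ h : Q, cj (h : G) S

theorem cj_le_J (Q S : Subgroup G) {h : G} (hh : h ∈ Q) : cj h S ≤ J Q S :=
  le_iSup (fun h : Q => cj (h : G) S) ⟨h, hh⟩

theorem le_J (Q S : Subgroup G) : S ≤ J Q S := by
  have := cj_le_J Q S Q.one_mem
  rwa [cj_one] at this

theorem J_le {Q S K : Subgroup G} (h : ∀ q ∈ Q, cj q S ≤ K) : J Q S ≤ K :=
  iSup_le fun q => h q q.2

theorem cj_iSup {ι : Sort*} (g : G) (F : ι → Subgroup G) : cj g (⨆ i, F i) = ⨆ i, cj g (F i) :=
  Subgroup.map_iSup _ _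

theorem norm_J_self (Q S : Subgroup G) : Q ≤ normalizer ((J Q S : Subgroup G) : Set G) := by
  intro x hx
  apply mem_normalizer_of_cj_le
  rw [J, cj_iSup]
  apply iSup_le
  intro h
  rw [cj_cj]
  exact cj_le_J Q S (Q.mul_mem hx h.2)

theorem norm_J {N Q S : Subgroup G} [hN : N.Normal] (h : N ≤ normalizer (S : Set G)) :
    N ≤ normalizer ((J Q S : Subgroup G) : Set G) := by
  intro x hx
  apply mem_normalizer_of_cj_le
  rw [J, cj_iSup]
  apply iSup_le
  intro q
  rw [mem_normalizer_iff_cj.1 (norm_cj (q : G) h hx)]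
  exact cj_le_J Q S q.2

theorem forward (P : Sylow p G) (hbig : p ^ 2 ∣ Nat.card G) (hcore : Cfsg.pPrimeCore p G = ⊥)
    (hcore' : (⁅(P : Subgroup G), (P : Subgroup G)⁆).normalCore = ⊥)
    (hnas : ¬ ∃ S : Subgroup G, S.Normal ∧ IsSimpleGroup S ∧ ¬ IsMulCommutative S ∧
      centralizer (S : Set G) = ⊥)
    (h : (commutator P).index = p ^ 2) :
    ∃ x : G, (∃ k : ℕ, orderOf x = p ^ k) ∧
      (Nat.card (centralizer ({x} : Set G))).factorization p = 2 := by
  classical
  have hPc : Nat.card P = p ^ (Nat.card G).factorization p := P.card_eq_multiplicity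
  have hf : 2 ≤ (Nat.card G).factorization p :=
    (hp.out.pow_dvd_iff_le_factorization Nat.card_pos.ne').1 hbig
  by_cases hP2 : (Nat.card G).factorization p = 2
  · refine ⟨1, ⟨0, by simp⟩, ?_⟩
    have h1 : centralizer ({1} : Set G) = ⊤ := by
      rw [eq_top_iff]
      intro g _
      exact mem_centralizer_singleton_iff.2 (by simp)
    rw [h1, card_top, hP2]
  have hP3 : p ^ 2 < Nat.card P := by
    rw [hPc]; exact Nat.pow_lt_pow_right hp.out.one_lt (by omega)
  have hPc0 : commutator P ≠ ⊥ := by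
    intro h0
    rw [h0, index_bot] at h
    omega
  by_cases hA : ∃ A : Subgroup G, A.Normal ∧ IsPGroup p A ∧ (∀ a ∈ A, ∀ b ∈ A, a * b = b * a) ∧ A ≠ ⊥
  · obtain ⟨A, hAn, hAp, hab, hA0⟩ := hA
    have hAP : A ≤ (P : Subgroup G) := (H1.Cores.le_pCore hAn hAp).trans (H1.Cores.pCore_le_sylow P)
    have hnot : ¬ A.subgroupOf (P : Subgroup G) ≤ commutator P := by
      intro hle
      have h1 := Subgroup.map_mono (f := (P : Subgroup G).subtype) hle
      rw [Subgroup.subgroupOf_map_subtype, Subgroup.map_subtype_commutator, inf_eq_left.2 hAP] at h1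
      have h2 := (Subgroup.normal_le_normalCore (hN := hAn)).2 h1
      rw [hcore', le_bot_iff] at h2
      exact hA0 h2
    obtain ⟨h1, h2⟩ := index_dvd_of_not_le P.2 h (A.subgroupOf (P : Subgroup G)) hnot
    rcases (Nat.dvd_prime hp.out).1 h2 with h3 | h3
    · exfalso
      have h4 : (P : Subgroup G) ≤ A := Subgroup.subgroupOf_eq_top.1 (Subgroup.index_eq_one.1 h3)
      apply hPc0
      rw [eq_bot_iff, commutator_def, Subgroup.commutator_le]
      intro a _ b _
      rw [mem_bot, commutatorElement_def, mul_inv_eq_one, mul_inv_eq_iff_eq_mul]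
      exact Subtype.ext (hab _ (h4 a.2) _ (h4 b.2))
    · exact exists_of_abelian P h A h3 (fun a ha b hb => hab a ha.1 b hb.1)
  push Not at hA
  have hpc : Cfsg.pCore p G = ⊥ := by
    haveI : (Cfsg.pCore p G).Normal := H1.Cores.pCore_normal p
    have hpg := H1.Cores.isPGroup_pCore (G := G) p
    have h1 : ((center (Cfsg.pCore p G)).map (Cfsg.pCore p G).subtype) = ⊥ := by
      apply hA _ inferInstance
      · exact (hpg.to_subgroup _).map _
      · rintro _ ⟨a, ha, rfl⟩ _ ⟨b, hb, rfl⟩
        exact congrArg Subtype.val (mem_center_iff.1 hb a)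
    rw [Subgroup.map_eq_bot_iff_of_injective _ (Subgroup.subtype_injective _)] at h1
    by_contra h0
    haveI : Nontrivial (Cfsg.pCore p G) := (Subgroup.nontrivial_iff_ne_bot _).2 h0
    have h2 := hpg.center_nontrivial
    rw [h1] at h2
    exact (not_nontrivial_iff_subsingleton.2 inferInstance) h2
  haveI : Nontrivial G := by
    by_contra hcon
    rw [not_nontrivial_iff_subsingleton] at hcon
    rw [Nat.card_unique, Nat.dvd_one] at hbig
    have := hp.out.one_lt
    nlinarith
  obtain ⟨N, hN, hN0, hNmin⟩ := H66.MinimalNormal.exists_isMinimalNormal (G := G)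
  have hnp : ∀ K : Subgroup G, K.Normal → NP p K := fun K _ => np_of_cores hpc hcore K
  have hPn : ∀ K : Subgroup G, K.Normal → (P : Subgroup G) ≤ normalizer (K : Set G) := by
    intro K hK
    rw [Subgroup.normalizer_eq_top]
    exact le_top
  -- the centralizer of N is trivial
  have hCN : centralizer (N : Set G) = ⊥ := by
    by_contra hC0
    haveI hCn : (centralizer (N : Set G)).Normal := inferInstance
    have hdisj : N ⊓ centralizer (N : Set G) = ⊥ := by
      apply (hnp N hN).abelian inf_le_left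
      · rw [Subgroup.normalizer_eq_top]; exact le_top
      · rintro a ⟨ha, _⟩ b ⟨_, hb⟩
        exact mem_centralizer_iff.1 hb a ha
    have := card_le (hnp N hN) (hnp _ hCn) P h le_rfl le_normalizer (hPn N hN) hN0 le_rfl
      le_normalizer (hPn _ hCn) hC0 hdisj
    omega
  obtain ⟨S, hS⟩ := exists_minIn N hN0
  -- N is the join of the P-conjugates of S
  have hJtop : J ⊤ S = N := by
    have h1 : (J ⊤ S).Normal := by
      rw [← Subgroup.normalizer_eq_top_iff, eq_top_iff]
      exact norm_J_self ⊤ S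
    have h2 : J ⊤ S ≤ N := J_le fun q _ => cj_le_normal q hS.le
    rcases hNmin _ h1 h2 with h3 | h3
    · exact absurd (le_bot_iff.1 (h3 ▸ le_J ⊤ S)) hS.ne_bot
    · exact h3
  have hJ : J (P : Subgroup G) S = N := by
    by_contra hne
    have h1 : J (P : Subgroup G) S ≤ N := J_le fun q _ => cj_le_normal q hS.le
    obtain ⟨g, hg⟩ : ∃ g : G, ¬ cj g S ≤ J (P : Subgroup G) S := by
      by_contra hcon
      push Not at hcon
      exact hne (le_antisymm h1 (by rw [← hJtop]; exact J_le fun q _ => hcon q))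
    have h2 : J (P : Subgroup G) (cj g S) ≤ N := J_le fun q _ => cj_le_normal q (cj_le_normal g hS.le)
    have hcomm : ∀ a ∈ J (P : Subgroup G) S, ∀ b ∈ J (P : Subgroup G) (cj g S), a * b = b * a := by
      have h3 : J (P : Subgroup G) (cj g S) ≤ centralizer ((J (P : Subgroup G) S : Subgroup G) : Set G) := by
        apply J_le
        intro q hq
        rw [Subgroup.le_centralizer_iff]
        apply J_le
        intro q' hq'
        intro a ha
        rw [mem_centralizer_iff]
        intro b hb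
        have h4 : cj q (cj g S) ≠ cj q' S := by
          intro h5
          apply hg
          have h6 : cj g S = cj (q⁻¹ * q') S := by
            rw [← cj_cj, ← h5, cj_inv_cj]
          rw [h6]
          exact cj_le_J _ _ ((P : Subgroup G).mul_mem ((P : Subgroup G).inv_mem hq) hq')
        exact ((hS.cj g).cj q).comm (hS.cj q') h4 b hb a ha
      intro a ha b hb
      exact mem_centralizer_iff.1 (h3 hb) a ha
    have hdisj : J (P : Subgroup G) S ⊓ J (P : Subgroup G) (cj g S) = ⊥ := by
      apply (hnp N hN).abelian (inf_le_left.trans h1)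
      · exact (le_inf (norm_J hS.norm) (norm_J (norm_cj g hS.norm))).trans
          inf_normalizer_le_normalizer_inf
      · rintro a ⟨ha, _⟩ b ⟨_, hb⟩
        exact hcomm a ha b hb
    have := card_le (hnp N hN) (hnp N hN) P h h1 (norm_J hS.norm) (norm_J_self _ _)
      (fun h0 => hS.ne_bot (le_bot_iff.1 (h0 ▸ le_J _ S))) h2 (norm_J (norm_cj g hS.norm))
      (norm_J_self _ _)
      (fun h0 => (hS.cj g).ne_bot (le_bot_iff.1 (h0 ▸ le_J _ (cj g S)))) hdisj
    omega
  -- P does not normalize S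
  have hPS : ¬ (P : Subgroup G) ≤ normalizer (S : Set G) := by
    intro hPS
    have hSN : S = N := by
      apply le_antisymm hS.le
      rw [← hJ]
      exact J_le fun q hq => (mem_normalizer_iff_cj.1 (hPS hq)).le
    subst hSN
    apply hnas
    refine ⟨S, hN, ?_, ?_, hCN⟩
    · haveI : Nontrivial S := (Subgroup.nontrivial_iff_ne_bot _).2 hS.ne_bot
      refine ⟨fun K hK => ?_⟩
      by_cases hK0 : K = ⊥
      · exact Or.inl hK0
      · right
        have h1 := hS.min (K.map S.subtype) (Subgroup.map_subtype_le _) (by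
          apply le_normalizer_of_conj_mem
          rintro g hg _ ⟨x, hx, rfl⟩
          exact ⟨_, hK.conj_mem x hx ⟨g, hg⟩, rfl⟩)
          (fun h0 => hK0 ((Subgroup.map_eq_bot_iff_of_injective _ S.subtype_injective).1 h0))
        rw [eq_top_iff]
        intro x _
        have h2 : (x : G) ∈ K.map S.subtype := by rw [h1]; exact x.2
        obtain ⟨y, hy, hyx⟩ := h2
        rwa [← Subtype.ext hyx]
    · intro hc
      apply hS.ne_bot
      apply (hnp S hN).abelian le_rfl le_normalizer
      intro a ha b hb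
      have := hc.is_comm.comm (⟨a, ha⟩ : S) ⟨b, hb⟩
      exact congrArg Subtype.val this
  obtain ⟨hcW, hidx⟩ := (hnp N hN).index_dvd P h le_rfl le_normalizer (hPn N hN) hN0
  have hW : (N.subgroupOf (P : Subgroup G)).index = p := by
    rcases (Nat.dvd_prime hp.out).1 hidx with h3 | h3
    · exfalso
      apply hPS
      exact (Subgroup.subgroupOf_eq_top.1 (Subgroup.index_eq_one.1 h3)).trans hS.norm
    · exact h3
  have hnorm : ∀ g ∈ (P : Subgroup G), g ∉ N → cj g S ≠ S := by
    intro g hg hgN h1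
    apply hPS
    have h2 : N.subgroupOf (P : Subgroup G) ≤ (normalizer (S : Set G)).subgroupOf (P : Subgroup G) :=
      fun x hx => hS.norm hx
    have h3 := Subgroup.index_dvd_of_le h2
    rw [hW] at h3
    rcases (Nat.dvd_prime hp.out).1 h3 with h4 | h4
    · exact Subgroup.subgroupOf_eq_top.1 (Subgroup.index_eq_one.1 h4)
    · exfalso
      have h5 := Subgroup.relIndex_mul_index h2
      rw [hW, h4] at h5
      have h6 := Subgroup.relIndex_eq_one.1 (Nat.eq_of_mul_eq_mul_right hp.out.pos
        (h5.trans (one_mul p).symm))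
      exact hgN (h6 (show (⟨g, hg⟩ : P) ∈ _ from mem_normalizer_iff_cj.2 h1))
  -- S and its centralizer generate N
  have hgen : S ⊔ (N ⊓ centralizer (S : Set G)) = N := by
    apply le_antisymm (sup_le hS.le inf_le_left)
    conv_lhs => rw [← hJ]
    apply J_le
    intro q hq
    by_cases hqS : cj q S = S
    · rw [hqS]; exact le_sup_left
    · refine le_trans (le_inf (cj_le_normal q hS.le) ?_) le_sup_right
      intro a ha
      rw [mem_centralizer_iff]
      intro b hb
      exact hS.comm (hS.cj q) (fun h => hqS h.symm) b hb a ha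
  have hcomm := commutator_mem_centralizer P h N S hS.le hS.norm hW hcW (by
    intro g hg hgN s hs t ht
    exact (hS.cj g).comm hS (hnorm g hg hgN) _ (conj_mem_cj.2 hs) t ht) hgen
  apply exists_of_abelian P h N hW
  -- P ⊓ N is abelian
  have hall : ∀ a ∈ N ⊓ (P : Subgroup G), ∀ b ∈ N ⊓ (P : Subgroup G), ⁅a, b⁆ ∈ centralizer (N : Set G) := by
    intro a ha b hb
    have h1 : N ≤ centralizer ({⁅a, b⁆} : Set G) := by
      rw [← hJ]
      apply J_le
      intro q hq x hx
      rw [mem_cj] at hx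
      have h2 : ∀ c ∈ N ⊓ (P : Subgroup G), q⁻¹ * c * q ∈ N ⊓ (P : Subgroup G) := by
        rintro c ⟨hc1, hc2⟩
        refine ⟨?_, ?_⟩
        · have := hN.conj_mem c hc1 q⁻¹
          rwa [inv_inv] at this
        · exact (P : Subgroup G).mul_mem ((P : Subgroup G).mul_mem ((P : Subgroup G).inv_mem hq) hc2) hq
      have h3 := mem_centralizer_iff.1 (hcomm _ (h2 a ha) _ (h2 b hb)) _ hx
      rw [mem_centralizer_singleton_iff]
      have h4 : ⁅q⁻¹ * a * q, q⁻¹ * b * q⁆ = q⁻¹ * ⁅a, b⁆ * q := by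
        rw [commutatorElement_def, commutatorElement_def]; group
      rw [h4] at h3
      calc x * ⁅a, b⁆ = q * ((q⁻¹ * x * q) * (q⁻¹ * ⁅a, b⁆ * q)) * q⁻¹ := by group
        _ = q * ((q⁻¹ * ⁅a, b⁆ * q) * (q⁻¹ * x * q)) * q⁻¹ := by rw [h3]
        _ = _ := by group
    rw [mem_centralizer_iff]
    intro x hx
    exact mem_centralizer_singleton_iff.1 (h1 hx)
  intro a ha b hb
  have h1 := hall a ha b hb
  rw [hCN, mem_bot, commutatorElement_def, mul_inv_eq_one, mul_inv_eq_iff_eq_mul] at h1
  exact h1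

end H79.MaxAb2
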