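import Mathlib
import Cfsg.Agent.Lib.H78.Contr1
import Cfsg.Agent.Lib.H78.Contr2
import Cfsg.Agent.Lib.H78.Cover
import Cfsg.Agent.Lib.H78.PrincReal
import Cfsg.Agent.Lib.H20.Klein
import Cfsg.Agent.Lib.H20.PC

/-! Values of the characters of the principal 2-block on the section of an involution `a` whose
centralizer has a normal subgroup of index 4 with Klein four Sylow subgroups. -/

set_option autoImplicit false
set_option linter.unusedSectionVars false
set_option linter.unusedVariables false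
set_option linter.style.haveILetI false
open Cfsg H20.Loc H20.GA H20.Blk H20.Orth H78.BlkCount H20.Col H20.Col2 H20.Height
open scoped ComplexConjugate

namespace H79.SixLoc

universe u

section lin
variable {G : Type u} [Group G] [Fintype G] {M : Ideal AlgInt} {p : ℕ}

/-- the second and third main theorem for class functions -/
theorem proj_lin (hM : IsPModular p M) {x : G} (hx : ∃ k : ℕ, orderOf x = p ^ k)
    [Fintype (Cen x)] {θ : G → ℂ} (hθ : IsClassFunction G θ) {y : Cen x} (hy : ¬ p ∣ orderOf y) :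
    proj (principalBlock M (Cen x)) (tr x θ) y = proj (principalBlock M G) θ (x * (y : G)) := by
  classical
  letI := Fintype.ofFinite (IrrCharacter G)
  have h1 := H18.CharOrtho.mem_classFun_expand hθ
  have h2 : tr x θ = fun c => ∑ ψ : IrrCharacter G, classInner θ (ψ : G → ℂ) * tr x (ψ : G → ℂ) c := by
    funext c
    have := congrFun h1 (x * (c : G))
    rw [Finset.sum_apply] at this
    exact this
  rw [h2, proj_sum, proj_eq_sum]
  apply Finset.sum_congr rfl
  intro ψ _
  rw [proj_principal hM hx ψ hy]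
  split_ifs
  · rfl
  · rw [mul_zero]

/-- characters of the principal block are constant on sections of elements with `p`-nilpotent
centralizer -/
theorem value_const (hM : IsPModular p M) {x : G} (hx : ∃ k : ℕ, orderOf x = p ^ k)
    (hc : ∃ k : ℕ, (pPrimeCore p (Cen x)).index = p ^ k) {χ : IrrCharacter G}
    (hχ : χ ∈ principalBlock M G) {v : Cen x} (hv : ¬ p ∣ orderOf v) :
    (χ : G → ℂ) (x * (v : G)) = (χ : G → ℂ) x := by
  haveI : Fact p.Prime := ⟨pm_prime hM⟩
  apply value_mul hM hx hχ hv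
  intro ψ hψ
  rw [H20.NPC.principal_of_complement hM (pPrimeCore p (Cen x)) not_dvd_card_pPrimeCore hc] at hψ
  exact hψ v (H20.PC.regular_mem_of_index _ hc v hv)

end lin

section loc
variable {G : Type u} [Group G] [Fintype G] {M : Ideal AlgInt}
variable {a : G} (K : Subgroup (Cen a))

/-- the function `x ↦ χ(a x)` on `K` -/
def fn (χ : IrrCharacter G) : K → ℂ := fun x => (χ : G → ℂ) (a * ((x : Cen a) : G))

theorem fn_class (χ : IrrCharacter G) : IsClassFunction K (fn K χ) := by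
  intro x y
  have h := tr_class a (irr_class χ) (x : Cen a) (y : Cen a)
  exact h

variable [Fintype K] [Fintype (Cen a)]

theorem fn_int (haa : a * a = 1) (χ : IrrCharacter G) (ψ : IrrCharacter K) :
    ∃ z : ℤ, classInner (fn K χ) (ψ : K → ℂ) = z := by
  classical
  letI := Fintype.ofFinite (IrrCharacter (Cen a))
  have hmem : a ∈ Cen a := Subgroup.mem_centralizer_singleton_iff.2 rfl
  have hprim : IsPrimitiveRoot (-1 : ℂ) 2 := IsPrimitiveRoot.neg_one 0 (by norm_num)
  obtain ⟨e, he⟩ := H78.Contr.exists_exp (Cen a) a rfl hmem (n := 2) (by norm_num) (by rw [sq, haa]) hprim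
  have h1 := H78.Contr.tr_expand (Cen a) a he χ 1
  have h2 : fn K χ = ∑ ξ : IrrCharacter (Cen a), ((H78.Contr.mult (Cen a) χ ξ : ℂ) * ((-1 : ℂ) ^ 1) ^ e ξ) •
      (fun x : K => (ξ : Cen a → ℂ) x) := by
    funext x
    have h3 := congrFun h1 (x : Cen a)
    rw [Finset.sum_apply] at h3
    rw [Finset.sum_apply]
    have h4 : fn K χ x = H78.Contr.tr (Cen a) (a ^ 1) (χ : G → ℂ) (x : Cen a) := by
      rw [pow_one]; rfl
    rw [h4, h3]
    rfl
  rw [h2, H18.CharOrtho.inner_sum_left]
  refine ⟨∑ ξ : IrrCharacter (Cen a), ((H78.Contr.mult (Cen a) χ ξ : ℤ) * ((-1 : ℤ) ^ 1) ^ e ξ) *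
    H78.Contr.mult K ξ ψ, ?_⟩
  push_cast
  apply Finset.sum_congr rfl
  intro ξ _
  rw [H18.CharOrtho.inner_smul_left, H78.Contr.mult_spec, pow_one]

theorem proj_fn_reg [K.Normal] (hM : IsPModular 2 M) (ha : ∃ k : ℕ, orderOf a = 2 ^ k)
    {χ : IrrCharacter G} (hχ : χ ∈ principalBlock M G) {y : K} (hy : ¬ 2 ∣ orderOf y) :
    proj (principalBlock M K) (fn K χ) y = fn K χ y := by
  classical
  haveI := pm_isPrime hM
  letI := Fintype.ofFinite (IrrCharacter (Cen a))
  letI := Fintype.ofFinite (IrrCharacter K)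
  have hU : IsUnion M (principalBlock M K) := isUnion_of_isPBlock H78.PrincReal.isPBlock_principal
  set Φ : Cen a → ℂ := proj (principalBlock M (Cen a)) (tr a (χ : G → ℂ)) with hΦ
  have hΦm : Φ ∈ spn (principalBlock M (Cen a)) := proj_mem_spn _ _
  have hres : ∀ f ∈ spn (principalBlock M (Cen a)), (fun x : K => f x) ∈ spn (principalBlock M K) := by
    intro f hf
    let L : (Cen a → ℂ) →ₗ[ℂ] (K → ℂ) :=
      { toFun := fun f x => f x, map_add' := fun _ _ => rfl, map_smul' := fun _ _ => rfl }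
    have h1 : spn (principalBlock M (Cen a)) ≤ (spn (principalBlock M K)).comap L := by
      rw [spn, Submodule.span_le]
      rintro _ ⟨ξ, hξ, rfl⟩
      show (fun x : K => (ξ : Cen a → ℂ) x) ∈ spn (principalBlock M K)
      have h2 : (fun x : K => (ξ : Cen a → ℂ) x) =
          ∑ θ : IrrCharacter K, (H78.Contr.mult K ξ θ : ℂ) • (θ : K → ℂ) := by
        funext x
        rw [H78.Contr.restrict_expand, Finset.sum_apply]
        rfl
      rw [h2]
      apply Submodule.sum_mem
      intro θ _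
      by_cases h0 : H78.Contr.mult K ξ θ = 0
      · rw [h0, Nat.cast_zero, zero_smul]; exact Submodule.zero_mem _
      · apply Submodule.smul_mem
        apply Submodule.subset_span
        refine ⟨θ, ?_, rfl⟩
        apply H78.Cover.mem_principal_of_over K hM hξ
        have h3 := H78.Contr.mult_spec K ξ θ
        rw [h3]
        exact_mod_cast h0
    exact h1 hf
  set F : K → ℂ := fun x => Φ x with hF
  have hFm : F ∈ spn (principalBlock M K) := hres Φ hΦm
  have hreg : reg 2 (fn K χ) = reg 2 F := by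
    funext x
    by_cases hx : 2 ∣ orderOf x
    · rw [reg_not hx, reg_not hx]
    · rw [reg_of hx, reg_of hx]
      have hx' : ¬ 2 ∣ orderOf (x : Cen a) := by rwa [Subgroup.orderOf_coe]
      have h1 := proj_principal hM ha χ hx'
      rw [if_pos hχ] at h1
      exact h1.symm
  have h1 := congrFun (proj_reg hM hU (fn_class K χ)) y
  have h2 := congrFun (proj_reg hM hU (class_of_mem_spn hFm)) y
  rw [hreg, h2, reg_of hy, reg_of hy, proj_of_mem_spn hFm] at h1
  rw [← h1]
  have h3 := congrFun hreg y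
  rw [reg_of hy, reg_of hy] at h3
  exact h3.symm

theorem proj_fn_sing [K.Normal] (hM : IsPModular 2 M) {χ : IrrCharacter G}
    (hχ : χ ∈ principalBlock M G) {b : K} (hb : ∃ k : ℕ, orderOf b = 2 ^ k)
    (ht : ∃ k : ℕ, orderOf (a * ((b : Cen a) : G)) = 2 ^ k)
    (hc : ∃ k : ℕ, (pPrimeCore 2 (Cen (a * ((b : Cen a) : G)))).index = 2 ^ k) :
    proj (principalBlock M K) (fn K χ) b = (χ : G → ℂ) (a * ((b : Cen a) : G)) := by
  classical
  haveI := pm_isPrime hM
  letI : Fintype (Cen b) := Fintype.ofFinite _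
  letI := Fintype.ofFinite (IrrCharacter (Cen b))
  have h1 : ¬ 2 ∣ orderOf (1 : Cen b) := by rw [orderOf_one]; norm_num
  have h2 := proj_lin hM hb (fn_class K χ) h1
  rw [Subgroup.coe_one, mul_one] at h2
  rw [← h2]
  have hU : IsUnion M (principalBlock M (Cen b)) := isUnion_of_isPBlock H78.PrincReal.isPBlock_principal
  set t : G := a * ((b : Cen a) : G) with htd
  have hreg : reg 2 (tr b (fn K χ)) = (χ : G → ℂ) t • reg 2 (H20.NPC.one (Cen b) : Cen b → ℂ) := by
    funext y
    rw [Pi.smul_apply]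
    by_cases hy : 2 ∣ orderOf y
    · rw [reg_not hy, reg_not hy, smul_zero]
    · rw [reg_of hy, reg_of hy]
      have e1 : ((H20.NPC.one (Cen b) : IrrCharacter (Cen b)) : Cen b → ℂ) y = 1 := rfl
      rw [e1, smul_eq_mul, mul_one]
      have hcom : ((y : K) : Cen a) * (b : Cen a) = (b : Cen a) * ((y : K) : Cen a) := by
        have := Subgroup.mem_centralizer_singleton_iff.1 y.2
        exact congrArg Subtype.val this
      have hcom' : (((y : K) : Cen a) : G) * ((b : Cen a) : G) = ((b : Cen a) : G) * (((y : K) : Cen a) : G) :=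
        congrArg Subtype.val hcom
      have hya : (((y : K) : Cen a) : G) * a = a * (((y : K) : Cen a) : G) :=
        Subgroup.mem_centralizer_singleton_iff.1 ((y : K) : Cen a).2
      have hyt : (((y : K) : Cen a) : G) ∈ Cen t := by
        rw [Subgroup.mem_centralizer_singleton_iff, htd, ← mul_assoc, hya, mul_assoc, hcom', mul_assoc]
      have ho : ¬ 2 ∣ orderOf (⟨(((y : K) : Cen a) : G), hyt⟩ : Cen t) := by
        rw [← Subgroup.orderOf_coe]
        show ¬ 2 ∣ orderOf (((y : K) : Cen a) : G)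
        rwa [Subgroup.orderOf_coe, Subgroup.orderOf_coe, Subgroup.orderOf_coe]
      have h3 := value_const hM ht hc hχ ho
      rw [← h3]
      show (χ : G → ℂ) (a * (((b * (y : K) : K) : Cen a) : G)) = (χ : G → ℂ) (t * (((y : K) : Cen a) : G))
      congr 1
      rw [htd, mul_assoc]
      rfl
  have h3 := congrFun (proj_reg hM hU (tr_class b (fn_class K χ))) 1
  rw [reg_of h1, hreg] at h3
  rw [← h3]
  have h4 := congrFun (proj_reg hM hU (irr_class (H20.NPC.one (Cen b)))) 1
  rw [reg_of h1, proj_irr _ _ H20.Klein.one_mem] at h4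
  have h5 : proj (principalBlock M (Cen b)) ((χ : G → ℂ) t • reg 2 (H20.NPC.one (Cen b) : Cen b → ℂ)) 1 =
      (χ : G → ℂ) t * proj (principalBlock M (Cen b)) (reg 2 (H20.NPC.one (Cen b) : Cen b → ℂ)) 1 := by
    rw [proj_eq_sum, proj_eq_sum, Finset.mul_sum]
    apply Finset.sum_congr rfl
    intro ψ _
    split_ifs
    · rw [H18.CharOrtho.inner_smul_left]; ring
    · rw [mul_zero]
  rw [h5, h4]
  show (χ : G → ℂ) t * 1 = _
  rw [mul_one]

end loc

section main
variable {G : Type u} [Group G] [Fintype G] {M : Ideal AlgInt}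

theorem inner_split {K : Type u} [Group K] [Fintype K] {F F' Δ : K → ℂ} {s s' : ℂ}
    (hF : F = reg 2 F + s • Δ) (hF' : F' = reg 2 F' + s' • Δ) (hΔ : reg 2 Δ = 0) :
    classInner F F' = classInner (reg 2 F) (reg 2 F') + s * conj s' * classInner Δ Δ := by
  have h1 : ∀ f : K → ℂ, classInner (reg 2 f) Δ = 0 := by
    intro f
    rw [H78.Contr.inner_reg_left, hΔ, H18.CharOrtho.inner_zero_right]
  have h2 : ∀ f : K → ℂ, classInner Δ (reg 2 f) = 0 := by
    intro f
    rw [← H78.Contr.inner_reg_left, hΔ, H18.CharOrtho.inner_zero_left]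
  conv_lhs => rw [hF, hF']
  rw [H18.CharOrtho.inner_add_left, H18.CharOrtho.inner_add_right, H18.CharOrtho.inner_add_right,
    H18.CharOrtho.inner_smul_right, H18.CharOrtho.inner_smul_left, H18.CharOrtho.inner_smul_left,
    H18.CharOrtho.inner_smul_right, h1, h2]
  ring

theorem mm_eq (hM : IsPModular 2 M) {a : G} (ha : ∃ k : ℕ, orderOf a = 2 ^ k)
    (K : Subgroup (Cen a)) [K.Normal] [Fintype (Cen a)] [Fintype K] (hK4 : K.index = 4)
    {χ ψ : IrrCharacter G} (hχ : χ ∈ principalBlock M G) (hψ : ψ ∈ principalBlock M G) :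
    classInner (reg 2 (fn K χ)) (reg 2 (fn K ψ)) =
      4 * H78.Contr.mm (Cen a) a 2 (principalBlock M (Cen a)) χ ψ := by
  classical
  haveI : Fact (Nat.Prime 2) := ⟨Nat.prime_two⟩
  have hcard : (Nat.card (Cen a) : ℂ) = 4 * (Nat.card K : ℂ) := by
    have := K.card_mul_index
    rw [hK4] at this
    rw [← this]; push_cast; ring
  have hK0 : (Nat.card K : ℂ) ≠ 0 := by exact_mod_cast (Nat.card_pos (α := K)).ne'
  have hdd : ∀ ξ : IrrCharacter G, ξ ∈ principalBlock M G → ∀ y : Cen a, ¬ 2 ∣ orderOf y →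
      H78.Contr.dd (Cen a) a 2 (principalBlock M (Cen a)) (ξ : G → ℂ) y = (ξ : G → ℂ) (a * (y : G)) := by
    intro ξ hξ y hy
    rw [H78.Contr.dd, reg_of hy]
    have h1 := proj_principal hM ha ξ hy
    rw [if_pos hξ] at h1
    exact h1
  rw [H78.Contr.mm, classInner, classInner, hcard]
  have hsum : ∑ y : Cen a, H78.Contr.dd (Cen a) a 2 (principalBlock M (Cen a)) (χ : G → ℂ) y *
      conj (H78.Contr.dd (Cen a) a 2 (principalBlock M (Cen a)) (ψ : G → ℂ) y) =
      ∑ x : K, reg 2 (fn K χ) x * conj (reg 2 (fn K ψ) x) := by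
    rw [← Finset.sum_filter_add_sum_filter_not Finset.univ (· ∈ K)]
    have h0 : ∑ y ∈ Finset.univ.filter (fun y : Cen a => ¬ y ∈ K),
        H78.Contr.dd (Cen a) a 2 (principalBlock M (Cen a)) (χ : G → ℂ) y *
        conj (H78.Contr.dd (Cen a) a 2 (principalBlock M (Cen a)) (ψ : G → ℂ) y) = 0 := by
      apply Finset.sum_eq_zero
      intro y hy
      have hy' : y ∉ K := (Finset.mem_filter.1 hy).2
      have hy2 : 2 ∣ orderOf y := by
        by_contra h
        exact hy' (H20.PC.regular_mem_of_index K ⟨2, by rw [hK4]; norm_num⟩ y h)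
      rw [H78.Contr.dd, reg_not hy2, zero_mul]
    rw [h0, add_zero, Finset.sum_subtype (Finset.univ.filter (· ∈ K)) (p := (· ∈ K)) (by simp)]
    apply Finset.sum_congr rfl
    intro x _
    by_cases hx : 2 ∣ orderOf x
    · have hx' : 2 ∣ orderOf (x : Cen a) := by rwa [Subgroup.orderOf_coe]
      rw [reg_not hx, zero_mul, H78.Contr.dd, reg_not hx', zero_mul]
    · have hx' : ¬ 2 ∣ orderOf (x : Cen a) := by rwa [Subgroup.orderOf_coe]
      rw [reg_of hx, reg_of hx, hdd χ hχ _ hx', hdd ψ hψ _ hx']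
      rfl
  rw [hsum]
  field_simp

theorem main (hM : IsPModular 2 M) {a : G} (haa : a * a = 1) (ha : ∃ k : ℕ, orderOf a = 2 ^ k)
    (K : Subgroup (Cen a)) [K.Normal] [Fintype (Cen a)] (hK4 : K.index = 4)
    (Q : Sylow 2 K) (hQ : IsKleinFour (Q : Subgroup K))
    (hone : ∀ s t : K, orderOf s = 2 → orderOf t = 2 → IsConj s t) {b : K} (hb : orderOf b = 2)
    (ht : ∃ k : ℕ, orderOf (a * ((b : Cen a) : G)) = 2 ^ k)
    (hc : ∃ k : ℕ, (pPrimeCore 2 (Cen (a * ((b : Cen a) : G)))).index = 2 ^ k) :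
    ∃ (c : IrrCharacter G → Fin 4 → ℤ) (δ : Fin 4 → ℤ), (∀ i, δ i * δ i = 1) ∧
      (∀ χ ∈ principalBlock M G, ((∑ i, δ i * c χ i : ℤ) : ℂ) = (χ : G → ℂ) (a * ((b : Cen a) : G))) ∧
      ∀ χ ∈ principalBlock M G, ∀ ψ ∈ principalBlock M G,
        4 * H78.Contr.mm (Cen a) a 2 (principalBlock M (Cen a)) χ ψ +
          (χ : G → ℂ) (a * ((b : Cen a) : G)) * conj ((ψ : G → ℂ) (a * ((b : Cen a) : G))) / 4 =
          ((∑ i, c χ i * c ψ i : ℤ) : ℂ) := by
  classical
  haveI := pm_isPrime hM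
  haveI : Fact (Nat.Prime 2) := ⟨Nat.prime_two⟩
  letI := Fintype.ofFinite K
  letI := Fintype.ofFinite (IrrCharacter K)
  obtain ⟨ζ₂, ζ₃, ζ₄, ε, hε, h12, h13, h23, h24, h34, hB, hval, -, -, -, hrel⟩ := H20.Klein.main hM Q hQ hone
  have hbk : ∃ k : ℕ, orderOf b = 2 ^ k := ⟨1, by rw [hb, pow_one]⟩
  have h14 : (ζ₄ : K → ℂ) ≠ fun _ => 1 := by
    intro h
    have := (hval b hb).2.2
    rw [h] at this
    norm_num at this
  set one : IrrCharacter K := H20.NPC.one K with hone1
  set Ψ : Fin 4 → IrrCharacter K := ![one, ζ₂, ζ₃, ζ₄] with hΨ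
  set δ : Fin 4 → ℤ := ![1, 1, ε, -1] with hδ
  have hne : ∀ ζ : IrrCharacter K, (ζ : K → ℂ) ≠ (fun _ => 1) → one ≠ ζ := by
    rintro ζ h rfl
    exact h rfl
  have hinj : Function.Injective Ψ := by
    have e2 := hne _ h12
    have e3 := hne _ h13
    have e4 := hne _ h14
    intro i j hij
    fin_cases i <;> fin_cases j <;> simp [hΨ] at hij ⊢
    all_goals first
      | exact absurd hij e2
      | exact absurd hij.symm e2
      | exact absurd hij e3
      | exact absurd hij.symm e3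
      | exact absurd hij e4
      | exact absurd hij.symm e4
      | exact absurd hij h23
      | exact absurd hij.symm h23
      | exact absurd hij h24
      | exact absurd hij.symm h24
      | exact absurd hij h34
      | exact absurd hij.symm h34
  have hmem : ∀ ξ : IrrCharacter K, ξ ∈ principalBlock M K ↔ ξ ∈ Finset.univ.image Ψ := by
    intro ξ
    rw [hB]
    constructor
    · rintro (h | h | h | h)
      · exact Finset.mem_image.2 ⟨0, Finset.mem_univ _, Subtype.ext h.symm⟩
      · exact Finset.mem_image.2 ⟨1, Finset.mem_univ _, h.symm⟩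
      · exact Finset.mem_image.2 ⟨2, Finset.mem_univ _, h.symm⟩
      · exact Finset.mem_image.2 ⟨3, Finset.mem_univ _, h.symm⟩
    · intro h
      obtain ⟨i, -, rfl⟩ := Finset.mem_image.1 h
      fin_cases i
      · exact Or.inl rfl
      · exact Or.inr (Or.inl rfl)
      · exact Or.inr (Or.inr (Or.inl rfl))
      · exact Or.inr (Or.inr (Or.inr rfl))
  have hδδ : ∀ i, δ i * δ i = 1 := by
    intro i
    fin_cases i
    · rfl
    · rfl
    · show ε * ε = 1
      rcases hε with h | h <;> rw [h] <;> norm_num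
    · rfl
  have hproj : ∀ f : K → ℂ, proj (principalBlock M K) f = ∑ i, classInner f (Ψ i : K → ℂ) • (Ψ i : K → ℂ) := by
    intro f
    funext x
    rw [proj_eq_sum, Finset.sum_apply, ← Finset.sum_filter]
    have h1 : Finset.univ.filter (fun ξ : IrrCharacter K => ξ ∈ principalBlock M K) = Finset.univ.image Ψ := by
      ext ξ
      rw [Finset.mem_filter, ← hmem ξ]
      simp
    rw [h1, Finset.sum_image (fun i _ j _ h => hinj h)]
    rfl
  have hvb : ∀ i, (Ψ i : K → ℂ) b = (δ i : ℂ) := by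
    intro i
    obtain ⟨v2, v3, v4⟩ := hval b hb
    fin_cases i
    · show (1 : ℂ) = ((1 : ℤ) : ℂ); norm_num
    · show (ζ₂ : K → ℂ) b = ((1 : ℤ) : ℂ); rw [v2]; norm_num
    · exact v3
    · show (ζ₄ : K → ℂ) b = ((-1 : ℤ) : ℂ); rw [v4]; norm_num
  obtain ⟨u, v, hyp⟩ := H20.Klein.hyp_of_klein Q hQ
  have hsing : ∀ i, ∀ x : K, 2 ∣ orderOf x → (Ψ i : K → ℂ) x = (δ i : ℂ) := by
    intro i x hx
    obtain ⟨z, y, hzy, hcom, hk, hy⟩ := H19.Second.exists_isPPart (p := 2) Nat.prime_two x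
    obtain ⟨g, hg⟩ := H20.Klein.exists_conj_mem_of_pelt Q hk
    have hz1 : z ≠ 1 := by
      rintro rfl
      rw [one_mul] at hzy
      rw [hzy] at hy
      exact hy hx
    have hgz1 : g * z * g⁻¹ ≠ 1 := by
      intro h
      apply hz1
      have : z = g⁻¹ * (g * z * g⁻¹) * g := by group
      rw [this, h]; group
    have hgz2 : orderOf (g * z * g⁻¹) = 2 := by
      apply orderOf_eq_prime _ hgz1
      rw [sq]; exact H20.Klein.sq_of_mem hQ hg
    obtain ⟨r, hr⟩ := isConj_iff.1 (hone (g * z * g⁻¹) b hgz2 hb)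
    have hcz := H20.V4.index_pPrimeCore_cen hyp hg hgz1
    have hmem' : g * y * g⁻¹ ∈ Cen (g * z * g⁻¹) := by
      rw [Subgroup.mem_centralizer_singleton_iff]
      calc g * y * g⁻¹ * (g * z * g⁻¹) = g * (y * z) * g⁻¹ := by group
        _ = g * (z * y) * g⁻¹ := by rw [hcom.eq]
        _ = _ := by group
    have ho : ¬ 2 ∣ orderOf (⟨g * y * g⁻¹, hmem'⟩ : Cen (g * z * g⁻¹)) := by
      rw [← Subgroup.orderOf_coe]
      show ¬ 2 ∣ orderOf (g * y * g⁻¹)
      rwa [orderOf_conj]
    have h1 := value_const hM ⟨1, by rw [hgz2, pow_one]⟩ hcz ((hmem (Ψ i)).2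
      (Finset.mem_image_of_mem _ (Finset.mem_univ i))) ho
    have h2 : (Ψ i : K → ℂ) x = (Ψ i : K → ℂ) (g * z * g⁻¹ * (g * y * g⁻¹)) := by
      rw [← irr_class (Ψ i) x g]
      congr 1
      rw [← hzy]; group
    rw [h2]
    refine h1.trans ?_
    rw [← irr_class (Ψ i) (g * z * g⁻¹) r, hr, hvb i]
  set Δ : K → ℂ := ∑ i, (δ i : ℂ) • (Ψ i : K → ℂ) with hΔ
  have hΔapp : ∀ x, Δ x = ∑ i, (δ i : ℂ) * (Ψ i : K → ℂ) x := by
    intro x
    rw [hΔ, Finset.sum_apply]
    rfl
  have hΔreg : reg 2 Δ = 0 := by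
    funext x
    by_cases hx : 2 ∣ orderOf x
    · rw [reg_not hx]; rfl
    · rw [reg_of hx, hΔapp]
      have h1 := hrel x (by rw [← Nat.not_even_iff_odd, even_iff_two_dvd]; exact hx)
      rw [Fin.sum_univ_four]
      show ((1 : ℤ) : ℂ) * 1 + ((1 : ℤ) : ℂ) * (ζ₂ : K → ℂ) x + (ε : ℂ) * (ζ₃ : K → ℂ) x +
        ((-1 : ℤ) : ℂ) * (ζ₄ : K → ℂ) x = 0
      push_cast
      linear_combination h1
  have hΔsing : ∀ x : K, 2 ∣ orderOf x → Δ x = 4 := by
    intro x hx
    rw [hΔapp]
    have h1 : ∀ i, (δ i : ℂ) * (Ψ i : K → ℂ) x = 1 := by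
      intro i
      rw [hsing i x hx]
      exact_mod_cast hδδ i
    rw [Finset.sum_congr rfl (fun i _ => h1 i)]
    simp
  have hortho : ∀ i j, classInner (Ψ i : K → ℂ) (Ψ j : K → ℂ) = if i = j then 1 else 0 := by
    intro i j
    split_ifs with h
    · rw [h]; exact H18.CharOrtho.inner_irr_self (Ψ j).2
    · exact H18.CharOrtho.inner_irr_ne (Ψ i).2 (Ψ j).2 (fun h' => h (hinj (Subtype.ext h')))
  have hinner : ∀ z w : Fin 4 → ℤ, classInner (∑ i, (z i : ℂ) • (Ψ i : K → ℂ)) (∑ i, (w i : ℂ) • (Ψ i : K → ℂ)) =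
      ((∑ i, z i * w i : ℤ) : ℂ) := by
    intro z w
    rw [H18.CharOrtho.inner_sum_left]
    push_cast
    apply Finset.sum_congr rfl
    intro i _
    rw [H18.CharOrtho.inner_sum_right, Finset.sum_eq_single i]
    · rw [H18.CharOrtho.inner_smul_left, H18.CharOrtho.inner_smul_right, hortho, if_pos rfl,
        map_intCast, mul_one]
    · intro j _ hj
      rw [H18.CharOrtho.inner_smul_left, H18.CharOrtho.inner_smul_right, hortho, if_neg hj.symm]
      ring
    · intro h; exact absurd (Finset.mem_univ i) h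
  choose c hcz using fun (χ : IrrCharacter G) (i : Fin 4) => fn_int K haa χ (Ψ i)
  set t : G := a * ((b : Cen a) : G) with htd
  have hFexp : ∀ χ : IrrCharacter G, proj (principalBlock M K) (fn K χ) = ∑ i, (c χ i : ℂ) • (Ψ i : K → ℂ) := by
    intro χ
    rw [hproj]
    exact Finset.sum_congr rfl fun i _ => by rw [hcz χ i]
  have hFt : ∀ χ ∈ principalBlock M G, ((∑ i, δ i * c χ i : ℤ) : ℂ) = (χ : G → ℂ) t := by
    intro χ hχ
    rw [← proj_fn_sing K hM hχ hbk ht hc, hFexp, Finset.sum_apply]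
    push_cast
    apply Finset.sum_congr rfl
    intro i _
    rw [Pi.smul_apply, hvb i, smul_eq_mul, mul_comm]
  have hFsplit : ∀ χ ∈ principalBlock M G, proj (principalBlock M K) (fn K χ) =
      reg 2 (proj (principalBlock M K) (fn K χ)) + ((χ : G → ℂ) t / 4) • Δ := by
    intro χ hχ
    funext x
    rw [Pi.add_apply, Pi.smul_apply, smul_eq_mul]
    by_cases hx : 2 ∣ orderOf x
    · rw [reg_not hx, hΔsing x hx, zero_add, ← hFt χ hχ, hFexp, Finset.sum_apply]
      push_cast
      rw [div_mul_cancel₀ _ (by norm_num)]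
      apply Finset.sum_congr rfl
      intro i _
      rw [Pi.smul_apply, hsing i x hx, smul_eq_mul, mul_comm]
    · have h1 := congrFun hΔreg x
      rw [reg_of hx] at h1
      rw [reg_of hx, h1]
      show _ = _ + _ * (0 : ℂ)
      rw [mul_zero, add_zero]
  have hregF : ∀ χ ∈ principalBlock M G, reg 2 (proj (principalBlock M K) (fn K χ)) = reg 2 (fn K χ) := by
    intro χ hχ
    funext x
    by_cases hx : 2 ∣ orderOf x
    · rw [reg_not hx, reg_not hx]
    · rw [reg_of hx, reg_of hx, proj_fn_reg K hM ha hχ hx]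
  refine ⟨c, δ, hδδ, hFt, ?_⟩
  intro χ hχ ψ hψ
  have h1 := inner_split (hFsplit χ hχ) (hFsplit ψ hψ) hΔreg
  rw [hregF χ hχ, hregF ψ hψ, mm_eq hM ha K hK4 hχ hψ, hFexp, hFexp, hinner, hΔ, hinner] at h1
  rw [h1]
  have h2 : ∑ i, δ i * δ i = 4 := by
    rw [Finset.sum_congr rfl (fun i _ => hδδ i)]; simp
  rw [h2, map_div₀]
  have h3 : conj (4 : ℂ) = 4 := Complex.conj_ofNat 4
  rw [h3]
  push_cast
  ring

end main

end H79.SixLoc
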