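import Mathlib
import Cfsg.Agent.Lib.H79.HexAct
import Cfsg.Agent.Lib.H79.SixLoc
import Cfsg.Agent.Lib.H25.Fus3

/-! Local structure of a group with elementary abelian Sylow 2-subgroup of order 16 and
`|N(P)/C(P)| = 9`. -/

set_option autoImplicit false
set_option linter.unusedSectionVars false
set_option linter.unusedVariables false
set_option linter.style.haveILetI false
open Cfsg H20.Col

namespace H79.SixCfg

universe u

variable {G : Type u} [Group G] [Finite G]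

structure Cfg (P : Sylow 2 G) (U V : Subgroup G) : Prop where
  hP : Nat.card P = 16
  hexp : ∀ x ∈ (P : Subgroup G), x * x = 1
  hUP : U ≤ P
  hVP : V ≤ P
  cU : Nat.card U = 4
  cV : Nat.card V = 4
  inf : ∀ x ∈ U, x ∈ V → x = 1
  nU : ∀ n ∈ Subgroup.normalizer ((P : Subgroup G) : Set G), ∀ x ∈ U, n * x * n⁻¹ ∈ U
  nV : ∀ n ∈ Subgroup.normalizer ((P : Subgroup G) : Set G), ∀ x ∈ V, n * x * n⁻¹ ∈ V
  fU : ∀ n ∈ Subgroup.normalizer ((P : Subgroup G) : Set G), ∀ x ∈ U, x ≠ 1 → n * x * n⁻¹ = x →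
    ∀ y ∈ U, n * y * n⁻¹ = y
  fV : ∀ n ∈ Subgroup.normalizer ((P : Subgroup G) : Set G), ∀ x ∈ V, x ≠ 1 → n * x * n⁻¹ = x →
    ∀ y ∈ V, n * y * n⁻¹ = y
  free : ∀ n ∈ Subgroup.normalizer ((P : Subgroup G) : Set G), ∀ x ∈ U, ∀ y ∈ V, x ≠ 1 → y ≠ 1 →
    n * x * n⁻¹ = x → n * y * n⁻¹ = y → ∀ z ∈ (P : Subgroup G), n * z * n⁻¹ = z
  trans : ∀ x ∈ U, ∀ y ∈ V, ∀ x' ∈ U, ∀ y' ∈ V, x ≠ 1 → y ≠ 1 → x' ≠ 1 → y' ≠ 1 →
    ∃ n ∈ Subgroup.normalizer ((P : Subgroup G) : Set G), n * x * n⁻¹ = x' ∧ n * y * n⁻¹ = y'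

theorem comm_of_exp {S : Subgroup G} (h : ∀ x ∈ S, x * x = 1) : ∀ x ∈ S, ∀ y ∈ S, x * y = y * x := by
  intro x hx y hy
  have h1 := h (x * y) (mul_mem hx hy)
  calc x * y = x * (x * y * (x * y)) * y := by rw [h1]; group
    _ = (x * x) * (y * x) * (y * y) := by group
    _ = y * x := by rw [h x hx, h y hy]; group

namespace Cfg

variable {P : Sylow 2 G} {U V : Subgroup G}

theorem symm (h : Cfg P U V) : Cfg P V U where
  hP := h.hP
  hexp := h.hexp
  hUP := h.hVP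
  hVP := h.hUP
  cU := h.cV
  cV := h.cU
  inf := fun x hx hy => h.inf x hy hx
  nU := h.nV
  nV := h.nU
  fU := h.fV
  fV := h.fU
  free := fun n hn x hx y hy hx1 hy1 h1 h2 => h.free n hn y hy x hx hy1 hx1 h2 h1
  trans := fun x hx y hy x' hx' y' hy' a b c d => by
    obtain ⟨n, hn, h1, h2⟩ := h.trans y hy x hx y' hy' x' hx' b a d c
    exact ⟨n, hn, h2, h1⟩

theorem comm (h : Cfg P U V) : ∀ x ∈ (P : Subgroup G), ∀ y ∈ (P : Subgroup G), x * y = y * x :=
  comm_of_exp h.hexp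

theorem decomp (h : Cfg P U V) {x : G} (hx : x ∈ (P : Subgroup G)) : ∃ a ∈ U, ∃ b ∈ V, x = a * b := by
  classical
  let f : U × V → (P : Subgroup G) := fun w => ⟨w.1 * w.2, mul_mem (h.hUP w.1.2) (h.hVP w.2.2)⟩
  have hinj : Function.Injective f := by
    rintro ⟨a, b⟩ ⟨a', b'⟩ hab
    have h1 : (a : G) * b = a' * b' := congrArg Subtype.val hab
    have h2 : (a' : G)⁻¹ * a = b' * (b : G)⁻¹ := by
      calc (a' : G)⁻¹ * a = (a' : G)⁻¹ * (a * b) * (b : G)⁻¹ := by group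
        _ = _ := by rw [h1]; group
    have h3 : (a' : G)⁻¹ * a = 1 := h.inf _ (mul_mem (inv_mem a'.2) a.2) (by
      rw [h2]; exact mul_mem b'.2 (inv_mem b.2))
    have h4 : (a : G) = a' := (inv_mul_eq_one.1 h3).symm
    rw [h3] at h2
    have h5 : (b : G) = b' := (mul_inv_eq_one.1 h2.symm).symm
    rw [Prod.mk.injEq]
    exact ⟨Subtype.ext h4, Subtype.ext h5⟩
  have hbij : Function.Bijective f := by
    letI := Fintype.ofFinite U
    letI := Fintype.ofFinite V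
    letI := Fintype.ofFinite (P : Subgroup G)
    rw [Fintype.bijective_iff_injective_and_card]
    refine ⟨hinj, ?_⟩
    rw [Fintype.card_prod, ← Nat.card_eq_fintype_card, ← Nat.card_eq_fintype_card, ← Nat.card_eq_fintype_card,
      h.cU, h.cV]
    exact h.hP.symm
  obtain ⟨⟨a, b⟩, hab⟩ := hbij.2 ⟨x, hx⟩
  exact ⟨a, a.2, b, b.2, (congrArg Subtype.val hab).symm⟩

/-- Burnside fusion in `G` -/
theorem fusion (h : Cfg P U V) {x g : G} (hx : x ∈ (P : Subgroup G)) (hy : g * x * g⁻¹ ∈ (P : Subgroup G)) :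
    ∃ n ∈ Subgroup.normalizer ((P : Subgroup G) : Set G), g * x * g⁻¹ = n * x * n⁻¹ := by
  haveI : Fact (Nat.Prime 2) := ⟨Nat.prime_two⟩
  have hc : IsMulCommutative (P : Subgroup G) := ⟨⟨fun a b => Subtype.ext (h.comm a a.2 b b.2)⟩⟩
  obtain ⟨n, hn, h1⟩ := Sylow.conj_eq_normalizer_conj_of_mem P x g⁻¹ hx (by rwa [inv_inv])
  refine ⟨n⁻¹, inv_mem hn, ?_⟩
  rw [inv_inv] at h1 ⊢
  exact h1

theorem not_conj (h : Cfg P U V) {a b : G} (ha : a ∈ U) (hb : b ∈ V) (ha1 : a ≠ 1) (hb1 : b ≠ 1) :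
    ¬ IsConj a b ∧ ¬ IsConj a (a * b) := by
  constructor
  · intro hc
    obtain ⟨g, hg⟩ := isConj_iff.1 hc
    obtain ⟨n, hn, h1⟩ := h.fusion (h.hUP ha) (g := g) (by rw [hg]; exact h.hVP hb)
    rw [hg] at h1
    exact hb1 (h.inf b (by rw [h1]; exact h.nU n hn a ha) hb)
  · intro hc
    obtain ⟨g, hg⟩ := isConj_iff.1 hc
    obtain ⟨n, hn, h1⟩ := h.fusion (h.hUP ha) (g := g) (by rw [hg]; exact mul_mem (h.hUP ha) (h.hVP hb))
    rw [hg] at h1
    have h2 : a * b ∈ U := by rw [h1]; exact h.nU n hn a ha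
    have h3 : b ∈ U := by
      have := mul_mem (inv_mem ha) h2
      rwa [inv_mul_cancel_left] at this
    exact hb1 (h.inf b h3 hb)

/-- the subgroup `D ≥ P`: normalizers -/
theorem norm_sub {D : Subgroup G} (hPD : (P : Subgroup G) ≤ D) {g : D}
    (hg : g ∈ Subgroup.normalizer (((P.subtype hPD : Sylow 2 D) : Subgroup D) : Set D)) :
    (g : G) ∈ Subgroup.normalizer ((P : Subgroup G) : Set G) := by
  refine Subgroup.mem_normalizer_iff.2 ?_
  intro x
  constructor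
  · intro hx
    exact (Subgroup.mem_normalizer_iff.1 hg ⟨x, hPD hx⟩).1 hx
  · intro hx
    have hx' : x ∈ D := by
      have h2 := D.mul_mem (D.mul_mem (inv_mem g.2) (hPD hx)) g.2
      have h3 : (g : G)⁻¹ * ((g : G) * x * (g : G)⁻¹) * g = x := by group
      rwa [h3] at h2
    exact (Subgroup.mem_normalizer_iff.1 hg ⟨x, hx'⟩).2 hx

theorem le_cen (h : Cfg P U V) {x : G} (hx : x ∈ (P : Subgroup G)) : (P : Subgroup G) ≤ Cen x := by
  intro y hy
  rw [Subgroup.mem_centralizer_singleton_iff]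
  exact h.comm y hy x hx

theorem sep (h : Cfg P U V) {a b n : G} (ha : a ∈ U) (hb : b ∈ V)
    (hn : n ∈ Subgroup.normalizer ((P : Subgroup G) : Set G)) (hc : n * (a * b) = (a * b) * n) :
    n * a * n⁻¹ = a ∧ n * b * n⁻¹ = b := by
  have h1 : (n * a * n⁻¹) * (n * b * n⁻¹) = a * b := by
    calc (n * a * n⁻¹) * (n * b * n⁻¹) = n * (a * b) * n⁻¹ := by group
      _ = a * b := by rw [hc]; group
  have h2 : a⁻¹ * (n * a * n⁻¹) = b * (n * b * n⁻¹)⁻¹ := by
    calc a⁻¹ * (n * a * n⁻¹) = a⁻¹ * ((n * a * n⁻¹) * (n * b * n⁻¹)) * (n * b * n⁻¹)⁻¹ := by group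
      _ = _ := by rw [h1]; group
  have h3 : a⁻¹ * (n * a * n⁻¹) = 1 := h.inf _ (mul_mem (inv_mem ha) (h.nU n hn a ha)) (by
    rw [h2]; exact mul_mem hb (inv_mem (h.nV n hn b hb)))
  rw [h3] at h2
  exact ⟨(inv_mul_eq_one.1 h3).symm, (mul_inv_eq_one.1 h2.symm).symm⟩

theorem nilp (h : Cfg P U V) {a b : G} (ha : a ∈ U) (hb : b ∈ V) (ha1 : a ≠ 1) (hb1 : b ≠ 1) :
    ∃ k : ℕ, (pPrimeCore 2 (Cen (a * b))).index = 2 ^ k := by
  haveI : Fact (Nat.Prime 2) := ⟨Nat.prime_two⟩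
  have hPD := h.le_cen (mul_mem (h.hUP ha) (h.hVP hb))
  apply H20.V4.index_pPrimeCore_of_complement (P.subtype hPD)
  intro g hg
  have hgN := norm_sub hPD hg
  have hgc : (g : G) * (a * b) = (a * b) * g := Subgroup.mem_centralizer_singleton_iff.1 g.2
  obtain ⟨h1, h2⟩ := h.sep ha hb hgN hgc
  have h3 := h.free g hgN a ha b hb ha1 hb1 h1 h2
  rw [Subgroup.mem_centralizer_iff]
  intro x hx
  apply Subtype.ext
  have h4 := h3 (x : G) hx
  show (x : G) * (g : G) = (g : G) * x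
  conv_lhs => rw [← h4]
  group

theorem order_two (h : Cfg P U V) {x : G} (hx : x ∈ (P : Subgroup G)) (hx1 : x ≠ 1) : orderOf x = 2 :=
  orderOf_eq_prime (by rw [sq]; exact h.hexp x hx) hx1

/-- the subgroup of index four of the centralizer -/
theorem exists_K (h : Cfg P U V) {a b : G} (ha : a ∈ U) (ha1 : a ≠ 1) (hb : b ∈ V) :
    ∃ (K : Subgroup (Cen a)) (_ : K.Normal) (Q : Sylow 2 K), K.index = 4 ∧ IsKleinFour (Q : Subgroup K) ∧
      (∀ s t : K, orderOf s = 2 → orderOf t = 2 → IsConj s t) ∧ ∃ b' : K, ((b' : Cen a) : G) = b := by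
  classical
  haveI : Fact (Nat.Prime 2) := ⟨Nat.prime_two⟩
  have hPC := h.le_cen (h.hUP ha)
  set S : Sylow 2 (Cen a) := P.subtype hPC with hS
  have hSmem : ∀ x : Cen a, x ∈ (S : Subgroup (Cen a)) ↔ (x : G) ∈ (P : Subgroup G) := fun x => Iff.rfl
  have hSab : ∀ x ∈ (S : Subgroup (Cen a)), ∀ y ∈ (S : Subgroup (Cen a)), x * y = y * x := by
    intro x hx y hy
    exact Subtype.ext (h.comm x hx y hy)
  have hSc : IsMulCommutative (S : Subgroup (Cen a)) := ⟨⟨fun x y => Subtype.ext (hSab x x.2 y y.2)⟩⟩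
  set V' : Subgroup (Cen a) := V.subgroupOf (Cen a) with hV'
  have hV'mem : ∀ x : Cen a, x ∈ V' ↔ (x : G) ∈ V := fun x => Iff.rfl
  have hnorm : ∀ n : Cen a, n ∈ Subgroup.normalizer ((S : Subgroup (Cen a)) : Set (Cen a)) →
      (n : G) ∈ Subgroup.normalizer ((P : Subgroup G) : Set G) := fun n hn => norm_sub hPC hn
  have hca : ∀ n : Cen a, (n : G) * a * (n : G)⁻¹ = a := by
    intro n
    rw [Subgroup.mem_centralizer_singleton_iff.1 n.2]; group
  -- `S ∩ O²(C) ≤ V'`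
  have h1 : (S : Subgroup (Cen a)) ⊓ pResidual 2 (Cen a) ≤ V' := by
    apply H25.Fus.inf_residual_le
    intro x hx g hg
    obtain ⟨n, hn, hn1⟩ := Sylow.conj_eq_normalizer_conj_of_mem S x g⁻¹ hx (by rwa [inv_inv])
    rw [inv_inv] at hn1
    have hnN := hnorm n⁻¹ (inv_mem hn)
    obtain ⟨y, hy, z, hz, hxyz⟩ := h.decomp ((hSmem x).1 hx)
    have hfy : ((n⁻¹ : Cen a) : G) * y * ((n⁻¹ : Cen a) : G)⁻¹ = y := by
      exact h.fU _ hnN a ha ha1 (hca n⁻¹) y hy
    rw [hV'mem]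
    have h2 : ((x⁻¹ * (g * x * g⁻¹) : Cen a) : G) = z⁻¹ * (((n⁻¹ : Cen a) : G) * z * ((n⁻¹ : Cen a) : G)⁻¹) := by
      rw [hn1]
      push_cast
      rw [hxyz]
      calc (y * z)⁻¹ * ((n : G)⁻¹ * (y * z) * n) =
          z⁻¹ * y⁻¹ * ((n : G)⁻¹ * y * ((n : G)⁻¹)⁻¹) * ((n : G)⁻¹ * z * ((n : G)⁻¹)⁻¹) := by group
        _ = z⁻¹ * ((n : G)⁻¹ * z * ((n : G)⁻¹)⁻¹) := by
          have : (n : G)⁻¹ * y * ((n : G)⁻¹)⁻¹ = y := by
            have := hfy; push_cast at this; exact this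
          rw [this]; group
    rw [h2]
    exact mul_mem (inv_mem hz) (h.nV _ hnN z hz)
  -- commutators
  have hsup := H2.Residual.sylow_sup_residual (p := 2) S
  have hquot : ∀ x y : Cen a, x * y * x⁻¹ * y⁻¹ ∈ pResidual 2 (Cen a) := by
    intro x y
    have hx : x ∈ (S : Subgroup (Cen a)) ⊔ pResidual 2 (Cen a) := by rw [hsup]; trivial
    have hy : y ∈ (S : Subgroup (Cen a)) ⊔ pResidual 2 (Cen a) := by rw [hsup]; trivial
    obtain ⟨s, hs, k, hk, rfl⟩ := Subgroup.mem_sup_of_normal_right.1 hx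
    obtain ⟨s', hs', k', hk', rfl⟩ := Subgroup.mem_sup_of_normal_right.1 hy
    rw [← QuotientGroup.eq_one_iff]
    have e1 : (QuotientGroup.mk k : Cen a ⧸ pResidual 2 (Cen a)) = 1 := (QuotientGroup.eq_one_iff k).2 hk
    have e2 : (QuotientGroup.mk k' : Cen a ⧸ pResidual 2 (Cen a)) = 1 := (QuotientGroup.eq_one_iff k').2 hk'
    have e3 : (QuotientGroup.mk s : Cen a ⧸ pResidual 2 (Cen a)) * QuotientGroup.mk s' =
        QuotientGroup.mk s' * QuotientGroup.mk s := by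
      rw [← QuotientGroup.mk_mul, ← QuotientGroup.mk_mul, hSab s hs s' hs']
    simp only [QuotientGroup.mk_mul, QuotientGroup.mk_inv, e1, e2, mul_one]
    rw [e3]; group
  have hVK : ∀ v ∈ V, ∀ hv : v ∈ Cen a, (⟨v, hv⟩ : Cen a) ∈ pResidual 2 (Cen a) := by
    intro v hvV hv
    by_cases hv1 : v = 1
    · have : (⟨v, hv⟩ : Cen a) = 1 := Subtype.ext hv1
      rw [this]; exact one_mem _
    -- another element
    have hex : ∃ w ∈ V, w ≠ 1 ∧ w ≠ v := by
      by_contra hcon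
      push Not at hcon
      have h5 : Nat.card V ≤ 2 := by
        have h6 : (V : Set G) ⊆ {1, v} := by
          intro w hw
          by_cases hw1 : w = 1
          · left; exact hw1
          · right; exact hcon w hw hw1
        calc Nat.card V = (V : Set G).ncard := rfl
          _ ≤ ({1, v} : Set G).ncard := Set.ncard_le_ncard h6
          _ ≤ 2 := Set.ncard_insert_le 1 {v} |>.trans (by rw [Set.ncard_singleton])
      rw [h.cV] at h5
      omega
    obtain ⟨w, hw, hw1, hwv⟩ := hex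
    have hwv' : w * v ≠ 1 := by
      intro h6
      apply hwv
      have h7 := h.hexp v (h.hVP hvV)
      calc w = w * (v * v) := by rw [h7, mul_one]
        _ = (w * v) * v := by group
        _ = v := by rw [h6, one_mul]
    obtain ⟨n, hn, hn1, hn2⟩ := h.trans a ha w hw a ha (w * v) (mul_mem hw hvV) ha1 hw1 ha1 hwv'
    have hnC : n ∈ Cen a := by
      rw [Subgroup.mem_centralizer_singleton_iff]
      calc n * a = (n * a * n⁻¹) * n := by group
        _ = a * n := by rw [hn1]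
    have hwC : w ∈ Cen a := hPC (h.hVP hw)
    have h8 := hquot (⟨w, hwC⟩ : Cen a)⁻¹ ⟨n, hnC⟩
    have h9 : ((⟨w, hwC⟩ : Cen a)⁻¹ * ⟨n, hnC⟩ * ((⟨w, hwC⟩ : Cen a)⁻¹)⁻¹ * (⟨n, hnC⟩ : Cen a)⁻¹) = ⟨v, hv⟩ := by
      apply Subtype.ext
      push_cast
      calc w⁻¹ * n * (w⁻¹)⁻¹ * n⁻¹ = w⁻¹ * (n * w * n⁻¹) := by group
        _ = v := by rw [hn2]; group
    rwa [h9] at h8
  have hinf : pResidual 2 (Cen a) ⊓ (S : Subgroup (Cen a)) = V' := by
    apply le_antisymm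
    · rw [inf_comm]; exact h1
    · intro x hx
      exact ⟨hVK x hx x.2, h.hVP hx⟩
  have hcV' : Nat.card V' = 4 := by
    rw [← h.cV]
    exact Nat.card_congr (Subgroup.subgroupOfEquivOfLe (h.hVP.trans hPC)).toEquiv
  have hcS : Nat.card (S : Subgroup (Cen a)) = 16 := by
    rw [← h.hP]
    exact Nat.card_congr (Subgroup.subgroupOfEquivOfLe hPC).toEquiv
  have hidx : (pResidual 2 (Cen a)).index = 4 := by
    rw [H25.Fus.index_residual S, ← Subgroup.inf_relIndex_right, hinf]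
    have h2 := Subgroup.relIndex_mul_relIndex ⊥ V' (S : Subgroup (Cen a)) bot_le (fun x hx => h.hVP hx)
    rw [Subgroup.relIndex_bot_left, Subgroup.relIndex_bot_left, hcV', hcS] at h2
    omega
  haveI hKn : (pResidual 2 (Cen a)).Normal := inferInstance
  obtain ⟨Q, hQ⟩ := H2.Residual.exists_sylow_inf (p := 2) S (pResidual 2 (Cen a))
  have hQmem : ∀ x : pResidual 2 (Cen a), x ∈ (Q : Subgroup (pResidual 2 (Cen a))) ↔ ((x : Cen a) : G) ∈ V := by
    intro x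
    rw [hQ, Subgroup.mem_subgroupOf, ← hV'mem, ← hinf]
    exact ⟨fun hx => ⟨x.2, hx⟩, fun hx => hx.2⟩
  have hQc : Nat.card (Q : Subgroup (pResidual 2 (Cen a))) = 4 := by
    have h3 : (Q : Subgroup (pResidual 2 (Cen a))) = V'.subgroupOf (pResidual 2 (Cen a)) := by
      ext x; exact hQmem x
    rw [h3, ← hcV']
    exact Nat.card_congr (Subgroup.subgroupOfEquivOfLe (by rw [← hinf]; exact inf_le_left)).toEquiv
  have hQexp : ∀ x ∈ (Q : Subgroup (pResidual 2 (Cen a))), x * x = 1 := by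
    intro x hx
    apply Subtype.ext
    apply Subtype.ext
    exact h.hexp _ (h.hVP ((hQmem x).1 hx))
  refine ⟨pResidual 2 (Cen a), hKn, Q, hidx, ?_, ?_, ⟨⟨⟨b, hPC (h.hVP hb)⟩, hVK b hb _⟩, rfl⟩⟩
  · refine ⟨hQc, ?_⟩
    have hnt : Nontrivial (Q : Subgroup (pResidual 2 (Cen a))) := by
      apply Finite.one_lt_card_iff_nontrivial.1
      rw [hQc]; norm_num
    rw [Monoid.exponent_eq_prime_iff Nat.prime_two]
    intro g hg
    exact orderOf_eq_prime (by rw [sq]; exact Subtype.ext (hQexp g g.2)) hg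
  · -- all involutions of K are conjugate
    have key : ∀ s : pResidual 2 (Cen a), orderOf s = 2 →
        ∃ g : pResidual 2 (Cen a), g * s * g⁻¹ ∈ (Q : Subgroup (pResidual 2 (Cen a))) :=
      fun s hs => H20.Klein.exists_conj_mem_of_pelt Q ⟨1, by rw [hs, pow_one]⟩
    have hne1 : ∀ (s g : pResidual 2 (Cen a)), orderOf s = 2 → (((g * s * g⁻¹ : pResidual 2 (Cen a)) : Cen a) : G) ≠ 1 := by
      intro s g hs h0
      have h1 : g * s * g⁻¹ = 1 := Subtype.ext (Subtype.ext h0)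
      have h2 : s = 1 := by
        have : s = g⁻¹ * (g * s * g⁻¹) * g := by group
        rw [this, h1]; group
      rw [h2, orderOf_one] at hs
      norm_num at hs
    intro s t hs ht
    obtain ⟨g, hg⟩ := key s hs
    obtain ⟨g', hg'⟩ := key t ht
    have hs' := (hQmem _).1 hg
    have ht' := (hQmem _).1 hg'
    set s' : pResidual 2 (Cen a) := g * s * g⁻¹ with hs'd
    set t' : pResidual 2 (Cen a) := g' * t * g'⁻¹ with ht'd
    obtain ⟨n, hn, hn1, hn2⟩ := h.trans a ha _ hs' a ha _ ht' ha1 (hne1 s g hs) ha1 (hne1 t g' ht)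
    have hnC : n ∈ Cen a := by
      rw [Subgroup.mem_centralizer_singleton_iff]
      calc n * a = (n * a * n⁻¹) * n := by group
        _ = a * n := by rw [hn1]
    have hnsup : (⟨n, hnC⟩ : Cen a) ∈ (S : Subgroup (Cen a)) ⊔ pResidual 2 (Cen a) := by rw [hsup]; trivial
    obtain ⟨r, hr, k, hk, hrk⟩ := Subgroup.mem_sup_of_normal_right.1 hnsup
    have h5 : IsConj s' t' := by
      rw [isConj_iff]
      refine ⟨⟨k, hk⟩, ?_⟩
      apply Subtype.ext
      show k * (s' : Cen a) * k⁻¹ = (t' : Cen a)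
      have h6 : (⟨n, hnC⟩ : Cen a) * (s' : Cen a) * (⟨n, hnC⟩ : Cen a)⁻¹ = (t' : Cen a) := Subtype.ext hn2
      rw [← hrk] at h6
      have h7 : r * (k * (s' : Cen a) * k⁻¹) * r⁻¹ = (t' : Cen a) := by
        rw [← h6]; group
      have h8 : r * (t' : Cen a) = (t' : Cen a) * r := hSab r hr _ ((hSmem _).2 (h.hVP ht'))
      calc k * (s' : Cen a) * k⁻¹ = r⁻¹ * (r * (k * (s' : Cen a) * k⁻¹) * r⁻¹) * r := by group
        _ = r⁻¹ * ((t' : Cen a) * r) := by rw [h7]; group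
        _ = (t' : Cen a) := by rw [← h8]; group
    have h6 : IsConj s s' := isConj_iff.2 ⟨g, rfl⟩
    have h7 : IsConj t t' := isConj_iff.2 ⟨g', rfl⟩
    exact (h6.trans h5).trans h7.symm

end Cfg

end H79.SixCfg
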