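import Mathlib
import Cfsg.Prelude.Def_Involutions
import Cfsg.Agent.Lib.H57.Bd2
import Cfsg.Agent.Lib.H20.Klein
import Cfsg.Agent.Lib.H79.SixCfg

/-! Groups with an abelian Sylow 2-subgroup `P` and an odd order subgroup `W` containing the cores of the
centralizers of the involutions of `P`: the subgroup `W N(P)` is strongly embedded. -/

set_option autoImplicit false
set_option linter.unusedSectionVars false
set_option linter.unusedVariables false
set_option linter.style.haveILetI false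
open Cfsg

namespace H79.SE

universe u

variable {G : Type u} [Group G]

/-- the product of a subgroup with a subgroup of its normalizer -/
def prodSub (W K : Subgroup G) (h : K ≤ Subgroup.normalizer (W : Set G)) : Subgroup G where
  carrier := {x | ∃ w ∈ W, ∃ k ∈ K, w * k = x}
  one_mem' := ⟨1, W.one_mem, 1, K.one_mem, one_mul 1⟩
  mul_mem' := by
    rintro _ _ ⟨w, hw, k, hk, rfl⟩ ⟨w', hw', k', hk', rfl⟩
    refine ⟨w * (k * w' * k⁻¹), W.mul_mem hw ((Subgroup.mem_normalizer_iff.1 (h hk) w').1 hw'),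
      k * k', K.mul_mem hk hk', by group⟩
  inv_mem' := by
    rintro _ ⟨w, hw, k, hk, rfl⟩
    refine ⟨k⁻¹ * w⁻¹ * k, ?_, k⁻¹, K.inv_mem hk, by group⟩
    have := (Subgroup.mem_normalizer_iff.1 (h (K.inv_mem hk)) w⁻¹).1 (W.inv_mem hw)
    rwa [inv_inv] at this

theorem mem_sup_iff {W K : Subgroup G} (h : K ≤ Subgroup.normalizer (W : Set G)) {x : G} :
    x ∈ W ⊔ K ↔ ∃ w ∈ W, ∃ k ∈ K, w * k = x := by
  constructor
  · intro hx
    have h1 : W ⊔ K ≤ prodSub W K h := by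
      apply sup_le
      · intro w hw; exact ⟨w, hw, 1, K.one_mem, mul_one w⟩
      · intro k hk; exact ⟨1, W.one_mem, k, hk, one_mul k⟩
    exact h1 hx
  · rintro ⟨w, hw, k, hk, rfl⟩
    exact Subgroup.mul_mem_sup hw hk

variable [Finite G]

structure Cfg (P : Sylow 2 G) (W : Subgroup G) : Prop where
  hab : ∀ x ∈ (P : Subgroup G), ∀ y ∈ (P : Subgroup G), x * y = y * x
  hodd : Odd (Nat.card W)
  hWN : Subgroup.normalizer ((P : Subgroup G) : Set G) ≤ Subgroup.normalizer (W : Set G)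
  hC : ∀ x ∈ (P : Subgroup G), orderOf x = 2 →
    Subgroup.centralizer ({x} : Set G) ≤ W ⊔ (P : Subgroup G)
  hne : W ⊔ Subgroup.normalizer ((P : Subgroup G) : Set G) ≠ ⊤
  hinv : ∃ x ∈ (P : Subgroup G), orderOf x = 2

/-- `M = WP` -/
abbrev MM (P : Sylow 2 G) (W : Subgroup G) : Subgroup G := W ⊔ (P : Subgroup G)

/-- `H = W N(P)` -/
abbrev HH (P : Sylow 2 G) (W : Subgroup G) : Subgroup G :=
  W ⊔ Subgroup.normalizer ((P : Subgroup G) : Set G)

theorem odd_of_mem_odd {W : Subgroup G} (hW : Odd (Nat.card W)) {x : G} (hx : x ∈ W) : Odd (orderOf x) :=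
  Odd.of_dvd_nat hW (Subgroup.orderOf_dvd_natCard _ hx)

theorem order_conj (g x : G) : orderOf (g * x * g⁻¹) = orderOf x := H57.Bd.order_conj g x

namespace Cfg

variable {P : Sylow 2 G} {W : Subgroup G} (h : Cfg P W)
include h

theorem P_le_N : (P : Subgroup G) ≤ Subgroup.normalizer (W : Set G) := Subgroup.le_normalizer.trans h.hWN

theorem mem_M {x : G} : x ∈ MM P W ↔ ∃ w ∈ W, ∃ p ∈ (P : Subgroup G), w * p = x := mem_sup_iff h.P_le_N

theorem mem_H {x : G} : x ∈ HH P W ↔ ∃ w ∈ W, ∃ n ∈ Subgroup.normalizer ((P : Subgroup G) : Set G), w * n = x :=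
  mem_sup_iff h.hWN

theorem W_le_M : W ≤ MM P W := le_sup_left
theorem P_le_M : (P : Subgroup G) ≤ MM P W := le_sup_right
theorem M_le_H : MM P W ≤ HH P W := sup_le_sup_left Subgroup.le_normalizer _
theorem P_le_H : (P : Subgroup G) ≤ HH P W := h.P_le_M.trans h.M_le_H
theorem W_le_H : W ≤ HH P W := le_sup_left
theorem N_le_H : Subgroup.normalizer ((P : Subgroup G) : Set G) ≤ HH P W := le_sup_right

theorem H_le_NW : HH P W ≤ Subgroup.normalizer (W : Set G) := sup_le Subgroup.le_normalizer h.hWN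

theorem conj_W {g x : G} (hg : g ∈ HH P W) (hx : x ∈ W) : g * x * g⁻¹ ∈ W :=
  (Subgroup.mem_normalizer_iff.1 (h.H_le_NW hg) x).1 hx

theorem conj_M {g x : G} (hg : g ∈ HH P W) (hx : x ∈ MM P W) : g * x * g⁻¹ ∈ MM P W := by
  obtain ⟨w, hw, n, hn, rfl⟩ := h.mem_H.1 hg
  obtain ⟨w', hw', p, hp, rfl⟩ := h.mem_M.1 hx
  have h1 : n * p * n⁻¹ ∈ (P : Subgroup G) := (Subgroup.mem_normalizer_iff.1 hn p).1 hp
  have h2 : w * n * (w' * p) * (w * n)⁻¹ = (w * n * w' * (w * n)⁻¹) * (w * (n * p * n⁻¹) * w⁻¹) := by group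
  rw [h2]
  exact mul_mem (h.W_le_M (h.conj_W (Subgroup.mul_mem_sup hw hn) hw'))
    (mul_mem (mul_mem (h.W_le_M hw) (h.P_le_M h1)) (inv_mem (h.W_le_M hw)))

theorem P_order {x : G} (hx : x ∈ (P : Subgroup G)) : ∃ k : ℕ, orderOf x = 2 ^ k := by
  obtain ⟨k, hk⟩ := IsPGroup.iff_orderOf.1 P.2 ⟨x, hx⟩
  exact ⟨k, by rw [← hk]; exact (Subgroup.orderOf_mk x hx).symm⟩

theorem disj {x : G} (hx : x ∈ W) (hx' : x ∈ (P : Subgroup G)) : x = 1 := by
  obtain ⟨k, hk⟩ := h.P_order hx'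
  have h1 := odd_of_mem_odd h.hodd hx
  rw [hk] at h1
  rcases Nat.eq_zero_or_pos k with h2 | h2
  · rw [h2, pow_zero, orderOf_eq_one_iff] at hk; exact hk
  · exfalso
    have h3 : Even (2 ^ k) := (even_two).pow_of_ne_zero (by omega)
    exact (Nat.not_even_iff_odd.2 h1) h3

theorem exists_pr (x : MM P W) : ∃ p : (P : Subgroup G), (x : G) * (p : G)⁻¹ ∈ W := by
  obtain ⟨w, hw, p, hp, hx⟩ := h.mem_M.1 x.2
  exact ⟨⟨p, hp⟩, by rw [← hx, mul_inv_cancel_right]; exact hw⟩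

theorem pr_unique {x : G} {p q : G} (hp : p ∈ (P : Subgroup G)) (hq : q ∈ (P : Subgroup G))
    (h1 : x * p⁻¹ ∈ W) (h2 : x * q⁻¹ ∈ W) : p = q := by
  have h3 : p * q⁻¹ ∈ W := by
    have := W.mul_mem (W.inv_mem h1) h2
    rw [mul_inv_rev, inv_inv, mul_assoc, inv_mul_cancel_left] at this
    exact this
  exact mul_inv_eq_one.1 (h.disj h3 (mul_mem hp (inv_mem hq)))

/-- the projection `M → P` with kernel `W` -/
noncomputable def pr : MM P W →* (P : Subgroup G) :=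
  MonoidHom.mk' (fun x => (h.exists_pr x).choose) (by
    intro x y
    apply Subtype.ext
    have hx := (h.exists_pr x).choose_spec
    have hy := (h.exists_pr y).choose_spec
    have hxy := (h.exists_pr (x * y)).choose_spec
    refine h.pr_unique (Subtype.prop _) (Subtype.prop _) hxy ?_
    set a := (h.exists_pr x).choose with ha
    set b := (h.exists_pr y).choose with hb
    have h1 : ((x * y : MM P W) : G) * (((a * b : (P : Subgroup G)) : G))⁻¹ =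
        ((x : G) * (a : G)⁻¹) * ((a : G) * ((y : G) * (b : G)⁻¹) * (a : G)⁻¹) := by
      rw [Subgroup.coe_mul, Subgroup.coe_mul]; group
    rw [h1]
    exact W.mul_mem hx ((Subgroup.mem_normalizer_iff.1 (h.P_le_N a.2) _).1 hy))

theorem pr_spec (x : MM P W) : (x : G) * (h.pr x : G)⁻¹ ∈ W := (h.exists_pr x).choose_spec

theorem pr_eq {x : MM P W} {p : (P : Subgroup G)} (h1 : (x : G) * (p : G)⁻¹ ∈ W) : h.pr x = p :=
  Subtype.ext (h.pr_unique (Subtype.prop _) p.2 (h.pr_spec x) h1)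

theorem pr_P {p : G} (hp : p ∈ (P : Subgroup G)) : h.pr ⟨p, h.P_le_M hp⟩ = ⟨p, hp⟩ := by
  apply h.pr_eq
  rw [mul_inv_cancel]; exact W.one_mem

theorem pr_eq_one {x : MM P W} : h.pr x = 1 ↔ (x : G) ∈ W := by
  constructor
  · intro h1
    have := h.pr_spec x
    rwa [h1, Subgroup.coe_one, inv_one, mul_one] at this
  · intro h1
    apply h.pr_eq
    rwa [Subgroup.coe_one, inv_one, mul_one]

theorem mem_W_of_odd {x : G} (hx : x ∈ MM P W) (ho : Odd (orderOf x)) : x ∈ W := by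
  rw [← h.pr_eq_one (x := ⟨x, hx⟩)]
  have h1 : orderOf (h.pr ⟨x, hx⟩) ∣ orderOf x := by
    have e : orderOf (⟨x, hx⟩ : MM P W) = orderOf x := Subgroup.orderOf_mk x hx
    rw [← e]
    exact orderOf_map_dvd h.pr ⟨x, hx⟩
  obtain ⟨k, hk⟩ := IsPGroup.iff_orderOf.1 P.2 (h.pr ⟨x, hx⟩)
  rw [hk] at h1
  rcases Nat.eq_zero_or_pos k with h2 | h2
  · rw [h2, pow_zero, orderOf_eq_one_iff] at hk; exact hk
  · exfalso
    have h3 : Even (orderOf x) := (even_iff_two_dvd.2 (dvd_trans (dvd_pow_self 2 (by omega)) h1))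
    exact (Nat.not_even_iff_odd.2 ho) h3

/-- outside `W` some power is an involution -/
theorem exists_pow {x : G} (hx : x ∈ MM P W) (hxW : x ∉ W) : ∃ k : ℕ, orderOf (x ^ k) = 2 := by
  have h1 : ¬ Odd (orderOf x) := fun ho => hxW (h.mem_W_of_odd hx ho)
  rw [Nat.not_odd_iff_even] at h1
  obtain ⟨m, hm⟩ := h1
  have hpos := orderOf_pos x
  refine ⟨m, ?_⟩
  rw [orderOf_pow' x (by omega), hm]
  have : (m + m).gcd m = m := by
    rw [← two_mul]; exact Nat.gcd_eq_right (dvd_mul_left m 2)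
  rw [this, ← two_mul, Nat.mul_div_cancel _ (by omega)]

theorem conj_of_pr {t t' : G} (ht : t ∈ MM P W) (ht' : t' ∈ MM P W) (h2 : t * t = 1) (h2' : t' * t' = 1)
    (he : h.pr ⟨t, ht⟩ = h.pr ⟨t', ht'⟩) : ∃ v ∈ W, v * t * v⁻¹ = t' := by
  have hti : t⁻¹ = t := inv_eq_of_mul_eq_one_left h2
  have hti' : t'⁻¹ = t' := inv_eq_of_mul_eq_one_left h2'
  have hw : t' * t ∈ W := by
    have h1 : h.pr (⟨t', ht'⟩ * ⟨t, ht⟩) = 1 := by
      rw [map_mul, he, ← map_mul]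
      have : (⟨t', ht'⟩ * ⟨t', ht'⟩ : MM P W) = 1 := Subtype.ext h2'
      rw [this, map_one]
    exact h.pr_eq_one.1 h1
  obtain ⟨r, hr⟩ := H25.Isolated.exists_sqrt (odd_of_mem_odd h.hodd hw)
  have hinv : t * (t' * t) * t⁻¹ = (t' * t)⁻¹ := by
    rw [mul_inv_rev, hti, hti']
    simp only [mul_assoc]
    rw [h2, mul_one]
  have hinvr := H25.Isolated.inv_conj_pow hinv r
  refine ⟨(t' * t) ^ r, pow_mem hw r, ?_⟩
  have h3 : t * ((t' * t) ^ r)⁻¹ = (t' * t) ^ r * t := by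
    generalize (t' * t) ^ r = z at hinvr
    have h5 : t * z⁻¹ * t⁻¹ = z := by
      have h6 : t * z⁻¹ * t⁻¹ = (t * z * t⁻¹)⁻¹ := by group
      rw [h6, hinvr, inv_inv]
    calc t * z⁻¹ = (t * z⁻¹ * t⁻¹) * t := by group
      _ = z * t := by rw [h5]
  rw [mul_assoc, h3, ← mul_assoc, hr, mul_assoc, h2, mul_one]

theorem exists_conj_P {x : G} (hx : x ∈ HH P W) (hk : ∃ k : ℕ, orderOf x = 2 ^ k) :
    ∃ g ∈ HH P W, g * x * g⁻¹ ∈ (P : Subgroup G) := by
  obtain ⟨g, hg⟩ := H20.Klein.exists_conj_mem_of_pelt (P.subtype h.P_le_H) (x := ⟨x, hx⟩)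
    (by rw [Subgroup.orderOf_mk]; exact hk)
  exact ⟨g, g.2, hg⟩

theorem cen_le {x : G} (hx : x ∈ HH P W) (h2 : orderOf x = 2) :
    Subgroup.centralizer ({x} : Set G) ≤ MM P W := by
  obtain ⟨g, hg, hgP⟩ := h.exists_conj_P hx ⟨1, by rw [h2, pow_one]⟩
  have h3 := h.hC _ hgP (by rw [order_conj, h2])
  intro c hc
  have h4 : g * c * g⁻¹ ∈ Subgroup.centralizer ({g * x * g⁻¹} : Set G) := by
    rw [Subgroup.mem_centralizer_singleton_iff] at hc ⊢
    calc g * c * g⁻¹ * (g * x * g⁻¹) = g * (c * x) * g⁻¹ := by group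
      _ = g * (x * c) * g⁻¹ := by rw [hc]
      _ = g * x * g⁻¹ * (g * c * g⁻¹) := by group
  have h5 := h.conj_M (inv_mem hg) (h3 h4)
  have h6 : g⁻¹ * (g * c * g⁻¹) * g⁻¹⁻¹ = c := by group
  rwa [h6] at h5

theorem inv_mem_M {x : G} (hx : x ∈ HH P W) (h2 : orderOf x = 2) : x ∈ MM P W :=
  h.cen_le hx h2 (Subgroup.mem_centralizer_singleton_iff.2 rfl)

theorem fusion {x g : G} (hx : x ∈ (P : Subgroup G)) (hy : g * x * g⁻¹ ∈ (P : Subgroup G)) :
    ∃ n ∈ Subgroup.normalizer ((P : Subgroup G) : Set G), g * x * g⁻¹ = n * x * n⁻¹ := by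
  haveI : Fact (Nat.Prime 2) := ⟨Nat.prime_two⟩
  have hc : IsMulCommutative (P : Subgroup G) := ⟨⟨fun a b => Subtype.ext (h.hab a a.2 b b.2)⟩⟩
  obtain ⟨n, hn, h1⟩ := Sylow.conj_eq_normalizer_conj_of_mem P x g⁻¹ hx (by rwa [inv_inv])
  refine ⟨n⁻¹, inv_mem hn, ?_⟩
  rw [inv_inv] at h1 ⊢
  exact h1

theorem mem_of_inv {x g : G} (hx : x ∈ HH P W) (h2 : orderOf x = 2) (hg : g⁻¹ * x * g ∈ HH P W) :
    g ∈ HH P W := by
  obtain ⟨a, ha, haP⟩ := h.exists_conj_P hx ⟨1, by rw [h2, pow_one]⟩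
  have h2' : orderOf (g⁻¹ * x * g) = 2 := by
    have := order_conj g⁻¹ x
    rw [inv_inv] at this
    rw [this, h2]
  obtain ⟨b, hb, hbP⟩ := h.exists_conj_P hg ⟨1, by rw [h2', pow_one]⟩
  -- `a x a⁻¹ = (a g b⁻¹) (b g⁻¹ x g b⁻¹) (a g b⁻¹)⁻¹`
  have h3 : (a * g * b⁻¹) * (b * (g⁻¹ * x * g) * b⁻¹) * (a * g * b⁻¹)⁻¹ = a * x * a⁻¹ := by group
  obtain ⟨n, hn, hn1⟩ := h.fusion hbP (g := a * g * b⁻¹) (by rw [h3]; exact haP)
  have h4 : n⁻¹ * (a * g * b⁻¹) ∈ Subgroup.centralizer ({b * (g⁻¹ * x * g) * b⁻¹} : Set G) := by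
    rw [Subgroup.mem_centralizer_singleton_iff]
    generalize b * (g⁻¹ * x * g) * b⁻¹ = y at hn1
    generalize a * g * b⁻¹ = c at hn1
    calc n⁻¹ * c * y = n⁻¹ * (c * y * c⁻¹) * c := by group
      _ = n⁻¹ * (n * y * n⁻¹) * c := by rw [hn1]
      _ = y * (n⁻¹ * c) := by group
  have h5 := h.M_le_H (h.cen_le (h.P_le_H hbP) (by rw [order_conj, h2']) h4)
  have h6 : g = a⁻¹ * (n * (n⁻¹ * (a * g * b⁻¹))) * b := by group
  rw [h6]
  exact mul_mem (mul_mem (inv_mem ha) (mul_mem (h.N_le_H hn) h5)) hb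

theorem se : IsStronglyEmbedded (HH P W) := by
  obtain ⟨x, hx, hx2⟩ := h.hinv
  refine ⟨h.hne, ?_, ?_⟩
  · rw [even_iff_two_dvd, ← hx2]
    exact Subgroup.orderOf_dvd_natCard _ (h.P_le_H hx)
  · intro g hg
    rw [← Nat.not_even_iff_odd]
    intro he
    obtain ⟨t, ht⟩ := exists_prime_orderOf_dvd_card'
      (G := ↥(HH P W ⊓ (HH P W).map (MulAut.conj g).toMonoidHom)) 2 (even_iff_two_dvd.1 he)
    rw [← Subgroup.orderOf_coe] at ht
    obtain ⟨h1, h3⟩ := Subgroup.mem_inf.1 t.2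
    exact hg (h.mem_of_inv h1 ht (H25.StrEmb.mem_map_conj.1 h3))

theorem bd : H57.Bd.Bd G (G ⧸ HH P W) := H57.Bd.of_se h.se

end Cfg

end H79.SE
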