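import Mathlib
import Cfsg.Agent.Lib.H79.Hecke
import Cfsg.Agent.Lib.H79.SECfg

/-! Multiplicity one in the strongly embedded situation. -/

set_option autoImplicit false
set_option linter.unusedSectionVars false
set_option linter.unusedVariables false
set_option linter.style.haveILetI false
open Cfsg H79.Hecke

namespace H79.SE.Cfg

universe u

variable {G : Type u} [Group G] [Finite G] {P : Sylow 2 G} {W : Subgroup G} (h : Cfg P W)
include h

theorem mem_S_self {x : G} (hx : x ∈ HH P W) (h2 : orderOf x = 2) :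
    x ∈ H57.Bd.S G (QuotientGroup.mk 1 : G ⧸ HH P W) (QuotientGroup.mk 1) := by
  refine ⟨h2, ?_⟩
  rw [H25.StrEmb.smul_mk_eq_iff]
  simpa using hx

theorem ne_mk {g : G} (hg : g ∉ HH P W) : (QuotientGroup.mk 1 : G ⧸ HH P W) ≠ QuotientGroup.mk g := by
  rw [Ne, QuotientGroup.eq]
  simpa using hg

theorem exists_not_mem : ∃ g : G, g ∉ HH P W := by
  by_contra hcon
  push Not at hcon
  exact h.hne (eq_top_iff.2 fun x _ => hcon x)

/-- given an involution `s` outside of `H` and two involutions `x`, `x'` of `H` there is `k ∈ H` inverted by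
`s` with `x ^ k = x'` -/
theorem exists_K {s : G} (hs : s ∉ HH P W) (hs2 : orderOf s = 2) {x x' : G} (hx : x ∈ HH P W)
    (hx2 : orderOf x = 2) (hx' : x' ∈ HH P W) (hx2' : orderOf x' = 2) :
    ∃ k ∈ HH P W, s * k * s⁻¹ = k⁻¹ ∧ k * x * k⁻¹ = x' := by
  have hsS : s ∈ H57.Bd.S G (QuotientGroup.mk 1 : G ⧸ HH P W) (QuotientGroup.mk s) := by
    refine ⟨hs2, ?_⟩
    rw [H25.StrEmb.smul_mk_eq_iff]
    simp
  obtain ⟨k, hk, h1, h3⟩ := h.bd.K_trans (h.ne_mk hs) hsS (h.mem_S_self hx hx2) (h.mem_S_self hx' hx2')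
  refine ⟨k, ?_, h1, h3⟩
  have := (H57.Bd.mem_D.1 hk).1
  rw [H25.StrEmb.smul_mk_eq_iff] at this
  simpa using this

/-- all involutions of `H` are conjugate in `H` -/
theorem conj_inv {x x' : G} (hx : x ∈ HH P W) (hx2 : orderOf x = 2) (hx' : x' ∈ HH P W)
    (hx2' : orderOf x' = 2) : ∃ k ∈ HH P W, k * x * k⁻¹ = x' := by
  obtain ⟨g, hg⟩ := h.exists_not_mem
  obtain ⟨s, hs⟩ := h.bd.exists_S (QuotientGroup.mk 1 : G ⧸ HH P W) (QuotientGroup.mk g)
  obtain ⟨k, hk, -, h1⟩ := h.bd.K_trans (h.ne_mk hg) hs (h.mem_S_self hx hx2) (h.mem_S_self hx' hx2')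
  refine ⟨k, ?_, h1⟩
  have := (H57.Bd.mem_D.1 hk).1
  rw [H25.StrEmb.smul_mk_eq_iff] at this
  simpa using this

/-- every coset `gM` outside `H` contains an involution -/
theorem exists_coset {g : G} (hg : g ∉ HH P W) : ∃ m ∈ MM P W, orderOf (g * m) = 2 := by
  obtain ⟨s, hs⟩ := h.bd.exists_S (QuotientGroup.mk 1 : G ⧸ HH P W) (QuotientGroup.mk g)
  have h0 : s⁻¹ * g ∈ HH P W := by
    have := hs.2
    rw [H25.StrEmb.smul_mk_eq_iff, mul_one] at this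
    have h1 := inv_mem this
    rwa [mul_inv_rev, inv_inv] at h1
  obtain ⟨x, hx, hx2⟩ := h.hinv
  have hx' := h.P_le_H hx
  have hy : (s⁻¹ * g) * x * (s⁻¹ * g)⁻¹ ∈ HH P W := mul_mem (mul_mem h0 hx') (inv_mem h0)
  obtain ⟨k, hk, h1, h3⟩ := h.bd.K_trans (h.ne_mk hg) hs (h.mem_S_self hx' hx2)
    (h.mem_S_self hy (by rw [order_conj, hx2]))
  have h4 := h.bd.mul_mem_S (h.ne_mk hg) hs hk h1
  refine ⟨(s⁻¹ * g)⁻¹ * k, ?_, ?_⟩
  · apply h.cen_le hx' hx2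
    rw [Subgroup.mem_centralizer_singleton_iff]
    generalize s⁻¹ * g = c at *
    calc c⁻¹ * k * x = c⁻¹ * (k * x * k⁻¹) * k := by group
      _ = c⁻¹ * (c * x * c⁻¹) * k := by rw [h3]
      _ = x * (c⁻¹ * k) := by group
  · have : g * ((s⁻¹ * g)⁻¹ * k) = s * k := by group
    rw [this]; exact h4.1

/-- the index of `M` in `H` is odd -/
theorem odd_index : Odd ((MM P W).subgroupOf (HH P W)).index := by
  haveI : Fact (Nat.Prime 2) := ⟨Nat.prime_two⟩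
  rw [← Nat.not_even_iff_odd, even_iff_two_dvd]
  intro h2
  apply P.not_dvd_index
  have h3 : ((MM P W).subgroupOf (HH P W)).index ∣ (P : Subgroup G).relIndex (HH P W) :=
    Subgroup.relIndex_dvd_of_le_left (HH P W) h.P_le_M
  have h4 : (P : Subgroup G).relIndex (HH P W) ∣ (P : Subgroup G).index :=
    ⟨_, (Subgroup.relIndex_mul_index h.P_le_H).symm⟩
  exact (h2.trans h3).trans h4

theorem normal_M : ((MM P W).subgroupOf (HH P W)).Normal := by
  refine ⟨fun x hx g => ?_⟩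
  rw [Subgroup.mem_subgroupOf] at hx ⊢
  exact h.conj_M g.2 hx

theorem pow_mem {g : G} (hg : g ∈ HH P W) : g ^ ((MM P W).subgroupOf (HH P W)).index ∈ MM P W := by
  haveI := h.normal_M
  have := Subgroup.pow_index_mem ((MM P W).subgroupOf (HH P W)) (⟨g, hg⟩ : HH P W)
  rw [Subgroup.mem_subgroupOf] at this
  exact this

theorem mem_of_sq {g : G} (hg : g ∈ HH P W) (h2 : g * g ∈ MM P W) : g ∈ MM P W := by
  obtain ⟨k, hk⟩ := h.odd_index
  have h1 := h.pow_mem hg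
  rw [hk, pow_succ, pow_mul, sq] at h1
  have h3 : (g * g) ^ k ∈ MM P W := Subgroup.pow_mem _ h2 k
  have := mul_mem (inv_mem h3) h1
  rwa [inv_mul_cancel_left] at this

/-- `H / M` acts freely on `P` -/
theorem free {g x : G} (hg : g ∈ HH P W) (hx : x ∈ MM P W) (hxW : x ∉ W)
    (he : h.pr ⟨g * x * g⁻¹, h.conj_M hg hx⟩ = h.pr ⟨x, hx⟩) : g ∈ MM P W := by
  obtain ⟨k, hk⟩ := h.exists_pow hx hxW
  have hxk : x ^ k ∈ MM P W := Subgroup.pow_mem _ hx k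
  have hs : x ^ k * x ^ k = 1 := by rw [← sq, ← hk, pow_orderOf_eq_one]
  have hs' : (g * x ^ k * g⁻¹) * (g * x ^ k * g⁻¹) = 1 := by
    calc (g * x ^ k * g⁻¹) * (g * x ^ k * g⁻¹) = g * (x ^ k * x ^ k) * g⁻¹ := by group
      _ = 1 := by rw [hs]; group
  have h1 : h.pr ⟨g * x ^ k * g⁻¹, h.conj_M hg hxk⟩ = h.pr ⟨x ^ k, hxk⟩ := by
    have e1 : (⟨g * x ^ k * g⁻¹, h.conj_M hg hxk⟩ : MM P W) = ⟨g * x * g⁻¹, h.conj_M hg hx⟩ ^ k := by
      apply Subtype.ext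
      show g * x ^ k * g⁻¹ = (g * x * g⁻¹) ^ k
      rw [conj_pow]
    have e2 : (⟨x ^ k, hxk⟩ : MM P W) = ⟨x, hx⟩ ^ k := rfl
    rw [e1, e2, map_pow, map_pow, he]
  obtain ⟨v, hv, hv1⟩ := h.conj_of_pr hxk (h.conj_M hg hxk) hs hs' h1.symm
  have h3 : v⁻¹ * g ∈ MM P W := by
    apply h.cen_le (h.M_le_H hxk) hk
    rw [Subgroup.mem_centralizer_singleton_iff]
    calc v⁻¹ * g * x ^ k = v⁻¹ * (g * x ^ k * g⁻¹) * g := by group
      _ = v⁻¹ * (v * x ^ k * v⁻¹) * g := by rw [hv1]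
      _ = x ^ k * (v⁻¹ * g) := by group
  have := mul_mem (h.W_le_M hv) h3
  rwa [mul_inv_cancel_left] at this

/-- the linear character of `M` defined by a linear character of `P` -/
noncomputable def ml (μ : (P : Subgroup G) →* ℂˣ) : MM P W →* ℂˣ := μ.comp h.pr

theorem ml_apply (μ : (P : Subgroup G) →* ℂˣ) (x : MM P W) : h.ml μ x = μ (h.pr x) := rfl

theorem no_fix {μ : (P : Subgroup G) →* ℂˣ} (hμ : μ ≠ 1) {g : G} (hg : g ∈ HH P W) (hgM : g ∉ MM P W) :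
    ∃ (x : MM P W) (hx : g⁻¹ * (x : G) * g ∈ MM P W), h.ml μ x ≠ h.ml μ ⟨g⁻¹ * (x : G) * g, hx⟩ := by
  by_contra hcon
  push Not at hcon
  apply hμ
  have hgi : ∀ {x : G}, x ∈ MM P W → g⁻¹ * x * g ∈ MM P W := by
    intro x hx
    have := h.conj_M (inv_mem hg) hx
    rwa [inv_inv] at this
  let f : ↥(P : Subgroup G) → ↥(P : Subgroup G) := fun p => p⁻¹ * h.pr ⟨g⁻¹ * p * g, hgi (h.P_le_M p.2)⟩
  have hinj : Function.Injective f := by
    intro p q hpq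
    by_contra hne
    apply hgM
    obtain ⟨r, hr⟩ : ∃ r : (P : Subgroup G), r = p * q⁻¹ := ⟨_, rfl⟩
    have h1 : h.pr ⟨g⁻¹ * (r : G) * g, hgi (h.P_le_M r.2)⟩ = r := by
      have e1 : (⟨g⁻¹ * (r : G) * g, hgi (h.P_le_M r.2)⟩ : MM P W) =
          ⟨g⁻¹ * (p : G) * g, hgi (h.P_le_M p.2)⟩ * ⟨g⁻¹ * (q : G) * g, hgi (h.P_le_M q.2)⟩⁻¹ := by
        apply Subtype.ext
        rw [hr]
        show g⁻¹ * ((p : G) * (q : G)⁻¹) * g = (g⁻¹ * p * g) * (g⁻¹ * q * g)⁻¹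
        group
      have hpq' : p⁻¹ * h.pr ⟨g⁻¹ * (p : G) * g, hgi (h.P_le_M p.2)⟩ =
        q⁻¹ * h.pr ⟨g⁻¹ * (q : G) * g, hgi (h.P_le_M q.2)⟩ := hpq
      rw [e1, map_mul, map_inv, hr]
      have hc : ∀ a b : (P : Subgroup G), a * b = b * a := fun a b => Subtype.ext (h.hab a a.2 b b.2)
      generalize h.pr ⟨g⁻¹ * (p : G) * g, hgi (h.P_le_M p.2)⟩ = a at hpq' ⊢
      generalize h.pr ⟨g⁻¹ * (q : G) * g, hgi (h.P_le_M q.2)⟩ = b at hpq' ⊢
      have e2 : a = p * (q⁻¹ * b) := by rw [← hpq', mul_inv_cancel_left]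
      rw [e2, mul_assoc, mul_inv_cancel_right]
    have hne1 : (r : G) ∉ W := by
      intro hW
      have h2 := h.disj hW r.2
      apply hne
      apply mul_inv_eq_one.1
      rw [← hr]
      exact Subtype.ext h2
    have h2 := h.free (inv_mem hg) (h.P_le_M r.2) hne1 (by
      have e3 : (⟨g⁻¹ * (r : G) * g⁻¹⁻¹, h.conj_M (inv_mem hg) (h.P_le_M r.2)⟩ : MM P W) =
        ⟨g⁻¹ * (r : G) * g, hgi (h.P_le_M r.2)⟩ := by
        apply Subtype.ext
        show g⁻¹ * (r : G) * g⁻¹⁻¹ = _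
        rw [inv_inv]
      rw [e3, h1, h.pr_P r.2])
    have := inv_mem h2
    rwa [inv_inv] at this
  have hsurj : Function.Surjective f := Finite.injective_iff_surjective.1 hinj
  ext p
  obtain ⟨q, hq⟩ := hsurj p
  have h3 := hcon ⟨q, h.P_le_M q.2⟩ (hgi (h.P_le_M q.2))
  rw [h.ml_apply, h.ml_apply, h.pr_P q.2] at h3
  have h4 : μ p = 1 := by
    rw [← hq]
    show μ (q⁻¹ * h.pr _) = 1
    rw [map_mul, map_inv, ← h3, inv_mul_cancel]
  rw [h4]; rfl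

variable [Fintype G]

theorem RR_zero [Fintype (MM P W)] (ν : MM P W →* ℂˣ) {g : G} (hg : g ∈ HH P W) (hgM : g ∉ MM P W) :
    RR (MM P W) ν g = 0 := by
  unfold RR
  apply Finset.sum_eq_zero
  intro l _
  rw [H18.CharInd.ext_notMem, map_zero]
  intro hm
  apply hgM
  have h1 := h.mem_of_sq (mul_mem hg (h.M_le_H l.2)) hm
  have := mul_mem h1 (inv_mem l.2)
  rwa [mul_inv_cancel_right] at this

/-- multiplicity one for characters of order two -/
theorem mult_le [Fintype (MM P W)] {μ : (P : Subgroup G) →* ℂˣ} (hμ : μ ≠ 1) (hμ2 : ∀ x, μ x * μ x = 1)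
    (χ : IrrCharacter G) :
    mu (MM P W) (h.ml μ) χ = 0 ∨ (mu (MM P W) (h.ml μ) χ = 1 ∧ nu χ = 1) := by
  apply mult_one (MM P W) (fun x => hμ2 _)
  intro g
  by_cases hg : g ∈ HH P W
  · by_cases hgM : g ∈ MM P W
    · left
      exact ⟨⟨g⁻¹, inv_mem hgM⟩, by simp⟩
    · right
      obtain ⟨x, hx, hne⟩ := h.no_fix hμ hg hgM
      exact ⟨FF_eq_zero (MM P W) x hx hne, h.RR_zero _ hg hgM⟩
  · left
    obtain ⟨m, hm, h2⟩ := h.exists_coset hg
    exact ⟨⟨m, hm⟩, by rw [← sq, ← h2, pow_orderOf_eq_one]⟩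

/-- multiplicity one for the trivial character of `H` -/
theorem mult_H [Fintype (HH P W)] (χ : IrrCharacter G) : mu (HH P W) 1 χ ≤ 1 := by
  rcases mult_one (HH P W) (μ := 1) (fun x => by simp) (fun g => by
    left
    by_cases hg : g ∈ HH P W
    · exact ⟨⟨g⁻¹, inv_mem hg⟩, by simp⟩
    · obtain ⟨m, hm, h2⟩ := h.exists_coset hg
      exact ⟨⟨m, h.M_le_H hm⟩, by rw [← sq, ← h2, pow_orderOf_eq_one]⟩) χ with h1 | ⟨h1, -⟩
  · omega
  · omega

end H79.SE.Cfg
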