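import Mathlib
import Cfsg.Agent.Lib.H79.SEMult
import Cfsg.Agent.Lib.H79.GramComb

/-! The action of `H` on `P` and the Gram matrix of the characters induced from `M`. -/

set_option autoImplicit false
set_option linter.unusedSectionVars false
set_option linter.unusedVariables false
set_option linter.style.haveILetI false
open Cfsg H79.Hecke
open scoped ComplexConjugate

namespace H79.SE.Cfg

universe u

variable {G : Type u} [Group G] [Finite G] {P : Sylow 2 G} {W : Subgroup G} (h : Cfg P W)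
include h

theorem comm (a b : (P : Subgroup G)) : a * b = b * a := Subtype.ext (h.hab a a.2 b b.2)

/-- action of `H` on `P ≅ M/W` -/
noncomputable def tw (g : HH P W) : ↥(P : Subgroup G) →* ↥(P : Subgroup G) where
  toFun p := h.pr ⟨g * p * (g : G)⁻¹, h.conj_M g.2 (h.P_le_M p.2)⟩
  map_one' := by
    have : (⟨g * ((1 : (P : Subgroup G)) : G) * (g : G)⁻¹, h.conj_M g.2 (h.P_le_M (1 : (P : Subgroup G)).2)⟩ : MM P W) = 1 := by
      apply Subtype.ext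
      show (g : G) * 1 * (g : G)⁻¹ = 1
      group
    rw [this, map_one]
  map_mul' p q := by
    rw [← map_mul]
    congr 1
    apply Subtype.ext
    show (g : G) * ((p : G) * q) * (g : G)⁻¹ = (g * p * (g : G)⁻¹) * (g * q * (g : G)⁻¹)
    group

theorem pr_conj (g : HH P W) (u : MM P W) {v : MM P W} (hv : (v : G) = g * u * (g : G)⁻¹) :
    h.pr v = h.tw g (h.pr u) := by
  have h1 := h.pr_spec u
  have h2 : (g : G) * ((u : G) * (h.pr u : G)⁻¹) * (g : G)⁻¹ ∈ W := h.conj_W g.2 h1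
  have h3 : v = ⟨(g : G) * ((u : G) * (h.pr u : G)⁻¹) * (g : G)⁻¹, h.W_le_M h2⟩ *
      ⟨g * (h.pr u : G) * (g : G)⁻¹, h.conj_M g.2 (h.P_le_M (h.pr u).2)⟩ := by
    apply Subtype.ext
    rw [hv]
    show (g : G) * u * (g : G)⁻¹ = ((g : G) * ((u : G) * (h.pr u : G)⁻¹) * (g : G)⁻¹) * (g * (h.pr u : G) * (g : G)⁻¹)
    group
  rw [h3, map_mul, h.pr_eq_one.2 h2, one_mul]
  rfl

theorem tw_mul (g k : HH P W) (p : (P : Subgroup G)) : h.tw (g * k) p = h.tw g (h.tw k p) := by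
  refine h.pr_conj g ⟨k * p * (k : G)⁻¹, h.conj_M k.2 (h.P_le_M p.2)⟩ ?_
  show (((g * k : HH P W) : G)) * p * ((g * k : HH P W) : G)⁻¹ = g * (k * p * (k : G)⁻¹) * (g : G)⁻¹
  push_cast
  group

theorem tw_one (p : (P : Subgroup G)) : h.tw 1 p = p := by
  have : (⟨((1 : HH P W) : G) * p * ((1 : HH P W) : G)⁻¹, h.conj_M (1 : HH P W).2 (h.P_le_M p.2)⟩ : MM P W) =
      ⟨p, h.P_le_M p.2⟩ := by
    apply Subtype.ext
    show ((1 : HH P W) : G) * p * ((1 : HH P W) : G)⁻¹ = p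
    push_cast
    group
  show h.pr _ = p
  rw [this, h.pr_P p.2]

theorem tw_inv_tw (g : HH P W) (p : (P : Subgroup G)) : h.tw g⁻¹ (h.tw g p) = p := by
  rw [← h.tw_mul, inv_mul_cancel, h.tw_one]

theorem tw_tw_inv (g : HH P W) (p : (P : Subgroup G)) : h.tw g (h.tw g⁻¹ p) = p := by
  rw [← h.tw_mul, mul_inv_cancel, h.tw_one]

theorem tw_M {g : HH P W} (hg : (g : G) ∈ MM P W) (p : (P : Subgroup G)) : h.tw g p = p := by
  have : (⟨(g : G) * p * (g : G)⁻¹, h.conj_M g.2 (h.P_le_M p.2)⟩ : MM P W) =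
      ⟨g, hg⟩ * ⟨p, h.P_le_M p.2⟩ * ⟨g, hg⟩⁻¹ := rfl
  show h.pr _ = p
  rw [this, map_mul, map_mul, map_inv, h.comm (h.pr ⟨g, hg⟩), mul_inv_cancel_right, h.pr_P p.2]

theorem mem_of_tw {g : HH P W} {p : (P : Subgroup G)} (hp : p ≠ 1) (he : h.tw g p = p) : (g : G) ∈ MM P W := by
  refine h.free g.2 (h.P_le_M p.2) (fun hW => hp (Subtype.ext (h.disj hW p.2))) ?_
  rw [h.pr_P p.2]
  exact he

theorem mem_of_tw_char {μ : (P : Subgroup G) →* ℂˣ} (hμ : μ ≠ 1) {g : HH P W} (he : ∀ p, μ (h.tw g p) = μ p) :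
    (g : G) ∈ MM P W := by
  by_contra hgM
  obtain ⟨x, hx, hne⟩ := h.no_fix hμ g.2 hgM
  apply hne
  have h1 : h.pr ⟨(g : G)⁻¹ * x * g, hx⟩ = h.tw g⁻¹ (h.pr x) := by
    apply h.pr_conj g⁻¹ x
    show (g : G)⁻¹ * x * g = ((g⁻¹ : HH P W) : G) * x * ((g⁻¹ : HH P W) : G)⁻¹
    push_cast
    rw [inv_inv]
  rw [h.ml_apply, h.ml_apply, h1, ← he (h.tw g⁻¹ (h.pr x)), h.tw_tw_inv]

/-- conjugates from outside `H` meet `M` in `W` -/
theorem mem_W_of_out {x u : G} (hx : x ∉ HH P W) (hu : u ∈ MM P W) (hxu : x⁻¹ * u * x ∈ MM P W) : u ∈ W := by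
  by_contra huW
  obtain ⟨k, hk⟩ := h.exists_pow hu huW
  apply hx
  refine h.mem_of_inv (h.M_le_H (Subgroup.pow_mem _ hu k)) hk ?_
  have : x⁻¹ * u ^ k * x = (x⁻¹ * u * x) ^ k := by
    have := conj_pow (a := x⁻¹) (b := u) (i := k)
    rw [inv_inv] at this
    exact this.symm
  rw [this]
  exact h.M_le_H (Subgroup.pow_mem _ hxu k)

theorem mem_W_of_out' {x u : G} (hx : x ∉ HH P W) (hu : u ∈ MM P W) (hxu : x⁻¹ * u * x ∈ MM P W) :
    x⁻¹ * u * x ∈ W := by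
  apply h.mem_W_of_out (x := x⁻¹) (fun hc => hx (by have := inv_mem hc; rwa [inv_inv] at this)) hxu
  have : x⁻¹⁻¹ * (x⁻¹ * u * x) * x⁻¹ = u := by group
  rw [this]; exact hu

theorem FF_out [Fintype G] [Fintype (MM P W)] {x : G} (hx : x ∉ HH P W) (μ μ' : (P : Subgroup G) →* ℂˣ) :
    FF (MM P W) (h.ml μ) (h.ml μ') x = (Nat.card {l : MM P W // x⁻¹ * (l : G) * x ∈ MM P W} : ℂ) := by
  apply FF_eq_card
  intro d hd
  rw [h.ml_apply, h.ml_apply, h.pr_eq_one.2 (h.mem_W_of_out hx d.2 hd), h.pr_eq_one.2 (h.mem_W_of_out' hx d.2 hd),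
    map_one, map_one]

open Classical in
theorem FF_in [Fintype G] [Fintype (MM P W)] (x : HH P W) (μ μ' : (P : Subgroup G) →* ℂˣ) :
    FF (MM P W) (h.ml μ) (h.ml μ') x = if ∀ p, μ' (h.tw x⁻¹ p) = μ p then (Nat.card (MM P W) : ℂ) else 0 := by
  have hc : ∀ (d : MM P W) (hd : (x : G)⁻¹ * (d : G) * x ∈ MM P W),
      h.pr ⟨(x : G)⁻¹ * (d : G) * x, hd⟩ = h.tw x⁻¹ (h.pr d) := by
    intro d hd
    apply h.pr_conj x⁻¹ d
    show (x : G)⁻¹ * d * x = ((x⁻¹ : HH P W) : G) * d * ((x⁻¹ : HH P W) : G)⁻¹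
    push_cast
    rw [inv_inv]
  have hm : ∀ d : MM P W, (x : G)⁻¹ * (d : G) * x ∈ MM P W := by
    intro d
    have := h.conj_M (inv_mem x.2) d.2
    rwa [inv_inv] at this
  split_ifs with hall
  · rw [FF_eq_card (MM P W) (fun d hd => by rw [h.ml_apply, h.ml_apply, hc d hd, hall])]
    congr 1
    exact Nat.card_congr (Equiv.subtypeUnivEquiv hm)
  · push Not at hall
    obtain ⟨p, hp⟩ := hall
    apply FF_eq_zero (MM P W) ⟨p, h.P_le_M p.2⟩ (hm _)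
    rw [h.ml_apply, h.ml_apply, hc, h.pr_P p.2]
    exact fun h' => hp h'.symm

/-- cosets of `M` in `H` -/
theorem card_coset {Q : HH P W → Prop} (x₀ : HH P W) (hQ : ∀ x, Q x ↔ ((x₀⁻¹ * x : HH P W) : G) ∈ MM P W) :
    Nat.card {x : HH P W // Q x} = Nat.card (MM P W) := by
  refine Nat.card_congr ⟨fun x => ⟨((x₀⁻¹ * x : HH P W) : G), (hQ x).1 x.2⟩,
    fun m => ⟨x₀ * ⟨m, h.M_le_H m.2⟩, (hQ _).2 (by rw [inv_mul_cancel_left]; exact m.2)⟩, ?_, ?_⟩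
  · intro x
    apply Subtype.ext
    show x₀ * ⟨((x₀⁻¹ * x : HH P W) : G), _⟩ = (x : HH P W)
    have : (⟨((x₀⁻¹ * (x : HH P W) : HH P W) : G), (x₀⁻¹ * (x : HH P W) : HH P W).2⟩ : HH P W) = x₀⁻¹ * x := rfl
    rw [this, mul_inv_cancel_left]
  · intro m
    apply Subtype.ext
    show (((x₀⁻¹ * (x₀ * ⟨m, h.M_le_H m.2⟩) : HH P W) : G)) = m
    rw [inv_mul_cancel_left]

/-- conjugacy of linear characters -/
def Cj (μ μ' : (P : Subgroup G) →* ℂˣ) : Prop := ∃ x : HH P W, ∀ p, μ' (h.tw x⁻¹ p) = μ p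

theorem card_cj {μ μ' : (P : Subgroup G) →* ℂˣ} (hμ : μ ≠ 1) (hc : h.Cj μ μ') :
    Nat.card {x : HH P W // ∀ p, μ' (h.tw x⁻¹ p) = μ p} = Nat.card (MM P W) := by
  obtain ⟨x₀, hx₀⟩ := hc
  apply h.card_coset x₀
  intro x
  constructor
  · intro hx
    have h1 : ∀ p, μ' (h.tw (x⁻¹ * x₀) p) = μ' p := by
      intro p
      rw [h.tw_mul, hx, ← hx₀, h.tw_inv_tw]
    have hμ' : μ' ≠ 1 := by
      rintro rfl
      apply hμ
      ext p
      rw [← hx₀ p]; rfl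
    have h2 := h.mem_of_tw_char hμ' h1
    have h3 := (MM P W).inv_mem h2
    have h4 : ((x₀⁻¹ * x : HH P W) : G) = ((x⁻¹ * x₀ : HH P W) : G)⁻¹ := by push_cast; group
    rw [h4]; exact h3
  · intro hx p
    rw [← hx₀ p]
    have h1 : x⁻¹ = (x₀⁻¹ * x)⁻¹ * x₀⁻¹ := by group
    rw [h1, h.tw_mul, h.tw_M]
    have : (((x₀⁻¹ * x)⁻¹ : HH P W) : G) = ((x₀⁻¹ * x : HH P W) : G)⁻¹ := by push_cast; rfl
    rw [this]
    exact (MM P W).inv_mem hx

open Classical in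
/-- the contribution of the elements outside `H` -/
noncomputable def Nout [Fintype G] (P : Sylow 2 G) (W : Subgroup G) : ℂ :=
  (Nat.card (MM P W) : ℂ)⁻¹ * ((Nat.card (MM P W) : ℂ)⁻¹ *
    ∑ x ∈ Finset.univ.filter (fun x : G => x ∉ HH P W),
      (Nat.card {l : MM P W // x⁻¹ * (l : G) * x ∈ MM P W} : ℂ))

open Classical in
theorem gram [Fintype G] [Fintype (MM P W)] [Fintype (HH P W)] [Fintype (IrrCharacter G)]
    (μ μ' : (P : Subgroup G) →* ℂˣ) :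
    ∑ χ : IrrCharacter G, (mu (MM P W) (h.ml μ) χ : ℂ) * (mu (MM P W) (h.ml μ') χ : ℂ) =
      Nout P W + (Nat.card (MM P W) : ℂ)⁻¹ * (Nat.card {x : HH P W // ∀ p, μ' (h.tw x⁻¹ p) = μ p} : ℂ) := by
  have hc : (Nat.card (MM P W) : ℂ) ≠ 0 := by exact_mod_cast (Nat.card_pos (α := MM P W)).ne'
  rw [sum_mu, Nout]
  have h1 : ∑ x : G, FF (MM P W) (h.ml μ) (h.ml μ') x =
      (∑ x ∈ Finset.univ.filter (fun x : G => x ∉ HH P W), FF (MM P W) (h.ml μ) (h.ml μ') x) +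
      ∑ x : HH P W, FF (MM P W) (h.ml μ) (h.ml μ') (x : G) := by
    rw [← Finset.sum_filter_add_sum_filter_not Finset.univ (fun x : G => x ∉ HH P W)]
    congr 1
    exact Finset.sum_subtype _ (fun x => by simp) _
  have h2 : ∑ x ∈ Finset.univ.filter (fun x : G => x ∉ HH P W), FF (MM P W) (h.ml μ) (h.ml μ') x =
      ∑ x ∈ Finset.univ.filter (fun x : G => x ∉ HH P W),
        (Nat.card {l : MM P W // x⁻¹ * (l : G) * x ∈ MM P W} : ℂ) :=
    Finset.sum_congr rfl fun x hx => h.FF_out (Finset.mem_filter.1 hx).2 μ μ'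
  have h3 : ∑ x : HH P W, FF (MM P W) (h.ml μ) (h.ml μ') (x : G) =
      (Nat.card {x : HH P W // ∀ p, μ' (h.tw x⁻¹ p) = μ p} : ℂ) * (Nat.card (MM P W) : ℂ) := by
    rw [Finset.sum_congr rfl (fun x _ => h.FF_in x μ μ'), ← Finset.sum_filter, Finset.sum_const, nsmul_eq_mul]
    congr 2
    rw [Nat.card_eq_fintype_card, Fintype.card_subtype]
  rw [h1, h2, h3, mul_add, mul_add]
  congr 1
  field_simp

theorem gram_not [Fintype G] [Fintype (MM P W)] [Fintype (HH P W)] [Fintype (IrrCharacter G)]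
    {μ μ' : (P : Subgroup G) →* ℂˣ} (hc : ¬ h.Cj μ μ') :
    ∑ χ : IrrCharacter G, (mu (MM P W) (h.ml μ) χ : ℂ) * (mu (MM P W) (h.ml μ') χ : ℂ) = Nout P W := by
  rw [h.gram]
  haveI : IsEmpty {x : HH P W // ∀ p, μ' (h.tw x⁻¹ p) = μ p} := ⟨fun x => hc ⟨x, x.2⟩⟩
  have h0 : Nat.card {x : HH P W // ∀ p, μ' (h.tw x⁻¹ p) = μ p} = 0 := Nat.card_of_isEmpty
  rw [h0, Nat.cast_zero, mul_zero, add_zero]

theorem gram_cj [Fintype G] [Fintype (MM P W)] [Fintype (HH P W)] [Fintype (IrrCharacter G)]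
    {μ μ' : (P : Subgroup G) →* ℂˣ} (hμ : μ ≠ 1) (hc : h.Cj μ μ') :
    ∑ χ : IrrCharacter G, (mu (MM P W) (h.ml μ) χ : ℂ) * (mu (MM P W) (h.ml μ') χ : ℂ) = Nout P W + 1 := by
  have hcM : (Nat.card (MM P W) : ℂ) ≠ 0 := by exact_mod_cast (Nat.card_pos (α := MM P W)).ne'
  rw [h.gram, h.card_cj hμ hc, inv_mul_cancel₀ hcM]

end H79.SE.Cfg
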