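import Mathlib
import Cfsg.Agent.Lib.H79.CentQ
import Cfsg.Agent.Lib.H81.LamB0

/-! The principal block of `G/O_{p'}(G)`. -/

set_option autoImplicit false
set_option linter.unusedSectionVars false
set_option linter.unusedVariables false
set_option linter.style.haveILetI false
open Cfsg H20.Loc H20.Blk H20.NormQ H20.Orth H78.BlkCount H79.CentQ

namespace H79.PQuot

universe u

variable {G : Type u} [Group G] [Finite G] {p : ℕ} {M : Ideal AlgInt}

theorem card_core (hM : IsPModular p M) :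
    Nat.card (principalBlock M (G ⧸ pPrimeCore p G)) = Nat.card (principalBlock M G) := by
  haveI : Fact p.Prime := ⟨hM.1⟩
  exact Nat.card_congr (Set.BijOn.equiv _ (H81.LamB0.bijOn hM))

/-- a regular element of a quotient lifts to a regular element -/
theorem exists_reg_lift [Fact p.Prime] (Q : Subgroup G) [Q.Normal] {q : G ⧸ Q} (hq : ¬ p ∣ orderOf q) :
    ∃ x : G, (x : G ⧸ Q) = q ∧ ¬ p ∣ orderOf x := by
  obtain ⟨g, rfl⟩ := QuotientGroup.mk_surjective q
  obtain ⟨z, y, hzy, hc, ⟨k, hk⟩, hy⟩ := H19.Second.exists_isPPart (Fact.out : p.Prime) g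
  refine ⟨y, ?_, hy⟩
  have h1 : IsPPart p (QuotientGroup.mk g : G ⧸ Q) (QuotientGroup.mk z) := by
    refine ⟨QuotientGroup.mk y, ?_, ?_, ?_, H20.PC.regular_mk Q hy⟩
    · rw [← QuotientGroup.mk_mul, hzy]
    · show (QuotientGroup.mk z : G ⧸ Q) * QuotientGroup.mk y = QuotientGroup.mk y * QuotientGroup.mk z
      rw [← QuotientGroup.mk_mul, ← QuotientGroup.mk_mul, hc.eq]
    · have h2 : orderOf (QuotientGroup.mk z : G ⧸ Q) ∣ p ^ k := by
        rw [← hk]; exact orderOf_map_dvd (QuotientGroup.mk' Q) z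
      obtain ⟨j, -, hj⟩ := (Nat.dvd_prime_pow (Fact.out : p.Prime)).1 h2
      exact ⟨j, hj⟩
  have h2 : IsPPart p (QuotientGroup.mk g : G ⧸ Q) 1 :=
    ⟨QuotientGroup.mk g, one_mul _, Commute.one_left _, ⟨0, by rw [orderOf_one, pow_zero]⟩, hq⟩
  have h3 := H19.Second.isPPart_unique (Fact.out : p.Prime) h1 h2
  rw [← hzy, QuotientGroup.mk_mul, h3, one_mul]

theorem rank_core (hM : IsPModular p M) :
    blockRank p (principalBlock M (G ⧸ pPrimeCore p G)) = blockRank p (principalBlock M G) := by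
  haveI : Fact p.Prime := ⟨hM.1⟩
  letI := Fintype.ofFinite G
  have hbij := H81.LamB0.bijOn (G := G) hM
  obtain ⟨Q, hQ⟩ : ∃ Q : Subgroup G, Q = pPrimeCore p G := ⟨_, rfl⟩
  haveI : Q.Normal := by rw [hQ]; infer_instance
  suffices hsuff : blockRank p (principalBlock M (G ⧸ Q)) = blockRank p (principalBlock M G) by
    subst hQ; exact hsuff
  have hbij : Set.BijOn (infl Q) (principalBlock M (G ⧸ Q)) (principalBlock M G) := by
    subst hQ; exact hbij
  letI := Fintype.ofFinite (G ⧸ Q)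
  rw [← finrank_rspn, ← finrank_rspn]
  have hLinfl : ∀ ψ : IrrCharacter (G ⧸ Q), L Q p (pRegularPart p (ψ : G ⧸ Q → ℂ)) =
      pRegularPart p (infl Q ψ : G → ℂ) := by
    intro ψ
    rw [pRegularPart_eq, pRegularPart_eq, L_reg]
    rfl
  have h1 : rspn p (principalBlock M G) = (rspn p (principalBlock M (G ⧸ Q))).map (L Q p) := by
    unfold rspn
    rw [Submodule.map_span, ← hbij.image_eq, Set.image_image, Set.image_image]
    congr 1
    exact Set.image_congr fun ψ _ => (hLinfl ψ).symm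
  have key : ∀ F ∈ rspn p (principalBlock M (G ⧸ Q)), ∀ q : G ⧸ Q, p ∣ orderOf q → F q = 0 := by
    intro F hF q hq
    rw [← reg_of_mem_rspn hF, reg_not hq]
  have hinj : Function.Injective ((L Q p).domRestrict (rspn p (principalBlock M (G ⧸ Q)))) := by
    rintro ⟨F, hF⟩ ⟨F', hF'⟩ hFF
    apply Subtype.ext
    show F = F'
    have hFF : L Q p F = L Q p F' := hFF
    funext q
    by_cases hq : p ∣ orderOf q
    · rw [key F hF q hq, key F' hF' q hq]
    · obtain ⟨x, hx, hxr⟩ := exists_reg_lift Q hq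
      have h2 := congrFun hFF x
      rw [CentQ.L_apply, CentQ.L_apply, reg_of hxr, reg_of hxr, hx] at h2
      exact h2
  rw [h1, ← LinearMap.range_domRestrict, LinearMap.finrank_range_of_inj hinj]

end H79.PQuot
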