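import Mathlib
import Cfsg.Agent.Lib.H79.PQuot
import Cfsg.Agent.Lib.H20.Homo

/-! A lower bound for the rank of the principal block of a group with a normal Sylow subgroup. -/

set_option autoImplicit false
set_option linter.unusedSectionVars false
set_option linter.unusedVariables false
set_option linter.style.haveILetI false
open Cfsg H20.Loc H20.Blk H20.NormQ H20.Orth H78.BlkCount H79.CentQ
open scoped ComplexConjugate

namespace H79.NormLow

universe u

variable {G : Type u} [Group G] [Finite G] {p : ℕ} {M : Ideal AlgInt}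

theorem dvd_index (P : Sylow p G) [hp : Fact p.Prime] (hPn : (P : Subgroup G).Normal)
    {g : G} (hg : g ∉ Subgroup.centralizer ((P : Subgroup G) : Set G)) :
    p ∣ (Subgroup.centralizer ({g} : Set G)).index := by
  by_contra hnd
  apply hg
  -- a Sylow subgroup of the centralizer is a Sylow subgroup of `G`
  obtain ⟨Q⟩ : Nonempty (Sylow p (Subgroup.centralizer ({g} : Set G))) := inferInstance
  have h1 : Nat.card ((Q : Subgroup (Subgroup.centralizer ({g} : Set G))).map
      (Subgroup.centralizer ({g} : Set G)).subtype) = Nat.card (P : Subgroup G) := by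
    rw [Subgroup.card_subtype]
    have h2 := Q.card_eq_multiplicity
    have h3 := P.card_eq_multiplicity
    have h4 := Subgroup.card_mul_index (Subgroup.centralizer ({g} : Set G))
    have h5 : (Nat.card G).factorization p = (Nat.card (Subgroup.centralizer ({g} : Set G))).factorization p := by
      rw [← h4, Nat.factorization_mul Nat.card_pos.ne' Subgroup.index_ne_zero_of_finite, Finsupp.add_apply,
        Nat.factorization_eq_zero_of_not_dvd hnd, add_zero]
    rw [h5] at h3
    exact h2.trans h3.symm
  set T := (Q : Subgroup (Subgroup.centralizer ({g} : Set G))).map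
      (Subgroup.centralizer ({g} : Set G)).subtype with hT
  have hTp : IsPGroup p T := Q.2.map _
  obtain ⟨R, hR⟩ := hTp.exists_le_sylow
  haveI := hPn
  have hRP : R = P := by
    have hu := Sylow.unique_of_normal P hPn
    exact Subsingleton.elim R P
  have h6 : T = (P : Subgroup G) := by
    rw [hRP] at hR
    exact Subgroup.eq_of_le_of_card_ge hR h1.ge
  rw [Subgroup.mem_centralizer_iff]
  intro x hx
  have h7 : x ∈ T := by rw [h6]; exact hx
  obtain ⟨y, hy, rfl⟩ := h7
  exact (Subgroup.mem_centralizer_singleton_iff.1 y.2)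

theorem rank_ge (hM : IsPModular p M) (P : Sylow p G) (hPn : (P : Subgroup G).Normal)
    (hC : Subgroup.centralizer ((P : Subgroup G) : Set G) ≤ P)
    (hE : ∀ a b : G, a * b * a⁻¹ * b⁻¹ ∈ (P : Subgroup G)) :
    (P : Subgroup G).index ≤ blockRank p (principalBlock M G) := by
  classical
  haveI : Fact p.Prime := ⟨hM.1⟩
  haveI := pm_isPrime hM
  obtain ⟨Q, hQ⟩ : ∃ Q : Subgroup G, Q = (P : Subgroup G) := ⟨_, rfl⟩
  haveI hQn : Q.Normal := by rw [hQ]; exact hPn
  rw [← hQ] at hC ⊢
  have hE' : ∀ a b : G, a * b * a⁻¹ * b⁻¹ ∈ Q := by rw [hQ]; exact hE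
  have hAc : ∀ a b : G ⧸ Q, a * b = b * a := by
    intro a b
    induction a using QuotientGroup.induction_on with
    | H a =>
    induction b using QuotientGroup.induction_on with
    | H b =>
    show (QuotientGroup.mk (a * b) : G ⧸ Q) = QuotientGroup.mk (b * a)
    rw [eq_comm, QuotientGroup.eq]
    have h1 := hE' a⁻¹ b⁻¹
    have h2 : (b * a)⁻¹ * (a * b) = a⁻¹ * b⁻¹ * a⁻¹⁻¹ * b⁻¹⁻¹ := by group
    rw [h2]
    exact h1
  letI := Fintype.ofFinite G
  letI := Fintype.ofFinite (G ⧸ Q)
  letI := Fintype.ofFinite (IrrCharacter (G ⧸ Q))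
  have hmem : ∀ l : IrrCharacter (G ⧸ Q), infl Q l ∈ principalBlock M G := by
    intro l g
    have hl1 : (infl Q l : G → ℂ) 1 = 1 := by
      rw [infl_apply]; exact H20.Homo.lin_one hAc l
    by_cases hg : g ∈ Q
    · have h1 : (infl Q l : G → ℂ) g = 1 := by
        rw [infl_apply, (QuotientGroup.eq_one_iff g).2 hg]; exact H20.Homo.lin_one hAc l
      unfold centralChar
      rw [h1, hl1, sub_self]
      exact locI_zero
    · have h1 : p ∣ (Subgroup.centralizer ({g} : Set G)).index :=
        dvd_index P hPn (fun hc => hg (hC (by rw [hQ]; exact hc)))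
      obtain ⟨m, hm⟩ := h1
      unfold centralChar
      rw [hl1, div_one, div_one, hm, ← mul_sub]
      have h2 : MemLocalRing M ((infl Q l : G → ℂ) g) := isIntegral_mem (H18.CharOrtho.gen_isIntegral (H18.CharOrtho.isGen_of_isIrr (infl Q l).2) g)
      push_cast
      rw [mul_assoc]
      exact locI_mul_right (locI_p hM) (locR_mul (locR_natCast m) (locR_sub locR_one h2))
  have hreg : ∀ q : G ⧸ Q, ¬ p ∣ orderOf q := by
    intro q hq
    have h1 : p ∣ Nat.card (G ⧸ Q) := hq.trans (orderOf_dvd_natCard q)
    have h2 : Nat.card (G ⧸ Q) = (P : Subgroup G).index := by rw [hQ]; rfl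
    rw [h2] at h1
    exact P.not_dvd_index h1
  have hli : LinearIndependent ℂ (fun l : IrrCharacter (G ⧸ Q) => pRegularPart p (infl Q l : G → ℂ)) := by
    have h1 := H18.CharOrtho.linearIndependent_irr (G := G ⧸ Q)
    rw [Fintype.linearIndependent_iff] at h1 ⊢
    intro c hc
    apply h1 c
    funext q
    obtain ⟨x, hx, hxr⟩ := H79.PQuot.exists_reg_lift (p := p) Q (hreg q)
    have h2 := congrFun hc x
    rw [Finset.sum_apply] at h2 ⊢
    rw [Pi.zero_apply] at h2 ⊢
    rw [← h2]
    refine Finset.sum_congr rfl fun l _ => ?_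
    rw [Pi.smul_apply, Pi.smul_apply, pRegularPart_eq, reg_of hxr, infl_apply, hx]
  rw [← finrank_rspn]
  have h3 : Submodule.span ℂ (Set.range (fun l : IrrCharacter (G ⧸ Q) => pRegularPart p (infl Q l : G → ℂ))) ≤
      rspn p (principalBlock M G) := by
    rw [Submodule.span_le]
    rintro _ ⟨l, rfl⟩
    exact Submodule.subset_span ⟨infl Q l, hmem l, rfl⟩
  have h4 := Submodule.finrank_mono h3
  rw [finrank_span_eq_card hli] at h4
  have h5 : Fintype.card (IrrCharacter (G ⧸ Q)) = Q.index := H20.Homo.card_irr hAc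
  rw [h5] at h4
  exact h4

end H79.NormLow
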