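import Mathlib
import Cfsg.Agent.Lib.H78.Contr1

/-! Orthogonality of the contributions of different sections. -/

set_option autoImplicit false
set_option linter.unusedSectionVars false
set_option linter.unusedVariables false
set_option linter.style.haveILetI false
open Cfsg H20.Loc H20.GA H20.Blk H20.Orth H20.Defect H20.Height H78.BlkCount H78.Sect H78.Contr
open scoped ComplexConjugate

namespace H79.SecOrth

universe u

variable {G : Type u} [Group G] [Fintype G] {M : Ideal AlgInt} {p : ℕ}

theorem lift_lift_ne (hp : p.Prime) {u v : G} [Fintype (Subgroup.centralizer ({u} : Set G))]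
    [Fintype (Subgroup.centralizer ({v} : Set G))]
    (hu : ∃ k : ℕ, orderOf u = p ^ k) (hv : ∃ k : ℕ, orderOf v = p ^ k) (huv : ¬ IsConj u v)
    {w : Subgroup.centralizer ({u} : Set G) → ℂ} {w' : Subgroup.centralizer ({v} : Set G) → ℂ}
    (hw : reg p w = w) (hw' : reg p w' = w') :
    classInner (lift u w) (lift v w') = 0 := by
  rw [inner_lift u w (lift_class v _), ← hw, inner_reg_left, lift_other hp v u hv hu huv hw',
    H18.CharOrtho.inner_zero_right]

theorem lift_lift_self (hp : p.Prime) {u : G} [Fintype (Subgroup.centralizer ({u} : Set G))]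
    (hu : ∃ k : ℕ, orderOf u = p ^ k)
    {w w' : Subgroup.centralizer ({u} : Set G) → ℂ}
    (hw : reg p w = w) (hw' : reg p w' = w') (hc' : IsClassFunction _ w') :
    classInner (lift u w) (lift u w') = classInner w w' := by
  rw [inner_lift u w (lift_class u _)]
  conv_lhs => rw [← hw]
  rw [inner_reg_left, lift_self hp u hu hc' hw']

theorem sum_cross [Fintype (IrrCharacter G)] (hM : IsPModular p M) {u v : G}
    [Fintype (Subgroup.centralizer ({u} : Set G))]
    [Fintype (Subgroup.centralizer ({v} : Set G))]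
    (hu : ∃ k : ℕ, orderOf u = p ^ k) (hv : ∃ k : ℕ, orderOf v = p ^ k) (huv : ¬ IsConj u v)
    {b : Set (IrrCharacter (Subgroup.centralizer ({u} : Set G)))} (hb : IsPBlock M b)
    {b' : Set (IrrCharacter (Subgroup.centralizer ({v} : Set G)))} (hb' : IsPBlock M b')
    (χ χ' : IrrCharacter G) :
    ∑ ψ : IrrCharacter G, mm (Subgroup.centralizer ({u} : Set G)) u p b χ ψ *
      conj (mm (Subgroup.centralizer ({v} : Set G)) v p b' χ' ψ) = 0 := by
  have hp := pm_prime hM
  set w := dd (Subgroup.centralizer ({u} : Set G)) u p b (χ : G → ℂ) with hw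
  set w' := dd (Subgroup.centralizer ({v} : Set G)) v p b' (χ' : G → ℂ) with hw'
  have hwm := dd_mem (p := p) (Subgroup.centralizer ({u} : Set G)) u b (χ : G → ℂ)
  have hwm' := dd_mem (p := p) (Subgroup.centralizer ({v} : Set G)) v b' (χ' : G → ℂ)
  have h1 := lift_lift_ne hp hu hv huv (reg_of_mem_rspn hwm) (reg_of_mem_rspn hwm')
  rw [← h1, H18.CharOrtho.parseval (lift_class u _)]
  refine Finset.sum_congr rfl fun ψ _ => ?_
  rw [inner_lift u _ (irr_class ψ), inner_lift v _ (irr_class ψ), mm, mm, inner_dd _ u hM hb hwm,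
    inner_dd _ v hM hb' hwm']
  rfl

/-- contributions of three nontrivial sections do not exhaust the norm -/
theorem sum_lt_one (hM : IsPModular p M) (u : Fin 3 → G)
    [∀ i, Fintype (Subgroup.centralizer ({u i} : Set G))]
    (hu : ∀ i, ∃ k : ℕ, orderOf (u i) = p ^ k) (hne : ∀ i j, i ≠ j → ¬ IsConj (u i) (u j))
    (hu1 : ∀ i, u i ≠ 1)
    (b : ∀ i, Set (IrrCharacter (Subgroup.centralizer ({u i} : Set G)))) (hb : ∀ i, IsPBlock M (b i))
    (χ : IrrCharacter G) :
    ∑ i, (mm (Subgroup.centralizer ({u i} : Set G)) (u i) p (b i) χ χ).re < 1 := by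
  classical
  have hp := pm_prime hM
  have hwm := fun i => dd_mem (p := p) (Subgroup.centralizer ({u i} : Set G)) (u i) (b i) (χ : G → ℂ)
  set w := fun i => dd (Subgroup.centralizer ({u i} : Set G)) (u i) p (b i) (χ : G → ℂ) with hw
  set X : Fin 3 → G → ℂ := fun i => lift (u i) (w i) with hX
  have hXX : ∀ i j, classInner (X i) (X j) = if i = j then
      mm (Subgroup.centralizer ({u i} : Set G)) (u i) p (b i) χ χ else 0 := by
    intro i j
    split_ifs with h
    · subst h
      exact lift_lift_self hp (hu i) (reg_of_mem_rspn (hwm i)) (reg_of_mem_rspn (hwm i))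
        (class_of_mem_rspn (hwm i))
    · exact lift_lift_ne hp (hu i) (hu j) (hne i j h) (reg_of_mem_rspn (hwm i)) (reg_of_mem_rspn (hwm j))
  have hXχ : ∀ i, classInner (X i) (χ : G → ℂ) =
      mm (Subgroup.centralizer ({u i} : Set G)) (u i) p (b i) χ χ := by
    intro i
    simp only [hX]
    rw [inner_lift (u i) _ (irr_class χ), mm, inner_dd _ (u i) hM (hb i) (hwm i)]
    rfl
  have hχX : ∀ i, classInner (χ : G → ℂ) (X i) =
      mm (Subgroup.centralizer ({u i} : Set G)) (u i) p (b i) χ χ := by
    intro i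
    rw [← H18.CharOrtho.inner_conj_symm, hXχ i, mm_conj]
  set Y : G → ℂ := (χ : G → ℂ) - ∑ i, X i with hY
  have hYY : classInner Y Y = 1 - ∑ i, mm (Subgroup.centralizer ({u i} : Set G)) (u i) p (b i) χ χ := by
    rw [hY, H18.CharOrtho.inner_sub_left, H18.CharOrtho.inner_sub_right, H18.CharOrtho.inner_sub_right,
      H18.CharOrtho.inner_irr_self χ.2, H18.CharOrtho.inner_sum_right, H18.CharOrtho.inner_sum_left,
      H18.CharOrtho.inner_sum_left, Finset.sum_congr rfl (fun i _ => hχX i), Finset.sum_congr rfl (fun i _ => hXχ i)]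
    have h1 : ∀ i, classInner (X i) (∑ j, X j) =
        mm (Subgroup.centralizer ({u i} : Set G)) (u i) p (b i) χ χ := by
      intro i
      rw [H18.CharOrtho.inner_sum_right, Finset.sum_congr rfl (fun j _ => hXX i j), Finset.sum_ite_eq,
        if_pos (Finset.mem_univ i)]
    rw [Finset.sum_congr rfl (fun i _ => h1 i)]
    ring
  have hY1 : Y 1 ≠ 0 := by
    have h0 : ∀ i, X i 1 = 0 := by
      intro i
      refine lift_not hp (u i) (hu i) (reg_of_mem_rspn (hwm i)) (g := 1) (z := 1) ?_ ?_
      · refine ⟨1, by simp, Commute.refl 1, ⟨0, by simp⟩, ?_⟩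
        rw [orderOf_one]
        exact fun h => hp.one_lt.ne' (Nat.dvd_one.1 h)
      · intro h
        obtain ⟨c, hc⟩ := isConj_iff.1 h
        apply hu1 i
        rw [← hc]; group
    rw [hY, Pi.sub_apply, Finset.sum_apply, Finset.sum_eq_zero (fun i _ => h0 i), sub_zero]
    exact H18.CharBasic.irr_one_ne_zero χ.2
  have hpos : 0 < (classInner Y Y).re := by
    rw [H18.CharOrtho.inner_self_eq_sum, Complex.ofReal_re]
    have hc : (0 : ℝ) < (Nat.card G : ℝ)⁻¹ := by
      have : (0 : ℝ) < Nat.card G := by exact_mod_cast Nat.card_pos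
      positivity
    apply mul_pos hc
    refine Finset.sum_pos' (fun _ _ => by positivity) ⟨1, Finset.mem_univ _, ?_⟩
    have := norm_pos_iff.2 hY1
    positivity
  rw [hYY, Complex.sub_re, Complex.one_re, Complex.re_sum] at hpos
  linarith

end H79.SecOrth
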