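import Mathlib
import Cfsg.Agent.Lib.H79.SixCfg

/-! Existence of the configuration. -/

set_option autoImplicit false
open Cfsg

namespace H79.SixCfg

universe u

variable {G : Type u} [Group G] [Finite G]

theorem exists_cfg (P : Sylow 2 G) (hcard : Nat.card P = 16) (hel : ∀ x : P, x ^ 2 = 1)
    (he : (Subgroup.centralizer ((P : Subgroup G) : Set G)).relIndex
      (Subgroup.normalizer ((P : Subgroup G) : Set G)) = 9) : ∃ U V : Subgroup G, Cfg P U V := by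
  classical
  have hexp : ∀ x ∈ (P : Subgroup G), x * x = 1 := by
    intro x hx
    have := congrArg Subtype.val (hel ⟨x, hx⟩)
    rw [← sq]; exact this
  have hcomm := comm_of_exp hexp
  letI : CommGroup (P : Subgroup G) :=
    { (inferInstance : Group (P : Subgroup G)) with mul_comm := fun a b => Subtype.ext (hcomm a a.2 b b.2) }
  set A : Subgroup (MulAut (P : Subgroup G)) := (P : Subgroup G).normalizerMonoidHom.range with hA
  have hA9 : Nat.card A = 9 := by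
    rw [hA, ← Subgroup.index_ker, Subgroup.normalizerMonoidHom_ker]
    exact he
  obtain ⟨U, V, hU, hV, hUV, aU, aV, fU, fV, free, trans⟩ := H79.HexAct.main hcard (fun x => by
    have := hel x; rw [sq] at this; exact this) A hA9
  have hmk : ∀ n ∈ Subgroup.normalizer ((P : Subgroup G) : Set G), ∃ φ ∈ A,
      ∀ x : (P : Subgroup G), ((φ x : (P : Subgroup G)) : G) = n * x * n⁻¹ := by
    intro n hn
    exact ⟨(P : Subgroup G).normalizerMonoidHom ⟨n, hn⟩, ⟨⟨n, hn⟩, rfl⟩, fun x => rfl⟩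
  have hmk' : ∀ φ ∈ A, ∃ n ∈ Subgroup.normalizer ((P : Subgroup G) : Set G),
      ∀ x : (P : Subgroup G), ((φ x : (P : Subgroup G)) : G) = n * x * n⁻¹ := by
    rintro _ ⟨n, rfl⟩
    exact ⟨n, n.2, fun x => rfl⟩
  have hmem : ∀ (W : Subgroup (P : Subgroup G)) (x : G), x ∈ W.map (P : Subgroup G).subtype ↔
      ∃ hx : x ∈ (P : Subgroup G), (⟨x, hx⟩ : (P : Subgroup G)) ∈ W := by
    intro W x
    constructor
    · rintro ⟨y, hy, rfl⟩
      exact ⟨y.2, hy⟩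
    · rintro ⟨hx, h⟩
      exact ⟨⟨x, hx⟩, h, rfl⟩
  have hcd : ∀ W : Subgroup (P : Subgroup G), Nat.card (W.map (P : Subgroup G).subtype) = Nat.card W := fun W =>
    Subgroup.card_map_of_injective (P : Subgroup G).subtype_injective
  have hne : ∀ (x : G) (hx : x ∈ (P : Subgroup G)), x ≠ 1 → (⟨x, hx⟩ : (P : Subgroup G)) ≠ 1 :=
    fun x hx h1 h2 => h1 (congrArg Subtype.val h2)
  refine ⟨U.map (P : Subgroup G).subtype, V.map (P : Subgroup G).subtype, hcard, hexp, ?_, ?_, ?_, ?_, ?_, ?_, ?_, ?_, ?_, ?_, ?_⟩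
  · intro x hx; exact ((hmem U x).1 hx).1
  · intro x hx; exact ((hmem V x).1 hx).1
  · rw [hcd, hU]
  · rw [hcd, hV]
  · intro x hx hy
    obtain ⟨h1, h2⟩ := (hmem U x).1 hx
    obtain ⟨_, h3⟩ := (hmem V x).1 hy
    have : (⟨x, h1⟩ : (P : Subgroup G)) ∈ U ⊓ V := ⟨h2, h3⟩
    rw [hUV, Subgroup.mem_bot] at this
    exact congrArg Subtype.val this
  · intro n hn x hx
    obtain ⟨φ, hφ, h⟩ := hmk n hn
    obtain ⟨h1, h2⟩ := (hmem U x).1 hx
    have := h ⟨x, h1⟩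
    exact ⟨φ ⟨x, h1⟩, aU φ hφ _ h2, this⟩
  · intro n hn x hx
    obtain ⟨φ, hφ, h⟩ := hmk n hn
    obtain ⟨h1, h2⟩ := (hmem V x).1 hx
    have := h ⟨x, h1⟩
    exact ⟨φ ⟨x, h1⟩, aV φ hφ _ h2, this⟩
  · intro n hn x hx hx1 hf y hy
    obtain ⟨φ, hφ, h⟩ := hmk n hn
    obtain ⟨h1, h2⟩ := (hmem U x).1 hx
    obtain ⟨h3, h4⟩ := (hmem U y).1 hy
    have h5 := fU φ hφ ⟨x, h1⟩ h2 (hne x h1 hx1) (Subtype.ext (by rw [h]; exact hf)) ⟨y, h3⟩ h4
    have h6 := h ⟨y, h3⟩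
    rw [h5] at h6
    exact h6.symm
  · intro n hn x hx hx1 hf y hy
    obtain ⟨φ, hφ, h⟩ := hmk n hn
    obtain ⟨h1, h2⟩ := (hmem V x).1 hx
    obtain ⟨h3, h4⟩ := (hmem V y).1 hy
    have h5 := fV φ hφ ⟨x, h1⟩ h2 (hne x h1 hx1) (Subtype.ext (by rw [h]; exact hf)) ⟨y, h3⟩ h4
    have h6 := h ⟨y, h3⟩
    rw [h5] at h6
    exact h6.symm
  · intro n hn x hx y hy hx1 hy1 hfx hfy z hz
    obtain ⟨φ, hφ, h⟩ := hmk n hn
    obtain ⟨h1, h2⟩ := (hmem U x).1 hx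
    obtain ⟨h3, h4⟩ := (hmem V y).1 hy
    have h5 := free φ hφ ⟨x, h1⟩ h2 ⟨y, h3⟩ h4 (hne x h1 hx1) (hne y h3 hy1)
      (Subtype.ext (by rw [h]; exact hfx)) (Subtype.ext (by rw [h]; exact hfy))
    have h6 := h ⟨z, hz⟩
    rw [h5] at h6
    exact h6.symm
  · intro x hx y hy x' hx' y' hy' hx1 hy1 hx1' hy1'
    obtain ⟨h1, h2⟩ := (hmem U x).1 hx
    obtain ⟨h3, h4⟩ := (hmem V y).1 hy
    obtain ⟨h5, h6⟩ := (hmem U x').1 hx'
    obtain ⟨h7, h8⟩ := (hmem V y').1 hy'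
    obtain ⟨φ, hφ, e1, e2⟩ := trans ⟨x, h1⟩ h2 ⟨y, h3⟩ h4 ⟨x', h5⟩ h6 ⟨y', h7⟩ h8 (hne x h1 hx1)
      (hne y h3 hy1) (hne x' h5 hx1') (hne y' h7 hy1')
    obtain ⟨n, hn, h⟩ := hmk' φ hφ
    refine ⟨n, hn, ?_, ?_⟩
    · have := h ⟨x, h1⟩
      rw [e1] at this; exact this.symm
    · have := h ⟨y, h3⟩
      rw [e2] at this; exact this.symm

end H79.SixCfg
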