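import Mathlib

/-! Combinatorics of generalized decomposition numbers for an elementary abelian group of order 16
with inertial quotient of order 9. -/

set_option autoImplicit false

namespace H79.SixComb

variable {I : Type*} [Fintype I]

theorem sum_expand (a b : Fin 4 → I → ℤ) (u v : Fin 4 → ℤ) :
    ∑ x, (∑ i, u i * a i x) * (∑ j, v j * b j x) = ∑ i, ∑ j, u i * v j * ∑ x, a i x * b j x := by
  simp_rw [Finset.sum_mul_sum]
  rw [Finset.sum_comm]
  apply Finset.sum_congr rfl
  intro i _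
  rw [Finset.sum_comm]
  apply Finset.sum_congr rfl
  intro j _
  rw [Finset.mul_sum]
  apply Finset.sum_congr rfl
  intro x _
  ring

theorem entry_le (a b : Fin 4 → I → ℤ) (ha : ∀ i j, ∑ x, a i x * a j x = if i = j then 4 else 0)
    (hab : ∀ i j, ∑ x, a i x * b j x = 1) (i : Fin 4) (x : I) : |a i x| ≤ 1 := by
  classical
  by_contra hcon
  push Not at hcon
  have h1 := ha i i
  rw [if_pos rfl, ← Finset.add_sum_erase _ _ (Finset.mem_univ x)] at h1
  have h2 : 4 ≤ a i x * a i x := by
    have h3 : (2 : ℤ) ≤ |a i x| := hcon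
    have h4 := abs_mul_abs_self (a i x)
    nlinarith
  have h3 : 0 ≤ ∑ y ∈ Finset.univ.erase x, a i y * a i y := Finset.sum_nonneg fun y _ => mul_self_nonneg _
  have h4 : ∑ y ∈ Finset.univ.erase x, a i y * a i y = 0 := by linarith
  have h5 := (Finset.sum_eq_zero_iff_of_nonneg (fun y _ => mul_self_nonneg (a i y))).1 h4
  have h6 := hab i 0
  rw [← Finset.add_sum_erase _ _ (Finset.mem_univ x), Finset.sum_eq_zero (by
    intro y hy
    have := mul_self_eq_zero.1 (h5 y hy)
    rw [this, zero_mul]), add_zero] at h6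
  have h7 : a i x ∣ 1 := Dvd.intro _ h6
  have h8 := Int.natAbs_dvd_natAbs.2 h7
  rw [Int.natAbs_one, Nat.dvd_one] at h8
  have h9 : |a i x| = 1 := by rw [Int.abs_eq_natAbs, h8]; rfl
  omega

theorem sq_sub_nonneg (n : ℤ) : 0 ≤ n ^ 2 - n := by
  rcases le_or_gt n 0 with h | h
  · nlinarith
  · nlinarith

theorem sum_parity (a : Fin 4 → I → ℤ) (d : I → ℤ) (hda : ∀ x, ∑ i, a i x = d x) (x : I) :
    ∃ k : ℤ, 0 ≤ k ∧ ∑ i, a i x ^ 2 = d x + 2 * k := by
  have h1 : ∀ i, ∃ k : ℤ, a i x ^ 2 - a i x = 2 * k := by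
    intro i
    obtain ⟨r, hr⟩ := Int.even_mul_pred_self (a i x)
    exact ⟨r, by linear_combination hr⟩
  choose k hk using h1
  refine ⟨∑ i, k i, Finset.sum_nonneg fun i _ => ?_, ?_⟩
  · have := sq_sub_nonneg (a i x)
    rw [hk i] at this
    linarith
  · rw [← hda x, Finset.mul_sum, ← Finset.sum_add_distrib]
    apply Finset.sum_congr rfl
    intro i _
    linear_combination hk i

theorem comb_pos (a b : Fin 4 → I → ℤ) (d : I → ℤ)
    (ha : ∀ i j, ∑ x, a i x * a j x = if i = j then 4 else 0)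
    (hb : ∀ i j, ∑ x, b i x * b j x = if i = j then 4 else 0)
    (hab : ∀ i j, ∑ x, a i x * b j x = 1)
    (hda : ∀ x, ∑ i, a i x = d x) (hdb : ∀ x, ∑ j, b j x = d x) (hd : ∀ x, 0 < d x)
    (hpos : ∀ x, 4 * (∑ i, a i x ^ 2 + ∑ j, b j x ^ 2) < 16 + d x ^ 2) :
    Fintype.card I = 16 ∨ Fintype.card I = 8 := by
  classical
  have hba : ∀ i j, ∑ x, b i x * a j x = 1 := by
    intro i j
    rw [← hab j i]
    exact Finset.sum_congr rfl fun x _ => mul_comm _ _
  have hea := entry_le a b ha hab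
  have heb := entry_le b a hb hba
  have hqa : ∀ x, ∑ i, a i x ^ 2 ≤ 4 := by
    intro x
    have : ∀ i, a i x ^ 2 ≤ 1 := fun i => by
      rw [← sq_abs]; have := hea i x; have := abs_nonneg (a i x); nlinarith
    calc ∑ i, a i x ^ 2 ≤ ∑ _i : Fin 4, (1 : ℤ) := Finset.sum_le_sum fun i _ => this i
      _ = 4 := by simp
  choose ka hka0 hka using sum_parity a d hda
  choose kb hkb0 hkb using sum_parity b d hdb
  have hd3 : ∀ x, d x = 1 ∧ ka x + kb x ≤ 1 ∨ d x = 2 ∧ ka x + kb x ≤ 0 ∨ d x = 3 ∧ ka x + kb x ≤ 0 := by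
    intro x
    have h1 := hpos x
    have h2 := hqa x
    rw [hka x, hkb x] at h1
    rw [hka x] at h2
    have h3 := hd x
    have h4 := hka0 x
    have h5 := hkb0 x
    have h6 : d x ≤ 4 := by linarith
    have h7 : d x = 1 ∨ d x = 2 ∨ d x = 3 ∨ d x = 4 := by omega
    rcases h7 with h | h | h | h <;> rw [h] at h1 <;> norm_num at h1
    · left; exact ⟨h, by omega⟩
    · right; left; exact ⟨h, by omega⟩
    · right; right; exact ⟨h, by omega⟩
    · omega
  have hsd : ∑ x, d x ^ 2 = 16 := by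
    have h1 := sum_expand a a (fun _ => 1) (fun _ => 1)
    simp only [one_mul, ha] at h1
    rw [← Finset.sum_congr rfl (fun x _ => show (∑ i, a i x) * (∑ j, a j x) = d x ^ 2 by rw [hda x, sq])]
    rw [h1]
    simp
  have hsa : ∑ x, (d x + 2 * ka x) = 16 := by
    rw [← Finset.sum_congr rfl (fun x _ => hka x), Finset.sum_comm]
    have : ∀ i : Fin 4, ∑ x, a i x ^ 2 = 4 := by
      intro i
      have := ha i i
      rw [if_pos rfl] at this
      rw [← this]
      exact Finset.sum_congr rfl fun x _ => sq _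
    simp [this]
  have hsb : ∑ x, (d x + 2 * kb x) = 16 := by
    rw [← Finset.sum_congr rfl (fun x _ => hkb x), Finset.sum_comm]
    have : ∀ i : Fin 4, ∑ x, b i x ^ 2 = 4 := by
      intro i
      have := hb i i
      rw [if_pos rfl] at this
      rw [← this]
      exact Finset.sum_congr rfl fun x _ => sq _
    simp [this]
  set c : ℤ := ((Finset.univ.filter fun x => d x = 2).card : ℤ) with hc
  set e : ℤ := ((Finset.univ.filter fun x => d x = 3).card : ℤ) with he
  have hcs : ∑ x, (if d x = 2 then (1 : ℤ) else 0) = c := by rw [Finset.sum_boole]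
  have hes : ∑ x, (if d x = 3 then (1 : ℤ) else 0) = e := by rw [Finset.sum_boole]
  have hN : ∑ _x : I, (1 : ℤ) = (Fintype.card I : ℤ) := by simp
  have e1 : ∑ x, d x = (Fintype.card I : ℤ) + c + 2 * e := by
    rw [← hN, ← hcs, ← hes, Finset.mul_sum, ← Finset.sum_add_distrib, ← Finset.sum_add_distrib]
    apply Finset.sum_congr rfl
    intro x _
    rcases hd3 x with ⟨h, -⟩ | ⟨h, -⟩ | ⟨h, -⟩ <;> rw [h] <;> norm_num
  have e2 : ∑ x, d x ^ 2 = (Fintype.card I : ℤ) + 3 * c + 8 * e := by
    rw [← hN, ← hcs, ← hes, Finset.mul_sum, Finset.mul_sum, ← Finset.sum_add_distrib,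
      ← Finset.sum_add_distrib]
    apply Finset.sum_congr rfl
    intro x _
    rcases hd3 x with ⟨h, -⟩ | ⟨h, -⟩ | ⟨h, -⟩ <;> rw [h] <;> norm_num
  rw [Finset.sum_add_distrib, ← Finset.mul_sum, e1] at hsa hsb
  rw [hsd] at e2
  have e3 : ∑ x, (ka x + kb x) ≤ (Fintype.card I : ℤ) - c - e := by
    rw [← hN, ← hcs, ← hes, ← Finset.sum_sub_distrib, ← Finset.sum_sub_distrib]
    apply Finset.sum_le_sum
    intro x _
    rcases hd3 x with ⟨h, h'⟩ | ⟨h, h'⟩ | ⟨h, h'⟩ <;> rw [h] <;> norm_num <;> linarith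
  rw [Finset.sum_add_distrib] at e3
  have hc0 : 0 ≤ c := by rw [hc]; positivity
  have he0 : 0 ≤ e := by rw [he]; positivity
  have hmain : c = 0 ∨ (e = 0 ∧ (c = 1 ∨ c = 2)) := by omega
  rcases hmain with h0 | ⟨he', hc12⟩
  · have : (Fintype.card I : ℤ) = 16 ∨ (Fintype.card I : ℤ) = 8 := by omega
    exact_mod_cast this
  exfalso
  -- parity
  have hne3 : ∀ x, d x ≠ 3 := by
    intro x hx
    have h1 : (Finset.univ.filter fun x => d x = 3) = ∅ := by
      rw [← Finset.card_eq_zero]; rw [he] at he'; exact_mod_cast he'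
    have h2 : x ∈ Finset.univ.filter fun x => d x = 3 := by simp [hx]
    rw [h1] at h2
    exact absurd h2 (Finset.notMem_empty x)
  have par : ∀ (f : Fin 4 → I → ℤ), (∀ i j, ∑ x, f i x * f j x = if i = j then 4 else 0) →
      (∀ x, ∑ i, f i x = d x) → ∀ i, (2 : ℤ) ∣ ∑ x, (if d x = 2 then f i x else 0) := by
    intro f hf hdf i
    have h1 : ∑ x, f i x * d x = 4 := by
      have : ∀ x, f i x * d x = ∑ j, f i x * f j x := by
        intro x; rw [← Finset.mul_sum, hdf x]
      simp_rw [this]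
      rw [Finset.sum_comm]
      simp [hf]
    have h2 : ∀ x, ∃ k : ℤ, (if d x = 2 then f i x else 0) = f i x * d x - f i x * f i x + 2 * k := by
      intro x
      obtain ⟨r, hr⟩ := Int.even_mul_pred_self (f i x)
      rcases hd3 x with ⟨h, -⟩ | ⟨h, -⟩ | ⟨h, -⟩
      · rw [h]; norm_num
        exact ⟨r, by linear_combination hr⟩
      · rw [h]; norm_num
        exact ⟨r, by linear_combination hr⟩
      · exact absurd h (hne3 x)
    choose k hk using h2
    refine ⟨∑ x, k x, ?_⟩
    rw [Finset.sum_congr rfl (fun x _ => hk x), Finset.sum_add_distrib, Finset.sum_sub_distrib, h1, hf i i,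
      if_pos rfl, ← Finset.mul_sum]
    ring
  have ent : ∀ (f : Fin 4 → I → ℤ), (∀ x, d x = 2 → ∑ i, f i x ^ 2 = 2) →
      (∀ x, ∑ i, f i x = d x) → ∀ x, d x = 2 → ∀ i, f i x = 0 ∨ f i x = 1 := by
    intro f h1 h2 x hx i
    have h3 : ∑ j, (f j x ^ 2 - f j x) = 0 := by
      rw [Finset.sum_sub_distrib, h1 x hx, h2 x, hx]; norm_num
    have h4 := (Finset.sum_eq_zero_iff_of_nonneg (fun j _ => sq_sub_nonneg (f j x))).1 h3 i (Finset.mem_univ i)
    have h5 : f i x * (f i x - 1) = 0 := by linear_combination h4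
    rcases mul_eq_zero.1 h5 with h | h
    · exact Or.inl h
    · exact Or.inr (by linarith)
  have hka2 : ∀ x, d x = 2 → ka x = 0 ∧ kb x = 0 := by
    intro x hx
    have h1 := hka0 x
    have h2 := hkb0 x
    rcases hd3 x with ⟨h, h'⟩ | ⟨h, h'⟩ | ⟨h, h'⟩
    · omega
    · constructor <;> omega
    · omega
  have sa2 : ∀ x, d x = 2 → ∑ i, a i x ^ 2 = 2 := by
    intro x hx; rw [hka x, hx, (hka2 x hx).1]; norm_num
  have sb2 : ∀ x, d x = 2 → ∑ i, b i x ^ 2 = 2 := by
    intro x hx; rw [hkb x, hx, (hka2 x hx).2]; norm_num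
  have ea := ent a sa2 hda
  have eb := ent b sb2 hdb
  have pa := par a ha hda
  have pb := par b hb hdb
  rcases hc12 with h1 | h2
  · have h3 : (Finset.univ.filter fun x => d x = 2).card = 1 := by rw [hc] at h1; exact_mod_cast h1
    obtain ⟨g, hg⟩ := Finset.card_eq_one.1 h3
    have hg2 : d g = 2 := by
      have : g ∈ Finset.univ.filter fun x => d x = 2 := by rw [hg]; simp
      simpa using this
    have h4 : ∀ i, a i g = 0 := by
      intro i
      have h5 := pa i
      rw [← Finset.sum_filter, hg, Finset.sum_singleton] at h5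
      rcases ea g hg2 i with h | h
      · exact h
      · rw [h] at h5; norm_num at h5
    have h5 := hda g
    rw [Finset.sum_eq_zero (fun i _ => h4 i), hg2] at h5
    norm_num at h5
  · have h3 : (Finset.univ.filter fun x => d x = 2).card = 2 := by rw [hc] at h2; exact_mod_cast h2
    obtain ⟨g, g', hgg, hg⟩ := Finset.card_eq_two.1 h3
    have hg2 : d g = 2 := by
      have : g ∈ Finset.univ.filter fun x => d x = 2 := by rw [hg]; simp
      simpa using this
    have hg2' : d g' = 2 := by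
      have : g' ∈ Finset.univ.filter fun x => d x = 2 := by rw [hg]; simp
      simpa using this
    have key : ∀ (f : Fin 4 → I → ℤ), (∀ x, d x = 2 → ∀ i, f i x = 0 ∨ f i x = 1) →
        (∀ i, (2 : ℤ) ∣ ∑ x, (if d x = 2 then f i x else 0)) → (∀ x, d x = 2 → ∑ i, f i x ^ 2 = 2) →
        (∀ i j, ∑ x, f i x * f j x = if i = j then 4 else 0) →
        (∑ i, f i g * f i g = 2 ∧ ∑ i, f i g * f i g' = 2 ∧
          ∀ x, x ≠ g → x ≠ g' → ∑ i, f i g * f i x = 0) := by
      intro f hf hp hs hff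
      have h5 : ∀ i, f i g' = f i g := by
        intro i
        have h6 := hp i
        rw [← Finset.sum_filter, hg, Finset.sum_pair hgg] at h6
        rcases hf g hg2 i with h | h <;> rcases hf g' hg2' i with h' | h' <;> rw [h, h'] at h6 <;>
          rw [h, h'] <;> norm_num at h6
      have h6 : ∑ i, f i g * f i g = 2 := by
        rw [← hs g hg2]; exact Finset.sum_congr rfl fun i _ => (sq _).symm
      have h7 : ∑ i, f i g * f i g' = 2 := by
        rw [← h6]; exact Finset.sum_congr rfl fun i _ => by rw [h5 i]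
      refine ⟨h6, h7, ?_⟩
      have h8 := sum_expand f f (fun i => f i g) (fun i => f i g)
      have h9 : ∑ i, ∑ j, f i g * f j g * ∑ x, f i x * f j x = 8 := by
        have : ∀ i : Fin 4, ∑ j, f i g * f j g * ∑ x, f i x * f j x = 4 * (f i g * f i g) := by
          intro i
          simp only [hff, mul_ite, mul_zero]
          rw [Finset.sum_ite_eq, if_pos (Finset.mem_univ i)]
          ring
        rw [Finset.sum_congr rfl (fun i _ => this i), ← Finset.mul_sum, h6]; norm_num
      rw [h9, ← Finset.add_sum_erase _ _ (Finset.mem_univ g),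
        ← Finset.add_sum_erase _ _ (show g' ∈ Finset.univ.erase g by simp [hgg.symm]), h6, h7] at h8
      have h10 : ∑ x ∈ (Finset.univ.erase g).erase g', (∑ i, f i g * f i x) * (∑ i, f i g * f i x) = 0 := by
        linarith
      have h11 := (Finset.sum_eq_zero_iff_of_nonneg (fun x _ => mul_self_nonneg _)).1 h10
      intro x hx hx'
      exact mul_self_eq_zero.1 (h11 x (by simp [hx, hx']))
    obtain ⟨a1, a2, a3⟩ := key a ea pa sa2 ha
    obtain ⟨b1, b2, b3⟩ := key b eb pb sb2 hb
    have h8 := sum_expand a b (fun i => a i g) (fun i => b i g)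
    have h9 : ∑ i, ∑ j, a i g * b j g * ∑ x, a i x * b j x = 4 := by
      simp only [hab, mul_one]
      rw [← Finset.sum_mul_sum, hda, hdb, hg2]; norm_num
    rw [h9, ← Finset.add_sum_erase _ _ (Finset.mem_univ g),
        ← Finset.add_sum_erase _ _ (show g' ∈ Finset.univ.erase g by simp [hgg.symm]), a1, a2, b1, b2,
        Finset.sum_eq_zero (by
          intro x hx
          simp only [Finset.mem_erase, Finset.mem_univ, and_true] at hx
          rw [a3 x hx.2 hx.1, zero_mul])] at h8
    norm_num at h8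

theorem comb (a b : Fin 4 → I → ℤ) (d : I → ℤ)
    (ha : ∀ i j, ∑ x, a i x * a j x = if i = j then 4 else 0)
    (hb : ∀ i j, ∑ x, b i x * b j x = if i = j then 4 else 0)
    (hab : ∀ i j, ∑ x, a i x * b j x = 1)
    (hda : ∀ x, ∑ i, a i x = d x) (hdb : ∀ x, ∑ j, b j x = d x) (hd : ∀ x, d x ≠ 0)
    (hpos : ∀ x, 4 * (∑ i, a i x ^ 2 + ∑ j, b j x ^ 2) < 16 + d x ^ 2) :
    Fintype.card I = 16 ∨ Fintype.card I = 8 := by
  have hs : ∀ x, SignType.sign (d x) = 1 ∨ SignType.sign (d x) = -1 := by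
    intro x
    rcases lt_trichotomy (d x) 0 with h | h | h
    · right; exact sign_neg h
    · exact absurd h (hd x)
    · left; exact sign_pos h
  set s : I → ℤ := fun x => (SignType.sign (d x) : ℤ) with hsd
  have hs1 : ∀ x, s x * s x = 1 := by
    intro x
    simp only [hsd]
    rcases hs x with h | h <;> rw [h] <;> norm_num
  refine comb_pos (fun i x => s x * a i x) (fun i x => s x * b i x) (fun x => s x * d x) ?_ ?_ ?_ ?_ ?_ ?_ ?_
  · intro i j
    rw [← ha i j]
    exact Finset.sum_congr rfl fun x _ => by linear_combination (a i x * a j x) * hs1 x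
  · intro i j
    rw [← hb i j]
    exact Finset.sum_congr rfl fun x _ => by linear_combination (b i x * b j x) * hs1 x
  · intro i j
    rw [← hab i j]
    exact Finset.sum_congr rfl fun x _ => by linear_combination (a i x * b j x) * hs1 x
  · intro x
    rw [← Finset.mul_sum, hda x]
  · intro x
    rw [← Finset.mul_sum, hdb x]
  · intro x
    show 0 < (SignType.sign (d x) : ℤ) * d x
    rw [sign_mul_self]
    exact abs_pos.2 (hd x)
  · intro x
    have h1 : ∀ f : Fin 4 → I → ℤ, ∑ i, (s x * f i x) ^ 2 = ∑ i, f i x ^ 2 := by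
      intro f
      exact Finset.sum_congr rfl fun i _ => by linear_combination (f i x ^ 2) * hs1 x
    show 4 * (∑ i, (s x * a i x) ^ 2 + ∑ j, (s x * b j x) ^ 2) < 16 + (s x * d x) ^ 2
    rw [h1 a, h1 b]
    have h2 : (s x * d x) ^ 2 = d x ^ 2 := by linear_combination (d x ^ 2) * hs1 x
    rw [h2]
    exact hpos x

end H79.SixComb
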