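import Mathlib
import Cfsg.Agent.Lib.H79.SixComb

/-! From contribution matrices to orthogonal columns. -/

set_option autoImplicit false

namespace H79.SixComb

variable {I : Type*} [Fintype I]

theorem gram_sq (u v : I → Fin 4 → ℤ) :
    ∑ x, ∑ y, (∑ i, u x i * u y i) * (∑ j, v x j * v y j) = ∑ i, ∑ j, (∑ x, u x i * v x j) ^ 2 := by
  have h1 : ∀ x y, (∑ i, u x i * u y i) * (∑ j, v x j * v y j) =
      ∑ i, ∑ j, (u x i * v x j) * (u y i * v y j) := by
    intro x y
    rw [Finset.sum_mul_sum]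
    exact Finset.sum_congr rfl fun i _ => Finset.sum_congr rfl fun j _ => by ring
  simp_rw [h1, sq, Finset.sum_mul_sum]
  rw [Finset.sum_congr rfl (fun x _ => Finset.sum_comm), Finset.sum_comm]
  apply Finset.sum_congr rfl
  intro i _
  rw [Finset.sum_congr rfl (fun x _ => Finset.sum_comm), Finset.sum_comm]

theorem mat (c c' : I → Fin 4 → ℤ) (δ δ' : Fin 4 → ℤ) (d : I → ℤ) (m1 m2 m3 : I → I → ℝ)
    (hδ : ∀ i, δ i * δ i = 1) (hδ' : ∀ i, δ' i * δ' i = 1)
    (h13 : ∀ x y, 4 * (m1 x y + m3 x y) = ((∑ i, c x i * c y i : ℤ) : ℝ))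
    (h23 : ∀ x y, 4 * (m2 x y + m3 x y) = ((∑ i, c' x i * c' y i : ℤ) : ℝ))
    (h3 : ∀ x y, 16 * m3 x y = ((d x * d y : ℤ) : ℝ))
    (o12 : ∑ x, ∑ y, m1 x y * m2 x y = 0) (o13 : ∑ x, ∑ y, m1 x y * m3 x y = 0)
    (o23 : ∑ x, ∑ y, m2 x y * m3 x y = 0)
    (s1 : ∑ x, ∑ y, m1 x y * m1 x y = 3) (s2 : ∑ x, ∑ y, m2 x y * m2 x y = 3)
    (s3 : ∑ x, ∑ y, m3 x y * m3 x y = 1)
    (t1 : ∑ x, m1 x x = 3) (t2 : ∑ x, m2 x x = 3) (t3 : ∑ x, m3 x x = 1)
    (hd : ∀ x, d x ≠ 0) (hdc : ∀ x, ∑ i, δ i * c x i = d x) (hdc' : ∀ x, ∑ i, δ' i * c' x i = d x)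
    (hpos : ∀ x, m1 x x + m2 x x + m3 x x < 1) : Fintype.card I = 16 ∨ Fintype.card I = 8 := by
  classical
  have gen : ∀ (u : I → Fin 4 → ℤ) (m : I → I → ℝ),
      (∀ x y, 4 * (m x y + m3 x y) = ((∑ i, u x i * u y i : ℤ) : ℝ)) →
      (∑ x, ∑ y, m x y * m3 x y = 0) → (∑ x, ∑ y, m x y * m x y = 3) → (∑ x, m x x = 3) →
      ∀ i j, ∑ x, u x i * u x j = if i = j then 4 else 0 := by
    intro u m hu ho hs ht
    have h1 : ((∑ i, ∑ j, (∑ x, u x i * u x j) ^ 2 : ℤ) : ℝ) = 64 := by
      rw [← gram_sq]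
      push_cast
      have : ∀ x y, (∑ i, (u x i : ℝ) * u y i) * (∑ j, (u x j : ℝ) * u y j) =
          16 * (m x y * m x y) + 32 * (m x y * m3 x y) + 16 * (m3 x y * m3 x y) := by
        intro x y
        have h := hu x y
        push_cast at h
        rw [← h]; ring
      simp_rw [this, Finset.sum_add_distrib, ← Finset.mul_sum]
      rw [ho, hs, s3]; norm_num
    have h2 : ((∑ i, ∑ x, u x i * u x i : ℤ) : ℝ) = 16 := by
      rw [Finset.sum_comm]
      push_cast
      have : ∀ x, (∑ i, (u x i : ℝ) * u x i) = 4 * m x x + 4 * m3 x x := by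
        intro x
        have h := hu x x
        push_cast at h
        rw [← h]; ring
      simp_rw [this, Finset.sum_add_distrib, ← Finset.mul_sum]
      rw [ht, t3]; norm_num
    have h1' : ∑ i, ∑ j, (∑ x, u x i * u x j) ^ 2 = 64 := by exact_mod_cast h1
    have h2' : ∑ i, ∑ x, u x i * u x i = 16 := by exact_mod_cast h2
    have h3 : ∑ i : Fin 4, ∑ j : Fin 4, ((∑ x, u x i * u x j) - if i = j then 4 else 0) ^ 2 = 0 := by
      have h4 : ∀ i j : Fin 4, ((∑ x, u x i * u x j) - if i = j then 4 else 0) ^ 2 =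
          (∑ x, u x i * u x j) ^ 2 - (if i = j then 8 * (∑ x, u x i * u x j) - 16 else 0) := by
        intro i j
        split_ifs
        · ring
        · ring
      simp_rw [h4, Finset.sum_sub_distrib]
      rw [h1']
      have h5 : ∀ i : Fin 4, ∑ j : Fin 4, (if i = j then 8 * (∑ x, u x i * u x j) - 16 else 0) =
          8 * (∑ x, u x i * u x i) - 16 := by
        intro i
        rw [Finset.sum_ite_eq, if_pos (Finset.mem_univ i)]
      simp_rw [h5, Finset.sum_sub_distrib, ← Finset.mul_sum]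
      rw [h2']
      simp
    intro i j
    have h4 := (Finset.sum_eq_zero_iff_of_nonneg (fun i _ => Finset.sum_nonneg fun j _ => sq_nonneg _)).1 h3 i
      (Finset.mem_univ i)
    have h5 := (Finset.sum_eq_zero_iff_of_nonneg (fun j _ => sq_nonneg _)).1 h4 j (Finset.mem_univ j)
    have h6 := pow_eq_zero_iff (two_ne_zero) |>.1 h5
    linarith
  have X1 := gen c m1 h13 o13 s1 t1
  have X2 := gen c' m2 h23 o23 s2 t2
  have Y : ∀ i j, ∑ x, c x i * c' x j = δ i * δ' j := by
    have h1 : ((∑ i, ∑ j, (∑ x, c x i * c' x j) ^ 2 : ℤ) : ℝ) = 16 := by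
      rw [← gram_sq]
      push_cast
      have : ∀ x y, (∑ i, (c x i : ℝ) * c y i) * (∑ j, (c' x j : ℝ) * c' y j) =
          16 * (m1 x y * m2 x y) + 16 * (m1 x y * m3 x y) + 16 * (m2 x y * m3 x y) +
            16 * (m3 x y * m3 x y) := by
        intro x y
        have h := h13 x y
        have h' := h23 x y
        push_cast at h h'
        rw [← h, ← h']; ring
      simp_rw [this, Finset.sum_add_distrib, ← Finset.mul_sum]
      rw [o12, o13, o23, s3]; norm_num
    have h1' : ∑ i, ∑ j, (∑ x, c x i * c' x j) ^ 2 = 16 := by exact_mod_cast h1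
    have h2 : ∑ i, ∑ j, δ i * δ' j * ∑ x, c x i * c' x j = ∑ x, d x * d x := by
      have h := sum_expand (fun i x => c x i) (fun i x => c' x i) δ δ'
      rw [← h]
      exact Finset.sum_congr rfl fun x _ => by rw [hdc x, hdc' x]
    have h3' : ∑ x, d x * d x = 16 := by
      have : ((∑ x, d x * d x : ℤ) : ℝ) = 16 := by
        push_cast
        have : ∀ x, (d x : ℝ) * d x = 16 * m3 x x := by
          intro x
          have h := h3 x x
          push_cast at h
          rw [← h]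
        simp_rw [this, ← Finset.mul_sum]
        rw [t3]; norm_num
      exact_mod_cast this
    rw [h3'] at h2
    have h4 : ∑ i : Fin 4, ∑ j : Fin 4, ((∑ x, c x i * c' x j) - δ i * δ' j) ^ 2 = 0 := by
      have h5 : ∀ i j : Fin 4, ((∑ x, c x i * c' x j) - δ i * δ' j) ^ 2 =
          (∑ x, c x i * c' x j) ^ 2 - 2 * (δ i * δ' j * ∑ x, c x i * c' x j) + 1 := by
        intro i j
        linear_combination (δ' j * δ' j) * hδ i + hδ' j
      simp_rw [h5, Finset.sum_add_distrib, Finset.sum_sub_distrib, ← Finset.mul_sum]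
      rw [h1', h2]
      simp
    intro i j
    have h5 := (Finset.sum_eq_zero_iff_of_nonneg (fun i _ => Finset.sum_nonneg fun j _ => sq_nonneg _)).1 h4 i
      (Finset.mem_univ i)
    have h6 := (Finset.sum_eq_zero_iff_of_nonneg (fun j _ => sq_nonneg _)).1 h5 j (Finset.mem_univ j)
    have h7 := pow_eq_zero_iff (two_ne_zero) |>.1 h6
    linarith
  refine comb (fun i x => δ i * c x i) (fun i x => δ' i * c' x i) d ?_ ?_ ?_ hdc hdc' hd ?_
  · intro i j
    have h : ∑ x, δ i * c x i * (δ j * c x j) = δ i * δ j * ∑ x, c x i * c x j := by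
      rw [Finset.mul_sum]; exact Finset.sum_congr rfl fun x _ => by ring
    rw [h, X1 i j]
    by_cases hij : i = j
    · subst hij; simp [hδ i]
    · simp [hij]
  · intro i j
    have h : ∑ x, δ' i * c' x i * (δ' j * c' x j) = δ' i * δ' j * ∑ x, c' x i * c' x j := by
      rw [Finset.mul_sum]; exact Finset.sum_congr rfl fun x _ => by ring
    rw [h, X2 i j]
    by_cases hij : i = j
    · subst hij; simp [hδ' i]
    · simp [hij]
  · intro i j
    have h : ∑ x, δ i * c x i * (δ' j * c' x j) = δ i * δ' j * ∑ x, c x i * c' x j := by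
      rw [Finset.mul_sum]; exact Finset.sum_congr rfl fun x _ => by ring
    rw [h, Y i j]
    linear_combination (δ' j * δ' j) * hδ i + hδ' j
  · intro x
    have e1 : ∑ i, (δ i * c x i) ^ 2 = ∑ i, c x i * c x i :=
      Finset.sum_congr rfl fun i _ => by linear_combination (c x i * c x i) * hδ i
    have e2 : ∑ i, (δ' i * c' x i) ^ 2 = ∑ i, c' x i * c' x i :=
      Finset.sum_congr rfl fun i _ => by linear_combination (c' x i * c' x i) * hδ' i
    show 4 * (∑ i, (δ i * c x i) ^ 2 + ∑ i, (δ' i * c' x i) ^ 2) < 16 + d x ^ 2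
    rw [e1, e2]
    have h := hpos x
    have h1 := h13 x x
    have h2 := h23 x x
    have h4 := h3 x x
    have h5 : (4 : ℝ) * ((∑ i, c x i * c x i : ℤ) + (∑ i, c' x i * c' x i : ℤ)) < 16 + ((d x : ℝ)) ^ 2 := by
      rw [← h1, ← h2]
      push_cast at h4
      nlinarith
    exact_mod_cast h5

end H79.SixComb
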