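import Mathlib
import Cfsg.Agent.Lib.H79.AbEight
import Cfsg.Agent.S4644
import Cfsg.Agent.Lib.H80.BR4

/-! Watanabe's theorem for principal blocks. -/

set_option autoImplicit false
set_option linter.unusedSectionVars false
set_option linter.unusedVariables false
set_option linter.style.haveILetI false

open Cfsg H20.Loc H80.GA H80.GB H80.GC H80.GD H80.GE H80.GH H80.BR1 H80.BR2 H84.Wat H80.GI H80.BR4

namespace H79.PrincWat

universe u

variable {M : Ideal AlgInt} {G : Type u} [Group G] [Finite G] {p : ℕ}

/-- the number of Brauer characters of the principal block of `H` and of `C_H(u)` agree if `u` in the abelian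
Sylow subgroup `S` of `H` is fixed by `N_H(S)` -/
theorem rank_eq (hM : IsPModular p M) {H S : Subgroup G} (hSH : S ≤ H) (hS : IsPGroup p S)
    (hmaxS : ∀ T : Subgroup G, T ≤ H → IsPGroup p T → S ≤ T → T = S)
    (hab : ∀ x ∈ S, ∀ y ∈ S, x * y = y * x) {u : G} (hu : u ∈ S)
    (hfix : ∀ t ∈ H, t ∈ Subgroup.normalizer (S : Set G) → t * u * t⁻¹ = u) :
    blockRank p (principalBlock M H) =
      blockRank p (principalBlock M (CH H (Subgroup.zpowers u) : Subgroup G)) := by
  haveI : Fact p.Prime := ⟨hM.1⟩
  have : M.IsMaximal := hM.2.1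
  have : CharP (ResF M) p := charP_resF hM
  let _ : Algebra (ZMod p) (ResF M) := ZMod.algebra (ResF M) p
  have : Algebra.IsAlgebraic (ZMod p) (ResF M) := isAlgebraic_resF hM
  have : IsAlgClosed (ResF M) := isAlgClosed_resF
  set b := bl M H (principalBlock M H) with hb
  set e := bl M (CH H S) (principalBlock M (CH H S : Subgroup G)) with he
  have hbp : IsPrinc H b := princ_bl H
  have hep : IsPrinc (CH H S) e := princ_bl _
  have hpo : PairOf p H b S e := princ_pairOf hbp hS hSH hep
  have hmax : IsMax p H b S e := by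
    rw [isMax_iff_isDef hpo, princ_isDef hbp]
    exact ⟨hSH, hS, fun T hT hTp hle => hmaxS T hT hTp hle⟩
  have hfix' : ∀ t ∈ ST H S e, t * u * t⁻¹ = u := fun t ht => hfix t ht.1 ht.2.1
  obtain ⟨h1, -⟩ := wat hM _ rfl hmax hab hu hfix'
  have hbk : bk p (CH H (Subgroup.zpowers u)) S e =
      bl M (CH H (Subgroup.zpowers u)) (principalBlock M (CH H (Subgroup.zpowers u) : Subgroup G)) := by
    apply bk_eq
    have hSC : S ≤ CH H (Subgroup.zpowers u) := by
      intro x hx
      rw [mem_CH_iff]
      exact ⟨hab x hx u hu, hSH hx⟩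
    refine princ_pairOf (princ_bl _) hS hSC ?_
    have hCC : CH (CH H (Subgroup.zpowers u)) S = CH H S := by
      apply CH_CH
      rw [Subgroup.zpowers_le]; exact hu
    rw [hCC]
    exact hep
  rw [hbk, rk_bl (isPBlock_principal M _), rk_bl (isPBlock_principal M _)] at h1
  exact h1

end H79.PrincWat
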