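import Mathlib
import Cfsg.Agent.Lib.H79.SixCfg
import Cfsg.Agent.Lib.H79.PrincWat
import Cfsg.Agent.Lib.H78.Klein
import Cfsg.Agent.S4571

/-! The principal 2-block of the centralizer of an involution has three Brauer characters. -/

set_option autoImplicit false
set_option linter.unusedSectionVars false
set_option linter.unusedVariables false
set_option linter.style.haveILetI false
open Cfsg H20.Col H80.GB H84.Wat

namespace H79.SixCfg

universe u

variable {G : Type u} [Group G] [Finite G] {M : Ideal AlgInt}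

theorem four_mem {U : Subgroup G} (hU : Nat.card U = 4) (hexp : ∀ x ∈ U, x * x = 1) {a a' : G} (ha : a ∈ U)
    (ha' : a' ∈ U) (ha1 : a ≠ 1) (ha1' : a' ≠ 1) (haa : a' ≠ a) :
    ∀ x ∈ U, x = 1 ∨ x = a ∨ x = a' ∨ x = a * a' := by
  classical
  have hcard : ({1, a, a', a * a'} : Finset G).card = 4 := by
    rw [Finset.card_insert_of_notMem, Finset.card_insert_of_notMem, Finset.card_insert_of_notMem,
      Finset.card_singleton]
    · rw [Finset.mem_singleton]
      intro h
      exact ha1 (mul_eq_right.1 h.symm)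
    · rw [Finset.mem_insert, Finset.mem_singleton, not_or]
      exact ⟨fun h => haa h.symm, fun h => ha1' (mul_eq_left.1 h.symm)⟩
    · rw [Finset.mem_insert, Finset.mem_insert, Finset.mem_singleton, not_or, not_or]
      refine ⟨fun h => ha1 h.symm, fun h => ha1' h.symm, fun h => ?_⟩
      apply haa
      have h1 : a * (a * a') = a * 1 := by rw [← h]
      rw [← mul_assoc, hexp a ha, one_mul, mul_one] at h1
      exact h1
  have hsub : ((({1, a, a', a * a'} : Finset G) : Set G)) ⊆ (U : Set G) := by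
    intro y hy
    simp only [Finset.coe_insert, Finset.coe_singleton, Set.mem_insert_iff, Set.mem_singleton_iff] at hy
    rcases hy with rfl | rfl | rfl | rfl
    · exact U.one_mem
    · exact ha
    · exact ha'
    · exact U.mul_mem ha ha'
  have heq : ((({1, a, a', a * a'} : Finset G) : Set G)) = (U : Set G) := by
    apply Set.eq_of_subset_of_ncard_le hsub
    rw [Set.ncard_coe_finset, hcard]
    exact hU.le
  intro y hy
  have : y ∈ ((({1, a, a', a * a'} : Finset G) : Set G)) := by rw [heq]; exact hy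
  simpa using this

theorem exists_other {U : Subgroup G} (hU : Nat.card U = 4) (a : G) : ∃ a' ∈ U, a' ≠ 1 ∧ a' ≠ a := by
  classical
  by_contra hcon
  push Not at hcon
  have h5 : Nat.card U ≤ 2 := by
    have h6 : (U : Set G) ⊆ {1, a} := by
      intro w hw
      by_cases hw1 : w = 1
      · left; exact hw1
      · right; exact hcon w hw hw1
    calc Nat.card U = (U : Set G).ncard := rfl
      _ ≤ ({1, a} : Set G).ncard := Set.ncard_le_ncard h6
      _ ≤ 2 := Set.ncard_insert_le 1 {a} |>.trans (by rw [Set.ncard_singleton])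
  omega

theorem Cfg.rank_three (hM : IsPModular 2 M) {P : Sylow 2 G} {U V : Subgroup G} (h : Cfg P U V) {a : G}
    (ha : a ∈ U) (ha1 : a ≠ 1) : blockRank 2 (principalBlock M (Cen a)) = 3 := by
  classical
  haveI : Fact (Nat.Prime 2) := ⟨Nat.prime_two⟩
  obtain ⟨a', ha', ha1', haa⟩ := exists_other h.cU a
  have hPC := h.le_cen (h.hUP ha)
  have hfix : ∀ t ∈ Cen a, t ∈ Subgroup.normalizer ((P : Subgroup G) : Set G) → ∀ y ∈ U, t * y * t⁻¹ = y := by
    intro t ht htN y hy
    have h1 : t * a * t⁻¹ = a := by rw [Subgroup.mem_centralizer_singleton_iff.1 ht]; group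
    exact h.fU t htN a ha ha1 h1 y hy
  rw [H79.PrincWat.rank_eq hM hPC P.2 (fun T _ hT hle => P.3 hT hle) h.comm (h.hUP ha')
    (fun t ht htN => hfix t ht htN a' ha')]
  set L : Subgroup G := CH (Cen a) (Subgroup.zpowers a') with hL
  have hLmem : ∀ x : G, x ∈ L ↔ x * a' = a' * x ∧ x ∈ Cen a := fun x => mem_CH_iff
  have hPL : (P : Subgroup G) ≤ L := fun x hx => (hLmem x).2 ⟨h.comm x hx a' (h.hUP ha'), hPC hx⟩
  have hUL : U ≤ L := h.hUP.trans hPL
  have hUc : ∀ x ∈ L, ∀ y ∈ U, x * y = y * x := by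
    intro x hx y hy
    obtain ⟨h1, h2⟩ := (hLmem x).1 hx
    have h3 : x * a = a * x := Subgroup.mem_centralizer_singleton_iff.1 h2
    rcases four_mem h.cU (fun z hz => h.hexp z (h.hUP hz)) ha ha' ha1 ha1' haa y hy with rfl | rfl | rfl | rfl
    · simp
    · exact h3
    · exact h1
    · rw [← mul_assoc, h3, mul_assoc, h1, mul_assoc]
  set Q : Subgroup L := U.subgroupOf L with hQ
  have hQmem : ∀ x : L, x ∈ Q ↔ (x : G) ∈ U := fun x => Iff.rfl
  have hQcen : ∀ x y : L, y ∈ Q → x * y = y * x := fun x y hy => Subtype.ext (hUc x x.2 y hy)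
  haveI hQn : Q.Normal := by
    refine ⟨fun y hy x => ?_⟩
    rw [hQcen x y hy, mul_inv_cancel_right]
    exact hy
  have hQc : Nat.card Q = 4 := by
    rw [← h.cU]
    exact Nat.card_congr (Subgroup.subgroupOfEquivOfLe hUL).toEquiv
  have hQp : IsPGroup 2 Q := IsPGroup.of_card (n := 2) (by rw [hQc]; norm_num)
  have hsup : Q ⊔ Subgroup.centralizer (Q : Set L) = ⊤ := by
    rw [eq_top_iff]
    refine le_trans ?_ le_sup_right
    intro x _
    rw [Subgroup.mem_centralizer_iff]
    intro y hy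
    exact (hQcen x y hy).symm
  rw [Cfsg.Agent.S4571.result (G := L) 2 M hM Q hQp hsup]
  set SL : Sylow 2 L := P.subtype hPL with hSL
  have hSLc : Nat.card (SL : Subgroup L) = 16 := by
    rw [← h.hP]
    exact Nat.card_congr (Subgroup.subgroupOfEquivOfLe hPL).toEquiv
  have hSLmem : ∀ x : L, x ∈ (SL : Subgroup L) ↔ (x : G) ∈ (P : Subgroup G) := fun x => Iff.rfl
  set PQ : Sylow 2 (L ⧸ Q) := SL.mapSurjective (QuotientGroup.mk'_surjective Q) with hPQ
  have hPQe : (PQ : Subgroup (L ⧸ Q)) = (SL : Subgroup L).map (QuotientGroup.mk' Q) := rfl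
  have hPQc : Nat.card (PQ : Subgroup (L ⧸ Q)) = 4 := by
    rw [hPQe, ← Subgroup.relIndex_ker, QuotientGroup.ker_mk']
    have h2 := Subgroup.relIndex_mul_relIndex ⊥ Q (SL : Subgroup L) bot_le (fun x hx => h.hUP hx)
    rw [Subgroup.relIndex_bot_left, Subgroup.relIndex_bot_left, hQc, hSLc] at h2
    omega
  have hPQmem : ∀ y ∈ (PQ : Subgroup (L ⧸ Q)), ∃ v : L, (v : G) ∈ V ∧ (QuotientGroup.mk v : L ⧸ Q) = y := by
    intro y hy
    rw [hPQe] at hy
    obtain ⟨x, hx, rfl⟩ := hy
    obtain ⟨u, hu, v, hv, huv⟩ := h.decomp ((hSLmem x).1 hx)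
    refine ⟨⟨v, hPL (h.hVP hv)⟩, hv, ?_⟩
    show (QuotientGroup.mk (⟨v, hPL (h.hVP hv)⟩ : L) : L ⧸ Q) = QuotientGroup.mk x
    rw [QuotientGroup.eq, hQmem]
    show v⁻¹ * (x : G) ∈ U
    rw [huv, h.comm u (h.hUP hu) v (h.hVP hv), inv_mul_cancel_left]
    exact hu
  refine H78.Klein.main hM PQ hPQc ?_ ?_
  · intro y
    obtain ⟨v, hv, hvy⟩ := hPQmem y y.2
    apply Subtype.ext
    show (y : L ⧸ Q) * y = 1
    rw [← hvy, ← QuotientGroup.mk_mul]
    have : v * v = 1 := Subtype.ext (h.hexp v (h.hVP hv))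
    rw [this]; rfl
  · have key : ∀ s : L ⧸ Q, orderOf s = 2 → ∃ v : L, (v : G) ∈ V ∧ (v : G) ≠ 1 ∧
        IsConj s (QuotientGroup.mk v : L ⧸ Q) := by
      intro s hs
      obtain ⟨g, hg⟩ := H20.Klein.exists_conj_mem_of_pelt PQ (x := s) ⟨1, by rw [hs, pow_one]⟩
      obtain ⟨v, hv, hvy⟩ := hPQmem _ hg
      refine ⟨v, hv, ?_, ?_⟩
      · intro hv1
        have h1 : v = 1 := Subtype.ext hv1
        rw [h1] at hvy
        have h2 : s = 1 := by
          have h3 : g * s * g⁻¹ = 1 := hvy.symm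
          have : s = g⁻¹ * (g * s * g⁻¹) * g := by group
          rw [this, h3]; group
        rw [h2, orderOf_one] at hs
        norm_num at hs
      · rw [hvy]
        exact isConj_iff.2 ⟨g, rfl⟩
    intro s t hs ht
    obtain ⟨v, hv, hv1, hsv⟩ := key s hs
    obtain ⟨v', hv', hv1', htv⟩ := key t ht
    obtain ⟨n, hn, hn1, hn2⟩ := h.trans a ha v hv a ha v' hv' ha1 hv1 ha1 hv1'
    have hnC : n ∈ Cen a := by
      rw [Subgroup.mem_centralizer_singleton_iff]
      calc n * a = (n * a * n⁻¹) * n := by group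
        _ = a * n := by rw [hn1]
    have hnL : n ∈ L := by
      rw [hLmem]
      refine ⟨?_, hnC⟩
      have := hfix n hnC hn a' ha'
      calc n * a' = (n * a' * n⁻¹) * n := by group
        _ = a' * n := by rw [this]
    have hvv : IsConj (QuotientGroup.mk v : L ⧸ Q) (QuotientGroup.mk v' : L ⧸ Q) := by
      rw [isConj_iff]
      refine ⟨QuotientGroup.mk ⟨n, hnL⟩, ?_⟩
      rw [← QuotientGroup.mk_inv, ← QuotientGroup.mk_mul, ← QuotientGroup.mk_mul]
      congr 1
      exact Subtype.ext hn2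
    exact (hsv.trans hvv).trans htv.symm

end H79.SixCfg
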