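import Mathlib
import Cfsg.Agent.Lib.H79.SixMat
import Cfsg.Agent.Lib.H79.SixLoc
import Cfsg.Agent.Lib.H79.SecOrth
import Cfsg.Agent.Lib.H79.SixEx
import Cfsg.Agent.Lib.H79.SixRank
import Cfsg.Agent.Lib.H79.KLTwo

/-! Elementary abelian Sylow 2-subgroup of order 16 with `|N(P)/C(P)| = 9`: the principal 2-block. -/

set_option autoImplicit false
set_option linter.unusedSectionVars false
set_option linter.unusedVariables false
set_option linter.style.haveILetI false
open Cfsg H20.Loc H20.GA H20.Blk H20.Orth H78.BlkCount H20.Col H20.Col2 H20.Height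
open scoped ComplexConjugate

namespace H79.SixCfg

universe u

section general
variable {G : Type u} [Group G] [Fintype G] {M : Ideal AlgInt} {p : ℕ}

theorem index_core [hp : Fact p.Prime] (hidx : ∃ k : ℕ, (pPrimeCore p G).index = p ^ k) :
    (pPrimeCore p G).index = p ^ (Nat.card G).factorization p := by
  obtain ⟨k, hk⟩ := hidx
  have h3 := Subgroup.card_mul_index (pPrimeCore p G)
  have h4 : ¬ p ∣ Nat.card (pPrimeCore p G) := not_dvd_card_pPrimeCore
  rw [← h3, hk, Nat.factorization_mul Nat.card_pos.ne' (pow_ne_zero _ hp.out.ne_zero),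
      Nat.factorization_pow, Finsupp.add_apply, Nat.factorization_eq_zero_of_not_dvd h4, zero_add,
      Finsupp.smul_apply, hp.out.factorization_self, smul_eq_mul, mul_one]

/-- contributions of sections of elements with `p`-nilpotent centralizer -/
theorem mm_nilp (hM : IsPModular p M) {x : G} (hx : ∃ k : ℕ, orderOf x = p ^ k) [Fintype (Cen x)]
    (hc : ∃ k : ℕ, (pPrimeCore p (Cen x)).index = p ^ k) {χ ψ : IrrCharacter G}
    (hχ : χ ∈ principalBlock M G) (hψ : ψ ∈ principalBlock M G) :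
    (p ^ (Nat.card (Cen x)).factorization p : ℕ) * H78.Contr.mm (Cen x) x p (principalBlock M (Cen x)) χ ψ =
      (χ : G → ℂ) x * conj ((ψ : G → ℂ) x) := by
  classical
  haveI : Fact p.Prime := ⟨pm_prime hM⟩
  have hdd : ∀ ξ : IrrCharacter G, ξ ∈ principalBlock M G → ∀ y : Cen x, ¬ p ∣ orderOf y →
      H78.Contr.dd (Cen x) x p (principalBlock M (Cen x)) (ξ : G → ℂ) y = (ξ : G → ℂ) x := by
    intro ξ hξ y hy
    rw [H78.Contr.dd, reg_of hy]
    have h1 := proj_principal hM hx ξ hy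
    rw [if_pos hξ, H79.SixLoc.value_const hM hx hc hξ hy] at h1
    exact h1
  have hsum : ∑ y : Cen x, H78.Contr.dd (Cen x) x p (principalBlock M (Cen x)) (χ : G → ℂ) y *
      conj (H78.Contr.dd (Cen x) x p (principalBlock M (Cen x)) (ψ : G → ℂ) y) =
      (Nat.card (pPrimeCore p (Cen x)) : ℂ) * ((χ : G → ℂ) x * conj ((ψ : G → ℂ) x)) := by
    have h1 : ∀ y : Cen x, H78.Contr.dd (Cen x) x p (principalBlock M (Cen x)) (χ : G → ℂ) y *
      conj (H78.Contr.dd (Cen x) x p (principalBlock M (Cen x)) (ψ : G → ℂ) y) =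
      if y ∈ pPrimeCore p (Cen x) then (χ : G → ℂ) x * conj ((ψ : G → ℂ) x) else 0 := by
      intro y
      by_cases hy : p ∣ orderOf y
      · rw [if_neg, H78.Contr.dd, reg_not hy, zero_mul]
        intro hmem
        have h2 : orderOf y ∣ Nat.card (pPrimeCore p (Cen x)) := by
          have := orderOf_dvd_natCard (⟨y, hmem⟩ : pPrimeCore p (Cen x))
          rwa [← Subgroup.orderOf_coe] at this
        exact not_dvd_card_pPrimeCore (hy.trans h2)
      · rw [if_pos (H20.PC.regular_mem_of_index _ hc y hy), hdd χ hχ y hy, hdd ψ hψ y hy]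
    rw [Finset.sum_congr rfl (fun y _ => h1 y), ← Finset.sum_filter, Finset.sum_const, nsmul_eq_mul]
    congr 2
    rw [Nat.card_eq_fintype_card, Fintype.card_subtype]
  have hidx := index_core (G := Cen x) hc
  have hcard := Subgroup.card_mul_index (pPrimeCore p (Cen x))
  rw [hidx] at hcard
  have hN0 : (Nat.card (pPrimeCore p (Cen x)) : ℂ) ≠ 0 := by exact_mod_cast Nat.card_pos.ne'
  have hp0 : ((p ^ (Nat.card (Cen x)).factorization p : ℕ) : ℂ) ≠ 0 := by
    exact_mod_cast pow_ne_zero _ (pm_prime hM).ne_zero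
  rw [H78.Contr.mm, classInner, hsum]
  have h2 : (Nat.card (Cen x) : ℂ) = Nat.card (pPrimeCore p (Cen x)) *
      ((p ^ (Nat.card (Cen x)).factorization p : ℕ) : ℂ) := by
    exact_mod_cast hcard.symm
  rw [h2]
  field_simp

theorem induced_set (hM : IsPModular p M) {x : G} (hx : ∃ k : ℕ, orderOf x = p ^ k) :
    {b : Set (IrrCharacter (Cen x)) | IsInducedBlock M (Cen x) b (principalBlock M G)} =
      {principalBlock M (Cen x)} := by
  ext b
  simp only [Set.mem_ofPred_eq, Set.mem_singleton_iff]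
  constructor
  · intro h
    exact (third_main hM (H19.BrMap2.induced_centralizer hM x hx h.1)).1 h
  · rintro rfl
    exact H79.KLTwo.principal_induced hM hx

end general

section cfg
variable {G : Type u} [Group G] [Finite G] {M : Ideal AlgInt}
variable {P : Sylow 2 G} {U V : Subgroup G}

theorem Cfg.order_pow (h : Cfg P U V) {x : G} (hx : x ∈ (P : Subgroup G)) : ∃ k : ℕ, orderOf x = 2 ^ k := by
  by_cases hx1 : x = 1
  · exact ⟨0, by rw [hx1, orderOf_one, pow_zero]⟩
  · exact ⟨1, by rw [h.order_two hx hx1, pow_one]⟩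

theorem Cfg.mul_ne_one (h : Cfg P U V) {a b : G} (ha : a ∈ U) (hb : b ∈ V) (hb1 : b ≠ 1) : a * b ≠ 1 := by
  intro h0
  apply hb1
  apply h.inf b _ hb
  have : b = a⁻¹ := (inv_eq_of_mul_eq_one_right h0).symm
  rw [this]; exact inv_mem ha

theorem Cfg.count (hM : IsPModular 2 M) (h : Cfg P U V) {a b : G} (ha : a ∈ U) (hb : b ∈ V) (ha1 : a ≠ 1)
    (hb1 : b ≠ 1) : Nat.card (principalBlock M G) = blockRank 2 (principalBlock M G) + 6 +
      blockRank 2 (principalBlock M (Cen (a * b))) := by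
  classical
  letI := Fintype.ofFinite G
  have hab := h.comm a (h.hUP ha) b (h.hVP hb)
  have hB : IsPBlock M (principalBlock M G) := H78.PrincReal.isPBlock_principal
  have hmem : a * b ∈ (P : Subgroup G) := mul_mem (h.hUP ha) (h.hVP hb)
  have hab1 : a * b ≠ 1 := h.mul_ne_one ha hb hb1
  have n1 := h.not_conj ha hb ha1 hb1
  have n2 := h.symm.not_conj hb ha hb1 ha1
  rw [← hab] at n2
  set X : Finset G := {1, a, b, a * b} with hXd
  have hXm : ∀ x, x ∈ X ↔ x = 1 ∨ x = a ∨ x = b ∨ x = a * b := by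
    intro x; rw [hXd]; simp
  have hX : ∀ x ∈ X, ∃ k : ℕ, orderOf x = 2 ^ k := by
    intro x hx
    rcases (hXm x).1 hx with rfl | rfl | rfl | rfl
    · exact h.order_pow (one_mem _)
    · exact h.order_pow (h.hUP ha)
    · exact h.order_pow (h.hVP hb)
    · exact h.order_pow hmem
  have hone : ∀ x : G, x ≠ 1 → ¬ IsConj 1 x := fun x hx hc => hx (isConj_one_left.1 hc.symm)
  have hpair : ∀ x ∈ X, ∀ y ∈ X, IsConj x y → x = y := by
    intro x hx y hy hc
    rcases (hXm x).1 hx with rfl | rfl | rfl | rfl <;> rcases (hXm y).1 hy with rfl | rfl | rfl | rfl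
    all_goals first
      | rfl
      | exact absurd hc (hone _ ha1)
      | exact absurd hc (hone _ hb1)
      | exact absurd hc (hone _ hab1)
      | exact absurd hc.symm (hone _ ha1)
      | exact absurd hc.symm (hone _ hb1)
      | exact absurd hc.symm (hone _ hab1)
      | exact absurd hc n1.1
      | exact absurd hc.symm n1.1
      | exact absurd hc n1.2
      | exact absurd hc.symm n1.2
      | exact absurd hc n2.2
      | exact absurd hc.symm n2.2
  have hXrep : ∀ g : G, (∃ k : ℕ, orderOf g = 2 ^ k) → ∃! x, x ∈ X ∧ IsConj g x := by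
    intro g hg
    have hex : ∃ x, x ∈ X ∧ IsConj g x := by
      obtain ⟨c, hc⟩ := H20.Klein.exists_conj_mem_of_pelt P hg
      obtain ⟨u, hu, v, hv, huv⟩ := h.decomp hc
      have hgc : IsConj g (u * v) := isConj_iff.2 ⟨c, huv⟩
      by_cases hu1 : u = 1
      · by_cases hv1 : v = 1
        · refine ⟨1, (hXm _).2 (Or.inl rfl), ?_⟩
          rw [hu1, hv1, one_mul] at hgc; exact hgc
        · refine ⟨b, (hXm _).2 (Or.inr (Or.inr (Or.inl rfl))), ?_⟩
          rw [hu1, one_mul] at hgc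
          obtain ⟨n, -, -, hn⟩ := h.trans a ha v hv a ha b hb ha1 hv1 ha1 hb1
          exact hgc.trans (isConj_iff.2 ⟨n, hn⟩)
      · by_cases hv1 : v = 1
        · refine ⟨a, (hXm _).2 (Or.inr (Or.inl rfl)), ?_⟩
          rw [hv1, mul_one] at hgc
          obtain ⟨n, -, hn, -⟩ := h.trans u hu b hb a ha b hb hu1 hb1 ha1 hb1
          exact hgc.trans (isConj_iff.2 ⟨n, hn⟩)
        · refine ⟨a * b, (hXm _).2 (Or.inr (Or.inr (Or.inr rfl))), ?_⟩
          obtain ⟨n, -, hn, hn'⟩ := h.trans u hu v hv a ha b hb hu1 hv1 ha1 hb1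
          refine hgc.trans (isConj_iff.2 ⟨n, ?_⟩)
          rw [← hn, ← hn']; group
    obtain ⟨x, hx, hgx⟩ := hex
    exact ⟨x, ⟨hx, hgx⟩, fun y hy => hpair y hy.1 x hx (hy.2.symm.trans hgx)⟩
  have hcount := card_block_eq hM (principalBlock M G) hB X hX hXrep
  have e0 := H78.Klein.sum_one hM hB X hX hXrep ((hXm _).2 (Or.inl rfl))
  have e1 : ∀ x : G, (∃ k : ℕ, orderOf x = 2 ^ k) →
      ∑ᶠ b ∈ {b : Set (IrrCharacter (Cen x)) | IsInducedBlock M (Cen x) b (principalBlock M G)},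
        blockRank 2 b = blockRank 2 (principalBlock M (Cen x)) := by
    intro x hx
    rw [induced_set hM hx, finsum_mem_singleton]
  have d1 : (1 : G) ∉ ({a, b, a * b} : Finset G) := by
    simp only [Finset.mem_insert, Finset.mem_singleton, not_or]
    exact ⟨ha1.symm, hb1.symm, hab1.symm⟩
  have d2 : a ∉ ({b, a * b} : Finset G) := by
    simp only [Finset.mem_insert, Finset.mem_singleton, not_or]
    refine ⟨fun h0 => n1.1 (h0 ▸ IsConj.refl _), fun h0 => hb1 (mul_eq_left.1 h0.symm)⟩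
  have d3 : b ∉ ({a * b} : Finset G) := by
    rw [Finset.mem_singleton]
    exact fun h0 => ha1 (mul_eq_right.1 h0.symm)
  rw [hXd, Finset.sum_insert d1, Finset.sum_insert d2, Finset.sum_insert d3, Finset.sum_singleton, e0,
    e1 a (h.order_pow (h.hUP ha)), e1 b (h.order_pow (h.hVP hb)), e1 (a * b) (h.order_pow hmem),
    h.rank_three hM ha ha1, h.symm.rank_three hM hb hb1] at hcount
  omega

theorem Cfg.val_cen (h : Cfg P U V) {x : G} (hx : x ∈ (P : Subgroup G)) :
    (Nat.card (Cen x)).factorization 2 = 4 := by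
  haveI : Fact (Nat.Prime 2) := ⟨Nat.prime_two⟩
  have h1 := h.le_cen hx
  have h2 : (Nat.card (P : Subgroup G)).factorization 2 ≤ (Nat.card (Cen x)).factorization 2 :=
    (Nat.factorization_le_iff_dvd Nat.card_pos.ne' Nat.card_pos.ne').2
      (Subgroup.card_dvd_of_le h1) 2
  have h3 : (Nat.card (Cen x)).factorization 2 ≤ (Nat.card G).factorization 2 :=
    (Nat.factorization_le_iff_dvd Nat.card_pos.ne' Nat.card_pos.ne').2
      (Subgroup.card_subgroup_dvd_card _) 2
  have h4 := P.card_eq_multiplicity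
  have h5 : Nat.card (P : Subgroup G) = 2 ^ 4 := by
    have : Nat.card (P : Subgroup G) = 16 := h.hP
    rw [this]; norm_num
  have h6 : 2 ^ 4 = 2 ^ (Nat.card G).factorization 2 := by rw [← h5, ← h4]
  have h7 := Nat.pow_right_injective (le_refl 2) h6
  rw [h5, Nat.factorization_pow, Finsupp.smul_apply, Nat.prime_two.factorization_self] at h2
  simp only [smul_eq_mul, mul_one] at h2
  omega

/-- sums over the block -/
theorem sum_block [Fintype (IrrCharacter G)] {B : Set (IrrCharacter G)} [Fintype B] (f : IrrCharacter G → ℂ)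
    (h0 : ∀ χ, χ ∉ B → f χ = 0) : ∑ χ : B, f χ = ∑ χ : IrrCharacter G, f χ := by
  classical
  rw [← Finset.sum_filter_add_sum_filter_not Finset.univ (· ∈ B) f]
  have h1 : ∑ χ ∈ Finset.univ.filter (fun χ => ¬ χ ∈ B), f χ = 0 :=
    Finset.sum_eq_zero fun χ hχ => h0 χ (Finset.mem_filter.1 hχ).2
  rw [h1, add_zero, Finset.sum_subtype (Finset.univ.filter (· ∈ B)) (p := (· ∈ B)) (by simp)]

theorem Cfg.sixteen_or_eight (hM : IsPModular 2 M) (h : Cfg P U V) :
    (Nat.card (principalBlock M G) = 16 ∧ blockRank 2 (principalBlock M G) = 9) ∨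
      (Nat.card (principalBlock M G) = 8 ∧ blockRank 2 (principalBlock M G) = 1) := by
  classical
  letI := Fintype.ofFinite G
  letI : ∀ x : G, Fintype (Cen x) := fun x => Fintype.ofFinite _
  letI := Fintype.ofFinite (IrrCharacter G)
  haveI : Fact (Nat.Prime 2) := ⟨Nat.prime_two⟩
  obtain ⟨a, ha, ha1, -⟩ := exists_other h.cU 1
  obtain ⟨b, hb, hb1, -⟩ := exists_other h.cV 1
  have hcomm := h.comm a (h.hUP ha) b (h.hVP hb)
  have hmem : a * b ∈ (P : Subgroup G) := mul_mem (h.hUP ha) (h.hVP hb)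
  have hap := h.order_pow (h.hUP ha)
  have hbp := h.order_pow (h.hVP hb)
  have habp := h.order_pow hmem
  have hnil := h.nilp ha hb ha1 hb1
  have n1 := h.not_conj ha hb ha1 hb1
  have n2 := h.symm.not_conj hb ha hb1 ha1
  rw [← hcomm] at n2
  set B := principalBlock M G with hBd
  letI : Fintype B := Fintype.ofFinite _
  -- abbreviations
  set Ma := H78.Contr.mm (Cen a) a 2 (principalBlock M (Cen a)) with hMa
  set Mb := H78.Contr.mm (Cen b) b 2 (principalBlock M (Cen b)) with hMb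
  set Mc := H78.Contr.mm (Cen (a * b)) (a * b) 2 (principalBlock M (Cen (a * b))) with hMc
  -- local data
  obtain ⟨K, hKn, Q, hK4, hQ, hone, b', hb'⟩ := h.exists_K ha ha1 hb
  have hb'2 : orderOf b' = 2 := by
    rw [← Subgroup.orderOf_coe, ← Subgroup.orderOf_coe, hb']
    exact h.order_two (h.hVP hb) hb1
  obtain ⟨c, δ, hδ, hcd, hcc⟩ := H79.SixLoc.main hM (h.hexp a (h.hUP ha)) hap K hK4 Q hQ hone hb'2
    (by rw [hb']; exact habp) (by rw [hb']; exact hnil)
  obtain ⟨K', hKn', Q', hK4', hQ', hone', a', ha'⟩ := h.symm.exists_K hb hb1 ha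
  have ha'2 : orderOf a' = 2 := by
    rw [← Subgroup.orderOf_coe, ← Subgroup.orderOf_coe, ha']
    exact h.order_two (h.hUP ha) ha1
  obtain ⟨c', δ', hδ', hcd', hcc'⟩ := H79.SixLoc.main hM (h.hexp b (h.hVP hb)) hbp K' hK4' Q' hQ' hone' ha'2
    (by rw [ha', ← hcomm]; exact habp) (by rw [ha', ← hcomm]; exact hnil)
  rw [hb'] at hcd hcc
  rw [ha', ← hcomm] at hcd' hcc'
  -- integers
  set d : B → ℤ := fun χ => ∑ i, δ i * c χ i with hd
  have hdv : ∀ χ : B, ((d χ : ℤ) : ℂ) = (χ : G → ℂ) (a * b) := fun χ => hcd χ χ.2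
  have hdd' : ∀ χ : B, ∑ i, δ' i * c' χ i = d χ := by
    intro χ
    have h1 := hcd' χ χ.2
    rw [← hdv χ] at h1
    exact_mod_cast h1
  have hv4 := h.val_cen hmem
  have hMc1 : ∀ χ ψ : B, Mc χ ψ = ((d χ * d ψ : ℤ) : ℂ) / 16 := by
    intro χ ψ
    have h1 := mm_nilp hM habp hnil χ.2 ψ.2
    rw [hv4, ← hdv χ, ← hdv ψ, map_intCast] at h1
    rw [eq_div_iff (by norm_num)]
    push_cast at h1 ⊢
    linear_combination h1
  have hMa1 : ∀ χ ψ : B, Ma χ ψ = ((∑ i, c χ i * c ψ i : ℤ) : ℂ) / 4 - ((d χ * d ψ : ℤ) : ℂ) / 16 := by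
    intro χ ψ
    have h1 := hcc χ χ.2 ψ ψ.2
    rw [← hdv χ, ← hdv ψ, map_intCast] at h1
    push_cast at h1 ⊢
    linear_combination (1 / 4 : ℂ) * h1
  have hMb1 : ∀ χ ψ : B, Mb χ ψ = ((∑ i, c' χ i * c' ψ i : ℤ) : ℂ) / 4 - ((d χ * d ψ : ℤ) : ℂ) / 16 := by
    intro χ ψ
    have h1 := hcc' χ χ.2 ψ ψ.2
    rw [← hdv χ, ← hdv ψ, map_intCast] at h1
    push_cast at h1 ⊢
    linear_combination (1 / 4 : ℂ) * h1
  -- real versions
  set m3 : B → B → ℝ := fun χ ψ => ((d χ * d ψ : ℤ) : ℝ) / 16 with hm3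
  set m1 : B → B → ℝ := fun χ ψ => ((∑ i, c χ i * c ψ i : ℤ) : ℝ) / 4 - ((d χ * d ψ : ℤ) : ℝ) / 16 with hm1
  set m2 : B → B → ℝ := fun χ ψ => ((∑ i, c' χ i * c' ψ i : ℤ) : ℝ) / 4 - ((d χ * d ψ : ℤ) : ℝ) / 16 with hm2
  have r3 : ∀ χ ψ : B, Mc χ ψ = (m3 χ ψ : ℂ) := by
    intro χ ψ; rw [hMc1, hm3]; push_cast; ring
  have r1 : ∀ χ ψ : B, Ma χ ψ = (m1 χ ψ : ℂ) := by
    intro χ ψ; rw [hMa1, hm1]; push_cast; ring
  have r2 : ∀ χ ψ : B, Mb χ ψ = (m2 χ ψ : ℂ) := by
    intro χ ψ; rw [hMb1, hm2]; push_cast; ring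
  -- vanishing off the block
  have z : ∀ (x : G) (hx : ∃ k : ℕ, orderOf x = 2 ^ k) (χ ψ : IrrCharacter G), ψ ∉ B →
      H78.Contr.mm (Cen x) x 2 (principalBlock M (Cen x)) χ ψ = 0 := by
    intro x hx χ ψ hψ
    rw [← H78.Contr.mm_conj, H78.Contr.mm_eq_zero (Cen x) x hM rfl hx (H79.KLTwo.principal_induced hM hx) hψ,
      map_zero]
  have hP0 : ∀ x : G, IsPBlock M (principalBlock M (Cen x)) := fun x => H78.PrincReal.isPBlock_principal
  -- sums of squares
  have sq1 : ∀ (x : G) (hx : ∃ k : ℕ, orderOf x = 2 ^ k) (m : B → B → ℝ)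
      (hr : ∀ χ ψ : B, H78.Contr.mm (Cen x) x 2 (principalBlock M (Cen x)) χ ψ = (m χ ψ : ℂ)) (χ : B),
      ∑ ψ : B, m χ ψ * m χ ψ = m χ χ := by
    intro x hx m hr χ
    have h1 := H78.Contr.sum_mm_sq (Cen x) x hM rfl hx (hP0 x) (χ : IrrCharacter G)
    rw [← sum_block (B := B) _ (fun ψ hψ => by rw [z x hx χ ψ hψ, zero_mul]), hr χ χ,
      Finset.sum_congr rfl (fun ψ _ => by rw [hr χ ψ, Complex.conj_ofReal])] at h1
    exact_mod_cast h1
  have tr1 : ∀ (x : G) (hx : ∃ k : ℕ, orderOf x = 2 ^ k) (m : B → B → ℝ)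
      (hr : ∀ χ ψ : B, H78.Contr.mm (Cen x) x 2 (principalBlock M (Cen x)) χ ψ = (m χ ψ : ℂ)),
      ∑ χ : B, m χ χ = blockRank 2 (principalBlock M (Cen x)) := by
    intro x hx m hr
    have h1 := H78.Contr.sum_mm (Cen x) x hM rfl hx (hP0 x)
    rw [← sum_block (B := B) _ (fun ψ hψ => z x hx ψ ψ hψ), Finset.sum_congr rfl (fun ψ _ => hr ψ ψ)] at h1
    exact_mod_cast h1
  have or1 : ∀ (x y : G) (hx : ∃ k : ℕ, orderOf x = 2 ^ k) (hy : ∃ k : ℕ, orderOf y = 2 ^ k)
      (hxy : ¬ IsConj x y) (m m' : B → B → ℝ)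
      (hr : ∀ χ ψ : B, H78.Contr.mm (Cen x) x 2 (principalBlock M (Cen x)) χ ψ = (m χ ψ : ℂ))
      (hr' : ∀ χ ψ : B, H78.Contr.mm (Cen y) y 2 (principalBlock M (Cen y)) χ ψ = (m' χ ψ : ℂ)),
      ∑ χ : B, ∑ ψ : B, m χ ψ * m' χ ψ = 0 := by
    intro x y hx hy hxy m m' hr hr'
    apply Finset.sum_eq_zero
    intro χ _
    have h1 := H79.SecOrth.sum_cross hM hx hy hxy (hP0 x) (hP0 y) (χ : IrrCharacter G) (χ : IrrCharacter G)
    rw [← sum_block (B := B) _ (fun ψ hψ => by rw [z x hx χ ψ hψ, zero_mul]),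
      Finset.sum_congr rfl (fun ψ _ => by rw [hr χ ψ, hr' χ ψ, Complex.conj_ofReal])] at h1
    exact_mod_cast h1
  -- rank of the centralizer of `ab`
  have hcol := H20.Klein.column_self hM habp hnil
  rw [hv4] at hcol
  have hsd : ∑ χ : B, (d χ : ℝ) * d χ = 16 := by
    have h1 : ∑ χ : B, ((d χ : ℂ) * d χ) = 16 := by
      have h2 : ∑ χ : B, ((d χ : ℂ) * d χ) = ∑ χ : B, ((χ : IrrCharacter G) : G → ℂ) (a * b) *
          conj (((χ : IrrCharacter G) : G → ℂ) (a * b)) := by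
        apply Finset.sum_congr rfl
        intro χ _
        rw [← hdv χ, map_intCast]
      rw [h2]
      have h3 : ∑ χ : B, (if (χ : IrrCharacter G) ∈ principalBlock M G then
          ((χ : IrrCharacter G) : G → ℂ) (a * b) * conj (((χ : IrrCharacter G) : G → ℂ) (a * b)) else 0) =
          ∑ χ : B, ((χ : IrrCharacter G) : G → ℂ) (a * b) * conj (((χ : IrrCharacter G) : G → ℂ) (a * b)) :=
        Finset.sum_congr rfl fun χ _ => if_pos χ.2
      rw [← h3, sum_block (B := B) (fun χ : IrrCharacter G => if χ ∈ principalBlock M G then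
          (χ : G → ℂ) (a * b) * conj ((χ : G → ℂ) (a * b)) else 0) (fun χ hχ => if_neg hχ)]
      refine Eq.trans ?_ (hcol.trans (by norm_num))
      apply Finset.sum_congr rfl
      intro χ _
      congr
    exact_mod_cast h1
  have hrank : (blockRank 2 (principalBlock M (Cen (a * b))) : ℝ) = 1 := by
    rw [← tr1 (a * b) habp m3 r3]
    have : ∀ χ : B, m3 χ χ = (1 / 16) * ((d χ : ℝ) * d χ) := by
      intro χ; rw [hm3]; push_cast; ring
    rw [Finset.sum_congr rfl (fun χ _ => this χ), ← Finset.mul_sum, hsd]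
    norm_num
  have hrank' : blockRank 2 (principalBlock M (Cen (a * b))) = 1 := by exact_mod_cast hrank
  have hcount := h.count hM ha hb ha1 hb1
  rw [hrank'] at hcount
  -- traces
  have t1 := tr1 a hap m1 r1
  have t2 := tr1 b hbp m2 r2
  have t3 := tr1 (a * b) habp m3 r3
  rw [h.rank_three hM ha ha1] at t1
  rw [h.symm.rank_three hM hb hb1] at t2
  rw [hrank'] at t3
  have s1 : ∑ χ : B, ∑ ψ : B, m1 χ ψ * m1 χ ψ = 3 := by
    rw [Finset.sum_congr rfl (fun χ _ => sq1 a hap m1 r1 χ), t1]; norm_num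
  have s2 : ∑ χ : B, ∑ ψ : B, m2 χ ψ * m2 χ ψ = 3 := by
    rw [Finset.sum_congr rfl (fun χ _ => sq1 b hbp m2 r2 χ), t2]; norm_num
  have s3 : ∑ χ : B, ∑ ψ : B, m3 χ ψ * m3 χ ψ = 1 := by
    rw [Finset.sum_congr rfl (fun χ _ => sq1 (a * b) habp m3 r3 χ), t3]; norm_num
  -- nonvanishing
  have hdne : ∀ χ : B, d χ ≠ 0 := by
    intro χ h0
    haveI := pm_isPrime hM
    have hv0 : (χ : G → ℂ) (a * b) = 0 := by rw [← hdv χ, h0, Int.cast_zero]
    have hsame : SameBlock M ((H20.NPC.one G : IrrCharacter G) : G → ℂ) ((χ : IrrCharacter G) : G → ℂ) := χ.2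
    have h1 := hsame (a * b)
    have e1 : centralChar ((χ : IrrCharacter G) : G → ℂ) (a * b) = 0 := by
      rw [centralChar, hv0, mul_zero, zero_div]
    have e2 : centralChar ((H20.NPC.one G : IrrCharacter G) : G → ℂ) (a * b) =
        (((Cen (a * b)).index : ℤ) : ℂ) := by
      show ((Cen (a * b)).index : ℂ) * 1 / 1 = _
      push_cast; ring
    rw [e1, e2, sub_zero, locI_intCast_iff hM] at h1
    have h2 : 2 ∣ (Cen (a * b)).index := by exact_mod_cast h1
    have h3 : (Cen (a * b)).index ∣ (P : Subgroup G).index := Subgroup.index_dvd_of_le (h.le_cen hmem)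
    exact P.not_dvd_index (h2.trans h3)
  have hpos : ∀ χ : B, m1 χ χ + m2 χ χ + m3 χ χ < 1 := by
    intro χ
    have h1 := H79.SecOrth.sum_lt_one hM ![a, b, a * b] (by
      intro i; fin_cases i
      · exact hap
      · exact hbp
      · exact habp) (by
      intro i j hij
      fin_cases i <;> fin_cases j
      · exact absurd rfl hij
      · exact n1.1
      · exact n1.2
      · exact fun hc => n1.1 hc.symm
      · exact absurd rfl hij
      · exact n2.2
      · exact fun hc => n1.2 hc.symm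
      · exact fun hc => n2.2 hc.symm
      · exact absurd rfl hij) (by
      intro i; fin_cases i
      · exact ha1
      · exact hb1
      · exact h.mul_ne_one ha hb hb1) (fun i => principalBlock M (Cen (![a, b, a * b] i)))
      (fun i => hP0 _) (χ : IrrCharacter G)
    rw [Fin.sum_univ_three] at h1
    have e1 : (Ma χ χ).re = m1 χ χ := by rw [r1]; exact Complex.ofReal_re _
    have e2 : (Mb χ χ).re = m2 χ χ := by rw [r2]; exact Complex.ofReal_re _
    have e3 : (Mc χ χ).re = m3 χ χ := by rw [r3]; exact Complex.ofReal_re _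
    rw [← e1, ← e2, ← e3]
    exact h1
  have hfin := H79.SixComb.mat (I := B) (fun χ => c χ) (fun χ => c' χ) δ δ' d m1 m2 m3 hδ hδ'
    (by intro χ ψ; rw [hm1, hm3]; ring) (by intro χ ψ; rw [hm2, hm3]; ring)
    (by intro χ ψ; rw [hm3]; ring)
    (or1 a b hap hbp n1.1 m1 m2 r1 r2) (or1 a (a * b) hap habp n1.2 m1 m3 r1 r3)
    (or1 b (a * b) hbp habp n2.2 m2 m3 r2 r3) s1 s2 s3 (by rw [t1]; norm_num) (by rw [t2]; norm_num)
    (by rw [t3]; norm_num) hdne (fun χ => rfl) hdd' hpos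
  rw [← Nat.card_eq_fintype_card] at hfin
  have hcount' : Nat.card B = blockRank 2 B + 6 + 1 := hcount
  rcases hfin with h16 | h8
  · left
    exact ⟨h16, by omega⟩
  · right
    exact ⟨h8, by omega⟩

end cfg

end H79.SixCfg
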