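import Mathlib
import Cfsg.Agent.Lib.H79.SixMain

/-! Counting the characters of the principal block with the ranks of the principal blocks of the centralizers. -/

set_option autoImplicit false
set_option linter.unusedSectionVars false
set_option linter.unusedVariables false
set_option linter.style.haveILetI false
open Cfsg H20.Col H78.BlkCount

namespace H79.PCount

universe u

variable {G : Type u} [Group G] [Finite G] {p : ℕ} {M : Ideal AlgInt}

theorem fusion [hp : Fact p.Prime] (P : Sylow p G)
    (hab : ∀ x ∈ (P : Subgroup G), ∀ y ∈ (P : Subgroup G), x * y = y * x) {x y : G}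
    (hx : x ∈ (P : Subgroup G)) (hy : y ∈ (P : Subgroup G)) (h : IsConj x y) :
    ∃ n ∈ Subgroup.normalizer ((P : Subgroup G) : Set G), n * x * n⁻¹ = y := by
  obtain ⟨g, hg⟩ := isConj_iff.1 h
  have hc : IsMulCommutative (P : Subgroup G) := ⟨⟨fun a b => Subtype.ext (hab a a.2 b b.2)⟩⟩
  obtain ⟨n, hn, h1⟩ := Sylow.conj_eq_normalizer_conj_of_mem P x g⁻¹ hx (by rw [inv_inv, hg]; exact hy)
  refine ⟨n⁻¹, inv_mem hn, ?_⟩
  rw [inv_inv] at h1 ⊢
  rw [← hg]
  exact h1.symm

theorem exists_conj_mem [hp : Fact p.Prime] (P : Sylow p G) {x : G} (hx : ∃ k : ℕ, orderOf x = p ^ k) :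
    ∃ g : G, g * x * g⁻¹ ∈ (P : Subgroup G) := by
  obtain ⟨k, hk⟩ := hx
  have h1 : IsPGroup p (Subgroup.zpowers x) := by
    apply IsPGroup.of_card (n := k)
    rw [Nat.card_zpowers, hk]
  obtain ⟨Q, hQ⟩ := h1.exists_le_sylow
  obtain ⟨g, hg⟩ := MulAction.exists_smul_eq G Q P
  refine ⟨g, ?_⟩
  rw [← hg]
  exact ⟨x, hQ (Subgroup.mem_zpowers x), rfl⟩

/-- orbit - stabilizer for the action of the normalizer -/
theorem card_fiber [hp : Fact p.Prime] (P : Sylow p G)
    (hab : ∀ x ∈ (P : Subgroup G), ∀ y ∈ (P : Subgroup G), x * y = y * x) (x : (P : Subgroup G)) :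
    Nat.card {y : (P : Subgroup G) // IsConj (x : G) (y : G)} *
      Nat.card (Subgroup.normalizer ((P : Subgroup G) : Set G) ⊓ Cen (x : G) : Subgroup G) =
      Nat.card (Subgroup.normalizer ((P : Subgroup G) : Set G)) := by
  set N := Subgroup.normalizer ((P : Subgroup G) : Set G) with hN
  letI act : MulAction N (P : Subgroup G) :=
    { smul := fun n y => ⟨(n : G) * y * (n : G)⁻¹, (Subgroup.mem_normalizer_iff.1 n.2 y).1 y.2⟩
      one_smul := fun y => Subtype.ext (by show (1 : G) * y * (1 : G)⁻¹ = y; group)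
      mul_smul := fun a b y => Subtype.ext (by
        show ((a : G) * b) * y * ((a : G) * b)⁻¹ = (a : G) * ((b : G) * y * (b : G)⁻¹) * (a : G)⁻¹
        group) }
  have hsm : ∀ (n : N) (y : (P : Subgroup G)), ((n • y : (P : Subgroup G)) : G) = n * y * (n : G)⁻¹ := fun _ _ => rfl
  have h1 := MulAction.index_stabilizer N x
  have h2 := Subgroup.card_mul_index (MulAction.stabilizer N x)
  have h3 : Nat.card (MulAction.stabilizer N x) = Nat.card (N ⊓ Cen (x : G) : Subgroup G) := by
    refine Nat.card_congr ⟨fun n => ⟨((n : N) : G), (n : N).2, ?_⟩, fun n => ⟨⟨n, n.2.1⟩, ?_⟩, ?_, ?_⟩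
    · have := congrArg Subtype.val (MulAction.mem_stabilizer_iff.1 n.2)
      rw [hsm] at this
      exact Subgroup.mem_centralizer_singleton_iff.2 (mul_inv_eq_iff_eq_mul.1 this)
    · rw [MulAction.mem_stabilizer_iff]
      apply Subtype.ext
      rw [hsm]
      exact mul_inv_eq_iff_eq_mul.2 (Subgroup.mem_centralizer_singleton_iff.1 n.2.2)
    · intro n; rfl
    · intro n; rfl
  have h4 : (MulAction.orbit N x).ncard = Nat.card {y : (P : Subgroup G) // IsConj (x : G) (y : G)} := by
    have h5 : MulAction.orbit N x = {y : (P : Subgroup G) | IsConj (x : G) (y : G)} := by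
      ext y
      rw [MulAction.mem_orbit_iff, Set.mem_ofPred_eq]
      constructor
      · rintro ⟨n, rfl⟩
        exact isConj_iff.2 ⟨n, (hsm n x).symm⟩
      · intro hy
        obtain ⟨n, hn, h6⟩ := fusion P hab x.2 y.2 hy
        exact ⟨⟨n, hn⟩, Subtype.ext h6⟩
    rw [h5]; rfl
  rw [← h3, ← h4, ← h1, mul_comm]
  exact h2

/-- the counting formula -/
theorem count (hM : IsPModular p M) (P : Sylow p G)
    (hab : ∀ x ∈ (P : Subgroup G), ∀ y ∈ (P : Subgroup G), x * y = y * x) [Fintype (P : Subgroup G)]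
    (F : ↥(P : Subgroup G) → ℕ) (h1F : F 1 = blockRank p (principalBlock M G))
    (hF : ∀ x : (P : Subgroup G), x ≠ 1 → blockRank p (principalBlock M (Cen (x : G))) = F x)
    (hFc : ∀ x y : (P : Subgroup G), IsConj (x : G) (y : G) → F x = F y) :
    Nat.card (principalBlock M G) * Nat.card (Subgroup.normalizer ((P : Subgroup G) : Set G)) =
      ∑ x : (P : Subgroup G), F x *
        Nat.card (Subgroup.normalizer ((P : Subgroup G) : Set G) ⊓ Cen (x : G) : Subgroup G) := by
  classical
  haveI : Fact p.Prime := ⟨hM.1⟩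
  letI := Fintype.ofFinite G
  set N := Subgroup.normalizer ((P : Subgroup G) : Set G) with hN
  letI s : Setoid (P : Subgroup G) := ⟨fun x y => IsConj (x : G) (y : G),
    ⟨fun x => IsConj.refl _, fun h => h.symm, fun h h' => h.trans h'⟩⟩
  letI : Fintype (Quotient s) := Fintype.ofFinite _
  let o : Quotient s → G := fun q => ((Quotient.out q : (P : Subgroup G)) : G)
  have ho : Function.Injective o := by
    intro q q' hq
    have h1 : Quotient.out q = Quotient.out q' := Subtype.ext hq
    rw [← Quotient.out_eq q, h1, Quotient.out_eq]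
  set X : Finset G := Finset.univ.image o with hX
  have hpel : ∀ x : (P : Subgroup G), ∃ k : ℕ, orderOf (x : G) = p ^ k := by
    intro x
    obtain ⟨k, hk⟩ := IsPGroup.iff_orderOf.1 P.2 x
    exact ⟨k, by rw [Subgroup.orderOf_coe, hk]⟩
  have hXp : ∀ x ∈ X, ∃ k : ℕ, orderOf x = p ^ k := by
    intro x hx
    rw [hX, Finset.mem_image] at hx
    obtain ⟨q, -, rfl⟩ := hx
    exact hpel _
  have hXrep : ∀ g : G, (∃ k : ℕ, orderOf g = p ^ k) → ∃! x, x ∈ X ∧ IsConj g x := by
    intro g hg
    obtain ⟨c, hc⟩ := exists_conj_mem P hg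
    set y : (P : Subgroup G) := ⟨c * g * c⁻¹, hc⟩ with hy
    have hgy : IsConj g (y : G) := isConj_iff.2 ⟨c, rfl⟩
    have hyo : IsConj (y : G) (o (Quotient.mk s y)) := by
      have h1 : s.r (Quotient.out (Quotient.mk s y)) y := Quotient.mk_out y
      exact IsConj.symm h1
    refine ⟨o (Quotient.mk s y), ⟨?_, hgy.trans hyo⟩, ?_⟩
    · rw [hX]; exact Finset.mem_image_of_mem _ (Finset.mem_univ _)
    · rintro x ⟨hx, hgx⟩
      rw [hX, Finset.mem_image] at hx
      obtain ⟨q, -, rfl⟩ := hx
      have h1 : IsConj (o q) (y : G) := hgx.symm.trans hgy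
      have h2 : Quotient.mk s (Quotient.out q) = Quotient.mk s y := Quotient.sound h1
      rw [Quotient.out_eq] at h2
      rw [h2]
  have hB : IsPBlock M (principalBlock M G) := H78.PrincReal.isPBlock_principal
  have hcount := card_block_eq hM (principalBlock M G) hB X hXp hXrep
  have h1X : (1 : G) ∈ X := by
    obtain ⟨x, ⟨hx, hx1⟩, -⟩ := hXrep 1 ⟨0, by rw [orderOf_one, pow_zero]⟩
    have : x = 1 := isConj_one_left.1 hx1.symm
    rwa [this] at hx
  have e0 := H78.Klein.sum_one hM hB X hXp hXrep h1X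
  have e1 : ∀ x : G, (∃ k : ℕ, orderOf x = p ^ k) →
      ∑ᶠ b ∈ {b : Set (IrrCharacter (Cen x)) | IsInducedBlock M (Cen x) b (principalBlock M G)},
        blockRank p b = blockRank p (principalBlock M (Cen x)) := by
    intro x hx
    rw [H79.SixCfg.induced_set hM hx, finsum_mem_singleton]
  have e2 : ∀ q : Quotient s, ∑ᶠ b ∈ {b : Set (IrrCharacter (Cen (o q))) |
      IsInducedBlock M (Cen (o q)) b (principalBlock M G)}, blockRank p b = F (Quotient.out q) := by
    intro q
    by_cases hq : Quotient.out q = 1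
    · have hoq : o q = 1 := by show ((Quotient.out q : (P : Subgroup G)) : G) = 1; rw [hq]; rfl
      rw [hq, h1F, hoq]
      exact e0
    · rw [e1 (o q) (hpel _)]
      exact hF _ hq
  rw [hX, Finset.sum_image (fun q _ q' _ hqq => ho hqq), Finset.sum_congr rfl (fun q _ => e2 q)] at hcount
  rw [hcount, Finset.sum_mul]
  have hfib : ∑ x : (P : Subgroup G), F x * Nat.card (N ⊓ Cen (x : G) : Subgroup G) =
      ∑ q : Quotient s, ∑ x ∈ Finset.univ.filter (fun x : (P : Subgroup G) => Quotient.mk s x = q),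
        F x * Nat.card (N ⊓ Cen (x : G) : Subgroup G) := by
    rw [Finset.sum_fiberwise]
  rw [hfib]
  refine Finset.sum_congr rfl fun q _ => ?_
  set y : (P : Subgroup G) := Quotient.out q with hy
  have hyq : Quotient.mk s y = q := Quotient.out_eq q
  have hmem : ∀ x : (P : Subgroup G), Quotient.mk s x = q ↔ IsConj (y : G) (x : G) := by
    intro x
    constructor
    · intro h
      have h2 : Quotient.mk s x = Quotient.mk s y := h.trans hyq.symm
      exact IsConj.symm (Quotient.exact h2)
    · intro h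
      rw [← hyq]
      exact Quotient.sound (IsConj.symm h)
  have hcardfib : (Finset.univ.filter (fun x : (P : Subgroup G) => Quotient.mk s x = q)).card =
      Nat.card {x : (P : Subgroup G) // IsConj (y : G) (x : G)} := by
    rw [Nat.card_eq_fintype_card, Fintype.card_subtype]
    congr 1
    ext x
    simp only [Finset.mem_filter, Finset.mem_univ, true_and]
    exact hmem x
  have hc1 := card_fiber P hab y
  have hpos : 0 < Nat.card {x : (P : Subgroup G) // IsConj (y : G) (x : G)} := by
    haveI : Nonempty {x : (P : Subgroup G) // IsConj (y : G) (x : G)} := ⟨⟨y, IsConj.refl _⟩⟩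
    exact Nat.card_pos
  have hterm : ∀ x ∈ Finset.univ.filter (fun x : (P : Subgroup G) => Quotient.mk s x = q),
      F x * Nat.card (N ⊓ Cen (x : G) : Subgroup G) = F y * Nat.card (N ⊓ Cen (y : G) : Subgroup G) := by
    intro x hx
    rw [Finset.mem_filter] at hx
    have hyx := (hmem x).1 hx.2
    rw [← hFc y x hyx]
    congr 1
    have hc2 := card_fiber P hab x
    have hc3 : Nat.card {z : (P : Subgroup G) // IsConj (x : G) (z : G)} =
        Nat.card {z : (P : Subgroup G) // IsConj (y : G) (z : G)} :=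
      Nat.card_congr (Equiv.subtypeEquivRight fun z => ⟨fun h => hyx.trans h, fun h => hyx.symm.trans h⟩)
    rw [hc3] at hc2
    exact Nat.eq_of_mul_eq_mul_left hpos (hc2.trans hc1.symm)
  rw [Finset.sum_congr rfl hterm, Finset.sum_const, smul_eq_mul, hcardfib, ← hc1]
  ring

end H79.PCount
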