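import Cfsg.Agent.Lib.H84.GL6
import Cfsg.Agent.Lib.H79.PrincWat

/-! The principal block for an abelian Sylow subgroup on which the automizer acts freely. -/

set_option autoImplicit false
set_option linter.unusedSectionVars false
set_option linter.unusedVariables false
set_option linter.style.haveILetI false

open Cfsg H20.Loc H80.GA H80.GB H80.GC H80.GD H80.GE H80.GH H80.BR1 H80.BR2 H84.Wat H80.GI H80.BR4
open H84.FL H84.FR

namespace H79.PrincFree

universe u

variable {M : Ideal AlgInt} {G : Type u} [Group G] [Finite G] {p : ℕ}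

theorem main (hM : IsPModular p M) (P : Sylow p G) (hP1 : (P : Subgroup G) ≠ ⊥)
    (hab : ∀ x ∈ (P : Subgroup G), ∀ y ∈ (P : Subgroup G), x * y = y * x)
    (hfree : ∀ g ∈ Subgroup.normalizer ((P : Subgroup G) : Set G), ∀ x ∈ (P : Subgroup G), x ≠ 1 →
      g * x * g⁻¹ = x → g ∈ Subgroup.centralizer ((P : Subgroup G) : Set G)) {e : ℕ}
    (he : (Subgroup.centralizer ((P : Subgroup G) : Set G)).relIndex
      (Subgroup.normalizer ((P : Subgroup G) : Set G)) = e) :
    blockRank p (principalBlock M G) ≤ e ∧
      e * Nat.card (principalBlock M G) + 1 = e * blockRank p (principalBlock M G) +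
        Nat.card (P : Subgroup G) ∧
      (e ≤ 3 → blockRank p (principalBlock M G) = e) := by
  haveI : Fact p.Prime := ⟨hM.1⟩
  have : M.IsMaximal := hM.2.1
  have : CharP (ResF M) p := charP_resF hM
  let _ : Algebra (ZMod p) (ResF M) := ZMod.algebra (ResF M) p
  have : Algebra.IsAlgebraic (ZMod p) (ResF M) := isAlgebraic_resF hM
  have : IsAlgClosed (ResF M) := isAlgClosed_resF
  set S : Subgroup G := (P : Subgroup G) with hS
  have hSp : IsPGroup p S := P.2
  set b := ebar M (principalBlock M G) with hb
  set f := bl M (CH ⊤ S) (principalBlock M (CH ⊤ S : Subgroup G)) with hf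
  have hbp : IsPrinc ⊤ b := princ_ebar
  have hfp : IsPrinc (CH ⊤ S) f := princ_bl _
  have hpo : PairOf p ⊤ b S f := princ_pairOf hbp hSp le_top hfp
  have hmax : IsMax p ⊤ b S f := by
    rw [isMax_iff_isDef hpo, princ_isDef hbp]
    exact ⟨le_top, hSp, fun T _ hTp hle => P.3 hTp hle⟩
  have hB : IsPBlock M (principalBlock M G) := isPBlock_principal M G
  have hST : ST ⊤ S f = Subgroup.normalizer (S : Set G) := by
    ext g
    rw [mem_ST]
    constructor
    · exact fun h => h.2.1
    · intro hg
      refine ⟨Subgroup.mem_top g, hg, ?_⟩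
      have h1 := princ_fx hfp (P := Subgroup.normalizer (S : Set G)) (by
        rw [H80.BR3.CH_top]
        intro n hn
        rw [Subgroup.mem_normalizer_iff]
        have key : ∀ m ∈ Subgroup.normalizer (S : Set G), ∀ c ∈ Subgroup.centralizer (S : Set G),
            m * c * m⁻¹ ∈ Subgroup.centralizer (S : Set G) := by
          intro m hm c hc
          rw [Subgroup.mem_centralizer_iff] at hc ⊢
          intro s hs
          have h2 : m⁻¹ * s * m ∈ S := by
            have := (Subgroup.mem_normalizer_iff.1 (inv_mem hm) s).1 hs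
            rwa [inv_inv] at this
          have h3 := hc _ h2
          calc s * (m * c * m⁻¹) = m * ((m⁻¹ * s * m) * c) * m⁻¹ := by group
            _ = m * (c * (m⁻¹ * s * m)) * m⁻¹ := by rw [h3]
            _ = m * c * m⁻¹ * s := by group
        intro c
        refine ⟨key n hn c, fun hc => ?_⟩
        have := key n⁻¹ (inv_mem hn) _ hc
        have e1 : n⁻¹ * (n * c * n⁻¹) * n⁻¹⁻¹ = c := by group
        rwa [e1] at this)
      exact h1 g hg
  have hCT : Subgroup.centralizer (S : Set G) ≤ ST ⊤ S f := by
    rw [hST]; exact Subgroup.centralizer_le_normalizer _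
  have hfree' : ∀ g ∈ ST ⊤ S f, ∀ x ∈ S, x ≠ 1 → g * x * g⁻¹ = x → g ∈ Subgroup.centralizer (S : Set G) := by
    rw [hST]; exact hfree
  have hcard := card_WT hCT
  rw [hST, he] at hcard
  obtain ⟨n, rep, hrep⟩ := H84.FR.exists_reps (sub_comm hab) (WT S f)
  have hn := hrep.card (sub_comm hab) (WT_free hfree')
  have hk := card_eq hM hmax hB hab hfree' hn
  have hl := H84.GL.rank_le_free hM hmax hB hab hP1 hfree'
  rw [hcard] at hl hn
  refine ⟨hl, ?_, fun h3 => ?_⟩
  · rw [hk, ← hn, mul_add, mul_comm e n]
    ring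
  · have h4 := H84.GL.rank_eq_free hM hmax hB hab hP1 hfree' (by rw [hcard]; exact h3)
    rw [hcard] at h4
    exact h4

end H79.PrincFree
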