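import Mathlib
import Cfsg.Agent.Lib.H79.SEMult
import Cfsg.Agent.Lib.H20.Homo

/-! Linear characters of `H/M` induced to `G`. -/

set_option autoImplicit false
set_option linter.unusedSectionVars false
set_option linter.unusedVariables false
set_option linter.style.haveILetI false
open Cfsg H79.Hecke
open scoped ComplexConjugate

namespace H79.SE.Cfg

universe u

variable {G : Type u} [Group G] [Finite G] {P : Sylow 2 G} {W : Subgroup G} (h : Cfg P W)
include h

theorem one_of_sq {f : HH P W →* ℂˣ} (hM : ∀ x : HH P W, (x : G) ∈ MM P W → f x = 1) (k : HH P W)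
    (h2 : f k = f k⁻¹) : f k = 1 := by
  have h1 : f k * f k = 1 := by
    nth_rw 2 [h2]
    rw [← map_mul, mul_inv_cancel, map_one]
  have h3 : f k ^ ((MM P W).subgroupOf (HH P W)).index = 1 := by
    rw [← map_pow]
    exact hM _ (h.pow_mem k.2)
  obtain ⟨n, hn⟩ := h.odd_index
  rw [hn, pow_succ, pow_mul, sq, h1, one_pow, one_mul] at h3
  exact h3

theorem FF_lam [Fintype G] [Fintype (HH P W)] {f : HH P W →* ℂˣ} (hf : f ≠ 1)
    (hM : ∀ x : HH P W, (x : G) ∈ MM P W → f x = 1) {g : G} (hg : g ∉ HH P W) :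
    FF (HH P W) f f g = 0 := by
  obtain ⟨m, hm, h2⟩ := h.exists_coset hg
  rw [← FF_mul_right (HH P W) f f g ⟨m, h.M_le_H hm⟩]
  show FF (HH P W) f f (g * m) = 0
  have hs : g * m ∉ HH P W := by
    intro hc
    have := mul_mem hc (inv_mem (h.M_le_H hm))
    rw [mul_inv_cancel_right] at this
    exact hg this
  generalize g * m = s at h2 hs ⊢
  obtain ⟨h0, hh0⟩ : ∃ h0, f h0 ≠ 1 := by
    by_contra hcon
    push Not at hcon
    exact hf (MonoidHom.ext hcon)
  obtain ⟨x, hx, hx2⟩ := h.hinv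
  have hxH := h.P_le_H hx
  obtain ⟨k, hk, h3, h4⟩ := h.exists_K hs h2 hxH hx2
    (x' := (h0 : G) * x * (h0 : G)⁻¹) (mul_mem (mul_mem h0.2 hxH) (inv_mem h0.2)) (by rw [order_conj, hx2])
  have h5 : (h0 : G)⁻¹ * k ∈ MM P W := by
    apply h.cen_le hxH hx2
    rw [Subgroup.mem_centralizer_singleton_iff]
    generalize (h0 : G) = c at *
    calc c⁻¹ * k * x = c⁻¹ * (k * x * k⁻¹) * k := by group
      _ = c⁻¹ * (c * x * c⁻¹) * k := by rw [h4]
      _ = x * (c⁻¹ * k) := by group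
  have h6 : f ⟨k, hk⟩ = f h0 := by
    have h7 := hM (h0⁻¹ * ⟨k, hk⟩) h5
    rw [map_mul, map_inv] at h7
    exact (inv_mul_eq_one.1 h7).symm
  have hsi : s⁻¹ = s := inv_eq_of_mul_eq_one_left (by rw [← sq, ← h2, pow_orderOf_eq_one])
  have h8 : s⁻¹ * k * s = k⁻¹ := by rw [← h3, hsi]
  refine FF_eq_zero (HH P W) ⟨k, hk⟩ (by rw [h8]; exact inv_mem hk) ?_
  intro h9
  have e : (⟨s⁻¹ * ((⟨k, hk⟩ : HH P W) : G) * s, by rw [h8]; exact inv_mem hk⟩ : HH P W) = ⟨k, hk⟩⁻¹ :=
    Subtype.ext h8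
  rw [e] at h9
  exact hh0 (h6 ▸ h.one_of_sq hM _ h9)

theorem inner_lam [Fintype G] [Fintype (HH P W)] {f : HH P W →* ℂˣ} (hf : f ≠ 1)
    (hM : ∀ x : HH P W, (x : G) ∈ MM P W → f x = 1) :
    classInner (indFun (HH P W) (fn f)) (indFun (HH P W) (fn f)) = 1 := by
  classical
  have hc : (Nat.card (HH P W) : ℂ) ≠ 0 := by exact_mod_cast (Nat.card_pos (α := HH P W)).ne'
  rw [inner_ind]
  have h1 : ∀ x : G, FF (HH P W) f f x = if x ∈ HH P W then (Nat.card (HH P W) : ℂ) else 0 := by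
    intro x
    split_ifs with hx
    · have := FF_mul_right (HH P W) f f 1 ⟨x, hx⟩
      rw [one_mul] at this
      rw [this, FF_one]
    · exact h.FF_lam hf hM hx
  rw [Finset.sum_congr rfl (fun x _ => h1 x), ← Finset.sum_filter, Finset.sum_const, nsmul_eq_mul]
  have h2 : (Finset.univ.filter (fun x : G => x ∈ HH P W)).card = Nat.card (HH P W) := by
    rw [Nat.card_eq_fintype_card, Fintype.card_subtype]
  rw [h2, inv_mul_cancel_left₀ hc, inv_mul_cancel₀ hc]

theorem val_lam [Fintype G] [Fintype (HH P W)] {f : HH P W →* ℂˣ}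
    (hM : ∀ x : HH P W, (x : G) ∈ MM P W → f x = 1) {t : G} (ht : t ∈ HH P W) (ht2 : orderOf t = 2) :
    indFun (HH P W) (fn f) t = 1 := by
  classical
  have hc : (Nat.card (HH P W) : ℂ) ≠ 0 := by exact_mod_cast (Nat.card_pos (α := HH P W)).ne'
  rw [H18.CharInd.indFun_apply]
  have h1 : ∀ x : G, extendByZero (HH P W) (fn f) (x⁻¹ * t * x) = if x ∈ HH P W then 1 else 0 := by
    intro x
    split_ifs with hx
    · have hm : x⁻¹ * t * x ∈ HH P W := mul_mem (mul_mem (inv_mem hx) ht) hx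
      rw [H18.CharInd.ext_mem _ _ hm, fn_apply, hM, Units.val_one]
      apply h.inv_mem_M hm
      have := order_conj x⁻¹ t
      rw [inv_inv] at this
      rw [this, ht2]
    · rw [H18.CharInd.ext_notMem]
      intro hm
      exact hx (h.mem_of_inv ht ht2 hm)
  rw [Finset.sum_congr rfl (fun x _ => h1 x), Finset.sum_boole]
  have h2 : (Finset.univ.filter (fun x : G => x ∈ HH P W)).card = Nat.card (HH P W) := by
    rw [Nat.card_eq_fintype_card, Fintype.card_subtype]
  rw [h2, inv_mul_cancel₀ hc]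

theorem lam_value [Fintype G] [Fintype (HH P W)] {f : HH P W →* ℂˣ} (hf : f ≠ 1)
    (hM : ∀ x : HH P W, (x : G) ∈ MM P W → f x = 1) {χ : IrrCharacter G} (hχ : mu (HH P W) f χ ≠ 0)
    {t : G} (ht : t ∈ HH P W) (ht2 : orderOf t = 2) : (χ : G → ℂ) t = 1 := by
  have h1 : IsIrrCharacter G (indFun (HH P W) (fn f)) :=
    H18.CharOrtho.isIrr_of_norm_one (H18.CharInd.isCharacter_ind _ (fn_char f)) (h.inner_lam hf hM)
  by_cases he : indFun (HH P W) (fn f) = (χ : G → ℂ)
  · rw [← he, h.val_lam hM ht ht2]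
  · exfalso
    apply hχ
    have h2 := H18.CharOrtho.inner_irr_ne h1 χ.2 he
    rw [mu_ind'] at h2
    exact_mod_cast h2

theorem mult_M_one [Fintype G] [Fintype (HH P W)] [Fintype (MM P W)]
    (hA : ∀ a ∈ HH P W, ∀ b ∈ HH P W, a * b * a⁻¹ * b⁻¹ ∈ MM P W) {χ : IrrCharacter G}
    (h0 : ∀ f : HH P W →* ℂˣ, f ≠ 1 → (∀ x : HH P W, (x : G) ∈ MM P W → f x = 1) →
      mu (HH P W) f χ = 0) : mu (MM P W) 1 χ = mu (HH P W) 1 χ := by
  classical
  haveI := h.normal_M
  set K := (MM P W).subgroupOf (HH P W) with hK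
  let A := HH P W ⧸ K
  have hAc : ∀ a b : A, a * b = b * a := by
    intro a b
    induction a using QuotientGroup.induction_on with
    | H a =>
    induction b using QuotientGroup.induction_on with
    | H b =>
    show (QuotientGroup.mk (a * b) : A) = QuotientGroup.mk (b * a)
    rw [eq_comm, QuotientGroup.eq, hK, Subgroup.mem_subgroupOf]
    have h1 := hA (a : G)⁻¹ (inv_mem a.2) (b : G)⁻¹ (inv_mem b.2)
    have h2 : (((b * a)⁻¹ * (a * b) : HH P W) : G) = (a : G)⁻¹ * (b : G)⁻¹ * ((a : G)⁻¹)⁻¹ * ((b : G)⁻¹)⁻¹ := by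
      push_cast
      group
    rw [h2]
    exact h1
  letI : Fintype A := Fintype.ofFinite A
  letI := Fintype.ofFinite (IrrCharacter A)
  have hex : ∀ l : IrrCharacter A, ∃ f : A →* ℂˣ, (l : A → ℂ) = fun a => (f a : ℂ) := fun l =>
    H18.CharBasic.exists_hom_of_isIrr_of_comm hAc l.2
  choose f hf using hex
  have hfM : ∀ l, ∀ x : HH P W, (x : G) ∈ MM P W → (f l).comp (QuotientGroup.mk' K) x = 1 := by
    intro l x hx
    have : QuotientGroup.mk' K x = 1 := (QuotientGroup.eq_one_iff x).2 hx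
    rw [MonoidHom.comp_apply, this, map_one]
  have hone : (f (H20.NPC.one A)).comp (QuotientGroup.mk' K) = 1 := by
    ext x
    rw [MonoidHom.comp_apply]
    have := congrFun (hf (H20.NPC.one A)) (QuotientGroup.mk' K x)
    rw [← this]; rfl
  have hne : ∀ l : IrrCharacter A, l ≠ H20.NPC.one A → (f l).comp (QuotientGroup.mk' K) ≠ 1 := by
    intro l hl hc
    apply hl
    apply Subtype.ext
    funext a
    obtain ⟨x, rfl⟩ := QuotientGroup.mk'_surjective K a
    have h1 := congrArg (fun ψ : HH P W →* ℂˣ => ((ψ x : ℂˣ) : ℂ)) hc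
    have h2 := congrFun (hf l) (QuotientGroup.mk' K x)
    rw [h2]
    exact h1
  have hcH : (Nat.card (HH P W) : ℂ) ≠ 0 := by exact_mod_cast (Nat.card_pos (α := HH P W)).ne'
  have hcM : (Nat.card (MM P W) : ℂ) ≠ 0 := by exact_mod_cast (Nat.card_pos (α := MM P W)).ne'
  have hcard : (Nat.card (HH P W) : ℂ) = (Nat.card A : ℂ) * (Nat.card (MM P W) : ℂ) := by
    have h1 := Subgroup.card_eq_card_quotient_mul_card_subgroup K
    have h2 : Nat.card K = Nat.card (MM P W) :=
      Nat.card_congr (Subgroup.subgroupOfEquivOfLe h.M_le_H).toEquiv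
    rw [h2] at h1
    rw [h1]; push_cast; rfl
  have hsum : ∀ a : A, ∑ l : IrrCharacter A, conj ((l : A → ℂ) a) = if a = 1 then (Nat.card A : ℂ) else 0 := by
    intro a
    have h1 := H20.Homo.sum_col hAc 1 a
    have h2 : ∑ l : IrrCharacter A, conj ((l : A → ℂ) a) =
        ∑ l : IrrCharacter A, (l : A → ℂ) 1 * conj ((l : A → ℂ) a) :=
      Finset.sum_congr rfl fun l _ => by rw [H20.Homo.lin_one hAc l, one_mul]
    rw [h2, h1]
    by_cases ha : a = 1
    · rw [if_pos ha, if_pos ha.symm]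
    · rw [if_neg ha, if_neg (fun h' => ha h'.symm)]
  have key : ∑ l : IrrCharacter A, (mu (HH P W) ((f l).comp (QuotientGroup.mk' K)) χ : ℂ) =
      (mu (MM P W) 1 χ : ℂ) := by
    have h1 : ∀ l : IrrCharacter A, (mu (HH P W) ((f l).comp (QuotientGroup.mk' K)) χ : ℂ) =
        (Nat.card (HH P W) : ℂ)⁻¹ * ∑ x : HH P W, (χ : G → ℂ) x * conj ((l : A → ℂ) (QuotientGroup.mk' K x)) := by
      intro l
      rw [← mu_spec, classInner]
      congr 1
      refine Finset.sum_congr rfl fun x _ => ?_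
      rw [hf l]; rfl
    rw [Finset.sum_congr rfl (fun l _ => h1 l), ← Finset.mul_sum, Finset.sum_comm]
    have h2 : ∀ x : HH P W, ∑ l : IrrCharacter A, (χ : G → ℂ) x * conj ((l : A → ℂ) (QuotientGroup.mk' K x)) =
        extendByZero (MM P W) (fun m => (χ : G → ℂ) m) x * (Nat.card A : ℂ) := by
      intro x
      rw [← Finset.mul_sum, hsum]
      by_cases hx : (x : G) ∈ MM P W
      · have : QuotientGroup.mk' K x = 1 := (QuotientGroup.eq_one_iff x).2 hx
        rw [if_pos this, H18.CharInd.ext_mem _ _ hx]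
      · have : QuotientGroup.mk' K x ≠ 1 := fun hc => hx ((QuotientGroup.eq_one_iff x).1 hc)
        rw [if_neg this, H18.CharInd.ext_notMem _ _ hx, mul_zero, zero_mul]
    rw [Finset.sum_congr rfl (fun x _ => h2 x), ← Finset.sum_mul]
    have h3 : ∑ x : HH P W, extendByZero (MM P W) (fun m => (χ : G → ℂ) m) x =
        ∑ m : MM P W, (χ : G → ℂ) m := by
      rw [← H18.CharInd.sum_ext' (MM P W) (fun m => (χ : G → ℂ) m)]
      have h4 : ∑ x : G, extendByZero (MM P W) (fun m => (χ : G → ℂ) m) x =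
          ∑ x : G, extendByZero (HH P W) (fun y : HH P W => extendByZero (MM P W) (fun m => (χ : G → ℂ) m) y) x := by
        refine Finset.sum_congr rfl fun x _ => ?_
        by_cases hx : x ∈ HH P W
        · rw [H18.CharInd.ext_mem (HH P W) _ hx]
        · rw [H18.CharInd.ext_notMem (HH P W) _ hx, H18.CharInd.ext_notMem _ _ (fun hm => hx (h.M_le_H hm))]
      rw [h4, H18.CharInd.sum_ext']
    rw [h3, ← mu_spec, classInner, hcard]
    have h5 : ∀ m : MM P W, (χ : G → ℂ) m * conj (fn (1 : MM P W →* ℂˣ) m) = (χ : G → ℂ) m := by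
      intro m
      rw [fn_apply, MonoidHom.one_apply, Units.val_one, map_one, mul_one]
    rw [Finset.sum_congr rfl (fun m _ => h5 m)]
    have hcA : (Nat.card A : ℂ) ≠ 0 := by exact_mod_cast (Nat.card_pos (α := A)).ne'
    field_simp
  rw [Finset.sum_eq_single (H20.NPC.one A)] at key
  · rw [hone] at key
    exact_mod_cast key.symm
  · intro l _ hl
    rw [h0 _ (hne l hl) (hfM l), Nat.cast_zero]
  · intro hc; exact absurd (Finset.mem_univ _) hc

end H79.SE.Cfg
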