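import Mathlib
import Cfsg.Agent.Lib.H79.SELam
import Cfsg.Agent.Lib.H79.SixLoc
import Cfsg.Agent.Lib.H20.Homo2

/-! The number of characters in the principal 2-block in the strongly embedded situation with elementary abelian
Sylow 2-subgroups. -/

set_option autoImplicit false
set_option linter.unusedSectionVars false
set_option linter.unusedVariables false
set_option linter.style.haveILetI false
open Cfsg H79.Hecke H20.Col
open scoped ComplexConjugate

namespace H79.SE.Cfg

universe u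

variable {G : Type u} [Group G] [Finite G] {P : Sylow 2 G} {W : Subgroup G} (h : Cfg P W)
include h

theorem cen_le' {u : G} (hu : u ∈ MM P W) (huW : u ∉ W) : Cen u ≤ MM P W := by
  obtain ⟨k, hk⟩ := h.exists_pow hu huW
  intro c hc
  apply h.cen_le (h.M_le_H (Subgroup.pow_mem _ hu k)) hk
  rw [Subgroup.mem_centralizer_singleton_iff] at hc ⊢
  exact (Commute.pow_right hc k)

theorem index_core {u : G} (hu : u ∈ MM P W) (huW : u ∉ W) : ∃ k : ℕ, (pPrimeCore 2 (Cen u)).index = 2 ^ k := by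
  haveI : Fact (Nat.Prime 2) := ⟨Nat.prime_two⟩
  set φ : Cen u →* (P : Subgroup G) := h.pr.comp (Subgroup.inclusion (h.cen_le' hu huW)) with hφ
  have hker : ∀ c : Cen u, c ∈ φ.ker ↔ (c : G) ∈ W := by
    intro c
    rw [MonoidHom.mem_ker, hφ, MonoidHom.comp_apply, h.pr_eq_one]
    rfl
  have hodd : ¬ 2 ∣ Nat.card φ.ker := by
    have h1 : Nat.card φ.ker ∣ Nat.card W := by
      have h2 : Nat.card (φ.ker.map (Cen u).subtype) ∣ Nat.card W := by
        apply Subgroup.card_dvd_of_le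
        rintro _ ⟨c, hc, rfl⟩
        exact (hker c).1 hc
      rwa [Nat.card_congr (φ.ker.equivMapOfInjective _ (Subgroup.subtype_injective _)).toEquiv.symm] at h2
    intro h2
    exact (Nat.not_even_iff_odd.2 h.hodd) (even_iff_two_dvd.2 (h2.trans h1))
  have h3 : φ.ker ≤ pPrimeCore 2 (Cen u) := H1.Cores.le_pPrimeCore inferInstance
    (((Nat.Prime.coprime_iff_not_dvd Nat.prime_two).2 hodd).symm)
  have h4 : (pPrimeCore 2 (Cen u)).index ∣ φ.ker.index := Subgroup.index_dvd_of_le h3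
  rw [Subgroup.index_ker] at h4
  obtain ⟨n, hn⟩ := IsPGroup.iff_card.1 P.2
  have h5 : Nat.card φ.range ∣ Nat.card (P : Subgroup G) := Subgroup.card_subgroup_dvd_card _
  rw [hn] at h5
  obtain ⟨k, -, hk⟩ := (Nat.dvd_prime_pow Nat.prime_two).1 (h4.trans h5)
  exact ⟨k, hk⟩

/-- the value on an element of `M` outside `W` equals the value on the 2-part -/
theorem value_part {M : Ideal AlgInt} (hM : IsPModular 2 M) {χ : IrrCharacter G} (hχ : χ ∈ principalBlock M G)
    {x : G} (hx : x ∈ MM P W) (hxW : x ∉ W) :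
    ∃ z ∈ MM P W, z ∉ W ∧ (∃ k : ℕ, orderOf z = 2 ^ k) ∧ (χ : G → ℂ) x = (χ : G → ℂ) z ∧
      x * z⁻¹ ∈ W := by
  obtain ⟨z, y, hzy, hc, hk, hy⟩ := H19.Second.exists_isPPart Nat.prime_two x
  obtain ⟨j, hj⟩ := h.exists_pow hx hxW
  have hyo : Odd (orderOf y) := by
    rw [← Nat.not_even_iff_odd, even_iff_two_dvd]; exact hy
  have hcx : Commute z (x ^ j) := by
    apply Commute.pow_right
    rw [← hzy]
    exact (Commute.refl z).mul_right hc
  have hcy : Commute y (x ^ j) := by
    apply Commute.pow_right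
    rw [← hzy]
    exact hc.symm.mul_right (Commute.refl y)
  have hxjM := h.M_le_H (Subgroup.pow_mem _ hx j)
  have hzM : z ∈ MM P W := h.cen_le hxjM hj (Subgroup.mem_centralizer_singleton_iff.2 hcx)
  have hyM : y ∈ MM P W := h.cen_le hxjM hj (Subgroup.mem_centralizer_singleton_iff.2 hcy)
  have hyW : y ∈ W := h.mem_W_of_odd hyM hyo
  have hzW : z ∉ W := by
    intro hzW
    apply hxW
    rw [← hzy]
    exact mul_mem hzW hyW
  refine ⟨z, hzM, hzW, hk, ?_, ?_⟩
  · have hyc : y ∈ Cen z := Subgroup.mem_centralizer_singleton_iff.2 hc.symm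
    letI := Fintype.ofFinite G
    have h1 := H79.SixLoc.value_const hM hk (h.index_core hzM hzW) hχ (v := ⟨y, hyc⟩)
      (by rw [Subgroup.orderOf_mk]; exact hy)
    rw [← h1]
    show (χ : G → ℂ) x = (χ : G → ℂ) (z * y)
    rw [hzy]
  · rw [← hzy]
    exact h.conj_W (h.M_le_H hzM) hyW

theorem order_two_of_elem (hel : ∀ x ∈ (P : Subgroup G), x * x = 1) {z : G} (hz : z ∈ MM P W) (hzW : z ∉ W)
    (hk : ∃ k : ℕ, orderOf z = 2 ^ k) : orderOf z = 2 := by
  obtain ⟨g, hg, hgz⟩ := h.exists_conj_P (h.M_le_H hz) hk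
  have h1 := hel _ hgz
  have h2 : z * z = 1 := by
    have h3 : g * (z * z) * g⁻¹ = 1 := by rw [← h1]; group
    have h4 : z * z = g⁻¹ * (g * (z * z) * g⁻¹) * g := by group
    rw [h4, h3]; group
  exact orderOf_eq_prime (by rw [sq]; exact h2) (fun h0 => hzW (h0 ▸ W.one_mem))

theorem const_of_elem (hel : ∀ x ∈ (P : Subgroup G), x * x = 1) {M : Ideal AlgInt} (hM : IsPModular 2 M)
    {χ : IrrCharacter G} (hχ : χ ∈ principalBlock M G) {t : G} (ht : t ∈ HH P W) (ht2 : orderOf t = 2)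
    {x : G} (hx : x ∈ MM P W) (hxW : x ∉ W) : (χ : G → ℂ) x = (χ : G → ℂ) t := by
  obtain ⟨z, hz, hzW, hk, h1, -⟩ := h.value_part hM hχ hx hxW
  have h2 := h.order_two_of_elem hel hz hzW hk
  obtain ⟨k, -, h3⟩ := h.conj_inv (h.M_le_H hz) h2 ht ht2
  rw [h1, ← h3, H20.Height.irr_class χ z k]

/-- nontrivial real linear characters of `P` -/
theorem exists_lin {t : G} (ht : t ∈ (P : Subgroup G)) (ht1 : t ≠ 1) :
    ∃ μ : (P : Subgroup G) →* ℂˣ, μ ⟨t, ht⟩ ≠ 1 := by
  classical
  letI := Fintype.ofFinite (IrrCharacter (P : Subgroup G))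
  have hc : ∀ a b : (P : Subgroup G), a * b = b * a := fun a b => Subtype.ext (h.hab a a.2 b b.2)
  by_contra hcon
  push Not at hcon
  have h1 := H20.Homo.sum_col_one hc (x := (⟨t, ht⟩ : (P : Subgroup G))) (fun h' => ht1 (congrArg Subtype.val h'))
  have h2 : ∀ l : IrrCharacter (P : Subgroup G), (l : ↥(P : Subgroup G) → ℂ) ⟨t, ht⟩ = 1 := by
    intro l
    obtain ⟨f, hf⟩ := H18.CharBasic.exists_hom_of_isIrr_of_comm hc l.2
    rw [hf]
    show ((f ⟨t, ht⟩ : ℂˣ) : ℂ) = 1
    rw [hcon f]; rfl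
  rw [Finset.sum_congr rfl (fun l _ => h2 l), Finset.sum_const, nsmul_eq_mul, mul_one] at h1
  have h3 : (Finset.univ : Finset (IrrCharacter (P : Subgroup G))).card = Nat.card (P : Subgroup G) := by
    rw [Finset.card_univ]
    exact H20.Homo.card_irr hc
  rw [h3] at h1
  have h4 : (Nat.card (P : Subgroup G) : ℂ) ≠ 0 := by
    exact_mod_cast (Nat.card_pos (α := (P : Subgroup G))).ne'
  exact h4 h1

theorem mult_sub [Fintype G] [Fintype (MM P W)] {μ : (P : Subgroup G) →* ℂˣ} (hμ : μ ≠ 1)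
    {χ : IrrCharacter G} {d : ℂ} (hd : ∀ x ∈ MM P W, x ∉ W → (χ : G → ℂ) x = d) :
    (mu (MM P W) 1 χ : ℂ) - (mu (MM P W) (h.ml μ) χ : ℂ) = d := by
  have hcM : (Nat.card (MM P W) : ℂ) ≠ 0 := by exact_mod_cast (Nat.card_pos (α := MM P W)).ne'
  rw [← mu_spec, ← mu_spec, classInner, classInner, ← mul_sub, ← Finset.sum_sub_distrib]
  have h1 : ∀ x : MM P W, (χ : G → ℂ) x * conj (fn (1 : MM P W →* ℂˣ) x) -
      (χ : G → ℂ) x * conj (fn (h.ml μ) x) = d * (1 - conj (fn (h.ml μ) x)) := by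
    intro x
    have e1 : fn (1 : MM P W →* ℂˣ) x = 1 := by rw [fn_apply, MonoidHom.one_apply, Units.val_one]
    rw [e1, map_one, mul_one]
    by_cases hx : (x : G) ∈ W
    · have h2 : fn (h.ml μ) x = 1 := by
        rw [fn_apply, h.ml_apply, h.pr_eq_one.2 hx, map_one, Units.val_one]
      rw [h2, map_one]; ring
    · rw [hd x x.2 hx]; ring
  rw [Finset.sum_congr rfl (fun x _ => h1 x), ← Finset.mul_sum, Finset.sum_sub_distrib]
  have h2 : ∑ x : MM P W, conj (fn (h.ml μ) x) = 0 := by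
    have h3 : ∑ x : MM P W, fn (h.ml μ) x = 0 := by
      have hne : h.ml μ ≠ 1 := by
        intro hc
        apply hμ
        ext p
        have h4 := DFunLike.congr_fun hc (⟨p, h.P_le_M p.2⟩ : MM P W)
        rw [h.ml_apply, h.pr_P p.2] at h4
        rw [h4]; rfl
      obtain ⟨y, hy⟩ : ∃ y, h.ml μ y ≠ 1 := by
        by_contra hcon
        push Not at hcon
        exact hne (MonoidHom.ext hcon)
      have h5 : ∑ x : MM P W, fn (h.ml μ) x = fn (h.ml μ) y * ∑ x : MM P W, fn (h.ml μ) x := by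
        conv_lhs => rw [← Equiv.sum_comp (Equiv.mulLeft y)]
        rw [Finset.mul_sum]
        refine Finset.sum_congr rfl fun x _ => ?_
        rw [Equiv.coe_mulLeft, fn_mul]
      have h6 : (1 - fn (h.ml μ) y) * ∑ x : MM P W, fn (h.ml μ) x = 0 := by
        rw [sub_mul, one_mul, sub_eq_zero]; exact h5
      rcases mul_eq_zero.1 h6 with h7 | h7
      · exfalso
        apply hy
        apply Units.ext
        rw [sub_eq_zero] at h7
        exact h7.symm
      · exact h7
    rw [← map_sum, h3, map_zero]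
  rw [h2, sub_zero, Finset.sum_const, nsmul_eq_mul, mul_one, Finset.card_univ, ← Nat.card_eq_fintype_card]
  rw [mul_comm d, inv_mul_cancel_left₀ hcM]

/-- the values on involutions of the characters of the principal block -/
theorem value_one [Fintype G] [Fintype (HH P W)] [Fintype (MM P W)]
    (hel : ∀ x ∈ (P : Subgroup G), x * x = 1)
    (hA : ∀ a ∈ HH P W, ∀ b ∈ HH P W, a * b * a⁻¹ * b⁻¹ ∈ MM P W)
    {M : Ideal AlgInt} (hM : IsPModular 2 M)
    {χ : IrrCharacter G} (hχ : χ ∈ principalBlock M G) {t : G} (ht : t ∈ (P : Subgroup G)) (ht2 : orderOf t = 2) :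
    (χ : G → ℂ) t = 1 ∨ (χ : G → ℂ) t = -1 := by
  haveI := hM.1
  have ht1 : t ≠ 1 := by rintro rfl; rw [orderOf_one] at ht2; omega
  obtain ⟨μ, hμt⟩ := h.exists_lin ht ht1
  have hμ : μ ≠ 1 := by rintro rfl; exact hμt rfl
  have hμ2 : ∀ x, μ x * μ x = 1 := by
    intro x
    rw [← map_mul]
    have : x * x = 1 := Subtype.ext (hel x x.2)
    rw [this, map_one]
  have hd := h.mult_sub (χ := χ) hμ (fun x hx hxW => h.const_of_elem hel hM hχ (h.P_le_H ht) ht2 hx hxW)
  have hm1 := h.mult_le hμ hμ2 χ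
  have hne0 : (χ : G → ℂ) t ≠ 0 := by
    intro h0
    have h1 : ∀ x : G, x ≠ 1 → (∃ k : ℕ, orderOf x = 2 ^ k) → (χ : G → ℂ) x = 0 := by
      intro x hx1 hx
      obtain ⟨g, hg⟩ := H20.Klein.exists_conj_mem_of_pelt P hx
      have h2 : g * x * g⁻¹ ≠ 1 := by
        intro hc
        apply hx1
        have : x = g⁻¹ * (g * x * g⁻¹) * g := by group
        rw [this, hc]; group
      have h3 := h.const_of_elem hel hM hχ (h.P_le_H ht) ht2 (h.P_le_M hg) (fun hW => h2 (h.disj hW hg))
      rw [H20.Height.irr_class χ x g, h0] at h3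
      exact h3
    haveI : Fact (Nat.Prime 2) := ⟨Nat.prime_two⟩
    have h2 := H20.DefZero.full_degree_of_vanish (H18.CharBasic.isCharacter_of_isIrr χ.2) h1
    have h3 : (charDegree (χ : G → ℂ)).factorization 2 = (Nat.card G).factorization 2 := by
      apply le_antisymm
      · exact (Nat.factorization_le_iff_dvd (H20.Defect.charDegree_ne_zero χ) (Nat.card_pos (α := G)).ne').2
          (H20.Defect.charDegree_dvd_card χ) 2
      · exact (Nat.Prime.pow_dvd_iff_le_factorization Nat.prime_two (H20.Defect.charDegree_ne_zero χ)).1 h2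
    have h4 := H20.DefZero.blockOf_eq_singleton hM h3
    haveI := H20.Loc.pm_isPrime hM
    have h5 : principalBlock M G = blockOf M (χ : G → ℂ) := H20.Blk.blockOf_eq_of_sameBlock hχ
    have h6 : H20.NPC.one G ∈ principalBlock M G := H20.Blk.mem_blockOf_self (H20.NPC.one G)
    rw [h5, h4, Set.mem_singleton_iff] at h6
    rw [← h6] at h0
    exact one_ne_zero h0
  have hle : mu (HH P W) 1 χ ≤ 1 := h.mult_H χ
  by_cases h0 : ∀ f : HH P W →* ℂˣ, f ≠ 1 → (∀ x : HH P W, (x : G) ∈ MM P W → f x = 1) →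
      mu (HH P W) f χ = 0
  · have h1 := h.mult_M_one hA h0
    have h2 : mu (MM P W) 1 χ ≤ 1 := by rw [h1]; exact hle
    rcases hm1 with h3 | ⟨h3, -⟩
    · rw [h3, Nat.cast_zero, sub_zero] at hd
      interval_cases hm : mu (MM P W) 1 χ
      · rw [Nat.cast_zero] at hd; exact absurd hd.symm hne0
      · rw [Nat.cast_one] at hd; left; exact hd.symm
    · rw [h3, Nat.cast_one] at hd
      interval_cases hm : mu (MM P W) 1 χ
      · rw [Nat.cast_zero, zero_sub] at hd; right; exact hd.symm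
      · rw [Nat.cast_one, sub_self] at hd; exact absurd hd.symm hne0
  · push Not at h0
    obtain ⟨f, hf, hfM, hf0⟩ := h0
    left
    exact h.lam_value hf hfM hf0 (h.P_le_H ht) ht2

/-- the number of characters of the principal block -/
theorem card_block (hel : ∀ x ∈ (P : Subgroup G), x * x = 1)
    (hA : ∀ a ∈ HH P W, ∀ b ∈ HH P W, a * b * a⁻¹ * b⁻¹ ∈ MM P W)
    {M : Ideal AlgInt} (hM : IsPModular 2 M) :
    Nat.card (principalBlock M G) = Nat.card (P : Subgroup G) := by
  classical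
  letI := Fintype.ofFinite G
  letI := Fintype.ofFinite (HH P W)
  letI := Fintype.ofFinite (MM P W)
  letI := Fintype.ofFinite (IrrCharacter G)
  obtain ⟨t, ht, ht2⟩ := h.hinv
  have hk : ∃ k : ℕ, orderOf t = 2 ^ k := ⟨1, by rw [ht2, pow_one]⟩
  have htW : t ∉ W := by
    intro hW
    have h1 := h.disj hW ht
    rw [h1, orderOf_one] at ht2
    omega
  have h1 := H20.Klein.column_self hM hk (h.index_core (h.P_le_M ht) htW)
  rw [H20.Homo2.card_cen h.hab ht] at h1
  have h2 : ∀ ζ : IrrCharacter G, (if ζ ∈ principalBlock M G then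
      (ζ : G → ℂ) t * conj ((ζ : G → ℂ) t) else 0) = if ζ ∈ principalBlock M G then 1 else 0 := by
    intro ζ
    split_ifs with hζ
    · rcases h.value_one hel hA hM hζ ht ht2 with h3 | h3 <;> rw [h3] <;> simp
    · rfl
  rw [Finset.sum_congr rfl (fun ζ _ => h2 ζ), Finset.sum_boole] at h1
  have h3 : (Finset.univ.filter (fun ζ : IrrCharacter G => ζ ∈ principalBlock M G)).card =
      Nat.card (principalBlock M G) := by
    rw [Nat.card_eq_fintype_card, ← Set.toFinset_card]
    congr 1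
    ext ζ
    simp
  rw [h3] at h1
  exact_mod_cast h1

end H79.SE.Cfg
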