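import Mathlib
import Cfsg.Agent.S0217
import Cfsg.Agent.Lib.H27.LayerFree
import Cfsg.Agent.Lib.H79.SECount

/-! Existence of the odd order subgroup `W` from the solvable signalizer functor theorem. -/

set_option autoImplicit false
set_option linter.unusedSectionVars false
set_option linter.unusedVariables false
set_option linter.style.haveILetI false
open Cfsg H20.Col

namespace H79.SE

universe u

theorem mem_core_of_odd {C : Type u} [Group C] [Finite C] (hk : ∃ k : ℕ, (pPrimeCore 2 C).index = 2 ^ k) {c : C}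
    (hc : Odd (orderOf c)) : c ∈ pPrimeCore 2 C := by
  obtain ⟨k, hk⟩ := hk
  have h1 := Subgroup.pow_index_mem (pPrimeCore 2 C) c
  rw [hk] at h1
  have h2 : Nat.Coprime (2 ^ k) (orderOf c) := Nat.Coprime.pow_left k (Nat.coprime_two_left.2 hc)
  obtain ⟨m, hm⟩ := exists_pow_eq_self_of_coprime h2
  rw [← hm]
  exact Subgroup.pow_mem _ h1 m

variable {G : Type u} [Group G] [Finite G]

/-- `Ω_1(P)` -/
def om (A : Subgroup G) (hA : ∀ a ∈ A, ∀ b ∈ A, a * b = b * a) : Subgroup G where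
  carrier := {a | a ∈ A ∧ a * a = 1}
  one_mem' := ⟨A.one_mem, one_mul 1⟩
  mul_mem' := by
    rintro a b ⟨ha, ha2⟩ ⟨hb, hb2⟩
    refine ⟨A.mul_mem ha hb, ?_⟩
    calc a * b * (a * b) = a * (b * a) * b := by group
      _ = a * (a * b) * b := by rw [hA a ha b hb]
      _ = (a * a) * (b * b) := by group
      _ = 1 := by rw [ha2, hb2, one_mul]
  inv_mem' := by
    rintro a ⟨ha, ha2⟩
    refine ⟨A.inv_mem ha, ?_⟩
    rw [← mul_inv_rev, ha2, inv_one]

theorem mem_om {A : Subgroup G} {hA : ∀ a ∈ A, ∀ b ∈ A, a * b = b * a} {x : G} :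
    x ∈ om A hA ↔ x ∈ A ∧ x * x = 1 := Iff.rfl

theorem order_om {A : Subgroup G} {hA : ∀ a ∈ A, ∀ b ∈ A, a * b = b * a} {x : G}
    (hx : x ∈ om A hA) (h1 : x ≠ 1) : orderOf x = 2 :=
  orderOf_eq_prime (by rw [sq]; exact hx.2) h1

abbrev th (a : G) : Subgroup G := centralizerPPrimeCore 2 a

theorem th_le (a : G) : th a ≤ Cen a := Subgroup.map_subtype_le _

theorem th_cop (a : G) : (Nat.card (th a)).Coprime 2 := H26.LocalFitting.card_ppc 2 _

theorem th_odd (a : G) : Odd (Nat.card (th a)) := Nat.coprime_two_right.1 (th_cop a)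

theorem th_norm (a : G) : Cen a ≤ Subgroup.normalizer (th a : Set G) := H26.LocalFitting.le_normalizer_ppc 2 _

theorem th_conj {a x : G} (hx : x ∈ th a) (g : G) : g * x * g⁻¹ ∈ th (g * a * g⁻¹) := by
  haveI : Fact (Nat.Prime 2) := ⟨Nat.prime_two⟩
  show g * x * g⁻¹ ∈ centralizerPPrimeCore 2 (g * a * g⁻¹)
  rw [H27.LayerFree.core_equiv]
  exact ⟨x, hx, rfl⟩

theorem exists_cfg (hFT : ∀ (K : Type u) [Group K] [Finite K], Odd (Nat.card K) → Group.IsSolvable K)
    (P : Sylow 2 G)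
    (hab : ∀ x ∈ (P : Subgroup G), ∀ y ∈ (P : Subgroup G), x * y = y * x)
    (hrk : 8 ≤ Nat.card (om (P : Subgroup G) hab))
    (hnil : ∀ x ∈ (P : Subgroup G), orderOf x = 2 → ∃ k : ℕ, (pPrimeCore 2 (Cen x)).index = 2 ^ k)
    (hO : pPrimeCore 2 G = ⊥) : (∃ W, Cfg P W) ∨ (P : Subgroup G).Normal := by
  classical
  haveI : Fact (Nat.Prime 2) := ⟨Nat.prime_two⟩
  set A := om (P : Subgroup G) hab with hA
  have hPC : ∀ x ∈ (P : Subgroup G), (P : Subgroup G) ≤ Cen x := fun x hx y hy =>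
    Subgroup.mem_centralizer_singleton_iff.2 (hab y hy x hx)
  have hfun := Cfsg.Agent.S0217.result (p := 2) A (fun a ha b hb => hab a ha.1 b hb.1)
    (fun a ha => by rw [sq]; exact ha.2) (by norm_num; exact hrk) (fun a => th a)
    (fun a _ _ => th_le a)
    (fun a _ _ => by
      rw [← even_iff_two_dvd, Nat.not_even_iff_odd]
      exact th_odd a)
    (fun a ha _ b hb x hx => (Subgroup.mem_normalizer_iff.1 (th_norm a (hPC a ha.1 hb.1)) x).1 hx)
    (fun a _ _ => hFT _ (th_odd a))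
    (fun a ha ha1 b hb hb1 x hx => by
      obtain ⟨h1, h2⟩ := Subgroup.mem_inf.1 hx
      have h3 : Odd (orderOf x) := odd_of_mem_odd (th_odd a) h1
      have h4 : (⟨x, h2⟩ : Cen b) ∈ pPrimeCore 2 (Cen b) :=
        mem_core_of_odd (hnil b hb.1 (order_om hb hb1)) (by rw [Subgroup.orderOf_mk]; exact h3)
      exact ⟨⟨x, h2⟩, h4, rfl⟩)
  set W : Subgroup G := ⨆ a : {a : G // a ∈ A ∧ a ≠ 1}, th (a : G) with hW
  have hWodd : Odd (Nat.card W) := by
    rw [← Nat.not_even_iff_odd, even_iff_two_dvd]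
    exact hfun.1
  have hth : ∀ a ∈ A, a ≠ 1 → th a ≤ W := fun a ha ha1 =>
    le_iSup (fun a : {a : G // a ∈ A ∧ a ≠ 1} => th (a : G)) ⟨a, ha, ha1⟩
  have hNA : ∀ n ∈ Subgroup.normalizer ((P : Subgroup G) : Set G), ∀ a ∈ A, n * a * n⁻¹ ∈ A := by
    intro n hn a ha
    refine ⟨(Subgroup.mem_normalizer_iff.1 hn a).1 ha.1, ?_⟩
    calc n * a * n⁻¹ * (n * a * n⁻¹) = n * (a * a) * n⁻¹ := by group
      _ = 1 := by rw [ha.2]; group
  have hNW' : ∀ n ∈ Subgroup.normalizer ((P : Subgroup G) : Set G), ∀ w ∈ W, n * w * n⁻¹ ∈ W := by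
    intro n hn w hw
    have h1 : W ≤ W.comap (MulAut.conj n).toMonoidHom := by
      rw [hW]
      apply iSup_le
      rintro ⟨a, ha, ha1⟩ x hx
      have h2 := th_conj hx n
      have h3 : n * a * n⁻¹ ≠ 1 := by
        intro hc
        apply ha1
        have : a = n⁻¹ * (n * a * n⁻¹) * n := by group
        rw [this, hc]; group
      exact hth _ (hNA n hn a ha) h3 h2
    exact h1 hw
  have hNW : Subgroup.normalizer ((P : Subgroup G) : Set G) ≤ Subgroup.normalizer (W : Set G) := by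
    intro n hn
    rw [Subgroup.mem_normalizer_iff]
    intro w
    refine ⟨hNW' n hn w, fun hw => ?_⟩
    have := hNW' n⁻¹ (inv_mem hn) _ hw
    have e : n⁻¹ * (n * w * n⁻¹) * n⁻¹⁻¹ = w := by group
    rwa [e] at this
  have hC : ∀ x ∈ (P : Subgroup G), orderOf x = 2 →
      Subgroup.centralizer ({x} : Set G) ≤ W ⊔ (P : Subgroup G) := by
    intro x hx hx2
    have hxA : x ∈ A := ⟨hx, by rw [← sq, ← hx2, pow_orderOf_eq_one]⟩
    have hx1 : x ≠ 1 := by rintro rfl; rw [orderOf_one] at hx2; omega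
    obtain ⟨k, hk⟩ := hnil x hx hx2
    have hle := hPC x hx
    set K := pPrimeCore 2 (Cen x) with hK
    haveI : K.Normal := by rw [hK]; infer_instance
    set S := (P : Subgroup G).subgroupOf (Cen x) with hS
    have htop : K ⊔ S = ⊤ := by
      rw [← Subgroup.index_eq_one]
      have h1 : (K ⊔ S).index ∣ 2 ^ k := by rw [← hk]; exact Subgroup.index_dvd_of_le le_sup_left
      have h2 : (K ⊔ S).index ∣ S.index := Subgroup.index_dvd_of_le le_sup_right
      have h3 : ¬ 2 ∣ S.index := by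
        intro h4
        apply P.not_dvd_index
        exact h4.trans ⟨_, (Subgroup.relIndex_mul_index hle).symm⟩
      have h5 : Nat.Coprime (2 ^ k) S.index :=
        Nat.Coprime.pow_left k ((Nat.Prime.coprime_iff_not_dvd Nat.prime_two).2 h3)
      exact Nat.eq_one_of_dvd_coprimes h5 h1 h2
    intro c hc
    have h6 : (⟨c, hc⟩ : Cen x) ∈ K ⊔ S := by rw [htop]; trivial
    obtain ⟨a, ha, b, hb, hab'⟩ := Subgroup.mem_sup_of_normal_left.1 h6
    have h7 : (a : G) * (b : G) = c := congrArg Subtype.val hab'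
    rw [← h7]
    exact Subgroup.mul_mem_sup (hth x hxA hx1 ⟨a, ha, rfl⟩) hb
  have hinv : ∃ x ∈ (P : Subgroup G), orderOf x = 2 := by
    have h1 : Nontrivial A := Finite.one_lt_card_iff_nontrivial.1 (by omega)
    obtain ⟨a, ha⟩ := exists_ne (1 : A)
    exact ⟨a, a.2.1, order_om a.2 (fun h => ha (Subtype.ext h))⟩
  by_cases hne : W ⊔ Subgroup.normalizer ((P : Subgroup G) : Set G) = ⊤
  · right
    have h1 : Subgroup.normalizer (W : Set G) = ⊤ := by
      rw [eq_top_iff, ← hne]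
      exact sup_le Subgroup.le_normalizer hNW
    have h2 : W.Normal := Subgroup.normalizer_eq_top_iff.1 h1
    have h3 : W = ⊥ := by
      rw [eq_bot_iff, ← hO]
      exact H1.Cores.le_pPrimeCore h2 (Nat.coprime_two_right.2 hWodd)
    rw [h3, bot_sup_eq] at hne
    exact Subgroup.normalizer_eq_top_iff.1 hne
  · left
    exact ⟨W, hab, hWodd, hNW, hC, hne, hinv⟩

end H79.SE
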