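import Mathlib
import Cfsg.Agent.Lib.H79.EIdx
import Cfsg.Agent.Lib.H79.PCount
import Cfsg.Agent.Lib.H79.PQuot
import Cfsg.Agent.Lib.H79.PrincFree
import Cfsg.Agent.Lib.H79.NormLow
import Cfsg.Agent.Lib.H79.SECount
import Cfsg.Agent.Lib.H79.SEFunc
import Cfsg.Agent.Lib.H79.PrincWat
import Cfsg.Agent.Lib.H20.Homo5
import Cfsg.Agent.Lib.H20.V4
import Cfsg.Agent.Lib.H84.FL9
import Cfsg.Agent.S4571

/-! Principal 2-blocks with abelian Sylow subgroup and small inertial quotient. -/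

set_option autoImplicit false
set_option linter.unusedSectionVars false
set_option linter.unusedVariables false
set_option linter.style.haveILetI false
open Cfsg H20.Col H79.EIdx H79.SE

namespace H79.PE

universe u

section gen
variable {M : Ideal AlgInt} {G : Type u} [Group G] [Finite G] {p : ℕ}

open H20.Loc H80.GA H80.GB H80.GC H80.GD H80.GE H80.GH H80.BR1 H80.BR2 H84.Wat H80.GI H80.BR4 in
theorem rank_top (hM : IsPModular p M) :
    blockRank p (principalBlock M (⊤ : Subgroup G)) = blockRank p (principalBlock M G) := by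
  haveI : Fact p.Prime := ⟨hM.1⟩
  have : M.IsMaximal := hM.2.1
  have : CharP (ResF M) p := charP_resF hM
  let _ : Algebra (ZMod p) (ResF M) := ZMod.algebra (ResF M) p
  have : Algebra.IsAlgebraic (ZMod p) (ResF M) := isAlgebraic_resF hM
  have : IsAlgClosed (ResF M) := isAlgClosed_resF
  have h1 : bl M (⊤ : Subgroup G) (principalBlock M (⊤ : Subgroup G)) = ebar M (principalBlock M G) :=
    princ_unique (princ_bl ⊤) princ_ebar
  rw [← rk_bl (p := p) (isPBlock_principal M _), h1, H84.FL.rk_top (isPBlock_principal M _)]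

/-- Watanabe's theorem for an element of `P` fixed by `N(P)` -/
theorem rank_cen (hM : IsPModular p M) (P : Sylow p G)
    (hab : ∀ x ∈ (P : Subgroup G), ∀ y ∈ (P : Subgroup G), x * y = y * x) {u : G}
    (hu : u ∈ (P : Subgroup G))
    (hfix : ∀ t ∈ Subgroup.normalizer ((P : Subgroup G) : Set G), t * u * t⁻¹ = u) :
    blockRank p (principalBlock M G) = blockRank p (principalBlock M (Cen u)) := by
  have h := H79.PrincWat.rank_eq hM (H := ⊤) (S := (P : Subgroup G)) le_top P.isPGroup'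
    (fun T _ hT hle => P.is_maximal' hT hle) hab hu (fun t _ ht => hfix t ht)
  rw [rank_top hM] at h
  have h1 : H80.GB.CH ⊤ (Subgroup.zpowers u) = Cen u := by
    ext g
    rw [H84.Wat.mem_CH_iff, Subgroup.mem_centralizer_singleton_iff]
    exact ⟨fun h => h.1, fun h => ⟨h, Subgroup.mem_top _⟩⟩
  rw [h1] at h
  exact h

/-- `N(P)/C(P)` acts freely -/
def Free (P : Sylow p G) : Prop :=
  ∀ g ∈ NN P, ∀ x ∈ (P : Subgroup G), x ≠ 1 → g * x * g⁻¹ = x → g ∈ CC P

theorem inf_eq_of_free [Fact p.Prime] {P : Sylow p G}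
    (hab : ∀ x ∈ (P : Subgroup G), ∀ y ∈ (P : Subgroup G), x * y = y * x) (hf : Free P) {x : G}
    (hx : x ∈ (P : Subgroup G)) (hx1 : x ≠ 1) : NN P ⊓ Cen x = CC P := by
  apply le_antisymm
  · rintro g ⟨hg, hgx⟩
    refine hf g hg x hx hx1 ?_
    rw [mul_inv_eq_iff_eq_mul]
    exact Subgroup.mem_centralizer_singleton_iff.1 hgx
  · intro g hg
    exact ⟨CC_le_NN P hg, Subgroup.mem_centralizer_singleton_iff.2 (Subgroup.mem_centralizer_iff.1 hg x hx).symm⟩

theorem cen_stab [Fact p.Prime] {P : Sylow p G}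
    (hab : ∀ x ∈ (P : Subgroup G), ∀ y ∈ (P : Subgroup G), x * y = y * x) {x : G}
    (hx : x ∈ (P : Subgroup G)) : CC P ≤ NN P ⊓ Cen x := by
  intro g hg
  exact ⟨CC_le_NN P hg, Subgroup.mem_centralizer_singleton_iff.2 (Subgroup.mem_centralizer_iff.1 hg x hx).symm⟩

/-- prime index: no nontrivial fixed points implies free -/
theorem free_of_prime [Fact p.Prime] {P : Sylow p G}
    (hab : ∀ x ∈ (P : Subgroup G), ∀ y ∈ (P : Subgroup G), x * y = y * x)
    (he : ((CC P).relIndex (NN P)).Prime)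
    (hfix : ¬ ∃ x ∈ (P : Subgroup G), x ≠ 1 ∧ ∀ t ∈ NN P, t * x * t⁻¹ = x) : Free P := by
  intro g hg x hx hx1 hgx
  have h1 := Subgroup.relIndex_mul_relIndex (CC P) (NN P ⊓ Cen x) (NN P) (cen_stab hab hx) inf_le_left
  rw [← h1] at he
  rcases (Nat.prime_mul_iff.1 he) with ⟨h2, h3⟩ | ⟨h2, h3⟩
  · exfalso
    apply hfix
    refine ⟨x, hx, hx1, fun t ht => ?_⟩
    rw [Subgroup.relIndex_eq_one] at h3
    have := (h3 ht).2
    rw [mul_inv_eq_iff_eq_mul]
    exact Subgroup.mem_centralizer_singleton_iff.1 this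
  · rw [Subgroup.relIndex_eq_one] at h3
    apply h3
    exact ⟨hg, Subgroup.mem_centralizer_singleton_iff.2 (mul_inv_eq_iff_eq_mul.1 hgx)⟩

/-- orbits have length `e` -/
theorem card_orbit [Fact p.Prime] {P : Sylow p G}
    (hab : ∀ x ∈ (P : Subgroup G), ∀ y ∈ (P : Subgroup G), x * y = y * x) (hf : Free P) {x : G}
    (hx : x ∈ (P : Subgroup G)) (hx1 : x ≠ 1) :
    Nat.card {y : (P : Subgroup G) // IsConj x (y : G)} = (CC P).relIndex (NN P) := by
  have h1 := H79.PCount.card_fiber P hab ⟨x, hx⟩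
  have h2 := relIndex_mul P
  have h3 : Nat.card (NN P ⊓ Cen x : Subgroup G) = Nat.card (CC P) := by rw [inf_eq_of_free hab hf hx hx1]
  change _ * Nat.card (NN P ⊓ Cen x : Subgroup G) = Nat.card (NN P) at h1
  rw [h3, ← h2] at h1
  exact Nat.eq_of_mul_eq_mul_right Nat.card_pos h1

/-- commutators, prime index -/
theorem comm_of_cyclic {P : Sylow p G}
    (he : IsCyclic (NN P ⧸ (CC P).subgroupOf (NN P))) :
    ∀ a ∈ NN P, ∀ b ∈ NN P, a * b * a⁻¹ * b⁻¹ ∈ CC P := by
  intro a ha b hb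
  letI := he.commGroup
  have h1 : (QuotientGroup.mk (⟨a, ha⟩ : NN P) : NN P ⧸ (CC P).subgroupOf (NN P)) * QuotientGroup.mk ⟨b, hb⟩ =
      QuotientGroup.mk ⟨b, hb⟩ * QuotientGroup.mk ⟨a, ha⟩ := mul_comm _ _
  have h2 : (QuotientGroup.mk ((⟨b, hb⟩ : NN P) * ⟨a, ha⟩) : NN P ⧸ (CC P).subgroupOf (NN P)) =
      QuotientGroup.mk ((⟨a, ha⟩ : NN P) * ⟨b, hb⟩) := h1.symm
  rw [QuotientGroup.eq] at h2
  have h3 : ((⟨b, hb⟩ : NN P) * ⟨a, ha⟩) * (((⟨b, hb⟩ : NN P) * ⟨a, ha⟩)⁻¹ * ((⟨a, ha⟩ : NN P) * ⟨b, hb⟩)) *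
      ((⟨b, hb⟩ : NN P) * ⟨a, ha⟩)⁻¹ ∈ (CC P).subgroupOf (NN P) := Subgroup.Normal.conj_mem inferInstance _ h2 _
  rw [Subgroup.mem_subgroupOf] at h3
  have h4 : ((((⟨b, hb⟩ : NN P) * ⟨a, ha⟩) * (((⟨b, hb⟩ : NN P) * ⟨a, ha⟩)⁻¹ * ((⟨a, ha⟩ : NN P) * ⟨b, hb⟩)) *
      ((⟨b, hb⟩ : NN P) * ⟨a, ha⟩)⁻¹ : NN P) : G) = a * b * a⁻¹ * b⁻¹ := by
    show (b * a) * ((b * a)⁻¹ * (a * b)) * (b * a)⁻¹ = a * b * a⁻¹ * b⁻¹
    group
  rw [h4] at h3
  exact h3

theorem comm_of_prime {P : Sylow p G} (he : ((CC P).relIndex (NN P)).Prime) :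
    ∀ a ∈ NN P, ∀ b ∈ NN P, a * b * a⁻¹ * b⁻¹ ∈ CC P := by
  haveI : Fact ((CC P).relIndex (NN P)).Prime := ⟨he⟩
  exact comm_of_cyclic (isCyclic_of_prime_card (p := (CC P).relIndex (NN P)) rfl)

end gen

section two
variable {M : Ideal AlgInt} {G : Type u} [Group G] [Finite G] {P : Sylow 2 G}
  (hab : ∀ x ∈ (P : Subgroup G), ∀ y ∈ (P : Subgroup G), x * y = y * x)

include hab

theorem exists_inv (hP : (P : Subgroup G) ≠ ⊥) : ∃ x ∈ (P : Subgroup G), orderOf x = 2 := by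
  haveI : Fact (Nat.Prime 2) := ⟨Nat.prime_two⟩
  obtain ⟨n, hn⟩ := IsPGroup.iff_card.1 P.2
  have hn0 : n ≠ 0 := by
    rintro rfl
    apply hP
    rw [pow_zero] at hn
    exact (Subgroup.card_eq_one).1 hn
  obtain ⟨x, hx⟩ := exists_prime_orderOf_dvd_card' (G := (P : Subgroup G)) 2 (by rw [hn]; exact dvd_pow_self 2 hn0)
  exact ⟨x, x.2, by rw [Subgroup.orderOf_coe]; exact hx⟩

/-- the orbit of an involution in `Ω₁(P)` -/
theorem orbit_le {x : G} (hx : x ∈ (P : Subgroup G)) (hx2 : orderOf x = 2) :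
    Nat.card {y : (P : Subgroup G) // IsConj x (y : G)} + 1 ≤ Nat.card (om (P : Subgroup G) hab) := by
  have key : ∀ y : {y : (P : Subgroup G) // IsConj x (y : G)}, orderOf ((y : (P : Subgroup G)) : G) = 2 := by
    rintro ⟨y, hy⟩
    obtain ⟨c, hc⟩ := isConj_iff.1 hy
    show orderOf (y : G) = 2
    rw [← hc, order_conj, hx2]
  let f : Option {y : (P : Subgroup G) // IsConj x (y : G)} → om (P : Subgroup G) hab := fun o =>
    match o with
    | none => 1
    | some y => ⟨((y : (P : Subgroup G)) : G), (y : (P : Subgroup G)).2, by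
        have h1 : orderOf ((y : (P : Subgroup G)) : G) ∣ 2 := by rw [key y]
        rw [← sq]
        exact orderOf_dvd_iff_pow_eq_one.1 h1⟩
  have hf : Function.Injective f := by
    intro a b hab'
    rcases a with _ | a <;> rcases b with _ | b
    · rfl
    · exfalso
      have h1 := key b
      have h2 : ((b : (P : Subgroup G)) : G) = 1 := (congrArg Subtype.val hab').symm
      rw [h2, orderOf_one] at h1
      omega
    · exfalso
      have h1 := key a
      have h2 : ((a : (P : Subgroup G)) : G) = 1 := congrArg Subtype.val hab'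
      rw [h2, orderOf_one] at h1
      omega
    · have h2 : ((a : (P : Subgroup G)) : G) = ((b : (P : Subgroup G)) : G) :=
        congrArg (fun z : om (P : Subgroup G) hab => (z : G)) hab'
      congr 1
      exact Subtype.ext (Subtype.ext h2)
  have := Nat.card_le_card_of_injective f hf
  rwa [Finite.card_option] at this

theorem card_om : ∃ n, Nat.card (om (P : Subgroup G) hab) = 2 ^ n := by
  haveI : Fact (Nat.Prime 2) := ⟨Nat.prime_two⟩
  have h1 : IsPGroup 2 (om (P : Subgroup G) hab) := IsPGroup.to_le P.isPGroup' (fun x hx => hx.1)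
  exact IsPGroup.iff_card.1 h1

theorem om_eight (hf : Free P) (he : 5 ≤ (CC P).relIndex (NN P)) :
    8 ≤ Nat.card (om (P : Subgroup G) hab) := by
  haveI : Fact (Nat.Prime 2) := ⟨Nat.prime_two⟩
  have hP : (P : Subgroup G) ≠ ⊥ := by
    intro h
    have h1 : CC P = ⊤ := by
      rw [eq_top_iff]
      intro g _
      rw [Subgroup.mem_centralizer_iff]
      intro x hx
      have h2 : x = 1 := by rw [h] at hx; exact Subgroup.mem_bot.1 hx
      rw [h2, one_mul, mul_one]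
    rw [h1, Subgroup.relIndex_top_left] at he
    omega
  obtain ⟨x, hx, hx2⟩ := exists_inv hab hP
  have hx1 : x ≠ 1 := by rintro rfl; rw [orderOf_one] at hx2; omega
  have h1 := orbit_le hab hx hx2
  rw [card_orbit hab hf hx hx1] at h1
  obtain ⟨n, hn⟩ := card_om hab
  rw [hn] at h1 ⊢
  have h3 : 3 ≤ n := by
    by_contra hlt
    have : 2 ^ n ≤ 2 ^ 2 := Nat.pow_le_pow_right (by norm_num) (by omega)
    omega
  calc 8 = 2 ^ 3 := by norm_num
    _ ≤ 2 ^ n := Nat.pow_le_pow_right (by norm_num) h3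

theorem hnil (hf : Free P) {x : G} (hx : x ∈ (P : Subgroup G)) (hx2 : orderOf x = 2) :
    ∃ k : ℕ, (pPrimeCore 2 (Cen x)).index = 2 ^ k := by
  haveI : Fact (Nat.Prime 2) := ⟨Nat.prime_two⟩
  have hx1 : x ≠ 1 := by rintro rfl; rw [orderOf_one] at hx2; omega
  have hPC : (P : Subgroup G) ≤ Cen x := fun y hy => Subgroup.mem_centralizer_singleton_iff.2 (hab y hy x hx)
  exact H20.V4.index_pPrimeCore_of_complement (P.subtype hPC)
    (sub_le_cen hPC (inf_eq_of_free hab hf hx hx1).le)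

theorem comm_HH {W : Subgroup G} (h : Cfg P W) (hA : ∀ a ∈ NN P, ∀ b ∈ NN P, a * b * a⁻¹ * b⁻¹ ∈ CC P) :
    ∀ a ∈ HH P W, ∀ b ∈ HH P W, a * b * a⁻¹ * b⁻¹ ∈ MM P W := by
  intro a ha b hb
  obtain ⟨w, hw, n, hn, rfl⟩ := h.mem_H.1 ha
  obtain ⟨w', hw', n', hn', rfl⟩ := h.mem_H.1 hb
  have hCM : CC P ≤ MM P W := by
    obtain ⟨t, ht, ht2⟩ := h.hinv
    refine le_trans ?_ (h.hC t ht ht2)
    intro g hg
    rw [Subgroup.mem_centralizer_singleton_iff]
    exact (Subgroup.mem_centralizer_iff.1 hg t ht).symm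
  have h1 : n * w' * n⁻¹ ∈ MM P W := h.W_le_M (h.conj_W (h.N_le_H hn) hw')
  have h2 : (n * n' * n⁻¹) * w⁻¹ * (n * n' * n⁻¹)⁻¹ ∈ MM P W :=
    h.W_le_M (h.conj_W (h.N_le_H ((NN P).mul_mem ((NN P).mul_mem hn hn') ((NN P).inv_mem hn))) (W.inv_mem hw))
  have h3 := hCM (hA n hn n' hn')
  have h4 : w * n * (w' * n') * (w * n)⁻¹ * (w' * n')⁻¹ =
      w * (n * w' * n⁻¹) * ((n * n' * n⁻¹) * w⁻¹ * (n * n' * n⁻¹)⁻¹) * (n * n' * n⁻¹ * n'⁻¹) * w'⁻¹ := by
    group
  rw [h4]
  exact Subgroup.mul_mem _ (Subgroup.mul_mem _ (Subgroup.mul_mem _ (Subgroup.mul_mem _ (h.W_le_M hw) h1) h2) h3)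
    (h.W_le_M (W.inv_mem hw'))

theorem card_cfg {W : Subgroup G} (h : Cfg P W) (hf : Free P) (hel : ∀ x ∈ (P : Subgroup G), x * x = 1) :
    Nat.card (P : Subgroup G) = (CC P).relIndex (NN P) + 1 := by
  haveI : Fact (Nat.Prime 2) := ⟨Nat.prime_two⟩
  obtain ⟨t, ht, ht2⟩ := h.hinv
  have ht1 : t ≠ 1 := by rintro rfl; rw [orderOf_one] at ht2; omega
  rw [← card_orbit hab hf ht ht1, ← Finite.card_option]
  symm
  let f : Option {y : (P : Subgroup G) // IsConj t (y : G)} → (P : Subgroup G) := fun o =>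
    match o with
    | none => 1
    | some y => y
  have hne : ∀ y : {y : (P : Subgroup G) // IsConj t (y : G)}, (y : (P : Subgroup G)) ≠ 1 := by
    rintro ⟨y, hy⟩ h1
    have h2 : (y : G) = 1 := congrArg Subtype.val h1
    rw [h2] at hy
    exact ht1 (isConj_one_left.1 hy)
  refine Nat.card_congr (Equiv.ofBijective f ⟨?_, ?_⟩)
  · intro a b hab'
    rcases a with _ | a <;> rcases b with _ | b
    · rfl
    · exact absurd (hab'.symm : (b : (P : Subgroup G)) = 1) (hne b)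
    · exact absurd (hab' : (a : (P : Subgroup G)) = 1) (hne a)
    · congr 1
      exact Subtype.ext hab'
  · intro y
    by_cases hy : y = 1
    · exact ⟨none, hy.symm⟩
    · have hy1 : (y : G) ≠ 1 := fun h1 => hy (Subtype.ext h1)
      have hy2 : orderOf (y : G) = 2 := orderOf_eq_prime (by rw [sq]; exact hel y y.2) hy1
      obtain ⟨k, -, hk⟩ := h.conj_inv (h.P_le_H ht) ht2 (h.P_le_H y.2) hy2
      exact ⟨some ⟨y, isConj_iff.2 ⟨k, hk⟩⟩, rfl⟩

theorem P_ne_bot (he : (CC P).relIndex (NN P) ≠ 1) : (P : Subgroup G) ≠ ⊥ := by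
  intro h
  apply he
  have h1 : CC P = ⊤ := by
    rw [eq_top_iff]
    intro g _
    rw [Subgroup.mem_centralizer_iff]
    intro x hx
    have h2 : x = 1 := by rw [h] at hx; exact Subgroup.mem_bot.1 hx
    rw [h2, one_mul, mul_one]
  rw [h1, Subgroup.relIndex_top_left]

/-- elementary strongly embedded case -/
theorem of_cfg (hM : IsPModular 2 M) {W : Subgroup G} (h : Cfg P W) (hf : Free P)
    (hel : ∀ x ∈ (P : Subgroup G), x * x = 1)
    (hA : ∀ a ∈ NN P, ∀ b ∈ NN P, a * b * a⁻¹ * b⁻¹ ∈ CC P) :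
    blockRank 2 (principalBlock M G) = (CC P).relIndex (NN P) ∧
      Nat.card (principalBlock M G) = Nat.card (P : Subgroup G) := by
  have h1 := h.card_block hel (comm_HH hab h hA) hM
  refine ⟨?_, h1⟩
  have hP : (P : Subgroup G) ≠ ⊥ := by
    intro h0
    obtain ⟨t, ht, ht2⟩ := h.hinv
    rw [h0] at ht
    rw [Subgroup.mem_bot.1 ht, orderOf_one] at ht2
    omega
  obtain ⟨-, h2, -⟩ := H79.PrincFree.main hM P hP hab hf rfl
  rw [h1, card_cfg hab h hf hel] at h2
  change (CC P).relIndex (NN P) * _ + 1 = (CC P).relIndex (NN P) * _ + _ at h2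
  have hpos : 0 < (CC P).relIndex (NN P) := by
    have := relIndex_mul P
    by_contra h0
    rw [Nat.eq_zero_of_not_pos h0, zero_mul] at this
    have := Nat.card_pos (α := NN P)
    omega
  set e := (CC P).relIndex (NN P)
  have h3 : e * e = e * blockRank 2 (principalBlock M G) := by
    have : e * (e + 1) = e * e + e := by ring
    omega
  exact (Nat.eq_of_mul_eq_mul_left hpos h3).symm

/-- the normal case -/
theorem of_normal (hM : IsPModular 2 M) (hO : pPrimeCore 2 G = ⊥) (hn : (P : Subgroup G).Normal)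
    (hP : (P : Subgroup G) ≠ ⊥) (hf : Free P)
    (hA : ∀ a ∈ NN P, ∀ b ∈ NN P, a * b * a⁻¹ * b⁻¹ ∈ CC P) :
    blockRank 2 (principalBlock M G) = (CC P).relIndex (NN P) := by
  obtain ⟨h1, h2, -⟩ := H79.PrincFree.main hM P hP hab hf rfl
  apply le_antisymm h1
  have hC : CC P = (P : Subgroup G) := H20.Homo5.centralizer_eq P hab hn (fun N hN hodd => by
    have h3 : N ≤ pPrimeCore 2 G := H1.Cores.le_pPrimeCore hN (Nat.coprime_two_right.2 hodd)
    rw [hO] at h3
    exact le_bot_iff.1 h3)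
  have hN : NN P = ⊤ := Subgroup.normalizer_eq_top_iff.2 hn
  have h3 := H79.NormLow.rank_ge hM P hn hC.le (fun a b => by
    rw [← hC]
    exact hA a (by rw [hN]; exact Subgroup.mem_top _) b (by rw [hN]; exact Subgroup.mem_top _))
  change (CC P).relIndex (NN P) ≤ _
  rw [hC, hN, Subgroup.relIndex_top_right]
  exact h3

end two

section red
variable {G : Type u} [Group G] [Finite G] {P : Sylow 2 G}

theorem ab_PQ (hab : ∀ x ∈ (P : Subgroup G), ∀ y ∈ (P : Subgroup G), x * y = y * x)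
    (Q : Subgroup G) [Q.Normal] [Fact (Nat.Prime 2)] :
    ∀ x ∈ (PQ P Q : Subgroup (G ⧸ Q)), ∀ y ∈ (PQ P Q : Subgroup (G ⧸ Q)), x * y = y * x := by
  intro x hx y hy
  obtain ⟨a, ha, rfl⟩ := (mem_PQ Q).1 hx
  obtain ⟨b, hb, rfl⟩ := (mem_PQ Q).1 hy
  rw [← QuotientGroup.mk_mul, hab a ha b hb, QuotientGroup.mk_mul]

theorem card_PQ (Q : Subgroup G) [Q.Normal] [Fact (Nat.Prime 2)] :
    Nat.card (PQ P Q : Subgroup (G ⧸ Q)) ≤ Nat.card (P : Subgroup G) := by
  let f : ↥(P : Subgroup G) → ↥(PQ P Q : Subgroup (G ⧸ Q)) := fun x => ⟨QuotientGroup.mk (x : G), (mem_PQ Q).2 ⟨x, x.2, rfl⟩⟩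
  apply Nat.card_le_card_of_surjective f
  rintro ⟨y, hy⟩
  obtain ⟨x, hx, h1⟩ := (mem_PQ Q).1 hy
  exact ⟨⟨x, hx⟩, Subtype.ext h1⟩

theorem odd_two [Fact (Nat.Prime 2)] {q : G} (hq : q ∈ pPrimeCore 2 G) (hP : q ∈ (P : Subgroup G)) : q = 1 := by
  have h1 : Odd (orderOf q) := by
    have h2 : (Nat.card (pPrimeCore 2 G)).Coprime 2 := H1.Cores.coprime_card_pPrimeCore 2
    exact odd_of_mem_odd (Nat.coprime_two_right.1 h2) hq
  obtain ⟨k, hk⟩ := (IsPGroup.iff_orderOf.1 P.isPGroup') ⟨q, hP⟩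
  rw [Subgroup.orderOf_mk] at hk
  rw [hk] at h1
  rcases Nat.eq_zero_or_pos k with rfl | hk0
  · rw [pow_zero] at hk
    exact orderOf_eq_one_iff.1 hk
  · exfalso
    have : Even (2 ^ k) := (even_two).pow_of_ne_zero (by omega)
    exact (Nat.not_even_iff_odd.2 h1) this

theorem card_quot_lt {Q : Subgroup G} {N : ℕ} (hQ : Q ≠ ⊥) (hN : Nat.card G ≤ N + 1) : Nat.card (G ⧸ Q) ≤ N := by
  have h1 := Subgroup.card_mul_index Q
  have h2 : 2 ≤ Nat.card Q := by
    have h3 : 0 < Nat.card Q := Nat.card_pos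
    by_contra h
    exact hQ (Subgroup.card_eq_one.1 (by omega))
  have h4 : Q.index = Nat.card (G ⧸ Q) := rfl
  rw [h4] at h1
  have h5 : 0 < Nat.card (G ⧸ Q) := Nat.card_pos
  nlinarith

/-- a fixed element gives a fixed involution -/
theorem exists_fix_inv [Fact (Nat.Prime 2)]
    (hfix : ∃ x ∈ (P : Subgroup G), x ≠ 1 ∧ ∀ t ∈ NN P, t * x * t⁻¹ = x) :
    ∃ x ∈ (P : Subgroup G), orderOf x = 2 ∧ ∀ t ∈ NN P, t * x * t⁻¹ = x := by
  obtain ⟨x, hx, hx1, hxf⟩ := hfix
  obtain ⟨k, hk⟩ := (IsPGroup.iff_orderOf.1 P.isPGroup') ⟨x, hx⟩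
  rw [Subgroup.orderOf_mk] at hk
  rcases Nat.eq_zero_or_pos k with rfl | hk0
  · rw [pow_zero] at hk
    exact absurd (orderOf_eq_one_iff.1 hk) hx1
  refine ⟨x ^ 2 ^ (k - 1), (P : Subgroup G).pow_mem hx _, ?_, ?_⟩
  · have h2 : orderOf x = 2 ^ (k - 1) * 2 := by
      rw [hk, ← pow_succ]; congr 1; omega
    rw [orderOf_pow_of_dvd (by positivity) (by rw [h2]; exact Dvd.intro _ rfl), h2,
      Nat.mul_div_cancel_left _ (by positivity)]
  · intro t ht
    rw [← conj_pow, hxf t ht]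

end red

/-- `l(B₀) = e` for prime `e` -/
theorem T1 (n : ℕ) (hFT : ∀ (K : Type u) [Group K] [Finite K], Odd (Nat.card K) → Group.IsSolvable K)
    (hD : ∀ (K : Type u) [Group K] [Finite K] (Q : Sylow 2 K) (W : Subgroup K),
      Nat.card (Q : Subgroup K) ≤ n → ∀ h : Cfg Q W, 8 ≤ Nat.card (om (Q : Subgroup K) h.hab) →
      ∀ x ∈ (Q : Subgroup K), x * x = 1)
    {M : Ideal AlgInt} (hM : IsPModular 2 M) :
    ∀ (N : ℕ) (G : Type u) [Group G] [Finite G], Nat.card G ≤ N → ∀ P : Sylow 2 G,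
      (∀ x ∈ (P : Subgroup G), ∀ y ∈ (P : Subgroup G), x * y = y * x) → Nat.card (P : Subgroup G) ≤ n →
      ((CC P).relIndex (NN P)).Prime → blockRank 2 (principalBlock M G) = (CC P).relIndex (NN P) := by
  haveI : Fact (Nat.Prime 2) := ⟨Nat.prime_two⟩
  intro N
  induction N with
  | zero =>
    intro G _ _ hN
    have := Nat.card_pos (α := G)
    omega
  | succ N ih =>
    intro G _ _ hN P hab hn he
    by_cases hO : pPrimeCore 2 G = ⊥
    swap
    · have h1 : ∀ q ∈ pPrimeCore 2 G, q ∈ (P : Subgroup G) → q = 1 := fun q hq hP => odd_two hq hP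
      have h2 := quot_odd (P := P) (pPrimeCore 2 G) h1
      have h3 := ih (G ⧸ pPrimeCore 2 G) (card_quot_lt hO hN) (PQ P (pPrimeCore 2 G)) (ab_PQ hab _)
        ((card_PQ _).trans hn) (by rw [h2]; exact he)
      rw [h2, H79.PQuot.rank_core hM] at h3
      exact h3
    by_cases hfix : ∃ x ∈ (P : Subgroup G), x ≠ 1 ∧ ∀ t ∈ NN P, t * x * t⁻¹ = x
    · obtain ⟨z, hz, hz2, hzf⟩ := exists_fix_inv hfix
      rw [rank_cen hM P hab hz hzf]
      have hPC : (P : Subgroup G) ≤ Cen z := fun y hy => Subgroup.mem_centralizer_singleton_iff.2 (hab y hy z hz)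
      have hNC : NN P ≤ Cen z := fun t ht =>
        Subgroup.mem_centralizer_singleton_iff.2 (mul_inv_eq_iff_eq_mul.1 (hzf t ht))
      have h1 := sub_eq hPC hNC
      obtain ⟨z', hz'⟩ : ∃ z' : Cen z, z' = ⟨z, Subgroup.mem_centralizer_singleton_iff.2 rfl⟩ := ⟨_, rfl⟩
      obtain ⟨Z, hZ⟩ : ∃ Z : Subgroup (Cen z), Z = Subgroup.zpowers z' := ⟨_, rfl⟩
      have hzo : orderOf z' = 2 := by rw [hz', Subgroup.orderOf_mk]; exact hz2
      have hzc : ∀ g : Cen z, Commute z' g := by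
        rintro ⟨g, hg⟩
        apply Subtype.ext
        rw [hz']
        exact (Subgroup.mem_centralizer_singleton_iff.1 hg).symm
      have hQc : ∀ q ∈ Z, ∀ g : Cen z, q * g = g * q := by
        intro q hq g
        rw [hZ] at hq
        obtain ⟨i, rfl⟩ := Subgroup.mem_zpowers_iff.1 hq
        exact (hzc g).zpow_left i
      haveI : Z.Normal := ⟨fun q hq g => by rw [← hQc q hq g, mul_inv_cancel_right]; exact hq⟩
      have hZ2 : Nat.card Z = 2 := by rw [hZ, Nat.card_zpowers, hzo]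
      have hZp : IsPGroup 2 Z := IsPGroup.of_card (n := 1) (by rw [hZ2, pow_one])
      have hZc : Subgroup.centralizer (Z : Set (Cen z)) = ⊤ := by
        rw [eq_top_iff]
        intro g _
        rw [Subgroup.mem_centralizer_iff]
        exact fun q hq => hQc q hq g
      have hrk := Cfsg.Agent.S4571.result 2 M hM Z hZp (by rw [hZc, sup_top_eq])
      rw [hrk]
      have hZP : Z ≤ (P.subtype hPC : Subgroup (Cen z)) := by
        rw [hZ, Subgroup.zpowers_le, hz']
        exact hz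
      have hab' : ∀ x ∈ (P.subtype hPC : Subgroup (Cen z)), ∀ y ∈ (P.subtype hPC : Subgroup (Cen z)), x * y = y * x :=
        fun x hx y hy => Subtype.ext (hab x hx y hy)
      have h2 := quot_central (P := P.subtype hPC) Z rfl hab' hZP hQc (fun q hq => by
        have h3 : (⟨q, hq⟩ : Z) ^ Nat.card Z = 1 := pow_card_eq_one'
        rw [hZ2] at h3
        rw [← sq]
        exact congrArg Subtype.val h3)
      have hc1 : Nat.card (P.subtype hPC : Subgroup (Cen z)) = Nat.card (P : Subgroup G) :=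
        Nat.card_congr (Subgroup.subgroupOfEquivOfLe hPC).toEquiv
      have hZb : Z ≠ ⊥ := by
        intro h0
        rw [h0, Subgroup.card_bot] at hZ2
        omega
      have h3 := ih (Cen z ⧸ Z) (card_quot_lt hZb ((Subgroup.card_le_card_group _).trans hN))
        (PQ (P.subtype hPC) Z) (ab_PQ hab' _) ((card_PQ _).trans (hc1.le.trans hn)) (by rw [h2, h1]; exact he)
      rw [h2, h1] at h3
      exact h3
    · have hf := free_of_prime hab he hfix
      have hP := P_ne_bot hab he.ne_one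
      by_cases h5 : (CC P).relIndex (NN P) ≤ 3
      · exact (H79.PrincFree.main hM P hP hab hf rfl).2.2 h5
      have h5' : 5 ≤ (CC P).relIndex (NN P) := by
        by_contra h6
        have h7 : (CC P).relIndex (NN P) = 4 := by omega
        rw [h7] at he
        exact absurd he (by norm_num)
      rcases exists_cfg hFT P hab (om_eight hab hf h5') (fun x hx hx2 => hnil hab hf hx hx2) hO with ⟨W, hW⟩ | hn'
      · exact (of_cfg hab hM hW hf (hD G P W hn hW (om_eight hab hf h5')) (comm_of_prime he)).1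
      · exact of_normal hab hM hO hn' hP hf (comm_of_prime he)

end H79.PE
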