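import Mathlib
import Cfsg.Agent.Lib.H79.PrimeE
import Cfsg.Agent.S4691
import Cfsg.Agent.S4646
import Cfsg.Agent.S4569

/-! Principal 2-blocks with abelian Sylow subgroup of order 8 or 16. -/

set_option autoImplicit false
set_option linter.unusedSectionVars false
set_option linter.unusedVariables false
set_option linter.style.haveILetI false
open Cfsg H20.Col H79.EIdx H79.SE H79.PE

namespace H79.Sixteen

universe u

theorem comm15 {E : Type*} [Group E] [Finite E] (h : Nat.card E = 15) : ∀ a b : E, a * b = b * a := by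
  haveI : Fact (Nat.Prime 5) := ⟨by norm_num⟩
  haveI : Fact (Nat.Prime 3) := ⟨by norm_num⟩
  obtain ⟨A⟩ : Nonempty (Sylow 5 E) := inferInstance
  obtain ⟨B⟩ : Nonempty (Sylow 3 E) := inferInstance
  have hA : Nat.card (A : Subgroup E) = 5 := by
    obtain ⟨k, hk⟩ := IsPGroup.iff_card.1 A.2
    have h1 := Subgroup.card_mul_index (A : Subgroup E)
    have h2 := A.not_dvd_index
    rw [h] at h1
    rcases k with _ | _ | k
    · rw [hk, pow_zero, one_mul] at h1
      rw [h1] at h2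
      exact absurd (by norm_num) h2
    · rw [hk]; norm_num
    · exfalso
      have : 25 ∣ 15 := by
        rw [← h1, hk]
        exact (Dvd.intro _ (by ring : 25 * 5 ^ k = 5 ^ (k + 1 + 1))).trans (Dvd.intro _ rfl)
      omega
  have hB : Nat.card (B : Subgroup E) = 3 := by
    obtain ⟨k, hk⟩ := IsPGroup.iff_card.1 B.2
    have h1 := Subgroup.card_mul_index (B : Subgroup E)
    have h2 := B.not_dvd_index
    rw [h] at h1
    rcases k with _ | _ | k
    · rw [hk, pow_zero, one_mul] at h1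
      rw [h1] at h2
      exact absurd (by norm_num) h2
    · rw [hk]; norm_num
    · exfalso
      have : 9 ∣ 15 := by
        rw [← h1, hk]
        exact (Dvd.intro _ (by ring : 9 * 3 ^ k = 3 ^ (k + 1 + 1))).trans (Dvd.intro _ rfl)
      omega
  have hAi : (A : Subgroup E).index = 3 := by
    have h1 := Subgroup.card_mul_index (A : Subgroup E)
    rw [h, hA] at h1; omega
  have hBi : (B : Subgroup E).index = 5 := by
    have h1 := Subgroup.card_mul_index (B : Subgroup E)
    rw [h, hB] at h1; omega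
  have hAn : (A : Subgroup E).Normal := by
    have h1 := card_sylow_modEq_one 5 E
    have h2 := A.card_dvd_index
    rw [hAi] at h2
    have h3 : Nat.card (Sylow 5 E) = 1 := by
      have := Nat.le_of_dvd (by norm_num) h2
      interval_cases h4 : Nat.card (Sylow 5 E) <;> simp_all [Nat.ModEq]
    have h4 := A.card_eq_index_normalizer
    rw [h3] at h4
    exact Subgroup.normalizer_eq_top_iff.1 (Subgroup.index_eq_one.1 h4.symm)
  have hBn : (B : Subgroup E).Normal := by
    have h1 := card_sylow_modEq_one 3 E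
    have h2 := B.card_dvd_index
    rw [hBi] at h2
    have h3 : Nat.card (Sylow 3 E) = 1 := by
      have := Nat.le_of_dvd (by norm_num) h2
      interval_cases h4 : Nat.card (Sylow 3 E) <;> simp_all [Nat.ModEq]
    have h4 := B.card_eq_index_normalizer
    rw [h3] at h4
    exact Subgroup.normalizer_eq_top_iff.1 (Subgroup.index_eq_one.1 h4.symm)
  have hd : Disjoint (A : Subgroup E) (B : Subgroup E) := by
    apply Subgroup.disjoint_of_coprime_natCard
    rw [hA, hB]; norm_num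
  have hsup : (A : Subgroup E) ⊔ (B : Subgroup E) = ⊤ := by
    apply Subgroup.eq_top_of_card_eq
    apply le_antisymm (Subgroup.card_le_card_group _)
    rw [h]
    apply Nat.le_of_dvd Nat.card_pos
    have h1 : 5 ∣ Nat.card ((A : Subgroup E) ⊔ (B : Subgroup E) : Subgroup E) := by
      exact (dvd_of_eq hA.symm).trans (Subgroup.card_dvd_of_le le_sup_left)
    have h2 : 3 ∣ Nat.card ((A : Subgroup E) ⊔ (B : Subgroup E) : Subgroup E) := by
      exact (dvd_of_eq hB.symm).trans (Subgroup.card_dvd_of_le le_sup_right)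
    exact Nat.Coprime.mul_dvd_of_dvd_of_dvd (by norm_num : Nat.Coprime 5 3) h1 h2
  have hAc : ∀ x ∈ (A : Subgroup E), ∀ y ∈ (A : Subgroup E), x * y = y * x := by
    intro x hx y hy
    haveI := isCyclic_of_prime_card (p := 5) hA
    letI := IsCyclic.commGroup (α := (A : Subgroup E))
    exact congrArg Subtype.val (mul_comm (⟨x, hx⟩ : (A : Subgroup E)) ⟨y, hy⟩)
  have hBc : ∀ x ∈ (B : Subgroup E), ∀ y ∈ (B : Subgroup E), x * y = y * x := by
    intro x hx y hy
    haveI := isCyclic_of_prime_card (p := 3) hB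
    letI := IsCyclic.commGroup (α := (B : Subgroup E))
    exact congrArg Subtype.val (mul_comm (⟨x, hx⟩ : (B : Subgroup E)) ⟨y, hy⟩)
  have hABc : ∀ x ∈ (A : Subgroup E), ∀ y ∈ (B : Subgroup E), x * y = y * x := fun x hx y hy =>
    Subgroup.commute_of_normal_of_disjoint _ _ hAn hBn hd x y hx hy
  have hcen : Subgroup.center E = ⊤ := by
    rw [eq_top_iff, ← hsup]
    apply sup_le
    · intro x hx
      rw [Subgroup.mem_center_iff]
      have h1 : (⊤ : Subgroup E) ≤ Subgroup.centralizer {x} := by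
        rw [← hsup]
        apply sup_le
        · intro y hy; exact Subgroup.mem_centralizer_singleton_iff.2 (hAc y hy x hx)
        · intro y hy; exact Subgroup.mem_centralizer_singleton_iff.2 (hABc x hx y hy).symm
      intro g
      exact Subgroup.mem_centralizer_singleton_iff.1 (h1 (Subgroup.mem_top g))
    · intro x hx
      rw [Subgroup.mem_center_iff]
      have h1 : (⊤ : Subgroup E) ≤ Subgroup.centralizer {x} := by
        rw [← hsup]
        apply sup_le
        · intro y hy; exact Subgroup.mem_centralizer_singleton_iff.2 (hABc y hy x hx)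
        · intro y hy; exact Subgroup.mem_centralizer_singleton_iff.2 (hBc y hy x hx)
      intro g
      exact Subgroup.mem_centralizer_singleton_iff.1 (h1 (Subgroup.mem_top g))
  intro a b
  have : b ∈ Subgroup.center E := by rw [hcen]; exact Subgroup.mem_top _
  exact Subgroup.mem_center_iff.1 this a

section gen
variable {G : Type u} [Group G] [Finite G] {P : Sylow 2 G}

/-- elements of `P` fixed by `N(P)` -/
abbrev Fx (P : Sylow 2 G) : Subgroup G := (P : Subgroup G) ⊓ Subgroup.centralizer (NN P : Set G)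

theorem mem_Fx {x : G} : x ∈ Fx P ↔ x ∈ (P : Subgroup G) ∧ ∀ t ∈ NN P, t * x * t⁻¹ = x := by
  constructor
  · rintro ⟨h1, h2⟩
    refine ⟨h1, fun t ht => ?_⟩
    rw [mul_inv_eq_iff_eq_mul]
    exact Subgroup.mem_centralizer_iff.1 h2 t ht
  · rintro ⟨h1, h2⟩
    refine ⟨h1, Subgroup.mem_centralizer_iff.2 fun t ht => ?_⟩
    exact mul_inv_eq_iff_eq_mul.1 (h2 t ht)

theorem card_Fx : ∃ k, Nat.card (Fx P) = 2 ^ k := by
  haveI : Fact (Nat.Prime 2) := ⟨Nat.prime_two⟩
  exact IsPGroup.iff_card.1 (IsPGroup.to_le P.isPGroup' (inf_le_left : Fx P ≤ P))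

theorem card_Fx_lt (hx : ∃ x ∈ (P : Subgroup G), x ∉ Fx P) : Nat.card (Fx P) < Nat.card (P : Subgroup G) := by
  obtain ⟨x, hx, hxF⟩ := hx
  have h1 : Fx P < (P : Subgroup G) := lt_of_le_of_ne inf_le_left (fun h => hxF (h ▸ hx))
  rcases lt_or_eq_of_le (Nat.card_le_card_of_injective _ (Subgroup.inclusion_injective h1.le)) with h2 | h2
  · exact h2
  · exact absurd (Subgroup.eq_of_le_of_card_ge h1.le h2.ge) h1.ne

variable (hab : ∀ x ∈ (P : Subgroup G), ∀ y ∈ (P : Subgroup G), x * y = y * x)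
include hab

theorem inf_of_not_Fx (he : ((CC P).relIndex (NN P)).Prime) {x : G} (hx : x ∈ (P : Subgroup G)) (hxF : x ∉ Fx P) :
    NN P ⊓ Cen x = CC P := by
  haveI : Fact (Nat.Prime 2) := ⟨Nat.prime_two⟩
  apply le_antisymm _ (cen_stab hab hx)
  have h1 := Subgroup.relIndex_mul_relIndex (CC P) (NN P ⊓ Cen x) (NN P) (cen_stab hab hx) inf_le_left
  rw [← h1] at he
  rcases (Nat.prime_mul_iff.1 he) with ⟨h2, h3⟩ | ⟨h2, h3⟩
  · exfalso
    apply hxF
    rw [mem_Fx]
    refine ⟨hx, fun t ht => ?_⟩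
    rw [Subgroup.relIndex_eq_one] at h3
    have := (h3 ht).2
    rw [mul_inv_eq_iff_eq_mul]
    exact Subgroup.mem_centralizer_singleton_iff.1 this
  · rw [Subgroup.relIndex_eq_one] at h3
    exact h3

theorem sub_card {x : G} (hx : x ∈ (P : Subgroup G)) (hPC : (P : Subgroup G) ≤ Cen x) :
    Nat.card (P.subtype hPC : Subgroup (Cen x)) = Nat.card (P : Subgroup G) :=
  Nat.card_congr (Subgroup.subgroupOfEquivOfLe hPC).toEquiv

/-- rank one when the inertial quotient of the centralizer is trivial -/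
theorem rank_one {M : Ideal AlgInt} (hM : IsPModular 2 M) {x : G} (hx : x ∈ (P : Subgroup G)) (hx1 : x ≠ 1)
    (hC : NN P ⊓ Cen x ≤ CC P) : blockRank 2 (principalBlock M (Cen x)) = 1 := by
  haveI : Fact (Nat.Prime 2) := ⟨Nat.prime_two⟩
  have hPC : (P : Subgroup G) ≤ Cen x := fun y hy => Subgroup.mem_centralizer_singleton_iff.2 (hab y hy x hx)
  have h1 := sub_one hPC hC
  have h2 := sub_le_cen hPC hC
  have hab' : ∀ x' ∈ (P.subtype hPC : Subgroup (Cen x)), ∀ y ∈ (P.subtype hPC : Subgroup (Cen x)), x' * y = y * x' :=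
    fun x hx y hy => Subtype.ext (hab x hx y hy)
  have hP' : (P.subtype hPC : Subgroup (Cen x)) ≠ ⊥ := by
    intro h0
    have h3 : (⟨x, hPC hx⟩ : Cen x) ∈ (P.subtype hPC : Subgroup (Cen x)) := hx
    rw [h0, Subgroup.mem_bot] at h3
    exact hx1 (congrArg Subtype.val h3)
  exact (H79.PrincFree.main hM (P.subtype hPC) hP' hab' (fun g hg _ _ _ _ => h2 hg) h1).2.2 (by norm_num)

theorem count_prime {M : Ideal AlgInt} (hM : IsPModular 2 M) {n : ℕ} (hn : Nat.card (P : Subgroup G) ≤ n)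
    (hT : ∀ (K : Type u) [Group K] [Finite K] (Q : Sylow 2 K),
      (∀ x ∈ (Q : Subgroup K), ∀ y ∈ (Q : Subgroup K), x * y = y * x) → Nat.card (Q : Subgroup K) ≤ n →
      ((CC Q).relIndex (NN Q)).Prime → blockRank 2 (principalBlock M K) = (CC Q).relIndex (NN Q))
    (he : ((CC P).relIndex (NN P)).Prime) :
    Nat.card (principalBlock M G) * (CC P).relIndex (NN P) =
      Nat.card (Fx P) * (CC P).relIndex (NN P) * (CC P).relIndex (NN P) +
        (Nat.card (P : Subgroup G) - Nat.card (Fx P)) := by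
  classical
  haveI : Fact (Nat.Prime 2) := ⟨Nat.prime_two⟩
  letI := Fintype.ofFinite (P : Subgroup G)
  obtain ⟨e, he'⟩ : ∃ e, e = (CC P).relIndex (NN P) := ⟨_, rfl⟩
  rw [← he'] at he ⊢
  have h1 := H79.PCount.count hM P hab (fun x => if (x : G) ∈ Fx P then e else 1)
    (by
      have : ((1 : (P : Subgroup G)) : G) ∈ Fx P := Subgroup.one_mem _
      rw [if_pos this, he']
      exact (hT G P hab hn (he' ▸ he)).symm)
    (by
      intro x hx1
      have hx1' : (x : G) ≠ 1 := fun h => hx1 (Subtype.ext h)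
      have hPC : (P : Subgroup G) ≤ Cen (x : G) := fun y hy =>
        Subgroup.mem_centralizer_singleton_iff.2 (hab y hy x x.2)
      by_cases hxF : (x : G) ∈ Fx P
      · rw [if_pos hxF]
        have hNC : NN P ≤ Cen (x : G) := fun t ht =>
          Subgroup.mem_centralizer_singleton_iff.2 (mul_inv_eq_iff_eq_mul.1 ((mem_Fx.1 hxF).2 t ht))
        have h2 := sub_eq hPC hNC
        rw [hT (Cen (x : G)) (P.subtype hPC) (fun x hx y hy => Subtype.ext (hab x hx y hy))
          (by rw [sub_card hab x.2 hPC]; exact hn) (by rw [h2, ← he']; exact he), h2, he']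
      · rw [if_neg hxF]
        exact rank_one hab hM x.2 hx1' (inf_of_not_Fx hab (he' ▸ he) x.2 hxF).le)
    (by
      intro x y hxy
      have key : ∀ x y : (P : Subgroup G), IsConj (x : G) (y : G) → (x : G) ∈ Fx P → (y : G) ∈ Fx P := by
        intro x y hxy hx
        obtain ⟨n, hn, h2⟩ := H79.PCount.fusion P hab x.2 y.2 hxy
        rw [(mem_Fx.1 hx).2 n hn] at h2
        rw [← h2]; exact hx
      by_cases hx : (x : G) ∈ Fx P
      · rw [if_pos hx, if_pos (key x y hxy hx)]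
      · rw [if_neg hx, if_neg (fun h => hx (key y x hxy.symm h))])
  have h2 := relIndex_mul P
  have h3 : ∀ x : (P : Subgroup G), (if (x : G) ∈ Fx P then e else 1) * Nat.card (NN P ⊓ Cen (x : G) : Subgroup G) =
      (if (x : G) ∈ Fx P then e * e else 1) * Nat.card (CC P) := by
    intro x
    by_cases hx : (x : G) ∈ Fx P
    · rw [if_pos hx, if_pos hx]
      have h4 : NN P ⊓ Cen (x : G) = NN P := inf_eq_left.2 fun t ht =>
        Subgroup.mem_centralizer_singleton_iff.2 (mul_inv_eq_iff_eq_mul.1 ((mem_Fx.1 hx).2 t ht))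
      rw [h4, ← h2, ← he', mul_assoc]
    · rw [if_neg hx, if_neg hx, inf_of_not_Fx hab (he' ▸ he) x.2 hx]
  have h4 : ∑ x : (P : Subgroup G), (if (x : G) ∈ Fx P then e else 1) *
      Nat.card (Subgroup.normalizer ((P : Subgroup G) : Set G) ⊓ Cen (x : G) : Subgroup G) =
      ∑ x : (P : Subgroup G), (if (x : G) ∈ Fx P then e * e else 1) * Nat.card (CC P) :=
    Finset.sum_congr rfl fun x _ => h3 x
  rw [h4, ← Finset.sum_mul] at h1
  change _ * Nat.card (NN P) = _ at h1
  rw [← h2, ← mul_assoc, ← he'] at h1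
  have h5 := Nat.eq_of_mul_eq_mul_right Nat.card_pos h1
  rw [h5]
  have h6 : Finset.card (Finset.univ.filter (fun x : (P : Subgroup G) => (x : G) ∈ Fx P)) = Nat.card (Fx P) := by
    rw [← Fintype.card_subtype, ← Nat.card_eq_fintype_card]
    exact Nat.card_congr ⟨fun x => ⟨x.1.1, x.2⟩, fun x => ⟨⟨x.1, x.2.1⟩, x.2⟩, fun _ => rfl, fun _ => rfl⟩
  rw [Finset.sum_ite, Finset.sum_const, Finset.sum_const, h6, smul_eq_mul, smul_eq_mul, mul_one]
  have h7 := Finset.card_filter_add_card_filter_not (s := (Finset.univ : Finset (P : Subgroup G)))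
    (fun x : (P : Subgroup G) => (x : G) ∈ Fx P)
  rw [h6, Finset.card_univ, ← Nat.card_eq_fintype_card] at h7
  rw [← h7, Nat.add_sub_cancel_left]
  ring

end gen

/-- all involutions of a strongly embedded configuration are squares if one element is not an involution -/
theorem sq_of_cfg {K : Type u} [Group K] [Finite K] {Q : Sylow 2 K} {W : Subgroup K} (h : Cfg Q W)
    (hne : ∃ x ∈ (Q : Subgroup K), x * x ≠ 1) {s : K} (hs : s ∈ (Q : Subgroup K)) (hs2 : orderOf s = 2) :
    ∃ y ∈ (Q : Subgroup K), y * y = s := by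
  haveI : Fact (Nat.Prime 2) := ⟨Nat.prime_two⟩
  obtain ⟨x, hx, hxx⟩ := hne
  obtain ⟨k, hk⟩ := (IsPGroup.iff_orderOf.1 Q.isPGroup') ⟨x, hx⟩
  rw [Subgroup.orderOf_mk] at hk
  have hk2 : 2 ≤ k := by
    by_contra hlt
    apply hxx
    rw [← sq, ← orderOf_dvd_iff_pow_eq_one, hk]
    calc 2 ^ k ∣ 2 ^ 1 := pow_dvd_pow 2 (by omega)
      _ = 2 := pow_one 2
  have ht2 : orderOf (x ^ 2 ^ (k - 1)) = 2 := by
    have h2 : orderOf x = 2 ^ (k - 1) * 2 := by
      rw [hk, ← pow_succ]; congr 1; omega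
    rw [orderOf_pow_of_dvd (by positivity) (by rw [h2]; exact Dvd.intro _ rfl), h2,
      Nat.mul_div_cancel_left _ (by positivity)]
  have ht : x ^ 2 ^ (k - 1) ∈ (Q : Subgroup K) := (Q : Subgroup K).pow_mem hx _
  obtain ⟨g, -, hg⟩ := h.conj_inv (h.P_le_H ht) ht2 (h.P_le_H hs) hs2
  obtain ⟨n, hn, hn1⟩ := h.fusion ht (g := g) (by rw [hg]; exact hs)
  rw [hg] at hn1
  refine ⟨n * x ^ 2 ^ (k - 2) * n⁻¹, (Subgroup.mem_normalizer_iff.1 hn _).1 ((Q : Subgroup K).pow_mem hx _), ?_⟩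
  rw [hn1]
  have h3 : x ^ 2 ^ (k - 1) = x ^ 2 ^ (k - 2) * x ^ 2 ^ (k - 2) := by
    rw [← pow_add]
    congr 1
    obtain ⟨j, rfl⟩ : ∃ j, k = j + 2 := ⟨k - 2, by omega⟩
    have e1 : j + 2 - 1 = j + 1 := by omega
    have e2 : j + 2 - 2 = j := by omega
    rw [e1, e2, pow_succ]; ring
  rw [h3]
  group

/-- the squaring homomorphism -/
def sqHom {K : Type u} [Group K] (A : Subgroup K) (hA : ∀ a ∈ A, ∀ b ∈ A, a * b = b * a) : A →* A where
  toFun x := x * x
  map_one' := mul_one 1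
  map_mul' := by
    intro x y
    apply Subtype.ext
    show (x : K) * y * (x * y) = x * x * (y * y)
    have := hA x x.2 y y.2
    calc (x : K) * y * (x * y) = x * (y * x) * y := by group
      _ = x * (x * y) * y := by rw [this]
      _ = x * x * (y * y) := by group

theorem elem_of_small {K : Type u} [Group K] [Finite K] {Q : Sylow 2 K} {W : Subgroup K} (h : Cfg Q W)
    (hlt : Nat.card (Q : Subgroup K) < 64) (h8 : 8 ≤ Nat.card (om (Q : Subgroup K) h.hab)) :
    ∀ x ∈ (Q : Subgroup K), x * x = 1 := by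
  by_contra hne
  push Not at hne
  have h1 := Subgroup.card_mul_index (sqHom (Q : Subgroup K) h.hab).ker
  have h2 : (sqHom (Q : Subgroup K) h.hab).ker.index = Nat.card (sqHom (Q : Subgroup K) h.hab).range :=
    Subgroup.index_ker _
  have h3 : Nat.card (sqHom (Q : Subgroup K) h.hab).ker = Nat.card (om (Q : Subgroup K) h.hab) :=
    Nat.card_congr ⟨fun x => ⟨(x : (Q : Subgroup K)), (x : (Q : Subgroup K)).2, congrArg Subtype.val x.2⟩,
      fun x => ⟨⟨x, x.2.1⟩, Subtype.ext x.2.2⟩, fun _ => rfl, fun _ => rfl⟩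
  have h4 : Nat.card (om (Q : Subgroup K) h.hab) ≤ Nat.card (sqHom (Q : Subgroup K) h.hab).range := by
    let f : ↥(om (Q : Subgroup K) h.hab) → ↥(sqHom (Q : Subgroup K) h.hab).range := fun x =>
      ⟨⟨x, x.2.1⟩, by
        by_cases hx1 : (x : K) = 1
        · exact ⟨1, by rw [map_one]; exact Subtype.ext hx1.symm⟩
        · obtain ⟨y, hy, hy2⟩ := sq_of_cfg h hne x.2.1 (order_om x.2 hx1)
          exact ⟨⟨y, hy⟩, Subtype.ext hy2⟩⟩
    apply Nat.card_le_card_of_injective f
    intro a b hab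
    exact Subtype.ext (congrArg (fun z : (sqHom (Q : Subgroup K) h.hab).range => ((z : (Q : Subgroup K)) : K)) hab)
  rw [h2, h3] at h1
  nlinarith

section nil
variable {G : Type u} [Group G] [Finite G] {P : Sylow 2 G}
variable (hab : ∀ x ∈ (P : Subgroup G), ∀ y ∈ (P : Subgroup G), x * y = y * x)
include hab

theorem trivial_of_rank_one {M : Ideal AlgInt} (hM : IsPModular 2 M) {x : G} (hx : x ∈ (P : Subgroup G))
    (hl : blockRank 2 (principalBlock M (Cen x)) = 1) : NN P ⊓ Cen x = CC P := by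
  classical
  haveI : Fact (Nat.Prime 2) := ⟨Nat.prime_two⟩
  letI := Fintype.ofFinite (Cen x)
  apply le_antisymm _ (cen_stab hab hx)
  obtain ⟨R, N, hN, hc⟩ := (Cfsg.Agent.S4691.result 2 M hM).2 ((Cfsg.Agent.S4646.result 2 M hM).2 hl)
  obtain ⟨k, hk⟩ := IsPGroup.iff_card.1 R.2
  have hcard : Nat.card N * Nat.card (R : Subgroup (Cen x)) = Nat.card (Cen x) := hc.card_mul_card
  have hNi : N.index = 2 ^ k := by
    have h2 := Subgroup.card_mul_index N
    rw [← hcard, hk] at h2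
    exact Nat.eq_of_mul_eq_mul_left Nat.card_pos h2
  have hNo : Odd (Nat.card N) := by
    have h2 := Subgroup.card_mul_index (R : Subgroup (Cen x))
    rw [← hcard, mul_comm] at h2
    have h3 := Nat.eq_of_mul_eq_mul_right Nat.card_pos h2
    rw [← h3, ← Nat.not_even_iff_odd, even_iff_two_dvd]
    exact R.not_dvd_index
  -- elements of `N` normalizing `P` centralize it
  have key : ∀ g : Cen x, g ∈ N → (g : G) ∈ NN P → (g : G) ∈ CC P := by
    intro g hg hgN
    rw [Subgroup.mem_centralizer_iff]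
    intro y hy
    have hyC : y ∈ Cen x := Subgroup.mem_centralizer_singleton_iff.2 (hab y hy x hx)
    have h1 : g * (⟨y, hyC⟩ * g⁻¹ * ⟨y, hyC⟩⁻¹) ∈ N := N.mul_mem hg (hN.conj_mem _ (N.inv_mem hg) _)
    have h2 : (g : G) * y * (g : G)⁻¹ * y⁻¹ ∈ (P : Subgroup G) :=
      (P : Subgroup G).mul_mem ((Subgroup.mem_normalizer_iff.1 hgN y).1 hy) ((P : Subgroup G).inv_mem hy)
    have h3 : Odd (orderOf (g * (⟨y, hyC⟩ * g⁻¹ * ⟨y, hyC⟩⁻¹))) := odd_of_mem_odd hNo h1
    have h4 : (g : G) * y * (g : G)⁻¹ * y⁻¹ = ((g * (⟨y, hyC⟩ * g⁻¹ * ⟨y, hyC⟩⁻¹) : Cen x) : G) := by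
      show (g : G) * y * (g : G)⁻¹ * y⁻¹ = g * (y * (g : G)⁻¹ * y⁻¹)
      group
    rw [← Subgroup.orderOf_coe, ← h4] at h3
    obtain ⟨j, hj⟩ := (IsPGroup.iff_orderOf.1 P.isPGroup') ⟨_, h2⟩
    rw [Subgroup.orderOf_mk] at hj
    rw [hj] at h3
    have h5 : j = 0 := by
      by_contra hj0
      exact (Nat.not_even_iff_odd.2 h3) ((even_two).pow_of_ne_zero hj0)
    rw [h5, pow_zero, orderOf_eq_one_iff] at hj
    have h6 : (g : G) * y * (g : G)⁻¹ = y := mul_inv_eq_one.1 hj
    exact (mul_inv_eq_iff_eq_mul.1 h6).symm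
  rintro g ⟨hg, hgx⟩
  have h1 : g ^ 2 ^ k ∈ CC P := by
    have h2 := key (⟨g, hgx⟩ ^ 2 ^ k) (by rw [← hNi]; exact Subgroup.pow_index_mem N _)
      (by rw [Subgroup.coe_pow]; exact (NN P).pow_mem hg _)
    rwa [Subgroup.coe_pow] at h2
  have h2 : g ^ (CC P).relIndex (NN P) ∈ CC P := by
    haveI : ((CC P).subgroupOf (NN P)).Normal := inferInstance
    have := Subgroup.pow_index_mem ((CC P).subgroupOf (NN P)) (⟨g, hg⟩ : NN P)
    rw [Subgroup.mem_subgroupOf] at this
    exact this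
  have h3 : Nat.Coprime (2 ^ k) ((CC P).relIndex (NN P)) :=
    Nat.Coprime.pow_left _ ((Nat.Prime.coprime_iff_not_dvd Nat.prime_two).2 (not_dvd P hab))
  have h4 : g = (g ^ 2 ^ k) ^ (Nat.gcdA (2 ^ k) ((CC P).relIndex (NN P))) *
      (g ^ (CC P).relIndex (NN P)) ^ (Nat.gcdB (2 ^ k) ((CC P).relIndex (NN P))) := by
    have h5 := Nat.gcd_eq_gcd_ab (2 ^ k) ((CC P).relIndex (NN P))
    rw [h3] at h5
    rw [← zpow_natCast g (2 ^ k), ← zpow_natCast g ((CC P).relIndex (NN P)), ← zpow_mul, ← zpow_mul, ← zpow_add, ← h5]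
    simp
  rw [h4]
  exact (CC P).mul_mem ((CC P).zpow_mem h1 _) ((CC P).zpow_mem h2 _)

/-- orbit length from trivial stabilizer -/
theorem card_orbit' {x : G} (hx : x ∈ (P : Subgroup G)) (hxs : NN P ⊓ Cen x = CC P) :
    Nat.card {y : (P : Subgroup G) // IsConj x (y : G)} = (CC P).relIndex (NN P) := by
  haveI : Fact (Nat.Prime 2) := ⟨Nat.prime_two⟩
  have h1 := H79.PCount.card_fiber P hab ⟨x, hx⟩
  have h2 := relIndex_mul P
  have h3 : Nat.card (NN P ⊓ Cen x : Subgroup G) = Nat.card (CC P) := by rw [hxs]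
  change _ * Nat.card (NN P ⊓ Cen x : Subgroup G) = Nat.card (NN P) at h1
  rw [h3, ← h2] at h1
  exact Nat.eq_of_mul_eq_mul_right Nat.card_pos h1

/-- transitive implies free -/
theorem free_of_full {x : G} (hx : x ∈ (P : Subgroup G)) (hxs : NN P ⊓ Cen x = CC P) (hx1 : x ≠ 1)
    (hc : Nat.card (P : Subgroup G) ≤ (CC P).relIndex (NN P) + 1) : Free P := by
  classical
  haveI : Fact (Nat.Prime 2) := ⟨Nat.prime_two⟩
  have h1 := card_orbit' hab hx hxs
  let f : Option {y : (P : Subgroup G) // IsConj x (y : G)} → ↥(P : Subgroup G) := fun o =>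
    match o with
    | none => 1
    | some y => y
  have hne : ∀ y : {y : (P : Subgroup G) // IsConj x (y : G)}, (y : (P : Subgroup G)) ≠ 1 := by
    rintro ⟨y, hy⟩ h1
    have h2 : (y : G) = 1 := congrArg Subtype.val h1
    rw [h2] at hy
    exact hx1 (isConj_one_left.1 hy)
  have hf : Function.Injective f := by
    intro a b hab'
    rcases a with _ | a <;> rcases b with _ | b
    · rfl
    · exact absurd (hab'.symm : (b : (P : Subgroup G)) = 1) (hne b)
    · exact absurd (hab' : (a : (P : Subgroup G)) = 1) (hne a)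
    · congr 1
      exact Subtype.ext hab'
  have hfs : Function.Bijective f := by
    refine (Nat.bijective_iff_injective_and_card f).2 ⟨hf, le_antisymm (Nat.card_le_card_of_injective f hf) ?_⟩
    rw [Finite.card_option, h1]; exact hc
  intro g hg y hy hy1 hgy
  obtain ⟨o, ho⟩ := hfs.2 ⟨y, hy⟩
  rcases o with _ | ⟨y', hy'⟩
  · exact absurd (congrArg Subtype.val ho).symm hy1
  · have h2 : y' = ⟨y, hy⟩ := ho
    rw [h2] at hy'
    obtain ⟨n, hn, h3⟩ := H79.PCount.fusion P hab hx hy hy'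
    have h4 : n⁻¹ * g * n ∈ NN P ⊓ Cen x := by
      refine ⟨(NN P).mul_mem ((NN P).mul_mem ((NN P).inv_mem hn) hg) hn, Subgroup.mem_centralizer_singleton_iff.2 ?_⟩
      apply mul_inv_eq_iff_eq_mul.1
      calc n⁻¹ * g * n * x * (n⁻¹ * g * n)⁻¹ = n⁻¹ * (g * (n * x * n⁻¹) * g⁻¹) * n := by group
        _ = n⁻¹ * (n * x * n⁻¹) * n := by rw [h3, hgy]
        _ = x := by group
    rw [hxs] at h4
    have h5 : g = n * (n⁻¹ * g * n) * n⁻¹ := by group
    rw [h5, Subgroup.mem_centralizer_iff]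
    intro z hz
    have h6 : n⁻¹ * z * n ∈ (P : Subgroup G) := (Subgroup.mem_normalizer_iff.1 hn _).2 (by
      have : n * (n⁻¹ * z * n) * n⁻¹ = z := by group
      rw [this]; exact hz)
    have h7 := Subgroup.mem_centralizer_iff.1 h4 _ h6
    calc z * (n * (n⁻¹ * g * n) * n⁻¹) = n * ((n⁻¹ * z * n) * (n⁻¹ * g * n)) * n⁻¹ := by group
      _ = n * ((n⁻¹ * g * n) * (n⁻¹ * z * n)) * n⁻¹ := by rw [h7]
      _ = n * (n⁻¹ * g * n) * n⁻¹ * z := by group

omit hab in
theorem free_quot {Q : Subgroup G} [Q.Normal] [Fact (Nat.Prime 2)]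
    (hQ1 : ∀ q ∈ Q, q ∈ (P : Subgroup G) → q = 1) (hf : Free P) : Free (PQ P Q) := by
  intro g hg x hx hx1 hgx
  rw [← map_NN Q] at hg
  obtain ⟨g, hg, rfl⟩ := hg
  obtain ⟨y, hy, rfl⟩ := (mem_PQ Q).1 hx
  rw [mem_CC_PQ Q hQ1 hg]
  have h1 : (QuotientGroup.mk (g * y * g⁻¹) : G ⧸ Q) = QuotientGroup.mk y := hgx
  rw [QuotientGroup.eq] at h1
  have h2 := hQ1 _ h1 ((P : Subgroup G).mul_mem ((P : Subgroup G).inv_mem ((Subgroup.mem_normalizer_iff.1 hg y).1 hy)) hy)
  refine hf g hg y hy ?_ ?_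
  · rintro rfl; exact hx1 rfl
  · exact (inv_mul_eq_one.1 h2)

omit hab in
theorem card_PQ_eq {Q : Subgroup G} [Q.Normal] [Fact (Nat.Prime 2)]
    (hQ1 : ∀ q ∈ Q, q ∈ (P : Subgroup G) → q = 1) :
    Nat.card (PQ P Q : Subgroup (G ⧸ Q)) = Nat.card (P : Subgroup G) := by
  let f : ↥(P : Subgroup G) → ↥(PQ P Q : Subgroup (G ⧸ Q)) := fun x => ⟨QuotientGroup.mk (x : G), (mem_PQ Q).2 ⟨x, x.2, rfl⟩⟩
  symm
  refine Nat.card_congr (Equiv.ofBijective f ⟨?_, ?_⟩)
  · intro a b hab
    have h1 : (QuotientGroup.mk (a : G) : G ⧸ Q) = QuotientGroup.mk (b : G) := congrArg Subtype.val hab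
    rw [QuotientGroup.eq] at h1
    have h2 := hQ1 _ h1 ((P : Subgroup G).mul_mem ((P : Subgroup G).inv_mem a.2) b.2)
    exact Subtype.ext (inv_mul_eq_one.1 h2)
  · rintro ⟨y, hy⟩
    obtain ⟨x, hx, h1⟩ := (mem_PQ Q).1 hy
    exact ⟨⟨x, hx⟩, Subtype.ext h1⟩

end nil

/-- inertial index fifteen -/
theorem fifteen (hFT : ∀ (K : Type u) [Group K] [Finite K], Odd (Nat.card K) → Group.IsSolvable K)
    {M : Ideal AlgInt} (hM : IsPModular 2 M) (G : Type u) [Group G] [Finite G] (P : Sylow 2 G)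
    (hab : ∀ x ∈ (P : Subgroup G), ∀ y ∈ (P : Subgroup G), x * y = y * x)
    (hel : ∀ x ∈ (P : Subgroup G), x * x = 1) (hc : Nat.card (P : Subgroup G) = 16)
    (he : (CC P).relIndex (NN P) = 15) (hf : Free P) (hO : pPrimeCore 2 G = ⊥) :
    Nat.card (principalBlock M G) = 16 := by
  have hA : ∀ a ∈ NN P, ∀ b ∈ NN P, a * b * a⁻¹ * b⁻¹ ∈ CC P := by
    intro a ha b hb
    have h1 := comm15 (E := NN P ⧸ (CC P).subgroupOf (NN P)) he (QuotientGroup.mk ⟨b, hb⟩) (QuotientGroup.mk ⟨a, ha⟩)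
    have h2 : (QuotientGroup.mk ((⟨b, hb⟩ : NN P) * ⟨a, ha⟩) : NN P ⧸ (CC P).subgroupOf (NN P)) =
        QuotientGroup.mk ((⟨a, ha⟩ : NN P) * ⟨b, hb⟩) := h1
    rw [QuotientGroup.eq] at h2
    have h3 : ((⟨b, hb⟩ : NN P) * ⟨a, ha⟩) * (((⟨b, hb⟩ : NN P) * ⟨a, ha⟩)⁻¹ * ((⟨a, ha⟩ : NN P) * ⟨b, hb⟩)) *
        ((⟨b, hb⟩ : NN P) * ⟨a, ha⟩)⁻¹ ∈ (CC P).subgroupOf (NN P) := Subgroup.Normal.conj_mem inferInstance _ h2 _
    rw [Subgroup.mem_subgroupOf] at h3
    have h4 : ((((⟨b, hb⟩ : NN P) * ⟨a, ha⟩) * (((⟨b, hb⟩ : NN P) * ⟨a, ha⟩)⁻¹ * ((⟨a, ha⟩ : NN P) * ⟨b, hb⟩)) *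
        ((⟨b, hb⟩ : NN P) * ⟨a, ha⟩)⁻¹ : NN P) : G) = a * b * a⁻¹ * b⁻¹ := by
      show (b * a) * ((b * a)⁻¹ * (a * b)) * (b * a)⁻¹ = a * b * a⁻¹ * b⁻¹
      group
    rw [h4] at h3
    exact h3
  have hP : (P : Subgroup G) ≠ ⊥ := P_ne_bot hab (by rw [he]; norm_num)
  rcases exists_cfg hFT P hab (om_eight hab hf (by rw [he]; norm_num)) (fun x hx hx2 => hnil hab hf hx hx2) hO with
    ⟨W, hW⟩ | hn'
  · rw [(of_cfg hab hM hW hf hel hA).2, hc]
  · have h1 := of_normal hab hM hO hn' hP hf hA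
    have h2 := (H79.PrincFree.main hM P hP hab hf he).2.1
    rw [h1, he, hc] at h2
    omega

theorem main (hFT : ∀ (K : Type u) [Group K] [Finite K], Odd (Nat.card K) → Group.IsSolvable K)
    {M : Ideal AlgInt} (hM : IsPModular 2 M) (G : Type u) [Group G] [Finite G] (P : Sylow 2 G)
    (hab : ∀ x ∈ (P : Subgroup G), ∀ y ∈ (P : Subgroup G), x * y = y * x) {x : G} (hx : x ∈ (P : Subgroup G))
    (hx2 : orderOf x = 2) (hl : blockRank 2 (principalBlock M (Cen x)) = 1) :
    (Nat.card (P : Subgroup G) = 8 → Nat.card (principalBlock M G) = 8) ∧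
      (Nat.card (P : Subgroup G) = 16 → Nat.card (principalBlock M G) = 8 ∨ Nat.card (principalBlock M G) = 16) := by
  classical
  haveI : Fact (Nat.Prime 2) := ⟨Nat.prime_two⟩
  have hx1 : x ≠ 1 := by rintro rfl; rw [orderOf_one] at hx2; omega
  have hs := trivial_of_rank_one hab hM hx hl
  have horb := card_orbit' hab hx hs
  have hle := orbit_le hab hx hx2
  rw [horb] at hle
  have homle : Nat.card (om (P : Subgroup G) hab) ≤ Nat.card (P : Subgroup G) :=
    Nat.card_le_card_of_injective _ (Subgroup.inclusion_injective (fun x hx => hx.1 : om (P : Subgroup G) hab ≤ P))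
  have hnd := not_dvd P hab
  have hPb : (P : Subgroup G) ≠ ⊥ := by
    intro h0
    rw [h0] at hx
    exact hx1 (Subgroup.mem_bot.1 hx)
  have hT : Nat.card (P : Subgroup G) < 64 → ∀ (K : Type u) [Group K] [Finite K] (Q : Sylow 2 K),
      (∀ x ∈ (Q : Subgroup K), ∀ y ∈ (Q : Subgroup K), x * y = y * x) → Nat.card (Q : Subgroup K) ≤ Nat.card (P : Subgroup G) →
      ((CC Q).relIndex (NN Q)).Prime → blockRank 2 (principalBlock M K) = (CC Q).relIndex (NN Q) :=
    fun hlt K _ _ Q hQ hn he => T1 (Nat.card (P : Subgroup G)) hFT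
      (fun K _ _ Q W hn h h8 => elem_of_small h (lt_of_le_of_lt hn hlt) h8) hM _ K le_rfl Q hQ hn he
  obtain ⟨e, he⟩ : ∃ e, e = (CC P).relIndex (NN P) := ⟨_, rfl⟩
  rw [← he] at hle hnd horb
  have he0 : 0 < e := by
    rcases Nat.eq_zero_or_pos e with h0 | h0
    · rw [h0] at hnd; exact absurd (dvd_zero 2) hnd
    · exact h0
  have hone : e = 1 → Nat.card (principalBlock M G) = Nat.card (P : Subgroup G) := by
    intro h1
    have hNC : NN P ≤ CC P := by
      rw [← Subgroup.relIndex_eq_one, ← he, h1]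
    have h2 := H79.PrincFree.main hM P hPb hab (fun g hg _ _ _ _ => hNC hg) (e := 1) (by
      change (CC P).relIndex (NN P) = 1
      rw [← he, h1])
    have h3 := h2.2.2 (by norm_num)
    have h4 := h2.2.1
    rw [h3] at h4
    omega
  have hcp : Nat.card (P : Subgroup G) < 64 → e.Prime → Nat.card (principalBlock M G) * e =
      Nat.card (Fx P) * e * e + (Nat.card (P : Subgroup G) - Nat.card (Fx P)) := by
    intro hlt hp
    have := count_prime hab hM le_rfl (hT hlt) (he ▸ hp)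
    rw [← he] at this
    exact this
  have hFlt : e ≠ 1 → Nat.card (Fx P) < Nat.card (P : Subgroup G) := by
    intro h1
    apply card_Fx_lt
    refine ⟨x, hx, fun hF => h1 ?_⟩
    rw [he, Subgroup.relIndex_eq_one, ← hs]
    exact le_inf le_rfl fun t ht =>
      Subgroup.mem_centralizer_singleton_iff.2 (mul_inv_eq_iff_eq_mul.1 ((mem_Fx.1 hF).2 t ht))
  obtain ⟨k, hk⟩ := card_Fx (P := P)
  constructor
  · intro hc
    rw [hc] at homle hFlt hcp hone
    have h7 : e ≤ 7 := by omega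
    have hk3 : e ≠ 1 → k < 3 := by
      intro h1
      have := hFlt h1
      rw [hk] at this
      by_contra hge
      have : 2 ^ 3 ≤ 2 ^ k := Nat.pow_le_pow_right (by norm_num) (by omega)
      omega
    have hc5 : e = 1 ∨ e = 3 ∨ e = 5 ∨ e = 7 := by omega
    rcases hc5 with h | h | h | h
    · exact hone h
    all_goals
      have h1 := hcp (by norm_num) (by rw [h]; norm_num)
      rw [hk, h] at h1
      have := hk3 (by omega)
      interval_cases k <;> omega
  · intro hc
    rw [hc] at homle hFlt hcp hone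
    have h7 : e ≤ 15 := by omega
    have hk3 : e ≠ 1 → k < 4 := by
      intro h1
      have := hFlt h1
      rw [hk] at this
      by_contra hge
      have : 2 ^ 4 ≤ 2 ^ k := Nat.pow_le_pow_right (by norm_num) (by omega)
      omega
    have hc5 : e = 1 ∨ e = 9 ∨ e = 15 ∨ (e = 3 ∨ e = 5 ∨ e = 7 ∨ e = 11 ∨ e = 13) := by omega
    have hel : 9 ≤ e → ∀ x ∈ (P : Subgroup G), x * x = 1 := by
      intro h9 y hy
      obtain ⟨m, hm⟩ := card_om hab
      have h10 : Nat.card (om (P : Subgroup G) hab) = 16 := by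
        rw [hm] at hle homle ⊢
        have h4 : 3 < m := by
          by_contra hge
          have : 2 ^ m ≤ 2 ^ 3 := Nat.pow_le_pow_right (by norm_num) (by omega)
          omega
        have h5 : m ≤ 4 := by
          by_contra hge
          have : 2 ^ 5 ≤ 2 ^ m := Nat.pow_le_pow_right (by norm_num) (by omega)
          omega
        have : m = 4 := by omega
        rw [this]; norm_num
      have h11 : om (P : Subgroup G) hab = (P : Subgroup G) :=
        Subgroup.eq_of_le_of_card_ge (fun x hx => hx.1) (by rw [h10, hc])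
      rw [← h11] at hy
      exact hy.2
    rcases hc5 with h | h | h | h
    · right; exact hone h
    · right
      exact (Cfsg.Agent.S4569.result M hM P hc (fun y => Subtype.ext (by
        rw [sq]; exact hel (by omega) y y.2)) (by rw [← h, he])).1
    · right
      have hf := free_of_full hab hx hs hx1 (by rw [hc, ← he, h])
      have hQ1 : ∀ q ∈ pPrimeCore 2 G, q ∈ (P : Subgroup G) → q = 1 := fun q hq hP => odd_two hq hP
      rw [← H79.PQuot.card_core hM]
      exact fifteen hFT hM (G ⧸ pPrimeCore 2 G) (PQ P (pPrimeCore 2 G)) (ab_PQ hab _) (by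
          intro y hy
          obtain ⟨z, hz, rfl⟩ := (mem_PQ _).1 hy
          rw [← QuotientGroup.mk_mul, hel (by omega) z hz]; rfl)
        (by rw [card_PQ_eq hQ1, hc]) (by rw [quot_odd _ hQ1, ← he, h]) (free_quot hQ1 hf)
        (H1.Cores.pPrimeCore_quotient_pPrimeCore 2)
    · have hp : e.Prime := by rcases h with h | h | h | h | h <;> (rw [h]; norm_num)
      have h1 := hcp (by norm_num) hp
      rw [hk] at h1
      have := hk3 (by omega)
      rcases h with h | h | h | h | h <;> (rw [h] at h1; interval_cases k <;> omega)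

end H79.Sixteen
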