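import Mathlib
import Cfsg.Agent.Lib.H79.SETw
import Cfsg.Agent.Lib.H79.Sixteen

/-! The two distinguished characters in the non-elementary case. -/

set_option autoImplicit false
set_option linter.unusedSectionVars false
set_option linter.unusedVariables false
set_option linter.style.haveILetI false
open Cfsg H79.Hecke
open scoped ComplexConjugate

namespace H79.SE.Cfg

universe u

variable {G : Type u} [Group G] [Finite G] {P : Sylow 2 G} {W : Subgroup G} (h : Cfg P W)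
include h

/-- the multiplicity -/
noncomputable def mm [Fintype G] [Fintype (MM P W)] (μ : (P : Subgroup G) →* ℂˣ) (χ : IrrCharacter G) : ℤ :=
  (mu (MM P W) (h.ml μ) χ : ℤ)

theorem mm_nonneg [Fintype G] [Fintype (MM P W)] (μ : (P : Subgroup G) →* ℂˣ) (χ : IrrCharacter G) :
    0 ≤ h.mm μ χ := Int.natCast_nonneg _

section
variable [Fintype G] [Fintype (MM P W)] [Fintype (HH P W)] [Fintype (IrrCharacter G)]

theorem cast_gram (μ μ' : (P : Subgroup G) →* ℂˣ) :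
    ((∑ χ : IrrCharacter G, h.mm μ χ * h.mm μ' χ : ℤ) : ℂ) =
      ∑ χ : IrrCharacter G, (mu (MM P W) (h.ml μ) χ : ℂ) * (mu (MM P W) (h.ml μ') χ : ℂ) := by
  simp only [mm]
  push_cast
  rfl

theorem exists_N : ∃ N : ℤ, (N : ℂ) = Nout P W ∧ 0 < N := by
  classical
  obtain ⟨t, ht, ht2⟩ := h.hinv
  have ht1 : t ≠ 1 := by rintro rfl; rw [orderOf_one] at ht2; omega
  obtain ⟨μ, hμ⟩ := h.exists_lin ht ht1
  have hμ1 : μ ≠ 1 := by rintro rfl; exact hμ rfl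
  have hnc : ¬ h.Cj μ 1 := by
    rintro ⟨x, hx⟩
    exact hμ (hx ⟨t, ht⟩).symm
  have h1 := h.gram_not hnc
  refine ⟨∑ χ : IrrCharacter G, h.mm μ χ * h.mm 1 χ, ?_, ?_⟩
  · rw [h.cast_gram, h1]
  · have h2 : (0 : ℝ) < ((∑ χ : IrrCharacter G, h.mm μ χ * h.mm 1 χ : ℤ) : ℝ) := by
      have h3 : ((∑ χ : IrrCharacter G, h.mm μ χ * h.mm 1 χ : ℤ) : ℂ) =
          (((Nat.card (MM P W) : ℝ)⁻¹ * ((Nat.card (MM P W) : ℝ)⁻¹ *
            ∑ x ∈ Finset.univ.filter (fun x : G => x ∉ HH P W),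
              (Nat.card {l : MM P W // x⁻¹ * (l : G) * x ∈ MM P W} : ℝ)) : ℝ) : ℂ) := by
        rw [h.cast_gram, h1, Nout]
        push_cast
        rfl
      have h4 : ((∑ χ : IrrCharacter G, h.mm μ χ * h.mm 1 χ : ℤ) : ℝ) =
          (Nat.card (MM P W) : ℝ)⁻¹ * ((Nat.card (MM P W) : ℝ)⁻¹ *
            ∑ x ∈ Finset.univ.filter (fun x : G => x ∉ HH P W),
              (Nat.card {l : MM P W // x⁻¹ * (l : G) * x ∈ MM P W} : ℝ)) := by
        exact_mod_cast h3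
      rw [h4]
      have hcM : (0 : ℝ) < (Nat.card (MM P W) : ℝ) := by exact_mod_cast (Nat.card_pos (α := MM P W))
      obtain ⟨g, hg⟩ := h.exists_not_mem
      have h5 : (0 : ℝ) < ∑ x ∈ Finset.univ.filter (fun x : G => x ∉ HH P W),
              (Nat.card {l : MM P W // x⁻¹ * (l : G) * x ∈ MM P W} : ℝ) := by
        apply Finset.sum_pos
        · intro x hx
          haveI : Nonempty {l : MM P W // x⁻¹ * (l : G) * x ∈ MM P W} := ⟨⟨1, by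
            have : x⁻¹ * ((1 : MM P W) : G) * x = 1 := by rw [Subgroup.coe_one]; group
            rw [this]; exact one_mem _⟩⟩
          exact_mod_cast Nat.card_pos
        · exact ⟨g, Finset.mem_filter.2 ⟨Finset.mem_univ _, hg⟩⟩
      positivity
    exact_mod_cast h2

theorem gz_not {N : ℤ} (hN : (N : ℂ) = Nout P W) {μ μ' : (P : Subgroup G) →* ℂˣ} (hc : ¬ h.Cj μ μ') :
    ∑ χ : IrrCharacter G, h.mm μ χ * h.mm μ' χ = N := by
  have h1 := h.cast_gram μ μ'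
  rw [h.gram_not hc, ← hN] at h1
  exact_mod_cast h1

theorem gz_cj {N : ℤ} (hN : (N : ℂ) = Nout P W) {μ μ' : (P : Subgroup G) →* ℂˣ} (hμ : μ ≠ 1) (hc : h.Cj μ μ') :
    ∑ χ : IrrCharacter G, h.mm μ χ * h.mm μ' χ = N + 1 := by
  have h1 := h.cast_gram μ μ'
  rw [h.gram_cj hμ hc, ← hN] at h1
  exact_mod_cast h1

omit [Fintype G] [Fintype (MM P W)] [Fintype (HH P W)] [Fintype (IrrCharacter G)] in
theorem cj_refl (μ : (P : Subgroup G) →* ℂˣ) : h.Cj μ μ := ⟨1, fun p => by rw [inv_one, h.tw_one]⟩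

omit [Fintype G] [Fintype (MM P W)] [Fintype (HH P W)] [Fintype (IrrCharacter G)] in
theorem cj_symm {μ μ' : (P : Subgroup G) →* ℂˣ} (hc : h.Cj μ μ') : h.Cj μ' μ := by
  obtain ⟨x, hx⟩ := hc
  exact ⟨x⁻¹, fun p => by rw [← hx, inv_inv, h.tw_inv_tw]⟩

omit [Fintype G] [Fintype (MM P W)] [Fintype (HH P W)] [Fintype (IrrCharacter G)] in
theorem cj_ne {μ μ' : (P : Subgroup G) →* ℂˣ} (hc : h.Cj μ μ') (hμ : μ ≠ 1) : μ' ≠ 1 := by
  rintro rfl
  obtain ⟨x, hx⟩ := hc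
  apply hμ
  ext p
  rw [← hx p]; rfl

theorem mm_cj {μ μ' : (P : Subgroup G) →* ℂˣ} (hμ : μ ≠ 1) (hc : h.Cj μ μ') (χ : IrrCharacter G) :
    h.mm μ χ = h.mm μ' χ := by
  obtain ⟨N, hN, -⟩ := h.exists_N
  have hμ' := h.cj_ne hc hμ
  have h1 := h.gz_cj hN hμ hc
  have h2 := h.gz_cj hN hμ (h.cj_refl μ)
  have h3 := h.gz_cj hN hμ' (h.cj_refl μ')
  have h4 : ∑ χ : IrrCharacter G, (h.mm μ χ - h.mm μ' χ) * (h.mm μ χ - h.mm μ' χ) = 0 := by
    have : ∀ χ, (h.mm μ χ - h.mm μ' χ) * (h.mm μ χ - h.mm μ' χ) =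
      h.mm μ χ * h.mm μ χ - 2 * (h.mm μ χ * h.mm μ' χ) + h.mm μ' χ * h.mm μ' χ := fun χ => by ring
    simp only [this, Finset.sum_add_distrib, Finset.sum_sub_distrib, ← Finset.mul_sum, h1, h2, h3]
    ring
  have h5 := (Finset.sum_eq_zero_iff_of_nonneg (fun χ _ => mul_self_nonneg (h.mm μ χ - h.mm μ' χ))).1 h4 χ
    (Finset.mem_univ _)
  exact sub_eq_zero.1 (mul_self_eq_zero.1 h5)

theorem sum_deg (μ : (P : Subgroup G) →* ℂˣ) :
    ∑ χ : IrrCharacter G, h.mm μ χ * (charDegree (χ : G → ℂ) : ℤ) = ((MM P W).index : ℤ) := by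
  have h1 := congrFun (H18.CharOrtho.mem_classFun_expand (H18.CharInd.isClassFunction_indFun (MM P W) (fn (h.ml μ)))) 1
  rw [H18.CharInd.indFun_one, fn_one, mul_one, Finset.sum_apply] at h1
  have h2 : ∀ χ : IrrCharacter G, (classInner (indFun (MM P W) (fn (h.ml μ))) (χ : G → ℂ) • (χ : G → ℂ)) 1 =
      ((h.mm μ χ * (charDegree (χ : G → ℂ) : ℤ) : ℤ) : ℂ) := by
    intro χ
    rw [Pi.smul_apply, smul_eq_mul, mu_ind', mm]
    push_cast
    rw [H20.Defect.charDegree_irr]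
  rw [Finset.sum_congr rfl (fun χ _ => h2 χ), ← Int.cast_sum] at h1
  exact_mod_cast h1.symm

omit [Fintype (HH P W)] [Fintype (IrrCharacter G)] in
theorem mm_inv (μ : (P : Subgroup G) →* ℂˣ) {χ : IrrCharacter G} (hr : ∀ g, conj ((χ : G → ℂ) g) = (χ : G → ℂ) g) :
    h.mm μ χ = h.mm μ⁻¹ χ := by
  have h1 := mu_spec (MM P W) (h.ml μ) χ
  have h2 := mu_spec (MM P W) (h.ml μ⁻¹) χ
  have h3 : (mu (MM P W) (h.ml μ) χ : ℂ) = (mu (MM P W) (h.ml μ⁻¹) χ : ℂ) := by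
    rw [← Complex.conj_natCast, ← h1, ← h2, classInner, classInner, map_mul, map_inv₀, Complex.conj_natCast, map_sum]
    congr 1
    refine Finset.sum_congr rfl fun x _ => ?_
    rw [map_mul, hr, Complex.conj_conj]
    congr 1
    rw [conj_fn, fn_apply, fn_apply, h.ml_apply, h.ml_apply, MonoidHom.inv_apply, map_inv, map_inv, inv_inv]
  rw [mm, mm]
  exact_mod_cast h3

end

/-- a character of order two -/
theorem exists_order_two {μ : (P : Subgroup G) →* ℂˣ} (hμ : μ ≠ 1) :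
    ∃ μ₂ : (P : Subgroup G) →* ℂˣ, μ₂ ≠ 1 ∧ ∀ x, μ₂ x * μ₂ x = 1 := by
  haveI : Fact (Nat.Prime 2) := ⟨Nat.prime_two⟩
  obtain ⟨n, hn⟩ := IsPGroup.iff_card.1 P.2
  have h1 : μ ^ 2 ^ n = 1 := by
    ext x
    rw [MonoidHom.pow_apply, ← map_pow, ← hn, pow_card_eq_one', map_one]; rfl
  have h2 : orderOf μ ∣ 2 ^ n := orderOf_dvd_of_pow_eq_one h1
  obtain ⟨k, -, hk⟩ := (Nat.dvd_prime_pow Nat.prime_two).1 h2
  have hk0 : k ≠ 0 := by
    rintro rfl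
    rw [pow_zero] at hk
    exact hμ (orderOf_eq_one_iff.1 hk)
  obtain ⟨j, rfl⟩ := Nat.exists_eq_succ_of_ne_zero hk0
  refine ⟨μ ^ 2 ^ j, ?_, ?_⟩
  · intro hc
    have := orderOf_dvd_of_pow_eq_one hc
    rw [hk] at this
    have := Nat.le_of_dvd (by positivity) this
    rw [Nat.succ_eq_add_one, pow_succ] at this
    have : 0 < 2 ^ j := by positivity
    omega
  · intro x
    rw [MonoidHom.pow_apply, ← pow_add, ← two_mul, ← pow_succ', ← MonoidHom.pow_apply]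
    have : μ ^ 2 ^ (j + 1) = 1 := by
      have := pow_orderOf_eq_one μ
      rwa [hk] at this
    rw [this]; rfl

theorem exists_pair [Fintype G] [Fintype (MM P W)] [Fintype (HH P W)] [Fintype (IrrCharacter G)]
    [DecidableEq (IrrCharacter G)]
    (hne : ∃ x ∈ (P : Subgroup G), x * x ≠ 1) {t : G} (ht : t ∈ (P : Subgroup G)) (ht2 : orderOf t = 2) :
    ∃ (μ₂ μ' : (P : Subgroup G) →* ℂˣ) (a b : IrrCharacter G), μ₂ ≠ 1 ∧ μ' ⟨t, ht⟩ ≠ 1 ∧
      (∀ s : (P : Subgroup G), orderOf (s : G) = 2 → μ₂ s = 1) ∧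
      (∀ χ, h.mm μ₂ χ - h.mm μ' χ = (if χ = a then 1 else 0) - (if χ = b then 1 else 0)) ∧ a ≠ b ∧
      h.mm μ₂ a = 1 ∧ h.mm μ' b = 1 ∧ charDegree (a : G → ℂ) = charDegree (b : G → ℂ) ∧
      (∀ μ : (P : Subgroup G) →* ℂˣ, μ ≠ 1 → ¬ h.Cj μ μ' → h.mm μ b = 0) := by
  have ht1 : t ≠ 1 := by rintro rfl; rw [orderOf_one] at ht2; omega
  obtain ⟨μ', hμ't⟩ := h.exists_lin ht ht1
  have hμ' : μ' ≠ 1 := by rintro rfl; exact hμ't rfl
  obtain ⟨μ₂, hμ₂, hμ₂2⟩ := h.exists_order_two hμ'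
  have hsq : ∀ s : (P : Subgroup G), orderOf (s : G) = 2 → ∃ y : (P : Subgroup G), y * y = s := by
    intro s hs
    obtain ⟨y, hy, h1⟩ := H79.Sixteen.sq_of_cfg h hne s.2 hs
    exact ⟨⟨y, hy⟩, Subtype.ext h1⟩
  have hμ₂t : ∀ s : (P : Subgroup G), orderOf (s : G) = 2 → μ₂ s = 1 := by
    intro s hs
    obtain ⟨y, hy⟩ := hsq s hs
    rw [← hy, map_mul, hμ₂2]
  have hμ'2 : ¬ ∀ p, μ' p * μ' p = 1 := by
    intro hc
    obtain ⟨y, hy⟩ := hsq ⟨t, ht⟩ ht2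
    apply hμ't
    rw [← hy, map_mul, hc]
  have hμ'i : μ'⁻¹ ≠ 1 := by
    intro hc
    apply hμ'
    refine MonoidHom.ext fun p => ?_
    have h1 := DFunLike.congr_fun hc p
    rw [MonoidHom.inv_apply, MonoidHom.one_apply] at h1
    rw [← inv_inv (μ' p), h1, inv_one]; rfl
  obtain ⟨N, hN, hNpos⟩ := h.exists_N
  -- non conjugacy
  have c21 : ¬ h.Cj μ₂ μ' := by
    intro hc
    obtain ⟨x, hx⟩ := h.cj_symm hc
    apply hμ't
    rw [← hx]
    have h1 : (h.tw x⁻¹ ⟨t, ht⟩) * (h.tw x⁻¹ ⟨t, ht⟩) = 1 := by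
      rw [← map_mul]
      have : (⟨t, ht⟩ * ⟨t, ht⟩ : (P : Subgroup G)) = 1 := Subtype.ext (by
        show t * t = 1
        rw [← sq, ← ht2, pow_orderOf_eq_one])
      rw [this, map_one]
    by_cases h2 : h.tw x⁻¹ ⟨t, ht⟩ = 1
    · rw [h2, map_one]
    · apply hμ₂t
      refine orderOf_eq_prime ?_ (fun hc => h2 (Subtype.ext hc))
      rw [sq]
      exact congrArg Subtype.val h1
  have c23 : ¬ h.Cj μ₂ μ'⁻¹ := by
    rintro ⟨x, hx⟩
    apply c21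
    refine ⟨x, fun p => ?_⟩
    have h1 := hx p
    rw [MonoidHom.inv_apply] at h1
    rw [← inv_inv (μ' _), h1]
    exact inv_eq_of_mul_eq_one_left (hμ₂2 p)
  have c13 : ¬ h.Cj μ' μ'⁻¹ := by
    rintro ⟨x, hx⟩
    have h1 : ∀ p, μ' (h.tw (x⁻¹ * x⁻¹) p) = μ' p := by
      intro p
      have h2 := hx (h.tw x⁻¹ p)
      have h3 := hx p
      rw [MonoidHom.inv_apply] at h2 h3
      rw [h.tw_mul, ← h3, ← h2, inv_inv]
    have h2 := h.mem_of_tw_char hμ' h1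
    have h3 : ((x⁻¹ : HH P W) : G) ∈ MM P W := h.mem_of_sq (x⁻¹).2 h2
    apply hμ'2
    intro p
    have h4 := hx p
    rw [h.tw_M h3, MonoidHom.inv_apply] at h4
    nth_rw 1 [← h4]
    rw [inv_mul_cancel]
  have hreal : ∀ χ : IrrCharacter G, h.mm μ₂ χ ≠ 0 → h.mm μ₂ χ = 1 ∧ h.mm μ' χ = h.mm μ'⁻¹ χ := by
    intro χ hχ
    rcases h.mult_le hμ₂ hμ₂2 χ with h1 | ⟨h1, h2⟩
    · exact absurd (by rw [mm, h1]; rfl) hχ
    · exact ⟨by rw [mm, h1]; rfl, h.mm_inv μ' (real_of_nu h2)⟩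
  have hdeg : ∀ χ : IrrCharacter G, (0 : ℤ) < (charDegree (χ : G → ℂ) : ℤ) := fun χ => by
    exact_mod_cast Nat.pos_of_ne_zero (H20.Defect.charDegree_ne_zero χ)
  obtain ⟨a, b, d, hab, had, hbd, hv, hv', h2a, h2b, h2d, hde⟩ := H79.GramComb.comb
    (deg := fun χ : IrrCharacter G => (charDegree (χ : G → ℂ) : ℤ))
    (m₁ := h.mm μ') (m₂ := h.mm μ₂) (m₃ := h.mm μ'⁻¹) (N := N) hdeg
    (h.mm_nonneg _) (h.mm_nonneg _) (h.mm_nonneg _)
    (h.gz_cj hN hμ' (h.cj_refl _)) (h.gz_cj hN hμ₂ (h.cj_refl _)) (h.gz_cj hN hμ'i (h.cj_refl _))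
    (h.gz_not hN c21) (h.gz_not hN c23) (h.gz_not hN c13)
    ((h.sum_deg _).trans (h.sum_deg _).symm) ((h.sum_deg _).trans (h.sum_deg _).symm) hreal
  refine ⟨μ₂, μ', a, b, hμ₂, hμ't, hμ₂t, hv, hab, h2a, ?_, by exact_mod_cast hde, ?_⟩
  · have h1 := hv b
    rw [h2b, if_neg hab.symm, if_pos rfl] at h1
    omega
  · intro μ hμ hc
    by_cases c2 : h.Cj μ μ₂
    · rw [h.mm_cj hμ c2, h2b]
    by_cases c3 : h.Cj μ μ'⁻¹
    · rw [h.mm_cj hμ c3]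
      have h1 := hv' b
      rw [h2b, if_neg hab.symm, if_neg hbd] at h1
      omega
    exact H79.GramComb.comb2 (deg := fun χ : IrrCharacter G => (charDegree (χ : G → ℂ) : ℤ)) hdeg hab had hbd hv hv'
      h2a h2b h2d (h.gz_cj hN hμ₂ (h.cj_refl _)) (h.mm_nonneg μ) (h.gz_cj hN hμ (h.cj_refl _))
      (h.gz_not hN hc) (h.gz_not hN c2) (h.gz_not hN c3) ((h.sum_deg _).trans (h.sum_deg _).symm)

end H79.SE.Cfg
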