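import Mathlib
import Cfsg.Agent.Lib.H79.SEPair

/-! Values of the characters induced from `M`. -/

set_option autoImplicit false
set_option linter.unusedSectionVars false
set_option linter.unusedVariables false
set_option linter.style.haveILetI false
open Cfsg H79.Hecke
open scoped ComplexConjugate

namespace H79.SE.Cfg

universe u

theorem mul_self_of_order {G : Type u} [Group G] {s : G} (hs : orderOf s = 2) : s * s = 1 := by
  rw [← sq, ← hs, pow_orderOf_eq_one]

variable {G : Type u} [Group G] [Finite G] {P : Sylow 2 G} {W : Subgroup G} (h : Cfg P W)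
include h

theorem ind_in [Fintype G] [Fintype (MM P W)] [Fintype (HH P W)] {u : G} (hu : u ∈ MM P W) (huW : u ∉ W)
    (μ : (P : Subgroup G) →* ℂˣ) :
    indFun (MM P W) (fn (h.ml μ)) u =
      (Nat.card (MM P W) : ℂ)⁻¹ * ∑ x : HH P W, (μ (h.tw x⁻¹ (h.pr ⟨u, hu⟩)) : ℂ) := by
  classical
  rw [H18.CharInd.indFun_apply]
  congr 1
  have h1 : ∑ x : G, extendByZero (MM P W) (fn (h.ml μ)) (x⁻¹ * u * x) =
      (∑ x ∈ Finset.univ.filter (fun x : G => x ∈ HH P W), extendByZero (MM P W) (fn (h.ml μ)) (x⁻¹ * u * x)) := by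
    rw [Finset.sum_filter]
    refine Finset.sum_congr rfl fun x _ => ?_
    split_ifs with hx
    · rfl
    · apply H18.CharInd.ext_notMem
      intro hm
      exact huW (h.mem_W_of_out hx hu hm)
  rw [h1, Finset.sum_subtype _ (p := fun x => x ∈ HH P W) (fun x => by simp)]
  refine Finset.sum_congr rfl fun x _ => ?_
  have hm : (x : G)⁻¹ * u * x ∈ MM P W := by
    have := h.conj_M (inv_mem x.2) hu
    rwa [inv_inv] at this
  rw [H18.CharInd.ext_mem _ _ hm, fn_apply, h.ml_apply]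
  congr 2
  apply h.pr_conj x⁻¹ ⟨u, hu⟩
  show (x : G)⁻¹ * u * x = ((x⁻¹ : HH P W) : G) * u * ((x⁻¹ : HH P W) : G)⁻¹
  push_cast
  rw [inv_inv]

theorem ind_eq [Fintype G] [Fintype (MM P W)] {u : G} (hu : ∀ x : G, x⁻¹ * u * x ∈ MM P W → x⁻¹ * u * x ∈ W)
    (μ μ' : (P : Subgroup G) →* ℂˣ) :
    indFun (MM P W) (fn (h.ml μ)) u = indFun (MM P W) (fn (h.ml μ')) u := by
  rw [H18.CharInd.indFun_apply, H18.CharInd.indFun_apply]
  congr 1
  refine Finset.sum_congr rfl fun x _ => ?_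
  by_cases hx : x⁻¹ * u * x ∈ MM P W
  · rw [H18.CharInd.ext_mem _ _ hx, H18.CharInd.ext_mem _ _ hx, fn_apply, fn_apply, h.ml_apply, h.ml_apply,
      h.pr_eq_one.2 (hu x hx), map_one, map_one]
  · rw [H18.CharInd.ext_notMem _ _ hx, H18.CharInd.ext_notMem _ _ hx]

theorem tw_inv_order (x : HH P W) {s : (P : Subgroup G)} (hs : orderOf (s : G) = 2) : orderOf ((h.tw x s : (P : Subgroup G)) : G) = 2 := by
  have h1 : s * s = 1 := Subtype.ext (mul_self_of_order hs)
  refine orderOf_eq_prime ?_ ?_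
  · rw [sq]
    have h2 : h.tw x s * h.tw x s = 1 := by rw [← map_mul, h1, map_one]
    exact congrArg Subtype.val h2
  · intro hc
    have h2 : h.tw x s = 1 := Subtype.ext hc
    have h3 := h.tw_inv_tw x s
    rw [h2, map_one] at h3
    rw [← h3, Subgroup.coe_one, orderOf_one] at hs
    omega

theorem exists_tw {s s' : (P : Subgroup G)} (hs : orderOf (s : G) = 2) (hs' : orderOf (s' : G) = 2) :
    ∃ x : HH P W, h.tw x s = s' := by
  obtain ⟨k, hk, h1⟩ := h.conj_inv (h.P_le_H s.2) hs (h.P_le_H s'.2) hs'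
  refine ⟨⟨k, hk⟩, ?_⟩
  have h2 : h.pr ⟨s', h.P_le_M s'.2⟩ = h.tw ⟨k, hk⟩ (h.pr ⟨s, h.P_le_M s.2⟩) := by
    apply h.pr_conj ⟨k, hk⟩ ⟨s, h.P_le_M s.2⟩
    exact h1.symm
  rw [h.pr_P s.2, h.pr_P s'.2] at h2
  exact h2.symm

theorem card_fib {s s' : (P : Subgroup G)} (hs : orderOf (s : G) = 2) (hs' : orderOf (s' : G) = 2) :
    Nat.card {x : HH P W // h.tw x s = s'} = Nat.card (MM P W) := by
  obtain ⟨x₀, hx₀⟩ := h.exists_tw hs hs'
  have hs1 : s ≠ 1 := by rintro rfl; rw [Subgroup.coe_one, orderOf_one] at hs; omega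
  apply h.card_coset x₀
  intro x
  constructor
  · intro hx
    apply h.mem_of_tw hs1
    rw [h.tw_mul, hx, ← hx₀, h.tw_inv_tw]
  · intro hx
    have h1 : x = x₀ * (x₀⁻¹ * x) := by group
    rw [h1, h.tw_mul, h.tw_M hx, hx₀]

theorem sum_tw [Fintype (HH P W)] [Fintype (P : Subgroup G)] [DecidablePred fun s : (P : Subgroup G) => orderOf (s : G) = 2]
    (f : ↥(P : Subgroup G) → ℂ) {s : (P : Subgroup G)} (hs : orderOf (s : G) = 2) :
    ∑ x : HH P W, f (h.tw x s) = (Nat.card (MM P W) : ℂ) *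
      ∑ s' ∈ Finset.univ.filter (fun s' : (P : Subgroup G) => orderOf (s' : G) = 2), f s' := by
  classical
  have h1 : ∀ x : HH P W, f (h.tw x s) = ∑ s' ∈ Finset.univ.filter (fun s' : (P : Subgroup G) => orderOf (s' : G) = 2),
      if h.tw x s = s' then f s' else 0 := by
    intro x
    rw [Finset.sum_ite_eq, if_pos]
    rw [Finset.mem_filter]
    exact ⟨Finset.mem_univ _, h.tw_inv_order x hs⟩
  rw [Finset.sum_congr rfl (fun x _ => h1 x), Finset.sum_comm, Finset.mul_sum]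
  refine Finset.sum_congr rfl fun s' hs' => ?_
  rw [← Finset.sum_filter, Finset.sum_const, nsmul_eq_mul]
  congr 2
  rw [← h.card_fib hs (Finset.mem_filter.1 hs').2, Nat.card_eq_fintype_card, Fintype.card_subtype]

theorem sum_tw_inv [Fintype (HH P W)] [Fintype (P : Subgroup G)] [DecidablePred fun s : (P : Subgroup G) => orderOf (s : G) = 2]
    (f : ↥(P : Subgroup G) → ℂ) {s : (P : Subgroup G)} (hs : orderOf (s : G) = 2) :
    ∑ x : HH P W, f (h.tw x⁻¹ s) = (Nat.card (MM P W) : ℂ) *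
      ∑ s' ∈ Finset.univ.filter (fun s' : (P : Subgroup G) => orderOf (s' : G) = 2), f s' := by
  rw [← h.sum_tw f hs]
  exact Fintype.sum_equiv (Equiv.inv _) _ _ fun x => rfl

theorem sum_inv_char [Fintype (P : Subgroup G)] [DecidablePred fun s : (P : Subgroup G) => orderOf (s : G) = 2]
    {t : G} (ht : t ∈ (P : Subgroup G)) (ht2 : orderOf t = 2) {μ : (P : Subgroup G) →* ℂˣ} (hμ : μ ⟨t, ht⟩ ≠ 1) :
    ∑ s' ∈ Finset.univ.filter (fun s' : (P : Subgroup G) => orderOf (s' : G) = 2), (μ s' : ℂ) = -1 := by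
  classical
  have htt : (⟨t, ht⟩ * ⟨t, ht⟩ : (P : Subgroup G)) = 1 := Subtype.ext (by
    show t * t = 1
    rw [← sq, ← ht2, pow_orderOf_eq_one])
  have h1 : ∑ s ∈ Finset.univ.filter (fun s : (P : Subgroup G) => s * s = 1), (μ s : ℂ) = 0 := by
    have h2 : ∑ s ∈ Finset.univ.filter (fun s : (P : Subgroup G) => s * s = 1), (μ s : ℂ) =
        (μ ⟨t, ht⟩ : ℂ) * ∑ s ∈ Finset.univ.filter (fun s : (P : Subgroup G) => s * s = 1), (μ s : ℂ) := by
      rw [Finset.mul_sum]
      refine Finset.sum_bij' (fun s _ => ⟨t, ht⟩ * s) (fun s _ => ⟨t, ht⟩ * s) ?_ ?_ ?_ ?_ ?_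
      · intro s hs
        rw [Finset.mem_filter] at hs ⊢
        refine ⟨Finset.mem_univ _, ?_⟩
        calc (⟨t, ht⟩ * s) * (⟨t, ht⟩ * s) = ⟨t, ht⟩ * (s * ⟨t, ht⟩) * s := by group
          _ = ⟨t, ht⟩ * (⟨t, ht⟩ * s) * s := by rw [h.comm s]
          _ = (⟨t, ht⟩ * ⟨t, ht⟩) * (s * s) := by group
          _ = 1 := by rw [htt, hs.2, one_mul]
      · intro s hs
        rw [Finset.mem_filter] at hs ⊢
        refine ⟨Finset.mem_univ _, ?_⟩
        calc (⟨t, ht⟩ * s) * (⟨t, ht⟩ * s) = ⟨t, ht⟩ * (s * ⟨t, ht⟩) * s := by group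
          _ = ⟨t, ht⟩ * (⟨t, ht⟩ * s) * s := by rw [h.comm s]
          _ = (⟨t, ht⟩ * ⟨t, ht⟩) * (s * s) := by group
          _ = 1 := by rw [htt, hs.2, one_mul]
      · intro s hs
        rw [← mul_assoc, htt, one_mul]
      · intro s hs
        rw [← mul_assoc, htt, one_mul]
      · intro s hs
        rw [map_mul, Units.val_mul, ← mul_assoc, ← Units.val_mul, ← map_mul, htt, map_one, Units.val_one, one_mul]
    have h3 : (1 - (μ ⟨t, ht⟩ : ℂ)) * ∑ s ∈ Finset.univ.filter (fun s : (P : Subgroup G) => s * s = 1), (μ s : ℂ) = 0 := by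
      rw [sub_mul, one_mul, ← h2, sub_self]
    rcases mul_eq_zero.1 h3 with h4 | h4
    · exfalso
      apply hμ
      apply Units.ext
      rw [Units.val_one]
      exact (sub_eq_zero.1 h4).symm
    · exact h4
  have h2 : Finset.univ.filter (fun s : (P : Subgroup G) => s * s = 1) =
      insert 1 (Finset.univ.filter (fun s : (P : Subgroup G) => orderOf (s : G) = 2)) := by
    ext s
    rw [Finset.mem_insert, Finset.mem_filter, Finset.mem_filter]
    constructor
    · rintro ⟨-, hs⟩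
      by_cases h1 : s = 1
      · left; exact h1
      · right
        refine ⟨Finset.mem_univ _, orderOf_eq_prime ?_ (fun hc => h1 (Subtype.ext hc))⟩
        rw [sq]; exact congrArg Subtype.val hs
    · rintro (rfl | ⟨-, hs⟩)
      · exact ⟨Finset.mem_univ _, one_mul 1⟩
      · exact ⟨Finset.mem_univ _, Subtype.ext (mul_self_of_order hs)⟩
  rw [h2, Finset.sum_insert, map_one, Units.val_one] at h1
  · linear_combination h1
  · rw [Finset.mem_filter]
    rintro ⟨-, hc⟩
    rw [Subgroup.coe_one, orderOf_one] at hc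
    omega

end H79.SE.Cfg
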