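import Mathlib
import Cfsg.Agent.Lib.H79.SEInd
import Cfsg.Agent.Lib.H20.Homo4

/-! The two distinguished characters lie in the principal block. -/

set_option autoImplicit false
set_option linter.unusedSectionVars false
set_option linter.unusedVariables false
set_option linter.style.haveILetI false
open Cfsg H79.Hecke H20.Col H20.Homo2 H20.NPC
open scoped ComplexConjugate

namespace H79.SE.Cfg

universe u

variable {G : Type u} [Group G] [Finite G] {P : Sylow 2 G} {W : Subgroup G} (h : Cfg P W)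
include h

theorem ind_expand [Fintype G] [Fintype (MM P W)] [Fintype (IrrCharacter G)] (μ : (P : Subgroup G) →* ℂˣ) (g : G) :
    indFun (MM P W) (fn (h.ml μ)) g = ∑ χ : IrrCharacter G, (h.mm μ χ : ℂ) * (χ : G → ℂ) g := by
  have h1 := congrFun (H18.CharOrtho.mem_classFun_expand (H18.CharInd.isClassFunction_indFun (MM P W) (fn (h.ml μ)))) g
  rw [Finset.sum_apply] at h1
  refine h1.trans (Finset.sum_congr rfl fun χ _ => ?_)
  rw [Pi.smul_apply, smul_eq_mul, mu_ind', mm]
  push_cast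
  rfl

variable {μ₂ μ' : (P : Subgroup G) →* ℂˣ} {a b : IrrCharacter G}

theorem diff_eq [Fintype G] [Fintype (MM P W)] [Fintype (IrrCharacter G)] [DecidableEq (IrrCharacter G)]
    (hv : ∀ χ, h.mm μ₂ χ - h.mm μ' χ = (if χ = a then 1 else 0) - (if χ = b then 1 else 0)) (g : G) :
    indFun (MM P W) (fn (h.ml μ₂)) g - indFun (MM P W) (fn (h.ml μ')) g = (a : G → ℂ) g - (b : G → ℂ) g := by
  rw [h.ind_expand, h.ind_expand, ← Finset.sum_sub_distrib]
  have h1 : ∀ χ : IrrCharacter G, (h.mm μ₂ χ : ℂ) * (χ : G → ℂ) g - (h.mm μ' χ : ℂ) * (χ : G → ℂ) g =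
      (if χ = a then (χ : G → ℂ) g else 0) - (if χ = b then (χ : G → ℂ) g else 0) := by
    intro χ
    rw [← sub_mul]
    have h2 : ((h.mm μ₂ χ : ℂ) - (h.mm μ' χ : ℂ)) = (if χ = a then 1 else 0) - (if χ = b then 1 else 0) := by
      rw [← Int.cast_sub, hv]
      push_cast
      rfl
    rw [h2]
    split_ifs <;> ring
  rw [Finset.sum_congr rfl (fun χ _ => h1 χ), Finset.sum_sub_distrib, Finset.sum_ite_eq', Finset.sum_ite_eq',
    if_pos (Finset.mem_univ _), if_pos (Finset.mem_univ _)]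

theorem diff_const [Fintype G] [Fintype (MM P W)] [Fintype (HH P W)] [Fintype (IrrCharacter G)]
    [DecidableEq (IrrCharacter G)]
    (hv : ∀ χ, h.mm μ₂ χ - h.mm μ' χ = (if χ = a then 1 else 0) - (if χ = b then 1 else 0))
    {z : G} (hz : ∃ k : ℕ, orderOf z = 2 ^ k) :
    ∃ κ : ℂ, ∀ w : Cen z, ¬ 2 ∣ orderOf w → (a : G → ℂ) (z * (w : G)) - (b : G → ℂ) (z * (w : G)) = κ := by
  by_cases hz1 : z = 1
  · refine ⟨0, fun w hw => ?_⟩
    rw [← h.diff_eq hv, h.ind_eq, sub_self]
    intro x hx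
    apply h.mem_W_of_odd hx
    have h1 := order_conj x⁻¹ (z * (w : G))
    rw [inv_inv] at h1
    have e : z * (w : G) = w := mul_eq_right.2 hz1
    rw [h1, e, Subgroup.orderOf_coe, ← Nat.not_even_iff_odd, even_iff_two_dvd]
    exact hw
  · obtain ⟨g, hg⟩ := H20.Klein.exists_conj_mem_of_pelt P hz
    refine ⟨(a : G → ℂ) (g * z * g⁻¹) - (b : G → ℂ) (g * z * g⁻¹), fun w hw => ?_⟩
    have hz2 : g * z * g⁻¹ ∉ W := by
      intro hW
      apply hz1
      have h1 := h.disj hW hg
      have : z = g⁻¹ * (g * z * g⁻¹) * g := by group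
      rw [this, h1]; group
    have hwo : Odd (orderOf (g * (w : G) * g⁻¹)) := by
      rw [order_conj, Subgroup.orderOf_coe, ← Nat.not_even_iff_odd, even_iff_two_dvd]
      exact hw
    have hcz : (w : G) * z = z * w := Subgroup.mem_centralizer_singleton_iff.1 w.2
    have hwM : g * (w : G) * g⁻¹ ∈ MM P W := by
      apply h.cen_le' (h.P_le_M hg) hz2
      rw [Subgroup.mem_centralizer_singleton_iff]
      calc g * (w : G) * g⁻¹ * (g * z * g⁻¹) = g * (w * z) * g⁻¹ := by group
        _ = g * (z * w) * g⁻¹ := by rw [hcz]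
        _ = g * z * g⁻¹ * (g * w * g⁻¹) := by group
    have hwW := h.mem_W_of_odd hwM hwo
    have huM : g * z * g⁻¹ * (g * (w : G) * g⁻¹) ∈ MM P W := mul_mem (h.P_le_M hg) hwM
    have huW : g * z * g⁻¹ * (g * (w : G) * g⁻¹) ∉ W := by
      intro hc
      apply hz2
      have := mul_mem hc (inv_mem hwW)
      rwa [mul_inv_cancel_right] at this
    have hpr : h.pr ⟨g * z * g⁻¹ * (g * (w : G) * g⁻¹), huM⟩ = h.pr ⟨g * z * g⁻¹, h.P_le_M hg⟩ := by
      have : (⟨g * z * g⁻¹ * (g * (w : G) * g⁻¹), huM⟩ : MM P W) = ⟨g * z * g⁻¹, h.P_le_M hg⟩ * ⟨g * (w : G) * g⁻¹, hwM⟩ :=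
        rfl
      rw [this, map_mul, (h.pr_eq_one (x := ⟨g * (w : G) * g⁻¹, hwM⟩)).2 hwW, mul_one]
    have e1 : ∀ χ : IrrCharacter G, (χ : G → ℂ) (z * (w : G)) = (χ : G → ℂ) (g * z * g⁻¹ * (g * (w : G) * g⁻¹)) := by
      intro χ
      have : g * z * g⁻¹ * (g * (w : G) * g⁻¹) = g * (z * w) * g⁻¹ := by group
      rw [this, H20.Height.irr_class χ]
    rw [e1 a, e1 b, ← h.diff_eq hv, ← h.diff_eq hv, h.ind_in huM huW, h.ind_in huM huW,
      h.ind_in (h.P_le_M hg) hz2, h.ind_in (h.P_le_M hg) hz2, hpr]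

theorem mem_principal [Fintype G] [Fintype (MM P W)] [Fintype (HH P W)] [Fintype (IrrCharacter G)]
    [DecidableEq (IrrCharacter G)] {M : Ideal AlgInt} (hM : IsPModular 2 M) (hab : a ≠ b)
    (hv : ∀ χ, h.mm μ₂ χ - h.mm μ' χ = (if χ = a then 1 else 0) - (if χ = b then 1 else 0)) :
    a ∈ principalBlock M G ∧ b ∈ principalBlock M G := by
  classical
  haveI := H20.Loc.pm_isPrime hM
  have key : ∀ g : G, ∑ χ ∈ Bf M G, ((if χ = a then 1 else 0) - (if χ = b then 1 else 0) : ℂ) * (χ : G → ℂ) g =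
      (a : G → ℂ) g - (b : G → ℂ) g := by
    intro g
    obtain ⟨z, y, hzy, hc, hk, hy⟩ := H19.Second.exists_isPPart Nat.prime_two g
    obtain ⟨κ, hκ⟩ := h.diff_const hv hk
    have hyc : y ∈ Cen z := Subgroup.mem_centralizer_singleton_iff.2 hc.symm
    have h1 := H20.Homo4.section_vanish hM hk (fun χ => ((if χ = a then 1 else 0) - (if χ = b then 1 else 0) -
      (if χ = one G then κ else 0) : ℂ)) (by
        intro w hw
        simp only [sub_mul, Finset.sum_sub_distrib, ite_mul, one_mul, zero_mul, Finset.sum_ite_eq', Finset.mem_univ,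
          if_true]
        rw [hκ w hw]
        show κ - κ * 1 = 0
        ring) (y := ⟨y, hyc⟩) (by rw [Subgroup.orderOf_mk]; exact hy)
    simp only [sub_mul _ (if _ = one G then κ else 0), Finset.sum_sub_distrib] at h1
    have h2 : ∑ χ ∈ Bf M G, (if χ = one G then κ else 0) * (χ : G → ℂ) (z * y) = κ := by
      simp only [ite_mul, zero_mul, Finset.sum_ite_eq']
      rw [if_pos (mem_Bf.2 (H20.Klein.one_mem))]
      show κ * 1 = κ
      ring
    have h3 := hκ ⟨y, hyc⟩ (by rw [Subgroup.orderOf_mk]; exact hy)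
    change (a : G → ℂ) (z * y) - (b : G → ℂ) (z * y) = κ at h3
    rw [← hzy, h3]
    have h4 := sub_eq_zero.1 h1
    change _ = ∑ χ ∈ Bf M G, (if χ = one G then κ else 0) * (χ : G → ℂ) (z * y) at h4
    rw [h2] at h4
    exact h4
  have hne : (a : G → ℂ) ≠ (b : G → ℂ) := fun hc => hab (Subtype.ext hc)
  have key2 : ∀ g : G, (if a ∈ Bf M G then (a : G → ℂ) g else 0) - (if b ∈ Bf M G then (b : G → ℂ) g else 0) =
      (a : G → ℂ) g - (b : G → ℂ) g := by
    intro g
    rw [← key g]
    simp only [sub_mul, Finset.sum_sub_distrib, ite_mul, one_mul, zero_mul, Finset.sum_ite_eq']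
  have haa := H18.CharOrtho.inner_irr_self a.2
  have hbb := H18.CharOrtho.inner_irr_self b.2
  have hab' := H18.CharOrtho.inner_irr_ne a.2 b.2 hne
  have hba' := H18.CharOrtho.inner_irr_ne b.2 a.2 hne.symm
  constructor
  · by_contra hcon
    have ha : a ∉ Bf M G := fun hc => hcon (mem_Bf.1 hc)
    obtain ⟨c, hc⟩ : ∃ c : ℂ, ∀ g : G, (a : G → ℂ) g = c * (b : G → ℂ) g := by
      by_cases hb : b ∈ Bf M G
      · refine ⟨0, fun g => ?_⟩
        have := key2 g
        rw [if_neg ha, if_pos hb] at this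
        linear_combination -this
      · refine ⟨1, fun g => ?_⟩
        have := key2 g
        rw [if_neg ha, if_neg hb] at this
        linear_combination -this
    have h1 : classInner (a : G → ℂ) (a : G → ℂ) = c * classInner (b : G → ℂ) (a : G → ℂ) := by
      have : (a : G → ℂ) = c • (b : G → ℂ) := funext hc
      conv_lhs => rw [this]
      rw [H18.CharOrtho.inner_smul_left]
      rw [← this]
    rw [haa, hba', mul_zero] at h1
    exact one_ne_zero h1
  · by_contra hcon
    have hb : b ∉ Bf M G := fun hc => hcon (mem_Bf.1 hc)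
    obtain ⟨c, hc⟩ : ∃ c : ℂ, ∀ g : G, (b : G → ℂ) g = c * (a : G → ℂ) g := by
      by_cases ha : a ∈ Bf M G
      · refine ⟨0, fun g => ?_⟩
        have := key2 g
        rw [if_neg hb, if_pos ha] at this
        linear_combination this
      · refine ⟨1, fun g => ?_⟩
        have := key2 g
        rw [if_neg hb, if_neg ha] at this
        linear_combination this
    have h1 : classInner (b : G → ℂ) (b : G → ℂ) = c * classInner (a : G → ℂ) (b : G → ℂ) := by
      have : (b : G → ℂ) = c • (a : G → ℂ) := funext hc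
      conv_lhs => rw [this]
      rw [H18.CharOrtho.inner_smul_left]
      rw [← this]
    rw [hbb, hab', mul_zero] at h1
    exact one_ne_zero h1

end H79.SE.Cfg
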