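import Mathlib
import Cfsg.Agent.Lib.H79.SEBlk
import Cfsg.Agent.Lib.H83.Schur

/-! The Sylow subgroup of a strongly embedded configuration is elementary. -/

set_option autoImplicit false
set_option linter.unusedSectionVars false
set_option linter.unusedVariables false
set_option linter.style.haveILetI false
open Cfsg H79.Hecke H20.Col H20.Homo2 H20.NPC
open scoped ComplexConjugate

namespace H79.SE.Cfg

universe u

variable {G : Type u} [Group G] [Finite G] {P : Sylow 2 G} {W : Subgroup G} (h : Cfg P W)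
include h

theorem card_fiber_pr (s : (P : Subgroup G)) :
    Nat.card {u : MM P W // h.pr u = s} * Nat.card (P : Subgroup G) = Nat.card (MM P W) := by
  have hs : h.pr ⟨s, h.P_le_M s.2⟩ = s := h.pr_P s.2
  have h1 : Nat.card {u : MM P W // h.pr u = s} = Nat.card h.pr.ker := by
    refine Nat.card_congr ⟨fun u => ⟨u * ⟨s, h.P_le_M s.2⟩⁻¹, ?_⟩, fun k => ⟨k * ⟨s, h.P_le_M s.2⟩, ?_⟩, ?_, ?_⟩
    · rw [MonoidHom.mem_ker, map_mul, map_inv, hs, u.2, mul_inv_cancel]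
    · rw [map_mul, hs, MonoidHom.mem_ker.1 k.2, one_mul]
    · intro u; apply Subtype.ext; exact inv_mul_cancel_right _ _
    · intro k; apply Subtype.ext; exact mul_inv_cancel_right _ _
  have h2 := Subgroup.card_mul_index h.pr.ker
  have h3 : h.pr.ker.index = Nat.card h.pr.range := Subgroup.index_ker _
  have h4 : h.pr.range = ⊤ := by
    rw [eq_top_iff]
    intro p _
    exact ⟨⟨p, h.P_le_M p.2⟩, h.pr_P p.2⟩
  rw [h4, Subgroup.card_top] at h3
  rw [h1, ← h3, h2]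

theorem value_pr {M : Ideal AlgInt} (hM : IsPModular 2 M) {χ : IrrCharacter G} (hχ : χ ∈ principalBlock M G)
    {t : (P : Subgroup G)} (ht1 : t ≠ 1) {u : MM P W} (hu : h.pr u = t) : (χ : G → ℂ) u = (χ : G → ℂ) t := by
  have huW : (u : G) ∉ W := fun hc => ht1 (by rw [← hu]; exact h.pr_eq_one.2 hc)
  obtain ⟨z, hzM, hzW, hk, h1, h2⟩ := h.value_part hM hχ u.2 huW
  have h3 : h.pr ⟨z, hzM⟩ = t := by
    have h4 : h.pr (u * ⟨z, hzM⟩⁻¹) = 1 := h.pr_eq_one.2 h2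
    rw [map_mul, map_inv, mul_inv_eq_one] at h4
    rw [← h4, hu]
  obtain ⟨g, hg⟩ := H20.Klein.exists_conj_mem_of_pelt (P.subtype h.P_le_M) (x := ⟨z, hzM⟩)
    (by rw [Subgroup.orderOf_mk]; exact hk)
  have hg' : (g : G) * z * (g : G)⁻¹ ∈ (P : Subgroup G) := hg
  have h5 : h.pr (g * ⟨z, hzM⟩ * g⁻¹) = t := by
    rw [map_mul, map_mul, map_inv, h.comm (h.pr g), mul_inv_cancel_right, h3]
  have h6 : (g : G) * z * (g : G)⁻¹ = t := by
    have h7 := h.pr_P hg'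
    have h8 : (⟨(g : G) * z * (g : G)⁻¹, h.P_le_M hg'⟩ : MM P W) = g * ⟨z, hzM⟩ * g⁻¹ := rfl
    rw [h8, h5] at h7
    exact (congrArg Subtype.val h7).symm
  rw [h1, ← h6, H20.Height.irr_class χ]

theorem fourier [Fintype G] [Fintype (MM P W)] {M : Ideal AlgInt} (hM : IsPModular 2 M) {χ : IrrCharacter G}
    (hχ : χ ∈ principalBlock M G) {t : (P : Subgroup G)} (ht1 : t ≠ 1)
    [Fintype (IrrCharacter (P : Subgroup G))] (f : IrrCharacter (P : Subgroup G) → (↥(P : Subgroup G) →* ℂˣ))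
    (hf : ∀ l : IrrCharacter (P : Subgroup G), (l : ↥(P : Subgroup G) → ℂ) = fun p => (f l p : ℂ)) :
    (χ : G → ℂ) t = ∑ l : IrrCharacter (P : Subgroup G), (h.mm (f l) χ : ℂ) * (f l t : ℂ) := by
  classical
  have hcM : (Nat.card (MM P W) : ℂ) ≠ 0 := by exact_mod_cast (Nat.card_pos (α := MM P W)).ne'
  have h1 : ∀ l : IrrCharacter (P : Subgroup G), (h.mm (f l) χ : ℂ) * (f l t : ℂ) =
      (Nat.card (MM P W) : ℂ)⁻¹ * ∑ u : MM P W, (χ : G → ℂ) u *
        ((l : ↥(P : Subgroup G) → ℂ) t * conj ((l : ↥(P : Subgroup G) → ℂ) (h.pr u))) := by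
    intro l
    have h2 : (h.mm (f l) χ : ℂ) = (mu (MM P W) (h.ml (f l)) χ : ℂ) := by rw [mm]; push_cast; rfl
    rw [h2, ← mu_spec, classInner, mul_assoc, Finset.sum_mul]
    congr 1
    refine Finset.sum_congr rfl fun u _ => ?_
    rw [fn_apply, h.ml_apply, hf l]
    ring
  rw [Finset.sum_congr rfl (fun l _ => h1 l), ← Finset.mul_sum, Finset.sum_comm]
  have h2 : ∀ u : MM P W, ∑ l : IrrCharacter (P : Subgroup G), (χ : G → ℂ) u *
        ((l : ↥(P : Subgroup G) → ℂ) t * conj ((l : ↥(P : Subgroup G) → ℂ) (h.pr u))) =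
      if h.pr u = t then (χ : G → ℂ) t * (Nat.card (P : Subgroup G) : ℂ) else 0 := by
    intro u
    rw [← Finset.mul_sum, H20.Homo.sum_col h.comm t (h.pr u)]
    by_cases hu : h.pr u = t
    · rw [if_pos hu.symm, if_pos hu, h.value_pr hM hχ ht1 hu]
    · rw [if_neg (Ne.symm hu), if_neg hu, mul_zero]
  rw [Finset.sum_congr rfl (fun u _ => h2 u), ← Finset.sum_filter, Finset.sum_const, nsmul_eq_mul]
  have h3 : ((Finset.univ.filter (fun u : MM P W => h.pr u = t)).card : ℂ) * (Nat.card (P : Subgroup G) : ℂ) =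
      (Nat.card (MM P W) : ℂ) := by
    have h4 : (Finset.univ.filter (fun u : MM P W => h.pr u = t)).card = Nat.card {u : MM P W // h.pr u = t} := by
      rw [Nat.card_eq_fintype_card, Fintype.card_subtype]
    rw [h4, ← h.card_fiber_pr t]
    push_cast
    rfl
  rw [mul_comm ((χ : G → ℂ) t), ← mul_assoc ((Finset.univ.filter (fun u : MM P W => h.pr u = t)).card : ℂ), h3,
    ← mul_assoc, inv_mul_cancel₀ hcM, one_mul]

theorem beta [Fintype G] [Fintype (MM P W)] [Fintype (HH P W)] [Fintype (IrrCharacter G)]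
    {M : Ideal AlgInt} (hM : IsPModular 2 M) {b : IrrCharacter G} (hb : b ∈ principalBlock M G)
    {t : G} (ht : t ∈ (P : Subgroup G)) (ht2 : orderOf t = 2) {μ' : (P : Subgroup G) →* ℂˣ}
    (hμt : μ' ⟨t, ht⟩ ≠ 1) (hb1 : h.mm μ' b = 1)
    (hoth : ∀ μ : (P : Subgroup G) →* ℂˣ, μ ≠ 1 → ¬ h.Cj μ μ' → h.mm μ b = 0) :
    (b : G → ℂ) t = (h.mm 1 b : ℂ) - 1 := by
  classical
  letI := Fintype.ofFinite (IrrCharacter (P : Subgroup G))
  letI := Fintype.ofFinite (P : Subgroup G)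
  have hcM : (Nat.card (MM P W) : ℂ) ≠ 0 := by exact_mod_cast (Nat.card_pos (α := MM P W)).ne'
  have ht1 : (⟨t, ht⟩ : (P : Subgroup G)) ≠ 1 := by
    intro hc
    have : t = 1 := congrArg Subtype.val hc
    rw [this, orderOf_one] at ht2; omega
  have hex : ∀ l : IrrCharacter (P : Subgroup G), ∃ f : (P : Subgroup G) →* ℂˣ,
      (l : ↥(P : Subgroup G) → ℂ) = fun a => (f a : ℂ) := fun l =>
    H18.CharBasic.exists_hom_of_isIrr_of_comm h.comm l.2
  choose f hf using hex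
  have hμ1 : μ' ≠ 1 := by rintro rfl; exact hμt rfl
  have hf1 : ∀ l, f l = 1 ↔ l = one (P : Subgroup G) := by
    intro l
    constructor
    · intro hc
      apply Subtype.ext
      rw [hf l, hc]; rfl
    · rintro rfl
      refine MonoidHom.ext fun p => Units.ext ?_
      have := congrFun (hf (one (P : Subgroup G))) p
      exact this.symm
  have hν : ∀ (x : HH P W), ∃ l₀ : IrrCharacter (P : Subgroup G), ∀ l, (∀ p, μ' (h.tw x⁻¹ p) = f l p) ↔ l = l₀ := by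
    intro x
    refine ⟨⟨fun p => ((μ'.comp (h.tw x⁻¹)) p : ℂ), H18.CharBasic.isIrrCharacter_of_hom _⟩, fun l => ?_⟩
    constructor
    · intro hp
      apply Subtype.ext
      rw [hf l]
      funext p
      show ((f l p : ℂˣ) : ℂ) = ((μ' (h.tw x⁻¹ p) : ℂˣ) : ℂ)
      rw [hp p]
    · rintro rfl p
      apply Units.ext
      exact congrFun (hf ⟨fun p => ((μ'.comp (h.tw x⁻¹)) p : ℂ), H18.CharBasic.isIrrCharacter_of_hom _⟩) p
  choose l₀ hl₀ using hν
  have h1 : ∀ l, (Nat.card (MM P W) : ℂ) * ((h.mm (f l) b : ℂ) * (f l ⟨t, ht⟩ : ℂ)) =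
      (if l = one (P : Subgroup G) then (Nat.card (MM P W) : ℂ) * (h.mm 1 b : ℂ) else 0) +
        ∑ x : HH P W, if l = l₀ x then (f l ⟨t, ht⟩ : ℂ) else 0 := by
    intro l
    have h2 : ∑ x : HH P W, (if l = l₀ x then (f l ⟨t, ht⟩ : ℂ) else 0) =
        (Nat.card {x : HH P W // ∀ p, μ' (h.tw x⁻¹ p) = f l p} : ℂ) * (f l ⟨t, ht⟩ : ℂ) := by
      rw [← Finset.sum_filter, Finset.sum_const, nsmul_eq_mul]
      congr 2
      rw [Nat.card_eq_fintype_card, Fintype.card_subtype]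
      congr 1
      ext x
      rw [Finset.mem_filter, Finset.mem_filter, hl₀ x l]
    rw [h2]
    by_cases hl : l = one (P : Subgroup G)
    · have h3 := (hf1 l).2 hl
      haveI : IsEmpty {x : HH P W // ∀ p, μ' (h.tw x⁻¹ p) = f l p} := ⟨fun x => hμ1 (by
        refine MonoidHom.ext fun p => ?_
        have h4 := x.2 (h.tw x.1 p)
        rw [h.tw_inv_tw] at h4
        exact h4.trans (DFunLike.congr_fun h3 _))⟩
      have h0 : Nat.card {x : HH P W // ∀ p, μ' (h.tw x⁻¹ p) = f l p} = 0 := Nat.card_of_isEmpty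
      rw [if_pos hl, h0, h3, Nat.cast_zero, zero_mul, add_zero, MonoidHom.one_apply, Units.val_one, mul_one]
    · have h3 : f l ≠ 1 := fun hc => hl ((hf1 l).1 hc)
      rw [if_neg hl, zero_add]
      by_cases hcj : h.Cj (f l) μ'
      · rw [h.card_cj h3 hcj, h.mm_cj h3 hcj, hb1]
        push_cast
        ring
      · haveI : IsEmpty {x : HH P W // ∀ p, μ' (h.tw x⁻¹ p) = f l p} := ⟨fun x => hcj ⟨x, x.2⟩⟩
        have h0 : Nat.card {x : HH P W // ∀ p, μ' (h.tw x⁻¹ p) = f l p} = 0 := Nat.card_of_isEmpty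
        rw [h0, hoth _ h3 hcj]
        push_cast
        ring
  have h2 := h.fourier hM hb ht1 f hf
  have h3 : (Nat.card (MM P W) : ℂ) * (b : G → ℂ) t = (Nat.card (MM P W) : ℂ) * ((h.mm 1 b : ℂ) - 1) := by
    change (b : G → ℂ) t = _ at h2
    rw [h2, Finset.mul_sum, Finset.sum_congr rfl (fun l _ => h1 l), Finset.sum_add_distrib, Finset.sum_ite_eq',
      if_pos (Finset.mem_univ _), Finset.sum_comm]
    have h4 : ∀ x : HH P W, ∑ l : IrrCharacter (P : Subgroup G), (if l = l₀ x then (f l ⟨t, ht⟩ : ℂ) else 0) =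
        (μ' (h.tw x⁻¹ ⟨t, ht⟩) : ℂ) := by
      intro x
      rw [Finset.sum_ite_eq', if_pos (Finset.mem_univ _), (hl₀ x (l₀ x)).2 rfl]
    rw [Finset.sum_congr rfl (fun x _ => h4 x), h.sum_tw_inv (fun p => (μ' p : ℂ)) (s := ⟨t, ht⟩) ht2,
      h.sum_inv_char ht ht2 hμt]
    ring
  exact mul_left_cancel₀ hcM h3

/-- values on products of conjugates of `t` -/
theorem prod_zero {t g x : G} (ht : t ∈ (P : Subgroup G)) (ht2 : orderOf t = 2)
    (hx : x⁻¹ * (t * (g * t * g⁻¹)) * x ∈ MM P W) (hxW : x⁻¹ * (t * (g * t * g⁻¹)) * x ∉ W) :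
    ∃ hg : g ∈ HH P W, h.tw ⟨g, hg⟩ ⟨t, ht⟩ ≠ ⟨t, ht⟩ := by
  have htt : t * t = 1 := mul_self_of_order ht2
  have hti : t⁻¹ = t := inv_eq_of_mul_eq_one_left htt
  obtain ⟨s, hs⟩ : ∃ s, s = g * t * g⁻¹ := ⟨_, rfl⟩
  have hs2 : orderOf s = 2 := by rw [hs, order_conj, ht2]
  have hss : s * s = 1 := mul_self_of_order hs2
  rw [← hs] at hx hxW
  obtain ⟨k, hk⟩ := h.exists_pow hx hxW
  -- `z = (t s)^k` is an involution commuting with `t`
  have hz : orderOf ((t * s) ^ k) = 2 := by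
    have h1 : (x⁻¹ * (t * s) * x) ^ k = x⁻¹ * (t * s) ^ k * x := by
      have := conj_pow (a := x⁻¹) (b := t * s) (i := k)
      rwa [inv_inv] at this
    rw [h1] at hk
    have h2 := order_conj x⁻¹ ((t * s) ^ k)
    rw [inv_inv] at h2
    rw [← h2, hk]
  have hzi : ((t * s) ^ k)⁻¹ = (t * s) ^ k := inv_eq_of_mul_eq_one_left (mul_self_of_order hz)
  have hct : t * (t * s) ^ k * t⁻¹ = (t * s) ^ k := by
    rw [← conj_pow]
    have h1 : t * (t * s) * t⁻¹ = (t * s)⁻¹ := by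
      rw [mul_inv_rev, inv_eq_of_mul_eq_one_left hss, hti]
      calc t * (t * s) * t = (t * t) * (s * t) := by group
        _ = s * t := by rw [htt, one_mul]
    rw [h1, inv_pow, hzi]
  have hxk : (x⁻¹ * (t * s) * x) ^ k = x⁻¹ * (t * s) ^ k * x := by
    have := conj_pow (a := x⁻¹) (b := t * s) (i := k)
    rwa [inv_inv] at this
  have hxH : x ∈ HH P W := by
    refine h.mem_of_inv (h.P_le_H ht) ht2 (h.M_le_H ?_)
    apply h.cen_le (h.M_le_H (Subgroup.pow_mem _ hx k)) hk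
    rw [Subgroup.mem_centralizer_singleton_iff, hxk]
    have h3 : t * (t * s) ^ k = (t * s) ^ k * t := mul_inv_eq_iff_eq_mul.1 hct
    calc x⁻¹ * t * x * (x⁻¹ * (t * s) ^ k * x) = x⁻¹ * (t * (t * s) ^ k) * x := by group
      _ = x⁻¹ * ((t * s) ^ k * t) * x := by rw [h3]
      _ = x⁻¹ * (t * s) ^ k * x * (x⁻¹ * t * x) := by group
  have hvM : t * s ∈ MM P W := by
    have := h.conj_M hxH hx
    have e : x * (x⁻¹ * (t * s) * x) * x⁻¹ = t * s := by group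
    rwa [e] at this
  have hvW : t * s ∉ W := by
    intro hc
    apply hxW
    have := h.conj_W (inv_mem hxH) hc
    rwa [inv_inv] at this
  have hsM : s ∈ MM P W := by
    have := mul_mem (inv_mem (h.P_le_M ht)) hvM
    rwa [inv_mul_cancel_left] at this
  have hgH : g ∈ HH P W := by
    have h1 : g⁻¹ ∈ HH P W := by
      refine h.mem_of_inv (h.P_le_H ht) ht2 (h.M_le_H ?_)
      rw [inv_inv, ← hs]; exact hsM
    have := inv_mem h1
    rwa [inv_inv] at this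
  refine ⟨hgH, fun hc => hvW ?_⟩
  have h1 : h.pr ⟨s, hsM⟩ = h.tw ⟨g, hgH⟩ (h.pr ⟨t, h.P_le_M ht⟩) := h.pr_conj ⟨g, hgH⟩ ⟨t, h.P_le_M ht⟩ hs
  rw [h.pr_P ht, hc] at h1
  have h2 : h.pr (⟨t, h.P_le_M ht⟩ * ⟨s, hsM⟩) = 1 := by
    rw [map_mul, h1, h.pr_P ht]
    exact Subtype.ext htt
  exact h.pr_eq_one.1 h2

theorem diff_inv [Fintype G] [Fintype (MM P W)] [Fintype (HH P W)] [Fintype (IrrCharacter G)]
    [DecidableEq (IrrCharacter G)] [Fintype (P : Subgroup G)]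
    [DecidablePred fun s : (P : Subgroup G) => orderOf (s : G) = 2]
    {μ₂ μ' : (P : Subgroup G) →* ℂˣ} {a b : IrrCharacter G} {t : G} (ht : t ∈ (P : Subgroup G))
    (ht2 : orderOf t = 2) (hμt : μ' ⟨t, ht⟩ ≠ 1) (hμ₂ : ∀ s : (P : Subgroup G), orderOf (s : G) = 2 → μ₂ s = 1)
    (hv : ∀ χ, h.mm μ₂ χ - h.mm μ' χ = (if χ = a then 1 else 0) - (if χ = b then 1 else 0))
    {u : G} (hu : u ∈ MM P W) (huW : u ∉ W) (hs : orderOf ((h.pr ⟨u, hu⟩ : (P : Subgroup G)) : G) = 2) :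
    (a : G → ℂ) u - (b : G → ℂ) u =
      ((Finset.univ.filter (fun s' : (P : Subgroup G) => orderOf (s' : G) = 2)).card : ℂ) + 1 := by
  have hcM : (Nat.card (MM P W) : ℂ) ≠ 0 := by exact_mod_cast (Nat.card_pos (α := MM P W)).ne'
  rw [← h.diff_eq hv, h.ind_in hu huW, h.ind_in hu huW, h.sum_tw_inv (fun p => (μ₂ p : ℂ)) hs,
    h.sum_tw_inv (fun p => (μ' p : ℂ)) hs, h.sum_inv_char ht ht2 hμt]
  have h1 : ∑ s' ∈ Finset.univ.filter (fun s' : (P : Subgroup G) => orderOf (s' : G) = 2), (μ₂ s' : ℂ) =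
      ((Finset.univ.filter (fun s' : (P : Subgroup G) => orderOf (s' : G) = 2)).card : ℂ) := by
    rw [Finset.card_eq_sum_ones, Nat.cast_sum]
    refine Finset.sum_congr rfl fun s' hs' => ?_
    rw [hμ₂ s' (Finset.mem_filter.1 hs').2, Units.val_one, Nat.cast_one]
  rw [h1, inv_mul_cancel_left₀ hcM, inv_mul_cancel_left₀ hcM]
  ring

theorem card_om_inv [Fintype (P : Subgroup G)] [DecidablePred fun s : (P : Subgroup G) => orderOf (s : G) = 2] :
    Nat.card (om (P : Subgroup G) h.hab) =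
      (Finset.univ.filter (fun s' : (P : Subgroup G) => orderOf (s' : G) = 2)).card + 1 := by
  classical
  have h2 : Finset.univ.filter (fun s : (P : Subgroup G) => s * s = 1) =
      insert 1 (Finset.univ.filter (fun s : (P : Subgroup G) => orderOf (s : G) = 2)) := by
    ext s
    rw [Finset.mem_insert, Finset.mem_filter, Finset.mem_filter]
    constructor
    · rintro ⟨-, hs⟩
      by_cases h1 : s = 1
      · left; exact h1
      · right
        refine ⟨Finset.mem_univ _, orderOf_eq_prime ?_ (fun hc => h1 (Subtype.ext hc))⟩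
        rw [sq]; exact congrArg Subtype.val hs
    · rintro (rfl | ⟨-, hs⟩)
      · exact ⟨Finset.mem_univ _, one_mul 1⟩
      · exact ⟨Finset.mem_univ _, Subtype.ext (mul_self_of_order hs)⟩
  have h3 : Nat.card (om (P : Subgroup G) h.hab) = (Finset.univ.filter (fun s : (P : Subgroup G) => s * s = 1)).card := by
    rw [← Fintype.card_subtype, ← Nat.card_eq_fintype_card]
    exact Nat.card_congr ⟨fun x => ⟨⟨x, x.2.1⟩, Subtype.ext x.2.2⟩, fun x => ⟨x.1, x.1.2, congrArg Subtype.val x.2⟩,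
      fun _ => rfl, fun _ => rfl⟩
  rw [h3, h2, Finset.card_insert_of_notMem]
  rw [Finset.mem_filter]
  rintro ⟨-, hc⟩
  rw [Subgroup.coe_one, orderOf_one] at hc
  omega

/-- **The Sylow subgroup of a strongly embedded configuration is elementary abelian** -/
theorem elem {M : Ideal AlgInt} (hM : IsPModular 2 M) (h8 : 8 ≤ Nat.card (om (P : Subgroup G) h.hab)) :
    ∀ x ∈ (P : Subgroup G), x * x = 1 := by
  classical
  by_contra hne
  push Not at hne
  letI := Fintype.ofFinite G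
  letI := Fintype.ofFinite (HH P W)
  letI := Fintype.ofFinite (MM P W)
  letI := Fintype.ofFinite (P : Subgroup G)
  letI := Fintype.ofFinite (IrrCharacter G)
  obtain ⟨t, ht, ht2⟩ := h.hinv
  have htt : t * t = 1 := mul_self_of_order ht2
  have ht1 : t ≠ 1 := by rintro rfl; rw [orderOf_one] at ht2; omega
  have htW : t ∉ W := fun hW => ht1 (h.disj hW ht)
  obtain ⟨μ₂, μ', a, b, hμ₂, hμt, hμ₂t, hv, hab, ha1, hb1, hdeg, hoth⟩ := h.exists_pair hne ht ht2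
  obtain ⟨haB, hbB⟩ := h.mem_principal hM hab hv
  obtain ⟨I, hI⟩ : ∃ I, I = (Finset.univ.filter (fun s' : (P : Subgroup G) => orderOf (s' : G) = 2)).card := ⟨_, rfl⟩
  have hI7 : 7 ≤ I := by
    have := h.card_om_inv
    rw [← hI] at this
    omega
  have hβ := h.beta hM hbB ht ht2 hμt hb1 hoth
  have hα : (a : G → ℂ) t - (b : G → ℂ) t = (I : ℂ) + 1 := by
    rw [hI]
    apply h.diff_inv ht ht2 hμt hμ₂t hv (h.P_le_M ht) htW
    rw [h.pr_P ht]; exact ht2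
  -- the count
  have hHM : (Nat.card (HH P W) : ℂ) = (Nat.card (MM P W) : ℂ) * (I : ℂ) := by
    have h1 := h.sum_tw (fun _ => (1 : ℂ)) (s := ⟨t, ht⟩) ht2
    rw [Finset.sum_const, Finset.sum_const, nsmul_eq_mul, nsmul_eq_mul, mul_one, mul_one, Finset.card_univ,
      ← Nat.card_eq_fintype_card, ← hI] at h1
    exact h1
  have hprod : ∀ g : G, (a : G → ℂ) (t * (g * t * g⁻¹)) - (b : G → ℂ) (t * (g * t * g⁻¹)) =
      if ∃ hg : g ∈ HH P W, h.tw ⟨g, hg⟩ ⟨t, ht⟩ ≠ ⟨t, ht⟩ then (I : ℂ) + 1 else 0 := by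
    intro g
    split_ifs with hc
    · obtain ⟨hg, hne'⟩ := hc
      have hsM : g * t * g⁻¹ ∈ MM P W := h.conj_M hg (h.P_le_M ht)
      have hprs : h.pr ⟨g * t * g⁻¹, hsM⟩ = h.tw ⟨g, hg⟩ ⟨t, ht⟩ := by
        rw [h.pr_conj ⟨g, hg⟩ ⟨t, h.P_le_M ht⟩ rfl, h.pr_P ht]
      have hvM : t * (g * t * g⁻¹) ∈ MM P W := mul_mem (h.P_le_M ht) hsM
      have hprv : h.pr ⟨t * (g * t * g⁻¹), hvM⟩ = ⟨t, ht⟩ * h.tw ⟨g, hg⟩ ⟨t, ht⟩ := by
        have : (⟨t * (g * t * g⁻¹), hvM⟩ : MM P W) = ⟨t, h.P_le_M ht⟩ * ⟨g * t * g⁻¹, hsM⟩ := rfl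
        rw [this, map_mul, hprs, h.pr_P ht]
      have htt' : (⟨t, ht⟩ * ⟨t, ht⟩ : (P : Subgroup G)) = 1 := Subtype.ext htt
      have hss' : h.tw ⟨g, hg⟩ ⟨t, ht⟩ * h.tw ⟨g, hg⟩ ⟨t, ht⟩ = 1 := by rw [← map_mul, htt', map_one]
      have hne1 : (⟨t, ht⟩ * h.tw ⟨g, hg⟩ ⟨t, ht⟩ : (P : Subgroup G)) ≠ 1 := by
        intro hc
        apply hne'
        have h1 : h.tw ⟨g, hg⟩ ⟨t, ht⟩ = (⟨t, ht⟩ : (P : Subgroup G))⁻¹ := (inv_eq_of_mul_eq_one_right hc).symm
        rw [h1]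
        exact inv_eq_of_mul_eq_one_left htt'
      rw [hI]
      apply h.diff_inv ht ht2 hμt hμ₂t hv hvM
      · intro hc
        apply hne1
        rw [← hprv]
        exact h.pr_eq_one.2 hc
      · rw [hprv]
        refine orderOf_eq_prime ?_ (fun hc => hne1 (Subtype.ext hc))
        rw [sq]
        have h2 : (⟨t, ht⟩ * h.tw ⟨g, hg⟩ ⟨t, ht⟩) * (⟨t, ht⟩ * h.tw ⟨g, hg⟩ ⟨t, ht⟩) = (1 : (P : Subgroup G)) := by
          calc (⟨t, ht⟩ * h.tw ⟨g, hg⟩ ⟨t, ht⟩) * (⟨t, ht⟩ * h.tw ⟨g, hg⟩ ⟨t, ht⟩)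
              = ⟨t, ht⟩ * (h.tw ⟨g, hg⟩ ⟨t, ht⟩ * ⟨t, ht⟩) * h.tw ⟨g, hg⟩ ⟨t, ht⟩ := by group
            _ = ⟨t, ht⟩ * (⟨t, ht⟩ * h.tw ⟨g, hg⟩ ⟨t, ht⟩) * h.tw ⟨g, hg⟩ ⟨t, ht⟩ := by
                rw [h.comm (h.tw ⟨g, hg⟩ ⟨t, ht⟩)]
            _ = (⟨t, ht⟩ * ⟨t, ht⟩) * (h.tw ⟨g, hg⟩ ⟨t, ht⟩ * h.tw ⟨g, hg⟩ ⟨t, ht⟩) := by group
            _ = 1 := by rw [htt', hss', one_mul]
        exact congrArg Subtype.val h2
    · rw [← h.diff_eq hv, h.ind_eq, sub_self]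
      intro x hx
      by_contra hxW
      exact hc (h.prod_zero ht ht2 hx hxW)
  have hsum : ∑ g : G, ((a : G → ℂ) (t * (g * t * g⁻¹)) - (b : G → ℂ) (t * (g * t * g⁻¹))) =
      ((Nat.card (HH P W) : ℂ) - (Nat.card (MM P W) : ℂ)) * ((I : ℂ) + 1) := by
    rw [Finset.sum_congr rfl (fun g _ => hprod g), ← Finset.sum_filter, Finset.sum_const, nsmul_eq_mul]
    congr 1
    have h1 : (Finset.univ.filter (fun g : G => ∃ hg : g ∈ HH P W, h.tw ⟨g, hg⟩ ⟨t, ht⟩ ≠ ⟨t, ht⟩)).card =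
        (Finset.univ.filter (fun x : HH P W => ¬ h.tw x ⟨t, ht⟩ = ⟨t, ht⟩)).card := by
      rw [← Fintype.card_subtype, ← Fintype.card_subtype]
      exact Fintype.card_congr ⟨fun g => ⟨⟨g, g.2.choose⟩, g.2.choose_spec⟩, fun x => ⟨x.1, x.1.2, x.2⟩,
        fun _ => rfl, fun _ => rfl⟩
    have h2 := Finset.card_filter_add_card_filter_not (s := (Finset.univ : Finset (HH P W)))
      (fun x => h.tw x ⟨t, ht⟩ = ⟨t, ht⟩)
    have h3 : (Finset.univ.filter (fun x : HH P W => h.tw x ⟨t, ht⟩ = ⟨t, ht⟩)).card = Nat.card (MM P W) := by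
      rw [← h.card_fib (s := ⟨t, ht⟩) (s' := ⟨t, ht⟩) ht2 ht2, Nat.card_eq_fintype_card, Fintype.card_subtype]
    rw [h3, Finset.card_univ, ← Nat.card_eq_fintype_card] at h2
    rw [h1, ← h2]
    push_cast
    ring
  rw [Finset.sum_sub_distrib, H83.Schur.sum_conj_mul a.2, H83.Schur.sum_conj_mul b.2,
    ← H20.Defect.charDegree_irr a, ← H20.Defect.charDegree_irr b, ← hdeg, hHM] at hsum
  have hd0 : (charDegree (a : G → ℂ) : ℂ) ≠ 0 := by exact_mod_cast H20.Defect.charDegree_ne_zero a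
  have hI1 : (I : ℂ) + 1 ≠ 0 := by exact_mod_cast Nat.succ_ne_zero I
  have hα' : (a : G → ℂ) t = (b : G → ℂ) t + ((I : ℂ) + 1) := by rw [← hα]; ring
  rw [hα', hβ] at hsum
  have hG : (Nat.card G : ℂ) = (Nat.card (MM P W) : ℂ) * ((MM P W).index : ℂ) := by
    rw [← Subgroup.card_mul_index (MM P W)]; push_cast; rfl
  have hcM : (Nat.card (MM P W) : ℂ) ≠ 0 := by exact_mod_cast (Nat.card_pos (α := MM P W)).ne'
  have hfin : (charDegree (a : G → ℂ) : ℂ) * ((I : ℂ) - 1) = ((MM P W).index : ℂ) * (2 * (h.mm 1 b : ℂ) + (I : ℂ) - 1) := by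
    rw [hG] at hsum
    field_simp at hsum
    have h1 : (Nat.card (MM P W) : ℂ) * ((I : ℂ) + 1) * ((charDegree (a : G → ℂ) : ℂ) * ((I : ℂ) - 1) -
        ((MM P W).index : ℂ) * (2 * (h.mm 1 b : ℂ) + (I : ℂ) - 1)) = 0 := by
      linear_combination (-1 : ℂ) * (Nat.card (MM P W) : ℂ) * hsum
    rcases mul_eq_zero.1 h1 with h2 | h2
    · exact absurd h2 (mul_ne_zero hcM hI1)
    · exact sub_eq_zero.1 h2
  have hfinZ : (charDegree (a : G → ℂ) : ℤ) * ((I : ℤ) - 1) = ((MM P W).index : ℤ) * (2 * h.mm 1 b + (I : ℤ) - 1) := by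
    exact_mod_cast hfin
  have hm0 := h.mm_nonneg 1 b
  have hix : (0 : ℤ) < ((MM P W).index : ℤ) := by
    exact_mod_cast Nat.pos_of_ne_zero Subgroup.index_ne_zero_of_finite
  have hge : ((MM P W).index : ℤ) ≤ (charDegree (a : G → ℂ) : ℤ) := by
    have hI7' : (7 : ℤ) ≤ I := by exact_mod_cast hI7
    by_contra hlt
    push Not at hlt
    nlinarith
  -- but the degree is less than the index
  obtain ⟨N, hN, hN0⟩ := h.exists_N
  have hsq := h.gz_cj hN hμ₂ (h.cj_refl μ₂)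
  have hsd := h.sum_deg μ₂
  have hdegpos : ∀ χ : IrrCharacter G, (0 : ℤ) < (charDegree (χ : G → ℂ) : ℤ) := fun χ => by
    exact_mod_cast Nat.pos_of_ne_zero (H20.Defect.charDegree_ne_zero χ)
  rw [← Finset.add_sum_erase _ _ (Finset.mem_univ a), ha1] at hsq hsd
  have hex : ∃ c ∈ Finset.univ.erase a, h.mm μ₂ c ≠ 0 := by
    by_contra hcon
    push Not at hcon
    rw [Finset.sum_eq_zero (fun c hc => by rw [hcon c hc, mul_zero])] at hsq
    omega
  obtain ⟨c, hc, hc0⟩ := hex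
  have hpos : 0 < ∑ χ ∈ Finset.univ.erase a, h.mm μ₂ χ * (charDegree (χ : G → ℂ) : ℤ) := by
    apply Finset.sum_pos'
    · intro i _
      exact mul_nonneg (h.mm_nonneg _ _) (hdegpos i).le
    · exact ⟨c, hc, mul_pos (lt_of_le_of_ne (h.mm_nonneg _ _) (Ne.symm hc0)) (hdegpos c)⟩
  omega

end H79.SE.Cfg
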