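import Mathlib
import Cfsg.Agent.Lib.H79.Sixteen
import Cfsg.Agent.Lib.H79.SED
import Cfsg.Agent.Lib.H57.Small2
import Cfsg.Agent.S0215
import Cfsg.Agent.S0949

/-! Nonsolvable groups with abelian Sylow 2-subgroup and prime inertial index. -/

set_option autoImplicit false
set_option linter.unusedSectionVars false
set_option linter.unusedVariables false
set_option linter.style.haveILetI false
open Cfsg H20.Col H79.EIdx H79.SE H79.PE H79.Sixteen

namespace H79.NonSol

universe u

section homo
variable {G : Type u} [Group G] [Finite G] {P : Sylow 2 G}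

open H57.Ess H57.Small in
theorem homocyclic_of (hab : ∀ x ∈ (P : Subgroup G), ∀ y ∈ (P : Subgroup G), x * y = y * x) (hf : Free P)
    (he : (CC P).relIndex (NN P) ≠ 1) (hom : Nat.card (om (P : Subgroup G) hab) ≤ 4) :
    ∃ b, Nat.card (P : Subgroup G) = 2 ^ (2 * (b + 1)) ∧
      Nonempty ((P : Subgroup G) ≃* Multiplicative (ZMod (2 ^ (b + 1)) × ZMod (2 ^ (b + 1)))) := by
  haveI : Fact (Nat.Prime 2) := ⟨Nat.prime_two⟩
  have hPb := P_ne_bot hab he
  have hcomm : ∀ a b : (P : Subgroup G), a * b = b * a := fun a b => Subtype.ext (hab a a.2 b b.2)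
  have hnr' : ∀ A : Subgroup (P : Subgroup G), Reach 2 A → A = ⊥ := by
    intro A hA
    induction hA with
    | bot => rfl
    | @step A B hA hB hle hidx ih =>
      rw [ih] at hidx
      rcases hidx with h1 | h1
      · exfalso
        rw [Subgroup.relIndex_bot_left] at h1
        obtain ⟨z, hz⟩ := exists_prime_orderOf_dvd_card' (G := B) 2 (by rw [h1])
        have hz1 : (z : (P : Subgroup G)) ≠ 1 := by
          intro hc
          have : z = 1 := Subtype.ext hc
          rw [this, orderOf_one] at hz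
          omega
        have huniq : ∀ y ∈ B, y ≠ 1 → y = z := by
          intro y hy hy1
          by_contra hne
          have h3 : 3 ≤ Nat.card B := by
            have h4 : Function.Injective (fun i : Fin 3 => (![(1 : B), z, ⟨y, hy⟩] i)) := by
              intro i j hij
              fin_cases i <;> fin_cases j <;> simp at hij ⊢
              · exact hz1 (by rw [← hij]; rfl)
              · exact hy1 (congrArg Subtype.val hij).symm
              · exact hz1 (by rw [hij]; rfl)
              · exact hne (by rw [hij])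
              · exact hy1 (by first | exact hij | exact congrArg Subtype.val hij)
              · exact hne (by rw [← hij])
            have := Nat.card_le_card_of_injective _ h4
            rwa [Nat.card_eq_fintype_card, Fintype.card_fin] at this
          omega
        apply he
        rw [Subgroup.relIndex_eq_one]
        intro g hg
        refine hf g hg ((z : (P : Subgroup G)) : G) (z : (P : Subgroup G)).2 (fun hc => hz1 (Subtype.ext hc)) ?_
        have h5 := hB ((P : Subgroup G).normalizerMonoidHom ⟨g, hg⟩) z z.2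
        have h6 := huniq _ h5 (by
          intro hc
          apply hz1
          exact (map_eq_one_iff _ (MulEquiv.injective _)).1 hc)
        exact congrArg Subtype.val h6
      · exact h1.symm
  have hnr : ¬ Reach 2 (⊤ : Subgroup (P : Subgroup G)) := by
    intro hc
    have h1 := hnr' _ hc
    apply hPb
    rw [eq_bot_iff]
    intro x hx
    have h2 : (⟨x, hx⟩ : (P : Subgroup G)) ∈ (⊤ : Subgroup (P : Subgroup G)) := Subgroup.mem_top _
    rw [h1, Subgroup.mem_bot] at h2
    exact Subgroup.mem_bot.2 (congrArg Subtype.val h2)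
  have htor : Nat.card (tor hcomm 2) = Nat.card (om (P : Subgroup G) hab) :=
    Nat.card_congr ⟨fun x => ⟨((x : (P : Subgroup G)) : G), (x : (P : Subgroup G)).2, by
        have h1 : (x : (P : Subgroup G)) ^ 2 = 1 := x.2
        rw [sq] at h1
        exact congrArg Subtype.val h1⟩,
      fun x => ⟨⟨x, x.2.1⟩, by
        show (⟨(x : G), x.2.1⟩ : (P : Subgroup G)) ^ 2 = 1
        rw [sq]
        exact Subtype.ext x.2.2⟩, fun _ => rfl, fun _ => rfl⟩
  obtain ⟨b, hb1, hb2, hb3, hb4⟩ := homocyclic_data (p := 2) P.2 hcomm (by rw [htor]; exact hom) hnr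
  have hV : Nat.card (P : Subgroup G) = 2 ^ (2 * (b + 1)) := by
    rw [← hb4 (b + 1) le_rfl]
    have : tor hcomm (2 ^ (b + 1)) = ⊤ := by
      rw [eq_top_iff]
      intro x _
      exact hb1 x
    rw [this, Subgroup.card_top]
  exact ⟨b, hV, homocyclic_iso hcomm hb1 hb2.ge hb3 hV⟩

end homo

section red
variable {G : Type u} [Group G] [Finite G] {P : Sylow 2 G}

theorem sol_of_normal (hFT : ∀ (K : Type u) [Group K] [Finite K], Odd (Nat.card K) → Group.IsSolvable K)
    (hab : ∀ x ∈ (P : Subgroup G), ∀ y ∈ (P : Subgroup G), x * y = y * x)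
    (hn : (P : Subgroup G).Normal) : Group.IsSolvable G := by
  haveI : Fact (Nat.Prime 2) := ⟨Nat.prime_two⟩
  haveI := hn
  have h1 : Group.IsSolvable (P : Subgroup G) :=
    Group.isSolvable_of_comm (fun a b => Subtype.ext (hab a a.2 b b.2))
  have h2 : Group.IsSolvable (G ⧸ (P : Subgroup G)) := hFT _ (by
    have h3 := P.not_dvd_index
    rw [← Nat.not_even_iff_odd, even_iff_two_dvd]
    exact h3)
  exact (Group.isSolvable_iff_subgroup_quotient (P : Subgroup G)).2 ⟨h1, h2⟩

theorem Fx_PQ {Q : Subgroup G} [Q.Normal] [Fact (Nat.Prime 2)]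
    (hQ : ∀ x ∈ (P : Subgroup G), (∀ t ∈ NN P, (QuotientGroup.mk (t * x * t⁻¹) : G ⧸ Q) = QuotientGroup.mk x) →
      ∀ t ∈ NN P, t * x * t⁻¹ = x) :
    Fx (PQ P Q) = (Fx P).map (QuotientGroup.mk' Q) := by
  ext y
  rw [mem_Fx]
  constructor
  · rintro ⟨hy, hfix⟩
    obtain ⟨x, hx, rfl⟩ := (mem_PQ Q).1 hy
    refine ⟨x, mem_Fx.2 ⟨hx, hQ x hx fun t ht => ?_⟩, rfl⟩
    have h1 := hfix (QuotientGroup.mk t) (by rw [← map_NN Q]; exact ⟨t, ht, rfl⟩)
    exact h1
  · rintro ⟨x, hx, rfl⟩
    refine ⟨(mem_PQ Q).2 ⟨x, (mem_Fx.1 hx).1, rfl⟩, fun t ht => ?_⟩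
    rw [← map_NN Q] at ht
    obtain ⟨s, hs, rfl⟩ := ht
    show (QuotientGroup.mk (s * x * s⁻¹) : G ⧸ Q) = QuotientGroup.mk x
    rw [(mem_Fx.1 hx).2 s hs]

end red

/-- the order of `P` in the nonsolvable case -/
theorem card_eq (hFT : ∀ (K : Type u) [Group K] [Finite K], Odd (Nat.card K) → Group.IsSolvable K)
    {M : Ideal AlgInt} (hM : IsPModular 2 M) :
    ∀ (N : ℕ) (G : Type u) [Group G] [Finite G], Nat.card G ≤ N → ∀ P : Sylow 2 G,
      (∀ x ∈ (P : Subgroup G), ∀ y ∈ (P : Subgroup G), x * y = y * x) →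
      ((CC P).relIndex (NN P)).Prime → ¬ Group.IsSolvable G →
      Nat.card (P : Subgroup G) = Nat.card (Fx P) * ((CC P).relIndex (NN P) + 1) := by
  haveI : Fact (Nat.Prime 2) := ⟨Nat.prime_two⟩
  intro N
  induction N with
  | zero =>
    intro G _ _ hN
    have := Nat.card_pos (α := G)
    omega
  | succ N ih =>
    intro G _ _ hN P hab he hns
    by_cases hO : pPrimeCore 2 G = ⊥
    swap
    · have hQ1 : ∀ q ∈ pPrimeCore 2 G, q ∈ (P : Subgroup G) → q = 1 := fun q hq hP => odd_two hq hP
      have h2 := quot_odd (P := P) (pPrimeCore 2 G) hQ1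
      have h3 := ih (G ⧸ pPrimeCore 2 G) (card_quot_lt hO hN) (PQ P (pPrimeCore 2 G)) (ab_PQ hab _)
        (by rw [h2]; exact he) (fun hs => hns ((Group.isSolvable_iff_subgroup_quotient (pPrimeCore 2 G)).2
          ⟨hFT _ (Nat.coprime_two_right.1 (H1.Cores.coprime_card_pPrimeCore 2)), hs⟩))
      rw [h2, card_PQ_eq hQ1, Fx_PQ (fun x hx hfx t ht => by
        have h4 := hfx t ht
        rw [QuotientGroup.eq] at h4
        have h5 := hQ1 _ h4 ((P : Subgroup G).mul_mem
          ((P : Subgroup G).inv_mem ((Subgroup.mem_normalizer_iff.1 ht x).1 hx)) hx)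
        exact inv_mul_eq_one.1 h5)] at h3
      have h6 : Nat.card ((Fx P).map (QuotientGroup.mk' (pPrimeCore 2 G))) = Nat.card (Fx P) := by
        symm
        refine Nat.card_congr (Equiv.ofBijective (fun x : Fx P =>
          (⟨QuotientGroup.mk' _ (x : G), ⟨x, x.2, rfl⟩⟩ : (Fx P).map (QuotientGroup.mk' (pPrimeCore 2 G)))) ⟨?_, ?_⟩)
        · intro a b hab'
          have h1 : (QuotientGroup.mk (a : G) : G ⧸ pPrimeCore 2 G) = QuotientGroup.mk (b : G) :=
            congrArg Subtype.val hab'
          rw [QuotientGroup.eq] at h1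
          have h2 := hQ1 _ h1 ((P : Subgroup G).mul_mem ((P : Subgroup G).inv_mem (mem_Fx.1 a.2).1) (mem_Fx.1 b.2).1)
          exact Subtype.ext (inv_mul_eq_one.1 h2)
        · rintro ⟨_, ⟨x, hx, rfl⟩⟩
          exact ⟨⟨x, hx⟩, rfl⟩
      rw [h6] at h3
      exact h3
    have hOO : ∀ K : Subgroup G, K.Normal → Odd (Nat.card K) → K = ⊥ := by
      intro K hK hodd
      have h3 : K ≤ pPrimeCore 2 G := H1.Cores.le_pPrimeCore hK (Nat.coprime_two_right.2 hodd)
      rw [hO] at h3
      exact le_bot_iff.1 h3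
    by_cases hfix : ∃ x ∈ (P : Subgroup G), x ≠ 1 ∧ ∀ t ∈ NN P, t * x * t⁻¹ = x
    · obtain ⟨z, hz, hz2, hzf⟩ := exists_fix_inv hfix
      -- `z` is central
      have hzc : ∀ g : G, z * g = g * z := by
        obtain ⟨K, hK, hKo, hKz⟩ := Cfsg.Agent.S0215.result P z hz2 hz (by
          intro g hg
          obtain ⟨n, hn, h1⟩ := H79.PCount.fusion P hab hz hg (isConj_iff.2 ⟨g, rfl⟩)
          rw [← h1, hzf n hn])
        have hKb := hOO K hK hKo
        intro g
        have h1 := hKz g
        rw [hKb, Subgroup.mem_bot] at h1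
        have h2 : z * g * z⁻¹ = g := mul_inv_eq_one.1 h1
        exact mul_inv_eq_iff_eq_mul.1 h2
      obtain ⟨Z, hZ⟩ : ∃ Z : Subgroup G, Z = Subgroup.zpowers z := ⟨_, rfl⟩
      have hQc : ∀ q ∈ Z, ∀ g : G, q * g = g * q := by
        intro q hq g
        rw [hZ] at hq
        obtain ⟨i, rfl⟩ := Subgroup.mem_zpowers_iff.1 hq
        exact (show Commute z g from hzc g).zpow_left i
      haveI : Z.Normal := ⟨fun q hq g => by rw [← hQc q hq g, mul_inv_cancel_right]; exact hq⟩
      have hZ2 : Nat.card Z = 2 := by rw [hZ, Nat.card_zpowers, hz2]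
      have hq2 : ∀ q ∈ Z, q * q = 1 := by
        intro q hq
        have h3 : (⟨q, hq⟩ : Z) ^ Nat.card Z = 1 := pow_card_eq_one'
        rw [hZ2] at h3
        rw [← sq]
        exact congrArg Subtype.val h3
      have hZP : Z ≤ (P : Subgroup G) := by rw [hZ, Subgroup.zpowers_le]; exact hz
      have hZF : Z ≤ Fx P := by rw [hZ, Subgroup.zpowers_le]; exact mem_Fx.2 ⟨hz, hzf⟩
      have hZb : Z ≠ ⊥ := by
        intro h0
        rw [h0, Subgroup.card_bot] at hZ2
        omega
      have h2 := quot_central (P := P) Z rfl hab hZP hQc hq2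
      have hZs : Group.IsSolvable Z := Group.isSolvable_of_comm (fun a b => Subtype.ext (hQc a a.2 b))
      have h3 := ih (G ⧸ Z) (card_quot_lt hZb hN) (PQ P Z) (ab_PQ hab _) (by rw [h2]; exact he)
        (fun hs => hns ((Group.isSolvable_iff_subgroup_quotient Z).2 ⟨hZs, hs⟩))
      rw [h2, Fx_PQ (fun x hx hfx t ht => by
        have h4 := hfx t ht
        rw [QuotientGroup.eq] at h4
        obtain ⟨q, hq⟩ : ∃ q, q = (t * x * t⁻¹)⁻¹ * x := ⟨_, rfl⟩
        rw [← hq] at h4
        have hqc := hQc q h4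
        have hqq := hq2 q h4
        -- `t x t⁻¹ q = x`
        have h5 : t * x * t⁻¹ = x * q := by
          have h6 : t * x * t⁻¹ * q = x := by rw [hq, mul_inv_cancel_left]
          calc t * x * t⁻¹ = t * x * t⁻¹ * (q * q) := by rw [hqq, mul_one]
            _ = (t * x * t⁻¹ * q) * q := by group
            _ = x * q := by rw [h6]
        have h6 : ∀ n : ℕ, t ^ n * x * (t ^ n)⁻¹ = x * q ^ n := by
          intro n
          induction n with
          | zero => simp
          | succ n ihn =>
            calc t ^ (n + 1) * x * (t ^ (n + 1))⁻¹ = t * (t ^ n * x * (t ^ n)⁻¹) * t⁻¹ := by rw [pow_succ']; group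
              _ = t * (x * q ^ n) * t⁻¹ := by rw [ihn]
              _ = (t * x * t⁻¹) * (t * q ^ n * t⁻¹) := by group
              _ = (t * x * t⁻¹) * q ^ n := by
                  rw [← (show Commute q t from hqc t).pow_left n |>.eq, mul_inv_cancel_right]
              _ = x * q ^ (n + 1) := by rw [h5, mul_assoc, ← pow_succ']
        have h7 : t ^ (CC P).relIndex (NN P) ∈ CC P := by
          haveI : ((CC P).subgroupOf (NN P)).Normal := inferInstance
          have := Subgroup.pow_index_mem ((CC P).subgroupOf (NN P)) (⟨t, ht⟩ : NN P)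
          rw [Subgroup.mem_subgroupOf] at this
          exact this
        have h8 := h6 ((CC P).relIndex (NN P))
        rw [← Subgroup.mem_centralizer_iff.1 h7 x hx, mul_inv_cancel_right] at h8
        have h9 : q ^ (CC P).relIndex (NN P) = 1 := (mul_eq_left.1 h8.symm)
        obtain ⟨j, hj⟩ : Odd ((CC P).relIndex (NN P)) := by
          rw [← Nat.not_even_iff_odd, even_iff_two_dvd]
          exact not_dvd P hab
        rw [hj, pow_succ, pow_mul, sq, hqq, one_pow, one_mul] at h9
        rw [h5, h9, mul_one])] at h3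
      have h10 := H1.Cores.card_map_mk' Z (Fx P) hZF
      have h11 : Nat.card Z * Nat.card (PQ P Z : Subgroup (G ⧸ Z)) = Nat.card (P : Subgroup G) :=
        H1.Cores.card_map_mk' Z (P : Subgroup G) hZP
      rw [← h11, h3, ← h10, mul_assoc]
    · have hf := free_of_prime hab he hfix
      have hPb := P_ne_bot hab he.ne_one
      have hFx : Fx P = ⊥ := by
        rw [eq_bot_iff]
        intro x hx
        by_contra hx1
        exact hfix ⟨x, (mem_Fx.1 hx).1, fun hc => hx1 (Subgroup.mem_bot.2 hc), (mem_Fx.1 hx).2⟩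
      rw [hFx, Subgroup.card_bot, one_mul]
      by_cases h8 : 8 ≤ Nat.card (om (P : Subgroup G) hab)
      · rcases exists_cfg hFT P hab h8 (fun x hx hx2 => hnil hab hf hx hx2) hO with ⟨W, hW⟩ | hn'
        · exact card_cfg hab hW hf (hW.elem hM h8)
        · exact absurd (sol_of_normal hFT hab hn') hns
      · obtain ⟨m, hm⟩ := card_om hab
        have hm2 : m ≤ 2 := by
          by_contra hge
          apply h8
          rw [hm]
          calc 8 = 2 ^ 3 := by norm_num
            _ ≤ 2 ^ m := Nat.pow_le_pow_right (by norm_num) (by omega)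
        have hom : Nat.card (om (P : Subgroup G) hab) ≤ 4 := by
          rw [hm]
          calc 2 ^ m ≤ 2 ^ 2 := Nat.pow_le_pow_right (by norm_num) hm2
            _ = 4 := by norm_num
        obtain ⟨b, hb, ⟨φ⟩⟩ := homocyclic_of hab hf he.ne_one hom
        obtain ⟨x, hx, hx2⟩ := exists_inv hab hPb
        have hx1 : x ≠ 1 := by rintro rfl; rw [orderOf_one] at hx2; omega
        have h12 := orbit_le hab hx hx2
        rw [card_orbit hab hf hx hx1] at h12
        have h13 : (CC P).relIndex (NN P) = 3 := by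
          have h14 := he.two_le
          have h15 := not_dvd P hab
          omega
        rw [h13, hb]
        rcases Nat.eq_zero_or_pos b with rfl | hb0
        · norm_num
        · exfalso
          obtain ⟨h16, -, -⟩ := Cfsg.Agent.S0949.result P (b + 1) (by omega) φ hOO
          exact hns (sol_of_normal hFT hab h16)

theorem main (hFT : ∀ (K : Type u) [Group K] [Finite K], Odd (Nat.card K) → Group.IsSolvable K)
    {M : Ideal AlgInt} (hM : IsPModular 2 M) (G : Type u) [Group G] [Finite G] (P : Sylow 2 G)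
    (hab : ∀ x ∈ (P : Subgroup G), ∀ y ∈ (P : Subgroup G), x * y = y * x)
    (he : ((CC P).relIndex (NN P)).Prime) :
    blockRank 2 (principalBlock M G) = (CC P).relIndex (NN P) ∧
      (¬ Group.IsSolvable G → Nat.card (principalBlock M G) = Nat.card (P : Subgroup G)) := by
  have hT : ∀ (K : Type u) [Group K] [Finite K] (Q : Sylow 2 K),
      (∀ x ∈ (Q : Subgroup K), ∀ y ∈ (Q : Subgroup K), x * y = y * x) →
      Nat.card (Q : Subgroup K) ≤ Nat.card (P : Subgroup G) →
      ((CC Q).relIndex (NN Q)).Prime → blockRank 2 (principalBlock M K) = (CC Q).relIndex (NN Q) :=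
    fun K _ _ Q hQ hn he => T1 (Nat.card (P : Subgroup G)) hFT (fun K _ _ Q W _ h h8 => h.elem hM h8) hM _ K le_rfl
      Q hQ hn he
  refine ⟨hT G P hab le_rfl he, fun hns => ?_⟩
  have h1 := count_prime hab hM le_rfl hT he
  have h2 := card_eq hFT hM _ G le_rfl P hab he hns
  obtain ⟨e, he'⟩ : ∃ e, e = (CC P).relIndex (NN P) := ⟨_, rfl⟩
  rw [← he'] at h1 h2 he
  have h3 : Nat.card (P : Subgroup G) - Nat.card (Fx P) = Nat.card (Fx P) * e := by
    rw [h2]
    have : Nat.card (Fx P) * (e + 1) = Nat.card (Fx P) * e + Nat.card (Fx P) := by ring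
    omega
  rw [h3] at h1
  have h4 : Nat.card (principalBlock M G) * e = Nat.card (P : Subgroup G) * e := by
    rw [h1, h2]; ring
  exact Nat.eq_of_mul_eq_mul_right he.pos h4

end H79.NonSol
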