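import Cfsg.Agent.Lib.H79.OddKer
import Cfsg.Agent.Lib.H1.Solv

/-!
# Odd degree characters of solvable groups and linear characters of a Sylow 2-subgroup
-/

set_option autoImplicit false
open Cfsg
open scoped ComplexConjugate
open H18.CharBasic H18.CharOrtho H18.CharInd H18.CharQuot H31.Clifford H20.Loc H79.Ovr H79.OddKer

namespace H79.OddMain

universe u

section setup

variable {G : Type u} [Group G] {L : Subgroup G} [hLn : L.Normal]

/-- inertia group of a linear character of a normal subgroup -/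
def TT (θ : L →* ℂˣ) : Subgroup G := inertia L (fun y => (θ y : ℂ))

theorem mem_TT {θ : L →* ℂˣ} {g : G} :
    g ∈ TT θ ↔ conjFunN L g (fun y => (θ y : ℂ)) = fun y => (θ y : ℂ) := Iff.rfl

theorem mem_TT' {θ : L →* ℂˣ} {g : G} :
    g ∈ TT θ ↔ ∀ y : L, θ ⟨g * y * g⁻¹, hLn.conj_mem y y.2 g⟩ = θ y := by
  rw [mem_TT]
  constructor
  · intro h y
    exact Units.ext (congrFun h y)
  · intro h
    funext y
    exact congrArg Units.val (h y)

theorem le_TT (θ : L →* ℂˣ) : L ≤ TT θ := by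
  intro g hg
  rw [mem_TT']
  intro y
  have h1 : (⟨g * y * g⁻¹, hLn.conj_mem y y.2 g⟩ : L) = ⟨g, hg⟩ * y * ⟨g, hg⟩⁻¹ := by
    apply Subtype.ext; simp
  rw [h1, map_mul, map_mul, map_inv, mul_comm, inv_mul_cancel_left]

/-- the kernel of `θ` as a subgroup of the inertia group -/
def N0 (θ : L →* ℂˣ) : Subgroup (TT θ) := (θ.ker.map L.subtype).subgroupOf (TT θ)

theorem mem_N0 {θ : L →* ℂˣ} {t : TT θ} : t ∈ N0 θ ↔ ∃ h : (t : G) ∈ L, θ ⟨t, h⟩ = 1 := by
  rw [N0, Subgroup.mem_subgroupOf]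
  constructor
  · rintro ⟨y, hy, hyt⟩
    refine ⟨?_, ?_⟩
    · rw [← hyt]; exact y.2
    · have : (⟨(t : G), by rw [← hyt]; exact y.2⟩ : L) = y := Subtype.ext hyt.symm
      rw [this]; exact hy
  · rintro ⟨h, h1⟩
    exact ⟨⟨t, h⟩, h1, rfl⟩

instance normal_N0 (θ : L →* ℂˣ) : (N0 θ).Normal := by
  refine ⟨fun n hn t => ?_⟩
  rw [mem_N0] at hn ⊢
  obtain ⟨h, h1⟩ := hn
  refine ⟨hLn.conj_mem n h t, ?_⟩
  have := (mem_TT'.mp t.2) ⟨n, h⟩
  rw [← h1, ← this]
  rfl

/-- the quotient of the inertia group by the kernel of `θ` -/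
abbrev QQ (θ : L →* ℂˣ) : Type u := TT θ ⧸ N0 θ

/-- the homomorphism to the quotient of the inertia group -/
def jj (θ : L →* ℂˣ) {Q : Type u} [Group Q] (i : Q →* G) (hi : ∀ x, i x ∈ TT θ) : Q →* QQ θ :=
  (QuotientGroup.mk' (N0 θ)).comp (i.codRestrict (TT θ) hi)

theorem jj_eq_iff {θ : L →* ℂˣ} {Q : Type u} [Group Q] {i : Q →* G} (hi : ∀ x, i x ∈ TT θ) (x : Q) :
    jj θ i hi x = QuotientGroup.mk' (N0 θ) ⟨i x, hi x⟩ := rfl

theorem down [Fintype G] [Fintype L] {χ : G → ℂ} (hχ : IsIrrCharacter G χ) (θ : L →* ℂˣ)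
    (hθ : classInner (fun y : L => χ y) (fun y => (θ y : ℂ)) ≠ 0) :
    ∃ ψ : QQ θ → ℂ, IsIrrCharacter (QQ θ) ψ ∧
      indFun (TT θ) (fun t => ψ (QuotientGroup.mk' (N0 θ) t)) = χ ∧
      (∀ {Q : Type u} [Group Q] [Fintype Q] (i : Q →* G) (hi : ∀ x, i x ∈ TT θ) (l : Q →* ℂˣ),
        L ≤ i.range → (∀ (x : Q) (hx : i x ∈ L), θ ⟨i x, hx⟩ = l x) → Ovr i χ l →
        Ovr (jj θ i hi) ψ l) ∧
      ((∀ g, conj (χ g) = χ g) → (∀ y, conj (θ y : ℂ) = (θ y : ℂ)) → ∀ t, conj (ψ t) = ψ t) := by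
  classical
  letI := Fintype.ofFinite (TT θ)
  obtain ⟨ψ, hψ, hind, hθψ, hov⟩ := cliff L hχ θ hθ (TT θ) (fun g => mem_TT) (le_TT θ)
  have hθi : IsIrrCharacter L (fun y => (θ y : ℂ)) := isIrrCharacter_of_hom θ
  have hψc := isCharacter_of_isIrr hψ
  have hres := restrict_T L (TT θ) (le_TT θ) hθi (fun g => mem_TT) hψ hθψ
  have hker : ∀ n ∈ N0 θ, ψ n = ψ 1 := by
    intro n hn
    obtain ⟨h, h1⟩ := mem_N0.mp hn
    have h2 := congrFun hres ⟨n, h⟩
    have h3 := congrFun hres 1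
    rw [resH_apply] at h2 h3
    simp only [Pi.smul_apply, smul_eq_mul, h1, map_one, Units.val_one, mul_one] at h2 h3
    have h4 : (⟨((1 : L) : G), le_TT θ (1 : L).2⟩ : TT θ) = 1 := rfl
    rw [h4] at h3
    rw [h3]
    exact h2
  have hdef : ∀ t, deflate (N0 θ) ψ (QuotientGroup.mk' (N0 θ) t) = ψ t := fun t =>
    deflate_mk (N0 θ) hψc hker t
  refine ⟨deflate (N0 θ) ψ, isIrrCharacter_deflate (N0 θ) hψ hker, ?_, ?_, ?_⟩
  · simp only [hdef]
    exact hind
  · intro Q _ _ i hi l hLi hl ho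
    have := hov i hi l hLi hl ho
    unfold Ovr at this ⊢
    have h2 : (fun x => deflate (N0 θ) ψ (jj θ i hi x)) = fun x => ψ ((i.codRestrict (TT θ) hi) x) := by
      funext x
      exact hdef _
    rw [h2]
    exact this
  · intro hr hθr t
    obtain ⟨t, rfl⟩ := QuotientGroup.mk'_surjective _ t
    rw [hdef]
    -- ψ is real
    have hcψ : IsIrrCharacter (TT θ) (fun t => conj (ψ t)) := isIrrCharacter_conj hψ
    have h1 : classInner (resH (le_TT θ) (fun t => conj (ψ t))) (fun y => (θ y : ℂ)) ≠ 0 := by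
      intro h0
      apply hθψ
      have h2 : classInner (resH (le_TT θ) ψ) (fun y => (θ y : ℂ)) =
          conj (classInner (resH (le_TT θ) (fun t => conj (ψ t))) (fun y => (θ y : ℂ))) := by
        unfold classInner
        rw [map_mul, map_sum, map_inv₀, Complex.conj_natCast]
        congr 1
        refine Finset.sum_congr rfl fun y _ => ?_
        rw [map_mul, resH_apply, resH_apply, Complex.conj_conj, Complex.conj_conj, hθr]
      rw [h2, h0, map_zero]
    have h3 : indFun (TT θ) (fun t => conj (ψ t)) = indFun (TT θ) ψ := by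
      rw [hind]
      funext g
      rw [← hr g, ← hind, indFun_apply', indFun_apply', map_mul, map_sum, map_inv₀,
        Complex.conj_natCast]
      congr 1
      refine Finset.sum_congr rfl fun x _ => ?_
      rw [ext_eq, ext_eq]
      split_ifs with hx
      · rfl
      · simp
    exact congrFun (corr_inj L (TT θ) (le_TT θ) hθi (fun g => mem_TT) hcψ hψ h1 hθψ h3) t

end setup

section main

open Subgroup

/-- real, when `b` is `true` -/
def Adm {A : Type u} (b : Bool) (f : A → ℂ) : Prop := b = true → ∀ a, conj (f a) = f a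

/-- irreducible characters of odd degree, real when `b` is `true` -/
structure OddIrr (b : Bool) {G : Type u} [Group G] (χ : G → ℂ) : Prop where
  irr : IsIrrCharacter G χ
  odd : ∃ d : ℕ, Odd d ∧ χ 1 = d
  adm : Adm b χ

/-- the statement to be proved by induction -/
def Good (b : Bool) (Q : Type u) [Group Q] [Fintype Q] (G : Type u) [Group G] (P : Subgroup G) : Prop :=
  (∀ i : Q →* G, i.range = P → ∀ χ χ' : G → ℂ, OddIrr b χ → OddIrr b χ' → ∀ l : Q →* ℂˣ,
    Adm b (fun x => (l x : ℂ)) → Ovr i χ l → Ovr i χ' l → χ = χ') ∧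
  (∀ i i' : Q →* G, i.range = P → i'.range = P → ∀ χ : G → ℂ, OddIrr b χ → ∀ l l' : Q →* ℂˣ,
    Adm b (fun x => (l x : ℂ)) → Adm b (fun x => (l' x : ℂ)) → Ovr i χ l → Ovr i' χ l' →
    ∃ n ∈ normalizer (P : Set G), ∀ x y : Q, i' y = n * i x * n⁻¹ → l' y = l x)

theorem oddIrr_deflate {b : Bool} {G : Type u} [Group G] [Finite G] {χ : G → ℂ} (h : OddIrr b χ)
    (K : Subgroup G) [K.Normal] (hK : ∀ k ∈ K, χ k = χ 1) : OddIrr b (deflate K χ) := by
  have hc := isCharacter_of_isIrr h.irr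
  refine ⟨isIrrCharacter_deflate K h.irr hK, ?_, ?_⟩
  · obtain ⟨d, hd, hχ⟩ := h.odd
    refine ⟨d, hd, ?_⟩
    rw [← hχ, ← deflate_mk K hc hK 1]
    rfl
  · intro hb t
    obtain ⟨t, rfl⟩ := QuotientGroup.mk'_surjective _ t
    have h1 := deflate_mk K hc hK t
    show conj (deflate K χ (t : G ⧸ K)) = deflate K χ (t : G ⧸ K)
    rw [h1]
    exact h.adm hb t

theorem good_of_quotient {b : Bool} {Q : Type u} [Group Q] [Fintype Q] (hQ : IsPGroup 2 Q)
    {G : Type u} [Group G] [Finite G] (K : Subgroup G) [K.Normal] (P : Subgroup G)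
    (hPi : ¬ 2 ∣ P.index)
    (hker : ∀ i : Q →* G, i.range = P → ∀ χ : G → ℂ, OddIrr b χ → ∀ k ∈ K, χ k = χ 1)
    (ih : Good b Q (G ⧸ K) (P.map (QuotientGroup.mk' K))) : Good b Q G P := by
  haveI : Fact (Nat.Prime 2) := ⟨Nat.prime_two⟩
  have hrange : ∀ i : Q →* G, i.range = P → ((QuotientGroup.mk' K).comp i).range =
      P.map (QuotientGroup.mk' K) := by
    intro i hi
    rw [MonoidHom.range_comp, hi]
  have hovr : ∀ (i : Q →* G), i.range = P → ∀ (χ : G → ℂ), OddIrr b χ → ∀ l : Q →* ℂˣ, Ovr i χ l →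
      Ovr ((QuotientGroup.mk' K).comp i) (deflate K χ) l := by
    intro i hi χ hχ l h
    unfold Ovr at h ⊢
    have h1 : (fun x => deflate K χ (((QuotientGroup.mk' K).comp i) x)) = fun x => χ (i x) := by
      funext x
      exact deflate_mk K (isCharacter_of_isIrr hχ.irr) (hker i hi χ hχ) (i x)
    rw [h1]
    exact h
  refine ⟨?_, ?_⟩
  · intro i hi χ χ' hχ hχ' l hl h h'
    have h1 := ih.1 _ (hrange i hi) _ _ (oddIrr_deflate hχ K (hker i hi χ hχ))
      (oddIrr_deflate hχ' K (hker i hi χ' hχ')) l hl (hovr i hi χ hχ l h) (hovr i hi χ' hχ' l h')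
    funext g
    rw [← deflate_mk K (isCharacter_of_isIrr hχ.irr) (hker i hi χ hχ) g, h1,
      deflate_mk K (isCharacter_of_isIrr hχ'.irr) (hker i hi χ' hχ') g]
  · intro i i' hi hi' χ hχ l l' hl hl' h h'
    obtain ⟨n', hn', hrel⟩ := ih.2 _ _ (hrange i hi) (hrange i' hi') _
      (oddIrr_deflate hχ K (hker i hi χ hχ)) l l' hl hl' (hovr i hi χ hχ l h) (hovr i' hi' χ hχ l' h')
    have hP2 : IsPGroup 2 P := by
      rw [← hi]
      exact hQ.of_surjective i.rangeRestrict i.rangeRestrict_surjective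
    obtain ⟨n, hn, rfl⟩ := lift_normalizer (QuotientGroup.mk' K) (QuotientGroup.mk'_surjective K)
      hP2 hPi hn'
    refine ⟨n, hn, fun x y hxy => hrel x y ?_⟩
    show (QuotientGroup.mk' K) (i' y) = _
    rw [hxy, map_mul, map_mul, map_inv]
    rfl

theorem range_codRestrict {G Q : Type u} [Group G] [Group Q] (i : Q →* G) (T : Subgroup G)
    (hi : ∀ x, i x ∈ T) : (i.codRestrict T hi).range = i.range.subgroupOf T := by
  ext t
  rw [MonoidHom.mem_range, mem_subgroupOf, MonoidHom.mem_range]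
  constructor
  · rintro ⟨x, rfl⟩; exact ⟨x, rfl⟩
  · rintro ⟨x, hx⟩; exact ⟨x, Subtype.ext hx⟩

theorem range_jj {G : Type u} [Group G] {L : Subgroup G} [L.Normal] (θ : L →* ℂˣ)
    {Q : Type u} [Group Q] (i : Q →* G) (hi : ∀ x, i x ∈ TT θ) :
    (jj θ i hi).range = (i.range.subgroupOf (TT θ)).map (QuotientGroup.mk' (N0 θ)) := by
  rw [jj, MonoidHom.range_comp, range_codRestrict]

theorem mem_TT_of {G : Type u} [Group G] {L : Subgroup G} [hLn : L.Normal] (θ : L →* ℂˣ)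
    {Q : Type u} [Group Q] (i : Q →* G) (hL : L ≤ i.range) (l : Q →* ℂˣ)
    (hθ : ∀ (x : Q) (hx : i x ∈ L), θ ⟨i x, hx⟩ = l x) (x : Q) : i x ∈ TT θ := by
  rw [mem_TT']
  rintro ⟨y, hy⟩
  obtain ⟨z, rfl⟩ := hL hy
  have h1 : i (x * z * x⁻¹) ∈ L := by
    rw [map_mul, map_mul, map_inv]; exact hLn.conj_mem _ hy _
  have h2 := hθ (x * z * x⁻¹) h1
  have h3 : (⟨i x * (⟨i z, hy⟩ : L) * (i x)⁻¹, hLn.conj_mem _ (⟨i z, hy⟩ : L).2 (i x)⟩ : L) =
      ⟨i (x * z * x⁻¹), h1⟩ := by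
    apply Subtype.ext
    simp
  rw [h3, h2, hθ z hy, map_mul, map_mul, map_inv, mul_comm, inv_mul_cancel_left]

theorem good_step {b : Bool} {Q : Type u} [Group Q] [Fintype Q] (hQ : IsPGroup 2 Q)
    {G : Type u} [Group G] [Finite G] (L : Subgroup G) [hLn : L.Normal] (P : Subgroup G) (hL : L ≤ P)
    (hPi : ¬ 2 ∣ P.index)
    (ih : ∀ θ : L →* ℂˣ, P ≤ TT θ →
      Good b Q (QQ θ) ((P.subgroupOf (TT θ)).map (QuotientGroup.mk' (N0 θ)))) : Good b Q G P := by
  classical
  haveI : Fact (Nat.Prime 2) := ⟨Nat.prime_two⟩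
  letI := Fintype.ofFinite G
  letI := Fintype.ofFinite L
  -- data attached to a constituent
  have hdata : ∀ (i : Q →* G) (hi : i.range = P) (χ : G → ℂ) (hχ : OddIrr b χ) (l : Q →* ℂˣ)
      (h : Ovr i χ l), ∃ θ : L →* ℂˣ, (∀ (x : Q) (hx : i x ∈ L), θ ⟨i x, hx⟩ = l x) ∧
        classInner (fun y : L => χ y) (fun y => (θ y : ℂ)) ≠ 0 := by
    intro i hi χ hχ l h
    have hLi : L ≤ i.range := by rw [hi]; exact hL
    obtain ⟨θ, hθ⟩ := exists_theta h L hLi
    exact ⟨θ, hθ, ovr_theta (isCharacter_of_isIrr hχ.irr) h L hLi θ hθ⟩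
  -- admissibility of θ
  have hadmθ : ∀ (i : Q →* G) (hi : i.range = P) (l : Q →* ℂˣ) (hl : Adm b (fun x => (l x : ℂ)))
      (θ : L →* ℂˣ), (∀ (x : Q) (hx : i x ∈ L), θ ⟨i x, hx⟩ = l x) → Adm b (fun y => (θ y : ℂ)) := by
    intro i hi l hl θ hθ hb
    rintro ⟨y, hy⟩
    obtain ⟨x, rfl⟩ : y ∈ i.range := by rw [hi]; exact hL hy
    show conj ((θ ⟨i x, hy⟩ : ℂˣ) : ℂ) = ((θ ⟨i x, hy⟩ : ℂˣ) : ℂ)
    rw [hθ x hy]
    exact hl hb x
  -- the character below
  have hdown : ∀ (θ : L →* ℂˣ) (hθa : Adm b (fun y => (θ y : ℂ))) (χ : G → ℂ) (hχ : OddIrr b χ)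
      (hχθ : classInner (fun y : L => χ y) (fun y => (θ y : ℂ)) ≠ 0),
      ∃ ψ : QQ θ → ℂ, OddIrr b ψ ∧ indFun (TT θ) (fun t => ψ (QuotientGroup.mk' (N0 θ) t)) = χ ∧
      (∀ (i : Q →* G) (hi : ∀ x, i x ∈ TT θ) (l : Q →* ℂˣ),
        L ≤ i.range → (∀ (x : Q) (hx : i x ∈ L), θ ⟨i x, hx⟩ = l x) → Ovr i χ l →
        Ovr (jj θ i hi) ψ l) := by
    intro θ hθa χ hχ hχθ
    obtain ⟨ψ, hψ, hind, hov, hreal⟩ := down hχ.irr θ hχθ
    refine ⟨ψ, ⟨hψ, ?_, ?_⟩, hind, fun i hi l h1 h2 h3 => hov i hi l h1 h2 h3⟩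
    · obtain ⟨d, hd, hχd⟩ := hχ.odd
      obtain ⟨e, he⟩ := exists_degree (isCharacter_of_isIrr hψ)
      refine ⟨e, ?_, he⟩
      have h1 := congrFun hind 1
      rw [indFun_one, map_one, he, hχd] at h1
      have h2 : (TT θ).index * e = d := by exact_mod_cast h1
      rw [← h2] at hd
      exact (Nat.odd_mul.mp hd).2
    · intro hb
      exact hreal (hχ.adm hb) (hθa hb)
  have hLi : ∀ i : Q →* G, i.range = P → L ≤ i.range := fun i hi => by rw [hi]; exact hL
  have hPT : ∀ (i : Q →* G) (hi : i.range = P) (l : Q →* ℂˣ) (θ : L →* ℂˣ),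
      (∀ (x : Q) (hx : i x ∈ L), θ ⟨i x, hx⟩ = l x) → P ≤ TT θ := by
    intro i hi l θ hθ
    rw [← hi]
    rintro _ ⟨x, rfl⟩
    exact mem_TT_of θ i (hLi i hi) l hθ x
  refine ⟨?_, ?_⟩
  · intro i hi χ χ' hχ hχ' l hl h h'
    obtain ⟨θ, hθ, hχθ⟩ := hdata i hi χ hχ l h
    have hχθ' : classInner (fun y : L => χ' y) (fun y => (θ y : ℂ)) ≠ 0 :=
      ovr_theta (isCharacter_of_isIrr hχ'.irr) h' L (hLi i hi) θ hθ
    have ha := hadmθ i hi l hl θ hθ
    obtain ⟨ψ, hψ, hind, hov⟩ := hdown θ ha χ hχ hχθ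
    obtain ⟨ψ', hψ', hind', hov'⟩ := hdown θ ha χ' hχ' hχθ'
    have hT : ∀ x, i x ∈ TT θ := mem_TT_of θ i (hLi i hi) l hθ
    have h1 := (ih θ (hPT i hi l θ hθ)).1 (jj θ i hT) (by rw [range_jj, hi]) ψ ψ' hψ hψ' l hl
      (hov i hT l (hLi i hi) hθ h) (hov' i hT l (hLi i hi) hθ h')
    rw [← hind, ← hind', h1]
  · intro i i' hi hi' χ hχ l l' hl hl' h h'
    obtain ⟨θ, hθ, hχθ⟩ := hdata i hi χ hχ l h
    obtain ⟨θ', hθ', hχθ'⟩ := hdata i' hi' χ hχ l' h'
    have ha := hadmθ i hi l hl θ hθ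
    obtain ⟨g, hg⟩ := constituents_conj L hχ.irr (isIrrCharacter_of_hom θ)
      (isIrrCharacter_of_hom θ') hχθ hχθ'
    have hPT1 := hPT i hi l θ hθ
    have hPT2 := hPT i' hi' l' θ' hθ'
    have hP2 : IsPGroup 2 P := by
      rw [← hi]
      exact hQ.of_surjective i.rangeRestrict i.rangeRestrict_surjective
    have hS : H28.RelSyl.IsSyl 2 P ⊤ := ⟨le_top, hP2, by rwa [relIndex_top_right]⟩
    -- conjugate of P in T
    have hgP : H28.Cj.cj g P ≤ TT θ := by
      intro x hx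
      rw [H28.Cj.mem_cj] at hx
      have h1 := hPT2 hx
      rw [mem_TT, hg, cj_mul] at h1
      rw [mem_TT]
      have h2 := congrArg (conjFunN L g⁻¹) h1
      rw [cj_mul, cj_mul] at h2
      have h3 : g * (g⁻¹ * x * g) * g⁻¹ = x := by group
      rw [h3, mul_inv_cancel, H31.Clifford.cj_one] at h2
      exact h2
    have hS1 : H28.RelSyl.IsSyl 2 P (TT θ) := hS.of_le_of_le hPT1 le_top
    have hS2 : H28.RelSyl.IsSyl 2 (H28.Cj.cj g P) (TT θ) := by
      have := hS.cj g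
      rw [H28.Cj.cj_top] at this
      exact this.of_le_of_le hgP le_top
    obtain ⟨t, ht, hPt⟩ := hS2.exists_conj_eq hS1
    have hn1 : H28.Cj.cj (t * g) P = P := by rw [← H28.Cj.cj_cj]; exact hPt.symm
    have hn1' : t * g ∈ normalizer (P : Set G) := H28.Cj.mem_normalizer_iff_cj.mpr hn1
    have hconj : conjFunN L (t * g) (fun y => (θ y : ℂ)) = fun y => (θ' y : ℂ) := by
      rw [← cj_mul, mem_TT.mp ht, hg]
    set n₁ := t * g with hn₁def
    let i'' : Q →* G := (MulAut.conj n₁).toMonoidHom.comp i'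
    have hi''x : ∀ x, i'' x = n₁ * i' x * n₁⁻¹ := fun x => rfl
    have hi'' : i''.range = P := by
      rw [MonoidHom.range_comp, hi']
      exact hn1
    have hov'' : Ovr i'' χ l' := by
      unfold Ovr at h' ⊢
      have : (fun x => χ (i'' x)) = fun x => χ (i' x) := by
        funext x
        rw [hi''x, isClassFunction_of_isIrr hχ.irr]
      rw [this]; exact h'
    have hθ'' : ∀ (x : Q) (hx : i'' x ∈ L), θ ⟨i'' x, hx⟩ = l' x := by
      intro x hx
      have hx' : i' x ∈ L := by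
        have := hLn.conj_mem _ hx n₁⁻¹
        rw [hi''x] at this
        have h3 : n₁⁻¹ * (n₁ * i' x * n₁⁻¹) * n₁⁻¹⁻¹ = i' x := by group
        rwa [h3] at this
      rw [← hθ' x hx']
      have h4 := congrFun hconj ⟨i' x, hx'⟩
      apply Units.ext
      rw [← h4]
      rfl
    obtain ⟨ψ, hψ, hind, hov⟩ := hdown θ ha χ hχ hχθ
    have hT : ∀ x, i x ∈ TT θ := mem_TT_of θ i (hLi i hi) l hθ
    have hT'' : ∀ x, i'' x ∈ TT θ := mem_TT_of θ i'' (hLi i'' hi'') l' hθ''
    obtain ⟨n', hn', hrel⟩ := (ih θ hPT1).2 (jj θ i hT) (jj θ i'' hT'') (by rw [range_jj, hi])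
      (by rw [range_jj, hi'']) ψ hψ l l' hl hl' (hov i hT l (hLi i hi) hθ h)
      (hov i'' hT'' l' (hLi i'' hi'') hθ'' hov'')
    have hPT2g : IsPGroup 2 (P.subgroupOf (TT θ)) := (H28.RelSyl.isPGroup_subgroupOf hPT1).mpr hP2
    have hPTi : ¬ 2 ∣ (P.subgroupOf (TT θ)).index := hS1.not_dvd
    obtain ⟨n₂, hn₂, rfl⟩ := lift_normalizer (QuotientGroup.mk' (N0 θ))
      (QuotientGroup.mk'_surjective _) hPT2g hPTi hn'
    have hn₂' : (n₂ : G) ∈ normalizer (P : Set G) := by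
      rw [mem_normalizer_iff]
      intro x
      constructor
      · intro hx
        exact (mem_normalizer_iff.mp hn₂ ⟨x, hPT1 hx⟩).mp hx
      · intro hx
        have hxT : x ∈ TT θ := by
          have h1 := (TT θ).mul_mem ((TT θ).mul_mem ((TT θ).inv_mem n₂.2) (hPT1 hx)) n₂.2
          have h2 : (n₂ : G)⁻¹ * (n₂ * x * (n₂ : G)⁻¹) * n₂ = x := by group
          rwa [h2] at h1
        exact (mem_normalizer_iff.mp hn₂ ⟨x, hxT⟩).mpr hx
    refine ⟨n₁⁻¹ * n₂, mul_mem (inv_mem hn1') hn₂', fun x y hxy => hrel x y ?_⟩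
    show (QuotientGroup.mk' (N0 θ)) ⟨i'' y, _⟩ =
      (QuotientGroup.mk' (N0 θ)) n₂ * (QuotientGroup.mk' (N0 θ)) ⟨i x, _⟩ * ((QuotientGroup.mk' (N0 θ)) n₂)⁻¹
    rw [← map_inv, ← map_mul, ← map_mul]
    congr 1
    apply Subtype.ext
    show i'' y = (n₂ : G) * i x * (n₂ : G)⁻¹
    rw [hi''x, hxy]
    group

/-- the commutative case -/
theorem good_comm {b : Bool} {Q : Type u} [Group Q] [Fintype Q] {G : Type u} [Group G] [Finite G]
    (hcomm : ∀ x y : G, x * y = y * x) (P : Subgroup G) (hP : P = ⊤) : Good b Q G P := by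
  classical
  letI := Fintype.ofFinite G
  subst hP
  have key : ∀ (i : Q →* G) (χ : G → ℂ), OddIrr b χ → ∀ l : Q →* ℂˣ, Ovr i χ l →
      ∀ x, χ (i x) = (l x : ℂ) := by
    intro i χ hχ l h x
    obtain ⟨f, rfl⟩ := exists_hom_of_isIrr_of_comm hcomm hχ.irr
    by_contra hne
    apply h
    apply inner_irr_ne (isIrrCharacter_of_hom (f.comp i)) (isIrrCharacter_of_hom l)
    intro h1
    exact hne (congrFun h1 x)
  refine ⟨?_, ?_⟩
  · intro i hi χ χ' hχ hχ' l hl h h'
    funext g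
    obtain ⟨x, rfl⟩ : g ∈ i.range := by rw [hi]; trivial
    rw [key i χ hχ l h, key i χ' hχ' l h']
  · intro i i' hi hi' χ hχ l l' hl hl' h h'
    refine ⟨1, one_mem _, fun x y hxy => ?_⟩
    apply Units.ext
    rw [← key i χ hχ l h x, ← key i' χ hχ l' h' y, hxy]
    simp

theorem main (b : Bool) (Q : Type u) [Group Q] [Fintype Q] (hQ : IsPGroup 2 Q) (n : ℕ) :
    ∀ (G : Type u) [Group G] [Finite G], Nat.card G = n → Group.IsSolvable G → ∀ P : Subgroup G,
      ¬ 2 ∣ P.index → (b = false → normalizer (P : Set G) ≤ P) → Good b Q G P := by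
  classical
  haveI : Fact (Nat.Prime 2) := ⟨Nat.prime_two⟩
  induction n using Nat.strong_induction_on with
  | _ n ihn =>
  intro G _ _ hcard hsolv P hPi hPN
  by_cases hPr : ∃ i : Q →* G, i.range = P
  swap
  · push Not at hPr
    exact ⟨fun i hi => absurd hi (hPr i), fun i _ hi => absurd hi (hPr i)⟩
  obtain ⟨i₀, hi₀⟩ := hPr
  have hP2 : IsPGroup 2 P := by
    rw [← hi₀]
    exact hQ.of_surjective i₀.rangeRestrict i₀.rangeRestrict_surjective
  by_cases hK : pPrimeCore 2 G = ⊥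
  · -- the core is trivial
    have hsyl : ∃ S : Sylow 2 G, (S : Subgroup G) = P := ⟨hP2.toSylow hPi, rfl⟩
    have hL : pCore 2 G ≤ P := by
      obtain ⟨S, rfl⟩ := hsyl
      exact H1.Cores.pCore_le_sylow S
    apply good_step hQ (pCore 2 G) P hL hPi
    intro θ hPT
    have hc1 : Nat.card (TT θ) = Nat.card (QQ θ) * Nat.card (N0 θ) :=
      Subgroup.card_eq_card_quotient_mul_card_subgroup _
    have hc2 : Nat.card (TT θ) * (TT θ).index = Nat.card G := (TT θ).card_mul_index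
    have hPTi : ¬ 2 ∣ (P.subgroupOf (TT θ)).index := fun h =>
      hPi (h.trans (Subgroup.relIndex_dvd_index_of_le hPT))
    have hPQi : ¬ 2 ∣ ((P.subgroupOf (TT θ)).map (QuotientGroup.mk' (N0 θ))).index := fun h =>
      hPTi (h.trans (Subgroup.index_map_dvd _ (QuotientGroup.mk'_surjective _)))
    by_cases hlt : Nat.card (QQ θ) < n
    · refine ihn _ hlt (QQ θ) rfl inferInstance _ hPQi ?_
      intro hb n' hn'
      have hPT2g : IsPGroup 2 (P.subgroupOf (TT θ)) := (H28.RelSyl.isPGroup_subgroupOf hPT).mpr hP2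
      obtain ⟨n₂, hn₂, rfl⟩ := lift_normalizer (QuotientGroup.mk' (N0 θ))
        (QuotientGroup.mk'_surjective _) hPT2g hPTi hn'
      refine ⟨n₂, ?_, rfl⟩
      have h1 : (n₂ : G) ∈ normalizer (P : Set G) := by
        rw [mem_normalizer_iff]
        intro x
        constructor
        · intro hx
          exact (mem_normalizer_iff.mp hn₂ ⟨x, hPT hx⟩).mp hx
        · intro hx
          have hxT : x ∈ TT θ := by
            have h1 := (TT θ).mul_mem ((TT θ).mul_mem ((TT θ).inv_mem n₂.2) (hPT hx)) n₂.2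
            have h2 : (n₂ : G)⁻¹ * (n₂ * x * (n₂ : G)⁻¹) * n₂ = x := by group
            rwa [h2] at h1
          exact (mem_normalizer_iff.mp hn₂ ⟨x, hxT⟩).mpr hx
      exact hPN hb h1
    · -- degenerate case
      have hpos1 : 0 < Nat.card (QQ θ) := Nat.card_pos
      have hpos2 : 0 < Nat.card (N0 θ) := Nat.card_pos
      have hpos3 : (TT θ).index ≠ 0 := Subgroup.index_ne_zero_of_finite
      have hge : n ≤ Nat.card (QQ θ) := not_lt.mp hlt
      have heq : Nat.card (QQ θ) * (Nat.card (N0 θ) * (TT θ).index) = n := by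
        rw [← hcard, ← hc2, hc1]; ring
      have h1 : Nat.card (N0 θ) * (TT θ).index = 1 := by
        have h2 : 1 ≤ Nat.card (N0 θ) * (TT θ).index :=
          Nat.one_le_iff_ne_zero.mpr (mul_ne_zero hpos2.ne' hpos3)
        by_contra h3
        have h4 : 2 ≤ Nat.card (N0 θ) * (TT θ).index := by omega
        have h5 : Nat.card (QQ θ) * 2 ≤ n := by
          rw [← heq]; exact Nat.mul_le_mul_left _ h4
        omega
      have hN0 : N0 θ = ⊥ := Subgroup.card_eq_one.mp (Nat.eq_one_of_mul_eq_one_right h1)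
      have hTT : TT θ = ⊤ := Subgroup.index_eq_one.mp (Nat.eq_one_of_mul_eq_one_left h1)
      have hθinj : ∀ y : pCore 2 G, θ y = 1 → y = 1 := by
        intro y hy
        have h2 : (⟨(y : G), by rw [hTT]; trivial⟩ : TT θ) ∈ N0 θ := mem_N0.mpr ⟨y.2, hy⟩
        rw [hN0, mem_bot] at h2
        have h3 : (y : G) = 1 := congrArg Subtype.val h2
        exact Subtype.ext h3
      have hcent : ∀ (g : G) (y : G), y ∈ pCore 2 G → g * y = y * g := by
        intro g y hy
        have h2 := (mem_TT'.mp (by rw [hTT]; trivial : g ∈ TT θ)) ⟨y, hy⟩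
        have h3 := hθinj (⟨g * y * g⁻¹, (inferInstance : (pCore 2 G).Normal).conj_mem y hy g⟩ * ⟨y, hy⟩⁻¹) (by
          rw [map_mul, map_inv, h2, mul_inv_cancel])
        have h4 := congrArg Subtype.val h3
        simp only [Subgroup.coe_mul, Subgroup.coe_inv, OneMemClass.coe_one] at h4
        rw [mul_inv_eq_one, mul_inv_eq_iff_eq_mul] at h4
        exact h4
      have htop : pCore 2 G = ⊤ := by
        rw [eq_top_iff]
        refine le_trans ?_ (H1.Solv.centralizer_pCore_le hsolv 2 hK)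
        intro g _
        rw [mem_centralizer_iff]
        intro y hy
        exact (hcent g y hy).symm
      have hPtop : P = ⊤ := by
        rw [eq_top_iff, ← htop]; exact hL
      apply good_comm
      · intro x y
        obtain ⟨x, rfl⟩ := QuotientGroup.mk'_surjective _ x
        obtain ⟨y, rfl⟩ := QuotientGroup.mk'_surjective _ y
        rw [← map_mul, ← map_mul]
        congr 1
        apply Subtype.ext
        have hall : ∀ g : G, g ∈ pCore 2 G := fun g => htop.ge (Subgroup.mem_top g)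
        have hy : (y : G) ∈ pCore 2 G := hall y
        exact hcent x y hy
      · rw [hPtop, Subgroup.top_subgroupOf, ← MonoidHom.range_eq_map]
        exact MonoidHom.range_eq_top.mpr (QuotientGroup.mk'_surjective _)
  · -- nontrivial core
    have hc1 : Nat.card G = Nat.card (G ⧸ pPrimeCore 2 G) * Nat.card (pPrimeCore 2 G) :=
      Subgroup.card_eq_card_quotient_mul_card_subgroup _
    have hc2 : 1 < Nat.card (pPrimeCore 2 G) := (pPrimeCore 2 G).one_lt_card_iff_ne_bot.mpr hK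
    have hpos : 0 < Nat.card (G ⧸ pPrimeCore 2 G) := Nat.card_pos
    have hlt : Nat.card (G ⧸ pPrimeCore 2 G) < n := by
      rw [← hcard, hc1]; nlinarith
    apply good_of_quotient hQ (pPrimeCore 2 G) P hPi
    · intro i hi χ hχ
      obtain ⟨d, hd, hχd⟩ := hχ.odd
      cases b with
      | true =>
        exact ker_real (H1.Cores.coprime_card_pPrimeCore 2) hχ.irr hd hχd (hχ.adm rfl)
      | false =>
        refine ker_fixed hQ i ?_ hχ.irr (fun h => (Nat.not_even_iff_odd.mpr hd) (even_iff_two_dvd.mpr h)) hχd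
        intro k hk hfix
        have h1 : k ∈ normalizer (P : Set G) := by
          apply Subgroup.centralizer_le_normalizer
          rw [mem_centralizer_iff]
          rintro _ hx
          rw [← hi] at hx
          obtain ⟨x, rfl⟩ := hx
          exact mul_inv_eq_iff_eq_mul.mp (hfix x)
        have h2 : k ∈ P := hPN rfl h1
        have h3 : orderOf k ∣ Nat.card (pPrimeCore 2 G) := by
          have := orderOf_dvd_natCard (⟨k, hk⟩ : pPrimeCore 2 G)
          rwa [Subgroup.orderOf_mk] at this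
        obtain ⟨m, hm⟩ := hP2 ⟨k, h2⟩
        have h4 : orderOf k ∣ 2 ^ m := by
          apply orderOf_dvd_of_pow_eq_one
          exact congrArg Subtype.val hm
        have h5 := Nat.eq_one_of_dvd_coprimes
          (Nat.Coprime.pow_right m (H1.Cores.coprime_card_pPrimeCore (G := G) 2)) h3 h4
        exact orderOf_eq_one_iff.mp h5
    · refine ihn _ hlt (G ⧸ pPrimeCore 2 G) rfl inferInstance _ ?_ ?_
      · exact fun h => hPi (h.trans (Subgroup.index_map_dvd _ (QuotientGroup.mk'_surjective _)))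
      · intro hb n' hn'
        obtain ⟨n₂, hn₂, rfl⟩ := lift_normalizer (QuotientGroup.mk' (pPrimeCore 2 G))
          (QuotientGroup.mk'_surjective _) hP2 hPi hn'
        exact ⟨n₂, hPN hb hn₂, rfl⟩

end main

end H79.OddMain
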