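import Cfsg.Agent.Lib.H79.Central
import Cfsg.Agent.Lib.H18.CharInd

/-! Separating `p`-regular classes by algebraic-integer combinations of irreducible characters. -/

set_option autoImplicit false

namespace H79.PReg

open Cfsg H18.CharBasic H18.CharOrtho H18.CharQuot H18.CharInd H79.Central
open scoped ComplexConjugate

universe u

variable {G : Type u} [Group G] [Finite G]

/-- For `u` central and `S` a subgroup, the average of `χ (u * z)` over `z ∈ S` is an algebraic
integer. -/
theorem isIntegral_avg_central {u : G} (hu : u ∈ Subgroup.center G) (S : Subgroup G) [Fintype S]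
    {χ : G → ℂ} (h : IsCharacter G χ) :
    IsIntegral ℤ ((Nat.card S : ℂ)⁻¹ * ∑ z : S, χ (u * z)) := by
  refine isCharacter_induction
    (P := fun χ => IsIntegral ℤ ((Nat.card S : ℂ)⁻¹ * ∑ z : S, χ (u * z))) ?_ ?_ h
  · simpa using isIntegral_zero
  · intro χ η hχ hη ih
    have h1 : (Nat.card S : ℂ)⁻¹ * ∑ z : S, (χ + η) (u * z) =
        (Nat.card S : ℂ)⁻¹ * ∑ z : S, χ (u * z) + (Nat.card S : ℂ)⁻¹ * ∑ z : S, η (u * z) := by
      rw [← mul_add, ← Finset.sum_add_distrib]
      rfl
    rw [h1]
    refine ih.add ?_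
    have h2 : (Nat.card S : ℂ)⁻¹ * ∑ z : S, η (u * z) =
        (η u / η 1) * classInner (fun z : S => η z) (fun _ => 1) := by
      rw [classInner, ← mul_assoc, mul_comm (η u / η 1), mul_assoc]
      congr 1
      rw [Finset.mul_sum]
      refine Finset.sum_congr rfl fun z _ => ?_
      rw [central_mul hη hu]
      simp
    rw [h2]
    obtain ⟨n, hn⟩ := inner_char_natCast (isCharacter_restrict S (isCharacter_of_isIrr hη))
      (isCharacter_one (G := S))
    rw [hn]
    have h3 : (Subgroup.centralizer ({u} : Set G)) = ⊤ := by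
      rw [eq_top_iff]
      intro x _
      rw [Subgroup.mem_centralizer_singleton_iff]
      exact Subgroup.mem_center_iff.1 hu x
    have h4 := H4.Integral.isIntegral_omega' hη u
    rw [h3, Subgroup.index_top, Nat.cast_one, one_mul] at h4
    exact h4.mul (isIntegral_natCast n)

/-- The average of `χ (u * z)` over a subgroup `S` of the centralizer of `u` is an algebraic
integer. -/
theorem isIntegral_avg (u : G) (S : Subgroup (Subgroup.centralizer ({u} : Set G))) [Fintype S]
    {χ : G → ℂ} (h : IsCharacter G χ) :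
    IsIntegral ℤ ((Nat.card S : ℂ)⁻¹ * ∑ z : S, χ (u * (z : Subgroup.centralizer ({u} : Set G)))) := by
  have hu : u ∈ Subgroup.centralizer ({u} : Set G) := by
    rw [Subgroup.mem_centralizer_singleton_iff]
  have hc : (⟨u, hu⟩ : Subgroup.centralizer ({u} : Set G)) ∈
      Subgroup.center (Subgroup.centralizer ({u} : Set G)) := by
    rw [Subgroup.mem_center_iff]
    intro g
    apply Subtype.ext
    exact Subgroup.mem_centralizer_singleton_iff.1 g.2
  exact isIntegral_avg_central hc S (isCharacter_restrict _ h)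

theorem isIntegral_conj {z : ℂ} (h : IsIntegral ℤ z) : IsIntegral ℤ (conj z) := by
  have := h.map (Complex.conjAe.toAlgHom.restrictScalars ℤ)
  exact this

/-- Algebraic-integer combinations of irreducible characters separate `p`-regular classes: a
combination whose value at `u` is an integer prime to `p` and whose value at the other
`p`-regular classes is zero. -/
theorem separate {p : ℕ} [hp : Fact p.Prime] [Fintype (IrrCharacter G)] {u : G}
    (hu : ¬ p ∣ orderOf u) :
    ∃ c : IrrCharacter G → ℂ, (∀ χ, IsIntegral ℤ (c χ)) ∧ ∃ n : ℕ, ¬ p ∣ n ∧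
      (∑ χ : IrrCharacter G, c χ * (χ : G → ℂ) u = n) ∧
      ∀ g : G, ¬ p ∣ orderOf g → ¬ IsConj u g → ∑ χ : IrrCharacter G, c χ * (χ : G → ℂ) g = 0 := by
  classical
  have hp' : p.Prime := hp.out
  let C := Subgroup.centralizer ({u} : Set G)
  obtain ⟨S⟩ : Nonempty (Sylow p C) := inferInstance
  have : Fintype (S : Subgroup C) := Fintype.ofFinite _
  have hS0 : (Nat.card (S : Subgroup C) : ℂ) ≠ 0 := by exact_mod_cast Nat.card_pos.ne'
  let c : IrrCharacter G → ℂ := fun χ =>
    (Nat.card (S : Subgroup C) : ℂ)⁻¹ * ∑ z : (S : Subgroup C), conj ((χ : G → ℂ) (u * (z : C)))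
  have hval : ∀ g : G, ∑ χ : IrrCharacter G, c χ * (χ : G → ℂ) g =
      (Nat.card (S : Subgroup C) : ℂ)⁻¹ * ∑ z : (S : Subgroup C),
        if IsConj g (u * (z : C)) then (Nat.card (Subgroup.centralizer ({g} : Set G)) : ℂ) else 0 := by
    intro g
    have h1 : ∀ z : (S : Subgroup C), (if IsConj g (u * (z : C)) then
        (Nat.card (Subgroup.centralizer ({g} : Set G)) : ℂ) else 0) =
        ∑ χ : IrrCharacter G, (χ : G → ℂ) g * conj ((χ : G → ℂ) (u * (z : C))) := fun z =>
      (column_orthogonality g _).symm
    rw [Finset.sum_congr rfl fun z _ => h1 z, Finset.sum_comm, Finset.mul_sum]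
    refine Finset.sum_congr rfl fun χ _ => ?_
    rw [← Finset.mul_sum]
    simp only [c]
    ring
  -- a `p`-regular element is conjugate to `u * z` only for `z = 1`
  have hone : ∀ g : G, ¬ p ∣ orderOf g → ∀ z : (S : Subgroup C), IsConj g (u * (z : C)) → z = 1 := by
    intro g hg z hz
    have hcomm : Commute u ((z : C) : G) := (Subgroup.mem_centralizer_singleton_iff.1 (z : C).2).symm
    obtain ⟨k, hk⟩ := (IsPGroup.iff_orderOf.1 S.isPGroup') z
    have hk' : orderOf (((z : C) : G)) = p ^ k := by
      rw [← hk, Subgroup.orderOf_coe, Subgroup.orderOf_coe]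
    have hcop : (orderOf u).Coprime (orderOf ((z : C) : G)) := by
      rw [hk']
      exact (Nat.Coprime.pow_right k ((hp'.coprime_iff_not_dvd.2 hu).symm))
    have h1 := hcomm.orderOf_mul_eq_mul_orderOf_of_coprime hcop
    obtain ⟨x, hx⟩ := isConj_iff.1 hz
    have h2 : orderOf g = orderOf (u * ((z : C) : G)) := by
      rw [← hx]
      exact (orderOf_injective (MulAut.conj x).toMonoidHom (MulAut.conj x).injective g).symm
    rw [h1, hk'] at h2
    rcases Nat.eq_zero_or_pos k with h0 | h0
    · rw [h0, pow_zero, orderOf_eq_one_iff] at hk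
      exact hk
    · exfalso
      apply hg
      rw [h2]
      exact Dvd.dvd.mul_left (dvd_pow_self p h0.ne') _
  refine ⟨c, fun χ => ?_, Nat.card C / Nat.card (S : Subgroup C), ?_, ?_, ?_⟩
  · have h1 := isIntegral_conj (isIntegral_avg u (S : Subgroup C) (isCharacter_of_isIrr χ.2))
    rw [map_mul, map_inv₀, Complex.conj_natCast, map_sum] at h1
    exact h1
  · have h1 := S.not_dvd_index
    have h2 : (S : Subgroup C).index = Nat.card C / Nat.card (S : Subgroup C) := by
      rw [← Subgroup.card_mul_index (S : Subgroup C), Nat.mul_div_cancel_left _ Nat.card_pos]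
    rw [← h2]; exact h1
  · rw [hval, Finset.sum_eq_single 1]
    · rw [if_pos (by simpa using IsConj.refl u)]
      rw [Nat.cast_div (Subgroup.card_subgroup_dvd_card _) hS0, mul_comm]
      rfl
    · intro z _ hz
      rw [if_neg (fun h => hz (hone u hu z h))]
    · simp
  · intro g hg hng
    rw [hval]
    rw [Finset.sum_eq_zero, mul_zero]
    intro z _
    rw [if_neg]
    intro h
    have := hone g hg z h
    rw [this] at h
    apply hng
    simpa using h.symm

end H79.PReg
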