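import Cfsg.Agent.Lib.H20.Orth
import Cfsg.Agent.Lib.H20.Defect
import Cfsg.Agent.Lib.H19.PSum
import Cfsg.Agent.Lib.H83.Gallagher

/-!
# Real 2-blocks with a character of odd degree

A 2-block that is stable under complex conjugation and contains a character of odd degree is the
principal block.
-/

set_option autoImplicit false
open Cfsg
open scoped ComplexConjugate
open H20.Loc H20.GA H20.Blk H20.Orth

namespace H79.RealBlk

universe u
variable {G : Type u} [Group G] [Finite G] {M : Ideal AlgInt}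

theorem index_centralizer_inv (g : G) :
    (Subgroup.centralizer ({g⁻¹} : Set G)).index = (Subgroup.centralizer ({g} : Set G)).index := by
  congr 1
  ext x
  rw [Subgroup.mem_centralizer_singleton_iff, Subgroup.mem_centralizer_singleton_iff]
  constructor
  · intro h
    have h1 : Commute x g⁻¹ := h
    exact (Commute.inv_right_iff.mp h1)
  · intro h
    have h1 : Commute x g := h
    exact (Commute.inv_right_iff.mpr h1)

/-- the sum of an `M`-integral class function vanishing on 2-singular elements and invariant mod `M`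
under inversion on the classes of odd size is its value at `1` mod `M`. -/
theorem sum_congr_one [Fintype G] (hM : IsPModular 2 M) (F : G → ℂ) (hF : IsClassFunction G F)
    (hR : ∀ g, MemLocalRing M (F g)) (h0 : ∀ g, 2 ∣ orderOf g → F g = 0)
    (hinv : ∀ g, ¬ 2 ∣ (Subgroup.centralizer ({g} : Set G)).index →
      MemLocalIdeal M (F g⁻¹ - F g)) :
    MemLocalIdeal M (∑ g, F g - F 1) := by
  classical
  haveI := pm_isPrime hM
  haveI := hM.2.1
  haveI := charP_resF hM
  haveI : Fact (Nat.Prime 2) := ⟨Nat.prime_two⟩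
  obtain ⟨P⟩ : Nonempty (Sylow 2 G) := inferInstance
  rw [← redFun_eq_iff (locR_sum fun g _ => hR g) (hR 1), redFun_sum (fun g _ => hR g)]
  have h2 : ∀ m : ResF M, 2 • m = 0 := by
    intro m
    rw [two_nsmul]
    exact CharTwo.add_self_eq_zero m
  let act : MulAction (P : Subgroup G) G := MulAction.compHom G
    ((MulAut.conj : G →* MulAut G).comp (P : Subgroup G).subtype)
  have hact : ∀ (a : (P : Subgroup G)) (y : G), act.smul a y = (a : G) * y * (a : G)⁻¹ := fun _ _ => rfl
  have key := @H19.PSum.sum_eq_sum_fixed 2 _ (P : Subgroup G) G (ResF M) _ _ P.2 act _ _ h2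
    (fun g => redFun M (F g)) (fun a y => by
      show redFun M (F ((a : G) * y * (a : G)⁻¹)) = redFun M (F y)
      rw [hF])
  have key' : ∑ y, redFun M (F y) =
      ∑ y, if (∀ a : (P : Subgroup G), (a : G) * y * (a : G)⁻¹ = y) then redFun M (F y) else 0 := by
    rw [key]
    refine Finset.sum_congr rfl fun y _ => ?_
    by_cases hy : ∀ a : (P : Subgroup G), (a : G) * y * (a : G)⁻¹ = y
    · rw [if_pos hy]
      exact if_pos hy
    · rw [if_neg hy]
      exact if_neg hy
  rw [key']
  rw [← Finset.add_sum_erase _ _ (Finset.mem_univ (1 : G)), if_pos (fun a => by simp)]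
  rw [add_eq_left]
  -- fixed points have odd class size
  have hodd : ∀ g : G, (∀ a : (P : Subgroup G), (a : G) * g * (a : G)⁻¹ = g) →
      ¬ 2 ∣ (Subgroup.centralizer ({g} : Set G)).index := by
    intro g hg hd
    have h3 : (P : Subgroup G) ≤ Subgroup.centralizer ({g} : Set G) := by
      intro a ha
      rw [Subgroup.mem_centralizer_singleton_iff]
      have := hg ⟨a, ha⟩
      exact mul_inv_eq_iff_eq_mul.mp this
    exact P.not_dvd_index (hd.trans (Subgroup.index_dvd_of_le h3))
  have hfixinv : ∀ g : G, (∀ a : (P : Subgroup G), (a : G) * g * (a : G)⁻¹ = g) ↔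
      (∀ a : (P : Subgroup G), (a : G) * g⁻¹ * (a : G)⁻¹ = g⁻¹) := by
    intro g
    refine forall_congr' fun a => ?_
    have : (a : G) * g⁻¹ * (a : G)⁻¹ = ((a : G) * g * (a : G)⁻¹)⁻¹ := by group
    rw [this, inv_inj]
  refine Finset.sum_involution (fun g _ => g⁻¹) ?_ ?_ ?_ ?_
  · intro g hg
    show (if (∀ a : (P : Subgroup G), (a : G) * g * (a : G)⁻¹ = g) then redFun M (F g) else 0) +
      (if (∀ a : (P : Subgroup G), (a : G) * g⁻¹ * (a : G)⁻¹ = g⁻¹) then redFun M (F g⁻¹) else 0) = 0
    by_cases hfix : ∀ a : (P : Subgroup G), (a : G) * g * (a : G)⁻¹ = g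
    · rw [if_pos hfix, if_pos ((hfixinv g).mp hfix)]
      rw [(redFun_eq_iff (hR _) (hR _)).mpr (hinv g (hodd g hfix))]
      exact CharTwo.add_self_eq_zero _
    · rw [if_neg hfix, if_neg (fun h => hfix ((hfixinv g).mpr h)), add_zero]
  · intro g hg hne heq
    apply hne
    have hg1 : g ≠ 1 := Finset.ne_of_mem_erase hg
    have h3 : orderOf g = 2 := by
      apply orderOf_eq_prime _ hg1
      rw [pow_two]
      nth_rewrite 1 [← heq]
      exact inv_mul_cancel g
    have h4 : F g = 0 := h0 g (by rw [h3])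
    show (if _ then redFun M (F g) else 0) = 0
    rw [h4, redFun_zero, ite_self]
  · intro g hg
    rw [Finset.mem_erase] at hg ⊢
    exact ⟨fun h => hg.1 (inv_eq_one.mp h), Finset.mem_univ _⟩
  · intro g _
    exact inv_inv g

/-- the complex conjugate of an irreducible character -/
noncomputable def cj (χ : IrrCharacter G) : IrrCharacter G :=
  ⟨fun g => conj ((χ : G → ℂ) g), H18.CharQuot.isIrrCharacter_conj χ.2⟩

theorem cj_apply (χ : IrrCharacter G) (g : G) : (cj χ : G → ℂ) g = conj ((χ : G → ℂ) g) := rfl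

theorem cj_cj (χ : IrrCharacter G) : cj (cj χ) = χ := by
  apply Subtype.ext
  funext g
  simp [cj]

theorem cj_eq_inv (χ : IrrCharacter G) (g : G) : (cj χ : G → ℂ) g = (χ : G → ℂ) g⁻¹ := by
  rw [cj_apply, H18.CharBasic.char_inv (H18.CharBasic.isCharacter_of_isIrr χ.2)]

theorem cj_one (χ : IrrCharacter G) : (cj χ : G → ℂ) 1 = (χ : G → ℂ) 1 := by
  rw [cj_eq_inv, inv_one]

theorem centralChar_cj (χ : IrrCharacter G) (g : G) :
    centralChar (cj χ : G → ℂ) g = centralChar (χ : G → ℂ) g⁻¹ := by
  unfold centralChar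
  rw [index_centralizer_inv, cj_eq_inv, cj_one]

theorem sameBlock_cj {χ ψ : IrrCharacter G} (h : SameBlock M (χ : G → ℂ) (ψ : G → ℂ)) :
    SameBlock M (cj χ : G → ℂ) (cj ψ : G → ℂ) := by
  intro g
  rw [centralChar_cj, centralChar_cj]
  exact h g⁻¹

theorem blockCoeff_inv {B : Set (IrrCharacter G)} (hB : ∀ χ ∈ B, cj χ ∈ B) (g : G) :
    blockCoeff B g⁻¹ = blockCoeff B g := by
  classical
  letI := Fintype.ofFinite (IrrCharacter G)
  rw [blockCoeff_eq_sum, blockCoeff_eq_sum]
  congr 1
  let e : IrrCharacter G ≃ IrrCharacter G := ⟨cj, cj, cj_cj, cj_cj⟩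
  refine Fintype.sum_equiv e _ _ fun χ => ?_
  show _ = if cj χ ∈ B then (cj χ : G → ℂ) 1 * conj ((cj χ : G → ℂ) g) else 0
  have h1 : χ ∈ B ↔ cj χ ∈ B := ⟨hB χ, fun h => by
    have := hB _ h
    rwa [cj_cj] at this⟩
  refine if_congr h1 ?_ rfl
  rw [cj_one, cj_eq_inv]

/-- A 2-block stable under complex conjugation which contains a character of odd degree is the
principal block. -/
theorem principal_of_real (hM : IsPModular 2 M) {B : Set (IrrCharacter G)} (hB : IsPBlock M B)
    (hreal : ∀ χ ∈ B, cj χ ∈ B) {χ : IrrCharacter G} (hχ : χ ∈ B)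
    (hodd : Odd (charDegree (χ : G → ℂ))) : B = principalBlock M G := by
  classical
  haveI := pm_isPrime hM
  letI := Fintype.ofFinite G
  have hU := isUnion_of_isPBlock hB
  have haR : ∀ g, MemLocalRing M (blockCoeff B g) := fun g => eB_mem_of_isUnion hU g
  have hdeg : (charDegree (χ : G → ℂ) : ℂ) = (χ : G → ℂ) 1 := H20.Defect.charDegree_irr χ
  have hdI : ¬ MemLocalIdeal M ((χ : G → ℂ) 1) := by
    rw [← hdeg, locI_natCast_iff hM]
    exact fun h => (Nat.not_even_iff_odd.mpr hodd) (even_iff_two_dvd.mpr h)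
  have hwR : ∀ (ψ : IrrCharacter G) (g : G), MemLocalRing M ((ψ : G → ℂ) g) := fun ψ g =>
    isIntegral_mem (H18.CharBasic.char_isIntegral (H18.CharBasic.isCharacter_of_isIrr ψ.2) g)
  -- general congruence
  have key : ∀ ψ : IrrCharacter G, (∀ g : G, ¬ 2 ∣ (Subgroup.centralizer ({g} : Set G)).index →
      MemLocalIdeal M ((ψ : G → ℂ) g⁻¹ - (ψ : G → ℂ) g)) →
      MemLocalIdeal M ((ψ : G → ℂ) 1 * omega ψ (eB B) - blockCoeff B 1 * (ψ : G → ℂ) 1) := by
    intro ψ hψ
    have h1 := sum_congr_one hM (fun g => blockCoeff B g * (ψ : G → ℂ) g)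
      (by
        intro g h
        show blockCoeff B (h * g * h⁻¹) * (ψ : G → ℂ) (h * g * h⁻¹) = _
        rw [blockCoeff_class B, H18.CharBasic.isClassFunction_of_isIrr ψ.2])
      (fun g => locR_mul (haR g) (hwR ψ g))
      (fun g hg => by
        show blockCoeff B g * _ = 0
        rw [blockCoeff_eq_zero hM hU hg, zero_mul])
      (fun g hg => by
        show MemLocalIdeal M (blockCoeff B g⁻¹ * _ - blockCoeff B g * _)
        rw [blockCoeff_inv hreal, ← mul_sub]
        exact locI_mul_left (haR g) (hψ g hg))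
    have h2 : (ψ : G → ℂ) 1 * omega ψ (eB B) = ∑ g, blockCoeff B g * (ψ : G → ℂ) g := by
      rw [omega_eq_sum, mul_div_cancel₀ _ (H18.CharBasic.irr_one_ne_zero ψ.2)]
      rfl
    rw [h2]
    exact h1
  -- the coefficient at 1 is a unit
  have hχ1 : ¬ MemLocalIdeal M (blockCoeff B 1) := by
    intro h
    have h1 := key χ (by
      intro g hg
      have h2 : MemLocalIdeal M (centralChar (cj χ : G → ℂ) g - centralChar (χ : G → ℂ) g) :=
        isPBlock_sameBlock hB (hreal χ hχ) hχ g
      have h3 : centralChar (cj χ : G → ℂ) g - centralChar (χ : G → ℂ) g =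
          ((Subgroup.centralizer ({g} : Set G)).index : ℂ) * ((χ : G → ℂ) 1)⁻¹ *
          ((χ : G → ℂ) g⁻¹ - (χ : G → ℂ) g) := by
        unfold centralChar
        rw [cj_eq_inv, cj_one]
        ring
      rw [h3] at h2
      have hiR : MemLocalRing M ((χ : G → ℂ) 1)⁻¹ := locR_inv (hwR χ 1) hdI
      rcases locI_or_locI (locR_mul (locR_natCast _) hiR) (locR_sub (hwR χ _) (hwR χ _)) h2 with h4 | h4
      · exfalso
        rcases locI_or_locI (locR_natCast _) hiR h4 with h5 | h5
        · exact hg ((locI_natCast_iff hM).mp h5)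
        · exact not_locI_inv (hwR χ 1) hdI h5
      · exact h4)
    rw [omega_eB_mem hχ, mul_one] at h1
    apply hdI
    have h5 : MemLocalIdeal M (blockCoeff B 1 * (χ : G → ℂ) 1) := locI_mul_right h (hwR χ 1)
    have := locI_add h1 h5
    simpa using this
  -- the trivial character
  let one : IrrCharacter G := ⟨fun _ => 1, H18.CharBasic.isIrrCharacter_one⟩
  have h1B : one ∈ B := by
    by_contra hn
    apply hχ1
    have h1 := key one (fun g _ => by
      show MemLocalIdeal M ((1 : ℂ) - 1)
      exact locI_refl _)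
    rw [omega_eB_notMem hn] at h1
    have h2 : ((one : IrrCharacter G) : G → ℂ) 1 = 1 := rfl
    rw [h2] at h1
    have := locI_neg h1
    simpa using this
  exact isPBlock_eq hB h1B

end H79.RealBlk
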