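import Cfsg.Agent.Lib.H79.WrKer
import Cfsg.Agent.Lib.H6.SympCard

/-! Sylow 2-subgroups of symplectic groups over fields of odd order. -/

set_option autoImplicit false
set_option linter.unusedSectionVars false
set_option linter.style.haveILetI false

namespace H79.SpWr

open Subgroup H79.SylElem H79.WrGd H79.WrSyl H79.WrKer Matrix Equiv

variable {n : ℕ} {F : Type*} [Field F]

/-- block matrix -/
def blk (f : Fin n → SpecialLinearGroup (Fin 2) F) : Matrix (Fin n ⊕ Fin n) (Fin n ⊕ Fin n) F :=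
  fromBlocks (diagonal fun i => (f i).1 0 0) (diagonal fun i => (f i).1 0 1)
    (diagonal fun i => (f i).1 1 0) (diagonal fun i => (f i).1 1 1)

theorem blk_mul (f g : Fin n → SpecialLinearGroup (Fin 2) F) : blk (f * g) = blk f * blk g := by
  have hm : ∀ i a b, (f i * g i).1 a b = (f i).1 a 0 * (g i).1 0 b + (f i).1 a 1 * (g i).1 1 b := by
    intro i a b
    show ((f i).1 * (g i).1) a b = _
    rw [Matrix.mul_apply, Fin.sum_univ_two]
  rw [blk, blk, blk, fromBlocks_multiply]
  simp only [diagonal_mul_diagonal, diagonal_add, Pi.mul_apply, hm]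

theorem blk_one : blk (1 : Fin n → SpecialLinearGroup (Fin 2) F) = 1 := by
  rw [blk]
  simp

theorem blk_mem (f : Fin n → SpecialLinearGroup (Fin 2) F) : blk f ∈ symplecticGroup (Fin n) F := by
  have hdet : ∀ i, (f i).1 0 0 * (f i).1 1 1 - (f i).1 0 1 * (f i).1 1 0 = 1 := by
    intro i
    rw [← Matrix.det_fin_two]
    exact (f i).2
  rw [SymplecticGroup.mem_iff, Matrix.J, blk, fromBlocks_transpose, fromBlocks_multiply,
    fromBlocks_multiply]
  simp only [diagonal_transpose, mul_zero, mul_one, zero_add, add_zero, mul_neg, neg_mul,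
    diagonal_mul_diagonal, ← diagonal_neg, diagonal_add]
  congr 1
  · ext i j
    rcases eq_or_ne i j with rfl | h
    · simp; ring
    · simp [h]
  · ext i j
    rcases eq_or_ne i j with rfl | h
    · simp; linear_combination -(hdet i)
    · simp [h]
  · ext i j
    rcases eq_or_ne i j with rfl | h
    · simp; linear_combination (hdet i)
    · simp [h]
  · ext i j
    rcases eq_or_ne i j with rfl | h
    · simp; ring
    · simp [h]

/-- the embedding of `SL_2(F)^n` -/
def eHom : (Fin n → SpecialLinearGroup (Fin 2) F) × Unit →* symplecticGroup (Fin n) F where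
  toFun f := ⟨blk f.1, blk_mem f.1⟩
  map_one' := Subtype.ext blk_one
  map_mul' f g := Subtype.ext (blk_mul f.1 g.1)

theorem eHom_injective : Function.Injective (eHom (n := n) (F := F)) := by
  rintro ⟨f, x⟩ ⟨g, y⟩ h
  have h1 : blk f = blk g := congrArg Subtype.val h
  rw [blk, blk, fromBlocks_inj] at h1
  obtain ⟨h2, h3, h4, h5⟩ := h1
  refine Prod.ext (funext fun i => Subtype.ext ?_) rfl
  have e2 := congrFun (diagonal_injective h2) i
  have e3 := congrFun (diagonal_injective h3) i
  have e4 := congrFun (diagonal_injective h4) i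
  have e5 := congrFun (diagonal_injective h5) i
  ext a b
  fin_cases a <;> fin_cases b
  · exact e2
  · exact e3
  · exact e4
  · exact e5

/-- permutation matrices, covariant -/
def pmat (σ : Perm (Fin n)) : Matrix (Fin n) (Fin n) F := Matrix.of fun i j => if i = σ j then 1 else 0

theorem pmat_apply (σ : Perm (Fin n)) (i j : Fin n) :
    (pmat σ : Matrix (Fin n) (Fin n) F) i j = if i = σ j then 1 else 0 := rfl

theorem pmat_mul (σ τ : Perm (Fin n)) : (pmat (σ * τ) : Matrix (Fin n) (Fin n) F) = pmat σ * pmat τ := by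
  ext i j
  rw [Matrix.mul_apply, Finset.sum_eq_single (τ j)]
  · rw [pmat_apply, pmat_apply, pmat_apply, if_pos rfl, mul_one]
    rfl
  · intro b _ hb
    rw [pmat_apply τ, if_neg hb, mul_zero]
  · simp

theorem pmat_one : (pmat 1 : Matrix (Fin n) (Fin n) F) = 1 := by
  ext i j
  rw [pmat_apply, Matrix.one_apply]
  rfl

theorem pmat_transpose (σ : Perm (Fin n)) : (pmat σ : Matrix (Fin n) (Fin n) F)ᵀ = pmat σ⁻¹ := by
  ext i j
  rw [transpose_apply, pmat_apply, pmat_apply]
  congr 1
  rw [eq_iff_iff]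
  constructor
  · rintro rfl; simp
  · rintro rfl; simp

theorem pmat_mul_diagonal (σ : Perm (Fin n)) (d : Fin n → F) :
    pmat σ * diagonal d = diagonal (fun i => d (σ⁻¹ i)) * pmat σ := by
  ext i j
  rw [mul_diagonal, diagonal_mul, pmat_apply]
  split_ifs with h
  · subst h; simp
  · simp

/-- the permutation of the blocks -/
def pHom : Perm (Fin n) →* symplecticGroup (Fin n) F where
  toFun σ := ⟨fromBlocks (pmat σ) 0 0 (pmat σ), by
    rw [SymplecticGroup.mem_iff, Matrix.J, fromBlocks_transpose, fromBlocks_multiply,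
      fromBlocks_multiply]
    simp only [transpose_zero, mul_zero, zero_mul, mul_one, zero_add, add_zero, mul_neg, neg_mul,
      pmat_transpose, ← pmat_mul, mul_inv_cancel, pmat_one, neg_zero]⟩
  map_one' := Subtype.ext (by simp [pmat_one])
  map_mul' σ τ := Subtype.ext (by
    show fromBlocks (pmat (σ * τ)) 0 0 (pmat (σ * τ)) = fromBlocks (pmat σ) 0 0 (pmat σ) * fromBlocks (pmat τ) 0 0 (pmat τ)
    rw [fromBlocks_multiply]
    simp [pmat_mul])

theorem pmat_injective : Function.Injective (fun σ : Perm (Fin n) => (pmat σ : Matrix (Fin n) (Fin n) F)) := by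
  intro σ τ h
  apply Equiv.ext
  intro i
  have h1 := congrFun (congrFun h (σ i)) i
  simp only [pmat_apply, if_true] at h1
  by_contra hne
  rw [if_neg hne] at h1
  exact one_ne_zero h1

theorem pHom_injective : Function.Injective (pHom (n := n) (F := F)) := by
  intro σ τ h
  have h1 : fromBlocks (pmat σ : Matrix _ _ F) 0 0 (pmat σ) = fromBlocks (pmat τ) 0 0 (pmat τ) :=
    congrArg Subtype.val h
  rw [fromBlocks_inj] at h1
  exact pmat_injective h1.1

theorem conj_rel (σ : Perm (Fin n)) (f : Fin n → SpecialLinearGroup (Fin 2) F) (x : Unit) :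
    pHom σ * eHom (f, x) * (pHom σ)⁻¹ = eHom (fun i => f (σ⁻¹ i), x) := by
  rw [mul_inv_eq_iff_eq_mul]
  apply Subtype.ext
  show fromBlocks (pmat σ) 0 0 (pmat σ) * blk f = blk (fun i => f (σ⁻¹ i)) * fromBlocks (pmat σ) 0 0 (pmat σ)
  rw [blk, blk, fromBlocks_multiply, fromBlocks_multiply]
  simp only [zero_mul, mul_zero, add_zero, zero_add, pmat_mul_diagonal]

theorem meet (f : (Fin n → SpecialLinearGroup (Fin 2) F) × Unit) (σ : Perm (Fin n))
    (h : eHom f = pHom σ) : σ = 1 := by
  have h1 : blk f.1 = fromBlocks (pmat σ : Matrix _ _ F) 0 0 (pmat σ) := congrArg Subtype.val h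
  rw [blk, fromBlocks_inj] at h1
  apply Equiv.ext
  intro i
  have h2 := congrFun (congrFun h1.1 (σ i)) i
  rw [pmat_apply, if_pos rfl] at h2
  by_contra hne
  have h3 : diagonal (fun i => (f.1 i).1 0 0) (σ i) i = (0 : F) := diagonal_apply_ne _ hne
  exact zero_ne_one (h3.symm.trans h2)

theorem main [Fintype F] (hF : Odd (Fintype.card F)) (hn : 1 ≤ n)
    (P : Sylow 2 (symplecticGroup (Fin n) F)) :
    ∀ x : (P : Subgroup (symplecticGroup (Fin n) F)), x ^ 2 ∈ commutator (P : Subgroup (symplecticGroup (Fin n) F)) := by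
  haveI : Fact (Nat.Prime 2) := ⟨Nat.prime_two⟩
  have hq1 : 1 < Fintype.card F := Fintype.one_lt_card
  obtain ⟨Q⟩ : Nonempty (Sylow 2 (SpecialLinearGroup (Fin 2) F)) := inferInstance
  have hQ := gd_sl2 hF Q
  let i₀ : Fin n := ⟨0, hn⟩
  have hG : Gd 2 (E0 (ι := Fin n) (1 : SpecialLinearGroup (Fin 2) F →* Unit) (1 : Unit →* Unit)
      (Q : Subgroup (SpecialLinearGroup (Fin 2) F)) ⊤) := by
    have h1 : (Q : Subgroup (SpecialLinearGroup (Fin 2) F)) ⊓ (1 : SpecialLinearGroup (Fin 2) F →* Unit).ker = Q := by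
      rw [MonoidHom.ker_one, inf_top_eq]
    apply gd_E0_of_ker _ _ _ _ i₀ (by rw [h1]; exact hQ) ∅ (by simp) (by simp)
      (by rw [h1, Set.union_empty]; exact subset_closure) ∅ (by simp)
    · intro x _
      rw [Subsingleton.elim x 1]
      exact one_mem _
    · simp
  have hcQ : Nat.card Q = 2 ^ padicValNat 2 (Fintype.card F ^ 2 - 1) := by
    rw [Q.card_eq_multiplicity, ValQ.pow_fact (val_sl2 hF)]
  have hcE : Nat.card (E0 (ι := Fin n) (1 : SpecialLinearGroup (Fin 2) F →* Unit) (1 : Unit →* Unit)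
      (Q : Subgroup (SpecialLinearGroup (Fin 2) F)) ⊤) = 2 ^ (n * padicValNat 2 (Fintype.card F ^ 2 - 1)) := by
    have h1 := card_E0 (ι := Fin n) (1 : SpecialLinearGroup (Fin 2) F →* Unit) (1 : Unit →* Unit)
      (Q : Subgroup (SpecialLinearGroup (Fin 2) F)) ⊤ 1 (by
        rw [Nat.card_eq_one_iff_unique]
        exact ⟨⟨fun a b => Subtype.ext (Subsingleton.elim _ _)⟩, ⟨1⟩⟩)
    have h2 : Nat.card (⊤ : Subgroup Unit) = 1 := by rw [Subgroup.card_top]; simp
    rw [one_mul, hcQ, h2, mul_one, Fintype.card_fin, ← pow_mul] at h1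
    rw [h1, mul_comm]
  have hcS : padicValNat 2 (Nat.card (symplecticGroup (Fin n) F)) =
      n * padicValNat 2 (Fintype.card F ^ 2 - 1) + padicValNat 2 n.factorial := by
    rw [H6.SympCard.card_symplecticGroup, Fintype.card_fin, Nat.card_eq_fintype_card,
      padicValNat.mul (by positivity) (ValQ.prod_ne_zero hq1 n), ValQ.val_pow_odd hF, zero_add,
      ValQ.val_prod hF hq1]
  have h0 := wreath (1 : SpecialLinearGroup (Fin 2) F →* Unit) (1 : Unit →* Unit)
    (Q : Subgroup (SpecialLinearGroup (Fin 2) F)) ⊤ (r := 2) eHom (pHom (n := n) (F := F)) eHom_injective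
    pHom_injective conj_rel meet ⊤ le_top (fun _ => mem_top _) (by
      rw [hcE, Subgroup.card_top, ValQ.pow_fact hcS, ValQ.pow_fact rfl, ← pow_add]) hG
  -- transfer from `⊤`
  obtain ⟨P₁⟩ : Nonempty (Sylow 2 (⊤ : Subgroup (symplecticGroup (Fin n) F))) := inferInstance
  exact gd_iff.1 (gd_sylow_of_equiv Subgroup.topEquiv P₁ (gd_iff.2 (h0 P₁)) P)

end H79.SpWr
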