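import Cfsg.Agent.Lib.H3.CardSup
import Cfsg.Agent.Lib.H79.PSmall

/-! `p`-groups with elementary abelian abelianization, and Sylow subgroups built as `E ⊔ T`. -/

set_option autoImplicit false
set_option linter.unusedSectionVars false
set_option linter.style.haveILetI false

namespace H79.SylElem

open Subgroup
open scoped commutatorElement

universe u v

section gd

variable {G : Type*} [Group G] {p : ℕ}

/-- all `p`-th powers are in the derived subgroup -/
def Gd (p : ℕ) (H : Subgroup G) : Prop := ∀ x ∈ H, x ^ p ∈ ⁅H, H⁆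

theorem commutator_iff {H : Subgroup G} (x : H) : (x : G) ∈ ⁅H, H⁆ ↔ x ∈ commutator H := by
  rw [← Subgroup.map_subtype_commutator H]
  constructor
  · rintro ⟨y, hy, hyx⟩
    rwa [← Subtype.ext hyx]
  · intro h
    exact ⟨x, h, rfl⟩

/-- it suffices to check generators -/
theorem gd_of_gen {H : Subgroup G} (S : Set G) (hS : ∀ s ∈ S, s ∈ H) (hgen : H ≤ closure S)
    (h : ∀ s ∈ S, s ^ p ∈ ⁅H, H⁆) : Gd p H := by
  let φ : H →* Abelianization H := (powMonoidHom p).comp Abelianization.of
  have hφ : ∀ x : H, x ∈ φ.ker ↔ ((x : G) ^ p) ∈ ⁅H, H⁆ := by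
    intro x
    rw [MonoidHom.mem_ker]
    have h1 : φ x = Abelianization.of (x ^ p) := by
      show (Abelianization.of x) ^ p = _
      rw [map_pow]
    rw [h1]
    have h2 : (Abelianization.of (x ^ p) = 1) ↔ x ^ p ∈ commutator H :=
      QuotientGroup.eq_one_iff (N := commutator H) (x ^ p)
    rw [h2, ← commutator_iff]
    rfl
  have h1 : H ≤ φ.ker.map H.subtype := by
    refine hgen.trans ((closure_le _).2 ?_)
    intro s hs
    exact ⟨⟨s, hS s hs⟩, (hφ _).2 (h s hs), rfl⟩
  intro x hx
  obtain ⟨y, hy, hyx⟩ := h1 hx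
  have h2 := (hφ y).1 hy
  have h3 : (y : G) = x := hyx
  rwa [h3] at h2

theorem gd_map {G' : Type*} [Group G'] (f : G →* G') {H : Subgroup G} (h : Gd p H) :
    Gd p (H.map f) := by
  rintro _ ⟨x, hx, rfl⟩
  rw [← Subgroup.map_commutator, ← map_pow]
  exact ⟨_, h x hx, rfl⟩

theorem gd_of_pow_eq_one {H : Subgroup G} (h : ∀ x ∈ H, x ^ p = 1) : Gd p H := fun x hx => by
  rw [h x hx]; exact one_mem _

theorem gd_of_elem {H : Subgroup G} (S : Set G) (hS : ∀ s ∈ S, s ∈ H) (hgen : H ≤ closure S)
    (h : ∀ s ∈ S, s ^ p = 1) : Gd p H :=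
  gd_of_gen S hS hgen fun s hs => by rw [h s hs]; exact one_mem _

/-- `Gd` for `H` as a statement about the type `H` -/
theorem gd_iff {H : Subgroup G} : Gd p H ↔ ∀ x : H, x ^ p ∈ commutator H := by
  constructor
  · intro h x
    rw [← commutator_iff]
    exact h x x.2
  · intro h x hx
    have := h ⟨x, hx⟩
    rw [← commutator_iff] at this
    exact this

theorem gd_type_of_equiv {H : Type*} {H' : Type*} [Group H] [Group H'] (e : H ≃* H')
    (h : ∀ x : H, x ^ p ∈ commutator H) (y : H') : y ^ p ∈ commutator H' := by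
  obtain ⟨x, rfl⟩ := e.surjective y
  rw [← map_pow]
  have h1 : (commutator H).map e.toMonoidHom = commutator H' := by
    rw [commutator_def, commutator_def, Subgroup.map_commutator, ← MonoidHom.range_eq_map,
      MonoidHom.range_eq_top.2 e.surjective]
  rw [← h1]
  exact ⟨_, h x, rfl⟩

/-- one Sylow subgroup suffices -/
theorem result_of [Finite G] [Fact p.Prime] (P₀ : Sylow p G) (h : Gd p (P₀ : Subgroup G))
    (P : Sylow p G) : ∀ x : (P : Subgroup G), x ^ p ∈ commutator (P : Subgroup G) :=
  fun x => gd_type_of_equiv (Sylow.equiv P₀ P) (gd_iff.1 h) x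

theorem result_of' [Finite G] [Fact p.Prime] (P₀ : Sylow p G) (h : Gd p (P₀ : Subgroup G))
    (P : Sylow p G) : Gd p (P : Subgroup G) := gd_iff.2 (result_of P₀ h P)

/-- transport along an isomorphism of the ambient groups -/
theorem gd_sylow_of_equiv [Finite G] [Fact p.Prime] {G' : Type*} [Group G'] [Finite G'] (e : G ≃* G')
    (P₀ : Sylow p G) (h : Gd p (P₀ : Subgroup G)) (P : Sylow p G') : Gd p (P : Subgroup G') := by
  have hc : Nat.card ((P₀ : Subgroup G).map e.toMonoidHom) = p ^ (Nat.card G').factorization p := by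
    rw [← Nat.card_congr e.toEquiv, ← P₀.card_eq_multiplicity]
    exact (Nat.card_congr ((P₀ : Subgroup G).equivMapOfInjective e.toMonoidHom e.injective).toEquiv).symm
  apply result_of' (Sylow.ofCard ((P₀ : Subgroup G).map e.toMonoidHom) hc) _ P
  exact gd_map e.toMonoidHom h

end gd

section semidirect

variable {G : Type*} [Group G] [Finite G] {p : ℕ} [hp : Fact p.Prime]

/-- Sylow subgroups of the form `E ⊔ T`. -/
theorem exists_sylow (E T : Subgroup G) (hT : T ≤ normalizer (E : Set G)) (hd : E ⊓ T = ⊥)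
    (hc : Nat.card E * Nat.card T = p ^ (Nat.card G).factorization p) :
    ∃ P : Sylow p G, (P : Subgroup G) = E ⊔ T := by
  have h1 := H3.CardSup.card_sup_mul_card_inf T E hT
  rw [inf_comm, hd, card_bot, mul_one, sup_comm] at h1
  exact ⟨Sylow.ofCard (E ⊔ T) (by rw [h1, ← hc, mul_comm]), rfl⟩

theorem pow_factorization_of_card (n : ℕ) (h : n ≠ 0) (k : ℕ) (hk : padicValNat p n = k) :
    p ^ n.factorization p = p ^ k := by
  rw [← hk, Nat.factorization_def _ hp.out]

end semidirect

end H79.SylElem
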