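import Cfsg.Agent.Lib.H79.SylElem
import Cfsg.Agent.Lib.H28.RelSyl

/-! Sylow subgroups of the symmetric and alternating groups have elementary abelian
abelianization. -/

set_option autoImplicit false
set_option linter.unusedSectionVars false
set_option linter.style.haveILetI false

namespace H79.SylSym

open Subgroup H79.SylElem Equiv
open scoped commutatorElement

theorem gd_subgroupOf {G : Type*} [Group G] {p : ℕ} {H K : Subgroup G} (hHK : H ≤ K) (h : Gd p H) :
    Gd p (H.subgroupOf K) := by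
  intro x hx
  have h1 := h x hx
  have h2 : (H.subgroupOf K).map K.subtype = H := by
    rw [Subgroup.subgroupOf_map_subtype, inf_eq_left.2 hHK]
  rw [← h2, ← Subgroup.map_commutator] at h1
  obtain ⟨y, hy, hyx⟩ := h1
  have h3 : y = x ^ p := Subtype.ext hyx
  rwa [h3] at hy

/-- the model set -/
abbrev X (p m r : ℕ) : Type := (Fin m × ZMod p) ⊕ Fin r

section model

variable {p : ℕ} (m r : ℕ)

/-- translations in the blocks -/
def fE : (Fin m → Multiplicative (ZMod p)) →* Perm (X p m r) where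
  toFun a :=
    { toFun := Sum.map (fun x => (x.1, x.2 + (a x.1).toAdd)) id
      invFun := Sum.map (fun x => (x.1, x.2 - (a x.1).toAdd)) id
      left_inv := by rintro (⟨i, z⟩ | j) <;> simp
      right_inv := by rintro (⟨i, z⟩ | j) <;> simp }
  map_one' := by
    ext (⟨i, z⟩ | j) <;> simp
  map_mul' a b := by
    apply Equiv.ext
    rintro (⟨i, z⟩ | j)
    · simp [add_comm, add_left_comm]
    · simp

theorem fE_inl (a : Fin m → Multiplicative (ZMod p)) (i : Fin m) (z : ZMod p) :
    fE m r a (Sum.inl (i, z)) = Sum.inl (i, z + (a i).toAdd) := rfl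

theorem fE_inr (a : Fin m → Multiplicative (ZMod p)) (j : Fin r) :
    fE m r a (Sum.inr j) = Sum.inr j := rfl

/-- permutations of the blocks -/
def gT : Perm (Fin m) →* Perm (X p m r) where
  toFun σ := Equiv.sumCongr (Equiv.prodCongr σ (Equiv.refl _)) (Equiv.refl _)
  map_one' := by
    apply Equiv.ext
    rintro (⟨i, z⟩ | j) <;> simp
  map_mul' a b := by
    apply Equiv.ext
    rintro (⟨i, z⟩ | j) <;> simp

theorem gT_inl (σ : Perm (Fin m)) (i : Fin m) (z : ZMod p) :
    gT m r σ (Sum.inl (i, z)) = Sum.inl (σ i, z) := rfl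

theorem gT_inr (σ : Perm (Fin m)) (j : Fin r) :
    gT (p := p) m r σ (Sum.inr j) = Sum.inr j := rfl

theorem fE_injective : Function.Injective (fE (p := p) m r) := by
  rw [injective_iff_map_eq_one]
  intro a ha
  funext i
  have h := congrArg (fun σ : Perm (X p m r) => σ (Sum.inl (i, 0))) ha
  simp only [fE_inl] at h
  have h2 : (0 : ZMod p) + (a i).toAdd = 0 := (Prod.mk.inj (Sum.inl.inj h)).2
  rw [zero_add] at h2
  exact h2

theorem gT_injective [NeZero p] : Function.Injective (gT (p := p) m r) := by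
  intro σ τ h
  apply Equiv.ext
  intro i
  have h := congrArg (fun σ : Perm (X p m r) => σ (Sum.inl (i, 0))) h
  simp only [gT_inl] at h
  exact (Prod.mk.inj (Sum.inl.inj h)).1

theorem gT_conj (σ : Perm (Fin m)) (a : Fin m → Multiplicative (ZMod p)) :
    gT m r σ * fE m r a * (gT m r σ)⁻¹ = fE m r (fun i => a (σ⁻¹ i)) := by
  rw [mul_inv_eq_iff_eq_mul]
  apply Equiv.ext
  rintro (⟨i, z⟩ | j)
  · rw [Perm.mul_apply, Perm.mul_apply, fE_inl, gT_inl, gT_inl, fE_inl]
    simp
  · rfl

variable [hp : Fact p.Prime]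

theorem normalizes (T : Subgroup (Perm (Fin m))) :
    T.map (gT (p := p) m r) ≤ normalizer (((fE (p := p) m r).range : Subgroup (Perm (X p m r))) :
      Set (Perm (X p m r))) := by
  rintro _ ⟨σ, _, rfl⟩
  rw [mem_normalizer_iff]
  intro x
  constructor
  · rintro ⟨a, rfl⟩
    exact ⟨_, (gT_conj m r σ a).symm⟩
  · rintro ⟨a, ha⟩
    refine ⟨fun i => a (σ i), ?_⟩
    have h1 := gT_conj (p := p) m r σ⁻¹ a
    rw [ha, map_inv, inv_inv] at h1
    have h2 : (gT m r σ)⁻¹ * (gT m r σ * x * (gT m r σ)⁻¹) * gT m r σ = x := by group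
    rw [h2] at h1
    rw [h1]
    congr 1

theorem disjoint (T : Subgroup (Perm (Fin m))) :
    (fE (p := p) m r).range ⊓ T.map (gT (p := p) m r) = ⊥ := by
  haveI : NeZero p := ⟨hp.out.ne_zero⟩
  rw [eq_bot_iff]
  rintro x ⟨⟨a, ha⟩, ⟨σ, _, hσ⟩⟩
  have h1 : a = 1 := by
    funext i
    have h := congrArg (fun σ : Perm (X p m r) => σ (Sum.inl (i, 0))) (ha.trans hσ.symm)
    simp only [fE_inl, gT_inl] at h
    have h2 : (0 : ZMod p) + (a i).toAdd = 0 := (Prod.mk.inj (Sum.inl.inj h)).2
    rw [zero_add] at h2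
    exact h2
  rw [mem_bot, ← ha, h1, map_one]

theorem card_E : Nat.card (fE (p := p) m r).range = p ^ m := by
  haveI : NeZero p := ⟨hp.out.ne_zero⟩
  rw [← Nat.card_congr (MonoidHom.ofInjective (fE_injective (p := p) m r)).toEquiv, Nat.card_fun,
    Nat.card_congr Multiplicative.toAdd, Nat.card_zmod, Nat.card_fin]

theorem card_T (T : Subgroup (Perm (Fin m))) : Nat.card (T.map (gT (p := p) m r)) = Nat.card T := by
  haveI : NeZero p := ⟨hp.out.ne_zero⟩
  exact (Nat.card_congr (T.equivMapOfInjective _ (gT_injective (p := p) m r)).toEquiv).symm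

theorem pow_E {x : Perm (X p m r)} (hx : x ∈ (fE (p := p) m r).range) : x ^ p = 1 := by
  obtain ⟨a, rfl⟩ := hx
  rw [← map_pow]
  have : a ^ p = 1 := by
    funext i
    rw [Pi.pow_apply, Pi.one_apply]
    apply Multiplicative.toAdd.injective
    rw [toAdd_pow, nsmul_eq_mul]
    simp
  rw [this, map_one]

end model

/-- the valuation of the factorial -/
theorem val (p : ℕ) [hp : Fact p.Prime] (n : ℕ) :
    padicValNat p n.factorial = n / p + padicValNat p (n / p).factorial := by
  rw [← padicValNat_mul_div_factorial, padicValNat_factorial_mul, add_comm]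

theorem equivX (p : ℕ) [hp : Fact p.Prime] (n : ℕ) : Nonempty (X p (n / p) (n % p) ≃ Fin n) := by
  haveI : NeZero p := ⟨hp.out.ne_zero⟩
  refine ⟨Fintype.equivFinOfCardEq ?_⟩
  rw [Fintype.card_sum, Fintype.card_prod, Fintype.card_fin, Fintype.card_fin, ZMod.card,
    Nat.div_add_mod']

theorem gd_sym (p : ℕ) [hp : Fact p.Prime] (n : ℕ) : ∀ (P : Sylow p (Perm (Fin n))),
    Gd p (P : Subgroup (Perm (Fin n))) := by
  haveI : NeZero p := ⟨hp.out.ne_zero⟩
  induction n using Nat.strong_induction_on with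
  | _ n ih =>
  intro P
  by_cases hn : n = 0
  · subst hn
    intro x _
    rw [Subsingleton.elim (x ^ p) 1]
    exact one_mem _
  have hlt : n / p < n := Nat.div_lt_self (Nat.pos_of_ne_zero hn) hp.out.one_lt
  obtain ⟨T⟩ : Nonempty (Sylow p (Perm (Fin (n / p)))) := inferInstance
  have hT := ih _ hlt T
  obtain ⟨e⟩ := equivX p n
  have hcX : Nat.card (Perm (X p (n / p) (n % p))) = n.factorial := by
    rw [Nat.card_perm, Nat.card_congr e, Nat.card_fin]
  obtain ⟨P₀, hP₀⟩ := exists_sylow (p := p) (fE (p := p) (n / p) (n % p)).range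
    ((T : Subgroup _).map (gT (p := p) (n / p) (n % p))) (normalizes _ _ _) (disjoint _ _ _) (by
      rw [card_E, card_T, T.card_eq_multiplicity, hcX, Nat.card_perm, Nat.card_fin,
        Nat.factorization_def _ hp.out, Nat.factorization_def _ hp.out, val p n, pow_add])
  apply gd_sylow_of_equiv e.permCongrHom P₀ _ P
  rw [hP₀]
  set E := (fE (p := p) (n / p) (n % p)).range with hE
  set T' := (T : Subgroup _).map (gT (p := p) (n / p) (n % p)) with hT'
  refine gd_of_gen ((E : Set _) ∪ T') ?_ ?_ ?_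
  · rintro s (hs | hs)
    · exact (le_sup_left : E ≤ E ⊔ T') hs
    · exact (le_sup_right : T' ≤ E ⊔ T') hs
  · rw [Subgroup.closure_union, Subgroup.closure_eq, Subgroup.closure_eq]
  · rintro s (hs | hs)
    · rw [pow_E _ _ hs]; exact one_mem _
    · have h1 := gd_map (gT (p := p) (n / p) (n % p)) hT s hs
      exact Subgroup.commutator_mono le_sup_right le_sup_right h1

/-! ### alternating groups -/

theorem gd_alt_odd (p : ℕ) [hp : Fact p.Prime] (hp2 : p ≠ 2) (n : ℕ)
    (Q : Sylow p (alternatingGroup (Fin n))) : Gd p (Q : Subgroup (alternatingGroup (Fin n))) := by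
  obtain ⟨P⟩ : Nonempty (Sylow p (Perm (Fin n))) := inferInstance
  have hle : (P : Subgroup (Perm (Fin n))) ≤ alternatingGroup (Fin n) := by
    intro x hx
    rw [Equiv.Perm.mem_alternatingGroup]
    obtain ⟨k, hk⟩ := P.2 ⟨x, hx⟩
    have h1 : x ^ p ^ k = 1 := congrArg Subtype.val hk
    have h2 : (Equiv.Perm.sign x) ^ p ^ k = 1 := by rw [← map_pow, h1, map_one]
    rcases Int.units_eq_one_or (Equiv.Perm.sign x) with h3 | h3
    · exact h3
    · rw [h3, Odd.neg_one_pow ((hp.out.odd_of_ne_two hp2).pow)] at h2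
      exact absurd h2 (by decide)
  apply result_of' (P.subtype hle) _ Q
  show Gd p ((P : Subgroup (Perm (Fin n))).subgroupOf (alternatingGroup (Fin n)))
  exact gd_subgroupOf hle (gd_sym p n P)

theorem sign_gT (m r : ℕ) (σ : Perm (Fin m)) : Perm.sign (gT (p := 2) m r σ) = 1 := by
  have h1 : gT (p := 2) m r σ = Equiv.sumCongr (Equiv.prodCongrLeft fun _ : ZMod 2 => σ) (1 : Perm (Fin r)) := by
    apply Equiv.ext
    rintro (⟨i, z⟩ | j) <;> rfl
  rw [h1, Perm.sign_sumCongr, Perm.sign_prodCongrLeft, Perm.sign_one, mul_one, Finset.prod_const,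
    Finset.card_univ, ZMod.card, Int.units_sq]

theorem sign_fE (m r : ℕ) (i : Fin m) :
    Perm.sign (fE (p := 2) m r (Pi.mulSingle i (Multiplicative.ofAdd 1))) = -1 := by
  have h1 : fE (p := 2) m r (Pi.mulSingle i (Multiplicative.ofAdd 1)) =
      Equiv.swap (Sum.inl (i, 0)) (Sum.inl (i, 1)) := by
    apply Equiv.ext
    rintro (⟨j, z⟩ | j)
    · rw [fE_inl]
      by_cases hj : j = i
      · subst hj
        rw [Pi.mulSingle_eq_same]
        have hz : z = 0 ∨ z = 1 := by
          revert z; decide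
        rcases hz with rfl | rfl
        · rw [Equiv.swap_apply_left]; rfl
        · rw [Equiv.swap_apply_right]; rfl
      · rw [Pi.mulSingle_eq_of_ne hj, Equiv.swap_apply_of_ne_of_ne]
        · simp
        · intro h; exact hj (Prod.mk.inj (Sum.inl.inj h)).1
        · intro h; exact hj (Prod.mk.inj (Sum.inl.inj h)).1
    · rw [fE_inr, Equiv.swap_apply_of_ne_of_ne] <;> exact Sum.inr_ne_inl
  rw [h1, Perm.sign_swap]
  intro h
  exact absurd (Prod.mk.inj (Sum.inl.inj h)).2 (by decide)

theorem gd_alt_two (n : ℕ) (Q : Sylow 2 (alternatingGroup (Fin n))) :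
    Gd 2 (Q : Subgroup (alternatingGroup (Fin n))) := by
  haveI : Fact (Nat.Prime 2) := ⟨Nat.prime_two⟩
  by_cases hn : n ≤ 1
  · intro x _
    have : Subsingleton (Perm (Fin n)) := by
      have : Subsingleton (Fin n) := Fin.subsingleton_iff_le_one.2 hn
      infer_instance
    have h1 : x ^ 2 = 1 := Subtype.ext (Subsingleton.elim _ _)
    rw [h1]; exact one_mem _
  push Not at hn
  set m := n / 2 with hm
  set r := n % 2 with hr
  have hm1 : 1 ≤ m := by omega
  obtain ⟨T⟩ : Nonempty (Sylow 2 (Perm (Fin m))) := inferInstance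
  have hT := gd_sym 2 m T
  obtain ⟨e⟩ := equivX 2 n
  have h01 : (0 : ZMod 2) ≠ 1 := zero_ne_one
  haveI : Nontrivial (X 2 m r) := ⟨Sum.inl (⟨0, hm1⟩, 0), Sum.inl (⟨0, hm1⟩, 1), fun h =>
    h01 (Prod.mk.inj (Sum.inl.inj h)).2⟩
  set A := alternatingGroup (X 2 m r) with hA
  set E := (fE (p := 2) m r).range with hE
  set T' := (T : Subgroup _).map (gT (p := 2) m r) with hT'
  have hT'A : T' ≤ A := by
    rintro _ ⟨σ, _, rfl⟩
    exact Equiv.Perm.mem_alternatingGroup.2 (sign_gT m r σ)
  -- the order of E ∩ A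
  have hcE : 2 * Nat.card (E.subgroupOf A) = 2 ^ m := by
    have h1 : Nat.card (E ⊓ A : Subgroup _) = Nat.card (E.subgroupOf A) := by
      have h2 : (E.subgroupOf A).map A.subtype = E ⊓ A := Subgroup.subgroupOf_map_subtype _ _
      rw [← h2]
      exact (Nat.card_congr ((E.subgroupOf A).equivMapOfInjective _ A.subtype_injective).toEquiv).symm
    have h3 : A.relIndex E = 2 := by
      have h4 : A.relIndex E ∣ 2 := by
        have h5 := Subgroup.relIndex_dvd_index_of_normal A E
        have h6 : A.index = 2 := alternatingGroup.index_eq_two (α := X 2 m r)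
        rwa [h6] at h5
      rcases (Nat.dvd_prime Nat.prime_two).1 h4 with h5 | h5
      · exfalso
        have h6 : fE (p := 2) m r (Pi.mulSingle ⟨0, hm1⟩ (Multiplicative.ofAdd 1)) ∈ A :=
          Subgroup.relIndex_eq_one.1 h5 ⟨_, rfl⟩
        rw [hA, Equiv.Perm.mem_alternatingGroup, sign_fE] at h6
        exact absurd h6 (by decide)
      · exact h5
    have h7 := H28.RelSyl.relIndex_mul_card (inf_le_left : E ⊓ A ≤ E)
    rw [Subgroup.inf_relIndex_left, h3, h1] at h7
    rw [h7, hE, card_E]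
  have hcX : 2 * Nat.card A = n.factorial := by
    rw [two_mul_nat_card_alternatingGroup, Nat.card_perm, Nat.card_congr e, Nat.card_fin]
  have hv : (Nat.card A).factorization 2 + 1 = m + padicValNat 2 m.factorial := by
    have h1 := val 2 n
    rw [← hcX, padicValNat.mul two_ne_zero Nat.card_pos.ne', padicValNat_self, ← hm] at h1
    rw [Nat.factorization_def _ Nat.prime_two]
    omega
  obtain ⟨P₀, hP₀⟩ := exists_sylow (p := 2) (E.subgroupOf A) (T'.subgroupOf A) (by
      intro x hx
      rw [mem_normalizer_iff]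
      intro y
      have h1 := (mem_normalizer_iff.1 (normalizes (p := 2) m r (T : Subgroup _)
        (Subgroup.mem_subgroupOf.1 hx))) (y : Perm (X 2 m r))
      exact h1) (by
      rw [eq_bot_iff]
      rintro x ⟨hx1, hx2⟩
      have h1 : (x : Perm (X 2 m r)) ∈ E ⊓ T' := ⟨hx1, hx2⟩
      rw [hE, hT', disjoint, mem_bot] at h1
      exact mem_bot.2 (Subtype.ext h1)) (by
      have h1 : Nat.card (T'.subgroupOf A) = Nat.card T := by
        rw [Nat.card_congr (Subgroup.subgroupOfEquivOfLe hT'A).toEquiv, hT', card_T]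
      have h2 : Nat.card T = 2 ^ padicValNat 2 m.factorial := by
        rw [T.card_eq_multiplicity, Nat.card_perm, Nat.card_fin, Nat.factorization_def _ Nat.prime_two]
      have h3 : 2 * (Nat.card (E.subgroupOf A) * Nat.card (T'.subgroupOf A)) =
          2 * 2 ^ (Nat.card A).factorization 2 := by
        rw [← mul_assoc, hcE, h1, h2, ← pow_add, ← hv, pow_succ, mul_comm]
      exact Nat.eq_of_mul_eq_mul_left two_pos h3)
  apply gd_sylow_of_equiv (Equiv.altCongrHom e) P₀ _ Q
  rw [hP₀]
  refine gd_of_gen (((E.subgroupOf A : Subgroup A) : Set A) ∪ (T'.subgroupOf A : Subgroup A)) ?_ ?_ ?_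
  · rintro s (hs | hs)
    · exact (le_sup_left : E.subgroupOf A ≤ _) hs
    · exact (le_sup_right : T'.subgroupOf A ≤ _) hs
  · rw [Subgroup.closure_union, Subgroup.closure_eq, Subgroup.closure_eq]
  · rintro s (hs | hs)
    · have h1 : s ^ 2 = 1 := Subtype.ext (pow_E (p := 2) m r (Subgroup.mem_subgroupOf.1 hs))
      rw [h1]; exact one_mem _
    · have h1 := gd_subgroupOf hT'A (gd_map (gT (p := 2) m r) hT) s hs
      exact Subgroup.commutator_mono le_sup_right le_sup_right h1

end H79.SylSym
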