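import Cfsg.Agent.Lib.H79.SylElem

/-! Kernels of product characters on `D^ι × C`: order, generation, and elementary abelian
abelianization. -/

set_option autoImplicit false
set_option linter.unusedSectionVars false
set_option linter.style.haveILetI false

namespace H79.WrGd

open Subgroup H79.SylElem
open scoped commutatorElement

universe u v

section ker

variable {ι : Type*} [Fintype ι] [DecidableEq ι] {A B K : Type*} [Group A] [Group B] [CommGroup K]
  (θ : A →* K) (θ' : B →* K) (D : Subgroup A) (C : Subgroup B)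

/-- the product character -/
def chi : (ι → A) × B →* K where
  toFun x := (∏ i, θ (x.1 i)) * θ' x.2
  map_one' := by simp
  map_mul' x y := by
    simp only [Prod.fst_mul, Prod.snd_mul, Pi.mul_apply, map_mul, Finset.prod_mul_distrib]
    exact mul_mul_mul_comm _ _ _ _

theorem chi_apply (x : (ι → A) × B) : chi θ θ' x = (∏ i, θ (x.1 i)) * θ' x.2 := rfl

theorem chi_single (i : ι) (g : A) (y : B) :
    chi θ θ' ((Pi.mulSingle i g : ι → A), y) = θ g * θ' y := by
  rw [chi_apply]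
  congr 1
  rw [Finset.prod_eq_single i]
  · simp
  · intro j _ hj
    simp [Pi.mulSingle_eq_of_ne hj]
  · simp

/-- the full product `D^ι × C` -/
def full : Subgroup ((ι → A) × B) := (Subgroup.pi Set.univ fun _ => D).prod C

theorem mem_full (x : (ι → A) × B) : x ∈ full (ι := ι) D C ↔ (∀ i, x.1 i ∈ D) ∧ x.2 ∈ C := by
  rw [full, Subgroup.mem_prod, Subgroup.mem_pi]
  simp

theorem single_mem_full (i : ι) {g : A} (hg : g ∈ D) {y : B} (hy : y ∈ C) :
    ((Pi.mulSingle i g : ι → A), y) ∈ full (ι := ι) D C := by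
  rw [mem_full]
  refine ⟨fun j => ?_, hy⟩
  rcases eq_or_ne j i with rfl | h
  · simpa using hg
  · simp only [Pi.mulSingle_eq_of_ne h]
    exact one_mem _

theorem card_full [Finite A] [Finite B] :
    Nat.card (full (ι := ι) D C) = Nat.card D ^ Fintype.card ι * Nat.card C := by
  have e : full (ι := ι) D C ≃ (ι → D) × C :=
    { toFun := fun x => (fun i => ⟨x.1.1 i, ((mem_full D C _).1 x.2).1 i⟩, ⟨x.1.2, ((mem_full D C _).1 x.2).2⟩)
      invFun := fun x => ⟨(fun i => (x.1 i : A), (x.2 : B)), (mem_full D C _).2 ⟨fun i => (x.1 i).2, x.2.2⟩⟩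
      left_inv := fun x => rfl
      right_inv := fun x => rfl }
  rw [Nat.card_congr e, Nat.card_prod, Nat.card_pi, Finset.prod_const, Finset.card_univ]

/-- kernel of the product character in `D^ι × C` -/
def E0 : Subgroup ((ι → A) × B) := full (ι := ι) D C ⊓ (chi θ θ').ker

theorem mem_E0 (x : (ι → A) × B) :
    x ∈ E0 (ι := ι) θ θ' D C ↔ ((∀ i, x.1 i ∈ D) ∧ x.2 ∈ C) ∧ chi θ θ' x = 1 := by
  rw [E0, mem_inf, mem_full, MonoidHom.mem_ker]

theorem card_E0 [Finite A] [Finite B] (n : ℕ)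
    (hn : Nat.card ((full (ι := ι) D C).map (chi θ θ')) = n) :
    n * Nat.card (E0 (ι := ι) θ θ' D C) = Nat.card D ^ Fintype.card ι * Nat.card C := by
  haveI : Finite ((ι → A) × B) := inferInstance
  rw [← card_full (ι := ι) D C, ← hn]
  have h1 := ((chi θ θ').comp (full (ι := ι) D C).subtype).ker.card_mul_index
  rw [Subgroup.index_ker] at h1
  have h2 : ((chi θ θ').comp (full (ι := ι) D C).subtype).range = (full (ι := ι) D C).map (chi θ θ') := by
    rw [MonoidHom.range_comp, Subgroup.range_subtype]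
  have h3 : ((chi θ θ').comp (full (ι := ι) D C).subtype).ker.map (full (ι := ι) D C).subtype =
      E0 (ι := ι) θ θ' D C := by
    ext x
    rw [E0, mem_inf]
    constructor
    · rintro ⟨y, hy, rfl⟩
      exact ⟨y.2, hy⟩
    · rintro ⟨h4, h5⟩
      exact ⟨⟨x, h4⟩, h5, rfl⟩
  have h4 : Nat.card (E0 (ι := ι) θ θ' D C) =
      Nat.card ((chi θ θ').comp (full (ι := ι) D C).subtype).ker := by
    rw [← h3]
    exact (Nat.card_congr (Subgroup.equivMapOfInjective _ (full (ι := ι) D C).subtype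
      (subtype_injective _)).toEquiv).symm
  rw [h4, ← h2, mul_comm, h1]

/-- generation of the kernel -/
theorem E0_le (i₀ : ι) (X : Set A) (hX : X ⊆ D) (hgen : D ≤ closure X) (Y : Set B)
    (hgenY : C ≤ closure Y) (H : Subgroup ((ι → A) × B))
    (h1 : ∀ n ∈ D, θ n = 1 → ((Pi.mulSingle i₀ n : ι → A), (1 : B)) ∈ H)
    (h2 : ∀ g ∈ X, ∀ i, i ≠ i₀ →
      ((Pi.mulSingle i g * Pi.mulSingle i₀ g⁻¹ : ι → A), (1 : B)) ∈ H)
    (h3 : ∀ y ∈ Y, ∃ g ∈ D, θ g * θ' y = 1 ∧ ((Pi.mulSingle i₀ g : ι → A), y) ∈ H) :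
    E0 (ι := ι) θ θ' D C ≤ H := by
  have hcomm : ∀ i, i ≠ i₀ → ∀ a b : A, (Pi.mulSingle i a * Pi.mulSingle i₀ b : ι → A) =
      Pi.mulSingle i₀ b * Pi.mulSingle i a := fun i hi a b =>
    (Pi.mulSingle_commute (f := fun _ : ι => A) hi a b)
  -- step a
  have ha : ∀ i, i ≠ i₀ → ∀ g ∈ D, ((Pi.mulSingle i g * Pi.mulSingle i₀ g⁻¹ : ι → A), (1 : B)) ∈ H := by
    intro i hi g hg
    have hg' := hgen hg
    have key : g ∈ D ∧ ((Pi.mulSingle i g * Pi.mulSingle i₀ g⁻¹ : ι → A), (1 : B)) ∈ H := by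
      refine closure_induction (p := fun g _ => g ∈ D ∧
        ((Pi.mulSingle i g * Pi.mulSingle i₀ g⁻¹ : ι → A), (1 : B)) ∈ H) ?_ ?_ ?_ ?_ hg'
      · intro x hx
        exact ⟨hX hx, h2 x hx i hi⟩
      · refine ⟨one_mem _, ?_⟩
        rw [inv_one, Pi.mulSingle_one, Pi.mulSingle_one, one_mul]
        exact one_mem _
      · intro x y _ _ hx hy
        refine ⟨mul_mem hx.1 hy.1, ?_⟩
        have e1 : ((Pi.mulSingle i (x * y) * Pi.mulSingle i₀ (x * y)⁻¹ : ι → A), (1 : B)) =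
            ((Pi.mulSingle i x * Pi.mulSingle i₀ x⁻¹ : ι → A), (1 : B)) *
            ((Pi.mulSingle i y * Pi.mulSingle i₀ y⁻¹ : ι → A), (1 : B)) *
            ((Pi.mulSingle i₀ (y * x * y⁻¹ * x⁻¹) : ι → A), (1 : B)) := by
          refine Prod.ext ?_ (by simp)
          simp only [Prod.fst_mul]
          have e2 : (Pi.mulSingle i x * Pi.mulSingle i₀ x⁻¹ : ι → A) * (Pi.mulSingle i y * Pi.mulSingle i₀ y⁻¹) =
              (Pi.mulSingle i x * Pi.mulSingle i y) * (Pi.mulSingle i₀ x⁻¹ * Pi.mulSingle i₀ y⁻¹) := by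
            rw [mul_assoc, ← mul_assoc (Pi.mulSingle i₀ x⁻¹ : ι → A), ← hcomm i hi, mul_assoc, ← mul_assoc]
          rw [e2, mul_assoc, ← Pi.mulSingle_mul, ← Pi.mulSingle_mul, ← Pi.mulSingle_mul]
          congr 2
          group
        rw [e1]
        refine mul_mem (mul_mem hx.2 hy.2) (h1 _ ?_ ?_)
        · exact mul_mem (mul_mem (mul_mem hy.1 hx.1) (inv_mem hy.1)) (inv_mem hx.1)
        · simp only [map_mul, map_inv]
          rw [mul_comm (θ y) (θ x), mul_assoc (θ x), mul_inv_cancel, mul_one, mul_inv_cancel]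
      · intro x _ hx
        refine ⟨inv_mem hx.1, ?_⟩
        have e1 : ((Pi.mulSingle i x⁻¹ * Pi.mulSingle i₀ (x⁻¹)⁻¹ : ι → A), (1 : B)) =
            ((Pi.mulSingle i x * Pi.mulSingle i₀ x⁻¹ : ι → A), (1 : B))⁻¹ := by
          refine Prod.ext ?_ (by simp)
          simp only [Prod.fst_inv]
          rw [mul_inv_rev, ← Pi.mulSingle_inv, ← Pi.mulSingle_inv, hcomm i hi]
        rw [e1]
        exact inv_mem hx.2
    exact key.2
  -- step b
  have hb : ∀ s : Finset ι, i₀ ∉ s → ∀ f : ι → A, (∀ i, f i ∈ D) → (∀ i, i ∉ s → i ≠ i₀ → f i = 1) →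
      ∏ i, θ (f i) = 1 → (f, (1 : B)) ∈ H := by
    intro s
    induction s using Finset.induction_on with
    | empty =>
      intro _ f hf hs hθ
      have e1 : f = Pi.mulSingle i₀ (f i₀) := by
        funext j
        rcases eq_or_ne j i₀ with rfl | h
        · simp
        · rw [Pi.mulSingle_eq_of_ne h]
          exact hs j (Finset.notMem_empty j) h
      rw [e1]
      refine h1 _ (hf i₀) ?_
      rw [Finset.prod_eq_single i₀] at hθ
      · exact hθ
      · intro j _ hj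
        rw [hs j (Finset.notMem_empty j) hj, map_one]
      · simp
    | insert i s his ih =>
      intro hi₀ f hf hs hθ
      have hi : i ≠ i₀ := fun h => hi₀ (h ▸ Finset.mem_insert_self _ _)
      have hi₀s : i₀ ∉ s := fun h => hi₀ (Finset.mem_insert_of_mem h)
      set e : ι → A := Pi.mulSingle i (f i) * Pi.mulSingle i₀ (f i)⁻¹ with he
      have hei : e i = f i := by
        rw [he, Pi.mul_apply, Pi.mulSingle_eq_same, Pi.mulSingle_eq_of_ne hi, mul_one]
      have hei₀ : e i₀ = (f i)⁻¹ := by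
        rw [he, Pi.mul_apply, Pi.mulSingle_eq_same, Pi.mulSingle_eq_of_ne hi.symm, one_mul]
      have hej : ∀ j, j ≠ i → j ≠ i₀ → e j = 1 := by
        intro j h1 h2
        rw [he, Pi.mul_apply, Pi.mulSingle_eq_of_ne h1, Pi.mulSingle_eq_of_ne h2, one_mul]
      have heD : ∀ j, e j ∈ D := by
        intro j
        by_cases h1 : j = i
        · rw [h1, hei]; exact hf i
        · by_cases h2 : j = i₀
          · rw [h2, hei₀]; exact inv_mem (hf i)
          · rw [hej j h1 h2]; exact one_mem _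
      have h5 := ih hi₀s (e⁻¹ * f) (fun j => mul_mem (inv_mem (heD j)) (hf j)) ?_ ?_
      · have h6 := mul_mem (ha i hi (f i) (hf i)) h5
        have e1 : ((Pi.mulSingle i (f i) * Pi.mulSingle i₀ (f i)⁻¹ : ι → A), (1 : B)) * (e⁻¹ * f, (1 : B)) =
            (f, (1 : B)) := by
          refine Prod.ext ?_ (by simp)
          show e * (e⁻¹ * f) = f
          group
        rwa [e1] at h6
      · intro j hj hj₀
        rw [Pi.mul_apply, Pi.inv_apply]
        by_cases h1 : j = i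
        · rw [h1, hei, inv_mul_cancel]
        · rw [hej j h1 hj₀, inv_one, one_mul]
          exact hs j (by rw [Finset.mem_insert]; tauto) hj₀
      · have e1 : ∏ j, θ ((e⁻¹ * f) j) = (∏ j, θ (e j))⁻¹ * ∏ j, θ (f j) := by
          simp only [Pi.mul_apply, Pi.inv_apply, map_mul, map_inv, Finset.prod_mul_distrib,
            Finset.prod_inv_distrib]
        rw [e1, hθ, mul_one, inv_eq_one]
        have e2 : ∏ j, θ (e j) = chi θ (1 : Unit →* K) (e, ()) := by
          rw [chi_apply]; simp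
        rw [e2, he]
        have e3 : ((Pi.mulSingle i (f i) * Pi.mulSingle i₀ (f i)⁻¹ : ι → A), ()) =
            ((Pi.mulSingle i (f i) : ι → A), ()) * ((Pi.mulSingle i₀ (f i)⁻¹ : ι → A), ()) := rfl
        rw [e3, map_mul, chi_single, chi_single]
        simp
  -- step c
  have hc : ∀ x ∈ C, ∃ g ∈ D, θ g * θ' x = 1 ∧ ((Pi.mulSingle i₀ g : ι → A), x) ∈ H := by
    intro x hx
    refine closure_induction (p := fun x _ => ∃ g ∈ D, θ g * θ' x = 1 ∧
      ((Pi.mulSingle i₀ g : ι → A), x) ∈ H) ?_ ?_ ?_ ?_ (hgenY hx)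
    · intro y hy
      exact h3 y hy
    · refine ⟨1, one_mem _, by simp, ?_⟩
      rw [Pi.mulSingle_one]
      exact one_mem _
    · rintro x y _ _ ⟨g, hg, h4, h5⟩ ⟨g', hg', h4', h5'⟩
      refine ⟨g * g', mul_mem hg hg', ?_, ?_⟩
      · rw [map_mul, map_mul, mul_mul_mul_comm, h4, h4', one_mul]
      · rw [Pi.mulSingle_mul]
        exact mul_mem h5 h5'
    · rintro x _ ⟨g, hg, h4, h5⟩
      refine ⟨g⁻¹, inv_mem hg, ?_, ?_⟩
      · rw [map_inv, map_inv, ← mul_inv, h4, inv_one]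
      · rw [Pi.mulSingle_inv]
        exact inv_mem h5
  intro x hx
  obtain ⟨⟨h4, h5⟩, h6⟩ := (mem_E0 θ θ' D C x).1 hx
  obtain ⟨g, hg, h7, h8⟩ := hc x.2 h5
  have h9 := hb (Finset.univ.erase i₀) (Finset.notMem_erase _ _) (x.1 * (Pi.mulSingle i₀ g)⁻¹) ?_ ?_ ?_
  · have h10 := mul_mem h9 h8
    have e1 : (x.1 * (Pi.mulSingle i₀ g : ι → A)⁻¹, (1 : B)) * ((Pi.mulSingle i₀ g : ι → A), x.2) = x := by
      refine Prod.ext ?_ (by simp)
      show x.1 * (Pi.mulSingle i₀ g : ι → A)⁻¹ * Pi.mulSingle i₀ g = x.1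
      group
    rwa [e1] at h10
  · intro i
    rw [Pi.mul_apply, Pi.inv_apply]
    rcases eq_or_ne i i₀ with rfl | h
    · simp only [Pi.mulSingle_eq_same]
      exact mul_mem (h4 i) (inv_mem hg)
    · rw [Pi.mulSingle_eq_of_ne h, inv_one, mul_one]
      exact h4 i
  · intro i hi hi'
    exact absurd (Finset.mem_erase.2 ⟨hi', Finset.mem_univ i⟩) hi
  · have e1 : ∏ j, θ ((x.1 * (Pi.mulSingle i₀ g : ι → A)⁻¹) j) =
        chi θ θ' (x * ((Pi.mulSingle i₀ g : ι → A), x.2)⁻¹) := by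
      rw [chi_apply]
      simp
    rw [e1, map_mul, map_inv, h6, chi_single, h7]
    simp

/-- `Gd` for the kernel -/
theorem gd_E0 {p : ℕ} (i₀ : ι) (X : Set A) (hX : X ⊆ D) (hgen : D ≤ closure X) (Y : Set B)
    (hY : Y ⊆ C) (hgenY : C ≤ closure Y)
    (h1 : ∀ n ∈ D, θ n = 1 → ((Pi.mulSingle i₀ (n ^ p) : ι → A), (1 : B)) ∈
      ⁅E0 (ι := ι) θ θ' D C, E0 (ι := ι) θ θ' D C⁆)
    (h2 : ∀ g ∈ X, ∀ i, i ≠ i₀ →
      ((Pi.mulSingle i (g ^ p) * Pi.mulSingle i₀ (g ^ p)⁻¹ : ι → A), (1 : B)) ∈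
      ⁅E0 (ι := ι) θ θ' D C, E0 (ι := ι) θ θ' D C⁆)
    (h3 : ∀ y ∈ Y, ∃ g ∈ D, θ g * θ' y = 1 ∧ ((Pi.mulSingle i₀ (g ^ p) : ι → A), y ^ p) ∈
      ⁅E0 (ι := ι) θ θ' D C, E0 (ι := ι) θ θ' D C⁆) :
    Gd p (E0 (ι := ι) θ θ' D C) := by
  choose! G₀ hG₀ using h3
  let S : Set ((ι → A) × B) := {x | ∃ n ∈ D, θ n = 1 ∧ x = ((Pi.mulSingle i₀ n : ι → A), (1 : B))} ∪
    {x | ∃ g ∈ X, ∃ i, i ≠ i₀ ∧ x = ((Pi.mulSingle i g * Pi.mulSingle i₀ g⁻¹ : ι → A), (1 : B))} ∪
    {x | ∃ y ∈ Y, x = ((Pi.mulSingle i₀ (G₀ y) : ι → A), y)}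
  refine gd_of_gen S ?_ ?_ ?_
  · rintro _ ((⟨n, hn, hn1, rfl⟩ | ⟨g, hg, i, hi, rfl⟩) | ⟨y, hy, rfl⟩)
    · refine ⟨single_mem_full D C i₀ hn (one_mem _), ?_⟩
      show _ ∈ (chi θ θ').ker
      rw [MonoidHom.mem_ker, chi_single, hn1, map_one, one_mul]
    · have e3 : ((Pi.mulSingle i g * Pi.mulSingle i₀ g⁻¹ : ι → A), (1 : B)) =
            ((Pi.mulSingle i g : ι → A), (1 : B)) * ((Pi.mulSingle i₀ g⁻¹ : ι → A), (1 : B)) := by
        refine Prod.ext rfl (by simp)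
      rw [e3]
      refine ⟨mul_mem (single_mem_full D C i (hX hg) (one_mem _))
        (single_mem_full D C i₀ (inv_mem (hX hg)) (one_mem _)), ?_⟩
      show _ ∈ (chi θ θ').ker
      rw [MonoidHom.mem_ker, map_mul, chi_single, chi_single]
      simp
    · refine ⟨single_mem_full D C i₀ (hG₀ y hy).1 (hY hy), ?_⟩
      show _ ∈ (chi θ θ').ker
      rw [MonoidHom.mem_ker, chi_single]
      exact (hG₀ y hy).2.1
  · apply E0_le θ θ' D C i₀ X hX hgen Y hgenY
    · intro n hn hn1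
      exact subset_closure (Or.inl (Or.inl ⟨n, hn, hn1, rfl⟩))
    · intro g hg i hi
      exact subset_closure (Or.inl (Or.inr ⟨g, hg, i, hi, rfl⟩))
    · intro y hy
      exact ⟨G₀ y, (hG₀ y hy).1, (hG₀ y hy).2.1, subset_closure (Or.inr ⟨y, hy, rfl⟩)⟩
  · rintro _ ((⟨n, hn, hn1, rfl⟩ | ⟨g, hg, i, hi, rfl⟩) | ⟨y, hy, rfl⟩)
    · have e1 : ((Pi.mulSingle i₀ n : ι → A), (1 : B)) ^ p = ((Pi.mulSingle i₀ (n ^ p) : ι → A), (1 : B)) := by
        refine Prod.ext ?_ (by simp)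
        simp only [Prod.pow_fst]
        rw [Pi.mulSingle_pow]
      rw [e1]
      exact h1 n hn hn1
    · have e1 : ((Pi.mulSingle i g * Pi.mulSingle i₀ g⁻¹ : ι → A), (1 : B)) ^ p =
          ((Pi.mulSingle i (g ^ p) * Pi.mulSingle i₀ (g ^ p)⁻¹ : ι → A), (1 : B)) := by
        refine Prod.ext ?_ (by simp)
        simp only [Prod.pow_fst]
        rw [(Pi.mulSingle_commute (f := fun _ : ι => A) hi g g⁻¹).mul_pow, Pi.mulSingle_pow, ← inv_pow,
          Pi.mulSingle_pow]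
      rw [e1]
      exact h2 g hg i hi
    · have e1 : ((Pi.mulSingle i₀ (G₀ y) : ι → A), y) ^ p =
          ((Pi.mulSingle i₀ (G₀ y ^ p) : ι → A), y ^ p) := by
        refine Prod.ext ?_ (by simp)
        simp only [Prod.pow_fst]
        rw [Pi.mulSingle_pow]
      rw [e1]
      exact (hG₀ y hy).2.2

end ker

end H79.WrGd
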