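import Cfsg.Agent.Lib.H79.WrSyl
import Cfsg.Agent.Lib.H79.ValQ
import Cfsg.Agent.Lib.H6.SL2Tor

/-! `Gd` for kernels whose base kernel has `Gd`; Sylow 2-subgroups of `SL_2(q)`. -/

set_option autoImplicit false
set_option linter.unusedSectionVars false
set_option linter.style.haveILetI false

namespace H79.WrKer

open Subgroup H79.SylElem H79.WrGd H79.WrSyl
open scoped commutatorElement

section ker

variable {ι : Type*} [Fintype ι] [DecidableEq ι] {A B K : Type*} [Group A] [Group B] [CommGroup K]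
  (θ : A →* K) (θ' : B →* K) (D : Subgroup A) (C : Subgroup B)

/-- the embedding of a factor -/
def sgl (i : ι) : A →* (ι → A) × B := (MonoidHom.inl (ι → A) B).comp (MonoidHom.mulSingle (fun _ => A) i)

theorem sgl_apply (i : ι) (a : A) : sgl (B := B) i a = ((Pi.mulSingle i a : ι → A), (1 : B)) := rfl

theorem sgl_mem {i : ι} {n : A} (hn : n ∈ D) (hn1 : θ n = 1) : sgl i n ∈ E0 (ι := ι) θ θ' D C := by
  refine ⟨single_mem_full D C i hn (one_mem _), ?_⟩
  show _ ∈ (chi θ θ').ker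
  rw [MonoidHom.mem_ker, sgl_apply, chi_single, hn1, map_one, one_mul]

theorem sgl_comm {i : ι} {N : Subgroup A} (hN : N ≤ D ⊓ θ.ker) {x : A} (hx : x ∈ ⁅N, N⁆) :
    ((Pi.mulSingle i x : ι → A), (1 : B)) ∈ ⁅E0 (ι := ι) θ θ' D C, E0 (ι := ι) θ θ' D C⁆ := by
  have h1 : N.map (sgl (B := B) i) ≤ E0 (ι := ι) θ θ' D C := by
    rintro _ ⟨n, hn, rfl⟩
    exact sgl_mem θ θ' D C (hN hn).1 (hN hn).2
  have h2 : (⁅N, N⁆).map (sgl (B := B) i) ≤ ⁅E0 (ι := ι) θ θ' D C, E0 (ι := ι) θ θ' D C⁆ := by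
    rw [Subgroup.map_commutator]
    exact commutator_mono h1 h1
  exact h2 ⟨x, hx, rfl⟩

theorem gd_E0_of_ker {p : ℕ} (i₀ : ι) (hN : Gd p (D ⊓ θ.ker)) (X : Set A) (hX : X ⊆ D)
    (hXp : ∀ x ∈ X, x ^ p = 1) (hgen : D ≤ closure (((D ⊓ θ.ker : Subgroup A) : Set A) ∪ X))
    (Y : Set B) (hY : Y ⊆ C) (hgenY : C ≤ closure Y)
    (h3 : ∀ y ∈ Y, y ^ p = 1 ∧ ∃ g ∈ D, g ^ p = 1 ∧ θ g * θ' y = 1) :
    Gd p (E0 (ι := ι) θ θ' D C) := by
  apply gd_E0 θ θ' D C i₀ (((D ⊓ θ.ker : Subgroup A) : Set A) ∪ X)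
    (Set.union_subset (fun x hx => hx.1) hX) hgen Y hY hgenY
  · intro n hn hn1
    exact sgl_comm θ θ' D C le_rfl (hN n ⟨hn, hn1⟩)
  · rintro g (hg | hg) i hi
    · have e1 : ((Pi.mulSingle i (g ^ p) * Pi.mulSingle i₀ (g ^ p)⁻¹ : ι → A), (1 : B)) =
          ((Pi.mulSingle i (g ^ p) : ι → A), (1 : B)) * ((Pi.mulSingle i₀ (g ^ p)⁻¹ : ι → A), (1 : B)) :=
        Prod.ext rfl (by simp)
      rw [e1]
      exact mul_mem (sgl_comm θ θ' D C le_rfl (hN g hg))
        (sgl_comm θ θ' D C le_rfl (inv_mem (hN g hg)))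
    · rw [hXp g hg, inv_one, Pi.mulSingle_one, Pi.mulSingle_one, one_mul]
      exact one_mem _
  · intro y hy
    obtain ⟨h4, g, hg, hgp, hgy⟩ := h3 y hy
    refine ⟨g, hg, hgy, ?_⟩
    rw [hgp, h4, Pi.mulSingle_one]
    exact one_mem _

end ker

/-- generalized quaternion groups -/
theorem gd_quaternion {k : ℕ} (hk : 1 ≤ k) (x : QuaternionGroup (2 ^ k)) :
    x ^ 2 ∈ commutator (QuaternionGroup (2 ^ k)) := by
  have h1 : ∀ i : ZMod (2 * 2 ^ k), QuaternionGroup.a (2 * i) ∈ commutator (QuaternionGroup (2 ^ k)) := by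
    intro i
    have h2 : ⁅QuaternionGroup.a i, QuaternionGroup.xa 0⁆ = QuaternionGroup.a (2 * i) := by
      rw [commutatorElement_def, mul_inv_eq_iff_eq_mul, mul_inv_eq_iff_eq_mul]
      simp only [QuaternionGroup.a_mul_xa, QuaternionGroup.a_mul_a, QuaternionGroup.xa_mul_a]
      congr 1
      ring
    rw [← h2]
    exact commutator_mem_commutator (mem_top _) (mem_top _)
  rcases x with i | i
  · have h2 : (QuaternionGroup.a i : QuaternionGroup (2 ^ k)) ^ 2 = QuaternionGroup.a (2 * i) := by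
      rw [pow_two, QuaternionGroup.a_mul_a]; congr 1; ring
    rw [h2]
    exact h1 i
  · rw [QuaternionGroup.xa_sq]
    obtain ⟨j, rfl⟩ := Nat.exists_eq_add_of_le hk
    have h2 : (((2 ^ (1 + j) : ℕ) : ZMod (2 * 2 ^ (1 + j)))) = 2 * ((2 ^ j : ℕ) : ZMod (2 * 2 ^ (1 + j))) := by
      push_cast
      ring
    rw [h2]
    exact h1 _

open Matrix in
theorem gd_sl2 {F : Type*} [Field F] [Fintype F] (hF : Odd (Fintype.card F))
    (P : Sylow 2 (SpecialLinearGroup (Fin 2) F)) : Gd 2 (P : Subgroup (SpecialLinearGroup (Fin 2) F)) := by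
  obtain ⟨k, hk, ⟨e⟩⟩ := H6.SL2Tor.sl2_quaternion_sylow (H6.SL2Tor.two_ne_zero_of_odd hF) P
  rw [gd_iff]
  intro x
  exact gd_type_of_equiv e.symm (gd_quaternion hk) x

/-- 2-part of the order of a Sylow 2-subgroup of `SL_2(q)` -/
theorem val_sl2 {F : Type*} [Field F] [Fintype F] (hF : Odd (Fintype.card F)) :
    padicValNat 2 (Nat.card (Matrix.SpecialLinearGroup (Fin 2) F)) =
      padicValNat 2 (Fintype.card F ^ 2 - 1) := by
  haveI : Fact (Nat.Prime 2) := ⟨Nat.prime_two⟩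
  have hq1 : 1 < Fintype.card F := Fintype.one_lt_card
  have h1 := H6.SLCard.card_sl (F := F) (n := 2) (by norm_num)
  rw [Fin.prod_univ_two] at h1
  simp only [Fin.val_zero, pow_zero, Fin.val_one, pow_one] at h1
  have h2 : Fintype.card F ^ 2 - Fintype.card F = Fintype.card F * (Fintype.card F - 1) := by
    rw [Nat.mul_sub, mul_one, pow_two]
  have h3 : Nat.card (Matrix.SpecialLinearGroup (Fin 2) F) = Fintype.card F * (Fintype.card F ^ 2 - 1) := by
    apply Nat.eq_of_mul_eq_mul_left (show 0 < Fintype.card F - 1 by omega)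
    rw [h1, h2]
    ring
  rw [h3, padicValNat.mul (by omega) (ValQ.pow_sub_ne hq1 (by norm_num)),
    padicValNat.eq_zero_of_not_dvd, zero_add]
  intro h
  have := Nat.odd_iff.1 hF
  omega

end H79.WrKer
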